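/-
Linear groups over a prime field that are regular on the non-zero vectors: order, maximal normal abelian subgroups.
-/
import Cfsg.Agent.Perm.FCSquare

set_option autoImplicit false

namespace CL.Perm

variable {p : ℕ} [Fact p.Prime] {V : Type*} [AddCommGroup V] [Module (ZMod p) V]

/-- The group is regular on the non-zero vectors. -/
def IsReg (H : Subgroup (V ≃ₗ[ZMod p] V)) : Prop :=
  ∀ v w : V, v ≠ 0 → w ≠ 0 → ∃! h : H, (h : V ≃ₗ[ZMod p] V) v = w

/-- The action of a linear group by additive endomorphisms. -/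
def linRep (H : Subgroup (V ≃ₗ[ZMod p] V)) : H →* AddMonoid.End V where
  toFun h := (h : V ≃ₗ[ZMod p] V).toLinearMap.toAddMonoidHom
  map_one' := rfl
  map_mul' _ _ := rfl

theorem linRep_apply (H : Subgroup (V ≃ₗ[ZMod p] V)) (h : H) (v : V) :
    linRep H h v = (h : V ≃ₗ[ZMod p] V) v := rfl

variable {H : Subgroup (V ≃ₗ[ZMod p] V)}

theorem IsReg.fpf (hreg : IsReg H) (g : H) (hg : g ≠ 1) (v : V) (hv : linRep H g v = v) : v = 0 := by
  by_contra h0
  exact hg ((hreg v v h0 h0).unique hv rfl)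

theorem finite_linearEquiv [Finite V] : Finite (V ≃ₗ[ZMod p] V) :=
  Finite.of_injective (fun f : V ≃ₗ[ZMod p] V => (f : V → V)) DFunLike.coe_injective

theorem IsReg.isFpf [Finite V] [Nontrivial V] (hreg : IsReg H) : IsFpf H := by
  have := finite_linearEquiv (p := p) (V := V)
  exact isFpf_of_rep_finite (linRep H) hreg.fpf

theorem IsReg.card [Finite V] [Nontrivial V] (hreg : IsReg H) : Nat.card H + 1 = Nat.card V := by
  obtain ⟨v, hv⟩ := exists_ne (0 : V)
  have h1 : Nat.card H = Nat.card {w : V // w ≠ 0} := by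
    refine Nat.card_eq_of_bijective
      (fun h => ⟨(h : V ≃ₗ[ZMod p] V) v, by simpa using hv⟩) ⟨fun a b hab => ?_, fun w => ?_⟩
    · exact (hreg v _ hv (by simpa using hv)).unique (congrArg Subtype.val hab) rfl
    · obtain ⟨h, hh, -⟩ := hreg v w hv w.2
      exact ⟨h, Subtype.ext hh⟩
  have h2 : Nat.card {w : V // w ≠ 0} = Nat.card V - 1 := by
    have := Set.ncard_diff_singleton_of_mem (Set.mem_univ (0 : V))
    rw [Set.ncard_univ, ← Nat.card_coe_set_eq] at this
    rw [← this]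
    exact Nat.card_congr (Equiv.subtypeEquivRight fun x => by simp)
  have : 0 < Nat.card V := Nat.card_pos
  omega

theorem nontrivial_of_submodule_ne_bot {W : Submodule (ZMod p) V} (hW : W ≠ ⊥) : Nontrivial V := by
  obtain ⟨v, -, hv⟩ := Submodule.exists_mem_ne_zero_of_ne_bot hW
  exact ⟨⟨v, 0, hv⟩⟩

theorem IsReg.card_dvd [Finite V] (hreg : IsReg H) (A : Subgroup H) (W : Submodule (ZMod p) V)
    (hW : ∀ a ∈ A, ∀ v ∈ W, ((a : H) : V ≃ₗ[ZMod p] V) v ∈ W) : Nat.card A ∣ Nat.card W - 1 :=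
  card_dvd_of_fpf_on (linRep H) hreg.fpf A W.toAddSubgroup hW

theorem card_submodule [Finite V] (W : Submodule (ZMod p) V) : Nat.card W = p ^ Module.finrank (ZMod p) W := by
  rw [Module.natCard_eq_pow_finrank (K := ZMod p), Nat.card_zmod]

theorem exists_min_invariant_le [Finite V] (A : Subgroup H) (U : Submodule (ZMod p) V) (hU0 : U ≠ ⊥)
    (hU : ∀ a ∈ A, ∀ v ∈ U, ((a : H) : V ≃ₗ[ZMod p] V) v ∈ U) :
    ∃ W : Submodule (ZMod p) V, W ≤ U ∧ W ≠ ⊥ ∧ (∀ a ∈ A, ∀ v ∈ W, ((a : H) : V ≃ₗ[ZMod p] V) v ∈ W) ∧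
      ∀ W' : Submodule (ZMod p) V, W' ≤ W →
        (∀ a ∈ A, ∀ v ∈ W', ((a : H) : V ≃ₗ[ZMod p] V) v ∈ W') → W' = ⊥ ∨ W' = W := by
  obtain ⟨W, ⟨h0, h1, h2⟩, hmin⟩ := WellFounded.has_min (wellFounded_lt (α := Submodule (ZMod p) V))
    {W : Submodule (ZMod p) V | W ≤ U ∧ W ≠ ⊥ ∧ ∀ a ∈ A, ∀ v ∈ W, ((a : H) : V ≃ₗ[ZMod p] V) v ∈ W}
    ⟨U, le_rfl, hU0, hU⟩
  refine ⟨W, h0, h1, h2, fun W' hle hW' => ?_⟩
  by_cases h3 : W' = ⊥
  · exact Or.inl h3
  · exact Or.inr (hle.eq_or_lt.resolve_right (hmin W' ⟨hle.trans h0, h3, hW'⟩))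

/-- A self-centralising cyclic normal subgroup of a regular linear group is irreducible. -/
theorem IsReg.not_centralizer_le [Finite V] (hreg : IsReg H) (A : Subgroup H) [A.Normal] [IsCyclic A]
    (W : Submodule (ZMod p) V) (h0 : W ≠ ⊥) (h1 : W ≠ ⊤)
    (hW : ∀ a ∈ A, ∀ v ∈ W, ((a : H) : V ≃ₗ[ZMod p] V) v ∈ W) :
    ¬ Subgroup.centralizer (A : Set H) ≤ A := by
  intro hC
  have hnt := nontrivial_of_submodule_ne_bot h0
  have hfin := finite_linearEquiv (p := p) (V := V)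
  have hp : p.Prime := Fact.out
  have hcard := hreg.card
  have hd1 := hreg.card_dvd A W hW
  have hd2 := hreg.card_dvd A ⊤ fun _ _ _ _ => trivial
  rw [card_submodule] at hd1 hd2
  rw [finrank_top] at hd2
  rw [Module.natCard_eq_pow_finrank (K := ZMod p) (V := V), Nat.card_zmod] at hcard
  set k := Module.finrank (ZMod p) W
  set n := Module.finrank (ZMod p) V
  have hk : 0 < k := by
    have := Submodule.nontrivial_iff_ne_bot.mpr h0
    exact Module.finrank_pos
  have hkn : k < n := Submodule.finrank_lt h1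
  obtain ⟨l, hl⟩ : ∃ l, n = k + l := ⟨n - k, by omega⟩
  have hl0 : 0 < l := by omega
  have hpk : 1 < p ^ k := Nat.one_lt_pow hk.ne' hp.one_lt
  have hpl : 1 < p ^ l := Nat.one_lt_pow hl0.ne' hp.one_lt
  have hd3 : Nat.card A ∣ p ^ l - 1 := by
    have h2 : (p ^ k - 1) * p ^ l + (p ^ l - 1) = p ^ n - 1 := by
      rw [hl, pow_add, Nat.sub_mul, one_mul]
      have : p ^ l ≤ p ^ k * p ^ l := Nat.le_mul_of_pos_left _ (by omega)
      omega
    rw [← h2] at hd2
    exact (Nat.dvd_add_right (hd1.mul_right _)).mp hd2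
  have h4 : A.index ≤ Nat.card A := by
    have h5 : (MulAut.conjNormal (H := A)).ker ≤ A := by
      intro g hg
      apply hC
      intro a ha
      have := congrArg Subtype.val (DFunLike.congr_fun (MonoidHom.mem_ker.mp hg) ⟨a, ha⟩)
      exact (mul_inv_eq_iff_eq_mul.mp this).symm
    calc A.index ≤ (MulAut.conjNormal (H := A)).ker.index :=
          Nat.le_of_dvd (Nat.pos_of_ne_zero Subgroup.FiniteIndex.index_ne_zero) (Subgroup.index_dvd_of_le h5)
      _ ≤ Nat.card (MulAut A) := by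
          rw [Subgroup.index_ker]
          exact Nat.card_le_card_of_injective _ Subtype.val_injective
      _ ≤ Nat.card A := by rw [IsCyclic.card_mulAut]; exact Nat.totient_le _
  have h6 := Nat.le_of_dvd (by omega) hd1
  have h7 := Nat.le_of_dvd (by omega) hd3
  have h8 := A.card_mul_index
  rw [hl, pow_add] at hcard
  obtain ⟨a, ha⟩ : ∃ a, p ^ k = a + 1 := ⟨p ^ k - 1, by omega⟩
  obtain ⟨b, hb⟩ : ∃ b, p ^ l = b + 1 := ⟨p ^ l - 1, by omega⟩
  rw [ha, hb] at hcard
  simp only [ha, hb, Nat.add_sub_cancel] at h6 h7 hpk hpl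
  have : Nat.card A * A.index ≤ a * b := Nat.mul_le_mul h6 (h4.trans h7)
  nlinarith

end CL.Perm
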