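/-
Linear groups regular on the non-zero vectors: minimal non-abelian normal subgroups.
-/
import Cfsg.Agent.Perm.FCReg
import Cfsg.Agent.Perm.FCZass2
import Cfsg.Agent.Inv.AutTwo

set_option autoImplicit false

namespace CL.Perm

open Subgroup
open scoped commutatorElement

variable {G : Type*} [Group G]

theorem IsQPair.not_commute {i j : G} (h : IsQPair i j) : i * j ≠ j * i := by
  intro hc
  apply h.ne
  have := h.conj
  rw [← hc, mul_inv_cancel_right] at this
  exact mul_eq_one_iff_eq_inv.mpr this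

theorem quaternion_eq_of_commutator_le_center {k : ℕ}
    (h : _root_.commutator (QuaternionGroup (2 ^ (k + 1))) ≤ center _) : k = 0 := by
  have h1 : ⁅(QuaternionGroup.a 1 : QuaternionGroup (2 ^ (k + 1))),
      (QuaternionGroup.xa 0 : QuaternionGroup (2 ^ (k + 1)))⁆ =
      QuaternionGroup.a 2 := by
    rw [commutatorElement_def, mul_inv_eq_iff_eq_mul, mul_inv_eq_iff_eq_mul]
    simp only [QuaternionGroup.a_mul_xa, QuaternionGroup.xa_mul_a]
    congr 1; ring
  have h2 := mem_center_iff.mp (h (commutator_mem_commutator (mem_top (QuaternionGroup.a 1))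
    (mem_top (QuaternionGroup.xa 0)))) (QuaternionGroup.xa 0)
  rw [h1, QuaternionGroup.a_mul_xa, QuaternionGroup.xa_mul_a, QuaternionGroup.xa.injEq] at h2
  have h3 : ((4 : ℕ) : ZMod (2 * 2 ^ (k + 1))) = 0 := by push_cast; linear_combination h2
  rw [ZMod.natCast_eq_zero_iff] at h3
  have h4 := Nat.le_of_dvd (by norm_num) h3
  by_contra hk
  have : 2 ^ 2 ≤ 2 ^ (k + 1) := Nat.pow_le_pow_right two_pos (by omega)
  omega

/-- A minimal non-abelian normal subgroup centralising a maximal abelian normal subgroup. -/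
theorem IsFpf.quaternion_or_sl25 [Finite G] (h : IsFpf G) (A : Subgroup G) [A.Normal] [IsMulCommutative A]
    (hAmax : ∀ B : Subgroup G, B.Normal → IsMulCommutative B → A ≤ B → B = A) (N : Subgroup G) [N.Normal]
    (hNle : N ≤ centralizer (A : Set G)) (hNna : ¬ IsMulCommutative N)
    (hNmin : ∀ M : Subgroup G, M.Normal → M ≤ N → ¬ IsMulCommutative M → M = N) :
    Nonempty (N ≃* QuaternionGroup 2) ∨ Nonempty (N ≃* Matrix.SpecialLinearGroup (Fin 2) (ZMod 5)) := by
  have hN := h.subgroup N
  by_cases hc : IsMulCommutative (⁅N, N⁆ : Subgroup G)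
  · left
    have h1 : ⁅N, N⁆ ≤ A := by
      rw [← hAmax (A ⊔ ⁅N, N⁆) inferInstance ?_ le_sup_left]
      · exact le_sup_right
      · rw [← le_centralizer_iff_isMulCommutative, sup_le_iff]
        have h2 : A ≤ centralizer ((⁅N, N⁆ : Subgroup G) : Set G) :=
          le_centralizer_iff.mp ((commutator_le_self N).trans hNle)
        constructor <;> rw [le_centralizer_iff, sup_le_iff]
        · exact ⟨le_centralizer A, le_centralizer_iff.mp h2⟩
        · exact ⟨h2, le_centralizer _⟩
    have h2 : _root_.commutator N ≤ center N := by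
      intro x hx
      have h3 : (x : G) ∈ A := h1 (map_subtype_commutator N ▸ ⟨x, hx, rfl⟩)
      exact mem_center_iff.mpr fun g => Subtype.ext (hNle g.2 x h3).symm
    have hnil : Group.IsNilpotent N :=
      Subgroup.isNilpotent_of_ker_le_center Abelianization.of (by rwa [Abelianization.ker_of])
    obtain ⟨T⟩ : Nonempty (Sylow 2 N) := inferInstance
    have hT : ¬ IsCyclic T := by
      intro hT
      have : IsZGroup N := hN.isZGroup fun P hP => by
        obtain ⟨T', hT'⟩ := hP.exists_le_sylow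
        have : IsCyclic T' := isCyclic_of_surjective _ (T.equiv T').surjective
        exact isCyclic_of_injective _ (inclusion_injective hT')
      exact hNna inferInstance
    have hTn : (T : Subgroup N).Normal := inferInstance
    have hTc := T.characteristic_of_normal hTn
    obtain ⟨i, hi, j, hj, hij⟩ := hN.exists_isQPair T.isPGroup' hT
    have h3 := hNmin ((T : Subgroup N).map N.subtype) inferInstance (map_subtype_le _) fun hc' =>
      hij.not_commute (Subtype.ext (setLike_mul_comm (s := (T : Subgroup N).map N.subtype) ⟨i, hi, rfl⟩ ⟨j, hj, rfl⟩))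
    have h4 : IsPGroup 2 N := h3 ▸ T.isPGroup'.map _
    rcases hN.isCyclic_or_quaternion h4 with h5 | ⟨-, k, ⟨e⟩⟩
    · exact (hNna inferInstance).elim
    · have hk : k = 0 := by
        refine quaternion_eq_of_commutator_le_center fun x hx => ?_
        have h5 : e.symm x ∈ center N := h2 (by
          exact map_derivedSeries_le_derivedSeries e.symm.toMonoidHom 1 ⟨x, hx, rfl⟩)
        exact mem_center_iff.mpr fun g => e.symm.injective (by
          rw [map_mul, map_mul]; exact mem_center_iff.mp h5 _)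
      subst hk
      exact ⟨e⟩
  · right
    have h1 := hNmin _ inferInstance (commutator_le_self N) hc
    have : Nontrivial N := by
      by_contra h2
      rw [not_nontrivial_iff_subsingleton] at h2
      exact hNna ⟨⟨fun _ _ => Subsingleton.elim _ _⟩⟩
    refine hN.nonempty_equiv_sl25 (map_injective N.subtype_injective ?_)
    rw [map_subtype_commutator, h1, ← MonoidHom.range_eq_map, range_subtype]

theorem isQPair_sl25 : IsQPair (mk4 (2, 0, 0, 3) (by decide) : Matrix.SpecialLinearGroup (Fin 2) (ZMod 5))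
    (mk4 (0, 4, 1, 0) (by decide)) where
  ne := by rw [Ne, eq_one_iff_ent4, ent4_mul]; decide
  sq := ent4_injective (by rw [ent4_mul, ent4_mul]; decide)
  conj := ent4_injective (by rw [ent4_mul, ent4_mul, ent4_inv, ent4_inv]; decide)

theorem exists_isQPair_of_equiv {N : Subgroup G} {X : Type*} [Group X] (e : N ≃* X) {a b : X}
    (h : IsQPair a b) : ∃ i ∈ N, ∃ j ∈ N, IsQPair i j :=
  ⟨_, Subtype.prop _, _, Subtype.prop _, h.map (N.subtype.comp e.symm.toMonoidHom)
    (N.subtype_injective.comp e.symm.injective)⟩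

theorem index_centralizer_dvd_card_mulAut (N : Subgroup G) [N.Normal] :
    (centralizer (N : Set G)).index ∣ Nat.card (MulAut N) := by
  have := CL.Inv.relIndex_centralizer_dvd_card_mulAut N
  rwa [normalizer_eq_top, relIndex_top_right] at this

section Reg

variable {p : ℕ} [Fact p.Prime] {V : Type*} [AddCommGroup V] [Module (ZMod p) V] [Finite V]
  {H : Subgroup (V ≃ₗ[ZMod p] V)}

/-- The counting argument for a subgroup that contains a quaternion group. -/
theorem IsReg.exists_sqrt [Nontrivial V] (hreg : IsReg H) {N : Subgroup H} {i j : H} (hi : i ∈ N) (hj : j ∈ N)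
    (hij : IsQPair i j) : ∃ s t : ℕ, Nat.card V = s * s ∧ Odd s ∧ 1 < s ∧
      s = Nat.card (centralizer (N : Set H)) * t + 1 ∧ t * (s + 1) = (centralizer (N : Set H)).index ∧
      (s.Prime → IsMulCommutative (centralizer (N : Set H))) := by
  have hfin := finite_linearEquiv (p := p) (V := V)
  obtain ⟨hodd, W, hW, hinv⟩ := hij.exists_half (linRep H) hreg.fpf
  have hinv' : ∀ c ∈ centralizer (N : Set H), ∀ w ∈ W, linRep H c w ∈ W :=
    fun c hc => hinv c (hc i hi).symm (hc j hj).symm
  obtain ⟨t, ht⟩ := card_dvd_of_fpf_on (linRep H) hreg.fpf _ W hinv'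
  have h1 : 1 < Nat.card V := Finite.one_lt_card
  have h2 : 1 < Nat.card W := by
    by_contra h
    have : Nat.card W * Nat.card W ≤ 1 * 1 := Nat.mul_le_mul (by omega) (by omega)
    omega
  have h3 : Nat.card W = Nat.card (centralizer (N : Set H)) * t + 1 := by omega
  refine ⟨Nat.card W, t, hW, (Nat.odd_mul.mp (hW ▸ hodd)).1, h2, h3, ?_, fun hp => ?_⟩
  · have h4 := hreg.card
    rw [hW, ← (centralizer (N : Set H)).card_mul_index] at h4
    refine Nat.eq_of_mul_eq_mul_left (Nat.card_pos (α := centralizer (N : Set H))) ?_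
    rw [h3] at h4 ⊢
    nlinarith
  · have := Fact.mk hp
    have hc := isAddCyclic_of_prime_card (α := W) rfl
    have hnt : Nontrivial W := Finite.one_lt_card_iff_nontrivial.mp h2
    obtain ⟨w, hw⟩ := IsAddCyclic.exists_generator (α := W)
    have hw0 : (w : V) ≠ 0 := by
      intro h0
      obtain ⟨v, hv⟩ := exists_ne (0 : W)
      obtain ⟨k, rfl⟩ := hw v
      exact hv (Subtype.ext (by simp [h0]))
    refine ⟨⟨fun b c => Subtype.ext ?_⟩⟩
    obtain ⟨m, hm⟩ := hw ⟨_, hinv' b b.2 w w.2⟩
    obtain ⟨n, hn⟩ := hw ⟨_, hinv' c c.2 w w.2⟩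
    have hm' : linRep H b w = m • (w : V) := (congrArg Subtype.val hm).symm
    have hn' : linRep H c w = n • (w : V) := (congrArg Subtype.val hn).symm
    have h4 : linRep H ((b : H) * c) w = linRep H ((c : H) * b) w := by
      rw [rep_mul_apply, rep_mul_apply, hm', hn', map_zsmul, map_zsmul, hm', hn', smul_comm]
    by_contra h5
    refine hw0 (hreg.fpf (((c : H) * b)⁻¹ * (b * c)) (fun h => h5 (inv_mul_eq_one.mp h).symm) w ?_)
    rw [rep_mul_apply, h4, ← rep_mul_apply, inv_mul_cancel, rep_one_apply]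

theorem card_submodule_eq_of_prime {s : ℕ} (hs : s.Prime) (hV : Nat.card V = s * s) (W : Submodule (ZMod p) V)
    (h0 : W ≠ ⊥) (h1 : W ≠ ⊤) : Nat.card W = s := by
  have h2 : Nat.card W ∣ s ^ 2 := by rw [pow_two, ← hV]; exact W.toAddSubgroup.card_addSubgroup_dvd_card
  obtain ⟨k, hk, hk'⟩ := (Nat.dvd_prime_pow hs).mp h2
  interval_cases k
  · exact absurd (Submodule.toAddSubgroup_injective (AddSubgroup.card_eq_one.mp hk')) h0
  · rw [hk', pow_one]
  · exact absurd (Submodule.toAddSubgroup_injective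
      (AddSubgroup.eq_top_of_card_eq W.toAddSubgroup (hk'.trans (by rw [hV, pow_two])))) h1

/-- The case of a normal quaternion subgroup. -/
theorem IsReg.card_of_quaternion (hreg : IsReg H)
    (hI : ∀ A : Subgroup H, A.Normal → IsCyclic A → ∃ W : Submodule (ZMod p) V, W ≠ ⊥ ∧ W ≠ ⊤ ∧
      ∀ a ∈ A, ∀ v ∈ W, ((a : H) : V ≃ₗ[ZMod p] V) v ∈ W) (N : Subgroup H) [N.Normal]
    (e : N ≃* QuaternionGroup 2) :
    Nat.card V = 5 * 5 ∨ Nat.card V = 7 * 7 ∨ Nat.card V = 11 * 11 ∨ Nat.card V = 23 * 23 := by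
  obtain ⟨U₀, hU₀, -, -⟩ := hI ⊥ inferInstance inferInstance
  have hnt := nontrivial_of_submodule_ne_bot hU₀
  have hfin := finite_linearEquiv (p := p) (V := V)
  obtain ⟨i, hi, j, hj, hij⟩ := exists_isQPair_of_equiv e (isQPair_quaternion 0)
  obtain ⟨s, t, h1, h2, h3, -, h5, -⟩ := hreg.exists_sqrt hi hj hij
  have h6 := index_centralizer_dvd_card_mulAut N
  rw [CL.Inv.card_mulAut_of_quaternion e, ← h5] at h6
  have h7 : s + 1 ∣ 24 := (Dvd.intro_left t rfl).trans h6
  have h8 := Nat.le_of_dvd (by norm_num) h7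
  have h9 : s ≠ 3 := by
    rintro rfl
    have hH := hreg.card
    have ho : orderOf i = 2 ^ 2 := orderOf_eq_prime_pow (by simpa [pow_two] using hij.ne)
      (by rw [← hij.four]; simp [pow_succ, mul_assoc])
    have hc : Nat.card (zpowers i) = 4 := by rw [Nat.card_zpowers, ho]; rfl
    have hx := (zpowers i).card_mul_index
    rw [hc] at hx
    rw [h1] at hH
    obtain ⟨W, hW0, hW1, hW⟩ := hI (zpowers i) (normal_of_index_eq_two (by omega)) inferInstance
    have := hreg.card_dvd _ W hW
    rw [card_submodule_eq_of_prime Nat.prime_three h1 W hW0 hW1, hc] at this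
    omega
  obtain ⟨r, rfl⟩ := h2
  have h10 : r ≤ 11 := by omega
  rw [h1]
  interval_cases r <;> simp_all

/-- The non-solvable case. -/
theorem IsReg.card_of_not_isSolvable (hreg : IsReg H) (hns : ¬ Group.IsSolvable H) :
    ∃ m : ℕ, (Nat.card V = 11 * 11 ∧ m = 1 ∨ Nat.card V = 29 * 29 ∧ m = 7 ∨ Nat.card V = 59 * 59 ∧ m = 29) ∧
      ∃ M : Subgroup H, Nat.card M = m ∧ Nonempty (H ≃* Matrix.SpecialLinearGroup (Fin 2) (ZMod 5) × M) := by
  have hnt : Nontrivial V := by
    by_contra h
    rw [not_nontrivial_iff_subsingleton] at h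
    have : Subsingleton H := ⟨fun a b => Subtype.ext (LinearEquiv.ext fun _ => Subsingleton.elim _ _)⟩
    exact hns inferInstance
  have hfin := finite_linearEquiv (p := p) (V := V)
  obtain ⟨L, M, f, hL, hM, ⟨e⟩, h1, h2, h3, h4, h5, h6, -, h7⟩ := hreg.isFpf.nonsolvable_structure hns
  obtain ⟨i, hi, j, hj, hij⟩ := exists_isQPair_of_equiv e isQPair_sl25
  obtain ⟨s, t, s1, s2, s3, s4, s5, -⟩ := hreg.exists_sqrt hi hj hij
  rw [h7] at s4
  rw [← h1, index_ker] at s5
  have hA : Nat.card (alternatingGroup (Fin 5)) = 60 := by rw [nat_card_alternatingGroup]; simp; rfl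
  have d1 : 60 ∣ Nat.card f.range := by rw [← hA, ← h2]; exact card_dvd_of_le (map_le_range f L)
  have d2 : Nat.card f.range ∣ 120 := by
    have := f.range.card_subgroup_dvd_card
    rwa [Nat.card_perm, Nat.card_fin] at this
  have hV := Module.natCard_eq_pow_finrank (K := ZMod p) (V := V)
  rw [Nat.card_zmod, s1] at hV
  have h119 : s ≠ 119 := by
    rintro rfl
    have hp : p.Prime := Fact.out
    have a1 := (Nat.prime_dvd_prime_iff_eq (by norm_num) hp).mp
      ((show Nat.Prime 7 by norm_num).dvd_of_dvd_pow (hV ▸ (by norm_num : 7 ∣ 119 * 119)))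
    have a2 := (Nat.prime_dvd_prime_iff_eq (by norm_num) hp).mp
      ((show Nat.Prime 17 by norm_num).dvd_of_dvd_pow (hV ▸ (by norm_num : 17 ∣ 119 * 119)))
    omega
  have h3m : ¬ 3 ∣ Nat.card M := fun h => by
    have := Nat.dvd_gcd h (by norm_num : 3 ∣ 30)
    rw [h6] at this; omega
  have key : Nat.card f.range = 60 ∧ (s = 11 ∧ Nat.card M = 1 ∨ s = 29 ∧ Nat.card M = 7 ∨
      s = 59 ∧ Nat.card M = 29) := by
    obtain ⟨u, hu⟩ := d1
    have hu' : u = 1 ∨ u = 2 := by
      rw [hu] at d2
      have : u ∣ 2 := Nat.dvd_of_mul_dvd_mul_left (by norm_num : 0 < 60) d2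
      exact (Nat.dvd_prime Nat.prime_two).mp this
    rw [hu] at s5 ⊢
    have h8 : s + 1 ∣ 120 := (Dvd.intro_left t s5).trans (hu ▸ d2)
    have h9 := Nat.le_of_dvd (by norm_num) h8
    obtain ⟨r, rfl⟩ := s2
    have h10 : r ≤ 59 := by omega
    generalize Nat.card M = m at *
    have h11 : r = m * t := by nlinarith
    clear s4 hV s1
    interval_cases r <;> first | omega | skip
    all_goals
      rcases hu' with rfl | rfl <;> first | omega | skip
    all_goals
      have ht : t ≤ 60 := by omega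
      interval_cases t <;> omega
  refine ⟨Nat.card M, by rw [s1]; rcases key.2 with ⟨rfl, h⟩ | ⟨rfl, h⟩ | ⟨rfl, h⟩ <;> simp [h], M, rfl, ?_⟩
  have h8 : L ⊔ M = ⊤ := by
    rw [← comap_alt_eq_sup h1 h2 h3 h5, eq_top_iff, ← map_le_iff_le_comap, ← MonoidHom.range_eq_map]
    exact (eq_of_le_of_card_ge (h2 ▸ map_le_range f L) (by rw [key.1, hA])).ge
  have hc : ∀ (l : L) (m : M), Commute (L.subtype l) (M.subtype m) := fun l m => h3 m.2 l l.2
  have hb : Function.Bijective (L.subtype.noncommCoprod M.subtype hc) := by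
    constructor
    · rw [MonoidHom.noncommCoprod_injective]
      exact ⟨L.subtype_injective, M.subtype_injective, by simpa [disjoint_iff] using h4⟩
    · rw [← MonoidHom.range_eq_top, MonoidHom.noncommCoprod_range, range_subtype, range_subtype, h8]
  exact ⟨(MulEquiv.ofBijective _ hb).symm.trans (e.prodCongr (MulEquiv.refl M))⟩

end Reg

end CL.Perm
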