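/-
Doubly transitive groups with a regular cyclic subgroup and Z-groups as point stabilisers: generalities, and the case
of an involution with two fixed points.
-/
import Cfsg.Agent.Grp.FrobCompl
import Cfsg.Agent.Grp.SylowIn

set_option autoImplicit false
set_option linter.unusedSectionVars false

namespace CL.ABZ

open Subgroup MulAction
open scoped commutatorElement

variable {X Ω : Type*} [Group X] [MulAction X Ω] {A : Subgroup X}

/-- The hypotheses. -/
structure Hyp (X Ω : Type*) [Group X] [MulAction X Ω] (A : Subgroup X) : Prop where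
  two : ∀ a b c d : Ω, a ≠ b → c ≠ d → ∃ g : X, g • a = c ∧ g • b = d
  even : Even (Nat.card Ω)
  big : 2 < Nat.card Ω
  cyc : IsCyclic A
  tr : ∀ a b : Ω, ∃ g ∈ A, g • a = b
  zg : ∀ a : Ω, IsZGroup (stabilizer X a)

/-- The conclusion: the group induced on `Ω` is sharply triply transitive of degree a prime plus one, and an element
interchanging two points is an involution. -/
structure Concl (X Ω : Type*) [Group X] [MulAction X Ω] : Prop where
  prime : (Nat.card Ω - 1).Prime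
  two : ∀ a b c d : Ω, a ≠ b → c ≠ d → ∃ g : X, g • a = c ∧ g • b = d
  tr3 : ∀ a b c d : Ω, a ≠ b → c ≠ a → c ≠ b → d ≠ a → d ≠ b → ∃ g : X, g • a = a ∧ g • b = b ∧ g • c = d
  fix3 : ∀ (g : X) (a b c : Ω), a ≠ b → c ≠ a → c ≠ b → g • a = a → g • b = b → g • c = c → ∀ x : Ω, g • x = x
  swap : ∀ (g : X) (a b : Ω), a ≠ b → g • a = b → g • b = a → ∀ x : Ω, g • g • x = x

theorem Concl.three (c : Concl X Ω) {a b d a' b' d' : Ω} (h1 : a ≠ b) (h2 : d ≠ a) (h3 : d ≠ b) (h1' : a' ≠ b')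
    (h2' : d' ≠ a') (h3' : d' ≠ b') : ∃ g : X, g • a = a' ∧ g • b = b' ∧ g • d = d' := by
  obtain ⟨g, rfl, rfl⟩ := c.two a b a' b' h1 h1'
  obtain ⟨k, e1, e2, e3⟩ := c.tr3 _ _ (g • d) d' h1' (by simpa) (by simpa) h2' h3'
  exact ⟨k * g, by simp [mul_smul, e1, e2, e3]⟩

theorem concl_of {a b : Ω} (hab : a ≠ b) (h0 : (Nat.card Ω - 1).Prime)
    (h1 : ∀ a b c d : Ω, a ≠ b → c ≠ d → ∃ g : X, g • a = c ∧ g • b = d)
    (h2 : ∀ c d : Ω, c ≠ a → c ≠ b → d ≠ a → d ≠ b → ∃ g : X, g • a = a ∧ g • b = b ∧ g • c = d)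
    (h3 : ∀ (g : X) (c : Ω), c ≠ a → c ≠ b → g • a = a → g • b = b → g • c = c → ∀ x : Ω, g • x = x)
    (h4 : ∀ g : X, g • a = b → g • b = a → ∀ x : Ω, g • g • x = x) : Concl X Ω := by
  refine ⟨h0, h1, fun a' b' c d e e1 e2 e3 e4 => ?_, fun g a' b' c e e1 e2 e3 e4 e5 x => ?_, fun g a' b' e e1 e2 x => ?_⟩ <;>
    obtain ⟨k, rfl, rfl⟩ := h1 a b a' b' hab e
  · obtain ⟨g, a1, a2, a3⟩ := h2 (k⁻¹ • c) (k⁻¹ • d) (by rwa [Ne, inv_smul_eq_iff]) (by rwa [Ne, inv_smul_eq_iff])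
      (by rwa [Ne, inv_smul_eq_iff]) (by rwa [Ne, inv_smul_eq_iff])
    exact ⟨k * g * k⁻¹, by simp [mul_smul, a1, a2, a3]⟩
  · simpa [mul_smul] using h3 (k⁻¹ * g * k) (k⁻¹ • c) (by rwa [Ne, inv_smul_eq_iff]) (by rwa [Ne, inv_smul_eq_iff])
      (by simp [mul_smul, e3]) (by simp [mul_smul, e4]) (by simp [mul_smul, e5]) (k⁻¹ • x)
  · simpa [mul_smul] using h4 (k⁻¹ * g * k) (by simp [mul_smul, e1]) (by simp [mul_smul, e2]) (k⁻¹ • x)

theorem card_dvd_of_tr (x : Ω) (h : ∀ a b : Ω, ∃ g ∈ A, g • a = b) : Nat.card Ω ∣ Nat.card A := by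
  have : IsPretransitive A Ω := ⟨fun a b => let ⟨g, h1, h2⟩ := h a b; ⟨⟨g, h1⟩, h2⟩⟩
  exact index_stabilizer_of_transitive A x ▸ index_dvd_card _

theorem card_modEq [Finite Ω] {p k : ℕ} [Fact p.Prime] {g : X} (h : ∀ x : Ω, g ^ p ^ k • x = x) :
    Nat.card Ω ≡ Nat.card {x : Ω // g • x = x} [MOD p] := by
  classical
  have := Fintype.ofFinite Ω
  have := Equiv.Perm.card_fixedPoints_modEq (f := (toEndHom g : Function.End Ω)) (p := p) (n := k)
    (by rw [← map_pow]; exact funext h)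
  rwa [← Nat.card_eq_fintype_card, ← Nat.card_eq_fintype_card] at this

theorem cyc_inv {G : Type*} [Group G] [Finite G] [IsCyclic G] {x y : G} (hx : x * x = 1) (hy : y * y = 1) (x1 : x ≠ 1)
    (y1 : y ≠ 1) : x = y := by
  classical
  have h := orderOf_eq_prime (p := 2) (by rwa [sq]) x1
  obtain ⟨k, hk, rfl⟩ := Finset.mem_image.1 (mem_zpowers_iff_mem_range_orderOf.1
    (CL.Grp.mem_zpowers_of_isCyclic_of_pow_orderOf (z := x) (x := y) (by rwa [h, sq])))
  rw [h, Finset.mem_range] at hk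
  interval_cases k <;> simp_all

theorem exists_odd_normal {G : Type*} [Group G] [Finite G] (H : Subgroup G) [IsZGroup H] (h : Odd H.index) :
    ∃ (N : Subgroup G) (_ : N.Normal), Odd (Nat.card N) ∧ IsPGroup 2 (G ⧸ N) := by
  have := Fact.mk Nat.prime_two
  by_cases h2 : 2 ∣ Nat.card G
  swap
  · exact ⟨⊤, inferInstance, by rw [card_top]; exact Nat.odd_iff.2 (by omega),
      IsPGroup.of_card (n := 0) (by rw [← index_eq_card, index_top]; rfl)⟩
  obtain ⟨P⟩ : Nonempty (Sylow 2 H) := inferInstance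
  let T := (P.isPGroup'.map H.subtype).toSylow (by
    rw [index_map_subtype, Nat.prime_two.dvd_mul, not_or]
    exact ⟨P.not_dvd_index, h.not_two_dvd_nat⟩)
  have hT : IsCyclic T := isCyclic_of_surjective _ ((P : Subgroup H).equivMapOfInjective _ H.subtype_injective).surjective
  have hc := IsCyclic.isComplement' (P := T) ((Nat.minFac_eq_two_iff _).2 h2) hT
  obtain ⟨n, hn⟩ := IsPGroup.iff_card.1 T.isPGroup'
  exact ⟨_, inferInstance, Nat.odd_iff.2 (by have := hc.index_eq_card ▸ T.not_dvd_index; omega),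
    IsPGroup.of_card (n := n) (hc.symm.index_eq_card.trans hn)⟩

/-- The derived group of a point stabiliser. -/
abbrev UU (X : Type*) [Group X] [MulAction X Ω] (x : Ω) : Subgroup X := ⁅stabilizer X x, stabilizer X x⁆

theorem UU_fix {x : Ω} {g : X} (h : g ∈ UU X x) : g • x = x :=
  (commutator_le.2 fun _ a _ b => mul_mem (mul_mem (mul_mem a b) (inv_mem a)) (inv_mem b) : UU X x ≤ stabilizer X x) h

theorem UU_conj {x y : Ω} {g k : X} (e : g • x = y) (h : k ∈ UU X x) : g * k * g⁻¹ ∈ UU X y := by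
  rw [← e, UU, stabilizer_smul_eq_stabilizer_map_conj, ← map_commutator]
  exact mem_map_of_mem _ h

theorem mem_UU {x : Ω} {g : stabilizer X x} : (g : X) ∈ UU X x ↔ Abelianization.of g = 1 := by
  rw [UU, ← map_subtype_commutator, ← MonoidHom.mem_ker, Abelianization.ker_of]
  exact mem_map_iff_mem (subtype_injective _)

theorem zmod_key {N : ℕ} {f h : ZMod N → ZMod N} (h1 : h 1 = 1) (hh : ∀ b ≠ 0, h b * f b = -b)
    (hs : ∀ b z, b ≠ 0 → z ≠ 0 → z + b ≠ 0 → h b * f (z + b) + b = h z * f (z + b) + z) (h2 : f 2 + 1 = -f 2) (k : ℕ) :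
    0 < k → k < N → (k : ZMod N) * f k = -1 := by
  have ne : ∀ k : ℕ, 0 < k → k < N → (k : ZMod N) ≠ 0 := fun k a b e =>
    (Nat.le_of_dvd a ((ZMod.natCast_eq_zero_iff _ _).1 e)).not_gt b
  induction k using Nat.strong_induction_on with
  | _ k ih =>
  intro a b
  match k with
  | 1 => simpa [h1] using hh 1 (by simpa using ne 1 a b)
  | 2 => push_cast; linear_combination h2
  | k + 3 =>
    have e1 := ih (k + 1) (by omega) (by omega) (by omega)
    have e2 := ih (k + 2) (by omega) (by omega) (by omega)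
    have e3 := hh _ (ne (k + 2) (by omega) (by omega))
    have e4 := hs 1 _ (by simpa using ne 1 one_pos (by omega)) (ne (k + 2) (by omega) (by omega))
      (by simpa [add_assoc, two_add_one_eq_three] using ne (k + 3) a b)
    rw [h1, show ((k + 2 : ℕ) : ZMod N) + 1 = (k + 3 : ℕ) by push_cast; ring] at e4
    generalize f ((k + 3 : ℕ) : ZMod N) = y, f ((k + 2 : ℕ) : ZMod N) = y', f ((k + 1 : ℕ) : ZMod N) = y'',
      h ((k + 2 : ℕ) : ZMod N) = w at *
    push_cast at *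
    linear_combination ((k + 3) * y + 1) * e1 + y'' * e4 + y'' * y * w * e2 - y'' * y * (k + 2) * e3

namespace Hyp

variable [Finite X] [Finite Ω] [FaithfulSMul X Ω] (h : Hyp X Ω A)
include h

theorem fpf {g : X} (hg : g ∈ A) {x : Ω} (e : g • x = x) : g = 1 :=
  eq_of_smul_eq_smul fun y : Ω => by
    obtain ⟨k, hk, rfl⟩ := h.tr x y
    have := h.cyc
    rw [one_smul, ← mul_smul, show g * k = k * g from congrArg Subtype.val (mul_comm' (⟨g, hg⟩ : A) ⟨k, hk⟩), mul_smul, e]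

theorem U_cyc (x : Ω) : IsCyclic (UU X x) := by
  have := h.zg x
  have := IsZGroup.isCyclic_commutator (stabilizer X x)
  rw [UU, ← map_subtype_commutator]
  exact isCyclic_of_surjective _ ((commutator _).equivMapOfInjective _ (subtype_injective _)).surjective

theorem U_semi {x y : Ω} {g : X} (hg : g ∈ UU X x) (hy : y ≠ x) (e : g • y = y) : g = 1 :=
  eq_of_smul_eq_smul fun z : Ω => by
    by_cases hz : z = x
    · rw [hz, UU_fix hg, one_smul]
    obtain ⟨k, e1, rfl⟩ := h.two x y x z hy.symm (Ne.symm hz)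
    have := h.U_cyc x
    obtain ⟨i, hi⟩ := CL.Grp.mem_zpowers_of_isCyclic_of_pow_orderOf (z := (⟨g, hg⟩ : UU X x))
      (x := ⟨k⁻¹ * g * k⁻¹⁻¹, UU_conj (inv_smul_eq_iff.2 e1.symm) hg⟩) (Subtype.ext (by
        show (k⁻¹ * g * k⁻¹⁻¹) ^ _ = 1
        rw [conj_pow, ← orderOf_coe, pow_orderOf_eq_one]; simp))
    have h1 : g ^ i = k⁻¹ * g * k := by simpa using congrArg Subtype.val hi
    have h2 : (k⁻¹ * g * k) • y = y := h1 ▸ zpow_mem (show g ∈ stabilizer X y from e) i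
    rw [mul_smul, mul_smul, inv_smul_eq_iff] at h2
    rw [one_smul]; exact h2

theorem exists_fix {g : X} (hg : g * g = 1) {x : Ω} (e : g • x = x) : ∃ y, y ≠ x ∧ g • y = y := by
  by_contra! H
  have := card_modEq (Ω := Ω) (p := 2) (k := 1) (g := g) fun x => by simp [sq, hg]
  rw [(Nat.card_eq_one_iff_exists (α := {x // g • x = x})).2 ⟨⟨x, e⟩, fun y => Subtype.ext (by_contra fun e => H y e y.2)⟩] at this
  exact absurd this (by have := h.even; rw [Nat.even_iff] at this; simp [Nat.ModEq, this])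

theorem U_odd {x : Ω} {g : X} (hg : g ∈ UU X x) (e : g * g = 1) : g = 1 :=
  let ⟨_, h1, h2⟩ := h.exists_fix e (UU_fix hg)
  h.U_semi hg h1 h2

theorem inv_unique {x : Ω} {u v : X} (hu : u • x = x) (hv : v • x = x) (uu : u * u = 1) (vv : v * v = 1) (u1 : u ≠ 1)
    (v1 : v ≠ 1) (e : u * v = v * u) : u = v := by
  have := h.zg x
  have key : ∀ g : stabilizer X x, (g : X) * g = 1 → (g : X) ≠ 1 → Abelianization.of g * Abelianization.of g = 1 ∧
      Abelianization.of g ≠ 1 := fun g h1 h2 =>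
    ⟨by rw [← map_mul, show g * g = 1 from Subtype.ext h1, map_one], fun e => h2 (h.U_odd (mem_UU.2 e) h1)⟩
  have a := key ⟨u, hu⟩ uu u1
  have b := key ⟨v, hv⟩ vv v1
  have := h.U_odd (x := x) (g := u * v) ((mem_UU (g := ⟨u, hu⟩ * ⟨v, hv⟩)).2 (by
    rw [map_mul, cyc_inv a.1 b.1 a.2 b.2, b.1])) (by rw [mul_assoc, ← mul_assoc v, ← e, mul_assoc, vv, mul_one, uu])
  rw [eq_inv_of_mul_eq_one_left this, inv_eq_of_mul_eq_one_right vv]

theorem D_cyc {x y : Ω} (hy : y ≠ x) : IsCyclic (stabilizer X x ⊓ stabilizer X y : Subgroup X) := by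
  have := h.zg x
  refine isCyclic_of_injective (Abelianization.of.comp (inclusion inf_le_left)) ((injective_iff_map_eq_one _).2 ?_)
  exact fun g e => Subtype.ext (h.U_semi (mem_UU.2 e) hy g.2.2)

theorem D_comm {x y : Ω} (hy : y ≠ x) {g k : X} (g1 : g • x = x) (g2 : g • y = y) (k1 : k • x = x) (k2 : k • y = y) :
    g * k = k * g := by
  have := h.D_cyc hy
  exact congrArg Subtype.val (mul_comm' (⟨g, g1, g2⟩ : (stabilizer X x ⊓ stabilizer X y : Subgroup X)) ⟨k, k1, k2⟩)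

theorem conj_u {x y : Ω} (hy : y ≠ x) {u v g : X} (u1 : u ≠ 1) (uu : u * u = 1) (ux : u • x = x) (uy : u • y = y)
    (v1 : v ≠ 1) (vv : v * v = 1) (vx : v • g • x = g • x) (vy : v • g • y = g • y) : g * u = v * g := by
  have a1 : (g⁻¹ * v * g) • x = x := by simp [mul_smul, vx]
  have := h.inv_unique ux a1 uu (by simp [mul_assoc, ← mul_assoc v, vv]) u1 (by simpa [mul_assoc, inv_mul_eq_one] using v1)
    (h.D_comm hy ux uy a1 (by simp [mul_smul, vy]))
  rw [this]; group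

theorem odd_normal (N : Subgroup X) [N.Normal] (hN : Odd (Nat.card N)) : N = ⊥ := by
  refine eq_bot_iff.2 fun g hg => eq_of_smul_eq_smul fun x : Ω => by_contra fun e => ?_
  refine hN.not_two_dvd_nat (h.even.two_dvd.trans (card_dvd_of_tr x fun a b => ?_))
  by_cases hab : a = b
  · exact ⟨1, one_mem _, by rw [one_smul, hab]⟩
  obtain ⟨k, rfl, rfl⟩ := h.two x (g • x) a b (by simpa [eq_comm] using e) hab
  exact ⟨k * g * k⁻¹, Normal.conj_mem inferInstance g hg k, by simp [mul_smul]⟩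

theorem exists_u {x y : Ω} (hy : y ≠ x) : ∃ u : X, u ≠ 1 ∧ u * u = 1 ∧ u • x = x ∧ u • y = y := by
  have := Fact.mk Nat.prime_two
  by_cases h2 : 2 ∣ Nat.card (stabilizer X x)
  · obtain ⟨u, hu⟩ := exists_prime_orderOf_dvd_card' 2 h2
    have uu : (u : X) * u = 1 := by rw [← sq, ← hu, ← coe_pow, pow_orderOf_eq_one, coe_one]
    obtain ⟨z, hz, e⟩ := h.exists_fix uu u.2
    obtain ⟨k, e1, rfl⟩ := h.two x z x y hz.symm hy.symm
    refine ⟨k * u * k⁻¹, fun e => ?_, by simp [mul_assoc, ← mul_assoc (u : X), uu], ?_, by simp [mul_smul, e]⟩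
    · rw [show u = 1 by simpa using e, orderOf_one] at hu
      omega
    · rw [mul_smul, inv_smul_eq_iff.2 e1.symm, mul_smul, show (u : X) • x = x from u.2, e1]
  have := h.cyc
  have key : ∀ a : X ⧸ A, ∃ g ∈ stabilizer X x, g • ((1 : X) : X ⧸ A) = a := fun a => by
    obtain ⟨g, rfl⟩ := QuotientGroup.mk_surjective a
    obtain ⟨k, hk, e⟩ := h.tr x (g⁻¹ • x)
    exact ⟨g * k, by simp [mul_smul, e], (QuotientGroup.eq.2 (by simpa using hk)).symm⟩
  obtain ⟨N, _, h3, h4⟩ := exists_odd_normal A (Odd.of_dvd_nat (Nat.odd_iff.2 (by omega))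
    (card_dvd_of_tr (A := stabilizer X x) ((1 : X) : X ⧸ A) fun a b => by
      obtain ⟨g, hg, rfl⟩ := key a
      obtain ⟨k, hk, rfl⟩ := key b
      exact ⟨k * g⁻¹, mul_mem hk (inv_mem hg), by rw [mul_smul, inv_smul_smul]⟩))
  obtain rfl := h.odd_normal N h3
  obtain ⟨z, hz⟩ : ∃ z, z ≠ x ∧ z ≠ y := by
    by_contra! H
    have := Nat.card_le_card_of_surjective (![x, y] : Fin 2 → Ω) fun z => by
      by_cases e : z = x
      exacts [⟨0, e.symm⟩, ⟨1, (H z e).symm⟩]
    have := h.big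
    simp at *; omega
  obtain ⟨k, e1, e2⟩ := h.two x y x z hy.symm hz.1.symm
  rcases ((h4.of_equiv QuotientGroup.quotientBot).to_subgroup (stabilizer X x)).card_eq_or_dvd with e | e
  · obtain rfl : k = 1 := mem_bot.1 (card_eq_one.1 e ▸ e1)
    exact (hz.2 (by simpa using e2.symm)).elim
  · exact (h2 e).elim

end Hyp

end CL.ABZ
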