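/-
Doubly transitive groups with a regular cyclic subgroup and Z-groups as point stabilisers: an involution with two fixed
points leads to the projective line over a prime field.
-/
import Cfsg.Agent.Perm.ABZ1

set_option autoImplicit false
set_option linter.unusedSectionVars false

namespace CL.ABZ

open Subgroup MulAction

variable {X Ω : Type*} [Group X] [MulAction X Ω] {A : Subgroup X}

theorem nonsquare_mul {F : Type*} [Field F] [Fintype F] [DecidableEq F] {l c : F} (hl : ¬IsSquare l) (hc : ¬IsSquare c) :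
    IsSquare (l * c) := by
  have l0 : l ≠ 0 := fun e => hl (e ▸ IsSquare.zero)
  have c0 : c ≠ 0 := fun e => hc (e ▸ IsSquare.zero)
  rw [← quadraticChar_one_iff_isSquare (mul_ne_zero l0 c0), map_mul, quadraticChar_neg_one_iff_not_isSquare.2 hl,
    quadraticChar_neg_one_iff_not_isSquare.2 hc]
  rfl

namespace Hyp

variable [Finite X] [Finite Ω] [FaithfulSMul X Ω] (h : Hyp X Ω A)
include h

theorem U_comm {x : Ω} {g k : X} (hg : g ∈ UU X x) (hk : k ∈ UU X x) : g * k = k * g := by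
  have := h.U_cyc x
  exact congrArg Subtype.val (mul_comm' (⟨g, hg⟩ : UU X x) ⟨k, hk⟩)

theorem u_inv {x y : Ω} (hy : y ≠ x) {u : X} (uu : u * u = 1) (ux : u • x = x) (uy : u • y = y)
    (hF : ∀ z : Ω, u • z = z → z = x ∨ z = y) {g : X} (hg : g ∈ UU X x) : u * g = g⁻¹ * u := by
  have h1 := UU_conj ux hg
  have h2 := mul_mem hg h1
  have h3 : u * (g * (u * g * u⁻¹)) = g * (u * g * u⁻¹) * u := by
    have iu := inv_eq_of_mul_eq_one_right uu
    calc _ = u * (u * g * u⁻¹ * g) := by rw [h.U_comm hg h1]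
      _ = (u * u) * g * u⁻¹ * g := by group
      _ = _ := by rw [uu, iu, one_mul, mul_assoc g (u * g * u), mul_assoc (u * g), uu, mul_one, mul_assoc]
  have h4 := h.U_semi h2 hy ((hF _ (by rw [← mul_smul, h3, mul_smul, uy])).resolve_left fun e =>
    hy ((smul_left_cancel_iff _).1 (e.trans (UU_fix h2).symm)))
  rw [← eq_inv_of_mul_eq_one_right h4]; group

theorem U_tr {x y : Ω} (hy : y ≠ x) {u : X} (uu : u * u = 1) (ux : u • x = x) (uy : u • y = y)
    (hF : ∀ z : Ω, u • z = z → z = x ∨ z = y) {z : Ω} (hz : z ≠ x) : ∃ s ∈ UU X x, s • y = z := by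
  obtain ⟨b, e, rfl⟩ := h.two x y x z hy.symm hz.symm
  have inj : Function.Injective fun s : UU X x => s * s := fun s t e => by
    have := h.U_cyc x
    have e' : s * s = t * t := e
    refine mul_inv_eq_one.1 (Subtype.ext (h.U_odd (s * t⁻¹).2 (congrArg Subtype.val (a₂ := 1) (a₁ := s * t⁻¹ * (s * t⁻¹)) ?_)))
    rw [mul_assoc, mul_comm' t⁻¹, ← mul_assoc, ← mul_assoc, e']; group
  obtain ⟨⟨s, hs⟩, e1⟩ := Finite.surjective_of_injective inj ⟨_, commutator_mem_commutator e ux⟩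
  have e2 : s * s = b * u * b⁻¹ * u⁻¹ := congrArg Subtype.val e1
  have e3 : u * s⁻¹ * b = s⁻¹ * b * u := by
    rw [h.u_inv hy uu ux uy hF (inv_mem hs), inv_inv]
    calc s * u * b = s⁻¹ * (s * s) * u * b := by group
      _ = _ := by rw [e2]; group
  refine ⟨s, hs, (smul_eq_iff_eq_inv_smul _).2 ((hF (s⁻¹ • b • y) ?_).resolve_left fun e => hz ?_).symm⟩
  · rw [← mul_smul, ← mul_smul, e3, mul_smul, mul_smul, uy]
  · rw [inv_smul_eq_iff.1 e, UU_fix hs]

theorem case_two {al be : Ω} {a u : X} (ha : a ∈ A) (hab : be ≠ al) (a1 : a • al = be) (a2 : a • be = al) (u1 : u ≠ 1)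
    (uu : u * u = 1) (ua : u • al = al) (ub : u • be = be) (hF : ∀ z : Ω, u • z = z → z = al ∨ z = be) : Concl X Ω := by
  classical
  obtain ⟨N, hN, T⟩ : ∃ N, N = Nat.card (UU X al) ∧ Nonempty (Multiplicative (ZMod N) ≃* UU X al) :=
    ⟨_, rfl, ⟨zmodCyclicMulEquiv (h.U_cyc al)⟩⟩
  obtain ⟨T⟩ := T
  have : NeZero N := ⟨hN ▸ Nat.card_pos.ne'⟩
  obtain ⟨τ, tm, ta, ti, ts⟩ : ∃ τ : ZMod N → X, (∀ z, τ z ∈ UU X al) ∧ (∀ z w, τ (z + w) = τ z * τ w) ∧
      τ.Injective ∧ ∀ g ∈ UU X al, ∃ z, τ z = g :=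
    ⟨fun z => T (Multiplicative.ofAdd z), fun z => (T _).2, fun z w => by simp, fun z w e => by simpa using e,
      fun g hg => ⟨(T.symm ⟨g, hg⟩).toAdd, by simp⟩⟩
  have t0 : τ 0 = 1 := by simpa using ta 0 0
  have tn : ∀ z, τ (-z) = (τ z)⁻¹ := fun z => eq_inv_of_mul_eq_one_left (by rw [← ta, neg_add_cancel, t0])
  have tf : ∀ z, τ z • al = al := fun z => UU_fix (tm z)
  obtain ⟨pt, hp⟩ : ∃ pt : ZMod N → Ω, ∀ z, pt z = τ z • be := ⟨_, fun _ => rfl⟩
  have p0 : pt 0 = be := by rw [hp, t0, one_smul]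
  have tp : ∀ z w, τ z • pt w = pt (z + w) := fun z w => by rw [hp, hp, ta, mul_smul]
  have pi : pt.Injective := fun z w e => by
    have := h.U_semi (tm (-w + z)) hab (by rw [← hp, ← tp, e, tp, neg_add_cancel, p0])
    exact (neg_add_eq_zero.1 (ti (this.trans t0.symm))).symm
  have pa : ∀ z, pt z ≠ al := fun z e => hab ((smul_left_cancel_iff _).1 ((hp z ▸ e).trans (tf z).symm))
  have pb : ∀ z ≠ 0, pt z ≠ be := fun z hz e => hz (pi (e.trans p0.symm))
  have ps : ∀ x ≠ al, ∃ z, pt z = x := fun x hx => by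
    obtain ⟨s, hs, rfl⟩ := h.U_tr hab uu ua ub hF hx
    obtain ⟨z, rfl⟩ := ts s hs
    exact ⟨z, hp z⟩
  have hc : Nat.card Ω = N + 1 := by
    rw [← Nat.card_eq_of_bijective (fun o : Option (ZMod N) => o.elim al pt) ⟨?_, fun x => ?_⟩]
    · simp
    · rintro (_ | z) (_ | w) e
      exacts [rfl, (pa w e.symm).elim, (pa z e).elim, congrArg _ (pi e)]
    · by_cases e : x = al
      exacts [⟨none, e.symm⟩, let ⟨z, hz⟩ := ps x e; ⟨some z, hz⟩]
  have sc : ∀ d : X, d • al = al → d • be = be → ∃ l, ∀ z, d • pt z = pt (l * z) := fun d e1 e2 => by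
    obtain ⟨l, hl⟩ := ts _ (UU_conj e1 (tm 1))
    refine ⟨l, fun z => ?_⟩
    obtain ⟨n, rfl⟩ := ZMod.natCast_zmod_surjective z
    induction n with
    | zero => simp [p0, e2]
    | succ n ih =>
      push_cast
      rw [add_comm, ← tp, mul_add, mul_one, ← tp, ← ih, hl]; simp [mul_smul]
  have up : ∀ z, u • pt z = pt (-z) := fun z => by
    rw [hp, hp, ← mul_smul, h.u_inv hab uu ua ub hF (tm z), mul_smul, ub, tn]
  have sw : ∀ g : X, g • al = be → g • be = al → g * u = u * g := fun g e1 e2 =>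
    h.conj_u hab u1 uu ua ub u1 uu (by rw [e1, ub]) (by rw [e2, ua])
  have hM : ∀ b : ZMod N, ∃ m : X, b ≠ 0 → m • al = be ∧ m • be = al ∧ m * m = 1 ∧ m • pt b = pt (-b) ∧
      τ b * m * τ b = m * τ (-b) * m := fun b => by
    by_cases hb : b = 0
    · exact ⟨1, fun e => (e hb).elim⟩
    have hF' : ∀ z : Ω, u • z = z → z = be ∨ z = al := fun z e => (hF z e).symm
    obtain ⟨g, hg, e⟩ := h.U_tr hab.symm uu ub ua hF' (pb (-b) (neg_ne_zero.2 hb))
    have ug := h.u_inv hab.symm uu ub ua hF' hg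
    have e1 : g • pt b = al := by
      rw [← neg_neg b, ← up, ← e, ← mul_smul u, ug, mul_smul, ua, smul_inv_smul]
    have m1 : (g * τ b * g) • al = be := by rw [mul_smul, mul_smul, e, tp, add_neg_cancel, p0, UU_fix hg]
    have m2 : (g * τ b * g) • be = al := by rw [mul_smul, mul_smul, UU_fix hg, ← hp, e1]
    have m3 : g * τ b * g * (g * τ b * g) = 1 := by
      have := sw _ m1 m2
      rw [← mul_assoc, ← mul_assoc, ug, mul_assoc _ u, h.u_inv hab uu ua ub hF (tm b), mul_assoc g⁻¹, mul_assoc _ u, ug,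
        ← mul_assoc, ← mul_assoc, mul_left_inj] at this
      nth_rewrite 2 [this]
      group
    have m4 : (g * τ b * g) • pt b = pt (-b) := by rw [mul_smul, mul_smul, e1, tf, e]
    generalize hm : g * τ b * g = m at *
    have mi := inv_eq_of_mul_eq_one_right m3
    have m5 := h.U_semi (mul_mem (inv_mem hg) (UU_conj m1 (tm b))) (pb b hb) (by
      rw [mul_smul, mul_smul, mul_smul, mi, m4, tp, add_neg_cancel, p0, m2, inv_smul_eq_iff, e1])
    rw [inv_mul_eq_one, mi] at m5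
    refine ⟨m, fun _ => ⟨m1, m2, m3, m4, ?_⟩⟩
    rw [m5] at hm
    calc τ b * m * τ b = m⁻¹ * (m * τ b * m * τ b * (m * τ b * m)) * m⁻¹ * (τ b)⁻¹ * m⁻¹ := by group
      _ = _ := by rw [hm, tn, mi, m3]; group
  choose M hM using hM
  have hbig := h.big
  have hev := Nat.even_iff.1 h.even
  have ne : ∀ k : ℕ, 0 < k → k < N → (k : ZMod N) ≠ 0 := fun k a b e =>
    (Nat.le_of_dvd a ((ZMod.natCast_eq_zero_iff _ _).1 e)).not_gt b
  have n1 : (1 : ZMod N) ≠ 0 := by simpa using ne 1 one_pos (by omega)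
  have n2 : (2 : ZMod N) ≠ 0 := by simpa using ne 2 two_pos (by omega)
  obtain ⟨m1, m2, m3, m4, -⟩ := hM 1 n1
  generalize hm : M 1 = m at m1 m2 m3 m4
  have mm : ∀ x : Ω, m • m • x = x := fun x => by rw [← mul_smul, m3, one_smul]
  have hf : ∀ z, ∃ w, z ≠ 0 → m • pt z = pt w := fun z => by
    by_cases hz : z = 0
    · exact ⟨0, fun e => (e hz).elim⟩
    obtain ⟨w, e⟩ := ps (m • pt z) fun e => pb z hz (by rw [← mm (pt z), e, m1])
    exact ⟨w, fun _ => e.symm⟩
  choose f hf using hf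
  have sw2 : ∀ g : X, ∃ l, g • al = be → g • be = al → (∀ z, (g * m) • pt z = pt (l * z)) ∧
      ∀ z ≠ 0, g • pt z = pt (l * f z) := fun g => by
    by_cases e : g • al = be ∧ g • be = al
    swap
    · exact ⟨0, fun e1 e2 => (e ⟨e1, e2⟩).elim⟩
    obtain ⟨l, hl⟩ := sc (g * m) (by rw [mul_smul, m1, e.2]) (by rw [mul_smul, m2, e.1])
    exact ⟨l, fun _ _ => ⟨hl, fun z hz => by rw [← hl, ← hf z hz, mul_smul, mm]⟩⟩
  choose L hL using sw2
  have hL' := fun b hb => hL (M b) (hM b hb).1 (hM b hb).2.1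
  have l1 : L (M 1) = 1 := by
    have := (hL' 1 n1).1 1
    rw [hm, m3, one_smul, mul_one] at this
    exact hm ▸ (pi this).symm
  have hh : ∀ b ≠ 0, L (M b) * f b = -b := fun b hb => pi (((hL' b hb).2 b hb).symm.trans (hM b hb).2.2.2.1)
  have key : ∀ b z, b ≠ 0 → z ≠ 0 → z + b ≠ 0 → pt (L (M b) * f (z + b) + b) = m • pt (f z + f b) := fun b z hb hz hs => by
    have := congrArg (· • pt z) (hM b hb).2.2.2.2
    simp only [mul_smul] at this
    rw [tp, add_comm b, (hL' b hb).2 _ hs, tp, (hL' b hb).2 _ hz, tp, ← hh b hb, ← mul_add, ← (hL' b hb).1, mul_smul,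
      ← mul_smul (M b), (hM b hb).2.2.1, one_smul, add_comm b, add_comm (f b)] at this
    exact this
  have f1 : f 1 = -1 := by simpa [l1] using hh 1 n1
  have kf := zmod_key (f := f) (h := fun b => L (M b)) l1 hh (fun b z hb hz hs => pi (by
    rw [key b z hb hz hs, add_comm z b, key z b hz hb (add_comm z b ▸ hs), add_comm])) (pi (by
      have := key 1 1 n1 n1 (by rwa [one_add_one_eq_two])
      rw [one_add_one_eq_two, l1, one_mul, f1, ← neg_add, one_add_one_eq_two, ← up, ← mul_smul, sw m m1 m2, mul_smul,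
        hf 2 n2, up] at this
      exact this))
  have kf' : ∀ z ≠ 0, z * f z = -1 := fun z hz => by
    simpa using kf z.val (ZMod.val_pos.2 hz) (ZMod.val_lt z)
  have hpr : N.Prime := Nat.prime_def_lt.2 ⟨by omega, fun k hk e => by
    have k0 := Nat.pos_of_dvd_of_pos e (by omega)
    exact Nat.Coprime.eq_one_of_dvd ((ZMod.isUnit_iff_coprime k N).1
      (IsUnit.of_mul_eq_one (-f k) (by rw [mul_neg, kf k k0 hk, neg_neg]))) e⟩
  have := Fact.mk hpr
  have fz : ∀ z ≠ 0, f z = -z⁻¹ := fun z hz => by field_simp; linear_combination kf' z hz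
  have fx : ∀ g : X, (∀ z ≠ 0, g • g • pt z = pt z) → g • al = be → g • be = al → ∀ x : Ω, g • g • x = x :=
    fun g e e1 e2 x => by
      by_cases hx : x = al
      · rw [hx, e1, e2]
      obtain ⟨z, rfl⟩ := ps x hx
      by_cases hz : z = 0
      · rw [hz, p0, e2, e1]
      exact e z hz
  have L0 : ∀ g : X, g • al = be → g • be = al → L g ≠ 0 := fun g e1 e2 e => pa 1 ((smul_left_cancel_iff g).1 (by
    rw [(hL g e1 e2).2 1 n1, e, zero_mul, p0, e1]))
  have sq : ∀ c ≠ 0, IsSquare c → ∃ d : X, d • al = al ∧ d • be = be ∧ ∀ z, d • pt z = pt (c * z) := by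
    rintro _ hc ⟨b, rfl⟩
    have hb : b ≠ 0 := left_ne_zero_of_mul hc
    refine ⟨M b * m, by rw [mul_smul, m1, (hM b hb).2.1], by rw [mul_smul, m2, (hM b hb).1], fun z => ?_⟩
    have := hh b hb
    rw [fz b hb] at this
    rw [(hL' b hb).1, show L (M b) = b * b by field_simp at this; linear_combination -this]
  have all : ∀ c ≠ 0, ∃ d : X, d • al = al ∧ d • be = be ∧ ∀ z, d • pt z = pt (c * z) := fun c hc => by
    by_cases hs : IsSquare c
    · exact sq c hc hs
    have l0 := L0 a a1 a2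
    have hl : ¬IsSquare (-L a)⁻¹ := by
      rw [isSquare_inv]
      rintro ⟨z, e⟩
      have hz : z ≠ 0 := by rintro rfl; exact l0 (by simpa using e)
      obtain rfl := h.fpf ha (x := pt z) (by
        rw [(hL a a1 a2).2 z hz, fz z hz, mul_neg, ← neg_mul, e, mul_inv_cancel_right₀ hz])
      exact hab (by simpa using a1.symm)
    obtain ⟨d, d1, d2, d3⟩ := sq _ (by simp [l0, hc]) (nonsquare_mul hl hs)
    refine ⟨d * u * (a * m), by simp [mul_smul, *], by simp [mul_smul, *], fun z => ?_⟩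
    rw [mul_smul, (hL a a1 a2).1, mul_smul, up, d3]
    congr 1; field_simp
  refine concl_of hab.symm (by simpa [hc] using hpr) h.two (fun c d c1 c2 d1 d2 => ?_) (fun g c c1 c2 e1 e2 e3 x => ?_)
    fun g e1 e2 => fx g (fun z hz => ?_) e1 e2
  · obtain ⟨c, rfl⟩ := ps c c1
    obtain ⟨d, rfl⟩ := ps d d1
    have c0 : c ≠ 0 := fun e => c2 (e ▸ p0)
    obtain ⟨g, e1, e2, e3⟩ := all (d / c) (div_ne_zero (fun e => d2 (e ▸ p0)) c0)
    exact ⟨g, e1, e2, by rw [e3, div_mul_cancel₀ _ c0]⟩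
  · obtain ⟨c, rfl⟩ := ps c c1
    obtain ⟨l, hl⟩ := sc g e1 e2
    have := pi ((hl c).symm.trans e3)
    rw [mul_eq_right₀ (show c ≠ 0 from fun e => c2 (e ▸ p0))] at this
    by_cases hx : x = al
    · rw [hx, e1]
    obtain ⟨z, rfl⟩ := ps x hx
    rw [hl, this, one_mul]
  · have l0 := L0 g e1 e2
    have : L g * -z⁻¹ ≠ 0 := by simp [l0, hz]
    rw [(hL g e1 e2).2 z hz, fz z hz, (hL g e1 e2).2 _ this, fz _ this]
    congr 1; field_simp

end Hyp

end CL.ABZ
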