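/-
Doubly transitive groups with a regular cyclic subgroup and Z-groups as point stabilisers: an involution has only two
fixed points (by the Z* theorem).
-/
import Cfsg.Agent.Perm.ABZ2
import Cfsg.Agent.Inv.ZStar

set_option autoImplicit false
set_option linter.unusedSectionVars false

namespace CL.ABZ

open Subgroup MulAction Cfsg

section

variable {X Ω : Type*} [Group X] [MulAction X Ω] {A : Subgroup X}

namespace Hyp

variable [Finite X] [Finite Ω] [FaithfulSMul X Ω] (h : Hyp X Ω A)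
include h

theorem exists_conj {u : X} (u1 : u ≠ 1) (uu : u * u = 1) {x : Ω} (ux : u • x = x) :
    ∃ g : X, g * u * g⁻¹ * u = u * (g * u * g⁻¹) ∧ g * u * g⁻¹ ≠ u := by
  have := Fact.mk Nat.prime_two
  by_contra! H
  have := CL.Inv.zstar_mem_center (h.odd_normal _ CL.Inv.odd_card_oddCore)
    ⟨orderOf_eq_prime (by rwa [sq]) u1, fun g e => H g e.eq.symm⟩
  refine u1 (eq_of_smul_eq_smul fun y : Ω => ?_)
  obtain ⟨g, -, rfl⟩ := h.tr x y
  rw [← mul_smul, ← mem_center_iff.1 this, mul_smul, ux, one_smul]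

theorem big_false {al be : Ω} {a u : X} (ha : a ∈ A) (aa : a * a = 1) (hab : be ≠ al) (a1 : a • al = be) (u1 : u ≠ 1)
    (uu : u * u = 1) (ua : u • al = al) (ub : u • be = be)
    (four : ∀ x y z : Ω, ∃ w, u • w = w ∧ w ≠ x ∧ w ≠ y ∧ w ≠ z)
    (three : ∀ x y z x' y' z' : Ω, u • x = x → u • y = y → u • z = z → u • x' = x' → u • y' = y' → u • z' = z' →
      x ≠ y → z ≠ x → z ≠ y → x' ≠ y' → z' ≠ x' → z' ≠ y' → ∃ g : X, g * u = u * g ∧ g • x = x' ∧ g • y = y' ∧ g • z = z')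
    (swap : ∀ (g : X) (x y : Ω), g * u = u * g → u • x = x → x ≠ y → g • x = y → g • y = x →
      ∀ z : Ω, u • z = z → g • g • z = z) : False := by
  have := Fact.mk Nat.prime_two
  have := h.cyc
  have cA : ∀ {g k : X}, g ∈ A → k ∈ A → g * k = k * g := fun hg hk =>
    congrArg Subtype.val (mul_comm' (⟨_, hg⟩ : A) ⟨_, hk⟩)
  have a2 : a • be = al := by rw [← a1, ← mul_smul, aa, one_smul]
  have ia := inv_eq_of_mul_eq_one_right aa
  have iu := inv_eq_of_mul_eq_one_right uu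
  have an : a ≠ 1 := fun e => hab (by rw [← a1, e, one_smul])
  obtain ⟨C, hC⟩ : ∃ C : Subgroup X, ∀ g, g ∈ C ↔ g * u = u * g :=
    ⟨centralizer {u}, fun g => mem_centralizer_singleton_iff⟩
  obtain ⟨K, hK⟩ : ∃ K : Subgroup X, ∀ g, g ∈ K ↔ ∀ x : Ω, u • x = x → g • x = x :=
    ⟨fixingSubgroup X {x : Ω | u • x = x}, fun g => mem_fixingSubgroup_iff X⟩
  obtain ⟨D, hD⟩ : ∃ D : Subgroup X, D = stabilizer X al ⊓ stabilizer X be := ⟨_, rfl⟩
  have hDc : IsCyclic D := hD ▸ h.D_cyc hab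
  replace hD : ∀ g, g ∈ D ↔ g • al = al ∧ g • be = be := fun g => by rw [hD]; rfl
  have cD : ∀ {g k : X}, g ∈ D → k ∈ D → g * k = k * g := fun hg hk =>
    congrArg Subtype.val (mul_comm' (⟨_, hg⟩ : D) ⟨_, hk⟩)
  have KD : K ≤ D := fun g hg => (hD g).2 ⟨(hK g).1 hg _ ua, (hK g).1 hg _ ub⟩
  have uK : u ∈ K := (hK u).2 fun _ e => e
  have DC : D ≤ C := fun g hg => (hC g).2 (cD hg (KD uK))
  have CF : ∀ {g : X} {x : Ω}, g ∈ C → u • x = x → u • g • x = g • x := fun hg e => by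
    rw [← mul_smul, ← (hC _).1 hg, mul_smul, e]
  have mC : ∀ {g : X} {x y : Ω}, y ≠ x → u • x = x → u • y = y → u • g • x = g • x → u • g • y = g • y → g ∈ C :=
    fun e e1 e2 e3 e4 => (hC _).2 (h.conj_u e u1 uu e1 e2 u1 uu e3 e4)
  have aC : a ∈ C := mC hab ua ub (by rw [a1, ub]) (by rw [a2, ua])
  have au := (hC a).1 aC
  have inv1 : ∀ {k : X}, k ∈ D → k * k = 1 → k = 1 ∨ k = u := fun hk e => or_iff_not_imp_left.2 fun e1 =>
    h.inv_unique ((hD _).1 hk).1 ua e uu e1 u1 (cD hk (KD uK))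
  have sw : ∀ {g : X} {x y : Ω}, g ∈ C → u • x = x → x ≠ y → g • x = y → g • y = x → g * g ∈ K :=
    fun hg e e1 e2 e3 => (hK _).2 fun z hz => by rw [mul_smul, swap _ _ _ ((hC _).1 hg) e e1 e2 e3 z hz]
  have swD : ∀ {d : X}, d ∈ D → d * a * (d * a) ∈ K := fun hd => sw (mul_mem (DC hd) aC) ua hab.symm
    (by rw [mul_smul, a1, ((hD _).1 hd).2]) (by rw [mul_smul, a2, ((hD _).1 hd).1])
  have aD : ∀ {d : X}, d ∈ D → a * d * a ∈ D := fun hd => (hD _).2
    ⟨by rw [mul_smul, mul_smul, a1, ((hD _).1 hd).2, a2], by rw [mul_smul, mul_smul, a2, ((hD _).1 hd).1, a1]⟩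
  -- the kernel is central
  have cK : ∀ {k g : X}, k ∈ K → g ∈ C → g * k = k * g := fun {k g} hk hg => by
    have s1 : ∀ x y z : Ω, u • x = x → u • y = y → u • z = z → y ≠ x → z ≠ x →
        ∃ g ∈ C ⊓ centralizer {k}, g • x = x ∧ g • y = z := fun x y z e1 e2 e3 e4 e5 => by
      obtain ⟨w, w0, w1, w2, w3⟩ := four x y z
      obtain ⟨g, c, b1, b2, b3⟩ := three x w y x w z e1 w0 e2 e1 w0 e3 w1.symm e4 w2.symm w1.symm e5 w3.symm
      exact ⟨g, ⟨(hC g).2 c, mem_centralizer_singleton_iff.2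
        (h.D_comm w1 b1 b2 ((hK k).1 hk _ e1) ((hK k).1 hk _ w0))⟩, b1, b3⟩
    obtain ⟨w, w0, w1, w2, -⟩ := four al (g • al) al
    obtain ⟨s, hs, -, e1⟩ := s1 w (g • al) al w0 (CF hg ua) ua w2.symm w1.symm
    obtain ⟨t, ht, e2, e3⟩ := s1 al (s • g • be) be ua (CF hs.1 (CF hg ub)) ub (by rw [← e1]; simpa using hab) hab
    have := mem_centralizer_singleton_iff.2 (cD ((hD (t * s * g)).2 ⟨by rw [mul_smul, mul_smul, e1, e2],
      by rw [mul_smul, mul_smul, e3]⟩) (KD hk))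
    exact mem_centralizer_singleton_iff.1 ((mul_mem_cancel_left (mul_mem (mem_inf.1 ht).2 (mem_inf.1 hs).2)).1 this)
  -- `a` is not conjugate to `u`, but `u * a` is
  have nc : ∀ g k : X, g * u * g⁻¹ ≠ k * a * k⁻¹ := fun g k e => an (h.fpf ha (x := k⁻¹ • g • al) (by
    rw [eq_inv_smul_iff, ← mul_smul, ← mul_smul, ← e]; simp [mul_smul, ua]))
  obtain ⟨ga, ug, g1, g2, -⟩ := four al be be
  have hua : ∃ g : X, g * u * g⁻¹ = u * a := by
    obtain ⟨g, e, ne⟩ := h.exists_conj u1 uu ua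
    have vf : ∀ (k : X) (x : Ω), k ∈ C → u • x = x → (k * (g * u * g⁻¹) * k⁻¹) • x ≠ x := fun k x hk hx e' =>
      ne (h.inv_unique (x := k⁻¹ • x) (by rwa [mul_smul, mul_smul, smul_eq_iff_eq_inv_smul] at e') (CF (inv_mem hk) hx)
        (by simp [mul_assoc, ← mul_assoc u, uu]) uu (by simpa using u1) u1 e)
    have vC := (hC _).2 e
    have v1 := vf 1 al (one_mem _) ua
    rw [one_mul, inv_one, mul_one] at v1
    obtain ⟨w, w0, w1, w2, -⟩ := four al ((g * u * g⁻¹) • al) al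
    obtain ⟨k, kC, k1, k2, -⟩ := three al _ w al be ga ua (CF vC ua) w0 ua ub ug v1.symm w1 w2 hab.symm g1 g2
    rw [← hC] at kC
    replace vf := fun x => vf k x kC
    have vv : k * (g * u * g⁻¹) * k⁻¹ * (k * (g * u * g⁻¹) * k⁻¹) = 1 := by rw [conj_mul, conj_mul, uu]; group
    have va : (k * (g * u * g⁻¹) * k⁻¹) • al = be := by rw [mul_smul, mul_smul, inv_smul_eq_iff.2 k1.symm, k2]
    have vu : ∀ s : X, s * (k * (g * u * g⁻¹) * k⁻¹) * s⁻¹ = s * k * g * u * (s * k * g)⁻¹ := fun s => by group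
    generalize k * (g * u * g⁻¹) * k⁻¹ = v at *
    have d0 : v * a ∈ D := (hD _).2 ⟨by rw [mul_smul, a1, ← va, ← mul_smul, vv, one_smul], by rw [mul_smul, a2, va]⟩
    obtain ⟨φ, -, p1, p2, p3⟩ := three al be (a • ga) al be ga ua ub (CF aC ug) ua ub ug hab.symm
      (by rw [← a2]; simpa using g2) (by rw [← a1]; simpa using g1) hab.symm g1 g2
    have φD := (hD φ).2 ⟨p1, p2⟩
    have L1 : ∀ e ∈ D, (e * e * φ * a) • e • ga = e • ga := fun e he => by
      rw [← mul_smul, show e * e * φ * a * e = e * φ * (e * a * (e * a)) * a by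
        rw [mul_assoc e e]; nth_rewrite 1 [cD he φD]; simp [mul_assoc, aa], mul_smul, mul_smul, (hK _).1 (swD he) _ (CF aC ug), mul_smul, p3]
    obtain ⟨g0, h0⟩ := IsCyclic.exists_generator (α := D)
    obtain ⟨i, hi⟩ := h0 ⟨_, d0⟩
    obtain ⟨j, hj⟩ := h0 ⟨_, φD⟩
    replace hi : (g0 : X) ^ i = v * a := congrArg Subtype.val hi
    replace hj : (g0 : X) ^ j = φ := congrArg Subtype.val hj
    obtain ⟨m, rfl | rfl⟩ := Int.even_or_odd' j
    · have := L1 _ (zpow_mem g0.2 (-m))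
      rw [← hj, show (g0 : X) ^ (-m) * g0 ^ (-m) * g0 ^ (2 * m) = 1 by group, one_mul] at this
      exact (an (h.fpf ha this)).elim
    obtain ⟨n, rfl | rfl⟩ := Int.even_or_odd' i
    swap
    · have := L1 _ (zpow_mem g0.2 (n - m))
      rw [← hj, show (g0 : X) ^ (n - m) * g0 ^ (n - m) * g0 ^ (2 * m + 1) = g0 ^ (2 * n + 1) by group, hi, mul_assoc, aa,
        mul_one] at this
      exact (vf _ (CF (DC (zpow_mem g0.2 _)) ug) this).elim
    have he := zpow_mem g0.2 n
    rw [two_mul, zpow_add] at hi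
    generalize (g0 : X) ^ n = e at hi he
    obtain rfl : v = e * e * a := by rw [hi, mul_assoc, aa, mul_one]
    have e1 : e⁻¹ * (e * e * a) * e⁻¹⁻¹ = e * a * (e * a) * a := by simp [mul_assoc, aa]
    rcases inv1 (KD (swD he)) (by
      calc _ = e * (a * e * a * e) * (a * e * a) := by group
        _ = e * e * a * (e * (a * a) * e * a) := by rw [cD (aD he) he]; group
        _ = 1 := by rw [aa, mul_one, vv]) with e2 | e2
    · exact (nc _ 1 (by rw [← vu, e1, e2]; group)).elim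
    · exact ⟨_, by rw [← vu, e1, e2]⟩
  -- an element inverting `A ⊓ C` modulo `K`
  have trA : ∀ x : Ω, u • x = x → ∃ g ∈ A ⊓ C, g • al = x := fun x hx => by
    obtain ⟨g, hg, rfl⟩ := h.tr al x
    exact ⟨g, ⟨hg, mC hab ua ub hx (by rw [← a1, ← mul_smul g, cA hg ha, mul_smul]; exact CF aC hx)⟩, rfl⟩
  have := isCyclic_of_injective (inclusion (inf_le_left : A ⊓ C ≤ A)) (inclusion_injective _)
  obtain ⟨⟨c, cA', cC⟩, h0⟩ := IsCyclic.exists_generator (α := (A ⊓ C : Subgroup X))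
  replace h0 : ∀ g ∈ A ⊓ C, ∃ n : ℤ, c ^ n = g := fun g hg => let ⟨n, e⟩ := h0 ⟨g, hg⟩; ⟨n, congrArg Subtype.val e⟩
  have cc : c * c ≠ 1 := fun e => by
    obtain ⟨g, hg, rfl⟩ := trA ga ug
    obtain ⟨n, rfl⟩ := h0 g hg
    have := cyc_inv (x := (⟨_, hg.1⟩ : A)) (y := ⟨a, ha⟩) (Subtype.ext (by
      show c ^ n * c ^ n = 1
      rw [← (Commute.refl c).mul_zpow, e, one_zpow])) (Subtype.ext aa)
      (fun e => g1 (by rw [show c ^ n = 1 from congrArg Subtype.val e, one_smul])) (fun e => an (congrArg Subtype.val e))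
    exact g2 (by rw [show c ^ n = a from congrArg Subtype.val this, a1])
  have c1 : c • al ≠ al := fun e => cc (by rw [h.fpf cA' e, one_mul])
  have c2 : c⁻¹ • al ≠ al := fun e => c1 (inv_smul_eq_iff.1 e).symm
  have c3 : c⁻¹ • al ≠ c • al := fun e => cc (h.fpf (mul_mem cA' cA') (by rw [mul_smul, ← e, smul_inv_smul]))
  obtain ⟨r, rC, r1, r2, r3⟩ := three al (c • al) (c⁻¹ • al) al (c⁻¹ • al) (c • al) ua (CF cC ua) (CF (inv_mem cC) ua) ua
    (CF (inv_mem cC) ua) (CF cC ua) c1.symm c2 c3 c2.symm c1 c3.symm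
  rw [← hC] at rC
  have rr := sw rC (CF cC ua) c3.symm r2 r3
  have rK : r ∉ K := fun e => c3 (r2.symm.trans ((hK r).1 e _ (CF cC ua)))
  have ri : ∀ g ∈ A ⊓ C, r * g * r * g ∈ K := fun g hg => by
    obtain ⟨n, rfl⟩ := h0 g hg
    have k0 := mul_mem (inv_mem rr) (sw (mul_mem rC cC) ua c2.symm (by rw [mul_smul, r2]) (by rw [mul_smul, smul_inv_smul, r1]))
    have e : Commute ((r * r)⁻¹ * (r * c * (r * c))) c⁻¹ := (cK k0 (inv_mem cC)).symm
    have := mul_mem rr (zpow_mem k0 n)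
    rwa [← inv_mul_cancel_right (_ ^ n) (c ^ n), ← inv_zpow, ← e.mul_zpow,
      show (r * r)⁻¹ * (r * c * (r * c)) * c⁻¹ = r⁻¹ * c * r⁻¹⁻¹ by group, conj_zpow,
      show r * r * (r⁻¹ * c ^ n * r⁻¹⁻¹ * c ^ n) = r * c ^ n * r * c ^ n by group] at this
  have rD : r ∈ D := (hD r).2 ⟨r1, by
    have := (hK _).1 (ri a ⟨ha, aC⟩) _ ub
    rwa [mul_smul, mul_smul, mul_smul, a2, r1, a1] at this⟩
  obtain ⟨t, j, tu, k, kK, rfl⟩ : ∃ (t : X) (j : ℕ), t ^ 2 ^ (j + 1) = u ∧ ∃ k ∈ K, r = k * t := by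
    obtain ⟨s, m, ⟨q, rfl⟩, e⟩ := Nat.exists_eq_two_pow_mul_odd (orderOf_pos r).ne'
    have k0 := pow_mem rr q
    have e1 : r = ((r * r) ^ q)⁻¹ * r ^ (2 * q + 1) := by rw [← sq, ← pow_mul]; group
    obtain ⟨j, -, hj⟩ := (Nat.dvd_prime_pow Nat.prime_two).1 (orderOf_dvd_of_pow_eq_one (x := r ^ (2 * q + 1)) (n := 2 ^ s)
      (by rw [← pow_mul, mul_comm, ← e, pow_orderOf_eq_one]))
    have tD := pow_mem rD (2 * q + 1)
    generalize r ^ (2 * q + 1) = t at *
    have tK : t ∉ K := fun e => rK (e1 ▸ mul_mem (inv_mem k0) e)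
    rcases j with _ | j
    · exact (tK (orderOf_eq_one_iff.1 hj ▸ one_mem _)).elim
    have e2 := (inv1 (pow_mem tD (2 ^ j)) (by rw [← pow_add, ← two_mul, ← pow_succ', ← hj, pow_orderOf_eq_one])).resolve_left
      (pow_ne_one_of_lt_orderOf (by positivity) (by rw [hj]; gcongr <;> omega))
    rcases j with _ | j
    · exact (tK (by rw [← pow_one t]; exact e2 ▸ uK)).elim
    exact ⟨t, j, e2, _, inv_mem k0, e1⟩
  have tD := (mul_mem_cancel_left (KD kK)).1 rD
  have tK : t ∉ K := fun e => rK (mul_mem kK e)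
  have ti : ∀ g ∈ A ⊓ C, t * g * t * g ∈ K := fun g hg => by
    have := ri g hg
    rw [mul_assoc k, ← mul_assoc _ k, mul_assoc k, cK kK (mul_mem (DC tD) hg.2), mul_assoc, mul_assoc, mul_assoc,
      mul_assoc] at this
    rw [mul_assoc, mul_assoc]
    exact (mul_mem_cancel_left kK).1 ((mul_mem_cancel_left kK).1 this)
  have tt : t * t ∈ K := by simpa using ti 1 (one_mem _)
  have ta : t * a = a * t := by
    have k1 := mul_mem (inv_mem tt) (ti a ⟨ha, aC⟩)
    rw [show (t * t)⁻¹ * (t * a * t * a) = t⁻¹ * a * t * a by group] at k1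
    have e := cK k1 aC
    rcases inv1 (KD k1) (by
      calc _ = t⁻¹ * a * t * (a * (t⁻¹ * a * t * a)) := by group
        _ = t⁻¹ * (a * a) * t * (a * a) := by rw [e]; group
        _ = 1 := by rw [aa]; group) with e | e
    · calc t * a = t * (t⁻¹ * a * t * a) * a := by rw [e, mul_one]
        _ = a * t := by simp [mul_assoc, aa]
    · obtain ⟨g, hg⟩ := hua
      exact (nc g t⁻¹ (by rw [hg, ← e]; simp [mul_assoc, aa])).elim
  obtain ⟨g, hg⟩ := hua
  obtain ⟨w, hw, e⟩ := h.tr al (g • al)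
  have x1 : (u * a) • g • al = g • al := by rw [← hg]; simp [mul_smul, ua]
  have wu := h.conj_u (g := w) (v := u * a) hab u1 uu ua ub (by rw [← hg]; simpa using u1)
    (by rw [← hg]; simp [mul_assoc, ← mul_assoc u, uu]) (by rw [e, x1])
    (by rw [← a1, ← mul_smul w, cA hw ha, mul_smul a, e, ← mul_smul, mul_assoc, ← mul_assoc, ← au, mul_assoc, mul_smul, x1])
  have ea : w * t * w⁻¹ * a = a * (w * t * w⁻¹) := by
    rw [mul_assoc, cA (inv_mem hw) ha, ← mul_assoc, mul_assoc w, ta, ← mul_assoc, cA hw ha]; group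
  have eu : (w * t * w⁻¹) ^ 2 ^ (j + 1) = u * a := by rw [conj_pow, tu, wu, mul_inv_cancel_right]
  generalize w * t * w⁻¹ = e at ea eu
  have eC : e ∈ C := (hC e).2 (by
    have : e * (u * a) = u * a * e := by rw [← eu]; exact (Commute.refl e).pow_right _
    rwa [mul_assoc, ← ea, ← mul_assoc, ← mul_assoc, mul_left_inj] at this)
  obtain ⟨b, hb, e1⟩ := trA _ (CF eC ua)
  obtain ⟨y, rfl⟩ : ∃ y, e = b * y := ⟨b⁻¹ * e, by group⟩
  have y1 : y • al = al := by simpa [mul_smul] using e1.symm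
  have ya : y * a = a * y := by rwa [mul_assoc, ← mul_assoc a, cA ha hb.1, mul_assoc, mul_right_inj] at ea
  have yD := (hD y).2 ⟨y1, by rw [← a1, ← mul_smul, ya, mul_smul, y1]⟩
  by_cases yK : y ∈ K
  · rw [(show Commute b y from cK yK hb.2).mul_pow] at eu
    have e2 : y ^ 2 ^ (j + 1) = u := by
      have := h.fpf (mul_mem (inv_mem (pow_mem hb.1 (2 ^ (j + 1)))) ha) (x := al) (by
        have := congrArg (· • al) eu
        simp only [mul_smul, ((hD _).1 (pow_mem yD (2 ^ (j + 1)))).1, a1, ub] at this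
        rw [mul_smul, inv_smul_eq_iff, this, a1])
      rwa [inv_mul_eq_one.1 this, ← au, mul_right_inj] at eu
    obtain ⟨n, hn⟩ := CL.Grp.mem_zpowers_of_isCyclic_of_pow_orderOf (z := (⟨y, yD⟩ : D)) (x := ⟨t, tD⟩) (Subtype.ext (by
      rw [← orderOf_coe, orderOf_eq_prime_pow (p := 2) (n := j + 1) (e2 ▸ u1) (by rw [pow_succ, pow_mul, e2, sq, uu])]
      show t ^ _ = 1
      rw [pow_succ, pow_mul, tu, sq, uu]))
    exact tK ((show y ^ n = t from congrArg Subtype.val hn) ▸ zpow_mem yK n)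
  have yy : y * y ∈ K := by
    have := swD yD
    rwa [mul_assoc, ← mul_assoc a, ← ya, mul_assoc y a, aa, mul_one] at this
  have : (K.subgroupOf D).Normal := by have := hDc.isMulCommutative; infer_instance
  have := isCyclic_of_surjective _ (QuotientGroup.mk'_surjective (K.subgroupOf D))
  have e2 : t⁻¹ * y ∈ K := (QuotientGroup.eq (s := K.subgroupOf D) (a := ⟨t, tD⟩) (b := ⟨y, yD⟩)).1 (cyc_inv (x := ((⟨t, tD⟩ : D) : D ⧸ K.subgroupOf D)) (y := (⟨y, yD⟩ : D))
    ((QuotientGroup.eq_one_iff _).2 tt) ((QuotientGroup.eq_one_iff _).2 yy)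
    (fun e => tK ((QuotientGroup.eq_one_iff (⟨t, tD⟩ : D)).1 e)) fun e => yK ((QuotientGroup.eq_one_iff (⟨y, yD⟩ : D)).1 e))
  obtain ⟨k', rfl⟩ : ∃ k', y = t * k' := ⟨t⁻¹ * y, by group⟩
  rw [inv_mul_cancel_left] at e2
  have e3 : b * (t * k') * (b * (t * k')) ∈ K := by
    have e3 := ti b hb
    have := cK e3 hb.2
    rw [show b * (t * k') * (b * (t * k')) = b * t * (k' * (b * t)) * k' by group, ← cK e2 (mul_mem hb.2 (DC tD)),
      show b * t * (b * t * k') * k' = b * (t * b * t * b) * b⁻¹ * k' * k' by group, this, mul_inv_cancel_right]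
    exact mul_mem (mul_mem e3 e2) e2
  have := (hK _).1 (pow_mem e3 (2 ^ j)) _ ua
  rw [← sq, ← pow_mul, ← pow_succ', eu, mul_smul, a1, ub] at this
  exact hab this

end Hyp

theorem Hyp.map [Finite X] {Y : Type*} [Group Y] [MulAction Y Ω] (π : X →* Y) (hs : Function.Surjective π)
    (e : ∀ (g : X) (x : Ω), π g • x = g • x) (h : Hyp X Ω A) : Hyp Y Ω (A.map π) := by
  refine ⟨fun a b c d e1 e2 => ?_, h.even, h.big, ?_, fun a b => ?_, fun a => ?_⟩
  · obtain ⟨g, e3⟩ := h.two a b c d e1 e2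
    exact ⟨π g, by simpa only [e]⟩
  · have := h.cyc
    exact isCyclic_of_surjective _ (π.subgroupMap_surjective A)
  · obtain ⟨g, hg, e3⟩ := h.tr a b
    exact ⟨π g, mem_map_of_mem _ hg, by rwa [e]⟩
  · have := h.zg a
    refine IsZGroup.of_surjective (f := (π.comp (stabilizer X a).subtype).codRestrict (stabilizer Y a)
      fun g => (e _ _).trans g.2) fun ⟨g, hg⟩ => ?_
    obtain ⟨g, rfl⟩ := hs g
    exact ⟨⟨g, (e _ _).symm.trans hg⟩, rfl⟩

theorem Concl.comap {Y : Type*} [Group Y] [MulAction Y Ω] (π : X →* Y) (hs : Function.Surjective π)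
    (e : ∀ (g : X) (x : Ω), π g • x = g • x) (h : Concl Y Ω) : Concl X Ω := by
  refine ⟨h.prime, fun a b c d e1 e2 => ?_, fun a b c d e1 e2 e3 e4 e5 => ?_, fun g => by simpa only [e] using h.fix3 (π g),
    fun g => by simpa only [e] using h.swap (π g)⟩
  · obtain ⟨g, e3⟩ := h.two a b c d e1 e2
    obtain ⟨g, rfl⟩ := hs g
    exact ⟨g, by simpa only [e] using e3⟩
  · obtain ⟨g, e3⟩ := h.tr3 a b c d e1 e2 e3 e4 e5
    obtain ⟨g, rfl⟩ := hs g
    exact ⟨g, by simpa only [e] using e3⟩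

end

universe u

theorem Hyp.step {X Ω : Type u} [Group X] [MulAction X Ω] [Finite X] [Finite Ω] [FaithfulSMul X Ω] {A : Subgroup X}
    (h : Hyp X Ω A) (ih : ∀ (X' Ω' : Type u) [Group X'] [MulAction X' Ω'] [Finite X'] [Finite Ω'] (A' : Subgroup X'),
      Hyp X' Ω' A' → Nat.card Ω' < Nat.card Ω → Concl X' Ω') : Concl X Ω := by
  have := Fact.mk Nat.prime_two
  obtain ⟨al⟩ : Nonempty Ω := (Nat.card_pos_iff.1 (by have := h.big; omega)).1
  obtain ⟨⟨a, ha⟩, e⟩ := exists_prime_orderOf_dvd_card' 2 (h.even.two_dvd.trans (card_dvd_of_tr al h.tr))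
  rw [← orderOf_coe] at e
  have aa : a * a = 1 := by rw [← sq, ← e]; exact pow_orderOf_eq_one a
  have hab : a • al ≠ al := fun e' => by simp [h.fpf ha e'] at e
  have a2 : a • a • al = al := by rw [← mul_smul, aa, one_smul]
  obtain ⟨u, u1, uu, ua, ub⟩ := h.exists_u hab
  by_cases hF : ∀ z : Ω, u • z = z → z = al ∨ z = a • al
  · exact h.case_two ha hab rfl a2 u1 uu ua ub hF
  push Not at hF
  obtain ⟨ga, ug, g1, g2⟩ := hF
  have CF : ∀ {g : X} {x : Ω}, g * u = u * g → u • x = x → u • g • x = g • x := fun hg e => by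
    rw [← mul_smul, ← hg, mul_smul, e]
  have mC : ∀ {g : X} {x y : Ω}, y ≠ x → u • x = x → u • y = y → u • g • x = g • x → u • g • y = g • y →
      g ∈ centralizer {u} := fun e e1 e2 e3 e4 => mem_centralizer_singleton_iff.2 (h.conj_u e u1 uu e1 e2 u1 uu e3 e4)
  have au := mem_centralizer_singleton_iff.1 (mC hab ua ub ub (by rw [a2, ua]))
  let De : SubMulAction (centralizer {u} : Subgroup X) Ω :=
    ⟨{x | u • x = x}, fun g _ hx => CF (mem_centralizer_singleton_iff.1 g.2) hx⟩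
  have ev : Even (Nat.card De) := by
    have := card_modEq (Ω := Ω) (p := 2) (k := 1) (g := u) fun x => by simp [sq, uu]
    rw [Nat.even_iff, ← show Nat.card Ω % 2 = Nat.card De % 2 from this, ← Nat.even_iff]
    exact h.even
  have big : 2 < Nat.card De := by
    have := Fintype.ofFinite De
    rw [Nat.card_eq_fintype_card, Fintype.two_lt_card_iff]
    exact ⟨⟨al, ua⟩, ⟨_, ub⟩, ⟨ga, ug⟩, by simpa using hab.symm, by simpa using g1.symm, by simpa using g2.symm⟩
  refine (fun c => ?_) (ih (centralizer {u} : Subgroup X) De (A.subgroupOf _) ⟨fun x y z w e1 e2 => ?_, ev, big, ?_, fun x y => ?_, fun x => ?_⟩ ?_)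
  · refine (h.big_false ha aa hab rfl u1 uu ua ub (fun x y z => ?_) (fun x y z x' y' z' e1 e2 e3 e4 e5 e6 n1 n2 n3 n4 n5 n6 => ?_)
      fun g x y hg e n1 e1 e2 z hz => ?_).elim
    · by_contra! H
      have := Nat.card_le_card_of_injective (fun w : De => (⟨w.1, by
        by_contra! e
        simp only [Set.mem_insert_iff, Set.mem_singleton_iff, not_or] at e
        exact e.2.2 (H w w.2 e.1 e.2.1)⟩ : ({x, y, z} : Set Ω))) fun v w e => Subtype.ext (congrArg Subtype.val e :)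
      have h3 : Nat.card ({x, y, z} : Set Ω) ≤ 3 := by
        rw [Nat.card_coe_set_eq]
        exact (Set.ncard_insert_le _ _).trans (Nat.succ_le_succ ((Set.ncard_insert_le _ _).trans (by simp)))
      replace this := this.trans h3
      rw [Nat.even_iff] at ev
      omega
    · obtain ⟨g, b1, b2, b3⟩ := c.three (a := ⟨x, e1⟩) (b := ⟨y, e2⟩) (d := ⟨z, e3⟩) (a' := ⟨x', e4⟩) (b' := ⟨y', e5⟩)
        (d' := ⟨z', e6⟩) (by simpa) (by simpa) (by simpa) (by simpa) (by simpa) (by simpa)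
      exact ⟨g, mem_centralizer_singleton_iff.1 g.2, congrArg Subtype.val b1, congrArg Subtype.val b2, congrArg Subtype.val b3⟩
    · exact congrArg Subtype.val (c.swap ⟨g, mem_centralizer_singleton_iff.2 hg⟩ ⟨x, e⟩ ⟨y, e1 ▸ CF hg e⟩ (by simpa)
        (Subtype.ext e1) (Subtype.ext e2) ⟨z, hz⟩)
  · obtain ⟨g, b1, b2⟩ := h.two x y z w (by simpa using e1) (by simpa using e2)
    exact ⟨⟨g, mC (by simpa using e1.symm) x.2 y.2 (b1 ▸ z.2) (b2 ▸ w.2)⟩, Subtype.ext b1, Subtype.ext b2⟩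
  · have := h.cyc
    exact isCyclic_of_injective ((Subgroup.subtype _).subgroupComap A) fun x y e =>
      Subtype.ext (Subtype.ext (congrArg Subtype.val e :))
  · obtain ⟨g, hg, e⟩ := h.tr x y
    have := h.cyc
    refine ⟨⟨g, mC (y := a • x) (fun e => hab (by rw [h.fpf ha e, one_smul])) x.2 (CF au x.2) (e ▸ y.2) ?_⟩, hg,
      Subtype.ext e⟩
    rw [← mul_smul g, show g * a = a * g from congrArg Subtype.val (mul_comm' (⟨g, hg⟩ : A) ⟨a, ha⟩), mul_smul, e]
    exact CF au y.2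
  · have := h.zg x
    exact IsZGroup.of_injective (f := ((Subgroup.subtype _).comp (stabilizer _ x).subtype).codRestrict (stabilizer X (x : Ω))
      fun g => congrArg Subtype.val g.2) fun x y e => Subtype.ext (Subtype.ext (congrArg Subtype.val e :))
  · by_contra! H
    have := (Nat.bijective_iff_injective_and_card (Subtype.val : De → Ω)).2 ⟨Subtype.val_injective,
      (Nat.card_le_card_of_injective _ Subtype.val_injective).antisymm H⟩
    exact u1 (eq_of_smul_eq_smul fun x : Ω => by obtain ⟨x, rfl⟩ := this.2 x; rw [one_smul]; exact x.2)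

/-- A doubly transitive group of even degree with a transitive cyclic subgroup whose point stabilisers are Z-groups
induces a sharply triply transitive group. -/
theorem Hyp.concl {X Ω : Type u} [Group X] [MulAction X Ω] [Finite X] [Finite Ω] {A : Subgroup X} (h : Hyp X Ω A) :
    Concl X Ω := by
  induction hn : Nat.card Ω using Nat.strong_induction_on generalizing X Ω with
  | _ n ih =>
  exact Concl.comap (toPermHom X Ω).rangeRestrict (MonoidHom.rangeRestrict_surjective _) (fun _ _ => rfl)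
    ((h.map (toPermHom X Ω).rangeRestrict (MonoidHom.rangeRestrict_surjective _) fun _ _ => rfl).step
      fun _ _ _ _ _ _ _ h' e => ih _ (hn ▸ e) h' rfl)

end CL.ABZ
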