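/-
Products of a cyclic group and a Z-group without soluble normal subgroups.
-/
import Cfsg.Agent.Perm.ABZ3
import Cfsg.Agent.Perm.SRingCyc
import Cfsg.Agent.Perm.ZassKernel
import Cfsg.Agent.Grp.Fitting
import Cfsg.Agent.Odd.FT
import Cfsg.Agent.Known.AltMisc

set_option autoImplicit false
set_option linter.unusedSectionVars false

namespace CL.ABZ

open Subgroup MulAction Cfsg CL.Grp CL.Perm

/-- `G` is the product of the cyclic group `A` and the Z-group `B`. -/
structure Fac (G : Type*) [Group G] (A B : Subgroup G) : Prop where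
  cyc : IsCyclic A
  zg : IsZGroup B
  mul : ∀ g : G, ∃ a ∈ A, ∃ b ∈ B, g = a * b

/-- No soluble normal subgroup other than the trivial one. -/
def SS (G : Type*) [Group G] : Prop := ∀ N : Subgroup G, N.Normal → Group.IsSolvable N → N = ⊥

section

variable {G : Type*} [Group G] [Finite G] {A B : Subgroup G}

theorem SS.not_solv (s : SS G) [Nontrivial G] : ¬Group.IsSolvable G := fun _ =>
  top_ne_bot (s ⊤ inferInstance inferInstance)

theorem SS.nil_bot (s : SS G) {K P : Subgroup G} [hn : K.Normal] (hK : centralizer (K : Set G) = ⊥)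
    (hP : Group.IsNilpotent P) (h : K ≤ normalizer (P : Set G)) : P = ⊥ := by
  have := fittingOf_isNilpotent K
  have h1 := le_fittingOf (N := P ⊓ K) inf_le_right ((le_inf h le_normalizer).trans (inf_normalizer_le_normalizer_inf))
    (isNilpotent_of_le hP inf_le_left)
  rw [s (fittingOf K) inferInstance inferInstance] at h1
  refine eq_bot_iff.2 (hK ▸ fun g hg => mem_centralizer_iff.2 fun k hk => ?_)
  have := mem_bot.1 (h1 (x := k * g * k⁻¹ * g⁻¹) ⟨P.mul_mem ((mem_normalizer_iff.1 (h hk) g).1 hg) (P.inv_mem hg),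
    by simpa [mul_assoc] using mul_mem hk (hn.conj_mem _ (inv_mem hk) g)⟩)
  rwa [mul_inv_eq_one, mul_inv_eq_iff_eq_mul] at this

theorem Concl.isZ {Ω : Type*} [MulAction G Ω] [FaithfulSMul G Ω] [Finite Ω] (c : Concl G Ω) (h : 2 < Nat.card Ω) :
    IsZ G Ω := by
  have := Fintype.ofFinite Ω
  rw [Nat.card_eq_fintype_card, Fintype.two_lt_card_iff] at h
  obtain ⟨a, b, d, h1, h2, h3⟩ := h
  exact ⟨c.two _ _ _ _, fun e1 e2 e3 e4 e5 e6 => eq_of_smul_eq_smul fun x : Ω => by
    rw [c.fix3 _ _ _ _ e1 e3.symm e2.symm e4 e5 e6, one_smul], a, b, d, h1, h3, h2⟩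

theorem exists_sylow {Ω : Type*} [MulAction G Ω] [Finite Ω] (z : IsZ G Ω) (hp : (Nat.card Ω - 1).Prime)
    (ev : Even (Nat.card Ω)) (x : Ω) {K : Subgroup G} [hK : K.Normal] (h : ¬Group.IsSolvable K) :
    ∃ (r : ℕ) (_ : Fact r.Prime) (P : Subgroup G), P ≠ ⊥ ∧ IsSylowIn r P K ∧ stabilizer G x ≤ normalizer (P : Set G) := by
  have := Fact.mk Nat.prime_two
  have := Fact.mk hp
  obtain ⟨F, hF, -⟩ := z.exists_isKer x
  have hc := hF.card z
  obtain ⟨y, hy⟩ := z.exists_ne x
  have hFK : F ≤ K := by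
    obtain ⟨g, hg, g1, e⟩ : ∃ g ∈ K, g ≠ 1 ∧ g • x = x := by
      by_contra! H
      have tr := z.isPretransitive_normal hK (by rintro rfl; exact h inferInstance)
      obtain ⟨⟨t, ht⟩, e⟩ := exists_prime_orderOf_dvd_card' 2 (ev.two_dvd.trans (card_dvd_of_tr (A := K) x fun a b =>
        let ⟨g, e⟩ := exists_smul_eq K a b; ⟨g, g.2, e⟩))
      rw [← orderOf_coe] at e
      have tt : t * t = 1 := by rw [← sq, ← e]; exact pow_orderOf_eq_one t
      have sq : ∀ k ∈ K, k * k = 1 := fun k hk => by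
        by_cases k1 : k = 1
        · simp [k1]
        obtain ⟨b, e1, e2⟩ := z.trans (H t ht fun e' => by simp [e'] at e).symm (H k hk k1).symm
        have : k⁻¹ * (b * t * b⁻¹) = 1 := by_contra fun e3 => H _ (mul_mem (inv_mem hk) (hK.conj_mem t ht b)) e3 (by
          rw [mul_smul, mul_smul, inv_smul_eq_iff.2 e1.symm, mul_smul, e2, inv_smul_smul])
        rw [inv_mul_eq_one.1 this, conj_mul, tt]; group
      refine h (Group.isSolvable_of_comm fun a b => Subtype.ext ?_)
      have := sq _ (a * b).2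
      rw [coe_mul, ← eq_inv_iff_mul_eq_one, mul_inv_rev, inv_eq_of_mul_eq_one_right (sq _ a.2),
        inv_eq_of_mul_eq_one_right (sq _ b.2)] at this
      exact this
    by_cases hgF : g ∈ F
    · intro u hu
      obtain ⟨n, hn⟩ := mem_zpowers_of_prime_card hc (g := (⟨g, hgF⟩ : F)) (g' := ⟨u, hu⟩) fun e => g1 (congrArg Subtype.val e)
      exact (show g ^ n = u from congrArg Subtype.val hn) ▸ zpow_mem hg n
    · intro u hu
      obtain ⟨v, -, rfl⟩ := hF.exists_commutator z e hgF hu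
      exact mul_mem (hK.conj_mem _ hg v) (inv_mem hg)
  refine ⟨_, this, F, fun e => ?_, IsSylowIn.of_le (H := ⊤) ⟨le_top, IsPGroup.of_card (n := 1) (by rw [hc, pow_one]), ?_⟩
    hFK le_top, fun g hg => mem_normalizer_iff.2 fun u => ⟨hF.conj_mem hg, fun e => ?_⟩⟩
  · rw [e, card_bot] at hc
    exact hp.ne_one hc.symm
  · have h1 := F.index_mul_card
    have h2 := hp.two_le
    rw [z.card_group hy.symm, hc, mul_right_comm, mul_left_inj' hp.ne_zero] at h1
    rw [relIndex_top_right, h1, hp.dvd_mul, not_or]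
    refine ⟨fun e => ?_, fun e => ?_⟩
    · have := Nat.le_of_dvd (by omega) (Nat.dvd_sub e dvd_rfl)
      omega
    · have := Nat.le_of_dvd (by omega) (e.trans (z.card_stab2_dvd hy.symm))
      omega
  · simpa [mul_assoc] using hF.conj_mem (inv_mem hg) e

namespace Fac

variable (f : Fac G A B)
include f

theorem tr {H : Subgroup G} (hH : B ≤ H) (x y : G ⧸ H) : ∃ g ∈ A, g • x = y := by
  have key : ∀ x : G ⧸ H, ∃ g ∈ A, g • ((1 : G) : G ⧸ H) = x := fun x => by
    obtain ⟨g, rfl⟩ := QuotientGroup.mk_surjective x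
    obtain ⟨a, ha, b, hb, rfl⟩ := f.mul g
    exact ⟨a, ha, QuotientGroup.eq.2 (by simpa using hH hb)⟩
  obtain ⟨g, hg, rfl⟩ := key x
  obtain ⟨k, hk, rfl⟩ := key y
  exact ⟨k * g⁻¹, mul_mem hk (inv_mem hg), by rw [mul_smul, inv_smul_smul]⟩

theorem core {H : Subgroup G} (hH : B ≤ H) {a : G} (ha : a ∈ A) (h : a ∈ H) : a ∈ H.normalCore := fun g => by
  obtain ⟨c, hc, b, hb, e⟩ := f.mul g⁻¹
  have := f.cyc
  rw [← inv_inv g, e, inv_inv, mul_inv_rev, mul_assoc _ _ a,
    show c⁻¹ * a = a * c⁻¹ from congrArg Subtype.val (mul_comm' (⟨c, hc⟩ : A)⁻¹ ⟨a, ha⟩)]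
  simpa [mul_assoc] using mul_mem (inv_mem (hH hb)) (mul_mem h (hH hb))

theorem even (h : ¬Group.IsSolvable G) : Even B.index := by
  have := f.zg
  have := Fact.mk Nat.prime_two
  refine Nat.not_odd_iff_even.1 fun e => h ?_
  obtain ⟨N, _, h1, h2⟩ := exists_odd_normal B e
  have := CL.Odd.feit_thompson h1
  have := h2.isNilpotent
  exact Group.isSolvable_of_ker_le_range N.subtype (QuotientGroup.mk' N) (by simp)

theorem sub {W : Subgroup G} (hW : ∀ a ∈ A, ∀ b ∈ B, a * b ∈ W → a ∈ W) : Fac W (A.subgroupOf W) (B.subgroupOf W) := by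
  have := f.cyc
  have := f.zg
  refine ⟨isCyclic_of_injective (W.subtype.subgroupComap A) fun x y e => Subtype.ext (Subtype.ext (congrArg Subtype.val e :)),
    IsZGroup.of_injective (f := W.subtype.subgroupComap B) fun x y e => Subtype.ext (Subtype.ext (congrArg Subtype.val e :)),
    fun ⟨w, hw⟩ => ?_⟩
  obtain ⟨a, ha, b, hb, rfl⟩ := f.mul w
  have := hW a ha b hb hw
  exact ⟨⟨a, this⟩, ha, ⟨b, (mul_mem_cancel_left this).1 hw⟩, hb, rfl⟩

theorem exists_inv (s : SS G) {W W' : Subgroup G} [W.Normal] [W'.Normal] (h : W ⊓ W' = ⊥)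
    (hc : centralizer (W' : Set G) ≤ W) (hW : W ≠ ⊥) : ∃ t : A, (t : G) ∈ W ∧ t * t = 1 ∧ t ≠ 1 := by
  have := f.zg
  have := Fact.mk Nat.prime_two
  have : Group.IsSolvable (B.map (QuotientGroup.mk' W)) :=
    Group.isSolvable_of_surjective ((QuotientGroup.mk' W).subgroupMap_surjective B)
  have h1 := s ((B ⊔ W).normalCore ⊓ W') inferInstance (Group.isSolvable_of_isSolvable_injective
    (f := ((QuotientGroup.mk' W).comp (Subgroup.subtype _)).codRestrict (B.map (QuotientGroup.mk' W)) fun g => by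
      obtain ⟨b, hb, w, hw, e⟩ := mem_sup_of_normal_right.1 (normalCore_le _ g.2.1)
      exact ⟨b, hb, QuotientGroup.eq.2 (by simpa [← e])⟩)
    ((injective_iff_map_eq_one _).2 fun g e => Subtype.ext (mem_bot.1
      (h ▸ ⟨(QuotientGroup.eq_one_iff _).1 (congrArg Subtype.val e), g.2.2⟩ : (g : G) ∈ ⊥))))
  have f' := f.sub (W := W) fun a ha b hb e => hc (mem_centralizer_iff.2 fun w hw =>
    (commute_of_normal_of_disjoint _ _ inferInstance inferInstance (disjoint_iff.2 h1) _ _ (f.core le_sup_left ha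
      (by simpa using mul_mem (mem_sup_right (S := B) e) (mem_sup_left (inv_mem hb)))) hw).eq.symm)
  obtain ⟨⟨⟨t, h2⟩, h3⟩, e⟩ := exists_prime_orderOf_dvd_card' 2 ((f'.even fun e => hW (s W inferInstance e)).two_dvd.trans
    (card_dvd_of_tr ((1 : W) : W ⧸ B.subgroupOf W) (f'.tr le_rfl)))
  rw [← orderOf_coe, ← orderOf_coe] at e
  exact ⟨⟨t, h3⟩, h2, Subtype.ext (by rw [coe_mul, ← sq, ← e]; exact pow_orderOf_eq_one t),
    fun e' => by simp [show t = 1 from congrArg Subtype.val e'] at e⟩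

theorem cent (s : SS G) {Y : Subgroup G} [Y.Normal] (hY : Y ≠ ⊥) : centralizer (Y : Set G) = ⊥ := by
  by_contra h
  have := f.cyc
  have h1 := s (centralizer (Y : Set G) ⊓ centralizer (centralizer (Y : Set G) : Set G)) inferInstance
    (Group.isSolvable_of_comm fun a b => Subtype.ext (mem_centralizer_iff.1 b.2.2 _ a.2.1))
  have h2 : Y ≤ centralizer (centralizer (Y : Set G) : Set G) := le_centralizer_iff.1 le_rfl
  obtain ⟨t, a1, a2, a3⟩ := f.exists_inv s h1 (centralizer_le h2) h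
  obtain ⟨t', b1, b2, b3⟩ := f.exists_inv s ((inf_comm _ _).trans h1) le_rfl fun e => hY (eq_bot_iff.2 (e ▸ h2))
  obtain rfl := cyc_inv a2 b2 a3 b3
  exact a3 (Subtype.ext (mem_bot.1 (h1 ▸ ⟨a1, b1⟩ : (t : G) ∈ ⊥)))

theorem faithful (s : SS G) : B.normalCore = ⊥ := by
  have := f.zg
  exact s _ inferInstance (Group.isSolvable_of_isSolvable_injective (inclusion_injective (normalCore_le B)))

end Fac

omit [Finite G] in
theorem faithful_of_core {H : Subgroup G} (h : H.normalCore = ⊥) : FaithfulSMul G (G ⧸ H) :=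
  ⟨fun e => (MonoidHom.ker_eq_bot_iff (toPermHom G (G ⧸ H))).1 (normalCore_eq_ker H ▸ h) (Equiv.ext e)⟩

end

universe u

theorem Fac.hyp {G : Type u} [Group G] [Finite G] [Nontrivial G] {A B : Subgroup G} (f : Fac G A B) (s : SS G) :
    Hyp G (G ⧸ B) A := by
  induction hn : Nat.card G using Nat.strong_induction_on generalizing G with
  | _ n ih =>
  have := f.zg
  obtain ⟨M, hM, hBM⟩ := (eq_top_or_exists_le_coatom B).resolve_left (by
    rintro rfl
    exact s.not_solv (Group.isSolvable_of_surjective (f := Subgroup.subtype ⊤) fun g => ⟨⟨g, trivial⟩, rfl⟩))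
  by_cases hK : M.normalCore = ⊥
  · obtain rfl : B = M := hBM.antisymm fun m hm => by
      obtain ⟨a, ha, b, hb, rfl⟩ := f.mul m
      rwa [mem_bot.1 (hK ▸ f.core hBM ha ((mul_mem_cancel_right (hBM hb)).1 hm) : a ∈ ⊥), one_mul]
    have ev : Even (Nat.card (G ⧸ B)) := f.even s.not_solv
    have := faithful_of_core hK
    have big : 4 < Nat.card (G ⧸ B) := lt_of_not_ge fun e =>
      have := CL.Known.isSolvable_perm_of_card_le_four e
      s.not_solv (Group.isSolvable_of_isSolvable_injective (f := toPermHom G (G ⧸ B)) toPerm_injective)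
    have : Nontrivial (G ⧸ B) := Finite.one_lt_card_iff_nontrivial.1 (by omega)
    have := (isCoatom_stabilizer_iff_preprimitive G ((1 : G) : G ⧸ B)).1 (by rwa [stabilizer_quotient])
    have h2 := two_transitive_of_regular_cyclic (G := G) (Ω := G ⧸ B) (fun e => by have := e.even_iff.1 ev; omega) A f.cyc
      ⟨⟨fun a b => let ⟨g, h1, h2⟩ := f.tr le_rfl a b; ⟨⟨g, h1⟩, h2⟩⟩, fun x => eq_bot_iff.2 fun g hg => Subtype.ext
        (eq_of_smul_eq_smul fun y : G ⧸ B => by
          obtain ⟨k, hk, rfl⟩ := f.tr le_rfl x y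
          have := f.cyc
          rw [coe_one, one_smul, ← mul_smul, show g * k = k * g from congrArg Subtype.val (mul_comm' g ⟨k, hk⟩), mul_smul,
            show (g : G) • x = x from hg])⟩
    refine ⟨fun _ _ _ _ => is_two_pretransitive_iff.1 h2, ev, by omega, f.cyc, f.tr le_rfl, fun x => ?_⟩
    obtain ⟨g, rfl⟩ := exists_smul_eq G ((1 : G) : G ⧸ B) x
    rw [stabilizer_smul_eq_stabilizer_map_conj, stabilizer_quotient]
    exact IsZGroup.of_surjective (MonoidHom.subgroupMap_surjective _ B)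
  have hc := f.cent s hK
  have KM := normalCore_le M
  have f' := f.sub (W := M) fun a _ b hb e => (mul_mem_cancel_right (hBM hb)).1 e
  have s' : SS M := fun N _ hN => by_contra fun e => by
    have := (nontrivial_iff_ne_bot N).2 e
    have := fittingSubgroup_ne_bot N
    rw [Ne, ← map_eq_bot_iff_of_injective _ N.subtype_injective, ← fittingOf_def,
      ← map_eq_bot_iff_of_injective _ M.subtype_injective, map_fittingOf_of_injective M.subtype_injective] at this
    exact this (s.nil_bot hc (fittingOf_isNilpotent _) (KM.trans ((le_normalizer_map_subtype N).trans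
      (normalizer_le_normalizer_fittingOf _))))
  have : Nontrivial M := (nontrivial_iff_ne_bot M).2 fun e => hK (eq_bot_iff.2 (e ▸ KM))
  have h' := ih _ (hn ▸ (Nat.card_le_card_of_injective _ M.subtype_injective).lt_of_ne fun e => hM.1 (eq_top_of_card_eq _ e)) f' s' rfl
  have := faithful_of_core (f'.faithful s')
  obtain ⟨r, _, P, p1, p2, p3⟩ := exists_sylow (h'.concl.isZ h'.big) h'.concl.prime h'.even ((1 : M) : M ⧸ B.subgroupOf M)
    (K := M.normalCore.subgroupOf M) fun _ => hK (s _ inferInstance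
      (Group.isSolvable_of_surjective (f := (subgroupOfEquivOfLe KM).toMonoidHom) (subgroupOfEquivOfLe KM).surjective))
  rw [stabilizer_quotient] at p3
  have q2 : IsSylowIn r (P.map M.subtype) M.normalCore := by
    rw [← map_subgroupOf_eq_of_le KM]
    exact ⟨map_mono p2.1, p2.2.1.map _, relIndex_map_map_of_injective _ _ M.subtype_injective ▸ p2.2.2⟩
  have q3 : B ≤ normalizer (P.map M.subtype : Set G) :=
    (map_subgroupOf_eq_of_le hBM).ge.trans ((map_mono p3).trans (le_normalizer_map _))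
  rw [Ne, ← map_eq_bot_iff_of_injective _ M.subtype_injective] at p1
  generalize P.map M.subtype = Q at p1 q2 q3
  have q4 : (normalizer (Q : Set G)).normalCore = ⊥ := by_contra fun e =>
    p1 (s.nil_bot (f.cent s e) q2.isPGroup.isNilpotent (normalCore_le _))
  refine (hM.1 (eq_top_iff.2 fun g _ => ?_)).elim
  obtain ⟨a, ha, b, hb, rfl⟩ := f.mul g
  obtain ⟨k, hk, e⟩ := q2.frattini (H := ⊤) (by rw [normalizer_eq_top]) (mem_top a)
  obtain ⟨a', ha', b', hb', e'⟩ := f.mul k⁻¹
  have := mem_bot.1 (q4 ▸ f.core q3 (mul_mem (inv_mem ha') ha) (by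
    simpa [inv_eq_iff_eq_inv.1 e', mul_assoc] using mul_mem (q3 hb') e))
  rw [← inv_mul_eq_one.1 this]
  exact mul_mem ((mul_mem_cancel_right (hBM hb')).1 (e' ▸ inv_mem (KM hk))) (hBM hb)

end CL.ABZ
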