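/-
Derangements of prime order in primitive actions of alternating groups.
-/
import Cfsg.Agent.Perm.PrimJordan

set_option autoImplicit false

namespace CL.Perm.AltDer

open Equiv Equiv.Perm MulAction Subgroup
open scoped Pointwise

theorem pow_le_choose {m r : ℕ} (h : r ≤ m) : m ^ r ≤ r ^ r * m.choose r := by
  have key : ∀ j, j ≤ r → m ^ j * r.descFactorial j ≤ r ^ j * m.descFactorial j := fun j hj => by
    induction j with
    | zero => simp
    | succ j ih =>
      have h1 : m * (r - j) ≤ r * (m - j) := by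
        rw [Nat.mul_sub, Nat.mul_sub, mul_comm r m]
        exact Nat.sub_le_sub_left (Nat.mul_le_mul_right j h) _
      rw [Nat.descFactorial_succ, Nat.descFactorial_succ, pow_succ, pow_succ]
      calc m ^ j * m * ((r - j) * r.descFactorial j) = m ^ j * r.descFactorial j * (m * (r - j)) := by ring
        _ ≤ r ^ j * m.descFactorial j * (r * (m - j)) := Nat.mul_le_mul (ih (by omega)) h1
        _ = _ := by ring
  have := key r le_rfl
  rw [Nat.descFactorial_self, Nat.descFactorial_eq_factorial_mul_choose, mul_left_comm, mul_comm] at this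
  exact Nat.le_of_mul_le_mul_left this r.factorial_pos

theorem choose_mono {m a b : ℕ} (h : a ≤ b) (hb : 2 * b ≤ m) : m.choose a ≤ m.choose b := by
  induction b, h using Nat.le_induction with
  | base => exact le_rfl
  | succ b _ ih => exact (ih (by omega)).trans (Nat.choose_le_succ_of_lt_half_left (by omega))

theorem choose_le_pow {m k : ℕ} (hk : k ≤ m) (hm : 0 < m) : m.choose k ≤ m ^ (m.choose k).primeFactors.card := by
  conv_lhs => rw [← Nat.prod_factorization_pow_eq_self (Nat.choose_pos hk).ne']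
  exact Finset.prod_le_pow_card _ _ _ fun p _ => Nat.pow_factorization_choose_le hm

/-- a weak form of the theorem of Sylvester and Schur -/
theorem lt_or_lt {m k r : ℕ} (hk : 2 * k ≤ m) (hr : r.Prime) (hmax : ∀ s : ℕ, s.Prime → s ∣ m.choose k → s ≤ r) :
    k < r ∨ m < r ^ 2 := by
  by_contra! h
  have h2 := hr.two_le
  have hm : 0 < m := by omega
  have h1 := (choose_mono h.1 hk).trans (choose_le_pow (by omega) hm)
  have hsub : (m.choose k).primeFactors ⊆ (Finset.range (r + 1)).filter Nat.Prime := fun p hp =>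
    Finset.mem_filter.2 ⟨Finset.mem_range.2 (Nat.lt_succ_of_le
      (hmax p (Nat.prime_of_mem_primeFactors hp) (Nat.dvd_of_mem_primeFactors hp))), Nat.prime_of_mem_primeFactors hp⟩
  have h3 := h1.trans (Nat.pow_le_pow_right hm (Finset.card_le_card hsub))
  have h4 := Nat.pow_sub_le_descFactorial m r
  rw [Nat.descFactorial_eq_factorial_mul_choose] at h4
  replace h4 := h4.trans (Nat.mul_le_mul_left _ h3)
  by_cases h11 : 11 ≤ r
  · have hc : ((Finset.range (r + 1)).filter Nat.Prime).card ≤ (Finset.Icc 1 (r / 2)).card := by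
      refine Finset.card_le_card_of_injOn (fun p => if p = 2 then 4 else p / 2) (fun p hp => ?_) fun p hp q hq e => ?_
      · simp only [Finset.coe_filter, Finset.mem_range, Set.mem_ofPred_eq] at hp
        have := hp.2.two_le
        simp only [Finset.coe_Icc, Set.mem_Icc]
        split_ifs <;> omega
      · simp only [Finset.coe_filter, Finset.mem_range, Set.mem_ofPred_eq] at hp hq
        have h5 := hp.2.eq_two_or_odd
        have h6 := hq.2.eq_two_or_odd
        have h7 : p ≠ 9 := fun e => absurd (e ▸ hp.2) (by norm_num)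
        have h8 : q ≠ 9 := fun e => absurd (e ▸ hq.2) (by norm_num)
        dsimp only at e
        split_ifs at e <;> omega
    rw [Nat.card_Icc, Nat.add_sub_cancel] at hc
    have h5 := (pow_le_choose (show r ≤ m by omega)).trans
      (Nat.mul_le_mul_left _ (h3.trans (Nat.pow_le_pow_right hm hc)))
    have h6 : (m ^ r) ^ 2 ≤ m ^ r * m ^ (r / 2 * 2) :=
      calc (m ^ r) ^ 2 ≤ (r ^ r * m ^ (r / 2)) ^ 2 := Nat.pow_le_pow_left h5 2
        _ = (r ^ 2) ^ r * m ^ (r / 2 * 2) := by rw [mul_pow, ← pow_mul, ← pow_mul, ← pow_mul, mul_comm r 2]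
        _ ≤ _ := Nat.mul_le_mul_right _ (Nat.pow_le_pow_left h.2 r)
    rw [← pow_mul, ← pow_add, Nat.pow_le_pow_iff_right (by omega)] at h6
    have := hr.eq_two_or_odd
    omega
  · have h5 := h.2
    have h6 : r = 2 ∨ r = 3 ∨ r = 5 ∨ r = 7 := by
      interval_cases r <;> first | omega | exact absurd hr (by norm_num)
    rcases h6 with rfl | rfl | rfl | rfl
    · obtain ⟨n, rfl⟩ : ∃ n, m = n + 4 := ⟨m - 4, by omega⟩
      rw [show ((Finset.range (2 + 1)).filter Nat.Prime).card = 1 by decide, show n + 4 + 1 - 2 = n + 3 by omega] at h4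
      simp only [Nat.factorial] at h4
      nlinarith
    · obtain ⟨n, rfl⟩ : ∃ n, m = n + 9 := ⟨m - 9, by omega⟩
      replace h3 := Nat.mul_le_mul_left (Nat.factorial 3) h3
      rw [← Nat.descFactorial_eq_factorial_mul_choose,
        show ((Finset.range (3 + 1)).filter Nat.Prime).card = 2 by decide] at h3
      simp only [Nat.factorial, Nat.descFactorial, show n + 9 - 2 = n + 7 by omega, show n + 9 - 1 = n + 8 by omega,
        Nat.sub_zero] at h3
      nlinarith [Nat.zero_le (n ^ 3), Nat.zero_le (n ^ 2)]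
    · obtain ⟨n, rfl⟩ : ∃ n, m = n + 4 := ⟨m - 4, by omega⟩
      rw [show ((Finset.range (5 + 1)).filter Nat.Prime).card = 3 by decide, show n + 4 + 1 - 5 = n by omega] at h4
      have h7 : (n + 4) ^ 3 ≤ (n + n / 5) ^ 3 := Nat.pow_le_pow_left (by omega) 3
      have h8 : (5 * (n + n / 5)) ^ 3 ≤ (6 * n) ^ 3 := Nat.pow_le_pow_left (by omega) 3
      have h9 : 21 ^ 2 * n ^ 3 ≤ n ^ 2 * n ^ 3 := Nat.mul_le_mul_right _ (Nat.pow_le_pow_left (by omega) 2)
      have h10 : 0 < n ^ 3 := pow_pos (by omega) 3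
      rw [← pow_add] at h9
      simp only [Nat.factorial, mul_pow, Nat.reduceAdd] at h4 h8 h9
      omega
    · obtain ⟨n, rfl⟩ : ∃ n, m = n + 6 := ⟨m - 6, by omega⟩
      rw [show ((Finset.range (7 + 1)).filter Nat.Prime).card = 4 by decide, show n + 6 + 1 - 7 = n by omega] at h4
      have h7 : (n + 6) ^ 4 ≤ (n + n / 7) ^ 4 := Nat.pow_le_pow_left (by omega) 4
      have h8 : (7 * (n + n / 7)) ^ 4 ≤ (8 * n) ^ 4 := Nat.pow_le_pow_left (by omega) 4
      have h9 : 43 ^ 3 * n ^ 4 ≤ n ^ 3 * n ^ 4 := Nat.mul_le_mul_right _ (Nat.pow_le_pow_left (by omega) 3)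
      have h10 : 0 < n ^ 4 := pow_pos (by omega) 4
      rw [← pow_add] at h9
      simp only [Nat.factorial, mul_pow, Nat.reduceAdd] at h4 h8 h9
      omega

theorem mod_lt_aux {m k r : ℕ} (hm : 5 ≤ m) (hk : 2 * k ≤ m) (hr : r.Prime) (hd : r ∣ m.choose k)
    (hmax : ∀ s : ℕ, s.Prime → s ∣ m.choose k → s ≤ r) : m % r < k % r ∧ (r = 2 → 4 ∣ m) := by
  have := Fact.mk hr
  have h1 := lt_or_lt hk hr hmax
  have key : ∀ a b : ℕ, a < r → b ≤ a → ¬ r ∣ a.choose b := fun a b ha hb h =>
    absurd (hr.dvd_factorial.1 (h.trans (Dvd.intro _ (by rw [← Nat.choose_mul_factorial_mul_factorial hb, mul_assoc]))))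
      (by omega)
  constructor
  · by_contra! h
    rcases hr.dvd_mul.1 (((Choose.choose_modEq_choose_mod_mul_choose_div_nat (n := m) (k := k) (p := r)).dvd_iff
      dvd_rfl).1 hd) with h2 | h2
    · exact key _ _ (Nat.mod_lt _ hr.pos) h h2
    · rcases h1 with h1 | h1
      · rw [Nat.div_eq_of_lt h1, Nat.choose_zero_right] at h2
        exact hr.one_lt.ne' (Nat.dvd_one.1 h2)
      · exact key _ _ (Nat.div_lt_of_lt_mul (by rwa [← sq])) (Nat.div_le_div_right (by omega)) h2
  · rintro rfl
    obtain rfl : k = 1 := by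
      rcases k with _ | k
      · simp at hd
      · omega
    rw [Nat.choose_one_right] at hd hmax
    obtain ⟨n, rfl⟩ := hd
    obtain ⟨s, hs, h2⟩ := Nat.exists_prime_and_dvd (n := n) (by omega)
    obtain rfl : s = 2 := le_antisymm (hmax s hs (h2.mul_left 2)) hs.two_le
    omega

theorem mod_lt {m k r : ℕ} (hm : 5 ≤ m) (hk : k ≤ m) (hr : r.Prime) (hd : r ∣ m.choose k)
    (hmax : ∀ s : ℕ, s.Prime → s ∣ m.choose k → s ≤ r) : m % r < k % r ∧ (r = 2 → 4 ∣ m) := by
  by_cases h : 2 * k ≤ m
  · exact mod_lt_aux hm h hr hd hmax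
  rw [← Nat.choose_symm hk] at hd hmax
  refine (mod_lt_aux hm (by omega) hr hd hmax).imp_left fun h1 => ?_
  have h2 := Nat.add_mod k (m - k) r
  have h3 := Nat.mod_lt k hr.pos
  have h4 := Nat.mod_lt (m - k) hr.pos
  rw [Nat.add_sub_cancel' hk] at h2
  by_cases h5 : k % r + (m - k) % r < r
  · rw [Nat.mod_eq_of_lt h5] at h2; omega
  · rw [Nat.mod_eq_sub_mod (not_lt.1 h5), Nat.mod_eq_of_lt (a := _ - r) (by omega)] at h2; omega

theorem exists_conj_mem {G : Type*} [Group G] [Finite G] {K : Subgroup G} {p : ℕ} (hp : p.Prime) (h : ¬ p ∣ K.index)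
    {x : G} (hx : orderOf x = p) : ∃ a : G, a * x * a⁻¹ ∈ K := by
  have := Fact.mk hp
  obtain ⟨q, hq⟩ := (IsPGroup.of_card (G := zpowers x) (n := 1)
    (by rw [Nat.card_zpowers, hx, pow_one])).nonempty_fixed_point_of_prime_not_dvd_card (G ⧸ K) h
  obtain ⟨a, rfl⟩ := QuotientGroup.mk_surjective q
  have h1 : ((x * a : G) : G ⧸ K) = a := hq ⟨x, mem_zpowers x⟩
  exact ⟨a⁻¹, by simpa [mul_assoc] using QuotientGroup.eq.1 h1.symm⟩

theorem card_orbit {G α : Type*} [Group G] [MulAction G α] {c : G} (hc : (orderOf c).Prime) {y : α} (hy : c • y ≠ y) :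
    Nat.card (orbit (zpowers c) y) = orderOf c := by
  rw [Nat.card_coe_set_eq, ← index_stabilizer]
  refine ((Nat.dvd_prime hc).1 (Nat.card_zpowers c ▸ index_dvd_card _)).resolve_left fun h => hy ?_
  exact mem_stabilizer_iff.1 ((index_eq_one.1 h).ge (mem_top (⟨c, mem_zpowers c⟩ : zpowers c)))

variable {α : Type*} [Fintype α] [DecidableEq α]

/-- there is an element of order `r` without fixed coset -/
def Der (K : Subgroup (alternatingGroup α)) (r : ℕ) : Prop :=
  ∃ x : alternatingGroup α, orderOf x = r ∧ ∀ a, a * x * a⁻¹ ∉ K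

variable {K : Subgroup (alternatingGroup α)} {L : Subgroup (Perm α)} {r : ℕ}

theorem Der.dvd (h : Der K r) (hr : r.Prime) : r ∣ K.index := by
  by_contra hn
  obtain ⟨x, hx, h1⟩ := h
  obtain ⟨a, ha⟩ := exists_conj_mem hr hn hx
  exact h1 a ha

omit [DecidableEq α] in
theorem isPreprimitive_of_large [IsPretransitive L α] {c : Perm α} (hL : c ∈ L) (hc : (orderOf c).Prime)
    (hm : Fintype.card α < 2 * orderOf c) : IsPreprimitive L α := by
  obtain ⟨y, hy⟩ : ∃ y, c • y ≠ y := by
    by_contra! h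
    rw [show c = 1 from Equiv.ext h, orderOf_one] at hc
    exact Nat.not_prime_one hc
  have h1 := card_orbit hc hy
  have := IsPreprimitive.of_prime_card (G := zpowers c) (X := orbit (zpowers c) y) (h1 ▸ hc)
  refine IsPreprimitive.of_card_lt (φ := inclusion (zpowers_le.2 hL))
    (f := (⟨Subtype.val, fun _ _ => rfl⟩ : orbit (zpowers c) y →ₑ[inclusion (zpowers_le.2 hL)] α)) ?_
  rw [← h1, Nat.card_coe_set_eq, ← Nat.card_eq_fintype_card] at hm
  convert hm
  exact Subtype.range_val

theorem exists_type {j : ℕ} (hr : r.Prime) (hj : j ≠ 0) (hm : j * r ≤ Fintype.card α) (he : Even (j * r + j)) :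
    ∃ x : alternatingGroup α, orderOf x = r ∧ (x : Perm α).cycleType = Multiset.replicate j r := by
  obtain ⟨x, hx⟩ := (exists_with_cycleType_iff α (m := Multiset.replicate j r)).2
    ⟨by simpa using hm, fun a ha => Multiset.eq_of_mem_replicate ha ▸ hr.two_le⟩
  refine ⟨⟨x, mem_alternatingGroup.2 ?_⟩, ?_, hx⟩
  · rw [sign_of_cycleType, hx]
    exact Even.neg_one_pow (by simpa using he)
  · rw [← orderOf_coe, ← lcm_cycleType, hx]
    obtain ⟨j, rfl⟩ := Nat.exists_eq_succ_of_ne_zero hj
    refine Nat.dvd_antisymm (Multiset.lcm_dvd.2 fun a ha => Multiset.eq_of_mem_replicate ha ▸ dvd_rfl)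
      (Multiset.dvd_lcm (by simp))

theorem der_big (hr : r.Prime) (hd : r ∣ K.index) (hm : Fintype.card α < 2 * r) : Der K r := by
  have := Fact.mk hr
  obtain ⟨x, hx⟩ := exists_prime_orderOf_dvd_card' r (hd.trans K.index_dvd_card)
  refine ⟨x, hx, fun a ha => ?_⟩
  have h1 : r ∣ Nat.card K := by
    rw [← hx, ← orderOf_injective (MulAut.conj a).toMonoidHom (MulAut.conj a).injective x]
    exact K.orderOf_dvd_natCard ha
  have h2 : r ^ 2 ∣ (Fintype.card α).factorial := by
    rw [← Fintype.card_perm, ← Nat.card_eq_fintype_card, sq]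
    exact ((Nat.mul_dvd_mul h1 hd).trans K.card_mul_index.dvd).trans (alternatingGroup α).card_subgroup_dvd_card
  have h3 := hr.two_le
  rw [hr.pow_dvd_factorial_iff (b := 2) (Nat.log_lt_of_lt_pow' two_ne_zero (by nlinarith))] at h2
  have := Nat.div_lt_of_lt_mul (mul_comm 2 r ▸ hm)
  simp at h2
  omega

theorem der_prim (hL : IsPreprimitive L α) (hK : K ≤ L.comap (alternatingGroup α).subtype)
    (hn : ¬ alternatingGroup α ≤ L) (hr : r.Prime) (h2 : r ≠ 2) (hm : r ≤ Fintype.card α)
    (h3 : r = 3 ∨ r + 3 ≤ Fintype.card α) : Der K r := by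
  obtain ⟨x, hx, h1⟩ := exists_type (α := α) (j := 1) hr one_ne_zero (by omega)
    (by simpa using (hr.odd_of_ne_two h2).add_one)
  refine ⟨x, hx, fun a ha => hn ?_⟩
  have h4 : ((a * x * a⁻¹ : alternatingGroup α) : Perm α).cycleType = {r} := (cycleType_conj).trans h1
  rcases h3 with rfl | h3
  · exact alternatingGroup_le_of_isPreprimitive_of_isThreeCycle_mem hL h4 (hK ha)
  · exact alternatingGroup_le_of_isPreprimitive_of_isCycle_mem hL hr h3 (g := (a * x * a⁻¹ : alternatingGroup α))
      (card_cycleType_eq_one.1 (by rw [h4]; rfl)) (by rw [← sum_cycleType, h4]; rfl) (hK ha)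

theorem der_set {s : Finset α} (hK : K ≤ stabilizer _ s) (hr : r.Prime) (hm : r ≤ Fintype.card α)
    (hs : Fintype.card α % r < s.card % r) (h2 : r = 2 → 4 ∣ Fintype.card α) : Der K r := by
  have := Fact.mk hr
  obtain ⟨x, hx, h1⟩ := exists_type (α := α) (j := Fintype.card α / r) hr (Nat.div_pos hm hr.pos).ne'
    (Nat.div_mul_le_self _ _) (by
      rcases hr.eq_two_or_odd' with rfl | h
      · obtain ⟨n, hn⟩ := h2 rfl
        exact ⟨3 * n, by omega⟩
      · rw [← mul_add_one]
        exact h.add_one.mul_left _)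
  refine ⟨x, hx, fun a ha => ?_⟩
  set y : Perm α := ((a * x * a⁻¹ : alternatingGroup α) : Perm α) with hy
  have h4 : y.cycleType = Multiset.replicate (Fintype.card α / r) r := (cycleType_conj).trans h1
  have h5 : ∀ b, y b ∈ s ↔ b ∈ s := fun b => by
    conv_lhs => rw [← mem_stabilizer_iff.1 (hK ha)]
    exact Finset.smul_mem_smul_finset_iff y
  have h6 : y ^ r = 1 := by
    rw [hy, ← Subgroup.coe_pow, conj_pow, ← hx, pow_orderOf_eq_one]; simp
  have h7 := card_compl_support_modEq (p := r) (n := 1) (σ := y.subtypePerm h5)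
    (by rw [pow_one, subtypePerm_pow]; ext b; simp [h6])
  have h8 : (y.subtypePerm h5).supportᶜ.card ≤ y.supportᶜ.card :=
    Finset.card_le_card_of_injOn Subtype.val (fun b hb => by simpa [Subtype.ext_iff] using hb)
      Subtype.val_injective.injOn
  rw [Finset.card_compl y.support, ← sum_cycleType, h4, Multiset.sum_replicate, smul_eq_mul,
    ← Nat.mod_eq_sub_div_mul] at h8
  rw [Fintype.card_coe, Nat.ModEq, Nat.mod_eq_of_lt (h8.trans_lt (Nat.mod_lt _ hr.pos))] at h7
  omega

theorem index_stabilizer_finset (hm : 3 ≤ Fintype.card α) (s : Finset α) :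
    (stabilizer (alternatingGroup α) s).index = (Fintype.card α).choose s.card := by
  have := Set.powersetCard.isPretransitive_alternatingGroup (α := α) (n := s.card) (by simpa using hm)
  rw [← Nat.card_eq_fintype_card, ← Set.powersetCard.card,
    ← index_stabilizer_of_transitive (alternatingGroup α) (⟨s, rfl⟩ : Set.powersetCard α s.card)]
  congr 1
  ext g
  exact ⟨fun h => Subtype.ext h, fun h => congrArg Subtype.val h⟩

theorem main (hm : 5 ≤ Fintype.card α) (hK : K ≠ ⊤) (hr : r.Prime) (hd : r ∣ K.index)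
    (hmax : ∀ s : ℕ, s.Prime → s ∣ K.index → s ≤ r)
    (hL : Fintype.card α = 6 ∨ (∃ L : Subgroup (Perm α), K = L.comap (alternatingGroup α).subtype ∧ IsPretransitive L α) ∨
      ∃ s : Finset α, K = stabilizer _ s) : Der K r := by
  classical
  by_cases hb : Fintype.card α < 2 * r
  · exact der_big hr hd hb
  obtain ⟨p, hp, p1, p2⟩ := Nat.exists_prime_lt_and_le_two_mul (Fintype.card α / 2) (by omega)
  obtain ⟨c, hc, hcK⟩ : ∃ c : alternatingGroup α, orderOf (c : Perm α) = p ∧ c ∈ K := by
    obtain ⟨x, hx, -⟩ := exists_type (α := α) (j := 1) hp one_ne_zero (by omega)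
      (by simpa using (hp.odd_of_ne_two (by omega)).add_one)
    obtain ⟨a, ha⟩ := exists_conj_mem hp (fun h => absurd (hmax p hp h) (by omega)) hx
    exact ⟨_, by rw [orderOf_coe, ← hx]; exact orderOf_injective (MulAut.conj a).toMonoidHom (MulAut.conj a).injective x,
      ha⟩
  have h3 : Der K 3 → (r ≠ 2 → Der K r) → Der K r := fun h h' => h' fun e => by
    have := hmax 3 Nat.prime_three (h.dvd Nat.prime_three)
    omega
  have tr : ∀ L : Subgroup (Perm α), K = L.comap (alternatingGroup α).subtype → IsPretransitive L α → Der K r :=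
    fun L e _ => by
      have h1 : IsPreprimitive L α := isPreprimitive_of_large (c := c) (e.le hcK) (hc ▸ hp) (by omega)
      have h2 : ¬ alternatingGroup α ≤ L := fun h => hK (top_le_iff.1 fun x _ => e.ge (h x.2))
      have := hr.two_le
      exact h3 (der_prim h1 e.le h2 Nat.prime_three (by omega) (by omega) (Or.inl rfl))
        fun h => der_prim h1 e.le h2 hr h (by omega) (by omega)
  rcases hL with h6 | ⟨L, e, h⟩ | ⟨s, rfl⟩
  · by_cases h : IsPretransitive (K.map (alternatingGroup α).subtype) α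
    · exact tr _ (comap_map_eq_self_of_injective (subtype_injective _) K).symm h
    obtain rfl : p = 5 := by
      rw [h6] at p1 p2
      interval_cases p <;> first | rfl | exact absurd hp (by norm_num)
    obtain ⟨y, hy⟩ : ∃ y, (c : Perm α) • y ≠ y := by
      by_contra! h
      rw [show (c : Perm α) = 1 from Equiv.ext h, orderOf_one] at hc
      omega
    have h1 := card_orbit (hc ▸ hp) hy
    have h4 : (orbit K y).toFinset.card = 5 := by
      have h5 : orbit (zpowers (c : Perm α)) y ⊆ orbit K y := by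
        rintro _ ⟨⟨_, n, rfl⟩, rfl⟩
        exact ⟨⟨c ^ n, K.zpow_mem hcK n⟩, rfl⟩
      have h7 := Set.ncard_le_ncard h5
      rw [← Nat.card_coe_set_eq, h1, hc, Set.ncard_eq_toFinset_card'] at h7
      have h8 : (orbit K y).toFinset.card < Fintype.card α := Finset.card_lt_univ_of_notMem (x := (not_forall.1 fun e =>
        h ((isPretransitive_iff_base y).2 fun b => by
          obtain ⟨k, rfl⟩ : b ∈ orbit K y := Set.mem_toFinset.1 (e b)
          exact ⟨⟨k.1.1, k.1, k.2, rfl⟩, rfl⟩)).choose) (Exists.choose_spec (p := fun b => b ∉ (orbit K y).toFinset) _)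
      omega
    have h5 : Der K 3 := der_set (s := (orbit K y).toFinset) (fun k hk => by
      rw [mem_stabilizer_iff, ← Finset.coe_inj, Finset.coe_smul_finset, Set.coe_toFinset]
      exact smul_orbit (⟨k, hk⟩ : K) y) Nat.prime_three (by omega) (by rw [h4, h6]; norm_num) (by omega)
    have := hr.two_le
    exact h3 h5 fun h => (show 3 = r by omega) ▸ h5
  · exact tr L e h
  · rw [index_stabilizer_finset (by omega)] at hd hmax
    have := mod_lt hm s.card_le_univ hr hd hmax
    exact der_set le_rfl hr (by omega) this.1 this.2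

end CL.Perm.AltDer
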