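import Cfsg.Agent.Perm.BinAff1
import Cfsg.Agent.Grp.Comm1
import Cfsg.Agent.Odd.FT

/-! Binary affine groups, II: characteristic two, the normal `2`-complement is abelian. -/

set_option autoImplicit false
open scoped commutatorElement

namespace CL.BinAff

variable {H : Type*} [Group H]

theorem eq_one_of_sq_of_odd {n : ℕ} (hn : Odd n) {x : H} (h1 : x ^ n = 1) (h2 : x * x = 1) : x = 1 := by
  obtain ⟨k, rfl⟩ := hn
  rwa [pow_succ, pow_mul, pow_two, h2, one_pow, one_mul] at h1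

theorem pow_card_of_mem {O : Subgroup H} {x : H} (hx : x ∈ O) : x ^ Nat.card O = 1 :=
  congrArg Subtype.val (pow_card_eq_one' (x := (⟨x, hx⟩ : O)))

/-- A maximal abelian normal subgroup of an odd normal subgroup, if cyclic, central and proper, lies in a
larger subgroup with a noncyclic group of order `r ^ 2`. -/
theorem exists_elem_sq [Finite H] {O A : Subgroup H} [O.Normal] [hAn : A.Normal] (hO : Odd (Nat.card O)) (hAO : A ≤ O)
    (hcyc : IsCyclic A) (hc : ∀ o ∈ O, ∀ a ∈ A, o * a = a * o)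
    (hmax : ∀ B : Subgroup H, B.Normal → B ≤ O → A ≤ B → (∀ a ∈ B, ∀ b ∈ B, a * b = b * a) → B ≤ A) (hne : ¬ O ≤ A) :
    ∃ (r : ℕ) (o c : H), r.Prime ∧ o ∈ O ∧ o ∉ A ∧ o ^ r = 1 ∧ c ∈ A ∧ c ≠ 1 ∧ c ^ r = 1 := by
  obtain ⟨M, ⟨hMn, hMO, hAM, hMA⟩, hmin⟩ := exists_minimal_of_wellFoundedLT
    (fun M : Subgroup H => M.Normal ∧ M ≤ O ∧ A ≤ M ∧ ¬ M ≤ A) ⟨O, inferInstance, le_rfl, hAO, hne⟩
  have hD : ⁅M, M⁆ ≤ A := by
    by_contra hD
    have hDM : ⁅M, M⁆ ≤ M := Subgroup.commutator_le_left M M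
    have h1 : M ≤ ⁅M, M⁆ ⊔ A := hmin ⟨inferInstance, sup_le (hDM.trans hMO) hAO, le_sup_right,
      fun h => hD (le_sup_left.trans h)⟩ (sup_le hDM hAM)
    have h2 : ⁅M, M⁆ ≤ ⁅⁅M, M⁆, ⁅M, M⁆⁆ := by
      refine Subgroup.commutator_le.2 fun x hx y hy => ?_
      obtain ⟨d, hd, a, ha, rfl⟩ := Subgroup.mem_sup_of_normal_right.1 (h1 hx)
      obtain ⟨e, he, b, hb, rfl⟩ := Subgroup.mem_sup_of_normal_right.1 (h1 hy)
      have e1 : ⁅d * a, e * b⁆ = ⁅d, e⁆ := by
        have c1 := hc _ (hMO hy) a ha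
        have c2 := hc d⁻¹ (O.inv_mem (hMO (hDM hd))) b hb
        simp only [commutatorElement_def]
        calc d * a * (e * b) * (d * a)⁻¹ * (e * b)⁻¹ = d * (a * (e * b)) * a⁻¹ * d⁻¹ * (e * b)⁻¹ := by group
          _ = d * e * (b * d⁻¹) * (e * b)⁻¹ := by rw [← c1]; group
          _ = d * e * d⁻¹ * e⁻¹ := by rw [← c2]; group
      rw [e1]
      exact Subgroup.commutator_mem_commutator hd he
    have h3 : ⁅M, M⁆ ≠ ⊥ := fun e => hD (e ▸ bot_le)
    have : Nontrivial (⁅M, M⁆ : Subgroup H) := (Subgroup.nontrivial_iff_ne_bot _).2 h3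
    have : Group.IsSolvable (⁅M, M⁆ : Subgroup H) :=
      CL.Odd.feit_thompson (hO.of_dvd_nat (Subgroup.card_dvd_of_le (hDM.trans hMO)))
    refine (Group.IsSolvable.commutator_lt_top_of_nontrivial (⁅M, M⁆ : Subgroup H)).ne (eq_top_iff.2 fun x _ => ?_)
    have h4 := h2 x.2
    rw [← Subgroup.map_subtype_commutator] at h4
    obtain ⟨y, hy, e⟩ := h4
    rwa [← show y = x from Subtype.ext e]
  have hcm : ∀ x ∈ M, ∀ y ∈ M, ⁅x, y⁆ ∈ A := Subgroup.commutator_le.1 hD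
  obtain ⟨x0, hx0, hx0A⟩ : ∃ x ∈ M, x ∉ A := by
    by_contra h
    push Not at h
    exact hMA h
  have hq : ∀ x : H, x ∈ A ↔ (x : H ⧸ A) = 1 := fun x => (QuotientGroup.eq_one_iff x).symm
  set n := orderOf (x0 : H ⧸ A) with hn
  have hn1 : n ≠ 1 := fun e => hx0A ((hq _).2 (orderOf_eq_one_iff.1 e))
  have hn0 : 0 < n := orderOf_pos _
  obtain ⟨r, hr, k, hk⟩ := Nat.exists_prime_and_dvd hn1
  have hr2 : r ≠ 2 := by
    rintro rfl
    have : n ∣ Nat.card O := orderOf_dvd_of_pow_eq_one (by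
      rw [← QuotientGroup.mk_pow, pow_card_of_mem (hMO hx0), QuotientGroup.mk_one])
    exact (Nat.not_even_iff_odd.2 (hO.of_dvd_nat this)) ⟨k, by omega⟩
  let M1 : Subgroup H :=
    { carrier := {m | m ∈ M ∧ m ^ r ∈ A}
      one_mem' := ⟨M.one_mem, by simp⟩
      mul_mem' := fun {a b} ha hb => ⟨M.mul_mem ha.1 hb.1, by
        have h1 : Commute (a : H ⧸ A) (b : H ⧸ A) := by
          rw [← commutatorElement_eq_one_iff_commute]
          exact (hq _).1 (hcm a ha.1 b hb.1)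
        rw [hq, QuotientGroup.mk_pow, QuotientGroup.mk_mul, h1.mul_pow, ← QuotientGroup.mk_pow,
          ← QuotientGroup.mk_pow, (hq _).1 ha.2, (hq _).1 hb.2, mul_one]⟩
      inv_mem' := fun {a} ha => ⟨M.inv_mem ha.1, by rw [inv_pow]; exact A.inv_mem ha.2⟩ }
  have hM1 : M ≤ M1 := hmin ⟨⟨fun m hm g => ⟨hMn.conj_mem _ hm.1 g, by
      rw [conj_pow]; exact hAn.conj_mem _ hm.2 g⟩⟩, fun m hm => hMO hm.1, fun a ha => ⟨hAM ha, A.pow_mem ha r⟩,
      fun h => by
        have h1 : x0 ^ k ∈ A := h ⟨M.pow_mem hx0 k, by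
          rw [← pow_mul, hq, QuotientGroup.mk_pow, mul_comm, ← hk]; exact pow_orderOf_eq_one _⟩
        rw [hq, QuotientGroup.mk_pow] at h1
        have h2 := Nat.le_of_dvd (Nat.pos_of_ne_zero fun e => by rw [e] at hk; omega) (orderOf_dvd_of_pow_eq_one h1)
        have := hr.two_le
        nlinarith⟩ fun m hm => hm.1
  have hcr : ∀ x ∈ M, ∀ y ∈ M, ⁅x, y⁆ ^ r = 1 := fun x hx y hy => by
    rw [← CL.Grp.comm_pow_left (hc x (hMO hx) _ (hcm x hx y hy)), commutatorElement_eq_one_iff_mul_comm]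
    exact (hc y (hMO hy) _ (hM1 hx).2).symm
  let φ : M →* A := MonoidHom.mk' (fun m => ⟨(m : H) ^ r, (hM1 m.2).2⟩) fun a b => Subtype.ext
    (CL.Grp.mul_pow_prime_of_commute_comm hr hr2 (hc _ (hMO a.2) _ (hcm _ b.2 _ a.2))
      (hc _ (hMO b.2) _ (hcm _ b.2 _ a.2)) (hcr _ b.2 _ a.2))
  have hnc : ¬ ∀ a ∈ M, ∀ b ∈ M, a * b = b * a := fun h => hMA (hmax M hMn hMO hAM h)
  obtain ⟨o, ho, hoA⟩ : ∃ o : M, o ∈ φ.ker ∧ (o : H) ∉ A := by
    by_contra h
    push Not at h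
    refine hnc fun a ha b hb => congrArg Subtype.val
      ((φ.isMulCommutative_of_isCyclic_of_ker_le_center fun o ho => ?_).is_comm.comm ⟨a, ha⟩ ⟨b, hb⟩)
    exact Subgroup.mem_center_iff.2 fun g => Subtype.ext (hc _ (hMO g.2) _ (h o ho))
  push Not at hnc
  obtain ⟨a, ha, b, hb, hab⟩ := hnc
  exact ⟨r, o, ⁅a, b⁆, hr, hMO o.2, hoA, congrArg Subtype.val (MonoidHom.mem_ker.1 ho), hcm a ha b hb,
    fun e => hab (commutatorElement_eq_one_iff_mul_comm.1 e), hcr a ha b hb⟩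

variable {V : Type*} [AddCommGroup V] [DistribMulAction H V]

theorem fix_of_sq_of_odd {n : ℕ} (hn : Odd n) {x : H} (h1 : x ^ n = 1) {v : V} (h2 : (x * x) • v = v) : x • v = v := by
  obtain ⟨k, rfl⟩ := hn
  have h3 : ∀ k : ℕ, (x * x) ^ k • v = v := fun k => by
    induction k with
    | zero => rw [pow_zero, one_smul]
    | succ k ih => rw [pow_succ, mul_smul, h2, ih]
  have h4 : x ^ (2 * k + 1) • v = v := by rw [h1, one_smul]
  rwa [pow_succ', pow_mul, pow_two, mul_smul, h3] at h4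

/-- A noncyclic group of order `r ^ 2` does not act freely. -/
theorem exists_fix_of_elem [Finite H] [Finite V] {r : ℕ} (hr : r.Prime) {o c : H} (hoc : Commute o c) (ho : o ^ r = 1)
    (hc : c ^ r = 1) (hc1 : c ≠ 1) (hn : o ∉ Subgroup.zpowers c) (W : AddSubgroup V) (hW : W ≠ ⊥)
    (hinv : ∀ i k : ℤ, ∀ w ∈ W, (o ^ i * c ^ k) • w ∈ W) :
    ∃ i k : ℤ, o ^ i * c ^ k ≠ 1 ∧ ∃ u ∈ W, u ≠ 0 ∧ (o ^ i * c ^ k) • u = u := by
  by_contra hcon
  push Not at hcon
  have hm : ∀ i k j l : ℤ, o ^ i * c ^ k * (o ^ j * c ^ l) = o ^ (i + j) * c ^ (k + l) := fun i k j l => by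
    rw [zpow_add, zpow_add, mul_assoc, mul_assoc, ← mul_assoc (c ^ k), ← (hoc.zpow_zpow j k).eq, mul_assoc]
  let B : Subgroup H :=
    { carrier := {x | ∃ i k : ℤ, x = o ^ i * c ^ k}
      one_mem' := ⟨0, 0, by simp⟩
      mul_mem' := by
        rintro _ _ ⟨i, k, rfl⟩ ⟨j, l, rfl⟩
        exact ⟨_, _, hm i k j l⟩
      inv_mem' := by
        rintro _ ⟨i, k, rfl⟩
        exact ⟨-i, -k, by rw [inv_eq_iff_mul_eq_one, hm]; simp⟩ }
  have hcyc : IsCyclic B := isCyclic_of_free B (by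
      rintro _ ⟨i, k, rfl⟩ _ ⟨j, l, rfl⟩
      rw [hm, hm, add_comm i, add_comm k]) W hW (by rintro _ ⟨i, k, rfl⟩; exact hinv i k) (by
      rintro _ ⟨i, k, rfl⟩ h1 w hw h2
      by_contra h0
      exact hcon i k h1 w hw h0 h2)
  obtain ⟨⟨d, hd⟩, hgen⟩ := IsCyclic.exists_generator (α := B)
  have hmem : ∀ x ∈ B, x ∈ Subgroup.zpowers d := fun x hx => by
    obtain ⟨m, hm⟩ := hgen ⟨x, hx⟩
    exact ⟨m, congrArg Subtype.val hm⟩
  have hcB : c ∈ Subgroup.zpowers d := hmem c ⟨0, 1, by simp⟩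
  have hdr : d ^ r = 1 := by
    obtain ⟨i, k, rfl⟩ := hd
    rw [(hoc.zpow_zpow i k).mul_pow, ← zpow_natCast, ← zpow_natCast, ← zpow_mul, ← zpow_mul, mul_comm i, mul_comm k,
      zpow_mul, zpow_mul, zpow_natCast, zpow_natCast, ho, hc, one_zpow, one_zpow, mul_one]
  have hd1 : d ≠ 1 := by
    rintro rfl
    exact hc1 (by simpa using hcB)
  have := Fact.mk hr
  have h5 := CL.Grp.zpowers_eq_of_mem_of_prime_orderOf (by rw [orderOf_eq_prime hdr hd1]; exact hr) hcB hc1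
  exact hn (h5 ▸ hmem o ⟨1, 0, by simp⟩)

/-- The standing hypotheses in characteristic two. -/
structure Ev (H V : Type*) [Group H] [AddCommGroup V] [DistribMulAction H V] : Prop where
  two : ∀ v : V, v + v = 0
  bin : Bin H V
  irr : ∀ W : AddSubgroup V, (∀ h : H, ∀ w ∈ W, h • w ∈ W) → W = ⊥ ∨ W = ⊤

namespace Ev

variable [Finite V] [FaithfulSMul H V]

omit [Finite V] [FaithfulSMul H V] in
theorem neg (E : Ev H V) (v : V) : -v = v := neg_eq_of_add_eq_zero_left (E.two v)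

theorem four (E : Ev H V) {h : H} {v : V} (hv : (h * h) • (h * h) • v = v) : (h * h) • v = v := by
  refine E.bin.q (E.bin.q ?_)
  have : h • (h • v - v) - (h • v - v) = (h * h) • v + v := by
    rw [smul_sub, ← mul_smul, show (h * h) • v - h • v - (h • v - v) = (h * h) • v + v - (h • v + h • v) by abel,
      E.two, sub_zero]
  rw [this, smul_add, hv, add_comm]

theorem sq_of_two_pow (E : Ev H V) (k : ℕ) : ∀ h : H, h ^ 2 ^ k = 1 → h * h = 1 := by
  induction k with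
  | zero => intro h hh; rw [pow_zero, pow_one] at hh; rw [hh, mul_one]
  | succ k ih =>
    intro h hh
    have := ih (h * h) (by rw [← pow_two, ← pow_mul, ← pow_succ', hh])
    exact Fx_eq_top (V := V) fun v => E.four (by rw [← mul_smul, this, one_smul])

theorem sq_sylow (E : Ev H V) (S : Sylow 2 H) {s : H} (hs : s ∈ (S : Subgroup H)) : s * s = 1 := by
  obtain ⟨k, hk⟩ := S.isPGroup' ⟨s, hs⟩
  exact E.sq_of_two_pow k s (congrArg Subtype.val hk)

theorem comm_sylow (E : Ev H V) (S : Sylow 2 H) {s t : H} (hs : s ∈ (S : Subgroup H)) (ht : t ∈ (S : Subgroup H)) :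
    s * t = t * s :=
  comm_of_sq (E.sq_sylow S hs) (E.sq_sylow S ht) (E.sq_sylow S (mul_mem hs ht))

omit [Finite V] [FaithfulSMul H V] in
theorem fix_of_norm [Finite H] (E : Ev H V) (S : Sylow 2 H) {h : H} (hh : ∀ s ∈ (S : Subgroup H), h⁻¹ * s * h ∈ (S : Subgroup H))
    {u : V} (hu : ∀ s ∈ (S : Subgroup H), s • u = u) : h • u = u := by
  by_contra hne
  obtain ⟨σ, h1, h2⟩ := E.bin.swap h u
  let X : Subgroup H := MulAction.stabilizer H u ⊓ MulAction.stabilizer H (h • u)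
  let L : Subgroup H :=
    { carrier := {g | (g • u = u ∧ g • h • u = h • u) ∨ (g • u = h • u ∧ g • h • u = u)}
      one_mem' := Or.inl ⟨one_smul _ _, one_smul _ _⟩
      mul_mem' := by
        rintro a b (⟨a1, a2⟩ | ⟨a1, a2⟩) (⟨b1, b2⟩ | ⟨b1, b2⟩)
        · exact Or.inl ⟨by rw [mul_smul, b1, a1], by rw [mul_smul, b2, a2]⟩
        · exact Or.inr ⟨by rw [mul_smul, b1, a2], by rw [mul_smul, b2, a1]⟩
        · exact Or.inr ⟨by rw [mul_smul, b1, a1], by rw [mul_smul, b2, a2]⟩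
        · exact Or.inl ⟨by rw [mul_smul, b1, a2], by rw [mul_smul, b2, a1]⟩
      inv_mem' := by
        rintro a (⟨a1, a2⟩ | ⟨a1, a2⟩)
        · exact Or.inl ⟨inv_smul_of_fix a1, inv_smul_of_fix a2⟩
        · exact Or.inr ⟨by rw [inv_smul_eq_iff, a2], by rw [inv_smul_eq_iff, a1]⟩ }
  have hXL : X ≤ L := fun g hg => Or.inl ⟨hg.1, hg.2⟩
  have hSX : (S : Subgroup H) ≤ X := fun s hs => ⟨hu s hs, by
    have := hu _ (hh s hs)
    rw [mul_smul, mul_smul, inv_smul_eq_iff] at this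
    exact this⟩
  have hidx : X.relIndex L = 2 := Subgroup.relIndex_eq_two_iff.2 ⟨σ, Or.inr ⟨h1, h2⟩, by
    rintro b (⟨b1, b2⟩ | ⟨b1, b2⟩)
    · refine Or.inr ⟨⟨b1, b2⟩, fun hx => hne ?_⟩
      have : (b * σ) • u = u := hx.1
      rwa [mul_smul, h1, b2] at this
    · refine Or.inl ⟨⟨?_, ?_⟩, fun hx => hne (b1.symm.trans hx.1)⟩
      · change (b * σ) • u = u
        rw [mul_smul, h1, b2]
      · change (b * σ) • h • u = h • u
        rw [mul_smul, h2, b1]⟩
  have : Fact (Nat.Prime 2) := ⟨Nat.prime_two⟩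
  exact S.not_dvd_index ((Dvd.intro _ (hidx ▸ Subgroup.relIndex_mul_index hXL)).trans (Subgroup.index_dvd_of_le hSX))

omit [Finite V] [FaithfulSMul H V] in
/-- A group of commuting involutions has a fixed point modulo a proper invariant subgroup. -/
theorem exists_fix_mod [Finite H] (E : Ev H V) (S : Subgroup H) (hs : ∀ s ∈ S, s * s = 1)
    (hc : ∀ s ∈ S, ∀ t ∈ S, s * t = t * s) (W : AddSubgroup V) (hW : W ≠ ⊤) (hinv : ∀ s ∈ S, ∀ w ∈ W, s • w ∈ W) :
    ∃ u, u ∉ W ∧ ∀ s ∈ S, s • u - u ∈ W := by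
  obtain ⟨u, hu, hmax⟩ := exists_maximalFor_of_wellFoundedGT (fun u : V => u ∉ W)
    (fun u : V => {s : H | s ∈ S ∧ s • u - u ∈ W}) (by
      by_contra h
      push Not at h
      exact hW (eq_top_iff.2 fun v _ => h v))
  refine ⟨u, hu, fun s hsS => ?_⟩
  by_contra hn
  refine hn (hmax hn (fun t ht => ⟨ht.1, ?_⟩) ⟨hsS, ?_⟩).2
  · have := W.sub_mem (hinv s hsS _ ht.2) ht.2
    rw [smul_sub, smul_comm_of (hc s hsS t ht.1)] at this
    rw [smul_sub]
    convert this using 1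
    abel
  · rw [smul_sub, smul_smul_of_sq (hs s hsS), show u - s • u - (s • u - u) = u + u - (s • u + s • u) by abel, E.two,
      E.two, sub_zero]
    exact W.zero_mem

theorem eq_one_of_norm_odd [Finite H] (E : Ev H V) (S : Sylow 2 H) {h : H}
    (hh : ∀ s ∈ (S : Subgroup H), h⁻¹ * s * h ∈ (S : Subgroup H)) {n : ℕ} (hn : Odd n) (hhn : h ^ n = 1) : h = 1 := by
  let W : AddSubgroup V :=
    { carrier := {v | ∀ s ∈ (S : Subgroup H), h • s • v = s • v}
      zero_mem' := fun s _ => by simp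
      add_mem' := fun {a b} ha hb s hs => by rw [smul_add, smul_add, ha s hs, hb s hs]
      neg_mem' := fun {a} ha s hs => by rw [smul_neg, smul_neg, ha s hs] }
  have hWh : ∀ w ∈ W, h • w = w := fun w hw => by simpa using hw 1 (one_mem _)
  have hinv : ∀ s ∈ (S : Subgroup H), ∀ w ∈ W, s • w ∈ W := fun s hs w hw t ht => by
    rw [← mul_smul t]; exact hw _ (mul_mem ht hs)
  by_cases hW : W = ⊤
  · exact Fx_eq_top (V := V) fun v => hWh v (hW ▸ AddSubgroup.mem_top v)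
  exfalso
  obtain ⟨u, hu, hfix⟩ := E.exists_fix_mod S (fun s hs => E.sq_sylow S hs) (fun s hs t ht => E.comm_sylow S hs ht)
    W hW hinv
  obtain ⟨σ, g1, g2, g3⟩ := E.bin.inv h u
  have gW : ∀ w ∈ W, σ • w = w := fun w hw => by rw [g2 w (by rw [mul_smul, hWh w hw, hWh w hw]), hWh w hw]
  have g4 : σ • h • u = u := by rw [← g3, smul_smul_of_sq g1]
  have hcS : ∀ x ∈ (S : Subgroup H), x • (h • u - u) = h • u - u := by
    intro x hx
    obtain ⟨a, ha, ea⟩ : ∃ a ∈ W, x • u = u + a := ⟨_, hfix x hx, by abel⟩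
    obtain ⟨b, hb, eb⟩ : ∃ b ∈ W, x • h • u = h • u + b := ⟨_, hfix _ (hh x hx), by
      rw [← hWh _ (hfix _ (hh x hx)), smul_sub, mul_smul, mul_smul, smul_inv_smul]; abel⟩
    have exa : x • a = -a := by
      have := smul_smul_of_sq (E.sq_sylow S hx) u
      rw [ea, smul_add, ea, add_assoc, add_eq_left] at this
      exact eq_neg_of_add_eq_zero_right this
    have hgW : ∀ w ∈ W, (σ * x * (σ * x)) • w = w := fun w hw => by
      rw [mul_smul, mul_smul σ x w, gW _ (hinv x hx w hw), mul_smul, smul_smul_of_sq (E.sq_sylow S hx), gW w hw]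
    have k1 : (σ * x) • u = h • u + a := by rw [mul_smul, ea, smul_add, g3, gW a ha]
    have k2 : (σ * x) • h • u = u + b := by rw [mul_smul, eb, smul_add, g4, gW b hb]
    have k3 : (σ * x) • a = -a := by rw [mul_smul, exa, gW _ (W.neg_mem ha)]
    have k4 : (σ * x * (σ * x)) • u = u := by
      refine E.bin.q (E.bin.q (hgW _ ?_))
      rw [k1, smul_sub, smul_add, k1, k2, k3, show u + b + -a - (h • u + a) - (h • u + a - u) =
        b - a + (u + u) - (h • u + h • u) - (a + a) by abel, E.two, E.two, E.two, add_zero, sub_zero, sub_zero]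
      exact W.sub_mem hb ha
    rw [mul_smul, k1, smul_add, k2, k3, add_assoc, add_eq_left, add_neg_eq_zero] at k4
    rw [smul_sub, ea, eb, k4]; abel
  have h5 := E.fix_of_norm S hh hcS
  have h6 : h • u = u := fix_of_sq_of_odd hn hhn (E.bin.q (by rw [mul_smul, h5, h5]))
  refine hu fun s hs => ?_
  have := hWh _ (hfix s hs)
  rwa [smul_sub, h6, sub_left_inj] at this

theorem exists_compl [Finite H] (E : Ev H V) (S : Sylow 2 H) :
    ∃ O : Subgroup H, O.Normal ∧ Odd (Nat.card O) ∧ ∀ h : H, ∃ o ∈ O, ∃ s ∈ (S : Subgroup H), h = o * s := by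
  have : Fact (Nat.Prime 2) := ⟨Nat.prime_two⟩
  have hsq : ∀ n ∈ Subgroup.normalizer ((S : Subgroup H) : Set H), n * n = 1 := fun n hn => by
    obtain ⟨k, m, hm, e⟩ := Nat.exists_eq_two_pow_mul_odd (orderOf_pos n).ne'
    have hn' := (Subgroup.normalizer ((S : Subgroup H) : Set H)).pow_mem hn (2 ^ k)
    exact E.sq_of_two_pow k n (E.eq_one_of_norm_odd S (fun s hs => (Subgroup.mem_normalizer_iff''.1 hn' s).1 hs) hm
      (by rw [← pow_mul, ← e, pow_orderOf_eq_one]))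
  have hP : Subgroup.normalizer ((S : Subgroup H) : Set H) ≤ Subgroup.centralizer ((S : Subgroup H) : Set H) :=
    fun n hn s hs => comm_of_sq (E.sq_sylow S hs) (hsq n hn) (hsq _ (mul_mem (Subgroup.le_normalizer hs) hn))
  have hc := MonoidHom.ker_transferSylow_isComplement' S hP
  refine ⟨(MonoidHom.transferSylow S hP).ker, inferInstance, ?_, fun h => ?_⟩
  · rw [← hc.index_eq_card]
    exact Nat.not_even_iff_odd.1 fun e => S.not_dvd_index e.two_dvd
  · obtain ⟨⟨o, s⟩, e⟩ := hc.2 h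
    exact ⟨o, o.2, s, s.2, e.symm⟩

theorem fix_of_comm (E : Ev H V) {a τ : H} (hτ : τ * τ = 1) (hc : a * (τ * a * τ) = τ * a * τ * a) {u : V}
    (hu : a • τ • u = τ • u) : a • u = u := by
  obtain ⟨σ, g1, g2, g3⟩ := E.bin.inv a u
  have gW : ∀ w : V, a • w = w → σ • w = w := fun w hw => by rw [g2 w (by rw [mul_smul, hw, hw]), hw]
  have e1 : τ • a • u = (τ * a * τ) • τ • u := by rw [mul_smul, mul_smul, smul_smul_of_sq hτ]
  have e2 : a • τ • a • u = τ • a • u := by rw [e1, smul_comm_of hc, hu]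
  have k1 : (σ * τ * (σ * τ)) • u = a • u := by
    rw [mul_smul, mul_smul σ τ u, gW _ hu, mul_smul, smul_smul_of_sq hτ, g3]
  have k2 : (σ * τ * (σ * τ)) • a • u = u := by
    rw [mul_smul, mul_smul σ τ (a • u), gW _ e2, mul_smul, smul_smul_of_sq hτ, ← g3, smul_smul_of_sq g1]
  rw [← k1]
  exact E.four (by rw [k1, k2])

/-- Abelian normal subgroups act freely. -/
theorem free (E : Ev H V) {A : Subgroup H} [hA : A.Normal] (hc : ∀ a ∈ A, ∀ b ∈ A, a * b = b * a) {a : H} (ha : a ∈ A)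
    (ha1 : a ≠ 1) {u : V} (hu : a • u = u) : u = 0 := by
  have key : ∀ h : H, ∀ u : V, a • h • u = h • u → a • u = u := fun h => E.bin.induction
    (P := fun h => ∀ u : V, a • h • u = h • u → a • u = u) (fun u hu => by simpa using hu) (fun t h ht ih u hu => by
      rw [mul_smul] at hu
      refine ih u (E.fix_of_comm ht (hc a ha _ ?_) hu)
      have := hA.conj_mem a ha t
      rwa [inv_of_sq ht] at this) h
  rcases E.irr (Fx V a) (fun h w hw => key h⁻¹ _ (by rw [inv_smul_smul]; exact hw)) with h | h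
  · exact (AddSubgroup.eq_bot_iff_forall _).1 h u hu
  · exact absurd (Fx_eq_top (V := V) fun v => show v ∈ Fx V a from h ▸ AddSubgroup.mem_top v) ha1

/-- A normal subgroup of odd order is abelian. -/
theorem comm_of_odd [Finite H] [Nontrivial V] (E : Ev H V) {O : Subgroup H} [O.Normal] (hO : Odd (Nat.card O)) :
    ∀ a ∈ O, ∀ b ∈ O, a * b = b * a := by
  obtain ⟨A, ⟨hAn, hAO, hA⟩, hmax⟩ := exists_maximal_of_wellFoundedGT
    (fun A : Subgroup H => A.Normal ∧ A ≤ O ∧ ∀ a ∈ A, ∀ b ∈ A, a * b = b * a) ⟨⊥, inferInstance, bot_le, by simp⟩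
  by_cases hne : O ≤ A
  · exact fun a ha b hb => hA a (hne ha) b (hne hb)
  exfalso
  have hcyc : IsCyclic A := isCyclic_of_free A hA (⊤ : AddSubgroup V) top_ne_bot (fun _ _ _ _ => AddSubgroup.mem_top _)
    fun a ha ha1 w _ hw => E.free hA ha ha1 hw
  have hc : ∀ o ∈ O, ∀ a ∈ A, o * a = a * o := by
    intro o ho a ha
    let ψ : H →* (ZMod (Nat.card A))ˣ := (IsCyclic.mulAutMulEquiv A).toMonoidHom.comp MulAut.conjNormal
    have h1 : ψ o * ψ o = 1 := E.bin.induction (P := fun h => ψ h * ψ h = 1) (by simp) (fun t h ht ih => by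
      rw [map_mul, mul_mul_mul_comm, ih, ← map_mul, ht, map_one, mul_one]) o
    have h2 : ψ o = 1 := eq_one_of_sq_of_odd hO (by rw [← map_pow, pow_card_of_mem ho, map_one]) h1
    have h3 : MulAut.conjNormal o = (1 : MulAut A) := (IsCyclic.mulAutMulEquiv A).injective (h2.trans (map_one _).symm)
    have h4 : o * a * o⁻¹ = a := by
      have := congrArg Subtype.val (DFunLike.congr_fun h3 (⟨a, ha⟩ : A))
      rwa [MulAut.conjNormal_apply] at this
    exact mul_inv_eq_iff_eq_mul.1 h4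
  obtain ⟨r, o, c, hr, ho, hoA, hor, hcA, hc1, hcr⟩ := exists_elem_sq hO hAO hcyc hc
    (fun B hB hBO hAB h => hmax ⟨hB, hBO, h⟩ hAB) hne
  have hzc : Subgroup.zpowers c ≤ A := Subgroup.zpowers_le.2 hcA
  obtain ⟨i, k, h1, u1, -, hu1, hfix1⟩ := exists_fix_of_elem hr (hc o ho c hcA) hor hcr hc1 (fun h => hoA (hzc h))
    (⊤ : AddSubgroup V) top_ne_bot fun _ _ _ _ => AddSubgroup.mem_top _
  have hoc : Commute o c := hc o ho c hcA
  have hpw : ∀ {x : H} (i : ℤ), x ^ r = 1 → (x ^ i) ^ r = 1 := fun {x} i hx => by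
    rw [← zpow_natCast, ← zpow_mul, mul_comm, zpow_mul, zpow_natCast, hx, one_zpow]
  obtain ⟨o1, ho1⟩ : ∃ o1, o1 = o ^ i * c ^ k := ⟨_, rfl⟩
  have ho1O : o1 ∈ O := ho1 ▸ mul_mem (zpow_mem ho i) (zpow_mem (hAO hcA) k)
  have ho1r : o1 ^ r = 1 := by rw [ho1, (hoc.zpow_zpow i k).mul_pow, hpw i hor, hpw k hcr, mul_one]
  rw [← ho1] at h1 hfix1
  have ho1c : Commute o1 c := hc o1 ho1O c hcA
  obtain ⟨j, l, h2, u, huW, hu, hfix⟩ := exists_fix_of_elem hr ho1c ho1r hcr hc1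
    (fun h => hu1 (E.free hA (hzc h) h1 hfix1)) (Cm V o1) (Cm_ne_bot h1) fun i k w hw =>
      Cm_inv (((Commute.refl o1).zpow_left i).mul_left (ho1c.symm.zpow_left k)).eq hw
  have hl : c ^ l ≠ 1 := fun e => by
    rw [e, mul_one] at h2 hfix
    have := Fact.mk hr
    have h5 := CL.Grp.zpowers_eq_of_mem_of_prime_orderOf (a := o1) (by rw [orderOf_eq_prime ho1r h1]; exact hr)
      (Subgroup.zpow_mem_zpowers o1 j) h2
    have h6 : o1 ∈ MulAction.stabilizer H u :=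
      (Subgroup.zpowers_le.2 (show o1 ^ j ∈ MulAction.stabilizer H u from hfix)) (h5 ▸ Subgroup.mem_zpowers o1)
    have h6 : o1 • u = u := h6
    obtain ⟨v, rfl⟩ := mem_Cm.1 huW
    exact hu (sub_eq_zero.2 (fix_of_sq_of_odd hO (pow_card_of_mem ho1O) (E.bin.q (by rw [mul_smul, h6, h6]))))
  obtain ⟨a, ha⟩ : ∃ a, a = (c ^ l)⁻¹ := ⟨_, rfl⟩
  have haA : a ∈ A := ha ▸ inv_mem (zpow_mem hcA l)
  have hbu : o1 ^ j • u = a • u := by
    rw [(ho1c.zpow_zpow j l).eq, mul_smul] at hfix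
    rw [ha, eq_inv_smul_iff, hfix]
  obtain ⟨σ, g1, g2, g3⟩ := E.bin.inv (o1 ^ j) u
  have gW : ∀ w : V, o1 • w = w → σ • w = w := fun w hw => by
    have : o1 ^ j • w = w := zpow_mem (show o1 ∈ MulAction.stabilizer H w from hw) j
    rw [g2 w (by rw [mul_smul, this, this]), this]
  have hσa : a⁻¹ * (σ * a * σ⁻¹) = 1 := by
    by_contra hx
    refine hu1 (E.free hA (mul_mem (inv_mem haA) (hAn.conj_mem a haA σ)) hx ?_)
    rw [inv_of_sq g1, mul_smul, mul_smul, mul_smul, gW _ hfix1,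
      gW _ (by rw [smul_comm_of (hc o1 ho1O a haA), hfix1]), inv_smul_smul]
  have hσa' : σ * a = a * σ := by
    rw [inv_mul_eq_one, eq_mul_inv_iff_mul_eq] at hσa
    exact hσa.symm
  have h7 : (a * a) • u = u := by
    have := smul_smul_of_sq g1 u
    rwa [g3, hbu, smul_comm_of hσa', g3, hbu, ← mul_smul] at this
  have h8 : a * a = 1 := by
    by_contra hx
    exact hu (E.free hA (mul_mem haA haA) hx h7)
  exact hl (inv_eq_one.1 (ha ▸ eq_one_of_sq_of_odd hO (pow_card_of_mem (hAO haA)) h8))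

end Ev

end CL.BinAff
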