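import Cfsg.Agent.Perm.BinAff2

/-! Binary affine groups, III: characteristic two, the final configuration. -/

set_option autoImplicit false

namespace CL.BinAff

variable {H : Type*} [Group H] {V : Type*} [AddCommGroup V] [DistribMulAction H V]

/-- `j` is an involution inverting `O`. -/
def InvO (O : Subgroup H) (j : H) : Prop := j * j = 1 ∧ ∀ c ∈ O, j * c * j = c⁻¹

theorem InvO.mul_comm {O : Subgroup H} {j k : H} (hj : InvO O j) (hk : InvO O k) {c : H} (hc : c ∈ O) :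
    j * k * c = c * (j * k) := by
  have h1 := hk.2 c hc
  have h2 := hj.2 _ (O.inv_mem hc)
  calc j * k * c = j * (k * c * k) * j * (j * k) := by
        rw [show j * (k * c * k) * j * (j * k) = j * k * c * (k * (j * j) * k) by group, hj.1, mul_one, hk.1, mul_one]
    _ = c * (j * k) := by rw [h1, h2, inv_inv]

theorem InvO.mul_mem {O : Subgroup H} {j c : H} (hj : InvO O j) (hc : c ∈ O) :
    InvO O (j * c) := by
  refine ⟨by rw [← mul_assoc, hj.2 c hc, inv_mul_cancel], fun d hd => ?_⟩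
  rw [show j * c * d * (j * c) = j * (c * d) * j * c by group, hj.2 _ (O.mul_mem hc hd)]
  group

theorem InvO.conj {O : Subgroup H} [hn : O.Normal] {j : H} (hj : InvO O j) (g : H) : InvO O (g * j * g⁻¹) := by
  refine ⟨by rw [show g * j * g⁻¹ * (g * j * g⁻¹) = g * (j * j) * g⁻¹ by group, hj.1]; group, fun c hc => ?_⟩
  rw [show g * j * g⁻¹ * c * (g * j * g⁻¹) = g * (j * (g⁻¹ * c * g⁻¹⁻¹) * j) * g⁻¹ by group,
    hj.2 _ (hn.conj_mem c hc g⁻¹)]
  group

theorem add_two_dvd {s : ℕ} (hs : 2 ≤ s) : ¬ s + 1 ∣ s ^ 2 + 1 := fun h => by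
  obtain ⟨r, rfl⟩ : ∃ r, s = r + 1 := ⟨s - 1, by omega⟩
  have h1 : (r + 1) ^ 2 + 1 = (r + 1 + 1) * r + 2 := by ring
  rw [h1] at h
  have := Nat.le_of_dvd two_pos ((Nat.dvd_add_right (Dvd.intro _ rfl)).1 h)
  omega

namespace Ev

variable [Finite V] [FaithfulSMul H V]

omit [FaithfulSMul H V] in
theorem half (E : Ev H V) {t : H} (ht : t * t = 1) (W : AddSubgroup V) (hW : ∀ w ∈ W, t • w ∈ W) :
    Nat.card W ≤ Nat.card (Fx V t ⊓ W : AddSubgroup V) * Nat.card (Fx V t ⊓ W : AddSubgroup V) := by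
  let f : W →+ V := (DistribSMul.toAddMonoidHom V t - AddMonoidHom.id V).comp W.subtype
  have hf : ∀ w : W, f w = t • (w : V) - w := fun _ => rfl
  rw [← f.ker.card_mul_index, AddSubgroup.index_ker]
  refine Nat.mul_le_mul ?_ (AddSubgroup.card_le_of_le ?_)
  · refine Nat.card_le_card_of_injective (fun w => ⟨(w.1 : V), sub_eq_zero.1 (show f w.1 = 0 from w.2), w.1.2⟩)
      fun a b e => Subtype.ext (Subtype.ext (Subtype.mk.inj e))
  · rintro _ ⟨w, rfl⟩
    refine ⟨?_, W.sub_mem (hW _ w.2) w.2⟩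
    change t • (t • (w : V) - w) = t • (w : V) - w
    rw [smul_sub, smul_smul_of_sq ht, ← neg_sub, E.neg]

theorem dih [Finite H] [Nontrivial V] (E : Ev H V) (hex : ∃ h : H, h * h ≠ 1) : Dih H V := by
  have : Fact (Nat.Prime 2) := ⟨Nat.prime_two⟩
  obtain ⟨S⟩ : Nonempty (Sylow 2 H) := inferInstance
  obtain ⟨O, hOn, hO, hOS⟩ := E.exists_compl S
  have hc := E.comm_of_odd hO
  have hfree : ∀ a ∈ O, a ≠ 1 → ∀ u : V, a • u = u → u = 0 := fun a ha ha1 u hu => E.free hc ha ha1 hu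
  have hcyc : IsCyclic O := isCyclic_of_free O hc (⊤ : AddSubgroup V) top_ne_bot (fun _ _ _ _ => AddSubgroup.mem_top _)
    fun a ha ha1 w _ hw => hfree a ha ha1 w hw
  obtain ⟨⟨g, hg⟩, hgen⟩ := IsCyclic.exists_generator (α := O)
  have hmem : ∀ x ∈ O, ∃ m : ℤ, g ^ m = x := fun x hx => by
    obtain ⟨m, hm⟩ := hgen ⟨x, hx⟩
    exact ⟨m, congrArg Subtype.val hm⟩
  have hsq : ∀ x ∈ O, x * x = 1 → x = 1 := fun x hx h => eq_one_of_sq_of_odd hO (pow_card_of_mem hx) h
  have hg1 : g ≠ 1 := by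
    rintro rfl
    obtain ⟨h, hh⟩ := hex
    obtain ⟨o, ho, s, hs, rfl⟩ := hOS h
    obtain ⟨m, rfl⟩ := hmem o ho
    exact hh (by rw [one_zpow, one_mul, E.sq_sylow S hs])
  have hI : ∀ u : V, u ≠ 0 → ∃ j, InvO O j ∧ j • u = u := fun u hu => by
    obtain ⟨σ, g1, -, g3⟩ := E.bin.inv g u
    have h1 : (σ * g) • u = u := by rw [mul_smul, ← g3, smul_smul_of_sq g1]
    have h2 : σ * g * (σ * g) = 1 := by
      by_contra h
      refine hu (hfree _ ?_ h u (by rw [mul_smul, h1, h1]))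
      rw [← mul_assoc]
      exact O.mul_mem (by have := hOn.conj_mem g hg σ; rwa [inv_of_sq g1] at this) hg
    refine ⟨σ * g, ⟨h2, fun c hc => ?_⟩, h1⟩
    obtain ⟨m, rfl⟩ := hmem c hc
    have h3 : σ * g * g * (σ * g)⁻¹ = g⁻¹ := by
      rw [show σ * g * g * (σ * g)⁻¹ = σ * g * σ⁻¹ by group, inv_of_sq g1, eq_inv_iff_mul_eq_one, mul_assoc, h2]
    calc σ * g * g ^ m * (σ * g) = σ * g * g ^ m * (σ * g)⁻¹ := by rw [inv_of_sq h2]
      _ = (g ^ m)⁻¹ := by rw [← conj_zpow, h3, inv_zpow]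
  have hcent : ∀ x : H, (∀ c ∈ O, x * c = c * x) → x ∈ O := fun x hx => by
    obtain ⟨o, ho, s, hs, rfl⟩ := hOS x
    have h1 : ∀ c ∈ O, s * c = c * s := fun c hc' => mul_left_cancel (a := o) (by
      rw [← mul_assoc, hx c hc', ← mul_assoc, ← hc o ho c hc', mul_assoc])
    have h2 : ∀ h : H, s * h = h * s := fun h => by
      obtain ⟨o', ho', s', hs', rfl⟩ := hOS h
      rw [← mul_assoc, h1 o' ho', mul_assoc, E.comm_sylow S hs hs', mul_assoc]
    have h3 : s = 1 := by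
      rcases E.irr (Fx V s) (fun h w hw => by rw [mem_Fx, smul_comm_of (h2 h), show s • w = w from hw]) with h | h
      · refine Fx_eq_top (V := V) fun v => sub_eq_zero.1 ((AddSubgroup.eq_bot_iff_forall _).1 h _ ?_)
        rw [mem_Fx, smul_sub, smul_smul_of_sq (E.sq_sylow S hs), ← neg_sub, E.neg]
      · exact Fx_eq_top (V := V) fun v => show v ∈ Fx V s from h ▸ AddSubgroup.mem_top v
    rwa [h3, mul_one]
  have hnot : ∀ j, InvO O j → j ∉ O := fun j hj hjO => hg1 (hsq g hg (by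
    have := hj.2 g hg
    rw [hc j hjO g hg, mul_assoc, hj.1, mul_one] at this
    exact mul_eq_one_iff_eq_inv.2 this))
  have hmul : ∀ j k, InvO O j → InvO O k → j * k ∈ O := fun j k hj hk => hcent _ fun c hc => hj.mul_comm hk hc
  have huniq : ∀ j k, InvO O j → InvO O k → ∀ u : V, u ≠ 0 → j • u = u → k • u = u → j = k :=
    fun j k hj hk u hu h1 h2 => by
      by_contra hne
      refine hu (hfree _ (hmul j k hj hk) (fun e => hne ?_) u (by rw [mul_smul, h2, h1]))
      rw [← inv_of_sq hj.1]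
      exact inv_eq_of_mul_eq_one_right e
  obtain ⟨u0, hu0⟩ := exists_ne (0 : V)
  obtain ⟨j0, hj0, -⟩ := hI u0 hu0
  have : Nontrivial {j // InvO O j} := ⟨⟨⟨j0, hj0⟩, ⟨j0 * g, hj0.mul_mem hg⟩, fun e =>
    hg1 (left_eq_mul.1 (congrArg Subtype.val e))⟩⟩
  obtain ⟨q, hq2, hqF, hqV, hqJ⟩ := spread (W := (⊤ : AddSubgroup V)) (Y := ⊥) (fun j : {j // InvO O j} => Fx V j.1)
    (fun _ => le_top) (fun _ => bot_le) (fun i j hij v hv => by
      by_contra h0
      exact hij (Subtype.ext (huniq _ _ i.2 j.2 v h0 hv.1 hv.2))) (fun w _ => by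
      by_cases hw : w = 0
      · exact ⟨⟨j0, hj0⟩, hw ▸ AddSubgroup.zero_mem _⟩
      · obtain ⟨j, hj, h⟩ := hI w hw
        exact ⟨⟨j, hj⟩, h⟩) (fun i => by
      have := E.half i.2.1 (⊤ : AddSubgroup V) fun _ _ => AddSubgroup.mem_top _
      rwa [inf_top_eq, ← mul_one (Nat.card (⊤ : AddSubgroup V)), ← AddSubgroup.card_bot (G := V)] at this) bot_ne_top
  rw [AddSubgroup.card_bot, mul_one] at hqF hqV
  have hqO : Nat.card O = q + 1 := by
    rw [← hqJ]
    exact Nat.card_congr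
      { toFun := fun c => ⟨j0 * c, hj0.mul_mem c.2⟩
        invFun := fun j => ⟨j0 * j, hmul _ _ hj0 j.2⟩
        left_inv := fun c => Subtype.ext (by change j0 * (j0 * c) = c; rw [← mul_assoc, hj0.1, one_mul])
        right_inv := fun j => Subtype.ext (by change j0 * (j0 * j) = j; rw [← mul_assoc, hj0.1, one_mul]) }
  have hbig : ∀ t : H, t * t = 1 → q ≤ Nat.card (Fx V t) := fun t ht => by
    have := E.half ht (⊤ : AddSubgroup V) fun _ _ => AddSubgroup.mem_top _
    rw [inf_top_eq, hqV, pow_two] at this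
    exact Nat.mul_self_le_mul_self_iff.1 this
  have hS : ∀ s : H, s * s = 1 → s ∉ O → InvO O s := fun s hs hsO => by
    have hconj : ∀ c ∈ O, s * c * s ∈ O := fun c hc' => by
      have := hOn.conj_mem c hc' s; rwa [inv_of_sq hs] at this
    have hss : ∀ c : H, s * (s * c * s) * s = c := fun c => by
      rw [show s * (s * c * s) * s = s * s * c * (s * s) by group, hs, one_mul, mul_one]
    by_contra hn
    obtain ⟨c, hcO, hcs⟩ : ∃ c ∈ O, s * c * s ≠ c := by
      by_contra h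
      push Not at h
      exact hsO (hcent s fun c hc => by rw [← mul_inv_eq_iff_eq_mul, inv_of_sq hs, h c hc])
    obtain ⟨d, hdO, hds⟩ : ∃ d ∈ O, s * d * s ≠ d⁻¹ := by
      by_contra h
      push Not at h
      exact hn ⟨hs, h⟩
    have hWq : Nat.card (Fx V s) = q := by
      have hb : c * (s * c * s)⁻¹ ∈ O := O.mul_mem hcO (O.inv_mem (hconj c hcO))
      have h1 : s * (c * (s * c * s)⁻¹) * (s * (c * (s * c * s)⁻¹)) = 1 := by
        rw [show s * (c * (s * c * s)⁻¹) * (s * (c * (s * c * s)⁻¹)) =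
          s * c * s⁻¹ * c⁻¹ * (s⁻¹ * s) * c * (s * c * s)⁻¹ by group, inv_of_sq hs, hs]
        group
      have h2 := card_mul_le (A := Fx V s) (B := Fx V (s * (c * (s * c * s)⁻¹))) (W := ⊤) le_top le_top
      have h3 : Fx V s ⊓ Fx V (s * (c * (s * c * s)⁻¹)) = ⊥ := (AddSubgroup.eq_bot_iff_forall _).2 fun v hv =>
        hfree _ hb (fun e => hcs (mul_inv_eq_one.1 e).symm) v (by
          have h4 : s • (c * (s * c * s)⁻¹) • v = s • v := by
            rw [← mul_smul, show (s * (c * (s * c * s)⁻¹)) • v = v from hv.2, show s • v = v from hv.1]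
          exact MulAction.injective s h4)
      rw [h3, AddSubgroup.card_bot, mul_one, hqV, pow_two] at h2
      exact le_antisymm (Nat.le_of_mul_le_mul_right (le_trans (Nat.mul_le_mul_left _ (hbig _ h1)) h2) (by omega))
        (hbig s hs)
    have hI' : ∀ w ∈ Fx V s, w ≠ 0 → ∃ j, (InvO O j ∧ j * s = s * j) ∧ j • w = w := fun w hw hw0 => by
      obtain ⟨j, hj, h⟩ := hI w hw0
      refine ⟨j, ⟨hj, ?_⟩, h⟩
      have := huniq _ _ (hj.conj s) hj w hw0 (by
        rw [mul_smul, mul_smul, inv_smul_of_fix hw, h]; exact hw) h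
      exact (mul_inv_eq_iff_eq_mul.1 this).symm
    obtain ⟨w0, hw0, hw00⟩ := exists_ne_zero_of_one_lt (A := Fx V s) (by omega)
    obtain ⟨j1, hj1, -⟩ := hI' w0 hw0 hw00
    have hcm : ∀ a ∈ O, a * s = s * a → InvO O (j1 * a) ∧ j1 * a * s = s * (j1 * a) := fun a ha h =>
      ⟨hj1.1.mul_mem ha, by rw [mul_assoc, h, ← mul_assoc, hj1.2, mul_assoc]⟩
    have haO : d * (s * d * s) ∈ O := O.mul_mem hdO (hconj d hdO)
    have has : d * (s * d * s) * s = s * (d * (s * d * s)) := by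
      rw [show s * (d * (s * d * s)) = s * d * s * (d * s) by group, ← mul_assoc (s * d * s), ← hc d hdO _ (hconj d hdO)]
    have : Nontrivial {j // InvO O j ∧ j * s = s * j} := ⟨⟨⟨j1, hj1⟩, ⟨_, hcm _ haO has⟩, fun e =>
      hds (eq_inv_of_mul_eq_one_right (left_eq_mul.1 (congrArg Subtype.val e)))⟩⟩
    obtain ⟨r, hr2, -, hrW, hrJ⟩ := spread (W := Fx V s) (Y := ⊥)
      (fun j : {j // InvO O j ∧ j * s = s * j} => Fx V j.1 ⊓ Fx V s)
      (fun _ => inf_le_right) (fun _ => bot_le) (fun i j hij v hv => by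
        by_contra h0
        exact hij (Subtype.ext (huniq _ _ i.2.1 j.2.1 v h0 hv.1.1 hv.2.1))) (fun w hw => by
        by_cases hw' : w = 0
        · exact ⟨⟨j1, hj1⟩, hw' ▸ AddSubgroup.zero_mem _⟩
        · obtain ⟨j, hj, h⟩ := hI' w hw hw'
          exact ⟨⟨j, hj⟩, h, hw⟩) (fun i => by
        rw [AddSubgroup.card_bot, mul_one]
        exact E.half i.2.1.1 _ fun w hw => by rw [mem_Fx, ← smul_comm_of i.2.2, show s • w = w from hw])
      (fun e => hw00 ((AddSubgroup.eq_bot_iff_forall _).1 e.symm w0 hw0))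
    rw [AddSubgroup.card_bot, mul_one, hWq] at hrW
    have hO1 : Nat.card (O ⊓ Subgroup.centralizer {s} : Subgroup H) = r + 1 := by
      rw [← hrJ]
      exact Nat.card_congr
        { toFun := fun c => ⟨j1 * c, hcm _ c.2.1 (c.2.2 s rfl).symm⟩
          invFun := fun j => ⟨j1 * j, hmul _ _ hj1.1 j.2.1, by
            rintro _ rfl
            rw [← mul_assoc, ← hj1.2, mul_assoc, ← j.2.2, mul_assoc]⟩
          left_inv := fun c => Subtype.ext (by change j1 * (j1 * c) = c; rw [← mul_assoc, hj1.1.1, one_mul])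
          right_inv := fun j => Subtype.ext (by change j1 * (j1 * j) = j; rw [← mul_assoc, hj1.1.1, one_mul]) }
    exact add_two_dvd hr2 (by rw [← hO1, ← hrW, ← hqO]; exact Subgroup.card_dvd_of_le inf_le_left)
  have hall : ∀ h : H, h ∉ O → InvO O h := fun h hh => by
    obtain ⟨o, ho, s, hs, rfl⟩ := hOS h
    have h1 := hS s (E.sq_sylow S hs) fun e => hh (O.mul_mem ho e)
    have h2 := h1.mul_mem (O.inv_mem ho)
    rwa [← h1.2 o ho, ← mul_assoc, ← mul_assoc, h1.1, one_mul] at h2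
  refine ⟨O, q, hq2, by rw [← hqV, AddSubgroup.card_top], hqO, hc, hall,
    fun h k hh hk => hmul h k (hall h hh) (hall k hk), fun u => ?_⟩
  by_cases hu : u = 0
  · exact ⟨j0, hnot j0 hj0, by rw [hu, smul_zero]⟩
  · obtain ⟨j, hj, h⟩ := hI u hu
    exact ⟨j, hnot j hj, h⟩

end Ev

end CL.BinAff
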