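import Cfsg.Agent.Perm.BinAff3

/-! Binary affine groups, IV: odd characteristic, the pointwise stabiliser of a maximal fixed space. -/

set_option autoImplicit false

namespace CL.BinAff

variable {H : Type*} [Group H]

/-- Pointwise stabiliser. -/
def Kp (H : Type*) [Group H] {V : Type*} [AddCommGroup V] [DistribMulAction H V] (Y : AddSubgroup V) : Subgroup H where
  carrier := {k | ∀ y ∈ Y, k • y = y}
  one_mem' := fun y _ => one_smul H y
  mul_mem' := fun {a b} ha hb y hy => by rw [mul_smul, hb y hy, ha y hy]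
  inv_mem' := fun {a} ha y hy => inv_smul_of_fix (ha y hy)

/-- Involutions negating `q` vectors. -/
def DD (V : Type*) [AddCommGroup V] [DistribMulAction H V] (q : ℕ) (t : H) : Prop :=
  t * t = 1 ∧ Nat.card (Ng V t) = q

/-- Points of the line with central involution `z`. -/
def pts (V : Type*) [AddCommGroup V] [DistribMulAction H V] (q : ℕ) (z : H) : Set H :=
  {t | DD V q t ∧ ∀ v : V, z • v = v → t • v = v}

/-- `z` is the central involution of a line. -/
structure Ln (V : Type*) [AddCommGroup V] [DistribMulAction H V] (q : ℕ) (z : H) : Prop where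
  sq : z * z = 1
  card : Nat.card (Ng V z) = q ^ 2
  ncard : (pts V q z).ncard = q + 1
  le : ∀ t ∈ pts V q z, Ng V t ≤ Ng V z
  comm : ∀ t ∈ pts V q z, t * z = z * t
  mul : ∀ t ∈ pts V q z, t * z ∈ pts V q z
  cov : ∀ u ∈ Ng V z, ∃ t ∈ pts V q z, u ∈ Ng V t
  free : ∀ t ∈ pts V q z, ∀ s ∈ pts V q z, ∀ u ∈ Ng V z, u ≠ 0 → t • u = s • u → t = s
  cc : ∀ t ∈ pts V q z, ∀ s ∈ pts V q z, t * s = s * t → s = t ∨ s = t * z

/-- Elements of order greater than two with a maximal fixed space. -/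
def Sm (V : Type*) [AddCommGroup V] [DistribMulAction H V] (a : H) : Prop :=
  a * a ≠ 1 ∧ ∀ k : H, k * k ≠ 1 → Nat.card (Fx V k) ≤ Nat.card (Fx V a)

theorem InvO.comm {O : Subgroup H} {j : H} (hj : InvO O j) {c d : H} (hc : c ∈ O) (hd : d ∈ O) : c * d = d * c := by
  have h1 := hj.2 _ (O.mul_mem hc hd)
  rw [show j * (c * d) * j = j * c * j * (j * j)⁻¹ * (j * d * j) by group, hj.1, hj.2 c hc, hj.2 d hd, inv_one,
    mul_one, ← mul_inv_rev] at h1
  exact (inv_injective h1).symm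

/-- The standing hypotheses in odd characteristic. -/
structure Od (H V : Type*) [Group H] [AddCommGroup V] [DistribMulAction H V] : Prop where
  odd : Odd (Nat.card V)
  bin : Bin H V

variable {V : Type*} [AddCommGroup V] [DistribMulAction H V]

namespace Od

theorem half (E : Od H V) (W : AddSubgroup V) {v : V} (hv : v ∈ W) : ∃ w ∈ W, w + w = v := by
  obtain ⟨k, hk⟩ := E.odd
  refine ⟨(k + 1) • v, W.nsmul_mem hv _, ?_⟩
  rw [← add_nsmul, show k + 1 + (k + 1) = Nat.card V + 1 by omega, add_nsmul, card_nsmul_eq_zero', zero_add, one_nsmul]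

theorem two (E : Od H V) {v : V} (hv : v + v = 0) : v = 0 := by
  obtain ⟨k, hk⟩ := E.odd
  have h := card_nsmul_eq_zero' (x := v)
  rwa [hk, add_nsmul, mul_nsmul, two_nsmul, hv, nsmul_zero, zero_add, one_nsmul] at h

theorem eq_zero (E : Od H V) {t : H} {v : V} (h1 : t • v = v) (h2 : t • v = -v) : v = 0 :=
  E.two (eq_neg_iff_add_eq_zero.1 (h1.symm.trans h2))

theorem decomp [Finite V] (E : Od H V) {t : H} (ht : t * t = 1) (W : AddSubgroup V) (hW : ∀ w ∈ W, t • w ∈ W) :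
    Nat.card W = Nat.card (Fx V t ⊓ W : AddSubgroup V) * Nat.card (Ng V t ⊓ W : AddSubgroup V) := by
  rw [← card_sup_of_inf_eq_bot (A := Fx V t ⊓ W) (B := Ng V t ⊓ W)
    ((AddSubgroup.eq_bot_iff_forall _).2 fun v hv => E.eq_zero hv.1.1 hv.2.1)]
  refine congrArg (fun A : AddSubgroup V => Nat.card A) (le_antisymm (fun v hv => ?_) (sup_le inf_le_right inf_le_right))
  obtain ⟨w, hw, rfl⟩ := E.half W hv
  refine AddSubgroup.mem_sup.2 ⟨w + t • w, ⟨?_, W.add_mem hw (hW w hw)⟩, w - t • w, ⟨?_, W.sub_mem hw (hW w hw)⟩, by abel⟩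
  · change t • (w + t • w) = w + t • w
    rw [smul_add, smul_smul_of_sq ht, add_comm]
  · change t • (w - t • w) = -(w - t • w)
    rw [smul_sub, smul_smul_of_sq ht, neg_sub]

theorem decomp' [Finite V] (E : Od H V) {t : H} (ht : t * t = 1) : Nat.card V = Nat.card (Fx V t) * Nat.card (Ng V t) := by
  have := E.decomp ht ⊤ fun _ _ => AddSubgroup.mem_top _
  rwa [inf_top_eq, inf_top_eq, AddSubgroup.card_top] at this

/-- Commuting involutions have a regular vector. -/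
theorem reg [Finite H] (E : Od H V) (S : Set H) (hs : ∀ s ∈ S, s * s = 1) (hc : ∀ s ∈ S, ∀ t ∈ S, s * t = t * s)
    (W : AddSubgroup V) (hinv : ∀ s ∈ S, ∀ w ∈ W, s • w ∈ W) :
    ∃ u ∈ W, ∀ s ∈ S, s • u = u → ∀ w ∈ W, s • w = w := by
  obtain ⟨u, hu, hmin⟩ := exists_minimalFor_of_wellFoundedLT (fun u : V => u ∈ W)
    (fun u : V => {s : H | s ∈ S ∧ s • u = u}) ⟨0, W.zero_mem⟩
  refine ⟨u, hu, fun s hsS hsu w hw => ?_⟩
  have h1 : s • (w - s • w) = -(w - s • w) := by rw [smul_sub, smul_smul_of_sq (hs s hsS), neg_sub]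
  have h2 := (hmin (W.add_mem hu (W.sub_mem hw (hinv s hsS w hw))) (fun t ht => ⟨ht.1, by
    have h3 : t • (u + (w - s • w)) = u + (w - s • w) := ht.2
    have h4 : t • s • (u + (w - s • w)) = s • (u + (w - s • w)) := by rw [smul_comm_of (hc t ht.1 s hsS), h3]
    rw [smul_add s, hsu, h1] at h4
    rw [← sub_eq_zero]
    refine E.two ?_
    rw [show t • u - u + (t • u - u) = t • (u + (w - s • w)) + t • (u + -(w - s • w)) - (u + u) by
      simp only [smul_add, smul_neg]; abel, h3, h4]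
    abel⟩) ⟨hsS, hsu⟩).2
  rw [smul_add, hsu, add_right_inj] at h2
  exact (sub_eq_zero.1 (E.eq_zero h2 h1)).symm

variable [Finite H] [Finite V] [FaithfulSMul H V]

theorem exists_sq_ne (E : Od H V) {h : H} (hh : h * h ≠ 1) : ∃ k ∈ Kp H (Fx V (h * h)), k * k ≠ 1 := by
  by_contra hcon
  push Not at hcon
  obtain ⟨u, -, hu⟩ := E.reg (Kp H (Fx V (h * h))) hcon
    (fun s hs t ht => comm_of_sq (hcon s hs) (hcon t ht) (hcon _ (mul_mem hs ht))) ⊤ fun _ _ _ _ => AddSubgroup.mem_top _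
  obtain ⟨t, g1, g2, g3⟩ := E.bin.inv h u
  have h1 : t * h = 1 := Fx_eq_top (V := V) fun v => hu (t * h) (fun w hw => by
    have hw : (h * h) • w = w := hw
    rw [mul_smul, g2 _ (by rw [← mul_smul, mul_assoc, mul_smul, hw]), ← mul_smul, hw])
    (by rw [mul_smul, ← g3, smul_smul_of_sq g1]) v (AddSubgroup.mem_top v)
  rw [eq_inv_of_mul_eq_one_right h1, inv_of_sq g1] at hh
  exact hh g1

variable {a : H}

omit [Finite H] [FaithfulSMul H V] in
theorem _root_.CL.BinAff.Sm.fx (ha : Sm V a) {k : H} (hk : k ∈ Kp H (Fx V a)) (hk2 : k * k ≠ 1) {v : V} (hv : k • v = v) :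
    a • v = v :=
  show v ∈ Fx V a from (AddSubgroup.eq_of_le_of_card_ge (show Fx V a ≤ Fx V k from hk) (ha.2 k hk2)).symm ▸ hv

omit [Finite H] [FaithfulSMul H V] in
theorem _root_.CL.BinAff.Sm.sq (ha : Sm V a) {k : H} (hk : k ∈ Kp H (Fx V a)) {v : V} (hv : k • v = v) (hu : a • v ≠ v) :
    k * k = 1 := by
  by_contra h
  exact hu (ha.fx hk h hv)

theorem fx_sq (E : Od H V) (ha : Sm V a) {k : H} (hk : k ∈ Kp H (Fx V a)) (hk2 : k * k ≠ 1) {v : V}
    (hv : (k * k) • v = v) : a • v = v := by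
  obtain ⟨l, hl, hl2⟩ := E.exists_sq_ne hk2
  exact ha.fx (fun y hy => hl y (mul_mem hk hk y hy)) hl2 (hl v hv)

omit [Finite H] in
theorem exI (E : Od H V) (ha : Sm V a) {h : H} (hh : h ∈ Kp H (Fx V a)) {u : V} (hu : a • u ≠ u) :
    ∃ j ∈ Kp H (Fx V a), j * j = 1 ∧ j • u = u ∧ j * h * j = h⁻¹ := by
  obtain ⟨t, g1, g2, g3⟩ := E.bin.inv h u
  have ht : t ∈ Kp H (Fx V a) := fun y hy => by rw [g2 y (mul_mem hh hh y hy), hh y hy]
  have h1 : (t * h) • u = u := by rw [mul_smul, ← g3, smul_smul_of_sq g1]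
  have h2 := ha.sq (mul_mem ht hh) h1 hu
  refine ⟨t * h, mul_mem ht hh, h2, h1, ?_⟩
  rw [show t * h * h * (t * h) = t * h * t⁻¹ * (t * h * (t * h)) by group, h2, mul_one, inv_of_sq g1,
    eq_inv_iff_mul_eq_one, mul_assoc, h2]

theorem cfree (E : Od H V) (ha : Sm V a) {h c : H} (hh : h ∈ Kp H (Fx V a)) (hh2 : h * h ≠ 1) (hc : c ∈ Kp H (Fx V a))
    (hch : c * h = h * c) (hc1 : c ≠ 1) {v : V} (hv : c • v = v) : a • v = v := by
  by_contra hav
  have hcc := ha.sq hc hv hav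
  have hS : ∀ s ∈ {x : H | x ∈ Kp H (Fx V a) ∧ x • v = v}, s * s = 1 := fun s hs => ha.sq hs.1 hs.2 hav
  have hS' : ∀ s ∈ {x : H | x ∈ Kp H (Fx V a) ∧ x • v = v}, ∀ t ∈ {x : H | x ∈ Kp H (Fx V a) ∧ x • v = v},
      s * t = t * s := fun s hs t ht =>
    comm_of_sq (hS s hs) (hS t ht) (hS _ ⟨mul_mem hs.1 ht.1, by rw [mul_smul, ht.2, hs.2]⟩)
  obtain ⟨u, hu, hreg⟩ := E.reg _ hS hS' (Ng V c) fun s hs w hw => by
    rw [mem_Ng, smul_comm_of (hS' c ⟨hc, hv⟩ s hs), show c • w = -w from hw, smul_neg]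
  have hu : c • u = -u := hu
  obtain ⟨σ, g1, g2⟩ := E.bin.ab {1, c, h, h * c} (by
      have e1 : Commute c h := hch
      rintro x (rfl | rfl | rfl | rfl) y (rfl | rfl | rfl | rfl)
      all_goals first
        | rfl | exact (Commute.one_left _).eq | exact (Commute.one_right _).eq | exact e1.eq | exact e1.symm.eq
        | exact (e1.mul_right (Commute.refl _)).eq | exact (e1.mul_right (Commute.refl _)).symm.eq
        | exact ((Commute.refl _).mul_right e1.symm).eq | exact ((Commute.refl _).mul_right e1.symm).symm.eq)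
    (Fx V a) (by
      rintro x (rfl | rfl | rfl | rfl)
      exacts [mul_mem (one_mem (Kp H (Fx V a))) (one_mem _), mul_mem hc hc, mul_mem hh hh,
        mul_mem (mul_mem hh hc) (mul_mem hh hc)]) (v + u)
  have k1 := g2 1 (by simp)
  have k2 := g2 c (by simp)
  have k3 := g2 h (by simp)
  have k4 := g2 (h * c) (by simp)
  have e0 : c • (v + u) = v - u := by rw [smul_add, hv, hu, sub_eq_add_neg]
  rw [one_smul, inv_one, one_smul, smul_add] at k1
  rw [inv_of_sq hcc, e0, smul_sub] at k2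
  rw [smul_add, smul_add, smul_add] at k3
  rw [mul_smul, e0, ← hch, mul_inv_rev, inv_of_sq hcc, mul_smul, e0, smul_sub, smul_sub, smul_sub] at k4
  have l1 : σ • v = v := sub_eq_zero.1 (E.two (by
    rw [show σ • v - v + (σ • v - v) = σ • v + σ • u + (σ • v - σ • u) - (v + v) by abel, k1, k2]; abel))
  have l2 : σ • u = u := by rwa [l1, add_right_inj] at k1
  have l3 : σ • h • u = h⁻¹ • u := sub_eq_zero.1 (E.two (by
    rw [show σ • h • u - h⁻¹ • u + (σ • h • u - h⁻¹ • u) =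
      σ • h • v + σ • h • u - (σ • h • v - σ • h • u) - (h⁻¹ • u + h⁻¹ • u) by abel, k3, k4]; abel))
  rw [hreg σ ⟨g1, l1⟩ l2 _ (by rw [mem_Ng, smul_comm_of hch, hu, smul_neg]), eq_inv_smul_iff, ← mul_smul] at l3
  have l4 : u = 0 := E.eq_zero (hc u (E.fx_sq ha hh hh2 l3)) hu
  refine hc1 (Fx_eq_top (V := V) fun w => ?_)
  have l5 : c • (w - c • w) = -(w - c • w) := by rw [smul_sub, smul_smul_of_sq hcc, neg_sub]
  exact (sub_eq_zero.1 (E.eq_zero (hreg c ⟨hc, hv⟩ (by rw [l4, smul_zero]) _ l5) l5)).symm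

omit [Finite H] in
theorem uniq_z (E : Od H V) {Y : AddSubgroup V} {c d : H} (hc : c ∈ Kp H Y) (hd : d ∈ Kp H Y) (hc2 : c * c = 1)
    (hd2 : d * d = 1) (hcf : ∀ v : V, c • v = v → v ∈ Y) (hdf : ∀ v : V, d • v = v → v ∈ Y) : c = d := by
  have h1 : c * d = 1 := Fx_eq_top (V := V) fun v => by
    have y1 := hcf (c • v + v) (by rw [smul_add, smul_smul_of_sq hc2, add_comm])
    have y2 := hdf (d • v + v) (by rw [smul_add, smul_smul_of_sq hd2, add_comm])
    have y3 : (c * d) • v - v ∈ Y := by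
      have := hc _ y2
      rw [smul_add, ← mul_smul] at this
      rw [show (c * d) • v - v = (c * d) • v + c • v - (c • v + v) by abel, this]
      exact Y.sub_mem y2 y1
    have y4 := E.bin.q (mul_mem (mul_mem hc hd) (mul_mem hc hd) _ y3)
    refine sub_eq_zero.1 (E.eq_zero (mul_mem hc hd _ y3) ?_)
    rw [smul_sub, ← mul_smul, y4, neg_sub]
  rw [← inv_of_sq hc2]
  exact inv_eq_of_mul_eq_one_right h1

theorem invC (E : Od H V) (ha : Sm V a) {j : H} (hj : j ∈ Kp H (Fx V a)) (hj2 : j * j = 1) {u : V} (hu : a • u ≠ u)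
    (hju : j • u = u) (hja : j * a * j = a⁻¹) : InvO (Kp H (Fx V a) ⊓ Subgroup.centralizer {a}) j := by
  refine ⟨hj2, fun c hc => ?_⟩
  have haK : a ∈ Kp H (Fx V a) := fun _ hy => hy
  have hca : a * c = c * a := hc.2 a rfl
  let C2 : Subgroup H := Kp H (Fx V a) ⊓ Subgroup.centralizer {a} ⊓ Subgroup.centralizer {c}
  let B : Subgroup H := C2 ⊓ Subgroup.centralizer (C2 : Set H)
  have haB : a ∈ B := ⟨⟨⟨haK, by rintro _ rfl; rfl⟩, by rintro _ rfl; exact hca.symm⟩, fun x hx => (hx.1.2 a rfl).symm⟩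
  have hcB : c ∈ B := ⟨⟨hc, by rintro _ rfl; rfl⟩, fun x hx => (hx.2 c rfl).symm⟩
  have hcyc : IsCyclic B := isCyclic_of_free B (fun x hx y hy => hy.2 x hx.1) (Cm V a)
    (Cm_ne_bot fun e => ha.1 (by rw [e, mul_one])) (fun x hx w hw => Cm_inv (hx.1.1.2 a rfl).symm hw)
    fun x hx hx1 w hw hxw => by
      have h1 := E.cfree ha haK ha.1 hx.1.1.1 (hx.1.1.2 a rfl).symm hx1 hxw
      obtain ⟨v, rfl⟩ := mem_Cm.1 hw
      exact sub_eq_zero.2 (E.fx_sq ha haK ha.1 (E.bin.q (by rw [mul_smul, h1, h1])))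
  obtain ⟨⟨d, hd⟩, hgen⟩ := IsCyclic.exists_generator (α := B)
  obtain ⟨k, hk, hk2, hku, hkd⟩ := E.exI ha hd.1.1.1 hu
  have hkB : ∀ x ∈ B, k * x * k = x⁻¹ := fun x hx => by
    obtain ⟨m, hm⟩ := hgen ⟨x, hx⟩
    obtain rfl : d ^ m = x := congrArg Subtype.val hm
    calc k * d ^ m * k = k * d ^ m * k⁻¹ := by rw [inv_of_sq hk2]
      _ = (d ^ m)⁻¹ := by rw [← conj_zpow, inv_of_sq hk2, hkd, inv_zpow]
  have hjk : j * k = 1 := by
    by_contra hne
    refine hu (E.cfree ha haK ha.1 (mul_mem hj hk) ?_ hne (by rw [mul_smul, hku, hju]))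
    have h1 : j * a⁻¹ * j = a := by rw [← hja, show j * (j * a * j) * j = j * j * a * (j * j) by group, hj2]; group
    calc j * k * a = j * (k * a * k) * j * (j * k) := by
          rw [show j * (k * a * k) * j * (j * k) = j * k * a * (k * (j * j) * k) by group, hj2, mul_one, hk2, mul_one]
      _ = a * (j * k) := by rw [hkB a haB, h1]
  rw [show j = k from (inv_of_sq hj2).symm.trans (inv_eq_of_mul_eq_one_right hjk)]
  exact hkB c hcB

theorem mul_le_mul_arith {F n y : ℕ} (hn : 0 < n) (h : n * n * y ≤ F * n) : F * n * y ≤ F * F := by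
  rw [mul_assoc]
  refine Nat.mul_le_mul_left _ (Nat.le_of_mul_le_mul_right (le_trans (le_of_eq (by ring)) h) hn)

/-- The structure of the pointwise stabiliser of a maximal fixed space. -/
theorem loc (E : Od H V) (ha : Sm V a) : ∃ (q : ℕ) (z : H), 3 ≤ q ∧ Nat.card V = q ^ 2 * Nat.card (Fx V a) ∧
    Fx V z = Fx V a ∧ Ln V q z ∧ (Fx V a = ⊥ → Dih H V) := by
  set K := Kp H (Fx V a) with hK
  set C := K ⊓ Subgroup.centralizer {a} with hC
  have haK : a ∈ K := fun _ hy => hy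
  have haC : a ∈ C := ⟨haK, by rintro _ rfl; rfl⟩
  have hfree : ∀ c ∈ C, c ≠ 1 → ∀ v : V, c • v = v → a • v = v := fun c hc hc1 v hv =>
    E.cfree ha haK ha.1 hc.1 (hc.2 a rfl).symm hc1 hv
  let J : H → Prop := fun j => j ∈ K ∧ InvO C j
  have hI : ∀ u : V, a • u ≠ u → ∃ j, J j ∧ j • u = u := fun u hu => by
    obtain ⟨j, hj, hj2, hju, hja⟩ := E.exI ha haK hu
    exact ⟨j, ⟨hj, E.invC ha hj hj2 hu hju hja⟩, hju⟩
  have hmul : ∀ j k, J j → J k → j * k ∈ C := fun j k hj hk =>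
    ⟨mul_mem hj.1 hk.1, by rintro _ rfl; exact (hj.2.mul_comm hk.2 haC).symm⟩
  have hJC : ∀ j c, J j → c ∈ C → J (j * c) := fun j c hj hc => ⟨mul_mem hj.1 hc.1, hj.2.mul_mem hc⟩
  have hne1 : ∀ j k, J j → j ≠ k → j * k ≠ 1 := fun j k hj hne e =>
    hne ((inv_of_sq hj.2.1).symm.trans (inv_eq_of_mul_eq_one_right e))
  have huniq : ∀ j k, J j → J k → ∀ u : V, a • u ≠ u → j • u = u → k • u = u → j = k := fun j k hj hk u hu h1 h2 => by
    by_contra hne
    exact hu (hfree _ (hmul j k hj hk) (hne1 j k hj hne) u (by rw [mul_smul, h2, h1]))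
  obtain ⟨u0, hu0⟩ : ∃ u : V, a • u ≠ u := by
    by_contra h
    push Not at h
    exact ha.1 (by rw [Fx_eq_top h, mul_one])
  obtain ⟨j0, hj0, -⟩ := hI u0 hu0
  have hcC : ∀ c ∈ C, ∀ d ∈ C, c * d = d * c := fun c hc d hd => hj0.2.comm hc hd
  have hnot : ∀ j, J j → j ∉ C := fun j hj hjC => ha.1 (by
    have := hj.2.2 a haC
    rw [hcC j hjC a haC, mul_assoc, hj.2.1, mul_one] at this
    exact mul_eq_one_iff_eq_inv.2 this)
  have hsum : ∀ j k, J j → J k → j ≠ k → ∀ m ∈ Ng V j, ∀ m' ∈ Ng V k, m + m' ∈ Fx V a → m = 0 := by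
    intro j k hj hk hne m hm m' hm' hy
    have hm : j • m = -m := hm
    have hm' : k • m' = -m' := hm'
    have hh := mul_mem hj.1 hk.1
    have e1 := hk.1 _ hy
    have e2 := hj.1 _ hy
    rw [smul_add, hm', ← sub_eq_add_neg, sub_eq_iff_eq_add] at e1
    rw [smul_add, hm, neg_add_eq_sub, sub_eq_iff_eq_add] at e2
    have e3 : (j * k) • m = m + (m + m' + (m + m')) := by
      rw [mul_smul, e1, smul_add, smul_add, hm, e2]; abel
    have hyy := (Fx V a).add_mem hy hy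
    have e4 : (j * k * (j * k)) • m = m := E.bin.q (by rw [e3, add_sub_cancel_left]; exact mul_mem hh hh _ hyy)
    rw [mul_smul, e3, smul_add, e3, hh _ hyy, add_assoc, add_eq_left] at e4
    rw [E.two e4, add_zero] at e3
    exact E.eq_zero (hj.1 m (hfree _ (hmul j k hj hk) (hne1 j k hj hne) m e3)) hm
  have hbig : ∀ j, J j → Nat.card V * Nat.card (Fx V a) ≤ Nat.card (Fx V j) * Nat.card (Fx V j) := fun j hj => by
    have e0 : a * j * a⁻¹ = j * (a * a)⁻¹ := by
      calc a * j * a⁻¹ = j * j * a * j * a⁻¹ := by rw [hj.2.1, one_mul]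
        _ = j * (j * a * j) * a⁻¹ := by group
        _ = j * (a * a)⁻¹ := by rw [hj.2.2 a haC]; group
    have hk : J (a * j * a⁻¹) := e0 ▸ hJC _ _ hj (inv_mem (mul_mem haC haC))
    have hne : j ≠ a * j * a⁻¹ := fun e => ha.1 (inv_eq_one.1 (left_eq_mul.1 (e.trans e0)))
    have h1 : Ng V j ⊓ Ng V (a * j * a⁻¹) = ⊥ := (AddSubgroup.eq_bot_iff_forall _).2 fun m hm =>
      hsum _ _ hj hk hne m hm.1 (-m) (neg_mem hm.2) (by rw [add_neg_cancel]; exact zero_mem _)
    have h2 : (Ng V j ⊔ Ng V (a * j * a⁻¹)) ⊓ Fx V a = ⊥ := (AddSubgroup.eq_bot_iff_forall _).2 fun v hv => by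
      obtain ⟨m, hm, m', hm', rfl⟩ := AddSubgroup.mem_sup.1 hv.1
      rw [hsum _ _ hj hk hne m hm m' hm' hv.2, hsum _ _ hk hj hne.symm m' hm' m hm (add_comm m m' ▸ hv.2), add_zero]
    have h3 := AddSubgroup.card_le_card_addGroup (Ng V j ⊔ Ng V (a * j * a⁻¹) ⊔ Fx V a)
    rw [card_sup_of_inf_eq_bot h2, card_sup_of_inf_eq_bot h1, card_Ng_conj] at h3
    rw [E.decomp' hj.2.1] at h3 ⊢
    exact mul_le_mul_arith Nat.card_pos h3
  have : Nontrivial {j // J j} := ⟨⟨⟨j0, hj0⟩, ⟨j0 * a, hJC _ _ hj0 haC⟩, fun e =>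
    ha.1 (by rw [left_eq_mul.1 (congrArg Subtype.val e), mul_one])⟩⟩
  have hcov : ∀ w : V, ∃ j, J j ∧ j • w = w := fun w => by
    by_cases hw : a • w = w
    · exact ⟨j0, hj0, hj0.1 w hw⟩
    · exact hI w hw
  obtain ⟨q, hq2, hqF, hqV, hqJ⟩ := spread (W := (⊤ : AddSubgroup V)) (Y := Fx V a) (fun j : {j // J j} => Fx V j.1)
    (fun _ => le_top) (fun j => j.2.1) (fun i j hij v hv => by
      by_contra h0
      exact hij (Subtype.ext (huniq _ _ i.2 j.2 v h0 hv.1 hv.2)))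
    (fun w _ => (hcov w).elim fun j hj => ⟨⟨j, hj.1⟩, hj.2⟩)
    (fun i => by rw [AddSubgroup.card_top]; exact hbig _ i.2) (fun e => hu0 (show u0 ∈ Fx V a from e ▸ trivial))
  rw [AddSubgroup.card_top] at hqV
  have hypos : 0 < Nat.card (Fx V a) := Nat.card_pos
  have hqN : ∀ j, J j → Nat.card (Ng V j) = q := fun j hj => by
    have := E.decomp' hj.2.1
    rw [hqF ⟨j, hj⟩, hqV] at this
    exact Nat.eq_of_mul_eq_mul_left (Nat.mul_pos (by omega : 0 < q) hypos) (by rw [← this]; ring)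
  have hqC : Nat.card C = q + 1 := by
    rw [← hqJ]
    exact Nat.card_congr
      { toFun := fun c => ⟨j0 * c, hJC _ _ hj0 c.2⟩
        invFun := fun j => ⟨j0 * j, hmul _ _ hj0 j.2⟩
        left_inv := fun c => Subtype.ext (by change j0 * (j0 * c) = c; rw [← mul_assoc, hj0.2.1, one_mul])
        right_inv := fun j => Subtype.ext (by change j0 * (j0 * j) = j; rw [← mul_assoc, hj0.2.1, one_mul]) }
  have hqo : Odd q := E.odd.of_dvd_nat ⟨q * Nat.card (Fx V a), by rw [hqV]; ring⟩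
  have hq3 : 3 ≤ q := by obtain ⟨k, rfl⟩ := hqo; omega
  have : Fact (Nat.Prime 2) := ⟨Nat.prime_two⟩
  obtain ⟨⟨z, hzC⟩, hz⟩ := exists_prime_orderOf_dvd_card' (G := C) 2 (hqC ▸ hqo.add_one.two_dvd)
  have hz2 : z * z = 1 := by
    have := pow_orderOf_eq_one (⟨z, hzC⟩ : C)
    rw [hz, pow_two] at this
    exact congrArg Subtype.val this
  have hz1 : z ≠ 1 := fun e => by
    rw [show (⟨z, hzC⟩ : C) = 1 from Subtype.ext e, orderOf_one] at hz
    omega
  have hzF : Fx V z = Fx V a := le_antisymm (hfree z hzC hz1) hzC.1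
  have hzN : Nat.card (Ng V z) = q ^ 2 := by
    have := E.decomp' hz2
    rw [hzF, hqV, mul_comm] at this
    exact (Nat.eq_of_mul_eq_mul_left hypos this).symm
  have hzu : ∀ c ∈ K, c * c = 1 → (∀ v : V, c • v = v → a • v = v) → c = z := fun c hc hc2 hcf =>
    E.uniq_z hc hzC.1 hc2 hz2 hcf (hfree z hzC hz1)
  have hjz : ∀ j, J j → j * z = z * j := fun j hj => by
    have := hj.2.2 z hzC
    rwa [inv_of_sq hz2, ← inv_of_sq hj.2.1, mul_inv_eq_iff_eq_mul, inv_of_sq hj.2.1] at this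
  have hX : ∀ e ∈ K, e ≠ 1 → ∀ w : V, e • w = w → a • w ≠ w → ∃ j, J j ∧ j * e = e * j ∧ Fx V e ≤ Fx V j := by
    intro e he he1 w hw haw
    have h1 : ∀ w : V, e • w = w → a • w ≠ w → ∃ j, J j ∧ j * e = e * j ∧ j • w = w := fun w hw haw => by
      obtain ⟨j, hj, hjw⟩ := hI w haw
      exact ⟨j, hj, comm_of_sq hj.2.1 (ha.sq he hw haw) (ha.sq (mul_mem hj.1 he) (by rw [mul_smul, hw, hjw]) haw), hjw⟩
    have h2 : ∀ j k, J j → J k → j * e = e * j → k * e = e * k → k = j ∨ k = j * z := fun j k hj hk e1 e2 => by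
      by_cases hne : j = k
      · exact Or.inl hne.symm
      have h3 : j * k * (j * k) = 1 := by
        by_contra h
        exact haw (E.cfree ha (mul_mem hj.1 hk.1) h he (by
          rw [← mul_assoc, ← e1, mul_assoc, ← e2, mul_assoc]) he1 hw)
      rw [← hzu _ (mul_mem hj.1 hk.1) h3 (hfree _ (hmul j k hj hk) (hne1 j k hj hne)), ← mul_assoc, hj.2.1, one_mul]
      exact Or.inr rfl
    obtain ⟨j, hj, hje, hjw⟩ := h1 w hw haw
    refine ⟨j, hj, hje, fun v hv => ?_⟩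
    by_contra hjv
    have hjv : j • v ≠ v := hjv
    have h4 : ∀ v : V, e • v = v → j • v ≠ v → (j * z) • v = v := fun v hv hjv => by
      obtain ⟨k, hk, hke, hkv⟩ := h1 v hv fun h => hjv (hj.1 v h)
      rcases h2 j k hj hk hje hke with rfl | rfl
      · exact absurd hkv hjv
      · exact hkv
    have h5 := h4 v hv hjv
    have h6 := h4 (w + v) (by rw [smul_add, hw, show e • v = v from hv]) (by rwa [smul_add, hjw, Ne, add_right_inj])
    rw [smul_add, h5, add_left_inj] at h6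
    exact hz1 (left_eq_mul.1 (huniq _ _ hj (hJC _ _ hj hzC) w haw hjw h6))
  have hinv : ∀ e ∈ K, e * e = 1 → e ∈ C ∨ J e := fun e he he2 => by
    by_cases he1 : e = 1
    · exact Or.inl (he1 ▸ one_mem C)
    by_cases hf : ∀ v : V, e • v = v → a • v = v
    · exact Or.inl (hzu e he he2 hf ▸ hzC)
    push Not at hf
    obtain ⟨w, hw, haw⟩ := hf
    obtain ⟨j, hj, hje, hle⟩ := hX e he he1 w hw haw
    by_cases hej : e * j = 1
    · exact Or.inr ((inv_of_sq he2).symm.trans (inv_eq_of_mul_eq_one_right hej) ▸ hj)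
    exfalso
    obtain ⟨k, hk, -, hle'⟩ := hX _ (mul_mem he hj.1) hej w (by rw [mul_smul, show j • w = w from hle hw, hw]) haw
    obtain rfl : j = k := huniq _ _ hj hk w haw (hle hw) (hle' (by rw [mem_Fx, mul_smul, show j • w = w from hle hw, hw]))
    obtain ⟨m, hm, hm0⟩ := exists_ne_zero_of_one_lt (A := Ng V j) (by rw [hqN j hj]; omega)
    have hm : j • m = -m := hm
    have h1 : m + e • m = 0 := E.eq_zero (hle (by rw [mem_Fx, smul_add, smul_smul_of_sq he2, add_comm]))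
      (by rw [smul_add, smul_comm_of hje, hm, smul_neg, neg_add])
    exact hm0 (E.eq_zero (hle' (by rw [mem_Fx, mul_smul, hm, smul_neg, eq_neg_of_add_eq_zero_right h1, neg_neg])) hm)
  have hall : ∀ k ∈ K, k ∈ C ∨ J k := fun k hk => by
    by_cases hk2 : k * k = 1
    · exact hinv k hk hk2
    obtain ⟨j, hj, hj2, hju, hjk⟩ := E.exI ha hk hu0
    have h1 : J j := (hinv j hj hj2).resolve_left fun h => hu0 (hfree j h (fun e => hk2 (by
      rw [e, one_mul, mul_one] at hjk; exact mul_eq_one_iff_eq_inv.2 hjk)) u0 hju)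
    rcases hinv _ (mul_mem hj hk) (by rw [← mul_assoc, hjk, inv_mul_cancel]) with h | h
    · have := hJC _ _ h1 h
      rw [← mul_assoc, hj2, one_mul] at this
      exact Or.inr this
    · have := hmul _ _ h1 h
      rw [← mul_assoc, hj2, one_mul] at this
      exact Or.inl this
  have hpts : ∀ t, t ∈ pts V q z ↔ J t := fun t => by
    refine ⟨fun ht => ?_, fun ht => ⟨⟨ht.2.1, hqN t ht⟩, fun v hv => ht.1 v (hzF ▸ hv : v ∈ Fx V a)⟩⟩
    have htK : t ∈ K := fun y hy => ht.2 y (hzC.1 y hy)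
    refine (hall t htK).resolve_left fun htC => ?_
    have h1 := ht.1.2
    by_cases ht1 : t = 1
    · obtain ⟨m, hm, hm0⟩ := exists_ne_zero_of_one_lt (A := Ng V t) (by omega)
      exact hm0 (E.eq_zero (by rw [ht1, one_smul]) hm)
    · rw [hzu t htK ht.1.1 (hfree t htC ht1), hzN] at h1
      nlinarith
  have hzero : ∀ u ∈ Ng V z, a • u = u → u = 0 := fun u hu h => E.eq_zero (hzC.1 u h) hu
  refine ⟨q, z, hq3, hqV, hzF, ⟨hz2, hzN, ?_, fun t ht m hm => ?_, fun t ht => hjz t ((hpts t).1 ht),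
    fun t ht => (hpts _).2 (hJC _ _ ((hpts t).1 ht) hzC), fun u hu => ?_, fun t ht s hs u hu hu0 h => ?_,
    fun t ht s hs h => ?_⟩, fun hY => ?_⟩
  · rw [← hqJ, show pts V q z = {j | J j} from Set.ext hpts]; rfl
  · have hm : t • m = -m := hm
    refine eq_neg_of_add_eq_zero_right (E.eq_zero (ht.2 _ (by rw [smul_add, smul_smul_of_sq hz2, add_comm])) ?_)
    rw [smul_add, smul_comm_of (hjz t ((hpts t).1 ht)), hm, smul_neg, neg_add]
  · obtain ⟨j, hj, hju⟩ := hcov u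
    exact ⟨j * z, (hpts _).2 (hJC _ _ hj hzC), by rw [mem_Ng, mul_smul, show z • u = -u from hu, smul_neg, hju]⟩
  · by_contra hne
    have ht := (hpts t).1 ht
    exact hu0 (hzero u hu (hfree _ (hmul _ _ ht ((hpts s).1 hs)) (hne1 _ _ ht hne) u (by
      rw [mul_smul, ← h, smul_smul_of_sq ht.2.1])))
  · have ht := (hpts t).1 ht
    have hs := (hpts s).1 hs
    by_cases hne : t = s
    · exact Or.inl hne.symm
    rw [← hzu _ (mul_mem ht.1 hs.1) (sq_of_comm ht.2.1 hs.2.1 h) (hfree _ (hmul _ _ ht hs) (hne1 _ _ ht hne)),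
      ← mul_assoc, ht.2.1, one_mul]
    exact Or.inr rfl
  · have hK : ∀ h : H, h ∈ K := fun h y hy => by rw [(AddSubgroup.eq_bot_iff_forall _).1 hY y hy, smul_zero]
    have hJ : ∀ h, h ∉ C → J h := fun h hh => (hall h (hK h)).resolve_left hh
    refine ⟨C, q, hq2, by rw [hqV, hY, AddSubgroup.card_bot, mul_one], hqC, hcC, fun h hh => (hJ h hh).2,
      fun h k hh hk => hmul h k (hJ h hh) (hJ k hk), fun u => ?_⟩
    obtain ⟨j, hj, hju⟩ := hcov u
    exact ⟨j, hnot j hj, hju⟩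

end Od

end CL.BinAff
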