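import Cfsg.Agent.Perm.BinAff4

/-! Binary affine groups, V: odd characteristic, the geometry of points and lines. -/

set_option autoImplicit false

namespace CL.BinAff

/-- A finite projective plane has no polarity without absolute points. -/
theorem friendship {P : Type*} [Finite P] [Nonempty P] (R : P → P → Prop) (hs : ∀ x y, R x y → R y x)
    (hi : ∀ x, ¬ R x x) {q : ℕ} (hq : 2 ≤ q) (hd : ∀ x, {y | R x y}.ncard = q + 1)
    (hc : ∀ x y, x ≠ y → ∃! z, R x z ∧ R y z) : False := by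
  classical
  have := Fintype.ofFinite P
  obtain ⟨p, hp, hpq⟩ := Nat.exists_prime_and_dvd (show q ≠ 1 by omega)
  have := Fact.mk hp
  obtain ⟨A, hA⟩ : ∃ A : Matrix P P (ZMod p), ∀ x y, A x y = if R x y then 1 else 0 :=
    ⟨Matrix.of fun x y => if R x y then 1 else 0, fun _ _ => rfl⟩
  obtain ⟨J, hJ⟩ : ∃ J : Matrix P P (ZMod p), ∀ x y, J x y = 1 := ⟨Matrix.of fun _ _ => 1, fun _ _ => rfl⟩
  have hdeg : ∀ x, ((Finset.univ.filter fun y => R x y).card : ZMod p) = 1 := fun x => by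
    have h1 : (Finset.univ.filter fun y => R x y).card = q + 1 := by
      rw [← hd x, ← Set.ncard_coe_finset]
      congr 1
      ext y
      simp
    rw [h1, Nat.cast_add, (ZMod.natCast_eq_zero_iff q p).2 hpq, zero_add, Nat.cast_one]
  have hAJ : A * J = J := by
    ext x y
    simp only [Matrix.mul_apply, hA, hJ, mul_one, Finset.sum_boole]
    exact hdeg x
  have hAA : A * A = J := by
    ext x y
    simp only [Matrix.mul_apply, hA, hJ, ite_zero_mul_ite_zero, mul_one, Finset.sum_boole]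
    by_cases hxy : x = y
    · subst hxy
      rw [← hdeg x]
      congr 2
      ext z
      simp only [Finset.mem_filter, Finset.mem_univ, true_and]
      exact ⟨fun h => h.1, fun h => ⟨h, hs _ _ h⟩⟩
    · obtain ⟨z, hz, hu⟩ := hc x y hxy
      rw [show (Finset.univ.filter fun w => R x w ∧ R w y) = {z} from by
        ext w
        simp only [Finset.mem_filter, Finset.mem_univ, true_and, Finset.mem_singleton]
        exact ⟨fun h => hu w ⟨h.1, hs _ _ h.2⟩, fun h => h ▸ ⟨hz.1, hs _ _ hz.2⟩⟩]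
      simp
  have hpow : ∀ n : ℕ, A ^ (n + 2) = J := fun n => by
    induction n with
    | zero => rw [zero_add, pow_two, hAA]
    | succ n ih => rw [show n + 1 + 2 = n + 2 + 1 by ring, pow_succ', ih, hAJ]
  have h1 : J * J = J := by
    calc J * J = A * A * J := by rw [hAA]
      _ = J := by rw [mul_assoc, hAJ, hAJ]
  obtain ⟨x⟩ : Nonempty P := inferInstance
  have h2 : (Fintype.card P : ZMod p) = 1 := by
    have := congrFun (congrFun h1 x) x
    simpa [Matrix.mul_apply, hJ] using this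
  have h3 := ZMod.trace_pow_card A
  obtain ⟨n, rfl⟩ : ∃ n, p = n + 2 := ⟨p - 2, by have := hp.two_le; omega⟩
  rw [hpow, show A.trace = 0 by simp [Matrix.trace, hA, hi], zero_pow (by omega)] at h3
  have h4 : J.trace = Fintype.card P := by simp [Matrix.trace, hJ]
  exact one_ne_zero (h2.symm.trans (h4.symm.trans h3))

variable {H : Type*} [Group H] {V : Type*} [AddCommGroup V] [DistribMulAction H V]

theorem DD.conj {q : ℕ} {t : H} (ht : DD V q t) (g : H) : DD V q (g * t * g⁻¹) :=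
  ⟨by rw [show g * t * g⁻¹ * (g * t * g⁻¹) = g * (t * t) * g⁻¹ by group, ht.1]; group, by rw [card_Ng_conj, ht.2]⟩

theorem Ng_inv {s t : H} (h : s * t = t * s) {m : V} (hm : m ∈ Ng V t) : s • m ∈ Ng V t := by
  rw [mem_Ng, ← smul_comm_of h, show t • m = -m from hm, smul_neg]

theorem sub_mem_Ng {t : H} (ht : t * t = 1) (v : V) : t • v - v ∈ Ng V t := by
  rw [mem_Ng, smul_sub, smul_smul_of_sq ht, neg_sub]

theorem fix_of_disj {s t : H} (ht : t * t = 1) (h : t * s = s * t) (hd : ∀ v ∈ Ng V s, v ∈ Ng V t → v = 0) {m : V}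
    (hm : m ∈ Ng V s) : t • m = m :=
  sub_eq_zero.1 (hd _ (sub_mem (Ng_inv h hm) hm) (sub_mem_Ng ht m))

theorem Od.eq_of_Ng [FaithfulSMul H V] (E : Od H V) {s t : H} (hs : s * s = 1) (ht : t * t = 1) (h : s * t = t * s)
    (e : Ng V s = Ng V t) : s = t := eq_of_smul_eq_smul (α := V) fun v => by
  have h1 : t • (s • v - v) = -(s • v - v) := show _ ∈ Ng V t from e ▸ sub_mem_Ng hs v
  have h2 : s • (t • v - v) = -(t • v - v) := show _ ∈ Ng V s from e.symm ▸ sub_mem_Ng ht v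
  rw [smul_sub, sub_eq_iff_eq_add] at h1 h2
  rw [smul_comm_of h, h1] at h2
  refine sub_eq_zero.1 (E.two ?_)
  rw [show s • v - t • v + (s • v - t • v) = -(t • v - v) + s • v - (-(s • v - v) + t • v) by abel, h2, sub_self]

theorem lt_arith1 {q w i : ℕ} (hq : 0 < q) (hw : q < w) (h : q * w ≤ q ^ 2 * i) : 1 < i := by
  by_contra hi
  have : q * w ≤ q * q := h.trans (by rw [← pow_two]; exact Nat.mul_le_of_le_div _ _ _ (by
    rw [Nat.div_self (by positivity)]; omega) |>.trans_eq' (mul_comm _ _))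
  exact absurd (Nat.le_of_mul_le_mul_left this hq) (by omega)

theorem lt_arith2 {q w i : ℕ} (hw : q < w) (h : q ^ 2 = i * w) : ¬ q + 2 ≤ i := fun hi => by nlinarith

theorem lt_arith3 {q i : ℕ} (hq : 2 ≤ q) (h : q ^ 2 * q ^ 2 ≤ q ^ 3 * i) : 1 < i := by
  have h1 : q ^ 3 * q ≤ q ^ 3 * i := le_trans (le_of_eq (by ring)) h
  have := Nat.le_of_mul_le_mul_left h1 (by positivity)
  omega

/-- The geometry of points and lines. -/
structure Gl (H V : Type*) [Group H] [AddCommGroup V] [DistribMulAction H V] (q : ℕ) : Prop where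
  od : Od H V
  three : 3 ≤ q
  line : ∀ s t k : H, DD V q s → DD V q t → k * k ≠ 1 → Fx V s ⊓ Fx V t ≤ Fx V k →
    ∃ z, Ln V q z ∧ s ∈ pts V q z ∧ t ∈ pts V q z

theorem Ln.disj {q : ℕ} {z s t : H} (hz : Ln V q z) (hs : s ∈ pts V q z) (ht : t ∈ pts V q z) (hne : s ≠ t) :
    Ng V s ⊓ Ng V t = ⊥ := (AddSubgroup.eq_bot_iff_forall _).2 fun v hv => by
  by_contra h0
  exact hne (hz.free s hs t ht v (hz.le s hs hv.1) h0 (Eq.trans hv.1 (Eq.symm hv.2)))

theorem Ln.sup [Finite V] {q : ℕ} {z s t : H} (hz : Ln V q z) (hs : s ∈ pts V q z) (ht : t ∈ pts V q z) (hne : s ≠ t) :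
    Ng V s ⊔ Ng V t = Ng V z :=
  AddSubgroup.eq_of_le_of_card_ge (sup_le (hz.le s hs) (hz.le t ht)) (by
    rw [card_sup_of_inf_eq_bot (hz.disj hs ht hne), hs.1.2, ht.1.2, hz.card, pow_two])

theorem Ln.bound [Finite V] {q : ℕ} {z : H} (hz : Ln V q z) {W : AddSubgroup V} (hW : W ≤ Ng V z)
    (hinv : ∀ t ∈ pts V q z, ∀ w ∈ W, t • w ∈ W) {w : V} (hw : w ∈ W) (hw0 : w ≠ 0) : q + 2 ≤ Nat.card W := by
  have h1 : (pts V q z).ncard ≤ ((W : Set V) \ {0}).ncard := Set.ncard_le_ncard_of_injOn (fun t => t • w)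
    (fun t ht => ⟨hinv t ht w hw, fun e => hw0 ((smul_eq_zero_iff_eq t).1 e)⟩) fun t ht s hs e => hz.free t ht s hs w (hW hw) hw0 e
  rw [hz.ncard, Set.ncard_sdiff_singleton_of_mem W.zero_mem] at h1
  have : (W : Set V).ncard = Nat.card W := rfl
  omega

theorem exists_three {α : Type*} {S : Set α} {P : α → Prop} (hS : 4 ≤ S.ncard)
    (h : ∀ s ∈ S, ∀ t ∈ S, P s → P t → s = t) :
    ∃ a ∈ S, ∃ b ∈ S, ∃ c ∈ S, a ≠ b ∧ a ≠ c ∧ b ≠ c ∧ ¬ P a ∧ ¬ P b ∧ ¬ P c := by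
  have hf : S.Finite := Set.finite_of_ncard_pos (by omega)
  have h1 : (S ∩ {s | P s}).ncard ≤ 1 := (Set.ncard_le_one (hf.inter_of_left _)).2 fun a ha b hb => h a ha.1 b hb.1 ha.2 hb.2
  have h2 := Set.ncard_inter_add_ncard_sdiff_eq_ncard S {s | P s} hf
  obtain ⟨a, b, c, ha, hb, hc, hab, hac, hbc⟩ := (Set.two_lt_ncard_iff (s := S \ {s | P s}) hf.sdiff).1 (by omega)
  exact ⟨a, ha.1, b, hb.1, c, hc.1, hab, hac, hbc, ha.2, hb.2, hc.2⟩

namespace Gl

variable [Finite V] [FaithfulSMul H V] {q : ℕ}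

omit [Finite V] [FaithfulSMul H V] in
theorem line' (G : Gl H V q) {s t : H} (hs : DD V q s) (ht : DD V q t) (h : s * t ≠ t * s) :
    ∃ z, Ln V q z ∧ s ∈ pts V q z ∧ t ∈ pts V q z :=
  G.line s t (s * t) hs ht (fun e => h (comm_of_sq hs.1 ht.1 e)) fun v hv => by
    rw [mem_Fx, mul_smul, show t • v = v from hv.2, show s • v = v from hv.1]

omit [Finite V] [FaithfulSMul H V] in
theorem comm_of_overlap (G : Gl H V q) {s t : H} (hs : DD V q s) (ht : DD V q t) {u : V} (hu : u ≠ 0)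
    (h1 : u ∈ Ng V s) (h2 : u ∈ Ng V t) : s * t = t * s := by
  by_contra h
  obtain ⟨z, hz, h3, h4⟩ := G.line' hs ht h
  exact hu ((AddSubgroup.eq_bot_iff_forall _).1 (hz.disj h3 h4 fun e => h (by rw [e])) u ⟨h1, h2⟩)

omit [Finite V] [FaithfulSMul H V] in
theorem exists_ne (G : Gl H V q) {s : H} (hs : DD V q s) : ∃ u ∈ Ng V s, u ≠ 0 :=
  exists_ne_zero_of_one_lt (by rw [hs.2]; have := G.three; omega)

theorem det (G : Gl H V q) {s t : H} (hs : DD V q s) (ht : DD V q t) (h : Ng V s ≤ Ng V t) : s = t := by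
  obtain ⟨u, hu, hu0⟩ := G.exists_ne hs
  exact G.od.eq_of_Ng hs.1 ht.1 (G.comm_of_overlap hs ht hu0 hu (h hu))
    (AddSubgroup.eq_of_le_of_card_ge h (by rw [hs.2, ht.2]))

theorem comm_of_fix (G : Gl H V q) {s t : H} (hs : DD V q s) (h : ∀ m ∈ Ng V s, t • m = m) : t * s = s * t :=
  mul_inv_eq_iff_eq_mul.1 (G.det hs (hs.conj t) fun m hm => by
    rw [mem_Ng, mul_smul, mul_smul, inv_smul_of_fix (h m hm), show s • m = -m from hm, smul_neg, h m hm]).symm

theorem o2 (G : Gl H V q) {z y s : H} (hz : Ln V q z) (hy : Ln V q y) (hsz : s ∈ pts V q z) (hsy : s ∈ pts V q y)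
    (hne : z ≠ y) {u : V} (h1 : u ∈ Ng V z) (h2 : u ∈ Ng V y) : u ∈ Ng V s := by
  by_contra hu
  have hq := G.three
  have hw : ∀ {z : H}, Ln V q z → s ∈ pts V q z → u ∈ Ng V z → u + s • u ∈ Ng V (s * z) := fun {z} hz hsz h1 => by
    rw [mem_Ng, mul_smul, show z • (u + s • u) = -(u + s • u) from add_mem h1 (Ng_inv (hz.comm s hsz) h1), smul_neg,
      smul_add, smul_smul_of_sq hsz.1.1, add_comm]
  have h3 := G.comm_of_overlap (hz.mul s hsz).1 (hy.mul s hsy).1 (fun e => hu (eq_neg_of_add_eq_zero_right e))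
    (hw hz hsz h1) (hw hy hsy h2)
  have hzy : z * y = y * z := by
    have e : ∀ {z y : H}, s * z = z * s → s * z * (s * y) = z * y := fun {z y} h => by
      rw [h, show z * s * (s * y) = z * (s * s) * y by group, hsz.1.1, mul_one]
    rwa [e (hz.comm s hsz), e (hy.comm s hsy)] at h3
  have hsW : Ng V s ≤ Ng V z ⊓ Ng V y := le_inf (hz.le s hsz) (hy.le s hsy)
  have hW : q < Nat.card (Ng V z ⊓ Ng V y : AddSubgroup V) := by
    rw [← hsz.1.2]
    exact lt_of_le_of_ne (AddSubgroup.card_le_of_le hsW) fun e =>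
      hu ((AddSubgroup.eq_of_le_of_card_ge hsW e.ge).symm ▸ ⟨h1, h2⟩)
  have hc : ∀ r ∈ pts V q z, y * r = r * y := fun r hr => by
    have h4 := card_mul_le (hz.le r hr) (inf_le_left : Ng V z ⊓ Ng V y ≤ Ng V z)
    rw [hr.1.2, hz.card] at h4
    obtain ⟨x, hx, hx0⟩ := exists_ne_zero_of_one_lt (lt_arith1 (by omega) hW h4)
    refine mul_inv_eq_iff_eq_mul.1 (hz.free _ ⟨hr.1.conj y, fun v hv => ?_⟩ r hr x hx.2.1 hx0 ?_)
    · rw [inv_of_sq hy.sq, mul_smul, mul_smul, hr.2 _ (by rw [smul_comm_of hzy, hv]), smul_smul_of_sq hy.sq]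
    · rw [inv_of_sq hy.sq, mul_smul, mul_smul, show y • x = -x from hx.2.2, smul_neg, show r • x = -x from hx.1,
        neg_neg, show y • x = -x from hx.2.2]
  have h5 := G.od.decomp hy.sq (Ng V z) fun w hw => Ng_inv hzy.symm hw
  rw [hz.card, inf_comm (Ng V y)] at h5
  have h6 : Fx V y ⊓ Ng V z = ⊥ := (AddSubgroup.eq_bot_iff_forall _).2 fun v hv => by
    by_contra h0
    exact lt_arith2 hW h5 (hz.bound inf_le_right (fun t ht w hw =>
      ⟨mem_Fx.2 (by rw [smul_comm_of (hc t ht), show y • w = w from hw.1]), Ng_inv (hz.comm t ht) hw.2⟩) hv h0)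
  rw [h6, AddSubgroup.card_bot, one_mul] at h5
  exact hne (G.od.eq_of_Ng hz.sq hy.sq hzy ((AddSubgroup.eq_of_le_of_card_ge inf_le_left (by rw [← h5, hz.card])).symm.trans
    (AddSubgroup.eq_of_le_of_card_ge inf_le_right (by rw [← h5, hy.card]))))

theorem o3 (G : Gl H V q) {z s t : H} (hz : Ln V q z) (hs : s ∈ pts V q z) (ht : DD V q t) {u : V} (hu : u ≠ 0)
    (h1 : u ∈ Ng V s) (h2 : u ∈ Ng V t) : t = s := by
  have hst := G.comm_of_overlap hs.1 ht hu h1 h2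
  obtain ⟨r, hr, hrt⟩ : ∃ r ∈ pts V q z, r * t ≠ t * r := by
    by_contra h
    push Not at h
    have h3 := hz.bound (W := Ng V t ⊓ Ng V z) inf_le_right
      (fun r hr w hw => ⟨Ng_inv (h r hr) hw.1, Ng_inv (hz.comm r hr) hw.2⟩) ⟨h2, hz.le s hs h1⟩ hu
    have h4 := AddSubgroup.card_le_of_le (inf_le_left : Ng V t ⊓ Ng V z ≤ Ng V t)
    rw [ht.2] at h4
    omega
  obtain ⟨y, hy, hry, hty⟩ := G.line' hr.1 ht hrt
  by_cases hzy : z = y
  · subst hzy
    exact hz.free t hty s hs u (hz.le s hs h1) hu (Eq.trans h2 (Eq.symm h1))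
  · have h3 := G.o2 hz hy hr hry hzy (hz.le s hs h1) (hy.le t hty h2)
    exact absurd (by rw [hz.free r hr s hs u (hz.le s hs h1) hu (Eq.trans h3 (Eq.symm h1)), hst]) hrt

theorem mem_pts (G : Gl H V q) {z t : H} (hz : Ln V q z) (ht : DD V q t) {u : V} (hu : u ≠ 0) (h1 : u ∈ Ng V z)
    (h2 : u ∈ Ng V t) : t ∈ pts V q z := by
  obtain ⟨s, hs, h⟩ := hz.cov u h1
  rwa [G.o3 hz hs ht hu h h2]

theorem mem_pts' (G : Gl H V q) {z t : H} (hz : Ln V q z) (ht : DD V q t) (h : Ng V t ≤ Ng V z) : t ∈ pts V q z := by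
  obtain ⟨u, hu, hu0⟩ := G.exists_ne ht
  exact G.mem_pts hz ht hu0 (h hu) hu

theorem three_pts (G : Gl H V q) {z t : H} (hz : Ln V q z) (ht : DD V q t) (htz : t ∉ pts V q z)
    (hnt : ¬ Ng V z ≤ Fx V t) : ∃ a ∈ pts V q z, ∃ b ∈ pts V q z, ∃ c ∈ pts V q z, a ≠ b ∧ a ≠ c ∧ b ≠ c ∧
      ¬ a * t = t * a ∧ ¬ b * t = t * b ∧ ¬ c * t = t * c := by
  refine exists_three (P := fun a => a * t = t * a) (by rw [hz.ncard]; have := G.three; omega) fun a ha b hb h1 h2 => ?_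
  by_contra hne
  have h : ∀ a ∈ pts V q z, a * t = t * a → Ng V a ≤ Fx V t := fun a ha h1 m hm => fix_of_disj ht.1 h1.symm
    (fun v h3 h4 => by by_contra h0; exact htz (G.mem_pts hz ht h0 (hz.le a ha h3) h4)) hm
  exact hnt (hz.sup ha hb hne ▸ sup_le (h a ha h1) (h b hb h2))

omit [FaithfulSMul H V] in
theorem card_perp (G : Gl H V q) {Z : AddSubgroup V} {t : H} (ht : t * t = 1) (htZ : Ng V t ≤ Z) :
    Nat.card Z = Nat.card (Fx V t ⊓ Z : AddSubgroup V) * Nat.card (Ng V t) := by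
  have := G.od.decomp ht Z fun w hw => by
    have := Z.add_mem (htZ (sub_mem_Ng ht w)) hw
    rwa [sub_add_cancel] at this
  rwa [inf_of_le_left htZ] at this

theorem perp (G : Gl H V q) {Z : AddSubgroup V} (hZ : Nat.card Z = q ^ 3) {t z : H} (ht : DD V q t) (htZ : Ng V t ≤ Z)
    (hz : Ln V q z) (hzZ : Ng V z ≤ Z) (htz : t ∉ pts V q z) : ∃ y : H, Ln V q y ∧ Ng V y = Fx V t ⊓ Z := by
  have hq := G.three
  have hX : Nat.card (Fx V t ⊓ Z : AddSubgroup V) = q ^ 2 := by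
    have := G.card_perp ht.1 htZ
    rw [hZ, ht.2] at this
    exact Nat.eq_of_mul_eq_mul_right (by omega : 0 < q) (by rw [← this]; ring)
  have hfin : ∀ y : H, Ln V q y → Ng V y ≤ Fx V t ⊓ Z → ∃ y : H, Ln V q y ∧ Ng V y = Fx V t ⊓ Z := fun y hy h =>
    ⟨y, hy, AddSubgroup.eq_of_le_of_card_ge h (by rw [hX, hy.card])⟩
  by_cases hnt : Ng V z ≤ Fx V t
  · exact hfin z hz (le_inf hnt hzZ)
  obtain ⟨a, ha, b, hb, c, hc, hab, hac, hbc, h1, h2, h3⟩ := G.three_pts hz ht htz hnt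
  have key : ∀ a ∈ pts V q z, ¬ a * t = t * a → ∃ y, Ln V q y ∧ a ∈ pts V q y ∧ t ∈ pts V q y ∧
      Ng V (t * y) ≤ Fx V t ⊓ Z := fun a ha h1 => by
    obtain ⟨y, hy, hay, hty⟩ := G.line' ha.1 ht h1
    refine ⟨y, hy, hay, hty, fun m hm => ?_⟩
    have h4 := hy.le _ (hy.mul t hty) hm
    refine ⟨?_, (hy.sup hay hty (fun e => h1 (by rw [e])) ▸ sup_le ((hz.le a ha).trans hzZ) htZ : Ng V y ≤ Z) h4⟩
    rw [mem_Ng, mul_smul, show y • m = -m from h4, smul_neg, neg_inj] at hm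
    exact hm
  have hdiff : ∀ a ∈ pts V q z, ∀ b ∈ pts V q z, a ≠ b → ∀ y y' : H, Ln V q y → a ∈ pts V q y → t ∈ pts V q y →
      b ∈ pts V q y' → t * y ≠ t * y' := fun a ha b hb hab y y' hy hay hty hby e => by
    obtain rfl := mul_left_cancel e
    exact htz (G.mem_pts' hz ht (by rw [← hz.sup ha hb hab, hy.sup hay hby hab]; exact hy.le t hty))
  obtain ⟨y1, hy1, a1, t1, n1⟩ := key a ha h1
  obtain ⟨y2, hy2, a2, t2, n2⟩ := key b hb h2
  obtain ⟨y3, hy3, a3, t3, n3⟩ := key c hc h3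
  have hline : ∀ n : H, DD V q n → Ng V n ≤ Fx V t ⊓ Z → t * y1 * n ≠ n * (t * y1) →
      ∃ y : H, Ln V q y ∧ Ng V y = Fx V t ⊓ Z := fun n hn hnZ h => by
    obtain ⟨y, hy, h4, h5⟩ := G.line' (hy1.mul t t1).1 hn h
    exact hfin y hy (hy.sup h4 h5 (fun e => h (by rw [e])) ▸ sup_le n1 hnZ)
  have hcomm : ∀ n : H, DD V q n → Ng V n ≤ Fx V t ⊓ Z → t * y1 * n = n * (t * y1) → t * y1 ≠ n →
      Ng V n = Fx V (t * y1) ⊓ (Fx V t ⊓ Z) := fun n hn hnZ h hne => by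
    refine AddSubgroup.eq_of_le_of_card_ge (le_inf (fun m hm => fix_of_disj (hy1.mul t t1).1.1 h (fun v h4 h5 => ?_) hm)
      hnZ) ?_
    · by_contra h0
      exact hne (G.o3 hy1 (hy1.mul t t1) hn h0 h5 h4).symm
    · have := G.card_perp (hy1.mul t t1).1.1 n1
      rw [hX, (hy1.mul t t1).1.2, pow_two] at this
      rw [hn.2]
      exact (Nat.eq_of_mul_eq_mul_right (by omega : 0 < q) this).ge
  by_cases c2 : t * y1 * (t * y2) = t * y2 * (t * y1)
  · by_cases c3 : t * y1 * (t * y3) = t * y3 * (t * y1)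
    · exact absurd (G.det (hy2.mul t t2).1 (hy3.mul t t3).1 ((hcomm _ (hy2.mul t t2).1 n2 c2
        (hdiff a ha b hb hab _ _ hy1 a1 t1 a2)).trans (hcomm _ (hy3.mul t t3).1 n3 c3
        (hdiff a ha c hc hac _ _ hy1 a1 t1 a3)).symm).le) (hdiff b hb c hc hbc _ _ hy2 a2 t2 a3)
    · exact hline _ (hy3.mul t t3).1 n3 c3
  · exact hline _ (hy2.mul t t2).1 n2 c2

theorem main [Finite H] (G : Gl H V q) {z t : H} (hz : Ln V q z) (ht : DD V q t) (htz : t ∉ pts V q z) :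
    Ng V z ≤ Fx V t := by
  by_contra hnt
  have hq := G.three
  have hZ : Nat.card (Ng V z ⊔ Ng V t : AddSubgroup V) = q ^ 3 := by
    rw [card_sup_of_inf_eq_bot ((AddSubgroup.eq_bot_iff_forall (Ng V z ⊓ Ng V t)).2 fun v hv => by
      by_contra h0; exact htz (G.mem_pts hz ht h0 hv.1 hv.2)), hz.card, ht.2]
    ring
  set Z := Ng V z ⊔ Ng V t with hZdef
  have hperp : ∀ s : H, DD V q s → Ng V s ≤ Z → ∃ y : H, Ln V q y ∧ Ng V y = Fx V s ⊓ Z := fun s hs hsZ => by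
    by_cases hsz : s ∈ pts V q z
    · obtain ⟨r, hr, hrs, hrt⟩ : ∃ r ∈ pts V q z, s ≠ r ∧ ¬ r * t = t * r := by
        obtain ⟨a, ha, b, hb, -, -, hab, -, -, h1, h2, -⟩ := G.three_pts hz ht htz hnt
        by_cases h : s = a
        · exact ⟨b, hb, h ▸ hab, h2⟩
        · exact ⟨a, ha, h, h1⟩
      obtain ⟨y, hy, hry, hty⟩ := G.line' hr.1 ht hrt
      refine G.perp hZ hs hsZ hy (hy.sup hry hty (fun e => hrt (by rw [e])) ▸
        sup_le ((hz.le r hr).trans le_sup_left) le_sup_right) fun hsy => htz (G.mem_pts' hz ht ?_)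
      rw [← hz.sup hsz hr hrs, hy.sup hsy hry hrs]
      exact hy.le t hty
    · exact G.perp hZ hs hsZ hz le_sup_left hsz
  let P := {s : H // DD V q s ∧ Ng V s ≤ Z}
  have : Nonempty P := ⟨⟨t, ht, le_sup_right⟩⟩
  have hR : ∀ (s r : P) (y : H), Ln V q y → Ng V y = Fx V s.1 ⊓ Z → (Ng V r.1 ≤ Fx V s.1 ↔ r.1 ∈ pts V q y) :=
    fun s r y hy e => ⟨fun h => G.mem_pts' hy r.2.1 (e ▸ le_inf h r.2.2),
      fun h => (hy.le _ h).trans (e ▸ inf_le_left)⟩
  refine friendship (P := P) (fun s r => Ng V r.1 ≤ Fx V s.1) (fun s r h m hm => ?_) (fun s h => ?_) (q := q) (by omega)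
    (fun s => ?_) fun s r hsr => ?_
  · exact fix_of_disj r.2.1.1 (G.comm_of_fix r.2.1 h).symm (fun v h1 h2 => G.od.eq_zero (h h2) h1) hm
  · obtain ⟨u, hu, hu0⟩ := G.exists_ne s.2.1
    exact hu0 (G.od.eq_zero (h hu) hu)
  · obtain ⟨y, hy, e⟩ := hperp s.1 s.2.1 s.2.2
    rw [← hy.ncard, ← Set.ncard_image_of_injective _ Subtype.val_injective]
    congr 1
    ext r
    exact ⟨by rintro ⟨r, hr, rfl⟩; exact (hR s r y hy e).1 hr, fun h =>
      ⟨⟨r, h.1, (hy.le r h).trans (e ▸ inf_le_right)⟩, (hR s _ y hy e).2 h, rfl⟩⟩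
  · obtain ⟨y, hy, e⟩ := hperp s.1 s.2.1 s.2.2
    obtain ⟨y', hy', e'⟩ := hperp r.1 r.2.1 r.2.2
    have h1 := card_mul_le (A := Ng V y) (B := Ng V y') (W := Z) (e ▸ inf_le_right) (e' ▸ inf_le_right)
    rw [hy.card, hy'.card, hZ] at h1
    obtain ⟨w, hw, hw0⟩ := exists_ne_zero_of_one_lt (lt_arith3 (by omega) h1)
    obtain ⟨n, hn, hwn⟩ := hy.cov w hw.1
    have hn' := G.mem_pts hy' hn.1 hw0 hw.2 hwn
    let n0 : P := ⟨n, hn.1, (hy.le n hn).trans (e ▸ inf_le_right)⟩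
    refine ⟨n0, ⟨(hR s n0 y hy e).2 hn, (hR r n0 y' hy' e').2 hn'⟩, fun m hm => ?_⟩
    by_contra hne
    have hm1 := (hR s m y hy e).1 hm.1
    have hne' : m.1 ≠ n := fun h => hne (Subtype.ext h)
    have e2 : Ng V y = Fx V r.1 ⊓ Z := by rw [← e', ← hy.sup hm1 hn hne', hy'.sup ((hR r m y' hy' e').1 hm.2) hn' hne']
    have key : ∀ s : P, Ng V y = Fx V s.1 ⊓ Z → Ng V s.1 = Fx V y ⊓ Z := fun s e => by
      have c : ∀ x ∈ pts V q y, s.1 * x = x * s.1 := fun x hx =>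
        G.comm_of_fix hx.1 fun m hm => (e ▸ hy.le x hx hm : m ∈ Fx V s.1 ⊓ Z).1
      have c1 : y * s.1 = s.1 * y := mul_left_cancel (a := n) (by
        rw [← mul_assoc, ← c _ (hy.mul n hn), ← mul_assoc, c n hn, mul_assoc])
      refine AddSubgroup.eq_of_le_of_card_ge (le_inf (fun m hm => fix_of_disj hy.sq c1
        (fun v h4 h5 => G.od.eq_zero (e ▸ h5 : v ∈ Fx V s.1 ⊓ Z).1 h4) hm) s.2.2) ?_
      have := G.card_perp (Z := Z) hy.sq (e ▸ inf_le_right)
      rw [hZ, hy.card] at this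
      rw [s.2.1.2]
      exact (Nat.eq_of_mul_eq_mul_right (by positivity : 0 < q ^ 2) (by rw [← this]; ring)).le
    exact hsr (Subtype.ext (G.det s.2.1 r.2.1 ((key s e).trans (key r e2).symm).le))

theorem eq_top [Finite H] (G : Gl H V q) (hirr : ∀ W : AddSubgroup V, (∀ h : H, ∀ w ∈ W, h • w ∈ W) → W = ⊥ ∨ W = ⊤)
    {z : H} (hz : Ln V q z) : Ng V z = ⊤ := by
  have hq := G.three
  refine (hirr _ fun h => G.od.bin.induction (P := fun h => ∀ w ∈ Ng V z, h • w ∈ Ng V z) (by simp)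
    (fun σ h hσ ih w hw => ?_) h).resolve_left fun e => ?_
  swap
  · have := hz.card
    rw [e, AddSubgroup.card_bot] at this
    nlinarith
  rw [mul_smul]
  generalize hu : h • w = u
  have hu : u ∈ Ng V z := hu ▸ ih w hw
  by_contra hσu
  obtain ⟨s, hs, hus⟩ := hz.cov u hu
  have hs' := hs.1.conj σ
  have h1 : σ • u ∈ Ng V (σ * s * σ⁻¹) := by
    rw [mem_Ng, mul_smul, mul_smul, inv_smul_smul, show s • u = -u from hus, smul_neg]
  have h2 : σ * s * σ⁻¹ ∉ pts V q z := fun h => hσu (hz.le _ h h1)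
  have h3 := G.main hz hs' h2
  have h4 : σ * s * (σ * s) = σ * s * σ⁻¹ * s := by rw [inv_of_sq hσ]; group
  obtain ⟨k, hk, hk2⟩ := G.od.exists_sq_ne (h := σ * s) fun e => h2 (by
    rw [h4, ← inv_of_sq hs.1.1, mul_inv_eq_one, inv_of_sq hs.1.1] at e
    rwa [e])
  obtain ⟨y, hy, hsy, hsy'⟩ := G.line s _ k hs.1 hs' hk2 fun v hv => hk v (by
    rw [mem_Fx, h4, mul_smul, show s • v = v from hv.1]; exact hv.2)
  obtain ⟨r, hr, hrs⟩ : ∃ r ∈ pts V q y, s * r ≠ r * s := by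
    by_contra hcon
    push Not at hcon
    have h5 := Set.ncard_le_ncard (show pts V q y ⊆ {s, s * y} from fun r hr => hy.cc s hsy r hr (hcon r hr))
    have h6 := Set.ncard_insert_le s {s * y}
    rw [Set.ncard_singleton] at h6
    rw [hy.ncard] at h5
    omega
  have h7 : r ∈ pts V q z := by
    by_contra h
    exact hrs (G.comm_of_fix hs.1 fun m hm => G.main hz hr.1 h (hz.le s hs hm)).symm
  have hne : s ≠ r := fun e => hrs (by rw [e])
  exact hσu (by rw [← hz.sup hs h7 hne, hy.sup hsy hr hne]; exact hy.le _ hsy' h1)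

end Gl

theorem le_arith {q y i : ℕ} (hq : 0 < q) (hy : 0 < y) (h : q * y * (q * y) ≤ q ^ 2 * y * i) : y ≤ i :=
  Nat.le_of_mul_le_mul_left (le_trans (le_of_eq (by ring)) h) (by positivity : 0 < q ^ 2 * y)

theorem Od.dih [Finite H] [Finite V] [FaithfulSMul H V] (E : Od H V)
    (hirr : ∀ W : AddSubgroup V, (∀ h : H, ∀ w ∈ W, h • w ∈ W) → W = ⊥ ∨ W = ⊤) (hex : ∃ h : H, h * h ≠ 1) : Dih H V := by
  obtain ⟨a, ha, hmax⟩ := exists_maximalFor_of_wellFoundedGT (fun h : H => h * h ≠ 1)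
    (fun h : H => (⟨Nat.card (Fx V h), Nat.lt_succ_of_le (AddSubgroup.card_le_card_addGroup _)⟩ : Fin (Nat.card V + 1))) hex
  have hsm : Sm V a := ⟨ha, fun k hk => by
    by_contra h
    exact h (hmax hk (show Nat.card (Fx V a) ≤ Nat.card (Fx V k) by omega))⟩
  obtain ⟨q, z, hq, hV, hz, hL, hD⟩ := E.loc hsm
  have hy : 0 < Nat.card (Fx V a) := Nat.card_pos
  have G : Gl H V q := ⟨E, hq, fun s t k hs ht hk hle => by
    have hF : ∀ s : H, DD V q s → Nat.card (Fx V s) = q * Nat.card (Fx V a) := fun s hs => by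
      have := E.decomp' hs.1
      rw [hs.2, hV] at this
      exact Nat.eq_of_mul_eq_mul_right (by omega : 0 < q) (by rw [← this]; ring)
    have h1 := card_mul_le (A := Fx V s) (B := Fx V t) (W := ⊤) le_top le_top
    rw [hF s hs, hF t ht, AddSubgroup.card_top, hV] at h1
    have h2 := le_arith (by omega) hy h1
    have h3 := AddSubgroup.card_le_of_le hle
    have h4 := hsm.2 k hk
    obtain ⟨q', z', -, hV', hz', hL', -⟩ := E.loc (a := k) ⟨hk, fun l hl => (hsm.2 l hl).trans (h2.trans h3)⟩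
    obtain rfl : q = q' := by
      rw [hV, show Nat.card (Fx V k) = Nat.card (Fx V a) by omega] at hV'
      exact Nat.pow_left_injective two_ne_zero (Nat.eq_of_mul_eq_mul_right hy hV')
    have h5 : Fx V z' = Fx V s ⊓ Fx V t := hz'.trans (AddSubgroup.eq_of_le_of_card_ge hle (by omega)).symm
    exact ⟨z', hL', ⟨hs, fun v hv => (h5 ▸ hv : v ∈ Fx V s ⊓ Fx V t).1⟩, ht, fun v hv => (h5 ▸ hv : v ∈ Fx V s ⊓ Fx V t).2⟩⟩
  refine hD (hz ▸ (AddSubgroup.eq_bot_iff_forall _).2 fun v hv => E.eq_zero hv ?_)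
  exact show v ∈ Ng V z from G.eq_top hirr hL ▸ AddSubgroup.mem_top v

end CL.BinAff
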