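import Cfsg.Agent.Perm.BinAff5
import Cfsg.Agent.Perm.GammaL1

/-! Binary affine groups, VI: identification of the final configuration. -/

set_option autoImplicit false

namespace CL.BinAff

variable {H : Type*} [Group H] {V : Type*} [AddCommGroup V] [DistribMulAction H V]

theorem Dih.field [Finite H] [Finite V] [FaithfulSMul H V] (hD : Dih H V)
    (hirr : ∀ W : AddSubgroup V, (∀ h : H, ∀ w ∈ W, h • w ∈ W) → W = ⊥ ∨ W = ⊤) :
    ∃ (F E : Type) (_ : Field F) (_ : Fintype F) (_ : Field E) (_ : Fintype E) (_ : Algebra F E) (e : E ≃+ V),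
      Module.finrank F E = 2 ∧
      (∀ h : H, ∃ (a : E) (φ : E ≃ₐ[F] E), Algebra.norm F a = 1 ∧ ∀ x, h • e x = e (a * φ x)) ∧
      ∀ (a : E) (φ : E ≃ₐ[F] E), Algebra.norm F a = 1 → ∃ h : H, ∀ x, h • e x = e (a * φ x) := by
  classical
  obtain ⟨C, q, hq, hV, hC, hc, hinv, hmul, hfix⟩ := hD
  have : Nontrivial V := Finite.one_lt_card_iff_nontrivial.1 (by rw [hV]; nlinarith)
  have : C.Normal := ⟨fun c hcC g => by
    by_cases hg : g ∈ C
    · exact mul_mem (mul_mem hg hcC) (inv_mem hg)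
    · rw [inv_of_sq (hinv g hg).1, (hinv g hg).2 c hcC]; exact inv_mem hcC⟩
  obtain ⟨K, _, _, e0, c, σ, h1, -, h3, -⟩ := CL.Perm.exists_semilinear_of_irreducible
    (DistribMulAction.toAddMonoidEnd H V) C (fun s hs t ht => by rw [← map_mul, ← map_mul, hc s hs t ht]) (fun W hW => by
      by_cases hW0 : W = ⊥
      · exact Or.inl hW0
      obtain ⟨u, hu, hu0⟩ : ∃ u ∈ W, u ≠ 0 := by
        by_contra h
        push Not at h
        exact hW0 ((AddSubgroup.eq_bot_iff_forall W).2 h)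
      obtain ⟨j, hj, hju⟩ := hfix u
      have hW : ∀ t ∈ C, ∀ v ∈ W, t • v ∈ W := hW
      rcases hirr (W ⊓ W.comap (DistribSMul.toAddMonoidHom V j)) (fun h w hw => by
        have hw2 : j • w ∈ W := hw.2
        by_cases hh : h ∈ C
        · refine ⟨hW h hh w hw.1, show j • h • w ∈ W from ?_⟩
          rw [← smul_smul_of_sq (hinv j hj).1 w, ← mul_smul, ← mul_smul, (hinv j hj).2 h hh]
          exact hW _ (inv_mem hh) _ hw2
        · refine ⟨?_, show j • h • w ∈ W from ?_⟩
          · rw [← smul_smul_of_sq (hinv j hj).1 w, ← mul_smul]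
            exact hW _ (hmul h j hh hj) _ hw2
          · rw [← mul_smul]
            exact hW _ (hmul j h hj hh) _ hw.1) with h | h
      · exact absurd ((AddSubgroup.eq_bot_iff_forall _).1 h u ⟨hu, show j • u ∈ W by rwa [hju]⟩) hu0
      · exact Or.inr (top_le_iff.1 (h ▸ inf_le_left)))
  have h1 : ∀ (h : H) (x : K), h • e0 x = e0 (c h * σ h x) := h1
  obtain ⟨u0, hu0⟩ := exists_ne (0 : V)
  obtain ⟨j, hj, hju⟩ := hfix u0
  obtain ⟨x0, rfl⟩ := e0.surjective u0
  have hx0 : x0 ≠ 0 := fun h => hu0 (by rw [h, map_zero])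
  let e : K ≃+ V := (AddEquiv.mk' (Equiv.mulLeft₀ x0 hx0) (mul_add x0)).trans e0
  have he : ∀ x, e x = e0 (x0 * x) := fun _ => rfl
  have hj1 : ∀ x, j • e x = e (σ j x) := fun x => by
    rw [he, he, h1, map_mul (σ j), ← mul_assoc, e0.injective ((h1 j x0).symm.trans hju)]
  have hC1 : ∀ t ∈ C, ∀ x, t • e x = e (c t * x) := fun t ht x => by
    rw [he, he, h1, h3 t ht, mul_left_comm]; rfl
  have hφ2 : σ j * σ j = 1 := by rw [← map_mul, (hinv j hj).1, map_one]
  have hφ1 : σ j ≠ 1 := fun h => hj (by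
    rw [Fx_eq_top (V := V) (h := j) fun v => by
      obtain ⟨x, rfl⟩ := e.surjective v
      rw [hj1, h]; rfl]
    exact one_mem C)
  let Γ : Subgroup (K ≃+* K) := Subgroup.zpowers (σ j)
  have : Fact (Nat.Prime 2) := ⟨Nat.prime_two⟩
  have hΓ : Nat.card Γ = 2 := by rw [Nat.card_zpowers, orderOf_eq_prime (by rw [pow_two, hφ2]) hφ1]
  have : Finite Γ := Nat.finite_of_card_ne_zero (by omega)
  have := Fintype.ofFinite Γ
  let F := FixedPoints.subfield Γ K
  have hF : Module.finrank F K = 2 := by rw [FixedPoints.finrank_eq_card, ← Nat.card_eq_fintype_card, hΓ]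
  have hK : Nat.card K = q ^ 2 := by rw [← hV]; exact Nat.card_congr e.toEquiv
  have hFq : Nat.card F = q := by
    have := Module.natCard_eq_pow_finrank (K := F) (V := K)
    rw [hF, hK] at this
    exact (Nat.pow_left_injective two_ne_zero this).symm
  have hnorm : ∀ a : K, Algebra.norm F a = 1 ↔ a ^ (q + 1) = 1 := fun a => by
    have h4 := FiniteField.algebraMap_norm_eq_pow (K := F) (x := a)
    rw [hK, hFq, show (q ^ 2 - 1) / (q - 1) = q + 1 from Nat.div_eq_of_eq_mul_left (by omega) (by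
      rw [← Nat.sq_sub_sq q 1, one_pow])] at h4
    rw [← h4, map_eq_one_iff _ (algebraMap F K).injective]
  have hpow : ∀ t ∈ C, c t ^ (q + 1) = 1 := fun t ht => by
    have h4 : ∀ n : ℕ, t ^ n • e 1 = e (c t ^ n) := fun n => by
      induction n with
      | zero => rw [pow_zero, pow_zero, one_smul]
      | succ n ih => rw [pow_succ', mul_smul, ih, hC1 t ht, pow_succ']
    have h5 := h4 (q + 1)
    rw [← hC, pow_card_of_mem ht, one_smul, hC] at h5
    exact (e.injective h5).symm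
  have hsurj : ∀ a : K, a ^ (q + 1) = 1 → ∃ t ∈ C, c t = a := by
    have h4 : {a : K | a ^ (q + 1) = 1}.ncard ≤ q + 1 := by
      rw [show {a : K | a ^ (q + 1) = 1} = (Polynomial.nthRoots (q + 1) (1 : K)).toFinset from by
        ext a
        simp [Polynomial.mem_nthRoots], Set.ncard_coe_finset]
      exact (Multiset.toFinset_card_le _).trans (Polynomial.card_nthRoots _ _)
    have h5 : (c '' (C : Set H)).ncard = q + 1 := by
      rw [Set.InjOn.ncard_image fun s hs t ht h => eq_of_smul_eq_smul (α := V) fun v => by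
        obtain ⟨x, rfl⟩ := e.surjective v
        rw [hC1 s hs, hC1 t ht, h], ← hC]
      rfl
    have h6 : c '' (C : Set H) = {a : K | a ^ (q + 1) = 1} :=
      Set.eq_of_subset_of_ncard_le (by rintro _ ⟨t, ht, rfl⟩; exact hpow t ht) (by omega)
    intro a ha
    exact (h6.symm ▸ ha : a ∈ c '' (C : Set H))
  let φ : K ≃ₐ[F] K := AlgEquiv.ofRingEquiv (f := σ j) fun x => x.2 ⟨σ j, Subgroup.mem_zpowers _⟩
  have hφ : ∀ x, φ x = σ j x := fun _ => rfl
  have hall : ∀ ψ : K ≃ₐ[F] K, ψ = 1 ∨ ψ = φ := fun ψ => by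
    obtain ⟨y, -, hy⟩ := (Nat.card_eq_two_iff' (1 : K ≃ₐ[F] K)).1 ((IsGalois.card_aut_eq_finrank F K).trans hF)
    by_cases h : ψ = 1
    · exact Or.inl h
    · exact Or.inr ((hy ψ h).trans (hy φ fun h => hφ1 (RingEquiv.ext fun x => by rw [← hφ, h]; rfl)).symm)
  refine ⟨F, K, inferInstance, Fintype.ofFinite _, inferInstance, inferInstance, inferInstance, e, hF, fun h => ?_,
    fun a ψ ha => ?_⟩
  · by_cases hh : h ∈ C
    · exact ⟨c h, 1, (hnorm _).2 (hpow h hh), hC1 h hh⟩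
    · refine ⟨c (h * j), φ, (hnorm _).2 (hpow _ (hmul h j hh hj)), fun x => ?_⟩
      rw [hφ, ← hC1 _ (hmul h j hh hj), ← hj1, mul_smul, smul_smul_of_sq (hinv j hj).1]
  · obtain ⟨t, ht, rfl⟩ := hsurj a ((hnorm a).1 ha)
    rcases hall ψ with rfl | rfl
    · exact ⟨t, hC1 t ht⟩
    · exact ⟨t * j, fun x => by rw [mul_smul, hj1, hC1 t ht, hφ]⟩

/-- The linear form of the classification. -/
theorem linear [Finite H] [Finite V] [Nontrivial V] [FaithfulSMul H V] (hb : Bin H V)
    (hirr : ∀ W : AddSubgroup V, (∀ h : H, ∀ w ∈ W, h • w ∈ W) → W = ⊥ ∨ W = ⊤) :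
    ((Nat.card V).Prime ∧ Nat.card H ≤ 2) ∨ Dih H V := by
  obtain ⟨p, hp, hpV⟩ := Nat.exists_prime_and_dvd (Finite.one_lt_card (α := V)).ne'
  have := Fact.mk hp
  obtain ⟨v0, hv0⟩ := exists_prime_addOrderOf_dvd_card' (G := V) p hpV
  have hv00 : v0 ≠ 0 := fun h => hp.one_lt.ne' (by rw [← hv0, h, addOrderOf_zero])
  by_cases hex : ∃ h : H, h * h ≠ 1
  · right
    have hp0 : ∀ v : V, p • v = 0 := by
      rcases hirr (nsmulAddMonoidHom p : V →+ V).ker (fun h w hw => by
        have hw : p • w = 0 := hw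
        change p • h • w = 0
        rw [← smul_comm h p w, hw, smul_zero]) with h | h
      · exact absurd ((AddSubgroup.eq_bot_iff_forall _).1 h v0 (hv0 ▸ addOrderOf_nsmul_eq_zero v0)) hv00
      · exact fun v => show v ∈ (nsmulAddMonoidHom p : V →+ V).ker from h ▸ AddSubgroup.mem_top v
    by_cases h2 : p = 2
    · subst h2
      exact Ev.dih ⟨fun v => by rw [← two_nsmul, hp0], hb, hirr⟩ hex
    · refine Od.dih ⟨Nat.not_even_iff_odd.1 fun h => ?_, hb⟩ hirr hex
      have : Fact (Nat.Prime 2) := ⟨Nat.prime_two⟩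
      obtain ⟨v, hv⟩ := exists_prime_addOrderOf_dvd_card' (G := V) 2 h.two_dvd
      exact h2 ((Nat.prime_dvd_prime_iff_eq Nat.prime_two hp).1 (hv ▸ addOrderOf_dvd_of_nsmul_eq_zero (hp0 v))).symm
  · left
    push Not at hex
    have hpm : ∀ h : H, h = 1 ∨ ∀ v : V, h • v = -v := fun h => by
      rcases hirr (Fx V h) (fun k w hw => by
        rw [mem_Fx, smul_comm_of (comm_of_sq (hex h) (hex k) (hex _)), show h • w = w from hw]) with e | e
      · exact Or.inr fun v => eq_neg_of_add_eq_zero_left ((AddSubgroup.eq_bot_iff_forall _).1 e _ (by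
          rw [mem_Fx, smul_add, smul_smul_of_sq (hex h), add_comm]))
      · exact Or.inl (Fx_eq_top (V := V) fun v => show v ∈ Fx V h from e ▸ AddSubgroup.mem_top v)
    constructor
    · rcases hirr (AddSubgroup.zmultiples v0) (fun h w hw => by
        rcases hpm h with rfl | e
        · rwa [one_smul]
        · rw [e]; exact neg_mem hw) with h | h
      · exact absurd ((AddSubgroup.eq_bot_iff_forall _).1 h v0 (AddSubgroup.mem_zmultiples v0)) hv00
      · rwa [← AddSubgroup.card_top, ← h, Nat.card_zmultiples, hv0]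
    · classical
      refine (Nat.card_le_card_of_injective (fun h : H => decide (h = 1)) fun a b hab => ?_).trans (by simp)
      have hab : a = 1 ↔ b = 1 := by simpa using hab
      rcases hpm a with ha | ha
      · rw [ha, hab.1 ha]
      · rcases hpm b with hb | hb
        · rw [hb, hab.2 hb]
        · exact eq_of_smul_eq_smul (α := V) fun v => by rw [ha, hb]

open MulAction in
open scoped IsMulCommutative in
/-- Binary primitive groups of affine type. -/
theorem classification {G Ω : Type*} [Group G] [Finite G] [MulAction G Ω] [FaithfulSMul G Ω] [Fintype Ω]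
    (hprim : MulAction.IsPreprimitive G Ω)
    (haff : ∃ N : Subgroup G, N.Normal ∧ N ≠ ⊥ ∧ IsMulCommutative ↥N)
    (hbin : ∀ (n : ℕ) (I J : Fin n → Ω), 2 ≤ n →
      (∀ i j : Fin n, i ≠ j → ∃ g : G, g • I i = J i ∧ g • I j = J j) → ∃ g : G, ∀ i, g • I i = J i) :
    ((Fintype.card Ω).Prime ∧ ∀ ω : Ω, Nat.card ↥(MulAction.stabilizer G ω) ≤ 2) ∨
    (∃ (F E : Type) (_ : Field F) (_ : Fintype F) (_ : Field E) (_ : Fintype E) (_ : Algebra F E) (e : Ω ≃ E),
        Module.finrank F E = 2 ∧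
        ∀ σ : Equiv.Perm Ω, σ ∈ (MulAction.toPermHom G Ω).range ↔
          ∃ (a b : E) (φ : E ≃ₐ[F] E), Algebra.norm F a = 1 ∧ ∀ ω : Ω, e (σ ω) = a * φ (e ω) + b) := by
  obtain ⟨N, hNn, hN0, hNc⟩ := haff
  have htr : ∀ L : Subgroup G, L.Normal → L ≠ ⊥ → IsPretransitive L Ω := fun L hL hL0 =>
    IsQuasiPreprimitive.isPretransitive_of_normal fun h => hL0 ((Subgroup.eq_bot_iff_forall L).2 fun g hg =>
      eq_of_smul_eq_smul (α := Ω) fun ω => by
        rw [one_smul]
        exact (h ▸ Set.mem_univ ω : ω ∈ fixedPoints L Ω) ⟨g, hg⟩)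
  have hNt := htr N hNn hN0
  obtain ⟨ω0⟩ : Nonempty Ω := by
    by_contra h
    rw [not_nonempty_iff] at h
    exact hN0 ((Subgroup.eq_bot_iff_forall N).2 fun g _ => eq_of_smul_eq_smul (α := Ω) fun ω => h.elim ω)
  have hreg : ∀ n ∈ N, n • ω0 = ω0 → n = 1 := fun n hn h => eq_of_smul_eq_smul (α := Ω) fun ω => by
    obtain ⟨m, rfl⟩ := exists_smul_eq N ω0 ω
    rw [one_smul, Subgroup.smul_def, ← mul_smul, setLike_mul_comm (s := N) hn m.2, mul_smul, h]
  let H := stabilizer G ω0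
  let _ : DistribMulAction H (Additive N) :=
    { smul := fun h v => Additive.ofMul ⟨h * v.toMul * (h : G)⁻¹, hNn.conj_mem _ v.toMul.2 _⟩
      one_smul := fun v => Subtype.ext (by change (1 : G) * v.toMul * 1⁻¹ = v.toMul; group)
      mul_smul := fun a b v => Subtype.ext (by
        change (a : G) * b * v.toMul * ((a : G) * b)⁻¹ = a * (b * v.toMul * (b : G)⁻¹) * (a : G)⁻¹; group)
      smul_zero := fun a => Subtype.ext (by change (a : G) * 1 * (a : G)⁻¹ = 1; group)
      smul_add := fun a v w => Subtype.ext (by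
        change (a : G) * (v.toMul * w.toMul) * (a : G)⁻¹ = a * v.toMul * (a : G)⁻¹ * (a * w.toMul * (a : G)⁻¹); group) }
  have hsm : ∀ (h : H) (v : Additive N), ((h • v).toMul : G) = h * v.toMul * (h : G)⁻¹ := fun _ _ => rfl
  let ε : Additive N ≃ Ω := Equiv.ofBijective (fun v => (v.toMul : G) • ω0) ⟨fun v w h => by
    have h1 := hreg ((w.toMul : G)⁻¹ * v.toMul) (mul_mem (inv_mem w.toMul.2) v.toMul.2) (by
      rw [mul_smul, inv_smul_eq_iff]; exact h)
    exact Subtype.ext (inv_mul_eq_one.1 h1).symm, fun ω => by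
    obtain ⟨m, rfl⟩ := exists_smul_eq N ω0 ω
    exact ⟨Additive.ofMul m, rfl⟩⟩
  have hε : ∀ v, ε v = (v.toMul : G) • ω0 := fun _ => rfl
  have hH : ∀ (h : H) v, (h : G) • ε v = ε (h • v) := fun h v => by
    rw [hε, hε, hsm, mul_smul, mul_smul, show (h : G)⁻¹ • ω0 = ω0 from (h⁻¹).2]
  have hT : ∀ b v : Additive N, (b.toMul : G) • ε v = ε (b + v) := fun b v => by
    rw [hε, hε, ← mul_smul]; rfl
  have hdec : ∀ g : G, ∃ (b : Additive N) (h : H), g = b.toMul * h := fun g => by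
    obtain ⟨m, hm⟩ := exists_smul_eq N ω0 (g • ω0)
    exact ⟨Additive.ofMul m, ⟨(m : G)⁻¹ * g, by rw [mem_stabilizer_iff, mul_smul, inv_smul_eq_iff]; exact hm.symm⟩,
      (mul_inv_cancel_left _ _).symm⟩
  have : FaithfulSMul H (Additive N) := ⟨fun {a b} h => Subtype.ext (eq_of_smul_eq_smul (α := Ω) fun ω => by
    obtain ⟨v, rfl⟩ := ε.surjective ω
    rw [hH, hH, h])⟩
  have : Nontrivial N := (Subgroup.nontrivial_iff_ne_bot N).2 hN0
  have hirr : ∀ W : AddSubgroup (Additive N), (∀ h : H, ∀ w ∈ W, h • w ∈ W) → W = ⊥ ∨ W = ⊤ := fun W hW => by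
    by_cases hW0 : W = ⊥
    · exact Or.inl hW0
    have hL := htr (W.toSubgroup'.map N.subtype) ⟨by
      rintro _ ⟨v, hv, rfl⟩ g
      obtain ⟨b, h, rfl⟩ := hdec g
      refine ⟨(h • Additive.ofMul v).toMul, hW h _ hv, ?_⟩
      change ((h • Additive.ofMul v).toMul : G) = b.toMul * h * v * ((b.toMul : G) * h)⁻¹
      rw [← mul_inv_cancel_right ((h • Additive.ofMul v).toMul : G) b.toMul,
        setLike_mul_comm (s := N) (h • Additive.ofMul v).toMul.2 b.toMul.2, hsm]
      simp only [toMul_ofMul]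
      group⟩ fun h => hW0 ((AddSubgroup.eq_bot_iff_forall W).2 fun w hw =>
        Subtype.ext ((Subgroup.eq_bot_iff_forall _).1 h _ ⟨w.toMul, hw, rfl⟩))
    refine Or.inr (eq_top_iff.2 fun v _ => ?_)
    obtain ⟨⟨_, w, hw, rfl⟩, h⟩ := exists_smul_eq (W.toSubgroup'.map N.subtype) ω0 (ε v)
    rwa [← ε.injective (show ε (Additive.ofMul w) = ε v from h)]
  have hb : Bin H (Additive N) := fun S h0 hS => by
    classical
    have := Fintype.ofFinite S
    let f := (Fintype.equivFin (S × Bool)).symm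
    obtain ⟨g, hg⟩ := hbin (Fintype.card (S × Bool)) (fun i => ε (f i).1.1.1) (fun i => ε (f i).1.1.2) (by
      have : 0 < Fintype.card S := Fintype.card_pos_iff.2 ⟨⟨_, h0⟩⟩
      rw [Fintype.card_prod, Fintype.card_bool]; omega) fun i j _ => by
      obtain ⟨h, hh⟩ := hS _ (f i).1.2 _ (f j).1.2
      refine ⟨((f j).1.1.2 - h • (f j).1.1.1).toMul * h, ?_, ?_⟩
      · rw [smul_sub, sub_eq_iff_eq_add] at hh
        rw [mul_smul, hH, hT, hh]
        congr 1; abel
      · rw [mul_smul, hH, hT, sub_add_cancel]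
    obtain ⟨b, h, rfl⟩ := hdec g
    have h1 : ∀ p ∈ S, b + h • p.1 = p.2 := fun p hp => by
      have := hg (f.symm (⟨p, hp⟩, true))
      rw [Equiv.apply_symm_apply, mul_smul, hH, hT] at this
      exact ε.injective this
    have h2 := h1 _ h0
    rw [smul_zero, add_zero] at h2
    exact ⟨h, fun p hp => by rw [← h1 p hp, h2, zero_add]⟩
  rcases linear hb hirr with ⟨h1, h2⟩ | hD
  · refine Or.inl ⟨by rwa [← Nat.card_eq_fintype_card, ← Nat.card_congr ε], fun ω => ?_⟩
    obtain ⟨g, hg⟩ := exists_smul_eq G ω0 ω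
    rwa [← Nat.card_congr (stabilizerEquivStabilizer hg.symm).toEquiv]
  · obtain ⟨F, E, _, _, _, _, _, e, hF, h1, h2⟩ := hD.field hirr
    refine Or.inr ⟨F, E, inferInstance, inferInstance, inferInstance, inferInstance, inferInstance,
      (e.toEquiv.trans ε).symm, hF, fun σ => ⟨?_, ?_⟩⟩
    · rintro ⟨g, rfl⟩
      obtain ⟨b, h, rfl⟩ := hdec g
      obtain ⟨a, φ, ha, hh⟩ := h1 h
      refine ⟨a, e.symm b, φ, ha, fun ω => ?_⟩
      obtain ⟨x, rfl⟩ := (e.toEquiv.trans ε).surjective ω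
      rw [Equiv.symm_apply_apply, Equiv.symm_apply_eq]
      change ((b.toMul : G) * h) • ε (e x) = ε (e (a * φ x + e.symm b))
      rw [mul_smul, hH, hT, hh, map_add e, e.apply_symm_apply, add_comm]
    · rintro ⟨a, b, φ, ha, hσ⟩
      obtain ⟨h, hh⟩ := h2 a φ ha
      refine ⟨(e b).toMul * h, Equiv.ext fun ω => ?_⟩
      have h3 := hσ ω
      obtain ⟨x, rfl⟩ := (e.toEquiv.trans ε).surjective ω
      rw [Equiv.symm_apply_apply, Equiv.symm_apply_eq] at h3
      rw [h3]
      change (((e b).toMul : G) * h) • ε (e x) = ε (e (a * φ x + b))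
      rw [mul_smul, hH, hT, hh, map_add e, add_comm]

end CL.BinAff
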