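import Cfsg.Agent.Perm.PrimeDegree

/-! `k`-closures of permutation groups and affine maps. -/

set_option autoImplicit false
open Cfsg

namespace CL.Perm

/-- The `k`-closure of a permutation group. -/
def kClosure {Ω : Type*} (G : Subgroup (Equiv.Perm Ω)) (k : ℕ) : Subgroup (Equiv.Perm Ω) where
  carrier := {σ | ∀ t : Fin k → Ω, ∃ g ∈ G, ∀ i, σ (t i) = g (t i)}
  one_mem' := fun _ => ⟨1, G.one_mem, fun _ => rfl⟩
  mul_mem' := by
    intro σ τ hσ hτ t
    obtain ⟨g, hg, h1⟩ := hτ t
    obtain ⟨g', hg', h2⟩ := hσ (fun i => τ (t i))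
    refine ⟨g' * g, G.mul_mem hg' hg, fun i => ?_⟩
    rw [Equiv.Perm.mul_apply, Equiv.Perm.mul_apply, h2, h1]
  inv_mem' := by
    intro σ hσ t
    obtain ⟨g, hg, h1⟩ := hσ (fun i => σ⁻¹ (t i))
    refine ⟨g⁻¹, G.inv_mem hg, fun i => ?_⟩
    apply g.injective
    rw [← h1]
    simp

theorem mem_kClosure {Ω : Type*} {G : Subgroup (Equiv.Perm Ω)} {k : ℕ} {σ : Equiv.Perm Ω} :
    σ ∈ kClosure G k ↔ ∀ t : Fin k → Ω, ∃ g ∈ G, ∀ i, σ (t i) = g (t i) := Iff.rfl

theorem le_kClosure {Ω : Type*} (G : Subgroup (Equiv.Perm Ω)) (k : ℕ) : G ≤ kClosure G k :=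
  fun g hg _ => ⟨g, hg, fun _ => rfl⟩

/-- A group with a base of size `k` is `(k+1)`-closed. -/
theorem mem_of_base_of_approx {Ω : Type*} (G : Subgroup (Equiv.Perm Ω)) (k : ℕ) (α : Fin k → Ω)
    (hbase : ∀ g ∈ G, (∀ i, g (α i) = α i) → g = 1) (σ : Equiv.Perm Ω)
    (hσ : ∀ t : Fin (k + 1) → Ω, ∃ g ∈ G, ∀ i, σ (t i) = g (t i)) : σ ∈ G := by
  rcases isEmpty_or_nonempty Ω with hΩ | ⟨⟨x0⟩⟩
  · rw [Subsingleton.elim σ 1]; exact G.one_mem
  obtain ⟨g0, hg0, h0⟩ := hσ (Fin.cons x0 α)
  have : σ = g0 := by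
    ext x
    obtain ⟨g, hg, h⟩ := hσ (Fin.cons x α)
    have h1 : g⁻¹ * g0 = 1 := by
      refine hbase _ (G.mul_mem (G.inv_mem hg) hg0) fun i => ?_
      have a := h0 i.succ
      have b := h i.succ
      simp only [Fin.cons_succ] at a b
      rw [Equiv.Perm.mul_apply, ← a, b]
      simp
    have h2 : g = g0 := inv_mul_eq_one.mp h1
    have := h 0
    simp only [Fin.cons_zero] at this
    rw [this, h2]
  rw [this]; exact hg0

/-- Two finite families of vectors with the same linear relations are linearly equivalent. -/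
theorem exists_linearEquiv_of_same_relations {K V ι : Type*} [Field K] [AddCommGroup V] [Module K V]
    [Fintype ι] (u v : ι → V) (h : ∀ c : ι → K, ∑ i, c i • u i = 0 ↔ ∑ i, c i • v i = 0) :
    ∃ A : V ≃ₗ[K] V, ∀ i, A (u i) = v i := by
  classical
  set f := Fintype.linearCombination K u with hf
  set g := Fintype.linearCombination K v with hg
  have hk : LinearMap.ker f = LinearMap.ker g := by
    ext c
    simp only [LinearMap.mem_ker, hf, hg, Fintype.linearCombination_apply]
    exact h c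
  let e : LinearMap.range f ≃ₗ[K] LinearMap.range g :=
    (f.quotKerEquivRange.symm.trans (Submodule.quotEquivOfEq _ _ hk)).trans g.quotKerEquivRange
  obtain ⟨A, hA⟩ := Submodule.exists_linearEquiv_restrict_eq e
  refine ⟨A, fun i => ?_⟩
  have hu : f (Pi.single i 1) = u i := by simp [hf, Fintype.linearCombination_apply_single]
  have hv : g (Pi.single i 1) = v i := by simp [hg, Fintype.linearCombination_apply_single]
  have h1 := hA ⟨f (Pi.single i 1), LinearMap.mem_range_self f _⟩
  have h2 : e ⟨f (Pi.single i 1), LinearMap.mem_range_self f _⟩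
      = ⟨g (Pi.single i 1), LinearMap.mem_range_self g _⟩ := by
    simp only [e, LinearEquiv.trans_apply, LinearMap.quotKerEquivRange_symm_apply_image]
    rfl
  rw [h2] at h1
  rw [← hu, ← hv]
  exact h1.symm

/-- A linear automorphism of prescribed determinant fixing a proper subspace pointwise. -/
theorem exists_linearEquiv_det_fixing {K V : Type*} [Field K] [AddCommGroup V] [Module K V]
    [FiniteDimensional K V] (W : Submodule K V) (hW : W ≠ ⊤) (a : Kˣ) :
    ∃ B : V ≃ₗ[K] V, LinearMap.det (B : V →ₗ[K] V) = a ∧ ∀ w ∈ W, B w = w := by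
  obtain ⟨x, hx⟩ : ∃ x, x ∉ W := by
    by_contra h
    push Not at h
    exact hW (eq_top_iff.mpr fun x _ => h x)
  obtain ⟨f, hfx, hfW⟩ := Submodule.exists_dual_map_eq_bot_of_notMem hx inferInstance
  have hunit : IsUnit (1 + f (((a : K) - 1) • (f x)⁻¹ • x)) := by
    simp [inv_mul_cancel₀ hfx]
  refine ⟨LinearEquiv.dilatransvection hunit, ?_, fun w hw => ?_⟩
  · rw [LinearEquiv.dilatransvection.coe_toLinearMap, LinearMap.transvection.det]
    simp [inv_mul_cancel₀ hfx]
  · have : f w = 0 := by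
      have : f w ∈ W.map f := Submodule.mem_map_of_mem hw
      rwa [hfW, Submodule.mem_bot] at this
    rw [LinearEquiv.dilatransvection.apply, this, zero_smul, add_zero]

/-- A permutation of a vector space of odd characteristic which agrees with an affine map on every
triple is affine. -/
theorem affine_of_triples {K V : Type*} [Field K] [AddCommGroup V] [Module K V] (h2 : (2 : K) ≠ 0)
    (σ : Equiv.Perm V)
    (hσ : ∀ t : Fin 3 → V, ∃ (A : V ≃ₗ[K] V) (b : V), ∀ i, σ (t i) = A (t i) + b) :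
    ∃ (A : V ≃ₗ[K] V) (b : V), ∀ x, σ x = A x + b := by
  have hsm : ∀ (c : K) (y : V), σ (c • y) - σ 0 = c • (σ y - σ 0) := by
    intro c y
    obtain ⟨A, b, h⟩ := hσ ![0, y, c • y]
    have h0 := h 0
    have h1 := h 1
    have h2 := h 2
    simp only [Matrix.cons_val_zero, Matrix.cons_val_one, Matrix.cons_val] at h0 h1 h2
    rw [h0, h1, h2]
    simp
  have hadd : ∀ x y : V, σ (x + y) - σ 0 = (σ x - σ 0) + (σ y - σ 0) := by
    intro x y
    obtain ⟨A, b, h⟩ := hσ ![x, y, (2 : K)⁻¹ • (x + y)]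
    have h0 := h 0
    have h1 := h 1
    have h3 := h 2
    simp only [Matrix.cons_val_zero, Matrix.cons_val_one, Matrix.cons_val] at h0 h1 h3
    have h4 := hsm 2 ((2 : K)⁻¹ • (x + y))
    rw [smul_smul, mul_inv_cancel₀ h2, one_smul] at h4
    rw [h4, h3, h0, h1, map_smul, map_add, smul_sub, smul_add, smul_smul, mul_inv_cancel₀ h2,
      one_smul, two_smul, two_smul]
    abel
  let L : V →ₗ[K] V :=
    { toFun := fun x => σ x - σ 0
      map_add' := hadd
      map_smul' := hsm }
  have hL : Function.Bijective L := by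
    have : (L : V → V) = (Equiv.subRight (σ 0)) ∘ σ := rfl
    rw [this]
    exact (Equiv.subRight (σ 0)).bijective.comp σ.bijective
  exact ⟨LinearEquiv.ofBijective L hL, σ 0, fun x => by simp [L]⟩

end CL.Perm
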