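/-
Subnormal chains and the composition length of a finite group.
-/
import Cfsg.Agent.Base

set_option autoImplicit false

namespace CL.Perm

open ArithmeticFunction

/-- `SubChain A B l`: there is a chain `A = H₀ < H₁ < ⋯ < H_l = B`, each term normal in the next. -/
inductive SubChain {G : Type*} [Group G] : Subgroup G → Subgroup G → ℕ → Prop
  | refl (A : Subgroup G) : SubChain A A 0
  | step {A B C : Subgroup G} {l : ℕ} : SubChain A B l → B < C → (∀ b ∈ B, ∀ c ∈ C, c * b * c⁻¹ ∈ B) →
      SubChain A C (l + 1)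

namespace SubChain

variable {G H : Type*} [Group G] [Group H]

theorem trans {A B C : Subgroup G} {l m : ℕ} (h1 : SubChain A B l) (h2 : SubChain B C m) :
    SubChain A C (l + m) := by
  induction h2 with
  | refl => exact h1
  | step _ hlt hn ih => exact step ih hlt hn

theorem cardFactors_le [Finite G] {A B : Subgroup G} {l : ℕ} (h : SubChain A B l) :
    cardFactors (Nat.card A) + l ≤ cardFactors (Nat.card B) := by
  induction h with
  | refl => exact le_rfl
  | @step B C l _ hlt hn ih =>
    have h1 := Subgroup.relIndex_mul_relIndex ⊥ B C bot_le hlt.le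
    simp only [Subgroup.relIndex_bot_left] at h1
    have h2 : B.relIndex C ≠ 0 := Subgroup.index_ne_zero_of_finite
    have h3 : B.relIndex C ≠ 1 := fun h => hlt.not_ge (Subgroup.relIndex_eq_one.1 h)
    have h4 : 0 < cardFactors (B.relIndex C) := cardFactors_pos_iff_one_lt.2 (by omega)
    rw [← h1, cardFactors_mul Nat.card_pos.ne' h2]
    omega

theorem map {A B : Subgroup G} {l : ℕ} (h : SubChain A B l) (f : G →* H) (hf : Function.Injective f) :
    SubChain (A.map f) (B.map f) l := by
  induction h with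
  | refl => exact refl _
  | step _ hlt hn ih =>
    refine step ih ((Subgroup.map_lt_map_iff_of_injective hf).2 hlt) ?_
    rintro _ ⟨b, hb, rfl⟩ _ ⟨c, hc, rfl⟩
    exact ⟨_, hn b hb c hc, by simp⟩

theorem comap {A B : Subgroup H} {l : ℕ} (h : SubChain A B l) (f : G →* H) (hf : B ≤ f.range) :
    SubChain (A.comap f) (B.comap f) l := by
  induction h with
  | refl => exact refl _
  | step _ hlt hn ih =>
    refine step (ih (hlt.le.trans hf)) (lt_of_le_not_ge (Subgroup.comap_mono hlt.le) fun h => hlt.not_ge ?_) ?_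
    · intro c hc
      obtain ⟨x, rfl⟩ := hf hc
      exact h hc
    · intro b hb c hc
      simpa using hn _ hb _ hc

theorem split {A B : Subgroup G} {l : ℕ} (h : SubChain A B l) (f : G →* H) :
    ∃ l₁ l₂, l ≤ l₁ + l₂ ∧ SubChain (A ⊓ f.ker) (B ⊓ f.ker) l₁ ∧ SubChain (A.map f) (B.map f) l₂ := by
  induction h with
  | refl => exact ⟨0, 0, le_rfl, refl _, refl _⟩
  | @step B C l _ hlt hn ih =>
    obtain ⟨l₁, l₂, h1, h2, h3⟩ := ih
    have n1 : ∀ b ∈ B ⊓ f.ker, ∀ c ∈ C ⊓ f.ker, c * b * c⁻¹ ∈ B ⊓ f.ker := fun b hb c hc =>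
      ⟨hn b hb.1 c hc.1, f.normal_ker.conj_mem b hb.2 c⟩
    have n2 : ∀ b ∈ B.map f, ∀ c ∈ C.map f, c * b * c⁻¹ ∈ B.map f := by
      rintro _ ⟨b, hb, rfl⟩ _ ⟨c, hc, rfl⟩
      exact ⟨_, hn b hb c hc, by simp⟩
    rcases (inf_le_inf_right f.ker hlt.le).eq_or_lt with e1 | e1 <;>
      rcases (Subgroup.map_mono (f := f) hlt.le).eq_or_lt with e2 | e2
    · exfalso
      refine hlt.not_ge fun c hc => ?_
      obtain ⟨b, hb, hbc⟩ : f c ∈ B.map f := e2 ▸ Subgroup.mem_map_of_mem f hc
      have : b⁻¹ * c ∈ B ⊓ f.ker := by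
        rw [e1]
        exact ⟨C.mul_mem (C.inv_mem (hlt.le hb)) hc, by simp [hbc]⟩
      simpa using B.mul_mem hb this.1
    · exact ⟨l₁, l₂ + 1, by omega, e1 ▸ h2, step h3 e2 n2⟩
    · exact ⟨l₁ + 1, l₂, by omega, step h2 e1 n1, e2 ▸ h3⟩
    · exact ⟨l₁ + 1, l₂ + 1, by omega, step h2 e1 n1, step h3 e2 n2⟩

end SubChain

/-- The composition length: the largest length of a subnormal chain. -/
noncomputable def clen (G : Type*) [Group G] : ℕ := sSup {l | SubChain (⊥ : Subgroup G) ⊤ l}

variable {G H : Type*} [Group G] [Group H]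

theorem SubChain.le_cardFactors [Finite G] {l : ℕ} (h : SubChain (⊥ : Subgroup G) ⊤ l) :
    l ≤ cardFactors (Nat.card G) := by
  have := h.cardFactors_le
  rw [Subgroup.card_top] at this
  omega

theorem SubChain.le_clen [Finite G] {l : ℕ} (h : SubChain (⊥ : Subgroup G) ⊤ l) : l ≤ clen G :=
  le_csSup ⟨_, fun _ hl => SubChain.le_cardFactors hl⟩ h

theorem subChain_clen (G : Type*) [Group G] [Finite G] : SubChain (⊥ : Subgroup G) ⊤ (clen G) := by
  refine Nat.sSup_mem (s := {l | SubChain (⊥ : Subgroup G) ⊤ l}) ?_ ⟨_, fun _ hl => SubChain.le_cardFactors hl⟩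
  rcases (bot_le : (⊥ : Subgroup G) ≤ ⊤).eq_or_lt with h | h
  · exact ⟨0, h ▸ SubChain.refl _⟩
  · exact ⟨1, SubChain.step (SubChain.refl _) h fun b hb c _ => by rw [Subgroup.mem_bot.1 hb]; simp⟩

theorem clen_le_cardFactors (G : Type*) [Group G] [Finite G] : clen G ≤ cardFactors (Nat.card G) :=
  (subChain_clen G).le_cardFactors

theorem one_le_clen [Finite G] [Nontrivial G] : 1 ≤ clen G :=
  (SubChain.step (SubChain.refl _) bot_lt_top fun b hb c _ => by rw [Subgroup.mem_bot.1 hb]; simp).le_clen

theorem clen_eq_zero [Subsingleton G] : clen G = 0 := by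
  have := clen_le_cardFactors G
  rw [Nat.card_of_subsingleton (1 : G)] at this
  simpa using this

theorem clen_eq_add [Finite G] (f : G →* H) (hf : Function.Surjective f) : clen G = clen f.ker + clen H := by
  have : Finite H := Finite.of_surjective f hf
  refine le_antisymm ?_ ?_
  · obtain ⟨l₁, l₂, h1, h2, h3⟩ := (subChain_clen G).split f
    rw [Subgroup.map_bot, Subgroup.map_top_of_surjective f hf] at h3
    have h4 := h2.comap f.ker.subtype (by simp)
    rw [bot_inf_eq, top_inf_eq, Subgroup.comap_subtype, Subgroup.comap_subtype, Subgroup.bot_subgroupOf,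
      Subgroup.subgroupOf_self] at h4
    have := h4.le_clen
    have := h3.le_clen
    omega
  · have h1 := (subChain_clen f.ker).map f.ker.subtype f.ker.subtype_injective
    have h2 := (subChain_clen H).comap f (by rw [MonoidHom.range_eq_top.2 hf])
    rw [Subgroup.map_bot, ← MonoidHom.range_eq_map, Subgroup.range_subtype] at h1
    rw [MonoidHom.comap_bot, Subgroup.comap_top] at h2
    exact (h1.trans h2).le_clen

theorem clen_congr [Finite G] (e : G ≃* H) : clen G = clen H := by
  have h1 := clen_eq_add e.toMonoidHom e.surjective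
  have : Subsingleton e.toMonoidHom.ker := by
    rw [(MonoidHom.ker_eq_bot_iff _).2 e.injective]; infer_instance
  rw [h1, clen_eq_zero, zero_add]

theorem clen_eq_add_range [Finite G] (f : G →* H) : clen G = clen f.ker + clen f.range := by
  rw [clen_eq_add f.rangeRestrict f.rangeRestrict_surjective, MonoidHom.ker_rangeRestrict]

theorem clen_le_one [Finite G] [IsSimpleGroup G] : clen G ≤ 1 := by
  have key : ∀ (B : Subgroup G) (l : ℕ), SubChain ⊥ B l → B = ⊥ → l = 0 := by
    intro B l h hB
    have := h.cardFactors_le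
    rw [hB] at this
    omega
  have h := subChain_clen G
  generalize clen G = l at h
  generalize hT : (⊤ : Subgroup G) = C at h
  cases h with
  | refl => omega
  | @step B _ l h1 hlt hn =>
    subst hT
    have : B.Normal := ⟨fun b hb c => hn b hb c trivial⟩
    have := key B l h1 ((this.eq_bot_or_eq_top).resolve_right hlt.ne)
    omega

theorem clen_pi {m : ℕ} (A : Fin m → Type*) [∀ i, Group (A i)] [∀ i, Finite (A i)] :
    clen (∀ i, A i) = ∑ i, clen (A i) := by
  induction m with
  | zero => simpa using clen_eq_zero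
  | succ m ih =>
    let f : (∀ i, A i) →* ∀ i : Fin m, A i.succ := MonoidHom.pi fun i => Pi.evalMonoidHom A i.succ
    have hf : Function.Surjective f := fun y => ⟨Fin.cons 1 y, funext fun i => by simp [f]⟩
    let g : f.ker →* A 0 := (Pi.evalMonoidHom A 0).comp f.ker.subtype
    have hg : Function.Bijective g := by
      refine ⟨(injective_iff_map_eq_one g).2 fun x hx => Subtype.ext (funext fun i => ?_), fun t => ?_⟩
      · exact Fin.cases hx (fun i => congrFun x.2 i) i
      · exact ⟨⟨Fin.cons t 1, funext fun i => by simp [f]⟩, by simp [g]⟩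
    rw [clen_eq_add f hf, ih, Fin.sum_univ_succ, clen_congr (MulEquiv.ofBijective g hg)]

theorem two_pow_cardFactors_le {n : ℕ} (hn : n ≠ 0) : 2 ^ cardFactors n ≤ n := by
  rw [cardFactors_apply]
  conv_rhs => rw [← Nat.prod_primeFactorsList hn]
  exact List.pow_card_le_prod _ _ fun p hp => (Nat.prime_of_mem_primeFactorsList hp).two_le

theorem cardFactors_le_log {n m : ℕ} (hn : n ≠ 0) (h : n ≤ m) : cardFactors n ≤ Nat.log 2 m :=
  Nat.le_log_of_pow_le (by norm_num) ((two_pow_cardFactors_le hn).trans h)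

end CL.Perm
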