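/-
Derangement subgroups of affine primitive groups, I: counting lemmas for a finite group `H` acting on a finite
abelian group `V` with a subgroup `R` outside of which all elements are fixed-point-free.
-/
import Cfsg.Agent.Perm.BinAff1
import Cfsg.Agent.Perm.Derange2

set_option autoImplicit false

namespace CL.DAff

open CL.BinAff

variable {H : Type*} [Group H] {V : Type*} [AddCommGroup V] [DistribMulAction H V]

/-- `h` fixes no non-zero vector. -/
def Fpf (V : Type*) [AddCommGroup V] [DistribMulAction H V] (h : H) : Prop := ∀ v : V, h • v = v → v = 0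

/-- A putative counterexample. -/
structure Bad (V : Type*) [AddCommGroup V] [DistribMulAction H V] (R : Subgroup H) : Prop where
  out : ∀ h, h ∉ R → Fpf V h
  big : Nat.card V < (R.index + 1) ^ 2

theorem card_le_of_smul [Finite V] {W W' : AddSubgroup V} (h : H) (hW : ∀ v ∈ W, h • v ∈ W') :
    Nat.card W ≤ Nat.card W' :=
  Nat.card_le_card_of_injective (fun v : W => (⟨h • v.1, hW v v.2⟩ : W')) fun a b e =>
    Subtype.ext (MulAction.injective h (congrArg Subtype.val e))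

theorem sq_le_of_disj [Finite V] {W W' : AddSubgroup V} (hc : Nat.card W ≤ Nat.card W')
    (hd : ∀ v ∈ W, v ∈ W' → v = 0) : Nat.card W ^ 2 ≤ Nat.card V := by
  have h1 := card_mul_le (A := W) (B := W') (W := ⊤) le_top le_top
  have h2 : W ⊓ W' = ⊥ := (AddSubgroup.eq_bot_iff_forall _).2 fun v hv => hd v hv.1 hv.2
  rw [h2, AddSubgroup.card_bot, AddSubgroup.card_top, mul_one] at h1
  calc Nat.card W ^ 2 = Nat.card W * Nat.card W := sq _
    _ ≤ Nat.card W * Nat.card W' := Nat.mul_le_mul_left _ hc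
    _ ≤ _ := h1

theorem cube_le [Finite V] (W : AddSubgroup V) (g k : H)
    (h : ∀ a ∈ W, ∀ b ∈ W, ∀ c ∈ W, a + g • b + k • c = 0 → a = 0 ∧ b = 0 ∧ c = 0) :
    Nat.card W ^ 3 ≤ Nat.card V := by
  have := Nat.card_le_card_of_injective (fun t : W × W × W => (t.1.1 + g • t.2.1.1 + k • t.2.2.1 : V))
    fun a b e => by
      obtain ⟨h1, h2, h3⟩ := h _ (W.sub_mem a.1.2 b.1.2) _ (W.sub_mem a.2.1.2 b.2.1.2) _
        (W.sub_mem a.2.2.2 b.2.2.2) (by
          have e' := sub_eq_zero.2 e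
          dsimp only at e'
          rw [smul_sub, smul_sub, ← e']; abel)
      exact Prod.ext (Subtype.ext (sub_eq_zero.1 h1))
        (Prod.ext (Subtype.ext (sub_eq_zero.1 h2)) (Subtype.ext (sub_eq_zero.1 h3)))
  rw [Nat.card_prod, Nat.card_prod] at this
  calc Nat.card W ^ 3 = Nat.card W * (Nat.card W * Nat.card W) := by ring
    _ ≤ _ := this

variable {R : Subgroup H}

theorem Bad.mem (B : Bad V R) {h : H} {v : V} (hv : v ≠ 0) (e : h • v = v) : h ∈ R := by
  by_contra hn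
  exact hv (B.out h hn v e)

/-- The basic count: the orbit of `v` has at least `m |I|` elements and is covered by the `F i \ 0`. -/
theorem Bad.cover [Finite H] [Finite V] (B : Bad V R) {v : V} (hv : v ≠ 0) {ι : Type*} (s : Finset ι)
    (F : ι → AddSubgroup V) {c : ℕ} (hc : ∀ i ∈ s, Nat.card (F i) ≤ c) (hcov : ∀ h : H, ∃ i ∈ s, h • v ∈ F i)
    (I : Finset H) (hI : ∀ y ∈ I, y ∈ R) (hinj : ∀ y ∈ I, ∀ y' ∈ I, y • v = y' • v → y = y') :
    R.index * I.card ≤ s.card * (c - 1) := by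
  classical
  have := Fintype.ofFinite V
  have := Fintype.ofFinite (H ⧸ R)
  have h1 : ((Finset.univ : Finset (H ⧸ R)) ×ˢ I).card ≤
      (s.biUnion fun i => (Finset.univ.filter (· ∈ F i)).erase 0).card := by
    refine Finset.card_le_card_of_injOn (fun t => t.1.out • t.2 • v) (fun t _ => ?_) ?_
    · obtain ⟨i, hi, h⟩ := hcov (t.1.out * t.2)
      rw [mul_smul] at h
      simp only [Finset.coe_biUnion, Set.mem_iUnion, Finset.mem_coe, Finset.mem_erase, Finset.mem_filter,
        Finset.mem_univ, true_and]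
      exact ⟨i, hi, by rwa [Ne, smul_eq_zero_iff_eq, smul_eq_zero_iff_eq], h⟩
    · rintro ⟨q, y⟩ ht ⟨q', y'⟩ ht' e
      have hy := (Finset.mem_product.1 ht).2
      have hy' := (Finset.mem_product.1 ht').2
      dsimp only at e hy hy'
      have h2 : (y⁻¹ * q.out⁻¹ * q'.out * y') • v = v := by
        rw [mul_smul, mul_smul, ← e, mul_smul, inv_smul_smul, inv_smul_smul]
      have h3 : q.out⁻¹ * q'.out ∈ R := by
        have := R.mul_mem (R.mul_mem (hI y hy) (B.mem hv h2)) (R.inv_mem (hI y' hy'))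
        rwa [show y * (y⁻¹ * q.out⁻¹ * q'.out * y') * y'⁻¹ = q.out⁻¹ * q'.out by group] at this
      have h4 : q = q' := by rw [← q.out_eq, ← q'.out_eq]; exact QuotientGroup.eq.2 h3
      subst h4
      rw [hinj y hy y' hy' (MulAction.injective _ e)]
  rw [Finset.card_product, Finset.card_univ, ← Nat.card_eq_fintype_card] at h1
  refine h1.trans (Finset.card_biUnion_le_card_mul _ _ _ fun i hi => ?_)
  rw [Finset.card_erase_of_mem (by simp)]
  refine Nat.sub_le_sub_right (le_trans (le_of_eq ?_) (hc i hi)) 1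
  rw [Nat.card_eq_fintype_card, Fintype.card_subtype]

theorem Bad.dvd [Finite V] (B : Bad V R) (W : AddSubgroup V) (hW : ∀ h : H, ∀ w ∈ W, h • w ∈ W) :
    R.index ∣ Nat.card W - 1 := by
  have h := CL.Perm.index_dvd_ncard_of_stab_le R ((W : Set V) \ {0}) (Set.toFinite _)
    (fun h y hy => ⟨hW h y hy.1, fun e => hy.2 ((smul_eq_zero_iff_eq h).1 e)⟩)
    fun y hy h hh => B.mem hy.2 hh
  rwa [Set.ncard_sdiff_singleton_of_mem W.zero_mem, ← Nat.card_coe_set_eq] at h

/-- The action is irreducible. -/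
theorem Bad.irr [Finite V] (B : Bad V R) (W : AddSubgroup V) (hW : ∀ h : H, ∀ w ∈ W, h • w ∈ W) :
    W = ⊥ ∨ W = ⊤ := by
  by_contra hn
  push Not at hn
  have h1 := B.dvd W hW
  have h2 := B.dvd ⊤ fun _ _ _ => trivial
  have h3 := B.big
  rw [AddSubgroup.card_top] at h2
  rw [← W.card_mul_index] at h2 h3
  have hu : 1 < Nat.card W := (W.one_lt_card_iff_ne_bot).2 hn.1
  have hq : 1 < W.index := AddSubgroup.one_lt_index_of_ne_top hn.2
  obtain ⟨u, hu'⟩ : ∃ u, Nat.card W = u + 1 := ⟨Nat.card W - 1, by omega⟩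
  obtain ⟨q, hq'⟩ : ∃ q, W.index = q + 1 := ⟨W.index - 1, by omega⟩
  rw [hu', hq'] at h2 h3
  rw [hu', Nat.add_sub_cancel] at h1
  rw [show (u + 1) * (q + 1) - 1 = u * (q + 1) + q by rw [add_mul, one_mul, ← add_assoc, Nat.add_sub_cancel],
    Nat.dvd_add_right (h1.mul_right _)] at h2
  have h4 := Nat.le_of_dvd (by omega) h1
  have h5 := Nat.le_of_dvd (by omega) h2
  nlinarith

theorem Bad.not_inv [Finite V] [FaithfulSMul H V] (B : Bad V R) {W : AddSubgroup V}
    (hW : ∀ h : H, ∀ w ∈ W, h • w ∈ W) {v : V} (hv : v ≠ 0) (hvW : v ∈ W) {y : H} (hy : y ≠ 1)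
    (hfix : ∀ w ∈ W, y • w = w) : False := by
  rcases B.irr W hW with h | h
  · exact hv (by rwa [h, AddSubgroup.mem_bot] at hvW)
  · exact hy (Fx_eq_top (V := V) fun w => hfix w (h ▸ AddSubgroup.mem_top w))

/-- A non-trivial element with a fixed vector has a conjugate `y'` with `y⁻¹ y'` non-trivial with a fixed vector. -/
theorem Bad.key1 [Finite H] [Finite V] [FaithfulSMul H V] (B : Bad V R) {y : H} (hy : y ≠ 1) (hn : ¬ Fpf V y) :
    ∃ g : H, g * y * g⁻¹ ≠ y ∧ ¬ Fpf V (y⁻¹ * (g * y * g⁻¹)) := by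
  classical
  by_contra hc
  push Not at hc
  have := Fintype.ofFinite H
  obtain ⟨v, hv, hv0⟩ : ∃ v : V, y • v = v ∧ v ≠ 0 := by
    unfold Fpf at hn; push Not at hn; exact hn
  have hconj : ∀ g : H, ∀ w ∈ Fx V y, g • w ∈ Fx V (g * y * g⁻¹) := fun g w hw => by
    rw [mem_Fx, mul_smul, mul_smul, inv_smul_smul, mem_Fx.1 hw]
  by_cases hall : ∀ g : H, g * y * g⁻¹ = y
  · exact B.not_inv (W := Fx V y) (fun g w hw => hall g ▸ hconj g w hw) hv0 hv hy fun w hw => hw
  push Not at hall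
  obtain ⟨g0, hg0⟩ := hall
  have h1 : Nat.card (Fx V y) ^ 2 ≤ Nat.card V := sq_le_of_disj (card_le_of_smul g0 (hconj g0)) fun w hw hw' =>
    hc g0 hg0 w (by rw [mul_smul, mem_Fx.1 hw', inv_smul_of_fix hw])
  have h2 := B.cover hv0 (Finset.univ.image fun g : H => g * y * g⁻¹) (Fx V) (c := Nat.card (Fx V y))
    (fun i hi => by obtain ⟨g, -, rfl⟩ := Finset.mem_image.1 hi; exact (card_Fx_conj g y).le)
    (fun g => ⟨_, Finset.mem_image_of_mem _ (Finset.mem_univ g), hconj g v hv⟩)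
    (Finset.univ.image fun g : H => g * y * g⁻¹)
    (fun i hi => by
      obtain ⟨g, -, rfl⟩ := Finset.mem_image.1 hi
      exact B.mem (fun e => hv0 ((smul_eq_zero_iff_eq g).1 e)) (hconj g v hv))
    (fun i hi j hj e => by
      obtain ⟨g, -, rfl⟩ := Finset.mem_image.1 hi
      obtain ⟨k, -, rfl⟩ := Finset.mem_image.1 hj
      by_contra hne
      refine hv0 ((smul_eq_zero_iff_eq g⁻¹).1 (hc (g⁻¹ * k) (fun e' => hne ?_) _ ?_))
      · calc g * y * g⁻¹ = g * (g⁻¹ * k * y * (g⁻¹ * k)⁻¹) * g⁻¹ := by rw [e']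
          _ = _ := by group
      · rw [show y⁻¹ * (g⁻¹ * k * y * (g⁻¹ * k)⁻¹) = g⁻¹ * (g * y * g⁻¹)⁻¹ * (k * y * k⁻¹) * g by group,
          mul_smul, mul_smul, smul_inv_smul, ← e, mul_smul, inv_smul_smul])
  have h3 : 0 < (Finset.univ.image fun g : H => g * y * g⁻¹).card :=
    Finset.card_pos.2 ⟨_, Finset.mem_image_of_mem _ (Finset.mem_univ 1)⟩
  rw [mul_comm] at h2
  have h4 := Nat.le_of_mul_le_mul_left h2 h3
  have h5 : 0 < Nat.card (Fx V y) := Nat.card_pos
  have h6 := B.big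
  have h7 : (R.index + 1) ^ 2 ≤ Nat.card (Fx V y) ^ 2 := Nat.pow_le_pow_left (by omega) 2
  omega

end CL.DAff
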