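/-
Derangement subgroups of affine primitive groups, II: abelian normal subgroups are semiregular; bounds on the
number of elements of prime order in a group of symplectic type.
-/
import Cfsg.Agent.Perm.DAff1

set_option autoImplicit false

namespace CL.DAff

open CL.BinAff

variable {H : Type*} [Group H] {V : Type*} [AddCommGroup V] [DistribMulAction H V]

/-- The vectors fixed by a subgroup. -/
def Cf (V : Type*) [AddCommGroup V] [DistribMulAction H V] (B : Subgroup H) : AddSubgroup V :=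
  ⨅ b ∈ B, Fx V b

theorem mem_Cf {B : Subgroup H} {v : V} : v ∈ Cf V B ↔ ∀ b ∈ B, b • v = v := by
  simp [Cf, AddSubgroup.mem_iInf]

theorem pow_le_of_indep [Finite V] {ι : Type*} (s : Finset ι) (F : ι → AddSubgroup V) {u : ℕ}
    (hu : ∀ i ∈ s, u ≤ Nat.card (F i))
    (h : ∀ w : ι → V, (∀ i ∈ s, w i ∈ F i) → ∑ i ∈ s, w i = 0 → ∀ i ∈ s, w i = 0) :
    u ^ s.card ≤ Nat.card V := by
  classical
  have h1 := Nat.card_le_card_of_injective (fun t : (∀ i : s, F i) => ∑ i : s, (t i : V)) fun a b e => by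
    have h2 := h (fun i => if hi : i ∈ s then (a ⟨i, hi⟩ : V) - b ⟨i, hi⟩ else 0)
      (fun i hi => by rw [dif_pos hi]; exact (F i).sub_mem (a ⟨i, hi⟩).2 (b ⟨i, hi⟩).2) (by
        rw [← Finset.sum_coe_sort, ← sub_eq_zero.2 e, ← Finset.sum_sub_distrib]
        exact Finset.sum_congr rfl fun i _ => by rw [dif_pos i.2])
    funext i
    have h3 := h2 i i.2
    rw [dif_pos i.2] at h3
    exact Subtype.ext (sub_eq_zero.1 h3)
  rw [Nat.card_pi] at h1
  refine le_trans ?_ h1
  rw [← Fintype.card_coe, ← Finset.card_univ]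
  exact Finset.pow_card_le_prod _ _ _ fun i _ => hu i i.2

theorem bern {a : ℕ} (ha : 1 ≤ a) {n : ℕ} (hn : 2 ≤ n) : (2 + n * a) ^ 2 ≤ 4 * (1 + a) ^ n := by
  induction n, hn using Nat.le_induction with
  | base => nlinarith
  | succ n hn ih =>
    have h1 : 2 * a ≤ n * a := Nat.mul_le_mul_right a hn
    calc (2 + (n + 1) * a) ^ 2 ≤ (2 + n * a) ^ 2 * (1 + a) := by
          obtain ⟨t, ht⟩ := Nat.exists_eq_add_of_le h1
          rw [add_mul, one_mul, ht]
          nlinarith [Nat.zero_le (a * t), Nat.zero_le (a * a * t), Nat.zero_le (a * t * t), Nat.zero_le (a * a * a),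
            Nat.mul_le_mul ha ha]
      _ ≤ 4 * (1 + a) ^ n * (1 + a) := Nat.mul_le_mul_right _ ih
      _ = _ := by ring

variable {R : Subgroup H}

/-- An abelian normal subgroup is semiregular on the non-zero vectors. -/
theorem Bad.abel [Finite H] [Finite V] [FaithfulSMul H V] (B : Bad V R) (A : Subgroup H) [hA : A.Normal]
    (hc : ∀ a ∈ A, ∀ b ∈ A, a * b = b * a) {a : H} (ha : a ∈ A) (ha1 : a ≠ 1) : Fpf V a := by
  classical
  have := Fintype.ofFinite H
  by_contra hn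
  obtain ⟨v1, hv1, hv10⟩ : ∃ v : V, a • v = v ∧ v ≠ 0 := by
    unfold Fpf at hn; push Not at hn; exact hn
  let St : V → Subgroup H := fun v => A ⊓ MulAction.stabilizer H v
  obtain ⟨v, hv, hmax⟩ := Set.exists_max_image {v : V | v ≠ 0} (fun v => Nat.card (St v)) (Set.toFinite _) ⟨v1, hv10⟩
  have hv0 : v ≠ 0 := hv
  have hg0 : ∀ g : H, g • v ≠ 0 := fun g e => hv0 ((smul_eq_zero_iff_eq g).1 e)
  have hconj : ∀ (g : H) (w : V), ∀ b ∈ St w, g * b * g⁻¹ ∈ St (g • w) := fun g w b hb =>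
    ⟨hA.conj_mem b hb.1 g, show (g * b * g⁻¹) • g • w = g • w by
      rw [mul_smul, mul_smul, inv_smul_smul, show b • w = w from hb.2]⟩
  have hle : ∀ g : H, Nat.card (St v) ≤ Nat.card (St (g • v)) := fun g =>
    Nat.card_le_card_of_injective (fun b : St v => (⟨g * b * g⁻¹, hconj g v b b.2⟩ : St (g • v))) fun b b' e =>
      Subtype.ext (by simpa using congrArg Subtype.val e)
  -- maximality
  have hM : ∀ (g : H) (w : V), w ≠ 0 → w ∈ Cf V (St (g • v)) → St w = St (g • v) := fun g w hw hm =>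
    (Subgroup.eq_of_le_of_card_ge (H := St (g • v)) (K := St w) (fun b hb => ⟨hb.1, mem_Cf.1 hm b hb⟩)
      ((hmax w hw).trans (hle g))).symm
  have hself : ∀ w : V, w ∈ Cf V (St w) := fun w => mem_Cf.2 fun b hb => hb.2
  have htr : ∀ (g : H) (w : V), ∀ x ∈ Cf V (St w), g • x ∈ Cf V (St (g • w)) := fun g w x hx =>
    mem_Cf.2 fun b hb => by
      have h1 := hconj g⁻¹ _ b hb
      rw [inv_smul_smul] at h1
      have h2 := mem_Cf.1 hx _ h1
      rwa [inv_inv, mul_smul, mul_smul, inv_smul_eq_iff] at h2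
  have hex : ∀ g k : H, St (g • v) ≠ St (k • v) → ∃ b ∈ St (g • v), b ∉ St (k • v) := fun g k hne => by
    by_contra hc
    push Not at hc
    exact hne (Subgroup.eq_of_le_of_card_ge hc ((hmax _ (hg0 k)).trans (hle g)))
  obtain ⟨b0, hb0, hb1⟩ : ∃ b ∈ St v, b ≠ 1 := by
    by_contra hc
    push Not at hc
    have h1 := hmax v1 hv10
    rw [(Subgroup.eq_bot_iff_forall _).2 hc, Subgroup.card_bot, Subgroup.card_le_one_iff_eq_bot] at h1
    exact ha1 ((Subgroup.eq_bot_iff_forall _).1 h1 a ⟨ha, hv1⟩)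
  by_cases hall : ∀ g : H, St (g • v) = St v
  · exact B.not_inv (W := Cf V (St v)) (fun g w hw => hall g ▸ htr g v w hw) hv0 (hself v) hb1
      fun w hw => mem_Cf.1 hw b0 hb0
  push Not at hall
  obtain ⟨g0, hg⟩ := hall
  let s : Finset (Subgroup H) := Finset.univ.image fun g : H => St (g • v)
  have hs : ∀ g : H, St (g • v) ∈ s := fun g => Finset.mem_image_of_mem _ (Finset.mem_univ g)
  have hs1 : St v ∈ s := by simpa using hs 1
  have h2 : 2 ≤ s.card := Finset.one_lt_card.2 ⟨_, hs g0, _, hs1, hg⟩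
  obtain ⟨b, hb, hbv⟩ := hex g0 1 (by rwa [one_smul])
  rw [one_smul] at hbv
  have hbv' : b • v ≠ v := fun e => hbv ⟨hb.1, e⟩
  have hb1' : (1 : H) ≠ b := fun e => hbv' (by rw [← e, one_smul])
  have h3 := B.cover hv0 s (Cf V) (c := Nat.card (Cf V (St v)))
    (fun i hi => by
      obtain ⟨g, -, rfl⟩ := Finset.mem_image.1 hi
      exact card_le_of_smul g⁻¹ fun x hx => by simpa using htr g⁻¹ _ x hx)
    (fun g => ⟨_, hs g, hself _⟩) {1, b}
    (fun y hy => by
      rcases Finset.mem_insert.1 hy with rfl | hy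
      · exact R.one_mem
      · rw [Finset.mem_singleton.1 hy]; exact B.mem (hg0 g0) hb.2)
    (fun y hy y' hy' e => by
      simp only [Finset.mem_insert, Finset.mem_singleton] at hy hy'
      rcases hy with rfl | rfl <;> rcases hy' with rfl | rfl
      · rfl
      · rw [one_smul] at e; exact (hbv' e.symm).elim
      · rw [one_smul] at e; exact (hbv' e).elim
      · rfl)
  rw [Finset.card_pair hb1'] at h3
  have hind : ∀ t : Finset (Subgroup H), t ⊆ s → ∀ w : Subgroup H → V, (∀ i ∈ t, w i ∈ Cf V i) →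
      ∑ i ∈ t, w i = 0 → ∀ i ∈ t, w i = 0 := fun t => by
    induction t using Finset.induction_on with
    | empty => simp
    | insert i t hit ih =>
      intro hts w hw hsum
      rw [Finset.sum_insert hit] at hsum
      obtain ⟨g, -, rfl⟩ := Finset.mem_image.1 (hts (Finset.mem_insert_self i t))
      have h4 : ∀ j ∈ t, w j = 0 := fun j hj => by
        obtain ⟨k, -, rfl⟩ := Finset.mem_image.1 (hts (Finset.mem_insert_of_mem hj))
        obtain ⟨c, hc1, hc2⟩ := hex g k fun e => hit (e ▸ hj)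
        have h5 := ih (fun x hx => hts (Finset.mem_insert_of_mem hx)) (fun x => c • w x - w x)
          (fun x hx => by
            obtain ⟨l, -, rfl⟩ := Finset.mem_image.1 (hts (Finset.mem_insert_of_mem hx))
            have h6 := hw _ (Finset.mem_insert_of_mem hx)
            refine AddSubgroup.sub_mem _ (mem_Cf.2 fun d hd => ?_) h6
            rw [← mul_smul, hc d hd.1 c hc1.1, mul_smul, mem_Cf.1 h6 d hd])
          (by
            rw [Finset.sum_sub_distrib, ← Finset.smul_sum, eq_neg_of_add_eq_zero_right hsum, smul_neg,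
              mem_Cf.1 (hw _ (Finset.mem_insert_self _ t)) c hc1, sub_self]) _ hj
        by_contra h0
        exact hc2 (hM k _ h0 (hw _ (Finset.mem_insert_of_mem hj)) ▸ ⟨hc1.1, sub_eq_zero.1 h5⟩)
      intro j hj
      rcases Finset.mem_insert.1 hj with rfl | hj
      · rwa [Finset.sum_eq_zero h4, add_zero] at hsum
      · exact h4 j hj
  have h4 := pow_le_of_indep s (Cf V) (u := Nat.card (Cf V (St v)))
    (fun i hi => by
      obtain ⟨g, -, rfl⟩ := Finset.mem_image.1 hi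
      exact card_le_of_smul g (htr g v)) (hind s subset_rfl)
  have h5 : 1 < Nat.card (Cf V (St v)) := (AddSubgroup.one_lt_card_iff_ne_bot _).2 fun e =>
    hv0 (by have := hself v; rwa [e, AddSubgroup.mem_bot] at this)
  obtain ⟨u, hu⟩ : ∃ u, Nat.card (Cf V (St v)) = 1 + u := ⟨Nat.card (Cf V (St v)) - 1, by omega⟩
  rw [hu] at h3 h4 h5
  rw [Nat.add_sub_cancel_left] at h3
  have h6 := bern (a := u) (by omega) h2
  have h7 := B.big
  have h8 : (2 * (R.index + 1)) ^ 2 ≤ (2 + s.card * u) ^ 2 := Nat.pow_le_pow_left (by omega) 2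
  rw [mul_pow] at h8
  omega

/-- The crude count. -/
theorem Bad.key2 [Finite H] [Finite V] (B : Bad V R) (Y : Finset H) (hY : ∀ g : H, ∀ y ∈ Y, g * y * g⁻¹ ∈ Y)
    {y1 y2 : H} (h1 : y1 ∈ Y) (h2 : y2 ∈ Y) {v : V} (hv : v ≠ 0) (hv1 : y1 • v = v) (hv2 : y2 • v = v)
    (hc : Nat.card (Fx V y1 ⊓ Fx V y2 : AddSubgroup V) ^ 3 ≤ Nat.card V) : Nat.card V < Y.card ^ 12 := by
  classical
  have := Fintype.ofFinite H
  have hconj : ∀ g y : H, ∀ w ∈ Fx V y, g • w ∈ Fx V (g * y * g⁻¹) := fun g y w hw => by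
    rw [mem_Fx, mul_smul, mul_smul, inv_smul_smul, mem_Fx.1 hw]
  have h3 := B.cover hv (Finset.univ.image fun g : H => (g * y1 * g⁻¹, g * y2 * g⁻¹))
    (fun t => Fx V t.1 ⊓ Fx V t.2) (c := Nat.card (Fx V y1 ⊓ Fx V y2 : AddSubgroup V))
    (fun i hi => by
      obtain ⟨g, -, rfl⟩ := Finset.mem_image.1 hi
      exact card_le_of_smul g⁻¹ fun x hx =>
        ⟨by simpa [mul_assoc] using hconj g⁻¹ _ x hx.1, by simpa [mul_assoc] using hconj g⁻¹ _ x hx.2⟩)
    (fun g => ⟨_, Finset.mem_image_of_mem _ (Finset.mem_univ g), hconj g y1 v hv1, hconj g y2 v hv2⟩) {1}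
    (fun y hy => by rw [Finset.mem_singleton.1 hy]; exact R.one_mem)
    fun y hy y' hy' _ => by rw [Finset.mem_singleton.1 hy, Finset.mem_singleton.1 hy']
  have h4 : (Finset.univ.image fun g : H => (g * y1 * g⁻¹, g * y2 * g⁻¹)).card ≤ (Y ×ˢ Y).card :=
    Finset.card_le_card fun t ht => by
      obtain ⟨g, -, rfl⟩ := Finset.mem_image.1 ht
      exact Finset.mem_product.2 ⟨hY g y1 h1, hY g y2 h2⟩
  rw [Finset.card_product] at h4
  rw [Finset.card_singleton, mul_one] at h3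
  have h5 : 0 < Nat.card (Fx V y1 ⊓ Fx V y2 : AddSubgroup V) := Nat.card_pos
  have h6 : 0 < Y.card := Finset.card_pos.2 ⟨_, h1⟩
  obtain ⟨c, hc'⟩ : ∃ c, Nat.card (Fx V y1 ⊓ Fx V y2 : AddSubgroup V) = c + 1 := ⟨_, (Nat.sub_add_cancel h5).symm⟩
  rw [hc'] at h3 hc
  rw [Nat.add_sub_cancel] at h3
  have h7 : R.index + 1 ≤ Y.card * Y.card * (c + 1) := by
    have := Nat.mul_le_mul_right c h4
    have := Nat.mul_pos h6 h6
    rw [mul_add, mul_one]; omega
  have h8 : Nat.card V ^ 3 < ((R.index + 1) ^ 2) ^ 3 := Nat.pow_lt_pow_left B.big (by norm_num)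
  have h9 : ((R.index + 1) ^ 2) ^ 3 ≤ Y.card ^ 12 * Nat.card V ^ 2 :=
    calc ((R.index + 1) ^ 2) ^ 3 ≤ ((Y.card * Y.card * (c + 1)) ^ 2) ^ 3 := by gcongr
      _ = Y.card ^ 12 * ((c + 1) ^ 3) ^ 2 := by ring
      _ ≤ _ := by gcongr
  have h10 : Nat.card V * Nat.card V ^ 2 < Y.card ^ 12 * Nat.card V ^ 2 := by
    rw [← pow_succ']; exact h8.trans_le h9
  exact Nat.lt_of_mul_lt_mul_right h10

end CL.DAff
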