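/-
Derangement subgroups of affine primitive groups, III: normal subgroups of class two with cyclic centre.
-/
import Cfsg.Agent.Perm.DAff2

set_option autoImplicit false

namespace CL.DAff

open CL.BinAff

variable {H : Type*} [Group H] {V : Type*} [AddCommGroup V] [DistribMulAction H V]

/-- Coset representatives of `U` are linearly independent in the endomorphism ring. -/
theorem index_le_sq [Finite H] [Finite V] [Nontrivial V] {p : ℕ} [Fact p.Prime] [Module (ZMod p) V]
    (hp : ¬ p ∣ Nat.card H) (U : Subgroup H)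
    (hU : ∀ t, t ∉ U → ∃ g w : H, (∀ e, w * e = e * w) ∧ Fpf V w ∧ g * t * g⁻¹ = w * t) :
    U.index ≤ Module.finrank (ZMod p) V ^ 2 := by
  classical
  have := Fintype.ofFinite H
  have := Fintype.ofFinite (H ⧸ U)
  let ρ : H → (V →ₗ[ZMod p] V) := fun e => (DistribSMul.toAddMonoidHom V e).toZModLinearMap p
  have hρ : ∀ e v, ρ e v = e • v := fun _ _ => rfl
  have hP : ∀ t, t ∉ U → ∀ v : V, ∑ e : H, (e * t * e⁻¹) • v = 0 := fun t ht v => by
    obtain ⟨g, w, h1, h2, h3⟩ := hU t ht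
    refine h2 _ ?_
    rw [Finset.smul_sum, ← Equiv.sum_comp (Equiv.mulRight g) fun e => (e * t * e⁻¹) • v]
    refine Finset.sum_congr rfl fun e _ => ?_
    rw [← mul_smul, Equiv.coe_mulRight, show e * g * t * (e * g)⁻¹ = e * (g * t * g⁻¹) * e⁻¹ by group, h3,
      ← mul_assoc, ← mul_assoc, h1 e, mul_assoc e w]
  have hli : LinearIndependent (ZMod p) fun q : H ⧸ U => ρ q.out := by
    rw [Fintype.linearIndependent_iff]
    intro c hc i
    obtain ⟨v, hv⟩ := exists_ne (0 : V)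
    have h1 : ∀ e : H, ∑ j : H ⧸ U, c j • (e * (i.out⁻¹ * j.out) * e⁻¹) • v = 0 := fun e => by
      have h2 := congrArg (fun f : V →ₗ[ZMod p] V => ρ (e * i.out⁻¹) (f (e⁻¹ • v))) hc
      simp only [LinearMap.sum_apply, LinearMap.smul_apply, map_sum, map_smul, LinearMap.zero_apply,
        map_zero] at h2
      simp only [hρ] at h2
      rw [← h2]
      refine Finset.sum_congr rfl fun j _ => ?_
      rw [← mul_smul, ← mul_smul, mul_assoc e, mul_assoc e, mul_assoc e, mul_assoc]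
    have h3 : ∑ e : H, ∑ j : H ⧸ U, c j • (e * (i.out⁻¹ * j.out) * e⁻¹) • v = 0 := Finset.sum_eq_zero fun e _ => h1 e
    rw [Finset.sum_comm, Finset.sum_eq_single i (fun j _ hj => by
      rw [← Finset.smul_sum, hP _ (fun h => hj (by
        rw [← i.out_eq, ← j.out_eq]; exact (QuotientGroup.eq.2 h).symm)), smul_zero]) (by simp)] at h3
    simp only [inv_mul_cancel, mul_one, mul_inv_cancel, one_smul, Finset.sum_const, Finset.card_univ] at h3
    rw [← Nat.cast_smul_eq_nsmul (ZMod p), smul_smul, smul_eq_zero, mul_eq_zero, ZMod.natCast_eq_zero_iff,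
      ← Nat.card_eq_fintype_card] at h3
    exact (h3.resolve_right hv).resolve_left hp
  have h4 := hli.fintype_card_le_finrank
  rwa [Module.finrank_linearMap, ← sq, ← Nat.card_eq_fintype_card] at h4

theorem two_pow_finrank_le [Finite V] (p : ℕ) [hp : Fact p.Prime] [Module (ZMod p) V] :
    2 ^ Module.finrank (ZMod p) V ≤ Nat.card V := by
  rw [Module.natCard_eq_pow_finrank (K := ZMod p) (V := V), Nat.card_zmod]
  exact Nat.pow_le_pow_left hp.out.two_le _

theorem card_pow_eq_one_le [Fintype H] [DecidableEq H] (U : Subgroup H) [IsCyclic U]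
    (hc : ∀ u ∈ U, ∀ e, u * e = e * u) {r : ℕ} (hr : 0 < r) :
    (Finset.univ.filter fun x : H => x ^ r = 1).card ≤ r * U.index := by
  classical
  have := Fintype.ofFinite (H ⧸ U)
  rw [Subgroup.index, Nat.card_eq_fintype_card, ← Finset.card_univ]
  refine Finset.card_le_mul_card_image_of_maps_to (f := fun x : H => (x : H ⧸ U)) (fun _ _ => Finset.mem_univ _) r
    fun q _ => ?_
  rcases ((Finset.univ.filter fun x : H => x ^ r = 1).filter fun x : H => (x : H ⧸ U) = q).eq_empty_or_nonempty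
    with h | ⟨x0, hx0⟩
  · rw [h]; exact Nat.zero_le _
  simp only [Finset.mem_filter, Finset.mem_univ, true_and] at hx0
  refine le_trans ?_ (IsCyclic.card_pow_eq_one_le (α := U) hr)
  refine Finset.card_le_card_of_injOn (fun x => if h : x0⁻¹ * x ∈ U then ⟨_, h⟩ else 1) (fun x hx => ?_)
    fun x hx y hy e => ?_
  · simp only [Finset.coe_filter, Finset.mem_filter, Finset.mem_univ, true_and, Set.mem_ofPred_eq] at hx ⊢
    have h1 : x0⁻¹ * x ∈ U := QuotientGroup.eq.1 (hx0.2.trans hx.2.symm)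
    rw [dif_pos h1]
    refine Subtype.ext ?_
    have h2 : Commute x0 (x0⁻¹ * x) := (hc _ h1 x0).symm
    have h3 := h2.mul_pow r
    rw [mul_inv_cancel_left, hx.1, hx0.1, one_mul] at h3
    exact h3.symm
  · simp only [Finset.coe_filter, Finset.mem_filter, Finset.mem_univ, true_and, Set.mem_ofPred_eq] at hx hy
    have h1 : x0⁻¹ * x ∈ U := QuotientGroup.eq.1 (hx0.2.trans hx.2.symm)
    have h2 : x0⁻¹ * y ∈ U := QuotientGroup.eq.1 (hx0.2.trans hy.2.symm)
    dsimp only at e
    rw [dif_pos h1, dif_pos h2] at e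
    exact mul_left_cancel (congrArg Subtype.val e)

/-- A normal `r`-subgroup `E` of class two with semiregular centre `U` and elementary abelian `E / U`. -/
structure Ext (V : Type*) [AddCommGroup V] [DistribMulAction H V] (r : ℕ) (U E : Subgroup H) : Prop where
  pr : r.Prime
  pg : IsPGroup r E
  le : U ≤ E
  norm : E.Normal
  cen : ∀ u ∈ U, ∀ e ∈ E, u * e = e * u
  comm : ∀ x ∈ E, ∀ y ∈ E, x * y * x⁻¹ * y⁻¹ ∈ U
  pow : ∀ x ∈ E, x ^ r ∈ U
  zen : ∀ x ∈ E, (∀ e ∈ E, x * e = e * x) → x ∈ U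
  semi : ∀ u ∈ U, u ≠ 1 → Fpf V u
  ne : ∃ y ∈ E, y ∉ U

variable {R U E : Subgroup H} {r : ℕ}

theorem Ext.exists_w (X : Ext V r U E) {y : H} (hy : y ∈ E) (hU : y ∉ U) :
    ∃ g ∈ E, ∃ w ∈ U, w ≠ 1 ∧ g * y * g⁻¹ = w * y := by
  by_contra hc
  push Not at hc
  refine hU (X.zen y hy fun e he => ?_)
  by_contra hne
  refine hc e he _ (X.comm e he y hy) (fun h => hne ?_) (by group)
  rw [mul_inv_eq_one, mul_inv_eq_iff_eq_mul] at h
  exact h.symm

theorem Ext.w_pow (X : Ext V r U E) {g y w : H} (hg : g ∈ E) (hy : y ∈ E) (hw : w ∈ U) (h : g * y * g⁻¹ = w * y) :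
    w ^ r = 1 := by
  have h1 : (g * y * g⁻¹) ^ r = y ^ r := by
    rw [conj_pow, ← X.cen _ (X.pow y hy) g hg, mul_inv_cancel_right]
  have h2 : Commute w y := X.cen w hw y hy
  rw [h, h2.mul_pow] at h1
  exact mul_eq_right.1 h1

theorem Ext.cyc [Finite H] [Finite V] [Nontrivial V] (X : Ext V r U E) : IsCyclic U :=
  isCyclic_of_free U (fun a ha b hb => X.cen a ha b (X.le hb)) (⊤ : AddSubgroup V) top_ne_bot (fun _ _ _ _ => trivial)
    fun a ha h1 w _ => X.semi a ha h1 w

/-- The number of elements of order `r` in `E` is polynomial in the dimension. -/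
theorem Ext.small [Finite H] [Finite V] [Nontrivial V] (X : Ext V r U E) (B : Bad V R) :
    ∃ d : ℕ, 2 ^ d ≤ Nat.card V ∧ ∃ Y : Finset H, (∀ x, x ∈ Y ↔ x ∈ E ∧ x ^ r = 1) ∧ Y.card ≤ d ^ 4 := by
  classical
  obtain ⟨p, hp, hd⟩ := Nat.exists_prime_and_dvd (Finite.one_lt_card (α := V)).ne'
  have := Fact.mk hp
  have := Fact.mk X.pr
  have hpV : ∀ v : V, p • v = 0 := by
    obtain ⟨x, hx⟩ := exists_prime_addOrderOf_dvd_card' (G := V) p hd
    rcases B.irr (nsmulAddMonoidHom (α := V) p).ker (fun h w hw => by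
      rw [AddMonoidHom.mem_ker, nsmulAddMonoidHom_apply] at hw ⊢
      rw [smul_comm, hw, smul_zero]) with h | h
    · have h1 : x ∈ (nsmulAddMonoidHom (α := V) p).ker := by
        rw [AddMonoidHom.mem_ker, nsmulAddMonoidHom_apply, ← hx, addOrderOf_nsmul_eq_zero]
      rw [h, AddSubgroup.mem_bot] at h1
      rw [h1, addOrderOf_zero] at hx
      exact (hp.one_lt.ne hx).elim
    · exact fun v => (h ▸ AddSubgroup.mem_top v : v ∈ (nsmulAddMonoidHom (α := V) p).ker)
  let _ : Module (ZMod p) V := AddCommGroup.zmodModule hpV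
  obtain ⟨y, hy, hyU⟩ := X.ne
  have hpE : ¬ p ∣ Nat.card E := fun h => by
    obtain ⟨k, hk⟩ := IsPGroup.iff_card.1 X.pg
    have h1 : p = r := (Nat.prime_dvd_prime_iff_eq hp X.pr).1 (hp.dvd_of_dvd_pow (hk ▸ h))
    obtain ⟨b, hb, hb0⟩ := X.pg.exists_fixed_point_of_prime_dvd_card_of_fixed_point V (h1 ▸ hd)
      (a := 0) fun g => smul_zero g
    obtain ⟨g, -, w, hw, hw1, -⟩ := X.exists_w hy hyU
    exact hb0 (X.semi w hw hw1 b (hb ⟨w, X.le hw⟩)).symm
  have h1 := index_le_sq (V := V) hpE (U.subgroupOf E) fun t ht => by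
    obtain ⟨g, hg, w, hw, hw1, h⟩ := X.exists_w t.2 ht
    exact ⟨⟨g, hg⟩, ⟨w, X.le hw⟩, fun e => Subtype.ext (X.cen w hw e e.2), X.semi w hw hw1, Subtype.ext h⟩
  have h2 : r ≤ (U.subgroupOf E).index := by
    obtain ⟨k, hk⟩ := X.pg.index (U.subgroupOf E)
    rcases k with _ | k
    · rw [pow_zero, Subgroup.index_eq_one, Subgroup.subgroupOf_eq_top] at hk
      exact (hyU (hk hy)).elim
    · rw [hk]; exact Nat.le_self_pow (by omega) r
  have := Fintype.ofFinite E
  have := X.cyc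
  have : IsCyclic (U.subgroupOf E) := isCyclic_of_surjective _ (Subgroup.subgroupOfEquivOfLe X.le).symm.surjective
  have h3 := card_pow_eq_one_le (U.subgroupOf E) (fun u hu e => Subtype.ext (X.cen u hu e e.2)) X.pr.pos
  refine ⟨Module.finrank (ZMod p) V, ?_, (Finset.univ.filter fun x : E => x ^ r = 1).map
    (Function.Embedding.subtype _), fun x => ?_, ?_⟩
  · exact two_pow_finrank_le p
  · simp only [Finset.mem_map, Finset.mem_filter, Finset.mem_univ, true_and, Function.Embedding.coe_subtype]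
    exact ⟨by rintro ⟨a, ha, rfl⟩; exact ⟨a.2, congrArg Subtype.val ha⟩,
      fun h => ⟨⟨x, h.1⟩, Subtype.ext h.2, rfl⟩⟩
  · rw [Finset.card_map]
    calc _ ≤ _ := h3
      _ ≤ Module.finrank (ZMod p) V ^ 2 * Module.finrank (ZMod p) V ^ 2 := Nat.mul_le_mul (h2.trans h1) h1
      _ = _ := by ring

end CL.DAff
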