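/-
Derangement subgroups of affine primitive groups, IV: the group `E` of symplectic type is semiregular in a
counterexample, and then it is quaternion of order eight.
-/
import Cfsg.Agent.Perm.DAff3
import Cfsg.Agent.Grp.FrobCompl
import Cfsg.Agent.Grp.Comm1
import Cfsg.Agent.Grp.PGroupBasic

set_option autoImplicit false
open scoped commutatorElement

namespace CL.DAff

open CL.BinAff

variable {H : Type*} [Group H] {V : Type*} [AddCommGroup V] [DistribMulAction H V]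

theorem neg_of_fpf {w : H} (hw : Fpf V w) (h2 : w ^ 2 = 1) (v : V) : w • v = -v :=
  eq_neg_of_add_eq_zero_left (hw _ (by rw [smul_add, ← mul_smul, ← sq, h2, one_smul, add_comm]))

theorem eq_of_neg [FaithfulSMul H V] {w z : H} (hw : ∀ v : V, w • v = -v) (hz : ∀ v : V, z • v = -v) : w = z :=
  eq_of_smul_eq_smul (α := V) fun v => by rw [hw, hz]

theorem comm_of_neg [FaithfulSMul H V] {z : H} (hz : ∀ v : V, z • v = -v) (g : H) : z * g = g * z :=
  eq_of_smul_eq_smul (α := V) fun v => by rw [mul_smul, mul_smul, hz, hz, smul_neg]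

theorem cube2 [Finite V] (h2 : ∀ v : V, v = -v → v = 0) {y1 y2 g k : H}
    (hg1 : ∀ v : V, y1 • v = v → y1 • g • v = g • v) (hg2 : ∀ v : V, y2 • v = v → y2 • g • v = -(g • v))
    (hk : ∀ v : V, y1 • v = v → y1 • k • v = -(k • v)) :
    Nat.card (Fx V y1 ⊓ Fx V y2 : AddSubgroup V) ^ 3 ≤ Nat.card V :=
  cube_le _ g k fun a ha b hb c hc h => by
    have h3 := congrArg (y1 • ·) h
    simp only [smul_add, smul_zero, mem_Fx.1 ha.1, hg1 b hb.1, hk c hc.1] at h3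
    have h4 : k • c = 0 := h2 _ (add_left_cancel (h.trans h3.symm))
    rw [h4, add_zero] at h
    have h5 := congrArg (y2 • ·) h
    simp only [smul_add, smul_zero, mem_Fx.1 ha.2, hg2 b hb.2] at h5
    have h6 : g • b = 0 := h2 _ (add_left_cancel (h.trans h5.symm))
    rw [h6, add_zero] at h
    exact ⟨h, (smul_eq_zero_iff_eq g).1 h6, (smul_eq_zero_iff_eq k).1 h4⟩

variable {R U E : Subgroup H} {r : ℕ}

theorem Ext.sign [FaithfulSMul H V] (X : Ext V 2 U E) {g y : H} (hg : g ∈ E) (hy : y ∈ E) (h : g * y ≠ y * g) :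
    ∃ z : H, (∀ v : V, z • v = -v) ∧ y * g = g * z * y := by
  have h1 := X.comm g⁻¹ (E.inv_mem hg) y hy
  refine ⟨_, neg_of_fpf (X.semi _ h1 fun e => h ?_) (X.w_pow (E.inv_mem hg) hy h1 (by group)), by group⟩
  rw [mul_inv_eq_one, mul_inv_eq_iff_eq_mul, inv_mul_eq_iff_eq_mul, ← mul_assoc, eq_mul_inv_iff_mul_eq] at e
  exact e.symm

theorem Ext.cube_two [Finite V] [FaithfulSMul H V] (X : Ext V 2 U E) {y1 y2 : H} (h1 : y1 ∈ E) (h2 : y2 ∈ E)
    (h1U : y1 ∉ U) (h2U : y2 ∉ U) (h12 : y1⁻¹ * y2 ∉ U) :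
    Nat.card (Fx V y1 ⊓ Fx V y2 : AddSubgroup V) ^ 3 ≤ Nat.card V := by
  have hex : ∀ y ∈ E, y ∉ U → ∃ g ∈ E, g * y ≠ y * g := fun y hy hU => by
    by_contra hc
    push Not at hc
    exact hU (X.zen y hy fun e he => (hc e he).symm)
  have hodd : ∀ v : V, v = -v → v = 0 := fun v hv => by
    obtain ⟨g, hg, w, hw, hw1, h⟩ := X.exists_w h1 h1U
    exact X.semi w hw hw1 v (by rw [neg_of_fpf (X.semi w hw hw1) (X.w_pow hg h1 hw h), ← hv])
  have hp : ∀ {g y : H}, g * y = y * g → ∀ v : V, y • v = v → y • g • v = g • v := fun h v hv => by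
    rw [← mul_smul, ← h, mul_smul, hv]
  have hm : ∀ {g y : H}, g ∈ E → y ∈ E → g * y ≠ y * g → ∀ v : V, y • v = v → y • g • v = -(g • v) :=
    fun hg hy h v hv => by
      obtain ⟨z, hz, e⟩ := X.sign hg hy h
      rw [← mul_smul, e, mul_smul, mul_smul, hv, hz, smul_neg]
  obtain ⟨g, hg, hne⟩ := hex _ (E.mul_mem (E.inv_mem h1) h2) h12
  by_cases a1 : g * y1 = y1 * g <;> by_cases a2 : g * y2 = y2 * g
  · exact (hne ((Commute.inv_right a1).mul_right a2)).elim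
  · obtain ⟨k, hk, hk1⟩ := hex y1 h1 h1U
    exact cube2 hodd (hp a1) (hm hg h2 a2) (hm hk h1 hk1)
  · obtain ⟨k, hk, hk1⟩ := hex y2 h2 h2U
    rw [inf_comm]
    exact cube2 hodd (hp a2) (hm hg h1 a1) (hm hk h2 hk1)
  · obtain ⟨z, hz, e⟩ := X.sign hg h1 a1
    obtain ⟨z', hz', e'⟩ := X.sign hg h2 a2
    obtain rfl := eq_of_neg hz hz'
    refine (hne ?_).elim
    rw [mul_assoc, e', show g * z * y2 = (g * z * y1) * y1⁻¹ * y2 by group, ← e]
    group

/-- In a counterexample of large degree `E` is semiregular. -/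
theorem Ext.fpf [Finite H] [Finite V] [FaithfulSMul H V] (X : Ext V r U E) (B : Bad V R)
    (hn : ∀ d : ℕ, 2 ^ d ≤ Nat.card V → d ^ 48 ≤ Nat.card V) {y : H} (hy : y ∈ E) (hy1 : y ≠ 1) : Fpf V y := by
  by_contra hf
  have key : ∀ x ∈ E, x ≠ 1 → ¬ Fpf V x → x ∉ U ∧ x ^ r = 1 := fun x hx h1 hf =>
    ⟨fun h => hf (X.semi x h h1), by
      by_contra h
      exact hf fun v hv => X.semi _ (X.pow x hx) h v
        ((MulAction.stabilizer H v).pow_mem (show x ∈ MulAction.stabilizer H v from hv) r)⟩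
  have hvec : ∀ x : H, ¬ Fpf V x → ∃ v : V, x • v = v ∧ v ≠ 0 := fun x hx => by
    unfold Fpf at hx; push Not at hx; exact hx
  obtain ⟨v, hv, hv0⟩ := hvec y hf
  have : Nontrivial V := ⟨v, 0, hv0⟩
  obtain ⟨d, hd, Y, hY, hYc⟩ := X.small B
  have fin : ∀ y1 ∈ E, ∀ y2 ∈ E, y1 ^ r = 1 → y2 ^ r = 1 → ∀ v : V, v ≠ 0 → y1 • v = v → y2 • v = v →
      Nat.card (Fx V y1 ⊓ Fx V y2 : AddSubgroup V) ^ 3 ≤ Nat.card V → False :=
    fun y1 h1 y2 h2 p1 p2 v hv e1 e2 hc => by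
      have h3 := B.key2 Y (fun g x hx => (hY _).2 ⟨X.norm.conj_mem x ((hY x).1 hx).1 g, by
        rw [conj_pow, ((hY x).1 hx).2, mul_one, mul_inv_cancel]⟩) ((hY _).2 ⟨h1, p1⟩) ((hY _).2 ⟨h2, p2⟩) hv e1 e2 hc
      have h4 : Y.card ^ 12 ≤ (d ^ 4) ^ 12 := Nat.pow_le_pow_left hYc 12
      rw [← pow_mul] at h4
      exact absurd (h3.trans_le (h4.trans (hn d hd))) (lt_irrefl _)
  obtain ⟨hyU, hyr⟩ := key y hy hy1 hf
  obtain ⟨g, hg, w, hw, hw1, hgw⟩ := X.exists_w hy hyU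
  have hwr := X.w_pow hg hy hw hgw
  have hwf := X.semi w hw hw1
  rcases X.pr.eq_two_or_odd' with rfl | hodd
  · obtain ⟨k, hk1, hk2⟩ := B.key1 hy1 hf
    have hy' : k * y * k⁻¹ ∈ E := X.norm.conj_mem y hy k
    obtain ⟨hyU', hyr'⟩ := key _ hy' (fun e => hy1 (by simpa using e)) fun h => hv0 ((smul_eq_zero_iff_eq k).1
      (h _ (by rw [mul_smul, mul_smul, inv_smul_smul, hv])))
    generalize k * y * k⁻¹ = y' at *
    obtain ⟨htU, -⟩ := key _ (E.mul_mem (E.inv_mem hy) hy') (fun e => hk1 (inv_mul_eq_one.1 e).symm) hk2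
    obtain ⟨u, hu, hu0⟩ := hvec _ hk2
    rw [mul_smul, inv_smul_eq_iff] at hu
    have e1 : y • y • u = u := by rw [← mul_smul, ← sq, hyr, one_smul]
    have e2 : y' • y • u = u := by rw [← hu, ← mul_smul, ← sq, hyr', one_smul]
    by_cases h0 : u + y • u = 0
    · have hz := neg_of_fpf hwf hwr
      have e3 : y • u = -u := eq_neg_of_add_eq_zero_right h0
      have hE : ∀ x ∈ E, w * x ∈ E := fun x hx => E.mul_mem (X.le hw) hx
      have hp : ∀ x ∈ E, x ^ 2 = 1 → (w * x) ^ 2 = 1 := fun x hx h => by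
        rw [Commute.mul_pow (X.cen w hw x hx), hwr, h, one_mul]
      have hU : ∀ x, x ∉ U → w * x ∉ U := fun x hx h => hx ((U.mul_mem_cancel_left hw).1 h)
      exact fin _ (hE y hy) _ (hE y' hy') (hp y hy hyr) (hp y' hy' hyr') u hu0
        (by rw [mul_smul, e3, hz, neg_neg]) (by rw [mul_smul, hu, e3, hz, neg_neg])
        (X.cube_two (hE y hy) (hE y' hy') (hU y hyU) (hU y' hyU') (by
          rwa [show (w * y)⁻¹ * (w * y') = y⁻¹ * y' by group]))
    · exact fin y hy y' hy' hyr hyr' _ h0 (by rw [smul_add, e1, add_comm]) (by rw [smul_add, e2, hu, add_comm])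
        (X.cube_two hy hy' hyU hyU' htU)
  · have hw2 : Fpf V (w * w) := X.semi _ (U.mul_mem hw hw) fun e => hw1 (by
      obtain ⟨j, rfl⟩ := hodd
      rwa [pow_succ, pow_mul, sq, e, one_pow, one_mul] at hwr)
    have hs : ∀ x : V, y • g⁻¹ • x = w • g⁻¹ • y • x := fun x => by
      rw [← mul_smul, ← mul_smul, ← mul_smul, X.cen w hw _ (E.inv_mem hg), mul_assoc, ← hgw]
      congr 1; group
    have hyw : ∀ x : V, y • w • x = w • y • x := fun x => by rw [← mul_smul, ← X.cen w hw y hy, mul_smul]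
    have hgw' : ∀ x : V, g⁻¹ • w • x = w • g⁻¹ • x := fun x => by
      rw [← mul_smul, ← X.cen w hw _ (E.inv_mem hg), mul_smul]
    refine fin y hy y hy hyr hyr v hv0 hv hv (cube_le _ g⁻¹ (g⁻¹ * g⁻¹) fun a ha b hb c hc h => ?_)
    have hb' : y • g⁻¹ • b = w • g⁻¹ • b := by rw [hs, mem_Fx.1 hb.1]
    have hc' : y • (g⁻¹ * g⁻¹) • c = w • w • (g⁻¹ * g⁻¹) • c := by
      rw [mul_smul, hs, hs, mem_Fx.1 hc.1, hgw']
    rw [← smul_eq_zero_iff_eq g⁻¹ (x := b), ← smul_eq_zero_iff_eq (g⁻¹ * g⁻¹) (x := c)]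
    generalize g⁻¹ • b = b' at *
    generalize (g⁻¹ * g⁻¹) • c = c' at *
    have h3 := congrArg (y • ·) h
    simp only [smul_add, smul_zero, mem_Fx.1 ha.1, hb', hc'] at h3
    have h4 := congrArg (y • ·) h3
    simp only [smul_add, smul_zero, mem_Fx.1 ha.1, hyw, hb', hc'] at h4
    have h5 : w • b' - b' + (w • w • c' - c') = 0 := by rw [← sub_eq_zero.2 (h3.trans h.symm)]; abel
    have h6 : w • (w • b' - b') + w • w • (w • w • c' - c') = 0 := by
      rw [← sub_eq_zero.2 (h4.trans h3.symm), smul_sub, smul_sub, smul_sub]; abel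
    have h7 : w • w • c' - c' = 0 := hwf _ (by
      rw [eq_neg_of_add_eq_zero_left h5, smul_neg, neg_add_eq_zero] at h6
      exact (MulAction.injective w h6).symm)
    have h8 : c' = 0 := hw2 _ (by rw [mul_smul]; exact sub_eq_zero.1 h7)
    rw [h7, add_zero] at h5
    have h9 : b' = 0 := hwf _ (sub_eq_zero.1 h5)
    rw [h8, h9, add_zero, add_zero] at h
    exact ⟨h, h9, h8⟩

theorem comm_mul_left' {g h y : H} (hc : Commute g ⁅h, y⁆) : ⁅g * h, y⁆ = ⁅h, y⁆ * ⁅g, y⁆ := by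
  have : ⁅g * h, y⁆ = g * ⁅h, y⁆ * g⁻¹ * ⁅g, y⁆ := by simp only [commutatorElement_def]; group
  rw [this, hc.eq, mul_inv_cancel_right]

theorem adjust {x x' z s : H} (hz : ∀ g, Commute g z) (hz2 : z * z = 1) (hx : ⁅x, x'⁆ = z)
    (h1 : ⁅s, x⁆ = 1 ∨ ⁅s, x⁆ = z) (h2 : ⁅s, x'⁆ = 1 ∨ ⁅s, x'⁆ = z) :
    ∃ e, (e = 1 ∨ e = x ∨ e = x' ∨ e = x * x') ∧ Commute (s * e) x ∧ Commute (s * e) x' := by
  have hx' : ⁅x', x⁆ = z := by rw [← commutatorElement_inv, hx, inv_eq_of_mul_eq_one_right hz2]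
  have a1 : ⁅x * x', x⁆ = z := by rw [comm_mul_left' (hx' ▸ hz x), hx', commutatorElement_self, mul_one]
  have a2 : ⁅x * x', x'⁆ = z := by
    rw [comm_mul_left' (by rw [commutatorElement_self]; exact Commute.one_right x), commutatorElement_self, hx,
      one_mul]
  have a3 : ∀ e y : H, ⁅e, y⁆ = 1 → ⁅s, y⁆ = 1 → Commute (s * e) y := fun e y h h' =>
    commutatorElement_eq_one_iff_commute.1 (by rw [comm_mul_left' (h ▸ Commute.one_right s), h, h', one_mul])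
  have a4 : ∀ e y : H, ⁅e, y⁆ = z → ⁅s, y⁆ = z → Commute (s * e) y := fun e y h h' =>
    commutatorElement_eq_one_iff_commute.1 (by rw [comm_mul_left' (h ▸ hz s), h, h', hz2])
  rcases h1 with h1 | h1 <;> rcases h2 with h2 | h2
  · exact ⟨1, Or.inl rfl, a3 _ _ (by simp) h1, a3 _ _ (by simp) h2⟩
  · exact ⟨x, Or.inr (Or.inl rfl), a3 _ _ (by simp) h1, a4 _ _ hx h2⟩
  · exact ⟨x', Or.inr (Or.inr (Or.inl rfl)), a4 _ _ hx' h1, a3 _ _ (by simp) h2⟩
  · exact ⟨x * x', Or.inr (Or.inr (Or.inr rfl)), a4 _ _ a1 h1, a4 _ _ a2 h2⟩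

/-- A semiregular `E` is quaternion of order eight: its centre is central in `H` and every element acting
trivially on `E / U` induces an inner automorphism. -/
theorem Ext.q8 [Finite H] [Finite V] [Nontrivial V] [FaithfulSMul H V] (X : Ext V r U E)
    (hf : ∀ y ∈ E, y ≠ 1 → Fpf V y) :
    (∀ u ∈ U, ∀ g, u * g = g * u) ∧
      ∀ s : H, (∀ e ∈ E, ⁅s, e⁆ ∈ U) → ∃ e ∈ E, ∀ x ∈ E, s * e * x = x * (s * e) := by
  have := Fact.mk X.pr
  have h1 : ∀ y ∈ E, y ^ r = 1 → y ∈ U := fun y hy hyr => by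
    by_contra hyU
    obtain ⟨g, hg, w, hw, hw1, hgw⟩ := X.exists_w hy hyU
    let C := E ⊓ Subgroup.centralizer {y}
    let A := C ⊓ Subgroup.centralizer (C : Set H)
    have : IsCyclic A := isCyclic_of_free A (fun a ha b hb => (ha.2 b hb.1).symm) (⊤ : AddSubgroup V) top_ne_bot
      (fun _ _ _ _ => trivial) fun a ha h1 w _ => hf a ha.1.1 h1 w
    have hyA : y ∈ A := ⟨⟨hy, fun _ h => by rw [Set.mem_singleton_iff.1 h]⟩, fun c hc => (hc.2 y rfl).symm⟩
    have hwA : w ∈ A := ⟨⟨X.le hw, fun _ h => by rw [Set.mem_singleton_iff.1 h, X.cen w hw y hy]⟩,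
      fun c hc => (X.cen w hw c hc.1).symm⟩
    obtain ⟨k, hk⟩ := CL.Grp.mem_zpowers_of_isCyclic_of_pow_orderOf (z := (⟨w, hwA⟩ : A)) (x := ⟨y, hyA⟩)
      (Subtype.ext (by
        rw [← Subgroup.orderOf_coe, orderOf_eq_prime (X.w_pow hg hy hw hgw) hw1]; exact hyr))
    have hk' : w ^ k = y := congrArg Subtype.val hk
    exact hyU (hk' ▸ U.zpow_mem hw k)
  have := X.cyc
  obtain ⟨x, hx, x', hx', hne, k, hk⟩ : ∃ x ∈ E, ∃ x' ∈ E, ¬ Commute x x' ∧ ∃ k : ℤ, (x' ^ r) ^ k = x ^ r := by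
    obtain ⟨y, hy, hyU⟩ := X.ne
    obtain ⟨g, hg, hne⟩ : ∃ g ∈ E, ¬ Commute y g := by
      by_contra hc
      push Not at hc
      exact hyU (X.zen y hy hc)
    have h2 : ∀ a ∈ E, ∀ b ∈ E, orderOf (a ^ r) ∣ orderOf (b ^ r) → ∃ k : ℤ, (b ^ r) ^ k = a ^ r :=
      fun a ha b hb h => by
        obtain ⟨k, hk⟩ := CL.Grp.mem_zpowers_of_isCyclic_of_pow_orderOf (z := (⟨_, X.pow b hb⟩ : U))
          (x := ⟨_, X.pow a ha⟩) (Subtype.ext (by
            rw [← Subgroup.orderOf_coe]; exact orderOf_dvd_iff_pow_eq_one.1 h))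
        exact ⟨k, congrArg Subtype.val hk⟩
    obtain ⟨i, hi⟩ := IsPGroup.iff_orderOf.1 X.pg ⟨_, E.pow_mem hy r⟩
    obtain ⟨j, hj⟩ := IsPGroup.iff_orderOf.1 X.pg ⟨_, E.pow_mem hg r⟩
    rw [← Subgroup.orderOf_coe] at hi hj
    rcases le_total i j with h | h
    · exact ⟨y, hy, g, hg, hne, h2 y hy g hg (by rw [hi, hj]; exact pow_dvd_pow r h)⟩
    · exact ⟨g, hg, y, hy, fun h => hne h.symm, h2 g hg y hy (by rw [hi, hj]; exact pow_dvd_pow r h)⟩
  have ht : (x' ^ k)⁻¹ ∈ E := E.inv_mem (E.zpow_mem hx' k)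
  have hz := X.comm _ ht x hx
  have hzr := X.w_pow ht hx hz (by group)
  rw [← commutatorElement_def] at hz hzr
  have h3 := CL.Grp.mul_pow_of_commute_comm (X.cen _ hz x hx).symm (X.cen _ hz _ ht).symm r
  rw [inv_pow, ← zpow_natCast (x' ^ k), ← zpow_mul, mul_comm k, zpow_mul, zpow_natCast, hk, mul_inv_cancel,
    one_mul] at h3
  have hx1 : x * (x' ^ k)⁻¹ ∈ E := E.mul_mem hx ht
  have hne1 : ¬ Commute (x * (x' ^ k)⁻¹) x' := fun h => hne (by
    simpa using h.mul_left ((Commute.refl x').zpow_left k))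
  generalize ⁅(x' ^ k)⁻¹, x⁆ = z at *
  generalize x * (x' ^ k)⁻¹ = y at *
  have hyU : y ∉ U := fun h => hne1 (X.cen y h x' hx')
  rcases X.pr.eq_two_or_odd' with rfl | hodd
  swap
  · refine (hyU (h1 y hx1 ?_)).elim
    obtain ⟨j, rfl⟩ := hodd
    rw [h3, Nat.choose_two_right, Nat.add_sub_cancel, Nat.mul_div_assoc _ (dvd_mul_right 2 j), pow_mul, hzr, one_pow]
  rw [Nat.choose_self, pow_one] at h3
  have hz1 : z ≠ 1 := fun e => hyU (h1 y hx1 (h3.trans e))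
  have hzn := neg_of_fpf (X.semi z hz hz1) hzr
  have hinv : ∀ a ∈ E, a ≠ 1 → a ^ 2 = 1 → a = z := fun a ha a1 a2 => eq_of_neg (neg_of_fpf (hf a ha a1) a2) hzn
  have hU : ∀ u ∈ U, u = 1 ∨ u = z := fun u hu => by
    by_contra hc
    push Not at hc
    obtain ⟨i, hi⟩ := X.pg ⟨u ^ 2, E.pow_mem (X.le hu) 2⟩
    obtain ⟨j, j1, j2⟩ := CL.Grp.exists_pow_notMem_pow_prime_mem (N := ⊥) (x := u ^ 2) (p := 2) (k := i)
      (Subgroup.mem_bot.2 (congrArg Subtype.val hi)) fun h => hc.2 (hinv u (X.le hu) hc.1 (Subgroup.mem_bot.1 h))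
    rw [Subgroup.mem_bot] at j1 j2
    have j3 := hinv _ (E.pow_mem (E.pow_mem (X.le hu) 2) _) j1 j2
    rw [← pow_mul, mul_comm, pow_mul] at j3
    have hb : u ^ 2 ^ j ∈ U := U.pow_mem hu _
    refine hyU ((U.mul_mem_cancel_left (U.inv_mem hb)).1 (h1 _ (E.mul_mem (E.inv_mem (X.le hb)) hx1) ?_))
    rw [Commute.mul_pow (X.cen _ (U.inv_mem hb) y hx1), inv_pow, j3, h3, inv_mul_cancel]
  have hzc : ∀ g, Commute g z := fun g => (comm_of_neg hzn g).symm
  have hUc : ∀ u ∈ U, ∀ g, u * g = g * u := fun u hu g => by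
    rcases hU u hu with rfl | rfl
    · rw [one_mul, mul_one]
    · exact (hzc g).symm
  have hyx : ⁅y, x'⁆ = z := (hU _ (X.comm y hx1 x' hx')).resolve_left fun h =>
    hne1 (commutatorElement_eq_one_iff_commute.1 h)
  have hadj : ∀ s : H, (∀ e ∈ E, ⁅s, e⁆ ∈ U) → ∃ e ∈ Subgroup.closure {y, x'}, Commute (s * e) y ∧ Commute (s * e) x' :=
    fun s hs => by
      obtain ⟨e, he, h⟩ := adjust hzc (by rw [← sq, hzr]) hyx (hU _ (hs y hx1)) (hU _ (hs x' hx'))
      have b1 : y ∈ Subgroup.closure {y, x'} := Subgroup.subset_closure (by simp)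
      have b2 : x' ∈ Subgroup.closure {y, x'} := Subgroup.subset_closure (by simp)
      refine ⟨e, ?_, h⟩
      rcases he with rfl | rfl | rfl | rfl
      exacts [one_mem _, b1, b2, mul_mem b1 b2]
  have hcl : Subgroup.closure {y, x'} ≤ E := (Subgroup.closure_le E).2 (by
    rintro _ (rfl | rfl); exacts [hx1, hx'])
  refine ⟨hUc, fun s hs => ?_⟩
  obtain ⟨e, he, c1, c2⟩ := hadj s hs
  refine ⟨e, hcl he, fun t ht => ?_⟩
  obtain ⟨f, hf', d1, d2⟩ := hadj t fun e he => X.comm t ht e he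
  have htf : t * f ∈ E := E.mul_mem ht (hcl hf')
  have h4 : t * f ∈ U := by
    by_contra hc
    have h5 : (t * f) ^ 2 = z := (hU _ (X.pow _ htf)).resolve_left fun h => hc (h1 _ htf h)
    have h6 := h1 _ (E.mul_mem htf hx1) (by rw [d1.mul_pow, h5, h3, ← sq, hzr])
    have h7 : Commute (t * f * y) x' := X.cen _ h6 x' hx'
    exact hne1 (by simpa [mul_assoc] using d2.inv_left.mul_left h7)
  have h8 : Subgroup.closure {y, x'} ≤ Subgroup.centralizer {s * e} := (Subgroup.closure_le _).2 (by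
    rintro _ (rfl | rfl) _ rfl; exacts [c1, c2])
  have h9 : Commute (s * e) f := h8 hf' _ rfl
  have h10 : Commute (s * e) (t * f) := (hUc _ h4 _).symm
  simpa using (h10.mul_right h9.inv_right).eq

end CL.DAff
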