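/-
Derangement subgroups of affine primitive groups, V: the main linear theorem and the reduction.
-/
import Cfsg.Agent.Perm.DAff4
import Cfsg.Agent.Grp.Supersolv

set_option autoImplicit false
open scoped commutatorElement

namespace CL.DAff

open CL.BinAff

variable {H : Type*} [Group H] {V : Type*} [AddCommGroup V] [DistribMulAction H V] {R : Subgroup H}

theorem Bad.core [Finite H] [Finite V] [FaithfulSMul H V] (B : Bad V R)
    (hn : ∀ d : ℕ, 2 ^ d ≤ Nat.card V → d ^ 48 ≤ Nat.card V) {r : ℕ} (hr : r.Prime) (S : Subgroup H) [S.Normal]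
    (hS : IsPGroup r S) {x0 : H} (hx0 : x0 ∈ S) (h1 : x0 ≠ 1) : Fpf V x0 := by
  by_contra hf
  have := Fact.mk hr
  have : Nontrivial V := by
    unfold Fpf at hf; push Not at hf
    obtain ⟨v, -, hv⟩ := hf
    exact ⟨v, 0, hv⟩
  obtain ⟨U, ⟨hUn, hUS, hUc⟩, hmax⟩ := Set.exists_max_image
    {U : Subgroup H | U.Normal ∧ U ≤ S ∧ ∀ a ∈ U, ∀ b ∈ U, a * b = b * a} (fun U => Nat.card U) (Set.toFinite _)
    ⟨⊥, inferInstance, bot_le, fun a ha b _ => by rw [Subgroup.mem_bot.1 ha, one_mul, mul_one]⟩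
  have hsemi : ∀ u ∈ U, u ≠ 1 → Fpf V u := fun u hu h => B.abel U hUc hu h
  have : IsCyclic U := isCyclic_of_free U hUc (⊤ : AddSubgroup V) top_ne_bot (fun _ _ _ _ => trivial)
    fun a ha h1 w _ => hsemi a ha h1 w
  let S0 := S ⊓ Subgroup.centralizer (U : Set H)
  have hUS0 : U ≤ S0 := fun u hu => ⟨hUS hu, fun b hb => hUc b hb u hu⟩
  have hPL : ∀ C : Subgroup H, C.Normal → C ≤ S0 → ¬ C ≤ U →
      ∃ x ∈ C, x ∉ U ∧ x ^ r ∈ U ∧ ∀ s ∈ S0, ⁅x, s⁆ ∈ U := fun C hC hCS h => by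
    obtain ⟨x, hx, a1, a2, a3⟩ := CL.Grp.exists_central_mod_of_not_le (hS.to_le (inf_le_left : S0 ≤ S))
      (N := U.subgroupOf S0) (M := C.subgroupOf S0) fun h' => h fun c hc => @h' ⟨c, hCS hc⟩ hc
    exact ⟨x, hx, a1, a2, fun s hs => a3 ⟨s, hs⟩⟩
  by_cases hA : S0 ≤ U
  · obtain ⟨g, hg1, hg2⟩ := B.key1 h1 hf
    refine hg2 (hsemi _ (hA ⟨S.mul_mem (S.inv_mem hx0) (Subgroup.Normal.conj_mem inferInstance x0 hx0 g),
      CL.Grp.commutator_le_centralizer_of_isCyclic U ?_⟩) fun e => hg1 (inv_mul_eq_one.1 e).symm)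
    rw [show x0⁻¹ * (g * x0 * g⁻¹) = ⁅x0⁻¹, g⁆ by rw [commutatorElement_def]; group]
    exact Subgroup.commutator_mem_commutator trivial trivial
  have hcu : ∀ x ∈ S0, ∀ u ∈ U, Commute x u := fun x hx u hu => (hx.2 u hu).symm
  have hsw : ∀ {a b : H}, ⁅a, b⁆ ∈ U → ⁅b, a⁆ ∈ U := fun h => by
    rw [← commutatorElement_inv]; exact U.inv_mem h
  let E : Subgroup H :=
    { carrier := {x | x ∈ S0 ∧ x ^ r ∈ U ∧ ∀ s ∈ S0, ⁅x, s⁆ ∈ U}
      one_mem' := ⟨S0.one_mem, by simp, fun s _ => by simp⟩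
      mul_mem' := fun {x y} hx hy => ⟨S0.mul_mem hx.1 hy.1, by
        have h := hy.2.2 x hx.1
        rw [CL.Grp.mul_pow_of_commute_comm (hcu x hx.1 _ h) (hcu y hy.1 _ h)]
        exact U.mul_mem (U.mul_mem hx.2.1 hy.2.1) (U.pow_mem h _), fun s hs => by
        rw [comm_mul_left' (hcu x hx.1 _ (hy.2.2 s hs))]
        exact U.mul_mem (hy.2.2 s hs) (hx.2.2 s hs)⟩
      inv_mem' := fun {x} hx => ⟨S0.inv_mem hx.1, by rw [inv_pow]; exact U.inv_mem hx.2.1, fun s hs => by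
        rw [CL.Grp.comm_inv_left (hcu x hx.1 _ (hx.2.2 s hs))]
        exact U.inv_mem (hx.2.2 s hs)⟩ }
  have hS0n : S0.Normal := inferInstance
  have hEn : E.Normal := ⟨fun x hx g => ⟨hS0n.conj_mem x hx.1 g, by rw [conj_pow]; exact hUn.conj_mem _ hx.2.1 g,
    fun s hs => by
      have h := hUn.conj_mem _ (hx.2.2 _ (hS0n.conj_mem s hs g⁻¹)) g
      rwa [show g * ⁅x, g⁻¹ * s * g⁻¹⁻¹⁆ * g⁻¹ = ⁅g * x * g⁻¹, s⁆ by simp only [commutatorElement_def]; group] at h⟩⟩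
  have hUE : U ≤ E := fun u hu => ⟨hUS0 hu, U.pow_mem hu r, fun s hs => by
    rw [commutatorElement_eq_one_iff_commute.2 (hcu s hs u hu).symm]; exact U.one_mem⟩
  have hzen : ∀ x ∈ E, (∀ e ∈ E, x * e = e * x) → x ∈ U := fun x hx h => by
    have h2 : U = E ⊓ Subgroup.centralizer (E : Set H) := Subgroup.eq_of_le_of_card_ge
      (fun u hu => ⟨hUE hu, fun e he => hcu e he.1 u hu⟩)
      (hmax _ ⟨inferInstance, fun a ha => ha.1.1.1, fun a ha b hb => (ha.2 b hb.1).symm⟩)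
    rw [h2]
    exact ⟨hx, fun e he => (h e he).symm⟩
  have X : Ext V r U E :=
    { pr := hr
      pg := hS.to_le fun x hx => hx.1.1
      le := hUE
      norm := hEn
      cen := fun u hu e he => (hcu e he.1 u hu).symm
      comm := fun x hx y hy => hx.2.2 y hy.1
      pow := fun x hx => hx.2.1
      zen := hzen
      semi := hsemi
      ne := by
        obtain ⟨x, hx, a1, a2, a3⟩ := hPL S0 hS0n le_rfl hA
        exact ⟨x, ⟨hx, a2, a3⟩, a1⟩ }
  obtain ⟨q1, q2⟩ := X.q8 fun y hy h => X.fpf B hn hy h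
  have hx0' : x0 ∈ S0 := ⟨hx0, fun u hu => q1 u hu x0⟩
  obtain ⟨e, he, h⟩ := q2 x0 fun e he => hsw (he.2.2 x0 hx0')
  have hC : S0 ⊓ Subgroup.centralizer (E : Set H) ≤ U := by
    by_contra hc
    obtain ⟨x, hx, a1, a2, a3⟩ := hPL _ inferInstance inf_le_left hc
    exact a1 (hzen x ⟨hx.1, a2, a3⟩ fun e he => (hx.2 e he).symm)
  have h3 := hUE (hC ⟨S0.mul_mem hx0' he.1, fun x hx => (h x hx).symm⟩)
  exact hf (X.fpf B hn ((E.mul_mem_cancel_right he).1 h3) h1)

/-- The linear theorem. -/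
theorem Bad.main [Finite H] [Finite V] [FaithfulSMul H V] (B : Bad V R) [R.Normal]
    (hn : ∀ d : ℕ, 2 ^ d ≤ Nat.card V → d ^ 48 ≤ Nat.card V) {x : H} (h1 : x ≠ 1) : Fpf V x := by
  by_contra hf
  obtain ⟨v, hv, hv0⟩ : ∃ v : V, x • v = v ∧ v ≠ 0 := by
    unfold Fpf at hf; push Not at hf; exact hf
  obtain ⟨r, hr, hd⟩ := Nat.exists_prime_and_dvd (fun e => h1 (orderOf_eq_one_iff.1 e))
  have := Fact.mk hr
  have hy := orderOf_pow_orderOf_div (orderOf_pos x).ne' hd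
  have hyv : x ^ (orderOf x / r) • v = v :=
    (MulAction.stabilizer H v).pow_mem (show x ∈ MulAction.stabilizer H v from hv) _
  generalize x ^ (orderOf x / r) = y at *
  have hy1 : y ≠ 1 := fun e => hr.one_lt.ne' (by rw [← hy, e, orderOf_one])
  have hyR := B.mem hv0 hyv
  obtain ⟨P, hP⟩ := (IsPGroup.of_card (p := r) (G := Subgroup.zpowers (⟨y, hyR⟩ : R)) (n := 1) (by
    rw [Nat.card_zpowers, ← Subgroup.orderOf_coe, hy, pow_one])).exists_le_sylow
  have hyS : y ∈ (P : Subgroup R).map R.subtype := ⟨⟨y, hyR⟩, hP (Subgroup.mem_zpowers _), rfl⟩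
  have hFr := P.normalizer_sup_eq_top
  have hPp : IsPGroup r ((P : Subgroup R).map R.subtype) := P.isPGroup'.map _
  generalize (P : Subgroup R).map R.subtype = S at *
  have hSN : S ≤ Subgroup.normalizer (S : Set H) := Subgroup.le_normalizer
  have B' : Bad V (R.subgroupOf (Subgroup.normalizer (S : Set H))) := ⟨fun h hh => B.out h hh, by
    have h2 : R.relIndex (Subgroup.normalizer (S : Set H)) = R.index := by
      rw [← Subgroup.relIndex_sup_right, hFr, Subgroup.relIndex_top_right]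
    rw [← Subgroup.relIndex, h2]
    exact B.big⟩
  exact hv0 (B'.core hn hr (S.subgroupOf _) (hPp.comap_subtype) (x0 := ⟨y, hSN hyS⟩) hyS
    (fun e => hy1 (congrArg Subtype.val e)) v hyv)

theorem exists_bound : ∃ N : ℕ, 4 ≤ N ∧ ∀ n, N ≤ n → ∀ d : ℕ, 2 ^ d ≤ n → d ^ 48 ≤ n := by
  obtain ⟨d0, h⟩ := Filter.eventually_atTop.1
    ((tendsto_pow_const_div_const_pow_of_one_lt 48 (r := 2) one_lt_two).eventually_le_const one_pos)
  refine ⟨d0 ^ 48 + 4, by omega, fun n hn d hd => ?_⟩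
  rcases le_total d0 d with h1 | h1
  · have h2 := h d h1
    rw [div_le_one (by positivity)] at h2
    exact le_trans (by exact_mod_cast h2) hd
  · exact (Nat.pow_le_pow_left h1 48).trans (by omega)

open MulAction in
open scoped IsMulCommutative in
/-- The affine case. -/
theorem affine {G Ω : Type*} [Group G] [Finite G] [MulAction G Ω] [FaithfulSMul G Ω] [Finite Ω]
    (hprim : MulAction.IsPreprimitive G Ω) (N : Subgroup G) (hNn : N.Normal) (hN0 : N ≠ ⊥)
    (hNc : IsMulCommutative ↥N) (hn : ∀ d : ℕ, 2 ^ d ≤ Nat.card Ω → d ^ 48 ≤ Nat.card Ω)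
    {x : G} (hx : x ≠ 1) {ω0 ω1 : Ω} (hne : ω0 ≠ ω1) (h0 : x • ω0 = ω0) (h1 : x • ω1 = ω1) :
    ((CL.Perm.derSub G Ω).index + 1) ^ 2 ≤ Nat.card Ω := by
  have hNt : IsPretransitive N Ω :=
    IsQuasiPreprimitive.isPretransitive_of_normal fun h => hN0 ((Subgroup.eq_bot_iff_forall N).2 fun g hg =>
      eq_of_smul_eq_smul (α := Ω) fun ω => by
        rw [one_smul]
        exact (h ▸ Set.mem_univ ω : ω ∈ fixedPoints N Ω) ⟨g, hg⟩)
  have hreg : ∀ n ∈ N, n • ω0 = ω0 → n = 1 := fun n hn h => eq_of_smul_eq_smul (α := Ω) fun ω => by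
    obtain ⟨m, rfl⟩ := exists_smul_eq N ω0 ω
    rw [one_smul, Subgroup.smul_def, ← mul_smul, setLike_mul_comm (s := N) hn m.2, mul_smul, h]
  let H := stabilizer G ω0
  let _ : DistribMulAction H (Additive N) :=
    { smul := fun h v => Additive.ofMul ⟨h * v.toMul * (h : G)⁻¹, hNn.conj_mem _ v.toMul.2 _⟩
      one_smul := fun v => Subtype.ext (by change (1 : G) * v.toMul * 1⁻¹ = v.toMul; group)
      mul_smul := fun a b v => Subtype.ext (by
        change (a : G) * b * v.toMul * ((a : G) * b)⁻¹ = a * (b * v.toMul * (b : G)⁻¹) * (a : G)⁻¹; group)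
      smul_zero := fun a => Subtype.ext (by change (a : G) * 1 * (a : G)⁻¹ = 1; group)
      smul_add := fun a v w => Subtype.ext (by
        change (a : G) * (v.toMul * w.toMul) * (a : G)⁻¹ = a * v.toMul * (a : G)⁻¹ * (a * w.toMul * (a : G)⁻¹); group) }
  have hsm : ∀ (h : H) (v : Additive N), ((h • v).toMul : G) = h * v.toMul * (h : G)⁻¹ := fun _ _ => rfl
  let ε : Additive N ≃ Ω := Equiv.ofBijective (fun v => (v.toMul : G) • ω0) ⟨fun v w h => by
    have h1 := hreg ((w.toMul : G)⁻¹ * v.toMul) (mul_mem (inv_mem w.toMul.2) v.toMul.2) (by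
      rw [mul_smul, inv_smul_eq_iff]; exact h)
    exact Subtype.ext (inv_mul_eq_one.1 h1).symm, fun ω => by
    obtain ⟨m, rfl⟩ := exists_smul_eq N ω0 ω
    exact ⟨Additive.ofMul m, rfl⟩⟩
  have hε : ∀ v, ε v = (v.toMul : G) • ω0 := fun _ => rfl
  have hε0 : ε 0 = ω0 := one_smul G ω0
  have hH : ∀ (h : H) v, (h : G) • ε v = ε (h • v) := fun h v => by
    rw [hε, hε, hsm, mul_smul, mul_smul, show (h : G)⁻¹ • ω0 = ω0 from (h⁻¹).2]
  have : FaithfulSMul H (Additive N) := ⟨fun {a b} h => Subtype.ext (eq_of_smul_eq_smul (α := Ω) fun ω => by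
    obtain ⟨v, rfl⟩ := ε.surjective ω
    rw [hH, hH, h])⟩
  by_contra hc
  have := (CL.Perm.isPretransitive_and_card_fixedBy_of_derangements_le (CL.Perm.derSub G Ω)
    fun g hg => CL.Perm.mem_derSub hg).1
  have B : Bad (Additive N) ((CL.Perm.derSub G Ω).subgroupOf H) := ⟨fun h hh v hv => by
    by_contra hv0
    exact hh (CL.Perm.mem_of_fix_two_of_derangements_le (CL.Perm.derSub G Ω) (fun g hg => CL.Perm.mem_derSub hg)
      (a := ε v) (b := ω0) (fun e => hv0 (ε.injective (e.trans hε0.symm))) ((hH h v).trans (by rw [hv])) h.2), by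
    rw [Nat.card_congr ε, ← Subgroup.relIndex, CL.Perm.relIndex_stabilizer_of_transitive (CL.Perm.derSub G Ω) ω0]
    exact not_le.1 hc⟩
  obtain ⟨v, rfl⟩ := ε.surjective ω1
  have h2 := B.main (by rwa [Nat.card_congr ε]) (x := ⟨x, h0⟩) (fun e => hx (congrArg Subtype.val e)) v
    (ε.injective (by rw [← hH]; exact h1))
  exact hne (by rw [h2, hε0])

end CL.DAff
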