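/-
Derangements in doubly transitive groups (helper78): lines, triples of index two.
-/
import Cfsg.Agent.Base

set_option autoImplicit false

namespace CL.DerTwo

open MulAction Finset

theorem ar1 {k f n b : ℕ} (h1 : (k + 2) * (k + 1) + 1 ≤ f) (h2 : f * (k + 1) + 1 ≤ n)
    (h3 : n ≤ f + 3 * b) (hb : b ≤ 3 * k + 3) : k ≤ 2 := by
  by_contra h
  have h4 : f * k ≤ 9 * k + 8 := by nlinarith
  have h5 : ((k + 2) * (k + 1) + 1) * k ≤ f * k := Nat.mul_le_mul_right _ h1
  nlinarith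

theorem ar2 {k f n : ℕ} (h1 : n ≤ f + 3 * 0) (h2 : f * (k + 1) + 1 ≤ n) : False := by nlinarith

theorem ar3 {k n : ℕ} (h : (k + 1 + 1 + 2) * (k + 1 + 1 + 1) + 1 ≤ n) : 3 * (k + 1 + 1 + 2) ≤ n := by
  nlinarith

theorem ar4 {k n : ℕ} (h : (k + 2) * (k + 1) + 1 ≤ n) (h2 : n ≤ 4 * k + 5) : k ≤ 2 := by
  nlinarith

variable {G Ω : Type*} [Group G] [MulAction G Ω]

/-- the stabilizer of two points -/
def S2 (G : Type*) [Group G] [MulAction G Ω] (a b : Ω) : Subgroup G :=
  stabilizer G a ⊓ stabilizer G b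

/-- the length of the orbit of `x` under `H` -/
noncomputable def ix (H : Subgroup G) (x : Ω) : ℕ := (stabilizer G x).relIndex H

theorem mem_S2 {a b : Ω} {g : G} : g ∈ S2 G a b ↔ g • a = a ∧ g • b = b := Iff.rfl

theorem S2_le (a b : Ω) : S2 G a b ≤ stabilizer G a := inf_le_left

theorem S2_le' (a b : Ω) : S2 G a b ≤ stabilizer G b := inf_le_right

theorem S2_comm (a b : Ω) : S2 G a b = S2 G b a := inf_comm _ _

theorem relIndex_mul (K H : Subgroup G) : K.relIndex H * Nat.card ↥(H ⊓ K) = Nat.card H := by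
  rw [← Subgroup.index_mul_card (K.subgroupOf H),
    ← Nat.card_congr (Subgroup.subgroupOfEquivOfLe (inf_le_left : H ⊓ K ≤ H)).toEquiv,
    Subgroup.inf_subgroupOf_left]
  rfl

theorem ix_mul (H : Subgroup G) (x : Ω) :
    ix H x * Nat.card ↥(H ⊓ stabilizer G x) = Nat.card H := relIndex_mul _ _

theorem ix_eq_one {H : Subgroup G} {x : Ω} : ix H x = 1 ↔ H ≤ stabilizer G x :=
  Subgroup.relIndex_eq_one

theorem ix_pos [Finite G] (H : Subgroup G) (x : Ω) : 0 < ix H x :=
  Nat.pos_of_ne_zero Subgroup.index_ne_zero_of_finite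

theorem mul_two [Finite G] {H : Subgroup G} {x : Ω} (h : ix H x ≤ 2) {g s : G} (hg : g ∈ H)
    (hs : s ∈ H) (h1 : g • x ≠ x) (h2 : s • x ≠ x) : (g * s) • x = x := by
  have h0 := ix_pos H x
  have h3 : ix H x ≠ 1 := fun e => h1 (ix_eq_one.1 e hg)
  have h4 : ((stabilizer G x).subgroupOf H).index = 2 := by
    change ix H x = 2
    omega
  exact (Subgroup.mul_mem_iff_of_index_two h4 (a := ⟨g, hg⟩) (b := ⟨s, hs⟩)).2
    ⟨fun e => absurd e h1, fun e => absurd e h2⟩

theorem norm_two [Finite G] {H : Subgroup G} {x : Ω} (h : ix H x ≤ 2) {u g : G} (hu : u ∈ H)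
    (hg : g ∈ H) (h1 : g • x = x) : g • u • x = u • x := by
  by_cases h2 : u • x = x
  · rw [h2, h1]
  have h3 : u⁻¹ • x ≠ x := fun e => h2 (inv_smul_eq_iff.1 e).symm
  have h4 : (g * u) • x ≠ x := fun e => h2 (by
    rw [mul_smul, ← h1] at e
    conv at e => lhs; rw [h1]
    exact smul_left_cancel g e)
  have := mul_two h (H.inv_mem hu) (H.mul_mem hg hu) h3 h4
  rwa [mul_smul, inv_smul_eq_iff, mul_smul] at this

theorem cube_fix [Finite G] {H : Subgroup G} {x : Ω} (h : ix H x ≤ 2) {s : G} (hs : s ∈ H)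
    (h3 : s ^ 3 = 1) : s • x = x := by
  by_contra h1
  have h2 := mul_two h hs hs h1 h1
  have : s = (s * s) * (s * s) := by
    rw [show s * s * (s * s) = s * s ^ 3 by simp only [pow_succ, pow_zero, one_mul, mul_assoc], h3,
      mul_one]
  exact h1 (by rw [this, mul_smul, h2, h2])

theorem map_conj_inf (g : G) (H : Subgroup G) (x : Ω) :
    (H ⊓ stabilizer G x).map (MulAut.conj g).toMonoidHom =
      H.map (MulAut.conj g).toMonoidHom ⊓ stabilizer G (g • x) := by
  rw [Subgroup.map_inf _ _ _ (MulAut.conj g).injective, stabilizer_smul_eq_stabilizer_map_conj]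

theorem S2_smul (g : G) (a b : Ω) :
    S2 G (g • a) (g • b) = (S2 G a b).map (MulAut.conj g).toMonoidHom := by
  rw [S2, S2, map_conj_inf, stabilizer_smul_eq_stabilizer_map_conj]

theorem card_map_conj (g : G) (H : Subgroup G) :
    Nat.card (H.map (MulAut.conj g).toMonoidHom) = Nat.card H :=
  Subgroup.card_map_of_injective (MulAut.conj g).injective

theorem ix_conj [Finite G] (g : G) (H : Subgroup G) (x : Ω) :
    ix (H.map (MulAut.conj g).toMonoidHom) (g • x) = ix H x := by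
  have h1 := ix_mul (H.map (MulAut.conj g).toMonoidHom) (g • x)
  rw [← map_conj_inf, card_map_conj, card_map_conj, ← ix_mul H x] at h1
  exact Nat.eq_of_mul_eq_mul_right Nat.card_pos h1

theorem ix_smul [Finite G] {H : Subgroup G} {g : G} (hg : g ∈ H) (x : Ω) :
    ix H (g • x) = ix H x := by
  have : H.map (MulAut.conj g).toMonoidHom = H := by
    ext y
    simp only [Subgroup.mem_map, MulEquiv.coe_toMonoidHom, MulAut.conj_apply]
    constructor
    · rintro ⟨z, hz, rfl⟩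
      exact H.mul_mem (H.mul_mem hg hz) (H.inv_mem hg)
    · intro hy
      exact ⟨g⁻¹ * y * g, H.mul_mem (H.mul_mem (H.inv_mem hg) hy) hg, by group⟩
  conv_lhs => rw [← this]
  exact ix_conj g H x

theorem ix_eq_ncard (H : Subgroup G) (x : Ω) : ix H x = (orbit H x).ncard := by
  rw [← index_stabilizer]
  rfl

variable [Fintype Ω]

open Classical in
/-- the fixed points of `X` -/
noncomputable def Fx (Ω : Type*) [Fintype Ω] [MulAction G Ω] (X : Subgroup G) : Finset Ω :=
  univ.filter fun x => X ≤ stabilizer G x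

theorem mem_Fx {X : Subgroup G} {x : Ω} : x ∈ Fx Ω X ↔ X ≤ stabilizer G x := by
  simp [Fx]

theorem Fx_bot : Fx Ω (⊥ : Subgroup G) = univ := by
  ext x; simp [mem_Fx]

theorem exists_notMem_Fx [FaithfulSMul G Ω] {X : Subgroup G} (h : X ≠ ⊥) : ∃ x, x ∉ Fx Ω X := by
  by_contra! h1
  refine h (eq_bot_iff.2 fun g hg => ?_)
  exact FaithfulSMul.eq_of_smul_eq_smul (α := Ω) fun x => by
    rw [one_smul]; exact mem_Fx.1 (h1 x) hg

omit [Fintype Ω] in
theorem orbit_count [Finite G] (H : Subgroup G) (m : ℕ) (B : Finset Ω)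
    (hB : ∀ g ∈ H, ∀ x ∈ B, g • x ∈ B) (hm : ∀ x ∈ B, m ≤ ix H x) :
    ∃ c : ℕ, ∑ x ∈ B, Nat.card ↥(H ⊓ stabilizer G x) = c * Nat.card H ∧ m * c ≤ B.card ∧
      ∀ x ∈ B, ix H x + m * c ≤ B.card + m := by
  classical
  induction B using Finset.strongInduction with
  | H B ih =>
    rcases B.eq_empty_or_nonempty with rfl | ⟨x₀, hx₀⟩
    · exact ⟨0, by simp⟩
    set O := B.filter (· ∈ orbit H x₀) with hO
    have hOB : O ⊆ B := filter_subset _ _
    have hcard : O.card = ix H x₀ := by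
      rw [ix_eq_ncard, ← Set.ncard_coe_finset]
      congr 1
      ext y
      simp only [hO, coe_filter, Set.mem_ofPred_eq, and_iff_right_iff_imp]
      rintro ⟨g, rfl⟩
      exact hB g g.2 _ hx₀
    have hix : ∀ x ∈ O, ix H x = O.card := by
      intro x hx
      obtain ⟨g, rfl⟩ := (mem_filter.1 hx).2
      rw [hcard]
      exact ix_smul g.2 x₀
    have hx₀O : x₀ ∈ O := mem_filter.2 ⟨hx₀, mem_orbit_self _⟩
    obtain ⟨c, h1, h2, h3⟩ := ih (B \ O) (sdiff_ssubset hOB ⟨x₀, hx₀O⟩) (by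
      intro g hg x hx
      rw [Finset.mem_sdiff] at hx ⊢
      refine ⟨hB g hg x hx.1, fun e => hx.2 (mem_filter.2 ⟨hx.1, ?_⟩)⟩
      obtain ⟨u, hu⟩ := (mem_filter.1 e).2
      refine ⟨(⟨g, hg⟩ : H)⁻¹ * u, ?_⟩
      simp only at hu ⊢
      rw [mul_smul, hu]
      exact inv_smul_smul g x) fun x hx => hm x (Finset.mem_sdiff.1 hx).1
    have hsum : ∑ x ∈ O, Nat.card ↥(H ⊓ stabilizer G x) = Nat.card H := by
      apply Nat.eq_of_mul_eq_mul_left (card_pos.2 ⟨x₀, hx₀O⟩)
      rw [mul_sum, sum_congr rfl fun x hx => by rw [← hix x hx, ix_mul], sum_const, smul_eq_mul]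
    have hc := card_sdiff_add_card_eq_card hOB
    have hm0 := hm x₀ hx₀
    refine ⟨c + 1, ?_, ?_, fun x hx => ?_⟩
    · rw [← sum_sdiff hOB, h1, hsum]; ring
    · rw [mul_add]; omega
    · rw [mul_add]
      by_cases hxO : x ∈ O
      · rw [hix x hxO]; omega
      · have := h3 x (Finset.mem_sdiff.2 ⟨hx, hxO⟩); omega

/-- double transitivity -/
def Two (G Ω : Type*) [Group G] [MulAction G Ω] : Prop :=
  ∀ a b c d : Ω, a ≠ b → c ≠ d → ∃ g : G, g • a = c ∧ g • b = d

namespace Two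

variable (T : Two G Ω)
include T

omit [Fintype Ω] in
theorem card_S2 {a b c d : Ω} (h1 : a ≠ b) (h2 : c ≠ d) :
    Nat.card (S2 G c d) = Nat.card (S2 G a b) := by
  obtain ⟨g, rfl, rfl⟩ := T a b c d h1 h2
  rw [S2_smul, card_map_conj]

variable [Finite G]

omit [Fintype Ω] in
theorem S2_eq {a b x y : Ω} (h1 : a ≠ b) (h2 : x ≠ y) (hx : S2 G a b ≤ stabilizer G x)
    (hy : S2 G a b ≤ stabilizer G y) : S2 G x y = S2 G a b :=
  (Subgroup.eq_of_le_of_card_ge (le_inf hx hy) (T.card_S2 h1 h2).le).symm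

omit [Fintype Ω] in
theorem ix_swap {a b c : Ω} (h1 : a ≠ b) (h2 : a ≠ c) : ix (S2 G a b) c = ix (S2 G a c) b := by
  have e1 := ix_mul (S2 G a b) c
  have e2 := ix_mul (S2 G a c) b
  have e3 : S2 G a c ⊓ stabilizer G b = S2 G a b ⊓ stabilizer G c := inf_right_comm _ _ _
  rw [e3, T.card_S2 h1 h2, ← e1] at e2
  exact (Nat.eq_of_mul_eq_mul_right Nat.card_pos e2).symm

theorem card_filter {a b c d : Ω} (h1 : a ≠ b) (h2 : c ≠ d) (p : ℕ → Prop) [DecidablePred p] :
    (univ.filter fun x : Ω => p (ix (S2 G c d) x)).card =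
      (univ.filter fun x : Ω => p (ix (S2 G a b) x)).card := by
  obtain ⟨g, rfl, rfl⟩ := T a b c d h1 h2
  refine (card_equiv (MulAction.toPerm g) fun x => ?_).symm
  simp only [mem_filter, mem_univ, true_and, MulAction.toPerm_apply, S2_smul, ix_conj]

theorem card_line {a b c d : Ω} (h1 : a ≠ b) (h2 : c ≠ d) :
    (Fx Ω (S2 G c d)).card = (Fx Ω (S2 G a b)).card := by
  convert T.card_filter h1 h2 (· = 1) using 2 <;> ext x <;> simp [mem_Fx, ix_eq_one]

omit [Finite G] in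
theorem sum_eq {a b c d : Ω} (h1 : a ≠ b) (h2 : c ≠ d) :
    ∑ x : Ω, Nat.card ↥(S2 G c d ⊓ stabilizer G x) = ∑ x : Ω, Nat.card ↥(S2 G a b ⊓ stabilizer G x) := by
  obtain ⟨g, rfl, rfl⟩ := T a b c d h1 h2
  refine (Fintype.sum_equiv (MulAction.toPerm g) _ _ fun x => ?_).symm
  rw [MulAction.toPerm_apply, S2_smul, ← map_conj_inf, card_map_conj]

/-- a proper subspace is small -/
theorem subspace {a b : Ω} (hab : a ≠ b) {X Y : Subgroup G} (hXY : Y ≤ X) {x : Ω}
    (hx : x ∈ Fx Ω Y) (hx' : x ∉ Fx Ω X) :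
    (Fx Ω X).card * ((Fx Ω (S2 G a b)).card - 1) + 1 ≤ (Fx Ω Y).card := by
  classical
  have hne : ∀ y ∈ Fx Ω X, x ≠ y := fun y hy e => hx' (e ▸ hy)
  have hsub : (Fx Ω X).biUnion (fun y => (Fx Ω (S2 G x y)).erase x) ⊆ (Fx Ω Y).erase x := by
    intro z hz
    obtain ⟨y, hy, hz⟩ := mem_biUnion.1 hz
    rw [mem_erase] at hz ⊢
    exact ⟨hz.1, mem_Fx.2 ((le_inf (mem_Fx.1 hx) (hXY.trans (mem_Fx.1 hy))).trans (mem_Fx.1 hz.2))⟩
  have hcard := card_le_card hsub
  rw [card_biUnion, card_erase_of_mem hx, sum_congr rfl (g := fun _ => (Fx Ω (S2 G a b)).card - 1)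
    fun y hy => by
      rw [card_erase_of_mem (mem_Fx.2 (S2_le x y)), T.card_line hab (hne y hy)],
    sum_const, smul_eq_mul] at hcard
  · have := card_pos.2 ⟨x, hx⟩
    omega
  · intro y hy y' hy' hyy
    rw [Function.onFun, disjoint_left]
    intro z hz hz'
    rw [mem_erase] at hz hz'
    have e1 := T.S2_eq (hne y hy) hz.1.symm inf_le_left (mem_Fx.1 hz.2)
    have e2 := T.S2_eq (hne y' hy') hz'.1.symm inf_le_left (mem_Fx.1 hz'.2)
    have e3 := T.S2_eq (hne y hy) hyy inf_le_right (by rw [← e1, e2]; exact inf_le_right)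
    exact hx' (mem_Fx.2 ((le_inf (mem_Fx.1 hy) (mem_Fx.1 hy')).trans (e3.le.trans inf_le_left)))

omit [Fintype Ω] in
/-- four points all of whose triples have index at most two -/
theorem four {a b c d : Ω} (hab : a ≠ b) (hc : ix (S2 G a b) c = 2) (h1 : ix (S2 G a b) d ≤ 2)
    (h2 : ix (S2 G a c) d ≤ 2) (h3 : ix (S2 G b c) d ≤ 2) :
    S2 G a b ⊓ stabilizer G c ≤ stabilizer G d := by
  intro s hs
  by_contra hd
  have hsa : s • a = a := hs.1.1
  have hsb : s • b = b := hs.1.2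
  have hsc : s • c = c := hs.2
  have hn : ¬ S2 G a b ≤ stabilizer G c := fun e => by rw [ix_eq_one.2 e] at hc; omega
  have hac : a ≠ c := by rintro rfl; exact hn inf_le_left
  have hbc : b ≠ c := by rintro rfl; exact hn inf_le_right
  have had : a ≠ d := by rintro rfl; exact hd hsa
  have hbd : b ≠ d := by rintro rfl; exact hd hsb
  have hcd : c ≠ d := by rintro rfl; exact hd hsc
  have i1 : ix (S2 G b c) a ≤ 2 := by rw [T.ix_swap hbc hab.symm, S2_comm, hc]
  have i2 : ix (S2 G b d) a ≤ 2 := by rwa [T.ix_swap hbd hab.symm, S2_comm]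
  have i3 : ix (S2 G c d) a ≤ 2 := by rwa [T.ix_swap hcd hac.symm, S2_comm]
  obtain ⟨u, hu, hua⟩ : ∃ u ∈ S2 G b c ⊓ stabilizer G d, u • a ≠ a := by
    by_contra! e
    have hle : S2 G b c ⊓ stabilizer G d ≤ S2 G a b ⊓ stabilizer G c :=
      fun g hg => ⟨⟨e g hg, hg.1.1⟩, hg.1.2⟩
    have e1 := ix_mul (S2 G b c) d
    have e2 := ix_mul (S2 G a b) c
    rw [T.card_S2 hab hbc, ← e2, hc] at e1
    have := Subgroup.eq_of_le_of_card_ge hle (by nlinarith)
    exact hd (this ▸ hs).2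
  have k1 : ∀ g : G, g • a = a → g • b = b → g • c = c → g • u • a = u • a :=
    fun g ga gb gc => norm_two i1 hu.1 ⟨gb, gc⟩ ga
  have k2 : ∀ g : G, g • a = a → g • b = b → g • d = d → g • u • a = u • a :=
    fun g ga gb gd => norm_two i2 ⟨hu.1.1, hu.2⟩ ⟨gb, gd⟩ ga
  have k3 : ∀ g : G, g • a = a → g • c = c → g • d = d → g • u • a = u • a :=
    fun g ga gc gd => norm_two i3 ⟨hu.1.2, hu.2⟩ ⟨gc, gd⟩ ga
  have ks := k1 s hsa hsb hsc
  have l1 : S2 G a b ≤ stabilizer G (u • a) := fun g hg => by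
    by_cases e : g • d = d
    · exact k2 g hg.1 hg.2 e
    · have hgs := (S2 G a b).mul_mem hg hs.1
      have := k2 (g * s) hgs.1 hgs.2 (mul_two h1 hg hs.1 e hd)
      rwa [mul_smul, ks] at this
  have l2 : S2 G a c ≤ stabilizer G (u • a) := fun g hg => by
    by_cases e : g • d = d
    · exact k3 g hg.1 hg.2 e
    · have hgs := (S2 G a c).mul_mem hg (show s ∈ S2 G a c from ⟨hsa, hsc⟩)
      have := k3 (g * s) hgs.1 hgs.2 (mul_two h2 hg ⟨hsa, hsc⟩ e hd)
      rwa [mul_smul, ks] at this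
  have e1 := T.S2_eq hab hua.symm inf_le_left l1
  have e2 := T.S2_eq hac hua.symm inf_le_left l2
  exact hn (by rw [← e1, e2]; exact inf_le_right)

open Classical in
/-- the points whose orbit has length at least three -/
noncomputable def _root_.CL.DerTwo.Bad (G : Type*) [Group G] [MulAction G Ω] (a b : Ω) : Finset Ω :=
  univ.filter fun x => 3 ≤ ix (S2 G a b) x

omit T [Finite G] in
theorem _root_.CL.DerTwo.notMem_Bad {a b x : Ω} : x ∉ Bad G a b ↔ ix (S2 G a b) x ≤ 2 := by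
  simp [Bad, Nat.lt_succ_iff]

theorem card_Bad {a b c d : Ω} (h1 : a ≠ b) (h2 : c ≠ d) : (Bad G c d).card = (Bad G a b).card := by
  convert T.card_filter h1 h2 (3 ≤ ·) using 2 <;> ext x <;> simp [Bad]

theorem bad_swap {a b c : Ω} (h1 : a ≠ b) (h2 : a ≠ c) : c ∈ Bad G a b ↔ b ∈ Bad G a c := by
  rw [← not_iff_not, notMem_Bad, notMem_Bad, T.ix_swap h1 h2]

theorem card_le_of_two {a b c : Ω} (hab : a ≠ b) (hc : ix (S2 G a b) c = 2) :
    Fintype.card Ω ≤ (Fx Ω (S2 G a b ⊓ stabilizer G c)).card + 3 * (Bad G a b).card := by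
  classical
  have hn : ¬ S2 G a b ≤ stabilizer G c := fun e => by rw [ix_eq_one.2 e] at hc; omega
  have hac : a ≠ c := by rintro rfl; exact hn inf_le_left
  have hbc : b ≠ c := by rintro rfl; exact hn inf_le_right
  have hsub : (univ : Finset Ω) ⊆
      Fx Ω (S2 G a b ⊓ stabilizer G c) ∪ (Bad G a b ∪ (Bad G a c ∪ Bad G b c)) := by
    intro d _
    by_contra hd
    simp only [mem_union, not_or, notMem_Bad] at hd
    exact hd.1 (mem_Fx.2 (T.four hab hc hd.2.1 hd.2.2.1 hd.2.2.2))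
  have h1 := card_le_card hsub
  have h2 := card_union_le (Fx Ω (S2 G a b ⊓ stabilizer G c)) (Bad G a b ∪ (Bad G a c ∪ Bad G b c))
  have h3 := card_union_le (Bad G a b) (Bad G a c ∪ Bad G b c)
  have h4 := card_union_le (Bad G a c) (Bad G b c)
  rw [T.card_Bad hab hac, T.card_Bad hab hbc] at h4
  rw [card_univ] at h1
  omega

omit T [Fintype Ω] in
theorem _root_.CL.DerTwo.exists_cube {H : Subgroup G} {x : Ω} (h : ix H x = 3) :
    ∃ s ∈ H, s ≠ 1 ∧ s ^ 3 = 1 := by
  have : Fact (Nat.Prime 3) := ⟨Nat.prime_three⟩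
  obtain ⟨s, hs⟩ := exists_prime_orderOf_dvd_card' (G := H) 3 ⟨_, by rw [← ix_mul H x, h]⟩
  refine ⟨s, s.2, fun e => ?_, ?_⟩
  · rw [show s = 1 from Subtype.ext e, orderOf_one] at hs
    omega
  · rw [← hs, ← Subgroup.coe_pow, pow_orderOf_eq_one, Subgroup.coe_one]

variable [FaithfulSMul G Ω]

theorem not_three (hn : 7 ≤ Fintype.card Ω) {a b x : Ω} (hab : a ≠ b) (hx : ix (S2 G a b) x = 3) :
    (Bad G a b).card ≠ 3 := by
  classical
  intro hb
  obtain ⟨s, hs, hs1, hs3⟩ := exists_cube hx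
  have hbad : ∀ u v z : Ω, s • u = u → s • v = v → s • z ≠ z → z ∈ Bad G u v := by
    intro u v z hu hv hz
    by_contra h
    exact hz (cube_fix (notMem_Bad.1 h) ⟨hu, hv⟩ hs3)
  have hfix : ∀ z, z ∉ Bad G a b → s • z = z := fun z hz => cube_fix (notMem_Bad.1 hz) hs hs3
  obtain ⟨x₀, hx₀⟩ : ∃ x₀ : Ω, s • x₀ ≠ x₀ := by
    by_contra! h
    exact hs1 (FaithfulSMul.eq_of_smul_eq_smul (α := Ω) fun y => by rw [h, one_smul])
  have hy₀ : s • s • x₀ ≠ s • x₀ := fun e => hx₀ (smul_left_cancel s e)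
  have key : ∀ α, α ∉ Bad G a b → α ∉ Bad G x₀ (s • x₀) := by
    intro α hα
    have hαx : α ≠ x₀ := fun e => hx₀ (e ▸ hfix α hα)
    have hsub : (Bad G a b)ᶜ.erase α ⊆ Bad G α x₀ := by
      intro β hβ
      rw [mem_erase, mem_compl] at hβ
      exact (T.bad_swap hβ.1.symm hαx).1 (hbad _ _ _ (hfix α hα) (hfix β hβ.2) hx₀)
    have heq := eq_of_subset_of_card_le hsub (by
      rw [T.card_Bad hab hαx, card_erase_of_mem (mem_compl.2 hα), card_compl, hb]; omega)
    rw [← T.bad_swap hαx.symm hx₀.symm, notMem_Bad, S2_comm, ← notMem_Bad, ← heq, mem_erase,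
      mem_compl]
    exact fun h => hy₀ (hfix _ h.2)
  have hsub : Bad G x₀ (s • x₀) ⊆ (Bad G a b).erase x₀ := by
    intro z hz
    rw [mem_erase]
    refine ⟨?_, by_contra fun h => key z h hz⟩
    rintro rfl
    exact notMem_Bad.2 (by rw [ix_eq_one.2 (S2_le _ _)]; omega) hz
  have := card_le_card hsub
  rw [T.card_Bad hab hx₀.symm, card_erase_of_mem (hbad a b x₀ hs.1 hs.2 hx₀), hb] at this
  omega

omit [FaithfulSMul G Ω] in
theorem not_fano (hn : Fintype.card Ω = 7) {a b : Ω} (hab : a ≠ b) (hh : Nat.card (S2 G a b) = 2) :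
    (Fx Ω (S2 G a b)).card ≠ 3 := by
  classical
  intro hk
  obtain ⟨z, hz, hza, hzb⟩ : ∃ z ∈ Fx Ω (S2 G a b), z ≠ a ∧ z ≠ b := by
    by_contra! h
    have : Fx Ω (S2 G a b) ⊆ {a, b} := fun z hz => by
      rw [mem_insert, mem_singleton]
      by_cases e : z = a
      · exact Or.inl e
      · exact Or.inr (h z hz e)
    have h1 := card_le_card this
    have h2 := card_le_two (a := a) (b := b)
    omega
  have hl : Fx Ω (S2 G a b) = {a, b, z} := (eq_of_subset_of_card_le (by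
    intro y hy
    simp only [mem_insert, mem_singleton] at hy
    rcases hy with rfl | rfl | rfl
    exacts [mem_Fx.2 (S2_le _ _), mem_Fx.2 (S2_le' _ _), hz]) (by
      rw [hk, card_eq_three.2 ⟨a, b, z, hab, hza.symm, hzb.symm, rfl⟩])).symm
  obtain ⟨g, hga, hgb⟩ := T a b b z hab hzb.symm
  have hS : (S2 G a b).map (MulAut.conj g).toMonoidHom = S2 G a b := by
    rw [← S2_smul, hga, hgb]
    exact T.S2_eq hab hzb.symm (S2_le' _ _) (mem_Fx.1 hz)
  have hg : ∀ y ∈ Fx Ω (S2 G a b), g • y ∈ Fx Ω (S2 G a b) := fun y hy => by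
    rw [mem_Fx, ← hS, stabilizer_smul_eq_stabilizer_map_conj]
    exact Subgroup.map_mono (mem_Fx.1 hy)
  have hgz : g • z = a := by
    have := hg z hz
    rw [hl, mem_insert, mem_insert, mem_singleton] at this
    rcases this with h | h | h
    · exact h
    · exact absurd (smul_left_cancel g (h.trans hga.symm)) hza
    · exact absurd (smul_left_cancel g (h.trans hgb.symm)) hzb
  have hsq : ∀ (u v : Ω) (y : G), u ≠ v → y ∈ S2 G u v → y ^ 2 = 1 := fun u v y huv hy => by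
    have := pow_card_eq_one' (G := S2 G u v) (x := ⟨y, hy⟩)
    rw [T.card_S2 hab huv, hh] at this
    exact congrArg Subtype.val this
  have h3 : (g ^ 2) ^ 3 = 1 := by
    rw [← pow_mul, mul_comm, pow_mul]
    refine hsq a b _ hab ⟨?_, ?_⟩
    · change g ^ 3 • a = a
      rw [pow_three, mul_smul, mul_smul, hga, hgb, hgz]
    · change g ^ 3 • b = b
      rw [pow_three, mul_smul, mul_smul, hgb, hgz, hga]
  have : Fact (Nat.Prime 3) := ⟨Nat.prime_three⟩
  have hP : IsPGroup 3 (Subgroup.zpowers (g ^ 2)) := IsPGroup.of_card_dvd_pow (n := 1) (by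
    rw [Nat.card_zpowers, pow_one]; exact orderOf_dvd_of_pow_eq_one h3)
  obtain ⟨δ, hδ⟩ := hP.nonempty_fixed_point_of_prime_not_dvd_card Ω (by
    rw [Nat.card_eq_fintype_card, hn]; norm_num)
  have hw : g ^ 2 • δ = δ := hδ ⟨g ^ 2, Subgroup.mem_zpowers _⟩
  have hδl : δ ∉ Fx Ω (S2 G a b) := by
    rw [hl, mem_insert, mem_insert, mem_singleton]
    rw [sq, mul_smul] at hw
    rintro (rfl | rfl | rfl)
    · rw [hga, hgb] at hw; exact hza hw
    · rw [hgb, hgz] at hw; exact hab hw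
    · rw [hgz, hga] at hw; exact hzb hw.symm
  obtain ⟨t, ht, htδ⟩ := SetLike.not_le_iff_exists.1 fun e => hδl (mem_Fx.2 e)
  have ht1 : t ≠ 1 := fun e => htδ (e ▸ one_mem _)
  have hc : g * t * g⁻¹ = t := by
    have hm : g * t * g⁻¹ ∈ S2 G a b := hS ▸ Subgroup.mem_map_of_mem _ ht
    obtain ⟨y, -, hy⟩ := (Nat.card_eq_two_iff' (1 : S2 G a b)).1 hh
    have e1 := hy ⟨t, ht⟩ fun e => ht1 (congrArg Subtype.val e)
    have e2 := hy ⟨_, hm⟩ fun e => ht1 (by simpa using congrArg Subtype.val e)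
    exact congrArg Subtype.val (e2.trans e1.symm)
  have hc' : Commute g t := mul_inv_eq_iff_eq_mul.1 hc
  have h2 := hsq δ (t • δ) (g ^ 2) (fun e => htδ e.symm) ⟨hw, by
    change g ^ 2 • t • δ = t • δ
    rw [← mul_smul, (hc'.pow_left 2).eq, mul_smul, hw]⟩
  have h1 : g ^ 2 = 1 := by rw [pow_succ, h2, one_mul] at h3; exact h3
  have : g • g • a = a := by rw [← mul_smul, ← sq, h1, one_smul]
  rw [hga, hgb] at this
  exact hza this

theorem tri (hn : 7 ≤ Fintype.card Ω) {a b : Ω} (hab : a ≠ b) (hh : S2 G a b ≠ ⊥) :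
    ∃ t : ℕ, ∑ x : Ω, Nat.card ↥(S2 G a b ⊓ stabilizer G x) = t * Nat.card (S2 G a b) ∧
      (2 * t ≤ Fintype.card Ω ∨
        (2 * t = Fintype.card Ω + 1 ∧ 2 * Nat.card (S2 G a b) ≤ Fintype.card Ω + 1) ∨
        (Nat.card (S2 G a b) = 2 ∧ ∃ k, 0 < k ∧ 2 * t = Fintype.card Ω + k ∧
          3 * k ≤ Fintype.card Ω)) := by
  classical
  set H := S2 G a b with hH
  set A := univ.filter fun x : Ω => ix H x = 2 with hA
  have hpos : 0 < Nat.card H := Nat.card_pos
  obtain ⟨c, hc1, hc2, hc3⟩ := orbit_count H 3 (Bad G a b) (fun g hg x hx => by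
    by_contra h
    rw [notMem_Bad, ix_smul hg, ← notMem_Bad] at h
    exact h hx) fun x hx => by
      by_contra h
      exact notMem_Bad.2 (by rw [← hH]; omega) hx
  obtain ⟨e, he1, -, -⟩ := orbit_count H 2 A (fun g hg x hx => by
    simpa [hA, ix_smul hg] using hx) fun x hx => (mem_filter.1 hx).2.ge
  have he : A.card = 2 * e := by
    apply Nat.eq_of_mul_eq_mul_right hpos
    rw [mul_assoc, ← he1, mul_sum, sum_congr rfl fun x hx => by
      rw [← (mem_filter.1 hx).2, ix_mul], sum_const, smul_eq_mul]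
  have hsplit : ∀ f : Ω → ℕ, ∑ x, f x = ∑ x ∈ Fx Ω H, f x + ∑ x ∈ A, f x + ∑ x ∈ Bad G a b, f x := by
    intro f
    rw [← sum_union, ← sum_union]
    · congr 1
      ext x
      have := ix_pos H x
      simp only [mem_univ, mem_union, mem_Fx, ← ix_eq_one, hA, mem_filter, true_and, Bad, ← hH,
        true_iff]
      omega
    · rw [disjoint_left]
      intro x hx
      simp only [mem_union, mem_Fx, ← ix_eq_one, hA, mem_filter, mem_univ, true_and] at hx
      rw [notMem_Bad, ← hH]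
      omega
    · rw [disjoint_left]
      intro x hx
      simp only [mem_Fx, ← ix_eq_one, hA, mem_filter, mem_univ, true_and] at hx ⊢
      omega
  have hcard := hsplit fun _ => 1
  simp only [sum_const, card_univ, smul_eq_mul, mul_one, he] at hcard
  have hk2 : 2 ≤ (Fx Ω H).card := one_lt_card.2
    ⟨a, mem_Fx.2 (S2_le _ _), b, mem_Fx.2 (S2_le' _ _), hab⟩
  have hsub : ∀ X : Subgroup G, X ≠ ⊥ →
      (Fx Ω X).card * ((Fx Ω H).card - 1) + 1 ≤ Fintype.card Ω := fun X hX => by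
    obtain ⟨x, hx⟩ := exists_notMem_Fx (Ω := Ω) hX
    have := T.subspace hab (bot_le (a := X)) (by rw [Fx_bot]; exact mem_univ x) hx
    rwa [Fx_bot, card_univ] at this
  have hoff : ∀ (X : Subgroup G) (x : Ω), x ∉ Fx Ω X →
      (Fx Ω X).card * ((Fx Ω H).card - 1) + 1 ≤ (Fx Ω (X ⊓ stabilizer G x)).card :=
    fun X x hx => T.subspace hab inf_le_left (mem_Fx.2 inf_le_right) hx
  have hF1 := hsub H hh
  refine ⟨(Fx Ω H).card + e + c, ?_, ?_⟩
  · rw [hsplit, he1, hc1, sum_congr rfl (g := fun _ => Nat.card H) fun x hx => by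
      rw [inf_eq_left.2 (mem_Fx.1 hx)], sum_const, smul_eq_mul]
    ring
  by_cases ht : 2 * ((Fx Ω H).card + e + c) ≤ Fintype.card Ω
  · exact Or.inl ht
  right
  obtain ⟨k, hk⟩ : ∃ k, (Fx Ω H).card = k + 2 := ⟨_, (Nat.sub_add_cancel hk2).symm⟩
  simp only [hk, show k + 2 - 1 = k + 1 from rfl] at hsub hoff hF1 hcard ht ⊢
  rcases (Bad G a b).eq_empty_or_nonempty with hB | ⟨δ, hδ⟩
  · right
    rw [hB, card_empty] at hc2 hcard
    obtain ⟨γ, hγ⟩ := exists_notMem_Fx (Ω := Ω) hh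
    have hγ2 : ix H γ = 2 := by
      have h1 := ix_pos H γ
      have h2 : ix H γ ≤ 2 := notMem_Bad.1 (by simp [hB])
      rw [mem_Fx, ← ix_eq_one] at hγ
      omega
    have h1 := T.card_le_of_two hab hγ2
    rw [hB, card_empty] at h1
    have hL : H ⊓ stabilizer G γ = ⊥ := by
      by_contra hL
      have := hsub _ hL
      rw [← hH] at h1
      exact ar2 h1 this
    have h2 := ix_mul H γ
    rw [hL, hγ2, Subgroup.card_bot] at h2
    refine ⟨h2.symm, k + 2, by omega, by omega, ?_⟩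
    have h7 : Fintype.card Ω = 7 → k ≠ 1 := fun h7 h1 =>
      T.not_fano h7 hab h2.symm (by rw [← hH, hk, h1])
    rcases k with _ | _ | k
    · omega
    · omega
    · exact ar3 hF1
  left
  have hδ3 : 3 ≤ ix H δ := by
    by_contra h
    exact notMem_Bad.2 (by rw [← hH]; omega) hδ
  have hδc := hc3 δ hδ
  have hc0 : 0 < c := by
    rcases Nat.eq_zero_or_pos c with rfl | h
    · rw [zero_mul, sum_eq_zero_iff] at hc1
      exact absurd (hc1 δ hδ) Nat.card_pos.ne'
    · exact h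
  have hO3 : 3 * c = (Bad G a b).card →
      (Fintype.card Ω - (Bad G a b).card) * (k + 1) + 1 ≤ Fintype.card Ω := fun h => by
    obtain ⟨s, hs, hs1, hs3⟩ := exists_cube (H := H) (x := δ) (by omega)
    have h1 := hsub (Subgroup.zpowers s) (by simpa using hs1)
    have h2 : (Bad G a b)ᶜ ⊆ Fx Ω (Subgroup.zpowers s) := fun z hz =>
      mem_Fx.2 (Subgroup.zpowers_le.2 (cube_fix (notMem_Bad.1 (mem_compl.1 hz)) hs hs3))
    have h3 := card_le_card h2
    rw [card_compl] at h3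
    exact le_trans (Nat.succ_le_succ (Nat.mul_le_mul_right _ h3)) h1
  have h33 : ix H δ = 3 → (Bad G a b).card ≠ 3 := T.not_three hn hab
  have hδH : δ ∉ Fx Ω H := by rw [mem_Fx, ← ix_eq_one]; omega
  rcases Nat.eq_zero_or_pos k with rfl | hk0
  · omega
  rcases Nat.eq_zero_or_pos e with rfl | he0
  · have hk3 : k ≤ 2 := ar4 hF1 (by omega)
    have h1 := hoff H δ hδH
    have hL : H ⊓ stabilizer G δ = ⊥ := by
      by_contra hL
      have := hsub _ hL
      rw [hk] at h1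
      interval_cases k <;> omega
    have h2 := ix_mul H δ
    rw [hL, Subgroup.card_bot] at h2
    interval_cases k <;> omega
  obtain ⟨γ, hγ⟩ := card_pos.1 (show 0 < A.card by omega)
  have hγ2 : ix H γ = 2 := (mem_filter.1 hγ).2
  have hγH : γ ∉ Fx Ω H := by rw [mem_Fx, ← ix_eq_one]; omega
  have hL : H ⊓ stabilizer G γ ≠ ⊥ := fun hL => by
    have h2 := ix_mul H γ
    rw [hL, hγ2, Subgroup.card_bot] at h2
    have h3 := ix_mul H δ
    have h4 := Nat.mul_le_mul hδ3 (Nat.card_pos (α := ↥(H ⊓ stabilizer G δ)))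
    omega
  have h1 := hoff H γ hγH
  have h2 := hsub _ hL
  have h3 := T.card_le_of_two hab hγ2
  rw [← hH] at h3
  rw [hk] at h1
  have hk3 : k ≤ 2 := ar1 h1 h2 h3 (by omega)
  obtain rfl | rfl : k = 1 ∨ k = 2 := by omega
  swap
  · omega
  have hb : (Bad G a b).card = 4 := by omega
  obtain ⟨η, hη⟩ := exists_notMem_Fx (Ω := Ω) hL
  have h4 := hoff _ η hη
  have hX : H ⊓ stabilizer G γ ⊓ stabilizer G η = ⊥ := by
    by_contra hX
    have := hsub _ hX
    omega
  have h5 := relIndex_mul (stabilizer G γ ⊓ stabilizer G η) H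
  rw [← inf_assoc, hX, Subgroup.card_bot] at h5
  have h6 : (stabilizer G γ ⊓ stabilizer G η).relIndex H ≤ ix H γ * ix H η :=
    Subgroup.relIndex_inf_le
  have h7 : ix H η ≤ 4 := by
    by_cases h : η ∈ Bad G a b
    · have := hc3 η h; omega
    · have := notMem_Bad.1 h; rw [← hH] at this; omega
  rw [hγ2] at h6
  omega

end Two

section Moments

variable [Fintype G] [DecidableEq Ω]

/-- the number of fixed points -/
def fx (Ω : Type*) [Fintype Ω] [MulAction G Ω] [DecidableEq Ω] (g : G) : ℕ :=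
  (univ.filter fun x : Ω => g • x = x).card

theorem sum_fx (H : Subgroup G) [DecidablePred (· ∈ H)] :
    ∑ g ∈ univ.filter (· ∈ H), fx Ω g = ∑ x : Ω, Nat.card ↥(H ⊓ stabilizer G x) := by
  classical
  simp only [fx, card_filter]
  rw [sum_comm]
  refine sum_congr rfl fun x _ => ?_
  rw [← card_filter, filter_filter, Nat.card_eq_fintype_card, Fintype.card_subtype]
  congr 1
  exact filter_congr fun _ _ => Iff.rfl

theorem sum_pairs (φ : G → ℤ) :
    ∑ g : G, ((fx Ω g : ℤ) * fx Ω g - fx Ω g) * φ g =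
      ∑ p ∈ (univ : Finset Ω).offDiag, ∑ g ∈ univ.filter (fun g : G => g • p.1 = p.1 ∧ g • p.2 = p.2),
        φ g := by
  have h : ∀ g : G, (fx Ω g : ℤ) * fx Ω g - fx Ω g =
      ∑ p ∈ (univ : Finset Ω).offDiag, if g • p.1 = p.1 ∧ g • p.2 = p.2 then 1 else 0 := by
    intro g
    rw [sum_boole]
    have e : ((univ : Finset Ω).offDiag.filter fun p => g • p.1 = p.1 ∧ g • p.2 = p.2) =
        (univ.filter fun x : Ω => g • x = x).offDiag := by
      ext p
      simp [and_comm, and_left_comm]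
    rw [e, offDiag_card, Nat.cast_sub (Nat.le_mul_self _)]
    simp [fx]
  simp only [h, sum_mul, sum_filter]
  rw [sum_comm]
  simp

theorem poly_bound [Nonempty Ω] (u v : ℤ)
    (huv : ∀ i : ℤ, 0 ≤ (2 * i - u) * (2 * i - v)) :
    ((Fintype.card Ω : ℤ) - 1) * (2 * Fintype.card Ω - u) * (2 * Fintype.card Ω - v) ≤
      ∑ g : G, ((fx Ω g : ℤ) - 1) * (2 * fx Ω g - u) * (2 * fx Ω g - v) +
        u * v * (univ.filter fun g : G => fx Ω g = 0).card := by
  classical
  have h1 : fx Ω (1 : G) = Fintype.card Ω := by simp [fx]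
  have hpos := Fintype.card_pos (α := Ω)
  rw [card_filter, Nat.cast_sum, mul_sum, ← sum_add_distrib]
  refine le_trans (le_of_eq ?_) (single_le_sum (f := fun g : G =>
    ((fx Ω g : ℤ) - 1) * (2 * fx Ω g - u) * (2 * fx Ω g - v) +
      u * v * ((if fx Ω g = 0 then 1 else 0 : ℕ) : ℤ)) (fun g _ => ?_) (mem_univ 1))
  · simp [h1, hpos.ne']
  · by_cases h : fx Ω g = 0
    · simp [h]
    · simp only [h, if_false, Nat.cast_zero, mul_zero, add_zero, mul_assoc]
      exact mul_nonneg (by omega) (huv _)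

end Moments

theorem two_bound [Fintype G] [DecidableEq Ω] [FaithfulSMul G Ω] (T : Two G Ω)
    (hn : 7 ≤ Fintype.card Ω) {a b : Ω} (hab : a ≠ b) (hh : S2 G a b ≠ ⊥)
    (h1 : ∑ g : G, fx Ω g = Fintype.card G)
    (hG : Fintype.card G = Fintype.card Ω * (Fintype.card Ω - 1) * Nat.card (S2 G a b)) :
    2 * Fintype.card G ≤ Fintype.card Ω * (univ.filter fun g : G => fx Ω g = 0).card := by
  classical
  have : Nonempty Ω := ⟨a⟩
  obtain ⟨t, ht, htri⟩ := T.tri hn hab hh
  obtain ⟨m, hm⟩ : ∃ m, Fintype.card Ω = m + 1 := ⟨_, (Nat.sub_add_cancel (by omega)).symm⟩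
  have hoff : ((univ : Finset Ω).offDiag.card : ℤ) = (m + 1) * m := by
    rw [offDiag_card, card_univ, hm, Nat.cast_sub (Nat.le_mul_self _)]
    push_cast; ring
  have hG' : (Fintype.card G : ℤ) = (m + 1) * m * Nat.card (S2 G a b) := by
    rw [hG, hm]; push_cast; simp
  have h2 : ∑ g : G, ((fx Ω g : ℤ) * fx Ω g - fx Ω g) * 1 = Fintype.card G := by
    rw [sum_pairs, sum_congr rfl (g := fun _ => (Nat.card (S2 G a b) : ℤ)) fun p hp => by
      rw [← T.card_S2 hab (mem_offDiag.1 hp).2.2, Nat.card_eq_fintype_card, Fintype.card_subtype]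
      simp only [sum_const, nsmul_eq_mul, mul_one, Nat.cast_inj]
      congr 1
      exact filter_congr fun _ _ => Iff.rfl, sum_const, nsmul_eq_mul, hoff, hG']
  have h3 : ∑ g : G, ((fx Ω g : ℤ) * fx Ω g - fx Ω g) * fx Ω g = t * Fintype.card G := by
    rw [sum_pairs, sum_congr rfl (g := fun _ => (t * Nat.card (S2 G a b) : ℤ)) fun p hp => by
      have := sum_fx (Ω := Ω) (S2 G p.1 p.2)
      rw [T.sum_eq hab (mem_offDiag.1 hp).2.2, ht, filter_congr
        (q := fun g : G => g • p.1 = p.1 ∧ g • p.2 = p.2) fun _ _ => mem_S2] at this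
      exact_mod_cast this, sum_const, nsmul_eq_mul, hoff, hG']
    ring
  have h1' : ∑ g : G, (fx Ω g : ℤ) = Fintype.card G := by exact_mod_cast h1
  have key : ∀ u v : ℤ, (∀ i : ℤ, 0 ≤ (2 * i - u) * (2 * i - v)) →
      (m : ℤ) * (2 * (m + 1) - u) * (2 * (m + 1) - v) ≤ (4 * t - 2 * (u + v)) * Fintype.card G +
        u * v * (univ.filter fun g : G => fx Ω g = 0).card := fun u v huv => by
    have := poly_bound (G := G) (Ω := Ω) u v huv
    rw [sum_congr rfl (g := fun g => 4 * (((fx Ω g : ℤ) * fx Ω g - fx Ω g) * fx Ω g) -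
      2 * (u + v) * (((fx Ω g : ℤ) * fx Ω g - fx Ω g) * 1) + u * v * (fx Ω g - 1))
      fun g _ => by ring, sum_add_distrib, sum_sub_distrib, ← mul_sum, ← mul_sum, ← mul_sum, h2, h3,
      sum_sub_distrib, h1', hm] at this
    simp only [sum_const, card_univ, nsmul_eq_mul, mul_one, sub_self, mul_zero, add_zero] at this
    push_cast at this
    linarith
  rw [hm] at hn htri ⊢
  generalize (univ.filter fun g : G => fx Ω g = 0).card = d at key ⊢
  generalize Fintype.card G = N at key hG' ⊢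
  generalize Nat.card (S2 G a b) = h at hG' htri
  have hm6 : (6 : ℤ) ≤ m := by omega
  have hN : (0 : ℤ) ≤ N := by omega
  zify
  rcases htri with h4 | ⟨h4, h5⟩ | ⟨rfl, k, hk, h4, h5⟩
  · have := key (m + 1) (m + 1) fun i => mul_self_nonneg _
    have h4' : 2 * (t : ℤ) ≤ m + 1 := by exact_mod_cast h4
    refine le_of_mul_le_mul_left ?_ (show (0 : ℤ) < m + 1 by omega)
    nlinarith [mul_nonneg (sub_nonneg.2 h4') hN, mul_nonneg (mul_nonneg hN hN) hN]
  · have h4' : (m : ℤ) = 2 * t - 2 := by omega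
    have h5' : 2 * (h : ℤ) ≤ m + 2 := by omega
    have := key m (m + 2) fun i => by
      rw [h4']
      rcases le_total i (t - 1) with e | e
      · exact mul_nonneg_of_nonpos_of_nonpos (by omega) (by omega)
      · rcases eq_or_lt_of_le e with e | e
        · rw [← e]; ring_nf; rfl
        · exact mul_nonneg (by omega) (by omega)
    have h6 : 2 * (N : ℤ) + (m + 2) * m ≤ (m + 2) * d := by
      refine le_of_mul_le_mul_left ?_ (show (0 : ℤ) < m by omega)
      have e : (4 * (t : ℤ) - 2 * (m + (m + 2))) = -2 * m := by omega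
      rw [e] at this
      linarith
    refine le_of_mul_le_mul_left ?_ (show (0 : ℤ) < m + 2 by omega)
    have h7 : 2 * (N : ℤ) ≤ (m + 1) * m * (m + 2) := by
      rw [hG']
      nlinarith [mul_nonneg (show (0 : ℤ) ≤ (m + 1) * m by positivity) (sub_nonneg.2 h5')]
    nlinarith
  · have := key (2 * k) (2 * k) fun i => mul_self_nonneg _
    have e : (4 * (t : ℤ) - 2 * (2 * k + 2 * k)) = 2 * (m + 1) - 6 * k := by omega
    have h5' : 3 * (k : ℤ) ≤ m + 1 := by exact_mod_cast h5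
    have hk' : (0 : ℤ) < k := by exact_mod_cast hk
    rw [e, hG'] at this
    have h6 : 4 * (m : ℤ) ≤ d := by
      refine le_of_mul_le_mul_left ?_ (show (0 : ℤ) < k * k by positivity)
      push_cast at this
      nlinarith [mul_nonneg (mul_nonneg hk'.le (show (0 : ℤ) ≤ m by omega)) (sub_nonneg.2 h5')]
    rw [hG']
    push_cast
    nlinarith

end CL.DerTwo
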