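/-
Fisher's bound `4 (n - r) / 3` for the composition length of a permutation group.
-/
import Cfsg.Agent.Perm.CompLen
import Cfsg.Agent.Perm.PrimONS
import Cfsg.Agent.Char.Burnside

set_option autoImplicit false

namespace CL.Perm

open ArithmeticFunction MulAction CL.Grp

theorem thirty_le_card_of_not_isSolvable {T : Type*} [Group T] [Finite T] (h : ¬ Group.IsSolvable T) :
    30 ≤ Nat.card T := by
  by_contra hc
  have key : ∀ m : Fin 30, 0 < m.1 → ∃ p q : Fin 30, p.1.Prime ∧ q.1.Prime ∧
      ∀ r : Fin 30, r.1.Prime → r.1 ∣ m.1 → r.1 = p.1 ∨ r.1 = q.1 := by decide +kernel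
  obtain ⟨p, q, hp, hq, h1⟩ := key ⟨Nat.card T, by omega⟩ Nat.card_pos
  exact h (CL.Char.isSolvable_of_two_primes hp hq fun r hr hd =>
    h1 ⟨r, by have := Nat.le_of_dvd Nat.card_pos hd; omega⟩ hr hd)

section Regular

variable {G Ω : Type*} [Group G] [Finite G] [MulAction G Ω] [FaithfulSMul G Ω] [Finite Ω]

/-- Order bound for a group normalising a regular subgroup. -/
theorem cardFactors_le_of_regular (M H : Subgroup G) (hMH : M ≤ H) (hn : ∀ h ∈ H, ∀ m ∈ M, h * m * h⁻¹ ∈ M)
    [IsPretransitive M Ω] (a : Ω) (hreg : ∀ m ∈ M, m • a = a → m = 1) :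
    cardFactors (Nat.card H) ≤ cardFactors (Nat.card Ω) * (1 + Nat.log 2 (Nat.card Ω - 1)) := by
  have hcM : Nat.card M = Nat.card Ω :=
    card_eq_of_regular a (eq_bot_iff.2 fun m hm => Subtype.ext (hreg m m.2 hm))
  have hiff : ∀ h ∈ H, h • a = a → ∀ m ∈ M, h • m • a = m • a → m * h = h * m := by
    intro h hh ha m hm e
    have h1 := hreg (m⁻¹ * (h * m * h⁻¹)) (M.mul_mem (M.inv_mem hm) (hn h hh m hm)) (by
      rw [mul_smul, mul_smul, mul_smul, inv_smul_eq_iff.2 ha.symm, e, inv_smul_smul])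
    rw [inv_mul_eq_one, eq_mul_inv_iff_mul_eq] at h1
    exact h1
  have key : ∀ (j : ℕ) (F : Subgroup G), F ≤ M → F.relIndex M = j →
      cardFactors (Nat.card (H ⊓ stabilizer G a ⊓ Subgroup.centralizer (F : Set G) : Subgroup G)) ≤
        cardFactors j * Nat.log 2 (Nat.card Ω - 1) := by
    intro j
    induction j using Nat.strong_induction_on with
    | _ j ih =>
    intro F hF hj
    by_cases hMF : M ≤ F
    · have : (H ⊓ stabilizer G a ⊓ Subgroup.centralizer (F : Set G) : Subgroup G) = ⊥ :=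
        eq_bot_iff.2 fun h hh => eq_one_of_commute_of_fix M (fun m hm => hh.2 m (hMF hm)) hh.1.2
      rw [this]
      simp
    obtain ⟨x, hx, hxF⟩ := SetLike.not_le_iff_exists.1 hMF
    set C := (H ⊓ stabilizer G a ⊓ Subgroup.centralizer (F : Set G) : Subgroup G) with hC
    have hF' : F ⊔ Subgroup.zpowers x ≤ M := sup_le hF ((Subgroup.zpowers_le).2 hx)
    have h1 := Subgroup.relIndex_mul_relIndex F (F ⊔ Subgroup.zpowers x) M le_sup_left hF'
    have h2 : F.relIndex (F ⊔ Subgroup.zpowers x) ≠ 0 := Subgroup.index_ne_zero_of_finite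
    have h3 : F.relIndex (F ⊔ Subgroup.zpowers x) ≠ 1 := fun h =>
      hxF (Subgroup.relIndex_eq_one.1 h (Subgroup.mem_sup_right (Subgroup.mem_zpowers x)))
    have h4 : (F ⊔ Subgroup.zpowers x).relIndex M ≠ 0 := Subgroup.index_ne_zero_of_finite
    have h5 := ih _ (by
      rw [← hj, ← h1]
      exact lt_mul_of_one_lt_left (Nat.pos_of_ne_zero h4) (by omega)) _ hF' rfl
    have h6 : 0 < cardFactors (F.relIndex (F ⊔ Subgroup.zpowers x)) := cardFactors_pos_iff_one_lt.2 (by omega)
    have h7 := (stabilizer C (x • a)).card_mul_index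
    have h8 : (stabilizer C (x • a)).index ≤ Nat.card Ω - 1 := by
      rw [index_stabilizer, ← Set.ncard_singleton a, ← Set.ncard_compl]
      refine Set.ncard_le_ncard ?_ (Set.toFinite _)
      rintro _ ⟨g, rfl⟩ h
      have h9 : (g : G) • x • a = (g : G) • a := h.trans g.2.1.2.symm
      exact hxF (hreg x hx (MulAction.injective _ h9) ▸ F.one_mem)
    have h9 : Nat.card (stabilizer C (x • a)) ∣ Nat.card (H ⊓ stabilizer G a ⊓
        Subgroup.centralizer ((F ⊔ Subgroup.zpowers x : Subgroup G) : Set G) : Subgroup G) := by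
      rw [← Subgroup.card_map_of_injective C.subtype_injective]
      refine Subgroup.card_dvd_of_le ?_
      rintro _ ⟨g, hg, rfl⟩
      refine ⟨g.2.1, ?_⟩
      show (g : G) ∈ Subgroup.centralizer ((F ⊔ Subgroup.zpowers x : Subgroup G) : Set G)
      rw [← Subgroup.zpowers_le, Subgroup.le_centralizer_iff]
      refine sup_le (Subgroup.le_centralizer_iff.1 ((Subgroup.zpowers_le).2 g.2.2)) ?_
      rw [Subgroup.zpowers_le, ← Subgroup.zpowers_le, Subgroup.le_centralizer_iff, Subgroup.zpowers_le]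
      rintro _ ⟨k, rfl⟩
      exact (Commute.zpow_left (hiff g g.2.1.1 g.2.1.2 x hx hg) k).eq
    obtain ⟨c, hc⟩ := h9
    have hc0 : c ≠ 0 := by
      rintro rfl
      exact Nat.card_pos.ne' hc
    rw [hc, cardFactors_mul Nat.card_pos.ne' hc0] at h5
    have h10 := cardFactors_le_log (Subgroup.index_ne_zero_of_finite) h8
    rw [← h7, cardFactors_mul Nat.card_pos.ne' Subgroup.index_ne_zero_of_finite, ← hj, ← h1,
      cardFactors_mul h2 h4]
    nlinarith
  have h1 := key _ ⊥ bot_le rfl
  have : IsPretransitive H Ω := ⟨fun x y => by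
    obtain ⟨m, hm⟩ := exists_smul_eq M x y
    exact ⟨⟨m, hMH m.2⟩, hm⟩⟩
  have h2 := card_eq_mul_card_stabilizer (G := H) a
  have h3 : Nat.card (stabilizer H a) =
      Nat.card (H ⊓ stabilizer G a ⊓ Subgroup.centralizer ((⊥ : Subgroup G) : Set G) : Subgroup G) := by
    rw [← Subgroup.card_map_of_injective H.subtype_injective]
    congr 2
    ext g
    constructor
    · rintro ⟨g, hg, rfl⟩
      exact ⟨⟨g.2, hg⟩, fun y hy => by rw [Subgroup.mem_bot.1 hy]; simp⟩
    · exact fun hg => ⟨⟨g, hg.1.1⟩, hg.1.2, rfl⟩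
  have : Nonempty Ω := ⟨a⟩
  rw [Subgroup.relIndex_bot_left, hcM, ← h3] at h1
  rw [h2, cardFactors_mul Nat.card_pos.ne' Nat.card_pos.ne']
  nlinarith

end Regular

theorem fisher_num_aux (L : ℕ) (hL : 5 ≤ L) : 3 * (L * L + 3 * L) + 4 ≤ 4 * 2 ^ L := by
  induction L, hL using Nat.le_induction with
  | base => norm_num
  | succ L hL ih => rw [pow_succ]; nlinarith

theorem fisher_num_one {n : ℕ} (hn : 2 ≤ n) : 3 * (cardFactors n * (1 + Nat.log 2 (n - 1))) + 4 ≤ 4 * n := by
  by_cases h : n < 32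
  · have key : ∀ m < 32, 2 ≤ m → 3 * (m.primeFactorsList.length * (1 + Nat.log 2 (m - 1))) + 4 ≤ 4 * m := by
      intro m h1 h2
      interval_cases m <;> simp [Nat.primeFactorsList_ofNat] <;> norm_num
    exact key n h hn
  · have h1 : 5 ≤ Nat.log 2 n := Nat.le_log_of_pow_le (by norm_num) (by omega)
    have h2 := fisher_num_aux _ h1
    have h3 := Nat.pow_log_le_self 2 (by omega : n ≠ 0)
    have h4 := cardFactors_le_log (by omega : n ≠ 0) le_rfl
    have h5 : Nat.log 2 (n - 1) ≤ Nat.log 2 n := Nat.log_mono_right (by omega)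
    nlinarith

theorem fisher_num_two {n k : ℕ} (hn : 30 ≤ n) (hk : k ≤ 2 * Nat.log 2 n) :
    3 * (k + cardFactors n * (1 + Nat.log 2 (n - 1))) + 4 ≤ 4 * n := by
  have h3 := Nat.pow_log_le_self 2 (by omega : n ≠ 0)
  have h4 := cardFactors_le_log (by omega : n ≠ 0) le_rfl
  have h5 : Nat.log 2 (n - 1) ≤ Nat.log 2 n := Nat.log_mono_right (by omega)
  have h6 : cardFactors n * (1 + Nat.log 2 (n - 1)) ≤ Nat.log 2 n * (1 + Nat.log 2 n) :=
    Nat.mul_le_mul h4 (by omega)
  by_cases h : 5 ≤ Nat.log 2 n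
  · have h2 := fisher_num_aux _ h
    nlinarith
  · have h7 : Nat.log 2 n * (1 + Nat.log 2 n) ≤ 4 * (1 + 4) := Nat.mul_le_mul (by omega) (by omega)
    omega

theorem index_le_card_of_fun {G β : Type*} [Group G] [Finite β] (H : Subgroup G) (f : G → β)
    (hf : ∀ g g', f g = f g' → g⁻¹ * g' ∈ H) : H.index ≤ Nat.card β := by
  refine Nat.card_le_card_of_injective (fun q : G ⧸ H => f q.out) fun q q' h => ?_
  rw [← q.out_eq', ← q'.out_eq']
  exact QuotientGroup.eq.2 (hf _ _ h)

/-- The primitive case. -/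
theorem fisher_primitive {G Ω : Type*} [Group G] [Finite G] [MulAction G Ω] [FaithfulSMul G Ω] [Finite Ω]
    [IsPreprimitive G Ω] [Nontrivial Ω] (a : Ω) (ih : 3 * clen (stabilizer G a) + 8 ≤ 4 * Nat.card Ω) :
    3 * clen G + 4 ≤ 4 * Nat.card Ω := by
  classical
  have hn : 2 ≤ Nat.card Ω := Finite.one_lt_card
  have : Nontrivial G := by
    obtain ⟨b, hb⟩ := exists_ne a
    obtain ⟨g, rfl⟩ := exists_smul_eq G a b
    exact ⟨g, 1, fun h => hb (by rw [h, one_smul])⟩
  obtain ⟨N, hN⟩ := exists_isMinNormal G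
  have := hN.normal
  have : IsPretransitive N Ω := isPretransitive_of_normal_of_ne_bot hN.ne_bot
  have hregular : (∀ m ∈ N, m • a = a → m = 1) → 3 * clen G + 4 ≤ 4 * Nat.card Ω := by
    intro h
    have h1 := cardFactors_le_of_regular N ⊤ le_top (fun g _ m hm => hN.normal.conj_mem m hm g) a h
    rw [Subgroup.card_top] at h1
    have h2 := clen_le_cardFactors G
    have h3 := fisher_num_one hn
    omega
  by_cases hab : IsMulCommutative N
  · refine hregular fun m hm h => eq_one_of_commute_of_fix N (fun x hx => ?_) h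
    exact setLike_mul_comm (s := N) hx hm
  obtain ⟨T, _, m, hT, hTc, _, hm, ⟨e⟩⟩ := exists_simple_pi_of_isMinNormal hN hab
  rcases onan_scott_dichotomy hTc hN e a with ⟨K, -, hK⟩ | ⟨k, c, θ, hk, hc, hD⟩
  · by_cases hK1 : ∃ i, K i = ⊥
    · obtain ⟨i, hi⟩ := hK1
      refine hregular fun x hx h => ?_
      have h1 : e ⟨x, hx⟩ = 1 := funext fun j => by
        obtain ⟨g, π, θ, hg, hπ, rfl⟩ := exists_stabilizer_perm_coord hTc hN e a j i
        have h2 := (hK _).1 ((conjNormal_smul_eq hg ⟨x, hx⟩).2 h) (π j)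
        rw [hi, hπ, Subgroup.mem_bot, map_eq_one_iff _ (θ j).injective] at h2
        exact h2
      exact congrArg Subtype.val ((map_eq_one_iff _ e.injective).1 h1)
    push Not at hK1
    let f : stabilizer G a →* G ⧸ N := (QuotientGroup.mk' N).comp (stabilizer G a).subtype
    have hf : Function.Surjective f := by
      intro q
      obtain ⟨g, rfl⟩ := QuotientGroup.mk'_surjective N q
      obtain ⟨u, hu⟩ := exists_smul_eq N (g • a) a
      refine ⟨⟨u * g, by rw [mem_stabilizer_iff, mul_smul]; exact hu⟩, ?_⟩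
      simp [f, (QuotientGroup.eq_one_iff (u : G)).2 u.2]
    have h1 := clen_eq_add f hf
    have h2 := clen_eq_add _ (QuotientGroup.mk'_surjective N)
    rw [QuotientGroup.ker_mk', clen_congr e, clen_pi] at h2
    have hmem : ∀ x : f.ker, ((x : stabilizer G a) : G) ∈ N := fun x => (QuotientGroup.eq_one_iff _).1 x.2
    let ψ : f.ker →* ∀ i, K i :=
      { toFun := fun x i => ⟨e ⟨_, hmem x⟩ i, (hK ⟨_, hmem x⟩).1 (x : stabilizer G a).2 i⟩
        map_one' := funext fun i => Subtype.ext (congrFun (map_one e) i)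
        map_mul' := fun x y => funext fun i => Subtype.ext (congrFun (map_mul e ⟨_, hmem x⟩ ⟨_, hmem y⟩) i) }
    have hψ : Function.Surjective ψ := by
      intro y
      refine ⟨⟨⟨(e.symm fun i => y i : N), (hK _).2 fun i => by simp⟩,
        (QuotientGroup.eq_one_iff _).2 (Subtype.prop _)⟩, funext fun i => Subtype.ext ?_⟩
      simp [ψ]
    have h3 := clen_eq_add ψ hψ
    rw [clen_pi] at h3
    have h4 : ∑ i : Fin m, clen T ≤ ∑ i, clen (K i) := Finset.sum_le_sum fun i _ => by
      have := (Subgroup.nontrivial_iff_ne_bot _).2 (hK1 i)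
      exact clen_le_one.trans one_le_clen
    omega
  · have : Nonempty (Fin m) := ⟨⟨0, hm⟩⟩
    let r : Fin m → Fin m := fun i => Function.invFun c (c i)
    have hr : ∀ i, c (r i) = c i := fun i => Function.invFun_eq ⟨i, rfl⟩
    have hrr : ∀ i, r (r i) = r i := fun i => by simp only [r] at hr ⊢; rw [hr]
    let MJ : Set (Fin m) → Subgroup G := fun J => (⨅ i ∈ J, (coord e i).ker).map N.subtype
    have hMJ : ∀ (J) (x : N), (x : G) ∈ MJ J ↔ ∀ i ∈ J, e x i = 1 := fun J x => by
      constructor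
      · rintro ⟨y, hy, h⟩
        obtain rfl : y = x := Subtype.ext h
        simpa [Subgroup.mem_iInf] using hy
      · exact fun h => ⟨x, by simpa [Subgroup.mem_iInf] using h, rfl⟩
    have hMJN : ∀ J, MJ J ≤ N := fun J => Subgroup.map_subtype_le _
    let R : Set (Fin m) := {i | r i = i}
    have hreg : ∀ x ∈ MJ R, x • a = a → x = 1 := by
      intro x hx h
      have h1 : e ⟨x, hMJN R hx⟩ = 1 := funext fun i => by
        have h2 := (hD ⟨x, hMJN R hx⟩).1 h i (r i) (hr i).symm
        rw [(hMJ R ⟨x, hMJN R hx⟩).1 hx (r i) (hrr i), map_one, map_eq_one_iff _ (θ i).injective] at h2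
        exact h2
      exact congrArg Subtype.val ((map_eq_one_iff _ e.injective).1 h1)
    have horb : ∀ b, ∃ x : MJ R, x • a = b := by
      intro b
      obtain ⟨u, rfl⟩ := exists_smul_eq N a b
      let d : N := e.symm fun i => (θ i).symm (θ (r i) (e u (r i)))
      have hd : d • a = a := (hD d).2 fun i j hij => by
        have : r i = r j := by simp only [r, hij]
        simp [d, this]
      refine ⟨⟨(u * d⁻¹ : N), (hMJ R _).2 fun i hi => ?_⟩, ?_⟩
      · have : r i = i := hi
        simp [d, this]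
      · show (u * d⁻¹) • a = u • a
        rw [mul_smul, inv_smul_eq_iff.2 hd.symm]
    have : IsPretransitive (MJ R) Ω := ⟨fun x y => by
      obtain ⟨u, rfl⟩ := horb x
      obtain ⟨v, rfl⟩ := horb y
      exact ⟨v * u⁻¹, by rw [mul_smul, inv_smul_smul]⟩⟩
    have h1 := cardFactors_le_of_regular (MJ R) (Subgroup.normalizer (MJ R : Set G)) Subgroup.le_normalizer
      (fun g hg x hx => (Subgroup.mem_normalizer_iff.1 hg x).1 hx) a hreg
    choose π θ' hπ using fun g : G => exists_perm_coord hTc e (MulAut.conjNormal g)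
    have hconj : ∀ (g : G) (x : N), (x : G) ∈ MJ R ↔ g * x * g⁻¹ ∈ MJ (π g '' R) := fun g x => by
      rw [hMJ, show g * x * g⁻¹ = (MulAut.conjNormal g x : N) from rfl, hMJ, Set.forall_mem_image]
      refine forall₂_congr fun i _ => ?_
      rw [hπ, map_eq_one_iff _ (θ' g i).injective]
    have h2 := index_le_card_of_fun (Subgroup.normalizer (MJ R : Set G)) (fun g => π g '' R) fun g g' h => by
      refine Subgroup.mem_normalizer_fintype fun x hx => ?_
      have h3 := (hconj g' ⟨x, hMJN R hx⟩).1 hx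
      rw [← show π g '' R = π g' '' R from h] at h3
      refine (hconj g (MulAut.conjNormal (g⁻¹ * g') ⟨x, hMJN R hx⟩)).2 ?_
      rwa [show g * (MulAut.conjNormal (g⁻¹ * g') (⟨x, hMJN R hx⟩ : N) : N) * g⁻¹ = g' * x * g'⁻¹ by
        show g * (g⁻¹ * g' * x * (g⁻¹ * g')⁻¹) * g⁻¹ = _
        group]
    have h3 := cardFactors_le_log Subgroup.index_ne_zero_of_finite h2
    rw [Nat.card_eq_fintype_card (α := Set (Fin m)), Fintype.card_set, Fintype.card_fin,
      Nat.log_pow (by norm_num)] at h3
    have h4 := clen_le_cardFactors G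
    rw [← (Subgroup.normalizer (MJ R : Set G)).card_mul_index,
      cardFactors_mul Nat.card_pos.ne' Subgroup.index_ne_zero_of_finite] at h4
    have hcM : Nat.card (MJ R) = Nat.card Ω :=
      card_eq_of_regular a (eq_bot_iff.2 fun m hm => Subtype.ext (hreg m m.2 hm))
    have h5 : Nat.card T ^ Nat.card {i // i ∉ R} ≤ Nat.card Ω := by
      rw [← hcM, ← Nat.card_fun]
      refine Nat.card_le_card_of_injective (fun y => ⟨(e.symm fun i => if h : i ∈ R then 1 else y ⟨i, h⟩ : N),
        (hMJ R _).2 fun i hi => by simp [hi]⟩) fun y z h => funext fun i => ?_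
      have h5 : ((e.symm fun i => if h : i ∈ R then 1 else y ⟨i, h⟩ : N) : G) =
          (e.symm fun i => if h : i ∈ R then 1 else z ⟨i, h⟩ : N) := congrArg (fun u : MJ R => (u : G)) h
      have h6 := congrFun (e.symm.injective (Subtype.ext h5)) i
      simpa [i.2] using h6
    have h6 : Nat.card {i // i ∈ R} ≤ Nat.card {i // i ∉ R} := by
      have h7 : ∀ i : {i // i ∈ R}, ∃ j : {i // i ∉ R}, r j = i := by
        intro i
        have h8 : Nontrivial {l // c l = c i} := Finite.one_lt_card_iff_nontrivial.1 (by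
          have : Nonempty {l // c l = c i} := ⟨⟨i, rfl⟩⟩
          have : 0 < Nat.card {l // c l = c i} := Nat.card_pos
          rcases hc (c i) with h | h <;> omega)
        obtain ⟨j, hj⟩ := exists_ne (⟨i, rfl⟩ : {l // c l = c i})
        have h9 : r j = i := by
          have : r j = r i := by simp only [r, j.2]
          rw [this]; exact i.2
        exact ⟨⟨j, fun h => hj (Subtype.ext ((show r j = j from h).symm.trans h9))⟩, h9⟩
      choose s hs using h7
      exact Nat.card_le_card_of_injective s fun i j h => Subtype.ext (by rw [← hs, ← hs, h])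
    have h7 : Nat.card {i // i ∈ R} + Nat.card {i // i ∉ R} = m := by
      rw [Nat.card_eq_fintype_card, Nat.card_eq_fintype_card, Fintype.card_subtype_compl, Fintype.card_fin]
      have := Fintype.card_subtype_le (· ∈ R)
      rw [Fintype.card_fin] at this
      omega
    have h8 : 30 ≤ Nat.card T := thirty_le_card_of_not_isSolvable fun h =>
      hTc ⟨⟨IsSimpleGroup.comm_iff_isSolvable.2 h⟩⟩
    have h9 : Nat.card {i // i ∉ R} ≤ Nat.log 2 (Nat.card Ω) :=
      Nat.le_log_of_pow_le (by norm_num) ((Nat.pow_le_pow_left (by omega) _).trans h5)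
    have h10 : Nat.card T ≤ Nat.card Ω := (Nat.le_self_pow (by omega) _).trans h5
    have h11 := fisher_num_two (n := Nat.card Ω) (k := m) (by omega) (by omega)
    omega

/-- Fisher's bound, for a surjective invariant map to `β`. -/
theorem fisher_bound (s : ℕ) : ∀ (G Ω : Type) [Group G] [Finite G] [MulAction G Ω] [FaithfulSMul G Ω] [Finite Ω],
    Nat.card G + Nat.card Ω = s → ∀ (β : Type) (φ : Ω → β), Function.Surjective φ →
    (∀ (g : G) x, φ (g • x) = φ x) → 3 * clen G + 4 * Nat.card β ≤ 4 * Nat.card Ω := by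
  induction s using Nat.strong_induction_on with
  | _ s ih =>
  intro G Ω _ _ _ _ _ hs β φ hφ hinv
  have : Finite β := Finite.of_surjective φ hφ
  have hrange : ∀ (X : Type) [MulAction G X] [Finite X] [Nonempty X], Nat.card X < Nat.card Ω →
      3 * clen (toPermHom G X).range + 4 ≤ 4 * Nat.card X := by
    intro X _ _ _ hX
    have h1 := Nat.card_le_card_of_surjective _ (toPermHom G X).rangeRestrict_surjective
    have := ih _ (by omega) (toPermHom G X).range X rfl Unit (fun _ => ()) (fun _ => ⟨Classical.arbitrary X, rfl⟩)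
      fun _ _ => rfl
    simpa using this
  have hsplit : ∀ (β : Type) (φ : Ω → β), Function.Surjective φ → (∀ (g : G) x, φ (g • x) = φ x) →
      Nontrivial β → 3 * clen G + 4 * Nat.card β ≤ 4 * Nat.card Ω := by
    intro β φ hφ hinv _
    classical
    have : Finite β := Finite.of_surjective φ hφ
    obtain ⟨b, b', hb⟩ := exists_pair_ne β
    let O : SubMulAction G Ω := ⟨{x | φ x = b}, fun g x hx => (hinv g x).trans hx⟩
    let O' : SubMulAction G Ω := ⟨{x | φ x ≠ b}, fun g x hx => (hinv g x).trans_ne hx⟩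
    have hc : Nat.card O + Nat.card O' = Nat.card Ω := by
      rw [← Nat.card_sum]
      exact Nat.card_congr (Equiv.sumCompl fun x => φ x = b)
    have : Nonempty O := let ⟨x, hx⟩ := hφ b; ⟨⟨x, hx⟩⟩
    have : Nonempty O' := let ⟨x, hx⟩ := hφ b'; ⟨⟨x, hx.trans_ne hb.symm⟩⟩
    have p1 : 0 < Nat.card O := Nat.card_pos
    have p2 : 0 < Nat.card O' := Nat.card_pos
    have h1 := hrange O (by omega)
    have : FaithfulSMul (toPermHom G O).ker O' := ⟨fun {g h} hgh => Subtype.ext (
      FaithfulSMul.eq_of_smul_eq_smul (α := Ω) fun x => by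
        by_cases hx : φ x = b
        · exact (congrArg Subtype.val (DFunLike.congr_fun g.2 (⟨x, hx⟩ : O))).trans
            (congrArg Subtype.val (DFunLike.congr_fun h.2 (⟨x, hx⟩ : O))).symm
        · exact congrArg Subtype.val (hgh ⟨x, hx⟩))⟩
    have h2 := Nat.card_le_card_of_injective _ (toPermHom G O).ker.subtype_injective
    have h3 := ih _ (by omega) (toPermHom G O).ker O' rfl {y // y ≠ b} (fun x => ⟨φ x, x.2⟩)
      (fun y => let ⟨x, hx⟩ := hφ y; ⟨⟨x, hx.trans_ne y.2⟩, Subtype.ext hx⟩)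
      fun g x => Subtype.ext (hinv g x)
    have h4 : Nat.card {y // y ≠ b} + 1 = Nat.card β := by
      have := Fintype.ofFinite β
      rw [Nat.card_eq_fintype_card, Nat.card_eq_fintype_card, Fintype.card_subtype_compl,
        Fintype.card_subtype_eq]
      have : 0 < Fintype.card β := Fintype.card_pos
      omega
    have h5 := clen_eq_add_range (toPermHom G O)
    omega
  rcases subsingleton_or_nontrivial β with hβ | hβ
  swap
  · exact hsplit β φ hφ hinv hβ
  rcases subsingleton_or_nontrivial Ω with hΩ | hΩ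
  · have : Subsingleton G := ⟨fun g h => FaithfulSMul.eq_of_smul_eq_smul (α := Ω) fun x => Subsingleton.elim _ _⟩
    have := Nat.card_le_card_of_surjective φ hφ
    rw [clen_eq_zero]
    omega
  have hβ1 : Nat.card β ≤ 1 := Finite.card_le_one_iff_subsingleton.2 hβ
  suffices 3 * clen G + 4 ≤ 4 * Nat.card Ω by omega
  by_cases htr : IsPretransitive G Ω
  swap
  · have h1 : Nontrivial (orbitRel.Quotient G Ω) := by
      by_contra hc
      rw [not_nontrivial_iff_subsingleton] at hc
      refine htr ⟨fun x y => ?_⟩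
      exact Quotient.exact (hc.elim (Quotient.mk (orbitRel G Ω) y) (Quotient.mk (orbitRel G Ω) x))
    have h2 := hsplit (orbitRel.Quotient G Ω) (Quotient.mk _) Quotient.mk_surjective
      (fun g x => Quotient.sound ⟨g, rfl⟩) h1
    have : Finite (orbitRel.Quotient G Ω) := Quotient.finite _
    have : 0 < Nat.card (orbitRel.Quotient G Ω) := Nat.card_pos
    omega
  obtain ⟨a, b, hab⟩ := exists_pair_ne Ω
  have hst : stabilizer G a ≠ ⊤ := by
    obtain ⟨g, rfl⟩ := exists_smul_eq G a b
    exact fun h => hab (h ▸ Subgroup.mem_top g : g ∈ stabilizer G a).symm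
  by_cases hco : IsCoatom (stabilizer G a)
  · have := (isCoatom_stabilizer_iff_preprimitive G a).1 hco
    refine fisher_primitive a ?_
    have h1 := card_subgroup_lt hst
    have h2 := ih _ (by omega) (stabilizer G a) Ω rfl Prop (fun x => x = a)
      (fun p => by
        by_cases hp : p
        · exact ⟨a, by simp [hp]⟩
        · exact ⟨b, by simp [hp, hab.symm]⟩)
      fun g x => propext ⟨fun h => MulAction.injective (g : G) (h.trans g.2.symm), fun h => h ▸ g.2⟩
    simpa using h2
  obtain ⟨H, hH1, hH2⟩ : ∃ H, stabilizer G a < H ∧ H ≠ ⊤ := by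
    by_contra hc
    exact hco ⟨hst, fun H hH => by_contra fun h => hc ⟨H, hH, h⟩⟩
  have hidx : H.index < Nat.card Ω := by
    rw [← index_stabilizer_of_transitive G a]
    exact Subgroup.index_strictAnti hH1
  have h1 := hrange (G ⧸ H) hidx
  choose t ht using fun x => exists_smul_eq G a x
  have hφ' : ∀ (g : G) x, (t (g • x) : G ⧸ H) = g • (t x : G ⧸ H) := fun g x => by
    refine QuotientGroup.eq.2 (hH1.le ?_)
    show ((t (g • x))⁻¹ * (g * t x)) • a = a
    rw [mul_smul, mul_smul, ht, inv_smul_eq_iff, ht]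
  have h2 : (toPermHom G (G ⧸ H)).ker ≠ ⊤ := fun h => hH2 (eq_top_iff.2 fun g _ => by
    have h3 : g • ((1 : G) : G ⧸ H) = (1 : G) :=
      DFunLike.congr_fun (h ▸ Subgroup.mem_top g : g ∈ (toPermHom G (G ⧸ H)).ker) ((1 : G) : G ⧸ H)
    simpa using QuotientGroup.eq.1 h3.symm)
  have h3 := card_subgroup_lt h2
  have h4 := ih _ (by omega) (toPermHom G (G ⧸ H)).ker Ω rfl (G ⧸ H) (fun x => t x)
    (fun q => by
      obtain ⟨g, hg⟩ := exists_smul_eq G (t a : G ⧸ H) q
      exact ⟨g • a, (hφ' g a).trans hg⟩)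
    fun g x => (hφ' g x).trans (DFunLike.congr_fun g.2 (t x : G ⧸ H))
  have h5 := clen_eq_add_range (toPermHom G (G ⧸ H))
  omega

end CL.Perm
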