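/-
Groups whose prime graph is shared by boundedly many groups: no normal subgroup with complete prime
graph, minimal normal subgroups are simple, and the coinduced-module criterion.
-/
import Cfsg.Agent.Perm.SpecAffine
import Cfsg.Agent.Perm.PrimONS

set_option autoImplicit false

namespace CL.Perm.GKA

open Cfsg CL.Grp Subgroup

/-- The groups with the prime graph of `H` have bounded order. -/
def Bdd (H : Type*) [Group H] : Prop :=
  ∃ n : ℕ, ∀ (K : Type) [Group K] [Finite K], SamePG H K → Nat.card K ≤ n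

theorem samePG_refl (H : Type*) [Group H] : SamePG H H := samePG_congr (MulEquiv.refl H)

theorem Bdd.of_same {G H : Type*} [Group G] [Group H] (h : Bdd G) (e : SamePG G H) : Bdd H :=
  let ⟨n, hn⟩ := h
  ⟨n, fun K _ _ hK => hn K (e.trans hK)⟩

theorem edge {K : Type*} [Group K] {r s : ℕ} (hr : r.Prime) (hs : s.Prime) (hrs : r ≠ s) {a c : K}
    (ha : a ^ r = 1) (ha1 : a ≠ 1) (hc : c ^ s = 1) (hc1 : c ≠ 1) (h : Commute a c) :
    r * s ∈ Spec K := by
  have := Fact.mk hr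
  have := Fact.mk hs
  have h1 := orderOf_eq_prime ha ha1
  have h2 := orderOf_eq_prime hc hc1
  have h3 := mul_mem_spec_of_commute h (by rw [h1, h2]; exact (Nat.coprime_primes hr hs).2 hrs)
  rwa [h1, h2] at h3

theorem dvd_card_of_mem {K : Type*} [Group K] {N : Subgroup K} {r : ℕ} (hr : r.Prime) {a : K}
    (ha : a ^ r = 1) (ha1 : a ≠ 1) (hN : a ∈ N) : r ∣ Nat.card N := by
  have := Fact.mk hr
  rw [← orderOf_eq_prime ha ha1]
  exact N.orderOf_dvd_natCard hN

theorem samePG_double {K : Type*} [Group K] [Finite K] (N : Subgroup K) [N.Normal]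
    (hc : ∀ r s : ℕ, r.Prime → s.Prime → r ≠ s → r ∣ Nat.card N → s ∣ Nat.card N → r * s ∈ Spec K) :
    SamePG K (N ⋊[MulAut.conjNormal] K) := by
  have hfin : Finite (N ⋊[MulAut.conjNormal] K) :=
    Finite.of_equiv _ SemidirectProduct.equivProd.symm
  have hcard : Nat.card (N ⋊[MulAut.conjNormal] K) = Nat.card N * Nat.card K := by
    rw [Nat.card_congr SemidirectProduct.equivProd, Nat.card_prod]
  refine ⟨fun p hp => ?_, fun r s hr hs hrs =>
    ⟨fun h => spec_subset_of_injective _ SemidirectProduct.inr_injective h, fun h => ?_⟩⟩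
  · rw [hcard, hp.dvd_mul]
    exact ⟨Or.inr, fun h => h.elim (fun h => h.trans N.card_subgroup_dvd_card) id⟩
  obtain ⟨x, y, hx, hy, hxy⟩ := (exists_orderOf_mul_iff ((Nat.coprime_primes hr hs).2 hrs)).1 h
  have hi := conjSemidirectHom_injective N
  set f := conjSemidirectHom N with hf
  have hm : ∀ z, (f z).1 * ((f z).2)⁻¹ ∈ N := fun z => by
    simp [hf, conjSemidirectHom]
  have hp : ∀ z n, orderOf z = n → (f z).1 ^ n = 1 ∧ (f z).2 ^ n = 1 := fun z n hz => by
    have : f z ^ n = 1 := by rw [← map_pow, ← hz, pow_orderOf_eq_one, map_one]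
    exact ⟨congrArg Prod.fst this, congrArg Prod.snd this⟩
  have hn : ∀ z n, orderOf z = n → n.Prime → (f z).1 = 1 → (f z).2 ≠ 1 := fun z n hz hn h1 h2 => by
    have : z = 1 := hi (by rw [map_one]; exact Prod.ext h1 h2)
    rw [this, orderOf_one] at hz
    exact hn.one_lt.ne hz
  have hc1 : Commute (f x).1 (f y).1 := congrArg Prod.fst (hxy.map f)
  have hc2 : Commute (f x).2 (f y).2 := congrArg Prod.snd (hxy.map f)
  obtain ⟨a1, a2⟩ := hp x r hx
  obtain ⟨c1, c2⟩ := hp y s hy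
  have l1 : ∀ z n, orderOf z = n → n.Prime → (f z).1 = 1 → n ∣ Nat.card N := fun z n hz hn' h1 => by
    have := hm z
    rw [h1, one_mul, N.inv_mem_iff] at this
    exact dvd_card_of_mem hn' (hp z n hz).2 (hn z n hz hn' h1) this
  have l2 : ∀ z n, orderOf z = n → n.Prime → (f z).2 = 1 → n ∣ Nat.card N := fun z n hz hn' h1 => by
    have := hm z
    rw [h1, inv_one, mul_one] at this
    exact dvd_card_of_mem hn' (hp z n hz).1 (fun h => hn z n hz hn' h h1) this
  by_cases e1 : (f x).1 = 1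
  · by_cases e2 : (f y).2 = 1
    · exact hc r s hr hs hrs (l1 x r hx hr e1) (l2 y s hy hs e2)
    · exact edge hr hs hrs a2 (hn x r hx hr e1) c2 e2 hc2
  by_cases e3 : (f y).1 = 1
  · by_cases e2 : (f x).2 = 1
    · exact hc r s hr hs hrs (l2 x r hx hr e2) (l1 y s hy hs e3)
    · exact edge hr hs hrs a2 e2 c2 (hn y s hy hs e3) hc2
  exact edge hr hs hrs a1 e1 c1 e3 hc1

variable {H : Type*} [Group H] [Finite H]

theorem Bdd.not_solv (hB : Bdd H) (N : Subgroup H) [N.Normal] (hN : N ≠ ⊥) :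
    ¬ Group.IsSolvable N := fun hs => by
  obtain ⟨n, hn⟩ := hB
  obtain ⟨K, _, _, h1, h2⟩ := exists_large_samePG' N hN hs (samePG_refl H) n
  exact (hn K h2).not_gt h1

theorem Bdd.not_clique (hB : Bdd H) (N : Subgroup H) [N.Normal] (hN : N ≠ ⊥)
    (hc : ∀ r s : ℕ, r.Prime → s.Prime → r ≠ s → r ∣ Nat.card N → s ∣ Nat.card N → r * s ∈ Spec H) :
    False := by
  have key : ∀ k : ℕ, ∃ (K : Type) (_ : Group K) (_ : Finite K) (N' : Subgroup K) (_ : N'.Normal),
      Nat.card N' = Nat.card N ∧ SamePG H K ∧ k < Nat.card K := fun k => by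
    induction k with
    | zero =>
      obtain ⟨K, _, _, ⟨e⟩⟩ := exists_small_model H
      exact ⟨K, inferInstance, inferInstance, N.map (e : H →* K), Normal.map inferInstance _ e.surjective,
        card_map_of_injective e.injective, samePG_congr e, Nat.card_pos⟩
    | succ k ih =>
      obtain ⟨K, _, _, W, _, hW, hs, hk⟩ := ih
      have hfin : Finite (W ⋊[MulAut.conjNormal] K) :=
        Finite.of_equiv _ SemidirectProduct.equivProd.symm
      refine ⟨W ⋊[MulAut.conjNormal] K, inferInstance, hfin,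
        (SemidirectProduct.rightHom : W ⋊[MulAut.conjNormal] K →* K).ker, inferInstance, ?_,
        hs.trans (samePG_double W fun r s hr hs' hrs h1 h2 => ?_), ?_⟩
      · rw [← SemidirectProduct.range_inl_eq_ker_rightHom, ← hW]
        exact (Nat.card_congr (MonoidHom.ofInjective SemidirectProduct.inl_injective).toEquiv).symm
      · exact (hs.2 r s hr hs' hrs).1 (hc r s hr hs' hrs (hW ▸ h1) (hW ▸ h2))
      · rw [Nat.card_congr SemidirectProduct.equivProd, Nat.card_prod, hW]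
        have : 1 < Nat.card N := (one_lt_card_iff_ne_bot N).2 hN
        nlinarith
  obtain ⟨n, hn⟩ := hB
  obtain ⟨K, _, _, -, -, -, h2, h1⟩ := key n
  exact (hn K h2).not_gt h1

theorem Bdd.not_comm (hB : Bdd H) {M : Subgroup H} (hM : IsMinNormal M) : ¬ IsMulCommutative M :=
  fun hc => by
    have := hM.normal
    exact hB.not_solv M hM.ne_bot (Group.isSolvable_of_comm hc.1.1)

theorem Bdd.simple (hB : Bdd H) {M : Subgroup H} (hM : IsMinNormal M) : IsSimpleGroup M := by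
  have := hM.normal
  obtain ⟨T, _, m, hT, -, _, hm, ⟨e⟩⟩ := exists_simple_pi_of_isMinNormal hM (hB.not_comm hM)
  obtain _ | _ | m := m
  · omega
  · exact (e.trans (MulEquiv.piUnique fun _ : Fin 1 => T)).isSimpleGroup
  exfalso
  refine hB.not_clique M hM.ne_bot fun r s hr hs hrs h1 h2 => ?_
  rw [Nat.card_congr e.toEquiv, Nat.card_fun] at h1 h2
  have := Fact.mk hr
  have := Fact.mk hs
  obtain ⟨x, hx⟩ := exists_prime_orderOf_dvd_card' r (hr.dvd_of_dvd_pow h1)
  obtain ⟨y, hy⟩ := exists_prime_orderOf_dvd_card' s (hs.dvd_of_dvd_pow h2)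
  have ho : ∀ (i : Fin (m + 2)) (z : T), orderOf (Pi.mulSingle i z : Fin (m + 2) → T) = orderOf z :=
    fun i z => orderOf_injective (MonoidHom.mulSingle (fun _ : Fin (m + 2) => T) i)
      (Pi.mulSingle_injective (M := fun _ : Fin (m + 2) => T) i) z
  have h3 := mul_mem_spec_of_commute
    (Pi.mulSingle_commute (f := fun _ : Fin (m + 2) => T) (i := 0) (j := 1) (by simp) x y)
    (by rw [ho, ho, hx, hy]; exact (Nat.coprime_primes hr hs).2 hrs)
  rw [ho, ho, hx, hy, ← spec_congr e] at h3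
  exact spec_subgroup_subset M h3

/-- The functions `H → A` that are equivariant for `Y` and constant on cosets of `M`. -/
def coW (A Y M : Subgroup H) : Subgroup (H → H) where
  carrier := {f | (∀ h, f h ∈ A) ∧ ∀ y ∈ Y, ∀ m ∈ M, ∀ h, f (y * m * h) = y * f h * y⁻¹}
  one_mem' := ⟨fun _ => A.one_mem, fun y _ m _ h => by simp⟩
  mul_mem' := fun {f g} hf hg => ⟨fun h => A.mul_mem (hf.1 h) (hg.1 h), fun y hy m hm h => by
    simp only [Pi.mul_apply, hf.2 y hy m hm, hg.2 y hy m hm]; group⟩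
  inv_mem' := fun {f} hf => ⟨fun h => A.inv_mem (hf.1 h), fun y hy m hm h => by
    simp only [Pi.inv_apply, hf.2 y hy m hm]; group⟩

/-- Right translation. -/
def coT (A Y M : Subgroup H) (g : H) : coW A Y M →* coW A Y M where
  toFun f := ⟨fun h => f.1 (h * g), fun h => f.2.1 _, fun y hy m hm h => by
    beta_reduce
    rw [mul_assoc (y * m), f.2.2 y hy m hm]⟩
  map_one' := rfl
  map_mul' _ _ := rfl

omit [Finite H] in
theorem coW_nontrivial {A Y M : Subgroup H} [hM : M.Normal] (hA : A ≠ ⊥) (hY : Y ≤ normalizer (A : Set H))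
    (hYM : Y ⊓ M ≤ centralizer (A : Set H)) : Nontrivial (coW A Y M) := by
  classical
  obtain ⟨⟨a, ha⟩, ha1⟩ := ne_bot_iff_exists_ne_one.1 hA
  let f : H → H := fun h => if hh : ∃ y ∈ Y, y⁻¹ * h ∈ M then hh.choose * a * hh.choose⁻¹ else 1
  have h1 : ∀ h y, y ∈ Y → y⁻¹ * h ∈ M → f h = y * a * y⁻¹ := fun h y hy hm => by
    have hh : ∃ y ∈ Y, y⁻¹ * h ∈ M := ⟨y, hy, hm⟩
    obtain ⟨h2, h3⟩ := hh.choose_spec
    simp only [f, dif_pos hh]
    set z := hh.choose
    have h4 : y⁻¹ * z ∈ M := by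
      have := M.mul_mem hm (M.inv_mem h3)
      rwa [show y⁻¹ * h * (z⁻¹ * h)⁻¹ = y⁻¹ * z by group] at this
    have h5 := hYM ⟨Y.mul_mem (Y.inv_mem hy) h2, h4⟩ a ha
    calc z * a * z⁻¹ = y * ((y⁻¹ * z) * a) * z⁻¹ := by group
      _ = y * a * y⁻¹ := by rw [← h5]; group
  have h2 : ∀ h, (¬ ∃ y ∈ Y, y⁻¹ * h ∈ M) → f h = 1 := fun h hh => dif_neg hh
  refine nontrivial_of_ne ⟨f, fun h => ?_, fun y hy m hm h => ?_⟩ 1 fun e => ha1 (Subtype.ext ?_)
  · by_cases hh : ∃ y ∈ Y, y⁻¹ * h ∈ M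
    · obtain ⟨y, hy, hm⟩ := hh
      rw [h1 h y hy hm]
      exact (mem_normalizer_iff.1 (hY hy) a).1 ha
    · rw [h2 h hh]; exact A.one_mem
  · by_cases hh : ∃ y ∈ Y, y⁻¹ * h ∈ M
    · obtain ⟨z, hz, hm'⟩ := hh
      rw [h1 h z hz hm', h1 _ (y * z) (Y.mul_mem hy hz)]
      · group
      · have := M.mul_mem (hM.conj_mem _ hm z⁻¹) hm'
        rwa [show z⁻¹ * m * z⁻¹⁻¹ * (z⁻¹ * h) = (y * z)⁻¹ * (y * m * h) by group] at this
    · have h3 : ¬ ∃ z ∈ Y, z⁻¹ * (y * m * h) ∈ M := fun ⟨z, hz, hm'⟩ => by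
        refine hh ⟨y⁻¹ * z, Y.mul_mem (Y.inv_mem hy) hz, ?_⟩
        have := M.mul_mem hm' (hM.conj_mem _ (M.inv_mem hm) h⁻¹)
        rwa [show z⁻¹ * (y * m * h) * (h⁻¹ * m⁻¹ * h⁻¹⁻¹) = (y⁻¹ * z)⁻¹ * h by group] at this
      rw [h2 h hh, h2 _ h3]
      group
  · have h3 : f 1 = 1 := congrFun (congrArg Subtype.val e) 1
    rw [h1 1 1 Y.one_mem (by simp)] at h3
    simpa using h3

/-- The coinduced-module criterion. -/
theorem Bdd.coind (hB : Bdd H) {p : ℕ} (hp : p.Prime) {A Y M : Subgroup H} [M.Normal] (hA : A ≠ ⊥)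
    (hAc : ∀ a ∈ A, ∀ b ∈ A, a * b = b * a) (hAp : ∀ a ∈ A, a ^ p = 1)
    (hY : Y ≤ normalizer (A : Set H)) (hYM : Y ⊓ M ≤ centralizer (A : Set H))
    (hx : ∀ x : H, (orderOf x).Prime → orderOf x ≠ p → p * orderOf x ∉ Spec H →
      ∃ y ∈ Y, orderOf y = orderOf x ∧ y⁻¹ * x ∈ M) : False := by
  have := coW_nontrivial hA hY hYM
  let _ : CommGroup (coW A Y M) :=
    { (inferInstance : Group (coW A Y M)) with
      mul_comm := fun f g => Subtype.ext (funext fun h => hAc _ (f.2.1 h) _ (g.2.1 h)) }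
  let ρ : H →* AddMonoid.End (Additive (coW A Y M)) :=
    { toFun := fun g => MonoidHom.toAdditive (coT A Y M g)
      map_one' := AddMonoidHom.ext fun f => Subtype.ext (funext fun h => congrArg f.1 (mul_one h))
      map_mul' := fun g g' =>
        AddMonoidHom.ext fun f => Subtype.ext (funext fun h => congrArg f.1 (mul_assoc h g g').symm) }
  have hpH : p ∣ Nat.card H := by
    obtain ⟨⟨a, ha⟩, ha1⟩ := ne_bot_iff_exists_ne_one.1 hA
    exact (dvd_card_of_mem hp (hAp a ha) (fun e => ha1 (Subtype.ext e)) ha).trans A.card_subgroup_dvd_card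
  have hs : SamePG H (Aff ρ) := by
    refine Aff.samePG hp (fun f => Subtype.ext (funext fun h => hAp _ (f.2.1 h))) hpH fun g hg hgp => ?_
    by_cases he : p * orderOf g ∈ Spec H
    · exact Or.inr he
    refine Or.inl fun f hf => Subtype.ext (funext fun h => ?_)
    have h1 : f.1 (h * g) = f.1 h := congrFun (congrArg Subtype.val hf) h
    have h2 : orderOf (h * g * h⁻¹) = orderOf g := (SemiconjBy.orderOf_eq h (by simp [SemiconjBy])).symm
    obtain ⟨y, hy, h3, h4⟩ := hx (h * g * h⁻¹) (h2 ▸ hg) (h2 ▸ hgp) (h2 ▸ he)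
    have h5 := f.2.2 y hy _ h4 h
    rw [show y * (y⁻¹ * (h * g * h⁻¹)) * h = h * g by group, h1] at h5
    by_contra h6
    rw [h2] at h3
    refine he (edge hp hg (Ne.symm hgp) (hAp _ (f.2.1 h)) h6 (h3 ▸ pow_orderOf_eq_one y) (fun e => ?_) ?_)
    · rw [e, orderOf_one] at h3
      exact hg.one_lt.ne h3
    · exact eq_mul_inv_iff_mul_eq.1 h5
  obtain ⟨n, hn⟩ := hB
  obtain ⟨K, _, _, h1, h2⟩ := Aff.exists_large_samePG_aff' hs n
  exact (hn K h2).not_gt h1

end CL.Perm.GKA
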