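/-
Lemmas on supplements of a normal subgroup and on the transfer, for the prime graph theorem.
-/
import Cfsg.Agent.Perm.GKAlmA
import Cfsg.Agent.Perm.SpecThree
import Cfsg.Agent.Char.CN2
import Cfsg.Agent.Grp.Fitting

set_option autoImplicit false

namespace CL.Perm.GKA

open Cfsg CL.Grp Subgroup

variable {H : Type*} [Group H] [Finite H]

theorem exists_omega {q : ℕ} [hq : Fact q.Prime] {Q F : Subgroup H} (hQF : Q ≤ F)
    (hF : Group.IsNilpotent F) (hn : F ≤ normalizer (Q : Set H)) (hQ : IsPGroup q Q) (hQ1 : Q ≠ ⊥) :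
    ∃ A : Subgroup H, A ≠ ⊥ ∧ A ≤ Q ∧ (∀ a ∈ A, ∀ b ∈ A, a * b = b * a) ∧ (∀ a ∈ A, a ^ q = 1) ∧
      F ≤ centralizer (A : Set H) ∧
      normalizer (Q : Set H) ⊓ normalizer (F : Set H) ≤ normalizer (A : Set H) := by
  let A : Subgroup H :=
    { carrier := {x | x ∈ Q ∧ x ∈ centralizer (F : Set H) ∧ x ^ q = 1}
      one_mem' := ⟨Q.one_mem, one_mem _, one_pow _⟩
      mul_mem' := fun {a b} ha hb => ⟨Q.mul_mem ha.1 hb.1, mul_mem ha.2.1 hb.2.1, by
        rw [Commute.mul_pow (hb.2.1 a (hQF ha.1)), ha.2.2, hb.2.2, one_mul]⟩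
      inv_mem' := fun {a} ha => ⟨Q.inv_mem ha.1, inv_mem ha.2.1, by rw [inv_pow, ha.2.2, inv_one]⟩ }
  refine ⟨A, ?_, fun a ha => ha.1, fun a ha b hb => hb.2.1 a (hQF ha.1), fun a ha => ha.2.2,
    fun f hf a ha => (ha.2.1 f hf).symm, fun g hg => ?_⟩
  · have : (Q.subgroupOf F).Normal := normal_subgroupOf_of_le_normalizer hn
    have h1 := inf_centralizer_ne_bot_of_isNilpotent (N := Q.subgroupOf F) (K := ⊤)
      (Group.nilpotent_of_mulEquiv topEquiv.symm) (by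
        intro e
        exact hQ1 (by simpa [inf_of_le_left hQF] using subgroupOf_eq_bot.1 e |>.eq_bot))
    obtain ⟨⟨⟨x, hxF⟩, hxQ, hxc⟩, hx1⟩ := ne_bot_iff_exists_ne_one.1 h1
    have hx1' : x ≠ 1 := fun e => hx1 (Subtype.ext (Subtype.ext e))
    have hd := dvd_orderOf_of_isPGroup hQ (v := x) hxQ hx1'
    have hc : x ∈ centralizer (F : Set H) := fun f hf => congrArg Subtype.val (hxc ⟨f, hf⟩ trivial)
    have ho := orderOf_pow_orderOf_div (orderOf_pos x).ne' hd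
    refine ne_bot_iff_exists_ne_one.2 ⟨⟨x ^ (orderOf x / q), Q.pow_mem hxQ _, pow_mem hc _,
      orderOf_dvd_iff_pow_eq_one.1 ho.dvd⟩, fun e => hq.out.one_lt.ne' ?_⟩
    rw [← ho, show x ^ (orderOf x / q) = 1 from congrArg Subtype.val e, orderOf_one]
  · refine mem_normalizer_fintype (S := (A : Set H)) fun a ha => ⟨(mem_normalizer_iff.1 hg.1 a).1 ha.1,
      fun f hf => ?_, by rw [conj_pow, ha.2.2]; simp⟩
    have h1 := ha.2.1 _ ((mem_normalizer_iff''.1 hg.2 f).1 hf)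
    calc f * (g * a * g⁻¹) = g * (g⁻¹ * f * g * a) * g⁻¹ := by group
      _ = g * a * g⁻¹ * f := by rw [h1]; group

theorem exists_lift {L M : Subgroup H} [M.Normal] (hL : ∀ h : H, ∃ l ∈ L, l⁻¹ * h ∈ M) {x : H}
    (hx : (orderOf x).Prime) (hd : ¬ orderOf x ∣ Nat.card M) :
    ∃ y ∈ L, orderOf y = orderOf x ∧ y⁻¹ * x ∈ M := by
  obtain ⟨l, hl, hm⟩ := hL x
  have e : (l : H ⧸ M) = x := QuotientGroup.eq.2 hm
  obtain ⟨a, -, ha⟩ := Nat.exists_mul_mod_eq_one_of_coprime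
    ((Nat.Prime.coprime_iff_not_dvd hx).2 hd).symm hx.one_lt
  have h1 : ((l ^ (Nat.card M * a) : H) : H ⧸ M) = x := by
    rw [QuotientGroup.mk_pow, e, ← QuotientGroup.mk_pow, ← pow_mod_orderOf, ha, pow_one]
  have h2 : l ^ orderOf x ∈ M := by
    rw [← QuotientGroup.eq_one_iff, QuotientGroup.mk_pow, e, ← QuotientGroup.mk_pow, pow_orderOf_eq_one,
      QuotientGroup.mk_one]
  have := Fact.mk hx
  refine ⟨l ^ (Nat.card M * a), L.pow_mem hl _, orderOf_eq_prime ?_ fun h3 => hd ?_,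
    QuotientGroup.eq.1 h1⟩
  · have h4 : (l ^ orderOf x) ^ Nat.card M = 1 :=
      congrArg Subtype.val (pow_card_eq_one' (x := (⟨_, h2⟩ : M)))
    rw [← pow_mul, mul_comm, pow_mul, pow_mul, h4, one_pow]
  · rw [h3, QuotientGroup.mk_one, eq_comm, QuotientGroup.eq_one_iff] at h1
    exact M.orderOf_dvd_natCard h1

theorem frattini_supp {L M Q : Subgroup H} [hM : M.Normal] (hL : ∀ h : H, ∃ l ∈ L, l⁻¹ * h ∈ M)
    {q : ℕ} [Fact q.Prime] (hQ : IsSylowIn q Q (L ⊓ M)) (h : H) :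
    ∃ l ∈ L ⊓ normalizer (Q : Set H), l⁻¹ * h ∈ M := by
  obtain ⟨l, hl, hm⟩ := hL h
  obtain ⟨n, hn, h1⟩ := hQ.frattini (H := L) (le_normalizer_inf le_normalizer le_normalizer_of_normal) hl
  refine ⟨n * l, ⟨L.mul_mem hn.1 hl, h1⟩, ?_⟩
  have := M.mul_mem (hM.conj_mem _ (M.inv_mem hn.2) l⁻¹) hm
  rwa [show l⁻¹ * n⁻¹ * l⁻¹⁻¹ * (l⁻¹ * h) = (n * l)⁻¹ * h by group] at this

theorem frattini_top {M Q : Subgroup H} [M.Normal] {q : ℕ} [Fact q.Prime] (hQ : IsSylowIn q Q M)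
    (h : H) : ∃ l ∈ normalizer (Q : Set H), l⁻¹ * h ∈ M := by
  obtain ⟨l, hl, hm⟩ := frattini_supp (L := ⊤) (M := M) (fun h => ⟨h, trivial, by simp⟩)
    (by rwa [top_inf_eq]) h
  exact ⟨l, hl.2, hm⟩

theorem exists_min_supp {M N : Subgroup H} [M.Normal] (hN : ∀ h : H, ∃ l ∈ N, l⁻¹ * h ∈ M) :
    ∃ L : Subgroup H, L ≤ N ∧ (∀ h : H, ∃ l ∈ L, l⁻¹ * h ∈ M) ∧
      (∀ (q : ℕ) [Fact q.Prime] (Q : Subgroup H), IsSylowIn q Q (L ⊓ M) → L ≤ normalizer (Q : Set H)) ∧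
      Group.IsNilpotent (L ⊓ M : Subgroup H) := by
  obtain ⟨L, hL, hmin⟩ := exists_minimal_of_wellFoundedLT
    (fun L : Subgroup H => L ≤ N ∧ ∀ h : H, ∃ l ∈ L, l⁻¹ * h ∈ M) ⟨N, le_rfl, hN⟩
  have key : ∀ (q : ℕ) [Fact q.Prime] (Q : Subgroup H), IsSylowIn q Q (L ⊓ M) →
      L ≤ normalizer (Q : Set H) := fun q _ Q hQ =>
    (hmin ⟨inf_le_left.trans hL.1, frattini_supp hL.2 hQ⟩ inf_le_left).trans inf_le_right
  refine ⟨L, hL.1, hL.2, key, isNilpotent_iff_sylow_normal.2 fun p _ P => ?_⟩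
  have h1 := normal_subgroupOf_of_le_normalizer (inf_le_left.trans (key p _ (isSylowIn_map_subtype P)) :
    L ⊓ M ≤ _)
  rwa [subgroupOf, comap_map_eq_self_of_injective (subtype_injective _)] at h1

theorem cyclic_mod {M : Subgroup H} [M.Normal] {p q : ℕ} (hp : p.Prime) [hq : Fact q.Prime] (hq2 : q ≠ 2)
    (hpq : p ≠ q) (hd : p ∣ Nat.card M) (he : q * p ∉ Spec H) {U : Subgroup (H ⧸ M)}
    (hU : IsPGroup q U) : IsCyclic U := by
  have := Fact.mk hp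
  obtain ⟨P, hP⟩ := exists_isSylowIn p M
  obtain ⟨Q, hQ⟩ := exists_isSylowIn q (normalizer (P : Set H))
  have hc : IsCyclic Q := by
    refine CL.CN.isCyclic_of_fpf_odd (IsSylowIn_ne_bot hP hd) hQ.le (fun a ha ha1 => ?_) hq2
      hQ.isPGroup le_rfl
    refine eq_bot_iff.2 fun v hv => by_contra fun hv1 => he ?_
    exact mul_mem_spec_of_commute_of_dvd (hv.2 a rfl) ((Nat.coprime_primes hq.out hp).2 hpq.symm)
      (dvd_orderOf_of_isPGroup hQ.isPGroup ha ha1) (dvd_orderOf_of_isPGroup hP.isPGroup hv.1 hv1)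
  let f : normalizer (P : Set H) →* H ⧸ M := (QuotientGroup.mk' M).comp (Subgroup.subtype _)
  have hf : Function.Surjective f := fun x => by
    obtain ⟨h, rfl⟩ := QuotientGroup.mk_surjective x
    obtain ⟨l, hl, hm⟩ := frattini_top hP h
    exact ⟨⟨l, hl⟩, QuotientGroup.eq.2 hm⟩
  have h1 : IsCyclic (hQ.toSylow : Subgroup (normalizer (P : Set H))) :=
    isCyclic_of_surjective _ (subgroupOfEquivOfLe hQ.le).symm.surjective
  have h2 : IsCyclic (hQ.toSylow.mapSurjective hf) :=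
    isCyclic_of_surjective _ (f.subgroupMap_surjective hQ.toSylow)
  obtain ⟨R, hR⟩ := hU.exists_le_sylow
  have h3 : IsCyclic R :=
    isCyclic_of_surjective _ (Sylow.equiv (hQ.toSylow.mapSurjective hf) R).surjective
  exact isCyclic_of_le hR

open scoped IsMulCommutative in
theorem central_eq_one {q : ℕ} [Fact q.Prime] {T : Subgroup H} (hT : IsPGroup q T)
    (hc : IsMulCommutative T) (hi : ¬ q ∣ T.index) {X : Set H} (hX : closure X = ⊤)
    (ho : ∀ x ∈ X, ¬ q ∣ orderOf x) {z : H} (hz : z ∈ center H) (hzT : z ∈ T) : z = 1 := by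
  have h1 : (MonoidHom.transfer (MonoidHom.id T)).ker = ⊤ := by
    rw [eq_top_iff, ← hX, closure_le]
    intro x hx
    by_contra h2
    obtain ⟨k, hk⟩ := IsPGroup.iff_orderOf.1 hT (MonoidHom.transfer (MonoidHom.id T) x)
    have h3 := orderOf_map_dvd (MonoidHom.transfer (MonoidHom.id T)) x
    rw [hk] at h3
    obtain _ | k := k
    · exact h2 (orderOf_eq_one_iff.1 hk)
    · exact ho x hx ((dvd_pow_self q k.succ_ne_zero).trans h3)
  have h2 : MonoidHom.transfer (MonoidHom.id T) z = 1 := MonoidHom.mem_ker.1 (h1 ▸ trivial)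
  rw [MonoidHom.transfer_eq_pow _ _ fun k g _ => by
    rw [mul_assoc, ← mem_center_iff.1 (pow_mem hz k), inv_mul_cancel_left]] at h2
  by_contra h3
  exact hi ((dvd_orderOf_of_isPGroup hT hzT h3).trans
    (orderOf_dvd_of_pow_eq_one (congrArg Subtype.val h2)))

end CL.Perm.GKA
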