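/-
A finite group whose prime graph is shared by boundedly many groups is almost simple.
-/
import Cfsg.Agent.Perm.GKAlmB
import Cfsg.Agent.Odd.BG3b
import Cfsg.Agent.Odd.FT

set_option autoImplicit false

open scoped commutatorElement

namespace CL.Perm.GKA

open Cfsg CL.Grp Subgroup

variable {H : Type*} [Group H] [Finite H]

/-- The transfer step. -/
theorem inf_le_of_central {M C : Subgroup H} [M.Normal] {X : Set H}
    (hn : closure X ≤ normalizer (C : Set H))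
    (hcomm : ∀ x ∈ X, ∀ z ∈ closure X ⊓ M, ⁅x, z⁆ ∈ C)
    (ho : ∀ x ∈ X, (orderOf x).Coprime (Nat.card M))
    (hcyc : ∀ q : ℕ, q.Prime → q ∣ Nat.card (closure X ⊓ M : Subgroup H) →
      ∀ U : Subgroup (H ⧸ M), IsPGroup q U → IsCyclic U) : closure X ⊓ M ≤ C := by
  set Y := closure X with hY
  have hD : (C.subgroupOf Y).Normal := normal_subgroupOf_of_le_normalizer hn
  let φ : Y →* Y ⧸ C.subgroupOf Y := QuotientGroup.mk' _
  have hφ : Function.Surjective φ := QuotientGroup.mk'_surjective _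
  have hgen : closure (φ '' (((↑) : Y → H) ⁻¹' X)) = ⊤ := by
    rw [← MonoidHom.map_closure, closure_closure_coe_preimage, ← MonoidHom.range_eq_map,
      MonoidHom.range_eq_top.2 hφ]
  have hcen : ∀ z : Y, (z : H) ∈ M → φ z ∈ center _ := fun z hz => by
    have : centralizer {φ z} = ⊤ := by
      rw [eq_top_iff, ← hgen, closure_le]
      rintro _ ⟨x, hx, rfl⟩ _ rfl
      refine (commutatorElement_eq_one_iff_mul_comm.1 ?_).symm
      rw [← map_commutatorElement]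
      exact (QuotientGroup.eq_one_iff _).2 (hcomm x hx z ⟨z.2, hz⟩)
    exact mem_center_iff.2 fun g => ((this ▸ mem_top g : g ∈ centralizer {φ z}) _ rfl).symm
  intro z hz
  by_contra hzC
  let z' : Y := ⟨z, hz.1⟩
  have h1 : φ z' ≠ 1 := fun e => hzC ((QuotientGroup.eq_one_iff z').1 e)
  obtain ⟨q, hq, hqd⟩ := Nat.exists_prime_and_dvd (mt orderOf_eq_one_iff.1 h1)
  have := Fact.mk hq
  have hqz : q ∣ Nat.card (Y ⊓ M : Subgroup H) := by
    refine (hqd.trans (orderOf_map_dvd φ z')).trans ?_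
    rw [← orderOf_coe]
    exact (Y ⊓ M).orderOf_dvd_natCard hz
  obtain ⟨e, k, hk, he⟩ := Nat.exists_eq_pow_mul_and_not_dvd (orderOf_pos z').ne' q hq.ne_one
  have hw : IsPGroup q (zpowers (z' ^ k)) := by
    rintro ⟨_, j, rfl⟩
    refine ⟨e, Subtype.ext ?_⟩
    change ((z' ^ k) ^ j) ^ q ^ e = 1
    rw [← zpow_natCast, ← zpow_mul, mul_comm, zpow_mul, zpow_natCast, ← pow_mul, mul_comm, ← he,
      pow_orderOf_eq_one, one_zpow]
  obtain ⟨U, hU⟩ := hw.exists_le_sylow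
  let ψ : Y →* H ⧸ M := (QuotientGroup.mk' M).comp Y.subtype
  have hc : IsMulCommutative ((U : Subgroup Y).map φ) := by
    obtain ⟨⟨_, t, ht', rfl⟩, ht⟩ := (hcyc q hq hqz _ (U.isPGroup'.map ψ)).exists_zpow_surjective
    have h2 : ∀ u ∈ U, ∃ (a : ℤ) (c : _), c ∈ center _ ∧ φ u = φ t ^ a * c := fun u hu => by
      obtain ⟨a, ha⟩ := ht ⟨ψ u, u, hu, rfl⟩
      have h3 : ψ (t ^ a) = ψ u := by rw [map_zpow]; exact congrArg Subtype.val ha
      exact ⟨a, φ ((t ^ a)⁻¹ * u), hcen _ (QuotientGroup.eq.1 h3), by simp⟩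
    refine ⟨⟨?_⟩⟩
    rintro ⟨_, u, hu, rfl⟩ ⟨_, v, hv, rfl⟩
    obtain ⟨a, c, hc, e1⟩ := h2 u hu
    obtain ⟨b, d, hd, e2⟩ := h2 v hv
    refine Subtype.ext (?_ : Commute (φ u) (φ v))
    rw [e1, e2]
    exact ((Commute.zpow_zpow_self _ _ _).mul_right (mem_center_iff.1 hd _)).mul_left
      (mem_center_iff.1 hc _).symm
  have h4 := central_eq_one (U.isPGroup'.map φ) hc
    (fun h => U.not_dvd_index (h.trans (index_map_dvd _ hφ))) hgen (z := φ (z' ^ k)) (by
      rintro _ ⟨x, hx, rfl⟩ h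
      have h5 : q ∣ orderOf (x : H) := by rw [orderOf_coe]; exact h.trans (orderOf_map_dvd φ x)
      exact hq.one_lt.ne' (Nat.eq_one_of_dvd_coprimes (ho _ hx) h5
        (hqz.trans (card_dvd_of_le inf_le_right))))
    (hcen _ (M.pow_mem hz.2 k)) ⟨_, hU (mem_zpowers _), rfl⟩
  rw [map_pow] at h4
  exact hk (hqd.trans (orderOf_dvd_of_pow_eq_one h4))

theorem Bdd.not_good (hB : Bdd H) {M : Subgroup H} [M.Normal] (h2 : 2 ∣ Nat.card M)
    (hg : ∀ s : ℕ, s.Prime → s ≠ 2 → s ∣ Nat.card M → 2 * s ∈ Spec H) : False := by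
  obtain ⟨S, hS⟩ := exists_isSylowIn 2 M
  obtain ⟨L, hLS, hL, hQ, hF⟩ := exists_min_supp (frattini_top hS)
  have hLF : L ≤ normalizer ((L ⊓ M : Subgroup H) : Set H) :=
    le_normalizer_inf le_normalizer le_normalizer_of_normal
  by_cases hi : ∃ q : ℕ, q.Prime ∧ q ∣ Nat.card (L ⊓ M : Subgroup H) ∧
      ∀ s : ℕ, s.Prime → s ≠ q → s ∣ Nat.card M → q * s ∈ Spec H
  · obtain ⟨q, hq, hd, hgq⟩ := hi
    have := Fact.mk hq
    obtain ⟨Q, hQ'⟩ := exists_isSylowIn q (L ⊓ M)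
    obtain ⟨A, hA, -, h3, h4, h5, h6⟩ := exists_omega hQ'.le hF (inf_le_left.trans (hQ q Q hQ'))
      hQ'.isPGroup (IsSylowIn_ne_bot hQ' hd)
    exact hB.coind hq hA h3 h4 ((le_inf (hQ q Q hQ') hLF).trans h6) h5 fun x hx hxq he =>
      exists_lift hL hx fun h => he (hgq _ hx hxq h)
  have hodd : ¬ 2 ∣ Nat.card (L ⊓ M : Subgroup H) := fun h => hi ⟨2, Nat.prime_two, h, hg⟩
  obtain ⟨A, hA, hAS, h3, h4, -, h6⟩ := exists_omega le_rfl hS.isPGroup.isNilpotent le_normalizer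
    hS.isPGroup (IsSylowIn_ne_bot hS h2)
  rw [inf_idem] at h6
  let X : Set H := {y | y ∈ L ∧ (orderOf y).Prime ∧ orderOf y ≠ 2 ∧ 2 * orderOf y ∉ Spec H}
  have hXL : closure X ≤ L := (closure_le _).2 fun y hy => hy.1
  have hXM : ∀ y ∈ X, (orderOf y).Coprime (Nat.card M) := fun y hy =>
    (Nat.Prime.coprime_iff_not_dvd hy.2.1).2 fun h => hy.2.2.2 (hg _ hy.2.1 hy.2.2.1 h)
  have hLA : L ≤ normalizer (A : Set H) := hLS.trans h6
  have hAp : IsPGroup 2 A := hS.isPGroup.to_le hAS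
  refine hB.coind Nat.prime_two hA h3 h4 (hXL.trans hLA) (M := M) ?_ fun x hx hx2 he => ?_
  · refine inf_le_of_central (le_normalizer_centralizer' (hXL.trans hLA))
      (fun y hy z hz => ?_) hXM fun q hq hd U hU => ?_
    · have hyL : zpowers y ≤ L := zpowers_le.2 hy.1
      have hyo : ¬ 2 ∣ orderOf y := fun h =>
        hy.2.2.1 ((Nat.prime_dvd_prime_iff_eq Nat.prime_two hy.2.1).1 h).symm
      have ho : ¬ 2 ∣ Nat.card (zpowers y) * Nat.card (L ⊓ M : Subgroup H) := by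
        rw [Nat.card_zpowers, Nat.prime_two.dvd_mul]
        exact fun h => h.elim hyo hodd
      refine CL.Odd.comm_le_cent_of_prime (K := L ⊓ M) (R := zpowers y) (V := A) inferInstance
        (by rw [mul_comm]; exact Nat.two_dvd_ne_zero.1 ho |> Nat.odd_iff.2) (hyL.trans hLF)
        (by rw [Nat.card_zpowers]
            exact ((hXM y hy).coprime_dvd_right (card_dvd_of_le inf_le_right)).symm)
        (by rw [Nat.card_zpowers]; exact hy.2.1) ?_ ((sup_le inf_le_left hyL).trans hLA)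
        (Group.isSolvable_of_comm fun a b => Subtype.ext (h3 _ a.2 _ b.2)) ?_
        (commutator_mem_commutator (mem_zpowers y) ⟨hXL hz.1, hz.2⟩)
      · obtain ⟨n, hn⟩ := hAp.exists_card_eq
        rw [hn, sup_comm]
        exact ((Nat.prime_two.coprime_iff_not_dvd.2 fun h =>
          ho (h.trans (card_sup_dvd (hyL.trans hLF)))).symm).pow_right _
      · refine eq_bot_iff.2 fun v hv => by_contra fun hv1 => hy.2.2.2 ?_
        exact mul_mem_spec_of_commute_of_dvd (hv.2 y (mem_zpowers y)).symm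
          (Nat.prime_two.coprime_iff_not_dvd.2 hyo) (dvd_orderOf_of_isPGroup hAp hv.1 hv1) dvd_rfl
    · have := Fact.mk hq
      have hd' : q ∣ Nat.card (L ⊓ M : Subgroup H) :=
        hd.trans (card_dvd_of_le (inf_le_inf_right _ hXL))
      by_contra h7
      refine hi ⟨q, hq, hd', fun p hp hpq hpM => by_contra fun he => h7 ?_⟩
      exact cyclic_mod hp (fun e => hodd (e ▸ hd')) hpq hpM he hU
  · obtain ⟨y, hy, h7, h8⟩ := exists_lift hL hx fun h => he (hg _ hx hx2 h)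
    exact ⟨y, subset_closure ⟨hy, h7 ▸ hx, h7 ▸ hx2, h7 ▸ he⟩, h7, h8⟩

theorem Bdd.two_dvd (hB : Bdd H) (N : Subgroup H) [N.Normal] (hN : N ≠ ⊥) : 2 ∣ Nat.card N := by
  by_contra h
  exact hB.not_solv N hN (CL.Odd.feit_thompson (Nat.odd_iff.2 (Nat.two_dvd_ne_zero.1 h)))

theorem Bdd.almost_simple (hB : Bdd H) [Nontrivial H] :
    ∃ N : Subgroup H, N.Normal ∧ IsSimpleGroup N ∧ ¬ IsMulCommutative N ∧
      centralizer (N : Set H) = ⊥ := by
  obtain ⟨M, hM⟩ := exists_isMinNormal H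
  have := hM.normal
  refine ⟨M, this, hB.simple hM, hB.not_comm hM, by_contra fun hC => ?_⟩
  refine hB.not_good (hB.two_dvd M hM.ne_bot) fun s hs hs2 hd => ?_
  have := Fact.mk hs
  obtain ⟨t, ht⟩ := exists_prime_orderOf_dvd_card' 2 (hB.two_dvd _ hC)
  obtain ⟨x, hx⟩ := exists_prime_orderOf_dvd_card' s hd
  exact mul_mem_spec_of_commute_of_dvd (v := (t : H)) (a := (x : H)) (t.2 x x.2).symm
    ((Nat.coprime_primes Nat.prime_two hs).2 hs2.symm) (by rw [orderOf_coe, ht]) (by rw [orderOf_coe, hx])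

end CL.Perm.GKA
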