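/-
Project HL3 (Hiramine, S3727): definitions and the statements of the parts.  The proofs are described in the table
`jobs` (team PERM, titles `HL3-*`).

`L ≅ PSL₃(q)`, `q` even.  `X` ("points") and `Y` ("lines") are the two classes of elementary abelian subgroups of order
`q²`: the groups of elations with a common centre, resp. a common axis.  `E ∈ X` and `F ∈ Y` are incident when
`E ⊓ F ≠ ⊥`.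
-/
import Cfsg.Agent.Perm.Hir1

set_option autoImplicit false
open Cfsg Subgroup MulAction CL.Even CL.Grp CL.Loc
open CL.Bender (Fx st2)
open CL.Hir (TC Pt Soc)

namespace CL.HL

universe u v

section Defs

variable {G : Type*} [Group G]

/-- an elementary abelian subgroup of order `q²` of `L`. -/
structure IsE (L : Subgroup G) (q : ℕ) (E : Subgroup G) : Prop where
  le : E ≤ L
  sq : ∀ x ∈ E, x * x = 1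
  card : Nat.card E = q ^ 2

/-- `O^{2'}` of the parabolic subgroup `N_L(E)`. -/
def LY (Y : Set (Subgroup G)) (E : Subgroup G) : Subgroup G := sSup {F | F ∈ Y ∧ E ⊓ F ≠ ⊥}

/-- `LY Y E / E ≅ PSL₂(q)`. -/
def Levi (q : ℕ) (Y : Set (Subgroup G)) (E : Subgroup G) : Prop :=
  ∃ (k : Type) (_ : Field k) (_ : Fintype k), Fintype.card k = q ∧
    ∃ φ : LY Y E →* Matrix.ProjectiveSpecialLinearGroup (Fin 2) k, Function.Surjective φ ∧ ∀ x, φ x = 1 ↔ x.1 ∈ E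

/-- a torus of order `q - 1` fixing exactly the points `E`, `E₂` of the line `F`. -/
def Torus (L : Subgroup G) (q : ℕ) (X : Set (Subgroup G)) (F E E₂ : Subgroup G) : Prop :=
  ∃ K : Subgroup G, K ≤ L ⊓ 𝒩(E) ⊓ 𝒩(E₂) ∧ Nat.card K + 1 = q ∧
    (∀ h ∈ K, ∀ E₃ ∈ X, E₃ ⊓ F ≠ ⊥ → E₃ ≠ E → E₃ ≠ E₂ → h ∈ 𝒩(E₃) → h = 1) ∧
    ∃ w ∈ L, cj w E = E₂ ∧ ∀ h ∈ K, w * h * w⁻¹ = h⁻¹

/-- One half of the axioms. -/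
structure Hf0 (L : Subgroup G) (q : ℕ) (X Y : Set (Subgroup G)) : Prop where
  isE : ∀ E ∈ X, IsE L q E
  cj_mem : ∀ g ∈ L, ∀ E ∈ X, cj g E ∈ X
  trans : ∀ E ∈ X, ∀ E' ∈ X, ∃ g ∈ L, cj g E = E'
  cover : ∀ t ∈ L, t * t = 1 → ∃ E ∈ X, t ∈ E
  ti : ∀ E ∈ X, ∀ E' ∈ X, E ≠ E' → E ⊓ E' = ⊥
  join : ∀ E ∈ X, ∀ E' ∈ X, E ≠ E' → ∃ F ∈ Y, E ⊓ F ≠ ⊥ ∧ E' ⊓ F ≠ ⊥
  join_uniq : ∀ E ∈ X, ∀ E' ∈ X, E ≠ E' → ∀ F ∈ Y, ∀ F' ∈ Y, E ⊓ F ≠ ⊥ → E' ⊓ F ≠ ⊥ → E ⊓ F' ≠ ⊥ → E' ⊓ F' ≠ ⊥ →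
    F = F'
  card_inf : ∀ E ∈ X, ∀ F ∈ Y, E ⊓ F ≠ ⊥ → Nat.card (E ⊓ F : Subgroup G) = q
  norm_iff : ∀ F ∈ Y, ∀ t ∈ F, t ≠ 1 → ∀ E ∈ X, t ∈ 𝒩(E) ↔ E ⊓ F ≠ ⊥
  levi0 : ∃ E ∈ X, Levi q Y E
  tor0 : ∃ F ∈ Y, ∃ E ∈ X, ∃ E₂ ∈ X, E ≠ E₂ ∧ E ⊓ F ≠ ⊥ ∧ E₂ ⊓ F ≠ ⊥ ∧ Torus L q X F E E₂

/-- The global facts on `L`. -/
structure Bas (L : Subgroup G) (q : ℕ) : Prop where
  simple : IsSimpleGroup L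
  pow : ∃ e, 1 ≤ e ∧ q = 2 ^ e
  card_L : Nat.gcd 3 (q - 1) * Nat.card L = q ^ 3 * (q ^ 3 - 1) * (q ^ 2 - 1)

/-- The axioms. -/
structure Pl0 (L : Subgroup G) (q : ℕ) (X Y : Set (Subgroup G)) : Prop extends Bas L q where
  l : Hf0 L q X Y
  r : Hf0 L q Y X

/-- Consequences inside `L` (job LA1). -/
structure Hfa (L : Subgroup G) (q : ℕ) (X Y : Set (Subgroup G)) : Prop extends Hf0 L q X Y where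
  zc : ∀ x ∈ L, x ∈ 𝒞(L) → x = 1
  disj : ∀ E ∈ X, E ∉ Y
  le_norm : ∀ E ∈ X, ∀ F ∈ Y, E ⊓ F ≠ ⊥ → E ≤ 𝒩(F)
  card_lines : ∀ E ∈ X, {F | F ∈ Y ∧ E ⊓ F ≠ ⊥}.ncard = q + 1
  card_X : X.ncard = q ^ 2 + q + 1
  syl : ∀ E ∈ X, ∀ F ∈ Y, E ⊓ F ≠ ⊥ → IsSylowIn 2 (E ⊔ F) L
  card_syl : ∀ T, IsSylowIn 2 T L → Nat.card T = q ^ 3
  flag : ∀ T, IsSylowIn 2 T L → ∃ E ∈ X, ∃ F ∈ Y, E ⊓ F ≠ ⊥ ∧ T = E ⊔ F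
  flag_uniq : ∀ E ∈ X, ∀ F ∈ Y, E ⊓ F ≠ ⊥ → ∀ E' ∈ X, E' ≤ E ⊔ F → E' = E
  num_syl : {T : Subgroup G | IsSylowIn 2 T L}.ncard = (q ^ 2 + q + 1) * (q + 1)
  mem_or : ∀ E ∈ X, ∀ F ∈ Y, E ⊓ F ≠ ⊥ → ∀ t ∈ E ⊔ F, t * t = 1 → t ∈ E ∨ t ∈ F
  cent_eq : ∀ E ∈ X, ∀ F ∈ Y, E ⊓ F ≠ ⊥ → ∀ x ∈ E, x ∉ F → ∀ y ∈ E ⊔ F, x * y = y * x → y ∈ E
  comm_onto : ∀ E ∈ X, ∀ F ∈ Y, E ⊓ F ≠ ⊥ → ∀ x ∈ E, x ∉ F → ∀ z ∈ E ⊓ F, ∃ y ∈ F, x * y * x⁻¹ * y⁻¹ = z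
  comm_mem : ∀ E ∈ X, ∀ F ∈ Y, E ⊓ F ≠ ⊥ → ∀ x ∈ E ⊔ F, ∀ y ∈ E ⊔ F, x * y * x⁻¹ * y⁻¹ ∈ E ⊓ F
  mem_or_mem : ∀ U, IsE L q U → U ∈ X ∨ U ∈ Y
  eq_of_le_norm : ∀ E ∈ X, ∀ E' ∈ X, E ≤ 𝒩(E') → E = E'

/-- Further consequences inside `L` (job LA2). -/
structure Hf1 (L : Subgroup G) (q : ℕ) (X Y : Set (Subgroup G)) : Prop extends Hfa L q X Y where
  transL : ∀ E ∈ X, ∀ F ∈ Y, ∀ F' ∈ Y, ∀ F'' ∈ Y, E ⊓ F ≠ ⊥ → E ⊓ F' ≠ ⊥ → E ⊓ F'' ≠ ⊥ → F' ≠ F → F'' ≠ F →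
    ∃ y ∈ F, cj y F' = F''
  transE : ∀ E ∈ X, ∀ F ∈ Y, ∀ F' ∈ Y, E ⊓ F = ⊥ → E ⊓ F' = ⊥ → ∃ x ∈ E, cj x F = F'
  le_LY : ∀ E ∈ X, E ≤ LY Y E
  LY_le : ∀ E ∈ X, LY Y E ≤ L ⊓ 𝒩(E)
  mem_LY : ∀ E ∈ X, ∀ t ∈ L, t * t = 1 → t ∈ 𝒩(E) → t ∈ LY Y E
  irr : ∀ E ∈ X, ∀ U, U ≤ E → LY Y E ≤ 𝒩(U) → U = ⊥ ∨ U = E
  LY_norm : ∀ E ∈ X, ∀ E' ∈ X ∪ Y, LY Y E ≤ 𝒩(E') → E' = E
  card_LY : ∀ E ∈ X, Nat.card (LY Y E) = q ^ 3 * (q ^ 2 - 1)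
  levi : ∀ E ∈ X, Levi q Y E
  tor : ∀ F ∈ Y, ∀ E ∈ X, ∀ E₂ ∈ X, E ≠ E₂ → E ⊓ F ≠ ⊥ → E₂ ⊓ F ≠ ⊥ → Torus L q X F E E₂

structure Pl1 (L : Subgroup G) (q : ℕ) (X Y : Set (Subgroup G)) : Prop extends Bas L q where
  l : Hf1 L q X Y
  r : Hf1 L q Y X

/-- Consequences for `N(L)` and the overgroups of a Sylow 2-subgroup (job LB). -/
structure Hf (L : Subgroup G) (q : ℕ) (X Y : Set (Subgroup G)) : Prop extends Hf1 L q X Y where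
  types : ∀ g ∈ 𝒩(L), ((∀ E ∈ X, cj g E ∈ X) ∧ ∀ F ∈ Y, cj g F ∈ Y) ∨ ((∀ E ∈ X, cj g E ∈ Y) ∧ ∀ F ∈ Y, cj g F ∈ X)
  ker : ∀ g ∈ 𝒩(L), (∀ E ∈ X, g ∈ 𝒩(E)) → g ∈ 𝒞(L)
  centE : ∀ E ∈ X, ∀ g ∈ 𝒩(L), g ∈ 𝒞(E) → TC L E g
  stab : ∀ E ∈ X, ∀ F ∈ Y, E ⊓ F ≠ ⊥ → ∀ g ∈ 𝒩(L), g ∈ 𝒩(E) → g ∈ 𝒩(F) → g ∈ 𝒞(E ⊓ F) → (∃ n : ℕ, g ^ 2 ^ n = 1) →
    TC L (E ⊔ F) g
  og : ∀ T A, IsSylowIn 2 T L → T ≤ A → A ≤ L → A ≠ L →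
    A ≤ 𝒩(T) ∨ (∃ E ∈ X, LY Y E ≤ A ∧ A ≤ 𝒩(E)) ∨ ∃ F ∈ Y, LY X F ≤ A ∧ A ≤ 𝒩(F)

structure Pl (L : Subgroup G) (q : ℕ) (X Y : Set (Subgroup G)) : Prop extends Bas L q where
  l : Hf L q X Y
  r : Hf L q Y X

theorem Pl0.symm {L : Subgroup G} {q : ℕ} {X Y : Set (Subgroup G)} (h : Pl0 L q X Y) : Pl0 L q Y X :=
  ⟨h.toBas, h.r, h.l⟩

theorem Pl1.symm {L : Subgroup G} {q : ℕ} {X Y : Set (Subgroup G)} (h : Pl1 L q X Y) : Pl1 L q Y X :=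
  ⟨h.toBas, h.r, h.l⟩

theorem Pl.symm {L : Subgroup G} {q : ℕ} {X Y : Set (Subgroup G)} (h : Pl L q X Y) : Pl L q Y X :=
  ⟨h.toBas, h.r, h.l⟩

variable {Ω : Type*} [MulAction G Ω]

/-- The part of the standing hypothesis which does not mention the planes. -/
structure Hyp0 (N : Ω → Subgroup G) : Prop where
  faithful : ∀ g : G, (∀ x : Ω, g • x = x) → g = 1
  two : ∀ a b c d : Ω, a ≠ b → c ≠ d → ∃ g : G, g • a = c ∧ g • b = d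
  nontriv : Nontrivial Ω
  cjN : ∀ (g : G) (x : Ω), N (g • x) = cj g (N x)
  fix : ∀ x, Fx (N x) x
  simple : ∀ x, IsSimpleGroup (N x)
  even : Even (Nat.card Ω)

/-- The standing hypothesis. -/
structure Hyp (N : Ω → Subgroup G) (q : ℕ) (X Y : Ω → Set (Subgroup G)) : Prop extends Hyp0 N where
  pl : ∀ a, Pl (N a) q (X a) (Y a)
  cjXY : ∀ (g : G) (a : Ω), ((∀ E ∈ X a, cj g E ∈ X (g • a)) ∧ ∀ F ∈ Y a, cj g F ∈ Y (g • a)) ∨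
    ((∀ E ∈ X a, cj g E ∈ Y (g • a)) ∧ ∀ F ∈ Y a, cj g F ∈ X (g • a))

/-- The Borel case. -/
def CaseB (N : Ω → Subgroup G) : Prop :=
  ∀ a b : Ω, a ≠ b → ∃ T, IsSylowIn 2 T (N a) ∧ Fx T b ∧ st2 G a b ≤ 𝒩(T)

/-- The parabolic case. -/
structure CaseP (N : Ω → Subgroup G) (q : ℕ) (X Y : Ω → Set (Subgroup G)) : Prop extends Hyp N q X Y where
  cjX : ∀ (g : G) (a : Ω), ∀ E ∈ X a, cj g E ∈ X (g • a)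
  cjY : ∀ (g : G) (a : Ω), ∀ F ∈ Y a, cj g F ∈ Y (g • a)
  par : ∀ a b : Ω, a ≠ b → ∃ E ∈ X a, Fx (LY (Y a) E) b ∧ st2 G a b ≤ 𝒩(E)

/-- a Sylow 2-subgroup of `N a` fixing `b` is a Sylow 2-subgroup of `N b`. -/
def Same (N : Ω → Subgroup G) : Prop := ∀ (a b : Ω) (T : Subgroup G), IsSylowIn 2 T (N a) → Fx T b → IsSylowIn 2 T (N b)

/-- a Sylow 2-subgroup of `N a` fixes at most one further point. -/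
def Two (N : Ω → Subgroup G) : Prop :=
  ∀ (a b c : Ω) (T : Subgroup G), IsSylowIn 2 T (N a) → b ≠ a → c ≠ a → Fx T b → Fx T c → b = c

/-- The Borel case, first step (job B1a): `C(N a)` is semiregular on `Ω - a`, and the centres of the Sylow subgroups
`T(a, b)` and `T(b, a)` coincide. -/
structure BS1 (N : Ω → Subgroup G) (q : ℕ) (X Y : Ω → Set (Subgroup G)) : Prop extends Hyp N q X Y where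
  bor : CaseB N
  csr : ∀ a b : Ω, a ≠ b → ∀ j ∈ 𝒞(N a), j • b = b → j = 1
  sameZ : ∀ a b : Ω, a ≠ b → ∀ E ∈ X a, ∀ F ∈ Y a, ∀ E' ∈ X b, ∀ F' ∈ Y b, E ⊓ F ≠ ⊥ → E' ⊓ F' ≠ ⊥ →
    Fx (E ⊔ F) b → Fx (E' ⊔ F') a → E ⊓ F = E' ⊓ F'

/-- The parabolic case, first step (job P1a). -/
structure PS0 (N : Ω → Subgroup G) (q : ℕ) (X Y : Ω → Set (Subgroup G)) : Prop extends CaseP N q X Y where
  csr : ∀ a b : Ω, a ≠ b → ∀ j ∈ 𝒞(N a), j • b = b → j = 1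
  memX : ∀ a b : Ω, ∀ E ∈ X a, Fx E b → E ∈ X b

/-- The parabolic case, second step (job P1b). -/
structure PS1 (N : Ω → Subgroup G) (q : ℕ) (X Y : Ω → Set (Subgroup G)) : Prop extends PS0 N q X Y where
  caseI : CL.Hir.CaseI N

/-- The space: the sets `Pt Ω E` (`E ∈ X a`) are lines with `f` points, the sets `Pt Ω F` (`F ∈ Y a`) are planes
(job P2). -/
structure PS (N : Ω → Subgroup G) (q : ℕ) (X Y : Ω → Set (Subgroup G)) (f : ℕ) : Prop extends PS1 N q X Y where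
  memY : ∀ a b : Ω, ∀ F ∈ Y a, Fx F b → F ∈ Y b
  thru : ∀ a b : Ω, ∃ E ∈ X a, Fx E b
  uniq : ∀ a b : Ω, a ≠ b → ∀ E ∈ X a, ∀ E' ∈ X a, Fx E b → Fx E' b → E = E'
  fix_of_inc : ∀ a b : Ω, ∀ E ∈ X a, ∀ F ∈ Y a, E ⊓ F ≠ ⊥ → Fx E b → Fx F b
  inc_of_fix : ∀ a b : Ω, a ≠ b → ∀ E ∈ X a, ∀ F ∈ Y a, Fx E b → Fx F b → E ⊓ F ≠ ⊥
  fixY : ∀ a c : Ω, ∀ F ∈ Y a, ∀ t ∈ F, t ≠ 1 → t • c = c → Fx F c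
  card_line : ∀ a, ∀ E ∈ X a, (Pt Ω E).ncard = f
  card_plane : ∀ a, ∀ F ∈ Y a, (Pt Ω F).ncard = (q + 1) * (f - 1) + 1
  count : Nat.card Ω = (q ^ 2 + q + 1) * (f - 1) + 1
  two_le : 2 ≤ f
  dvd : f ∣ q

variable (Ω) in
/-- parallel lines. -/
def Par (Y : Ω → Set (Subgroup G)) (E E' : Subgroup G) : Prop :=
  E = E' ∨ (Disjoint (Pt Ω E) (Pt Ω E') ∧ ∃ c, ∃ F ∈ Y c, Pt Ω E ⊆ Pt Ω F ∧ Pt Ω E' ⊆ Pt Ω F)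

/-- The affine space (job P4a). -/
structure AS (N : Ω → Subgroup G) (q : ℕ) (X Y : Ω → Set (Subgroup G)) : Prop extends PS N q X Y q where
  par_ex : ∀ a c : Ω, ∀ E ∈ X a, ∃ E' ∈ X c, Par Ω Y E E'
  par_uniq : ∀ a c : Ω, ∀ E ∈ X a, ∀ E' ∈ X c, ∀ E'' ∈ X c, Par Ω Y E E' → Par Ω Y E E'' → E' = E''
  par_trans : ∀ a b c : Ω, ∀ E ∈ X a, ∀ E' ∈ X b, ∀ E'' ∈ X c, Par Ω Y E E' → Par Ω Y E' E'' → Par Ω Y E E''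
  par_plane : ∀ a c : Ω, ∀ E ∈ X a, ∀ F ∈ Y c, ∀ E' ∈ X c, Pt Ω E ⊆ Pt Ω F → Par Ω Y E E' → Pt Ω E' ⊆ Pt Ω F
  dir : ∀ a c : Ω, ∀ E ∈ X a, ∀ E' ∈ X c, Par Ω Y E E' → ∀ t ∈ E, Fx E' (t • c)
  disjP : ∀ a c : Ω, ∀ F ∈ Y a, ¬ Fx F c → ∃ F' ∈ Y c, Disjoint (Pt Ω F) (Pt Ω F') ∧
    ∀ b : Ω, ∀ E ∈ X b, ∀ E' ∈ X c, Pt Ω E ⊆ Pt Ω F → Par Ω Y E E' → Pt Ω E' ⊆ Pt Ω F'

variable (Ω) in
/-- a translation. -/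
def Trl (X Y : Ω → Set (Subgroup G)) (w : G) : Prop :=
  w * w = 1 ∧ (∀ c : Ω, w • c ≠ c) ∧ ∀ a : Ω, ∀ E ∈ X a, Par Ω Y E (cj w E)

/-- The configuration on 22 points (job P6a). -/
structure S22 (N : Ω → Subgroup G) : Prop extends Hyp0 N where
  card_Ω : Nat.card Ω = 22
  card_N : ∀ a, Nat.card (N a) = 20160
  cent : ∀ a, 𝒞(N a) = ⊥
  dvd : ∀ a b : Ω, a ≠ b → Nat.card (st2 G a b) ∣ 5760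
  third : ∀ j : G, j * j = 1 → ∀ a b : Ω, a ≠ b → j • a = a → j • b = b → ∃ c, c ≠ a ∧ c ≠ b ∧ j • c = c

end Defs

/-- Quantification over all finite actions. -/
def All (p : ∀ (G : Type u) (Ω : Type v) [Group G] [MulAction G Ω], (Ω → Subgroup G) → ℕ →
    (Ω → Set (Subgroup G)) → (Ω → Set (Subgroup G)) → Prop) : Prop :=
  ∀ (G : Type u) (Ω : Type v) [Group G] [Finite G] [MulAction G Ω] [Finite Ω] (N : Ω → Subgroup G) (q : ℕ)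
    (X Y : Ω → Set (Subgroup G)), p G Ω N q X Y

/-- (LA1) -/
def LA1 : Prop := ∀ (G : Type u) [Group G] [Finite G] (L : Subgroup G) (q : ℕ) (X Y : Set (Subgroup G)),
  Pl0 L q X Y → Hfa L q X Y
/-- (LA2) -/
def LA2 : Prop := ∀ (G : Type u) [Group G] [Finite G] (L : Subgroup G) (q : ℕ) (X Y : Set (Subgroup G)),
  Bas L q → Hfa L q X Y → Hfa L q Y X → Hf1 L q X Y
/-- (LB) -/
def LB : Prop := ∀ (G : Type u) [Group G] [Finite G] (L : Subgroup G) (q : ℕ) (X Y : Set (Subgroup G)),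
  Pl1 L q X Y → Hf L q X Y
/-- (G0) -/
def G0 : Prop := All.{u, v} fun _ _ _ _ N q X Y => Hyp N q X Y → CaseB N ∨ ∃ X' Y', CaseP N q X' Y'
/-- (B1a) -/
def B1a : Prop := All.{u, v} fun _ _ _ _ N q X Y => Hyp N q X Y → CaseB N → BS1 N q X Y
/-- (B1b) -/
def B1b : Prop := All.{u, v} fun _ _ _ _ N q X Y => BS1 N q X Y → Same N ∨ (q = 2 ∧ Two N)
/-- (B2) -/
def B2 : Prop := All.{u, v} fun _ _ _ _ N q X Y => Hyp N q X Y → CaseB N → Same N → q = 2 ∧ Two N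
/-- (B3) -/
def B3 : Prop := All.{u, v} fun _ _ _ _ N q X Y => Hyp N q X Y → CaseB N → q = 2 → ¬ Two N
/-- (P1a) -/
def P1a : Prop := All.{u, v} fun _ _ _ _ N q X Y => CaseP N q X Y → PS0 N q X Y
/-- (P1b) -/
def P1b : Prop := All.{u, v} fun _ _ _ _ N q X Y => PS0 N q X Y → CL.Hir.CaseI N
/-- (P2) -/
def P2 : Prop := All.{u, v} fun _ _ _ _ N q X Y => PS1 N q X Y → ∃ f, PS N q X Y f
/-- (P3) -/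
def P3 : Prop := All.{u, v} fun _ _ _ _ N q X Y => ∀ f, PS N q X Y f → f = q ∨ (q = 4 ∧ f = 2)
/-- (P4a) -/
def P4a : Prop := All.{u, v} fun _ _ _ _ N q X Y => PS N q X Y q → AS N q X Y
/-- (P4b) -/
def P4b : Prop := All.{u, v} fun _ Ω _ _ N q X Y => AS N q X Y → ∃ w, Trl Ω X Y w
/-- (P4c) -/
def P4c : Prop := All.{u, v} fun G Ω _ _ N q X Y => AS N q X Y → (∃ w, Trl Ω X Y w) →
  ∃ R : Subgroup G, R.Normal ∧ (∀ x y : Ω, ∃ r ∈ R, r • x = y) ∧ ∀ x : Ω, ∀ r ∈ R, r • x = x → r = 1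
/-- (P5) -/
def P5 : Prop := All.{u, v} fun _ Ω _ _ N q X Y => PS N q X Y q →
  (∀ a x y : Ω, x ≠ a → y ≠ a → ∃ g ∈ N a, g • x = y) ∧ ¬ 3 ∣ q - 1
/-- (P6a) -/
def P6a : Prop := All.{u, v} fun _ _ _ _ N q X Y => q = 4 → PS N q X Y 2 → S22 N
/-- (P6b) -/
def P6b : Prop := All.{u, v} fun G _ _ _ N _ _ _ => S22 N →
  Cfsg.Spor.IsoM22 G ∨ ∃ H : Subgroup G, H.index = 2 ∧ Cfsg.Spor.IsoM22 H

end CL.HL
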