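/-
Project HL3 (S3727): elementary consequences of the axioms.
-/
import Cfsg.Agent.Perm.HL0

set_option autoImplicit false
open Cfsg Subgroup MulAction CL.Even CL.Grp CL.Loc
open CL.Bender (Fx st2)
open CL.Hir (TC Pt Soc fx_cj fx_smul fix_smul_of_comm)
open CL.ZD (inv_of_sq comm_of_sq two_of_sq a1_exists_fixed)

namespace CL.HL

variable {G : Type*} [Group G] {L E F E' F' T U : Subgroup G} {q : ℕ} {X Y : Set (Subgroup G)}

theorem simple_dich (hL : IsSimpleGroup L) (h : U ≤ L) (hn : L ≤ 𝒩(U)) : U = ⊥ ∨ U = L := by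
  have : (U.subgroupOf L).Normal := (normal_subgroupOf_iff_le_normalizer h).2 hn
  rcases hL.eq_bot_or_eq_top_of_normal (U.subgroupOf L) this with e | e
  · exact Or.inl (by rwa [subgroupOf_eq_bot, disjoint_iff, inf_eq_left.2 h] at e)
  · exact Or.inr (le_antisymm h (subgroupOf_eq_top.1 e))

theorem exists_ne_one (h : U ≠ ⊥) : ∃ x ∈ U, x ≠ 1 := by
  obtain ⟨⟨z, hz⟩, h1⟩ := ne_bot_iff_exists_ne_one.1 h
  exact ⟨z, hz, fun e => h1 (Subtype.ext e)⟩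

theorem ne_bot_of_mem {x : G} (hx : x ∈ U) (h1 : x ≠ 1) : U ≠ ⊥ := fun e => h1 (mem_bot.1 (e ▸ hx))

theorem inc_symm (h : E ⊓ F ≠ ⊥) : F ⊓ E ≠ ⊥ := by rwa [inf_comm]

theorem inc_cj (g : G) : cj g E ⊓ cj g F ≠ ⊥ ↔ E ⊓ F ≠ ⊥ := by rw [← cj_inf, Ne, cj_eq_bot]

theorem le_LY' (hF : F ∈ Y) (h : E ⊓ F ≠ ⊥) : F ≤ LY Y E := le_sSup ⟨hF, h⟩

theorem LY_le' (h : ∀ F ∈ Y, E ⊓ F ≠ ⊥ → F ≤ U) : LY Y E ≤ U := sSup_le fun F hF => h F hF.1 hF.2

theorem cj_LY_le {Y' : Set (Subgroup G)} {g : G} (h : ∀ F ∈ Y, cj g F ∈ Y') : cj g (LY Y E) ≤ LY Y' (cj g E) :=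
  cj_le_iff.2 (LY_le' fun F hF e => cj_le_iff.1 (le_LY' (h F hF) ((inc_cj g).2 e)))

theorem cj_LY {Y' : Set (Subgroup G)} {g : G} (h : ∀ F ∈ Y, cj g F ∈ Y') (h' : ∀ F ∈ Y', cj g⁻¹ F ∈ Y) :
    cj g (LY Y E) = LY Y' (cj g E) :=
  le_antisymm (cj_LY_le h) (le_cj_iff.2 ((cj_LY_le h').trans (by rw [cj_inv_cj])))

theorem Bas.two_le (h : Bas L q) : 2 ≤ q := by
  obtain ⟨e, he, rfl⟩ := h.pow
  exact le_self_pow₀ one_le_two (by omega)

theorem Bas.even (h : Bas L q) : Even q := by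
  obtain ⟨e, he, rfl⟩ := h.pow
  exact Nat.even_pow.2 ⟨even_two, by omega⟩

theorem Bas.eq_two_or (h : Bas L q) : q = 2 ∨ 4 ≤ q := by
  have := h.two_le
  have := Nat.even_iff.1 h.even
  omega

namespace IsE

variable (h : IsE L q E)
include h

theorem comm {x y : G} (hx : x ∈ E) (hy : y ∈ E) : x * y = y * x := comm_of_sq h.sq hx hy
theorem inv {x : G} (hx : x ∈ E) : x⁻¹ = x := inv_of_sq (h.sq x hx)
theorem two : IsPGroup 2 E := two_of_sq h.sq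
theorem le_cent : E ≤ 𝒞(E) := fun _ hx => mem_centralizer_iff.2 fun _ hy => h.comm hy hx
theorem ne_bot (hq : 2 ≤ q) : E ≠ ⊥ := fun e => by
  have := h.card
  rw [e, card_bot] at this
  nlinarith
theorem conj (g : G) : IsE (cj g L) q (cj g E) :=
  ⟨cj_mono g h.le, by rintro _ ⟨x, hx, rfl⟩; rw [← map_mul, h.sq x hx, map_one], by rw [card_cj, h.card]⟩
theorem of_le {L' : Subgroup G} (h1 : E ≤ L') : IsE L' q E := ⟨h1, h.sq, h.card⟩
theorem eq_of_le [Finite G] {L' : Subgroup G} (h' : IsE L' q E') (h1 : E ≤ E') : E = E' :=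
  eq_of_le_of_card_ge h1 (by rw [h.card, h'.card])

end IsE

namespace Hf0

variable (h : Hf0 L q X Y)
include h

theorem le (hE : E ∈ X) : E ≤ L := (h.isE E hE).le

theorem eq_of_inf (hE : E ∈ X) (hE' : E' ∈ X) (e : E ⊓ E' ≠ ⊥) : E = E' := by_contra fun h1 => e (h.ti E hE E' hE' h1)

theorem eq_of_mem (hE : E ∈ X) (hE' : E' ∈ X) {x : G} (hx : x ∈ E) (hx' : x ∈ E') (h1 : x ≠ 1) : E = E' :=
  h.eq_of_inf hE hE' (ne_bot_of_mem ⟨hx, hx'⟩ h1)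

/-- an element which preserves `X` and centralises a non-trivial element of `E` normalises `E`. -/
theorem norm_of_comm (hE : E ∈ X) {g x : G} (hg : cj g E ∈ X) (hx : x ∈ E) (h1 : x ≠ 1) (e : g * x = x * g) :
    g ∈ 𝒩(E) :=
  cj_eq_iff_mem.1 (h.eq_of_mem hg hE (mem_cj.2 (by rwa [mul_assoc, ← e, inv_mul_cancel_left])) hx h1)

theorem cj_LY_L {g : G} (h' : Hf0 L q Y X) (hg : g ∈ L) : cj g (LY Y E) = LY Y (cj g E) :=
  have := h
  cj_LY (fun F hF => h'.cj_mem g hg F hF) fun F hF => h'.cj_mem _ (inv_mem hg) F hF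

end Hf0

theorem tc_eq (zc : ∀ x ∈ L, x ∈ 𝒞(L) → x = 1) {g x y : G} (hx : x ∈ L) (hy : y ∈ L) (h1 : x⁻¹ * g ∈ 𝒞(L))
    (h2 : y⁻¹ * g ∈ 𝒞(L)) : x = y := by
  have := zc _ (mul_mem (inv_mem hx) hy) (by simpa [mul_assoc] using mul_mem h1 (inv_mem h2))
  exact inv_mul_eq_one.1 this

theorem tc_inf (zc : ∀ x ∈ L, x ∈ 𝒞(L) → x = 1) (hE : E ≤ L) (hF : F ≤ L) {g : G} (h1 : TC L E g) (h2 : TC L F g) :
    TC L (E ⊓ F) g := by
  obtain ⟨x, hx, e1⟩ := h1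
  obtain ⟨y, hy, e2⟩ := h2
  obtain rfl := tc_eq zc (hE hx) (hF hy) e1 e2
  exact ⟨x, ⟨hx, hy⟩, e1⟩

theorem tc_mem (zc : ∀ x ∈ L, x ∈ 𝒞(L) → x = 1) (hE : E ≤ L) {g : G} (h1 : TC L E g) (hg : g ∈ L) : g ∈ E := by
  obtain ⟨x, hx, e⟩ := h1
  rwa [← tc_eq zc (hE hx) hg e (by simp)]

/-- `[x c, y d] = [x, y] [c, d]`; so `[g, h] ∈ C(L)` for `g, h ∈ Z C(L)` with `Z` abelian. -/
theorem tc_comm (hE : U ≤ L) (hc : ∀ x ∈ U, ∀ y ∈ U, x * y = y * x) {g h : G} (h1 : TC L U g) (h2 : TC L U h) :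
    g * h * g⁻¹ * h⁻¹ ∈ 𝒞(L) := by
  obtain ⟨x, hx, e1⟩ := h1
  obtain ⟨y, hy, e2⟩ := h2
  obtain ⟨c, rfl⟩ : ∃ c, g = x * c := ⟨x⁻¹ * g, by group⟩
  obtain ⟨d, rfl⟩ : ∃ d, h = y * d := ⟨y⁻¹ * h, by group⟩
  rw [inv_mul_cancel_left] at e1 e2
  have a1 : Commute x c := comm_of_mem e1 (hE hx)
  have a2 : Commute y c := comm_of_mem e1 (hE hy)
  have a3 : Commute x d := comm_of_mem e2 (hE hx)
  have a4 : Commute y d := comm_of_mem e2 (hE hy)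
  have a5 : Commute x y := hc x hx y hy
  have b1 : x * c * (y * d) = c * d * (x * y) := by
    rw [mul_assoc, ← mul_assoc c, ← a2.eq, mul_assoc, ← mul_assoc x]
    exact ((a1.mul_left a2).mul_right (a3.mul_left a4)).eq
  have b2 : y * d * (x * c) = d * c * (x * y) := by
    rw [mul_assoc, ← mul_assoc d, ← a3.eq, mul_assoc, ← mul_assoc y, ← a5.eq]
    exact ((a3.mul_left a4).mul_right (a1.mul_left a2)).eq
  rw [mul_assoc (x * c * (y * d)), ← mul_inv_rev, b1, b2, show c * d * (x * y) * (d * c * (x * y))⁻¹ = c * d * c⁻¹ * d⁻¹ by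
    group]
  exact mul_mem (mul_mem (mul_mem e1 e2) (inv_mem e1)) (inv_mem e2)

namespace Hfa
set_option linter.unusedSectionVars false

variable (h : Hfa L q X Y) (h' : Hfa L q Y X) (hE : E ∈ X) (hF : F ∈ Y) (i : E ⊓ F ≠ ⊥)
include h hE hF

theorem ne : E ≠ F := fun e => h.disj E hE (e ▸ hF)

include i

theorem norm_E (h' : Hfa L q Y X) : E ⊔ F ≤ 𝒩(E) := sup_le le_normalizer (h'.le_norm F hF E hE (inc_symm i))

theorem norm_F : E ⊔ F ≤ 𝒩(F) := sup_le (h.le_norm E hE F hF i) le_normalizer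

theorem mem_sup {x : G} : x ∈ E ⊔ F ↔ ∃ e ∈ E, ∃ y ∈ F, e * y = x := mem_sup_nr (h.le_norm E hE F hF i)

include h'

theorem exists_not_mem [Finite G] : ∃ x ∈ E, x ∉ F :=
  by_contra fun e => h.ne hE hF ((h.isE E hE).eq_of_le (h'.isE F hF) fun x hx => by_contra fun h1 => e ⟨x, hx, h1⟩)

/-- `E ⊓ F` is central in `E ⊔ F`. -/
theorem inf_le_cent : E ⊓ F ≤ 𝒞(E ⊔ F) := by
  rw [cent_sup]
  exact inf_le_inf (h.isE E hE).le_cent (h'.isE F hF).le_cent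

/-- `Z(E ⊔ F) = E ⊓ F`. -/
theorem mem_inf_of_cent [Finite G] {z : G} (hz : z ∈ E ⊔ F) (hc : z ∈ 𝒞(E ⊔ F)) : z ∈ E ⊓ F := by
  obtain ⟨x, hx, h1⟩ := h.exists_not_mem h' hE hF i
  obtain ⟨y, hy, h2⟩ := h'.exists_not_mem h hF hE (inc_symm i)
  exact ⟨h.cent_eq E hE F hF i x hx h1 z hz (comm_of_mem hc (mem_sup_left hx)),
    h'.cent_eq F hF E hE (inc_symm i) y hy h2 z (by rwa [sup_comm]) (comm_of_mem hc (mem_sup_right hy))⟩

/-- a non-trivial normal subgroup of `E ⊔ F` meets `E ⊓ F`. -/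
theorem exists_mem_inf [Finite G] (hU : U ≤ E ⊔ F) (hn : E ⊔ F ≤ 𝒩(U)) (h0 : U ≠ ⊥) : ∃ z ∈ U, z ≠ 1 ∧ z ∈ E ⊓ F := by
  have h2 := (h.syl E hE F hF i).2.1
  obtain ⟨z, hz, z1, -, hc⟩ := CL.Hir.exists_cent_inv h2 (h2.to_le hU) h0 hn
  exact ⟨z, hz, z1, h.mem_inf_of_cent h' hE hF i (hU hz) hc⟩

/-- `E` and `F` are the only elementary abelian subgroups of order `q²` of `E ⊔ F`. -/
theorem eq_or_eq {L' : Subgroup G} (hU : IsE L' q U) (hle : U ≤ E ⊔ F) : U = E ∨ U = F :=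
  (h.mem_or_mem U (hU.of_le (hle.trans (h.syl E hE F hF i).1))).imp (fun e => h.flag_uniq E hE F hF i U e hle)
    fun e => h'.flag_uniq F hF E hE (inc_symm i) U e (by rwa [sup_comm])

/-- an element normalising `E ⊔ F` normalises or interchanges `E` and `F`. -/
theorem norm_cases {g : G} (hg : g ∈ 𝒩(E ⊔ F)) : (g ∈ 𝒩(E) ∧ g ∈ 𝒩(F)) ∨ (cj g E = F ∧ cj g F = E) := by
  have h1 := h.eq_or_eq h' hE hF i ((h.isE E hE).conj g) (cj_le_of_le le_sup_left hg)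
  have h2 := h.eq_or_eq h' hE hF i ((h'.isE F hF).conj g) (cj_le_of_le le_sup_right hg)
  have h3 : cj g E ≠ cj g F := fun e => h.ne hE hF (cj_inj.1 e)
  rcases h1 with h1 | h1 <;> rcases h2 with h2 | h2
  · exact absurd (h1.trans h2.symm) h3
  · exact Or.inl ⟨cj_eq_iff_mem.1 h1, cj_eq_iff_mem.1 h2⟩
  · exact Or.inr ⟨h1, h2⟩
  · exact absurd (h1.trans h2.symm) h3

theorem norm_inf : 𝒩(E ⊔ F) ≤ 𝒩(E ⊓ F) := fun g hg => by
  rw [← cj_eq_iff_mem, cj_inf]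
  rcases h.norm_cases h' hE hF i hg with ⟨h1, h2⟩ | ⟨h1, h2⟩
  · rw [cj_eq h1, cj_eq h2]
  · rw [h1, h2, inf_comm]

/-- `[x, E ⊔ F] = E ⊓ F` for `x ∈ E ⊔ F` outside `E ⊓ F`. -/
theorem comm_onto' {x z : G} (hx : x ∈ E ⊔ F) (hx' : x ∉ E ⊓ F) (hz : z ∈ E ⊓ F) :
    ∃ y ∈ E ⊔ F, x * y * x⁻¹ * y⁻¹ = z := by
  by_cases h1 : x ∈ F
  · obtain ⟨y, hy, e⟩ := h'.comm_onto F hF E hE (inc_symm i) x h1 (fun e => hx' ⟨e, h1⟩) z ⟨hz.2, hz.1⟩
    exact ⟨y, mem_sup_left hy, e⟩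
  · obtain ⟨e, he, f, hf, rfl⟩ := (h.mem_sup hE hF i).1 hx
    obtain ⟨y, hy, e1⟩ := h.comm_onto E hE F hF i e he (fun e2 => h1 (mul_mem e2 hf)) z hz
    refine ⟨y, mem_sup_right hy, ?_⟩
    rw [← e1, mul_assoc e f, (h'.isE F hF).comm hf hy]
    group

end Hfa

/-- a 2-element of `L` normalising a Sylow 2-subgroup of `L` lies in it. -/
theorem mem_syl [Finite G] (hT : IsSylowIn 2 T L) {x : G} (hL : x ∈ L) (hn : x ∈ 𝒩(T)) (h2 : ∃ n : ℕ, x ^ 2 ^ n = 1) :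
    x ∈ T := by
  obtain ⟨n, h2⟩ := h2
  exact (le_sup_left.trans (hT.eq_of_le (isPGroup_sup (isPGroup_zpowers h2) hT.2.1 (zpowers_le.2 hn)) le_sup_right
    (sup_le (zpowers_le.2 hL) hT.1)).le) (mem_zpowers x)

theorem le_syl [Finite G] (hT : IsSylowIn 2 T L) (hU : IsPGroup 2 U) (hL : U ≤ L) (hn : U ≤ 𝒩(T)) : U ≤ T :=
  le_sup_left.trans (hT.eq_of_le (isPGroup_sup hU hT.2.1 hn) le_sup_right (sup_le hL hT.1)).le

section Global

variable {Ω : Type*} [MulAction G Ω] {N : Ω → Subgroup G} {a b c : Ω}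

theorem fx_iff_le : Fx U a ↔ U ≤ stabilizer G a := Iff.rfl

theorem fx_mono (h : U ≤ T) (ha : Fx T a) : Fx U a := fun x hx => ha x (h hx)

theorem fx_sup : Fx (E ⊔ F) a ↔ Fx E a ∧ Fx F a := sup_le_iff (c := stabilizer G a)

theorem le_st2 : U ≤ st2 G a b ↔ Fx U a ∧ Fx U b := ⟨fun h => ⟨fun _ hx => (h hx).1, fun _ hx => (h hx).2⟩, fun h x hx => ⟨h.1 x hx, h.2 x hx⟩⟩

open scoped Pointwise in
theorem pt_cj (g : G) (U : Subgroup G) : Pt Ω (cj g U) = g • Pt Ω U := by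
  ext c
  rw [Set.mem_smul_set_iff_inv_smul_mem]
  conv_lhs => rw [← smul_inv_smul g c]
  exact fx_cj g

theorem ncard_pt_cj (g : G) (U : Subgroup G) : (Pt Ω (cj g U)).ncard = (Pt Ω U).ncard := by
  rw [pt_cj, Set.ncard_smul_set]

namespace Hyp0

variable (h : Hyp0 N)
include h

theorem trans (a b : Ω) : ∃ g : G, g • a = b := by
  have := h.nontriv
  obtain ⟨a', ha⟩ := exists_ne a
  obtain ⟨b', hb⟩ := exists_ne b
  obtain ⟨g, hg, -⟩ := h.two a a' b b' ha.symm hb.symm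
  exact ⟨g, hg⟩

theorem norm {g : G} (hg : g • a = a) : g ∈ 𝒩(N a) := cj_eq_iff_mem.1 (by rw [← h.cjN, hg])

theorem conj_mem_N {g x : G} (hx : x ∈ N a) : g * x * g⁻¹ ∈ N (g • a) := by
  rw [h.cjN]; exact conj_mem_cj g hx

theorem cj_cent_N (g : G) (a : Ω) : 𝒞(N (g • a)) = cj g 𝒞(N a) := by rw [h.cjN, cj_cent]

theorem syl_smul (hT : IsSylowIn 2 T (N a)) (g : G) : IsSylowIn 2 (cj g T) (N (g • a)) := by
  rw [h.cjN]; exact syl_cj hT g

theorem N_ne_bot (a : Ω) : N a ≠ ⊥ := (nontrivial_iff_ne_bot _).1 (h.simple a).toNontrivial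

/-- `N a` fixes no second point. -/
theorem not_fix (hab : a ≠ b) : ¬ Fx (N a) b := fun hb => by
  obtain ⟨z, hz, h1⟩ := exists_ne_one (h.N_ne_bot a)
  refine h1 (h.faithful z fun c => ?_)
  by_cases hc : a = c
  · exact hc ▸ h.fix a z hz
  · obtain ⟨g, h2, rfl⟩ := h.two a b a c hab hc
    exact fx_smul (h.norm h2) hb z hz

theorem exists_move (hab : a ≠ b) : ∃ x ∈ N a, x • b ≠ b :=
  by_contra fun e => h.not_fix hab fun x hx => by_contra fun h1 => e ⟨x, hx, h1⟩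

theorem norm_fix {g : G} (hg : g ∈ 𝒩(N a)) : g • a = a :=
  by_contra fun e => h.not_fix (Ne.symm e) (fx_smul hg (h.fix a))

theorem cent_fix {g : G} (hg : g ∈ 𝒞(N a)) : g • a = a := h.norm_fix (cent_le_norm _ hg)

theorem smul_ne (hab : a ≠ b) {x : G} (hx : x • a = a) : a ≠ x • b := fun e =>
  have := h
  hab (smul_left_cancel x (hx.trans e))

/-- an element of `N a` fixing the orbit of `b` under `N a` pointwise is trivial. -/
theorem eq_one_of_orbit (hab : a ≠ b) {y : G} (hy : y ∈ N a) (hf : ∀ u ∈ N a, y • u • b = u • b) : y = 1 := by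
  let K : Subgroup G := N a ⊓ ⨅ u ∈ N a, stabilizer G (u • b)
  have hK : ∀ x, x ∈ K ↔ x ∈ N a ∧ ∀ u ∈ N a, x • u • b = u • b := fun x => by simp [K, mem_iInf]
  rcases simple_dich (h.simple a) (U := K) inf_le_left (le_norm_of_cj_le fun g hg x hx => by
    have h1 := (hK _).1 (mem_cj.1 hx)
    refine (hK x).2 ⟨by simpa [mul_assoc] using conj_mem (le_normalizer hg) h1.1, fun u hu => ?_⟩
    have := h1.2 _ (mul_mem (inv_mem hg) hu)
    rwa [mul_smul, mul_smul, mul_smul, smul_inv_smul, smul_left_cancel_iff] at this) with e | e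
  · exact mem_bot.1 (e ▸ (hK y).2 ⟨hy, hf⟩)
  · exact absurd (fun x hx => by simpa using ((hK x).1 (e.ge hx)).2 1 (one_mem _)) (h.not_fix hab)

omit h in
theorem cent_fix_orbit {j u : G} (hj : j ∈ 𝒞(N a)) (hb : j • b = b) (hu : u ∈ N a) : j • u • b = u • b :=
  fix_smul_of_comm (comm_of_mem hj hu) hb

/-- an element of `N a` fixing all fixed points of an element `j ∈ C(N a)` with a second fixed point is trivial. -/
theorem eq_one_of_fix (hab : a ≠ b) {j y : G} (hj : j ∈ 𝒞(N a)) (hb : j • b = b) (hy : y ∈ N a)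
    (hf : ∀ c : Ω, j • c = c → y • c = c) : y = 1 :=
  h.eq_one_of_orbit hab hy fun _ hu => hf _ (cent_fix_orbit hj hb hu)

theorem card_cent_inf {c d : Ω} (hab : a ≠ b) (hcd : c ≠ d) :
    Nat.card (𝒞(N a) ⊓ 𝒞(N b) : Subgroup G) = Nat.card (𝒞(N c) ⊓ 𝒞(N d) : Subgroup G) := by
  obtain ⟨g, rfl, rfl⟩ := h.two a b c d hab hcd
  rw [h.cj_cent_N, h.cj_cent_N, ← cj_inf, card_cj]

/-- (J0) if `N a ⊓ N b ≠ 1` then `C(N a) ⊓ C(N b) = 1`. -/
theorem j0 [Finite G] (hab : a ≠ b) {z j : G} (za : z ∈ N a) (zb : z ∈ N b) (z1 : z ≠ 1) (ja : j ∈ 𝒞(N a))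
    (jb : j ∈ 𝒞(N b)) : j = 1 := by
  have key : ∀ x c : Ω, z ∈ N x → z • c ≠ c → 𝒞(N x) ⊓ 𝒞(N c) = 𝒞(N c) ⊓ 𝒞(N (z • c)) := fun x c hx hc =>
    eq_of_le_of_card_ge (le_inf inf_le_right fun k hk => by
      rw [h.cj_cent_N, mem_cj, mul_assoc, ← comm_of_mem hk.1 hx, inv_mul_cancel_left]; exact hk.2)
      (h.card_cent_inf hc.symm fun e => hc (by rw [← e, h.fix x z hx])).le
  have h1 : ∀ c : Ω, z • c ≠ c → j • c = c := fun c hc => by
    have h2 : 𝒞(N a) ⊓ 𝒞(N c) = 𝒞(N a) ⊓ 𝒞(N b) :=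
      eq_of_le_of_card_ge (le_inf inf_le_left (((key a c za hc).trans (key b c zb hc).symm).le.trans inf_le_left))
        (h.card_cent_inf hab fun e => hc (by rw [← e, h.fix a z za])).le
    exact h.cent_fix (h2.ge ⟨ja, jb⟩).2
  refine h.faithful j fun c => ?_
  by_cases hc : a = c
  · exact hc ▸ h.cent_fix ja
  by_contra h2
  refine z1 (h.eq_one_of_orbit hc za fun u hu => by_contra fun h3 => h2 ?_)
  have := h1 _ h3
  rwa [← mul_smul, ← comm_of_mem ja hu, mul_smul, smul_left_cancel_iff] at this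

/-- a 2-group fixing a point fixes a second point. -/
theorem exists_fix [Finite Ω] (hT : IsPGroup 2 T) (ha : Fx T a) : ∃ b, b ≠ a ∧ Fx T b := by
  have := h.nontriv
  obtain ⟨b, hb, hf⟩ := a1_exists_fixed hT (S := ({a}ᶜ : Set Ω)) (by
    have h1 := Set.ncard_add_ncard_compl ({a} : Set Ω)
    rw [Set.ncard_singleton] at h1
    have h2 := h.even
    rw [← h1, Nat.even_add] at h2
    simpa using h2) fun x hx s hs e => hs (smul_left_cancel x (e.trans (ha x hx).symm))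
  exact ⟨b, hb, hf⟩

theorem syl_fix (hT : IsSylowIn 2 T (N a)) : Fx T a := fun x hx => h.fix a x (hT.1 hx)

/-- In the Borel case a 2-subgroup of `N a` fixing `b` lies in each Sylow 2-subgroup of `N a` fixing `b`. -/
theorem le_of_caseB [Finite G] (hB : CaseB N) (hab : a ≠ b) (hT : IsSylowIn 2 T (N a)) (hb : Fx T b) :
    st2 G a b ≤ 𝒩(T) ∧ ∀ U : Subgroup G, IsPGroup 2 U → U ≤ N a → Fx U b → U ≤ T := by
  obtain ⟨T', h1, -, h3⟩ := hB a b hab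
  have key : ∀ U : Subgroup G, IsPGroup 2 U → U ≤ N a → Fx U b → U ≤ T' := fun U h4 h5 h6 =>
    le_syl h1 h4 h5 ((le_st2.2 ⟨fx_mono h5 (h.fix a), h6⟩).trans h3)
  obtain rfl := hT.eq_of_le h1.2.1 (key T hT.2.1 hT.1 hb) h1.1
  exact ⟨h3, key⟩

end Hyp0

variable {q : ℕ} {X Y : Ω → Set (Subgroup G)}

theorem Hyp.symm (h : Hyp N q X Y) : Hyp N q Y X :=
  ⟨h.toHyp0, fun a => (h.pl a).symm, fun g a => (h.cjXY g a).imp And.symm And.symm⟩

theorem BS1.symm (h : BS1 N q X Y) : BS1 N q Y X :=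
  ⟨h.toHyp.symm, h.bor, h.csr, fun a b hab E hE F hF E' hE' F' hF' i i' f f' => by
    rw [inf_comm E, inf_comm E']
    exact h.sameZ a b hab F hF E hE F' hF' E' hE' (inc_symm i) (inc_symm i') (by rwa [sup_comm]) (by rwa [sup_comm])⟩

theorem CaseP.cj_LY (h : CaseP N q X Y) (g : G) (a : Ω) (E : Subgroup G) : cj g (LY (Y a) E) = LY (Y (g • a)) (cj g E) :=
  CL.HL.cj_LY (h.cjY g a) fun F hF => by simpa using h.cjY g⁻¹ _ F hF

theorem CaseP.cj_LX (h : CaseP N q X Y) (g : G) (a : Ω) (F : Subgroup G) : cj g (LY (X a) F) = LY (X (g • a)) (cj g F) :=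
  CL.HL.cj_LY (h.cjX g a) fun E hE => by simpa using h.cjX g⁻¹ _ E hE

/-- In the parabolic case a member of `X a` fixing `b` is the group `E(a, b)`. -/
theorem CaseP.par' (h : CaseP N q X Y) (hab : a ≠ b) (hE : E ∈ X a) (hb : Fx E b) :
    Fx (LY (Y a) E) b ∧ st2 G a b ≤ 𝒩(E) := by
  obtain ⟨E', h1, h2, h3⟩ := h.par a b hab
  obtain rfl := (h.pl a).l.eq_of_le_norm E hE E' h1
    ((le_st2.2 ⟨fx_mono ((h.pl a).l.toHf0.le hE) (h.fix a), hb⟩).trans h3)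
  exact ⟨h2, h3⟩

end Global

end CL.HL
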