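/-
Project HL3 (S3727), the Borel case: the centres of `T(a, b)` and `T(b, a)` coincide, `C(N a)` is semiregular.
-/
import Cfsg.Agent.Perm.HL1

set_option autoImplicit false
set_option linter.unusedSectionVars false
open Cfsg Subgroup MulAction CL.Even CL.Grp CL.Loc
open CL.Bender (Fx st2)
open CL.Hir (TC Pt Soc fx_cj fx_smul fix_smul_of_comm)

namespace CL.HL

universe u v

variable {G : Type*} [Group G] [Finite G] {Ω : Type*} [MulAction G Ω] {N : Ω → Subgroup G} {q : ℕ}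
  {X Y : Ω → Set (Subgroup G)} {a b c : Ω} {E F E' F' U : Subgroup G}

theorem b1a_norm {h : G} (e : ∀ x ∈ U, x⁻¹ * (h * x * h⁻¹) ∈ U) : h ∈ 𝒩(U) :=
  mem_norm_of_cj_le fun x hx => by
    have := mul_mem (mem_cj.1 hx) (e _ (mem_cj.1 hx))
    simpa [mul_assoc] using this

omit [Finite G] in
theorem b1a_cz {h x y : G} (e1 : Commute (x⁻¹ * (h * x * h⁻¹)) (h * y * h⁻¹)) (e2 : Commute (y⁻¹ * (h * y * h⁻¹)) x) :
    x * y * x⁻¹ * y⁻¹ * h = h * (x * y * x⁻¹ * y⁻¹) := by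
  obtain ⟨c, hc⟩ : ∃ c, h * x * h⁻¹ = x * c := ⟨x⁻¹ * (h * x * h⁻¹), by group⟩
  obtain ⟨d, hd⟩ : ∃ d, h * y * h⁻¹ = y * d := ⟨y⁻¹ * (h * y * h⁻¹), by group⟩
  rw [hc, hd, inv_mul_cancel_left] at e1
  rw [hd, inv_mul_cancel_left] at e2
  calc _ = x * y * (d * x⁻¹) * d⁻¹ * y⁻¹ * h := by rw [e2.inv_right.eq]; group
    _ = x * (c * (y * d)) * c⁻¹ * x⁻¹ * (y * d)⁻¹ * h := by rw [e1.eq]; group
    _ = (x * c) * (y * d) * (x * c)⁻¹ * (y * d)⁻¹ * h := by group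
    _ = _ := by rw [← hc, ← hd]; group

omit [Finite G] in
theorem b1a_tc {L : Subgroup G} {h x y : G} (e : x⁻¹ * h ∈ 𝒞(L)) (hy : y ∈ L) : h * y * h⁻¹ = x * y * x⁻¹ := by
  calc _ = x * (x⁻¹ * h * y * (x⁻¹ * h)⁻¹) * x⁻¹ := by group
    _ = _ := by rw [conj_eq_of_mem e hy]

/-- a flag at `a` whose Sylow subgroup fixes `b` -/
structure B1Fl (N : Ω → Subgroup G) (q : ℕ) (X Y : Ω → Set (Subgroup G)) (a b : Ω) (E F : Subgroup G) : Prop where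
  H : Hyp N q X Y
  B : CaseB N
  ab : a ≠ b
  hE : E ∈ X a
  hF : F ∈ Y a
  i : E ⊓ F ≠ ⊥
  fx : Fx (E ⊔ F) b

theorem b1a_exists (H : Hyp N q X Y) (B : CaseB N) (ab : a ≠ b) : ∃ E F, B1Fl N q X Y a b E F := by
  obtain ⟨T, h1, h2, -⟩ := B a b ab
  obtain ⟨E, hE, F, hF, i, rfl⟩ := (H.pl a).l.flag T h1
  exact ⟨E, F, H, B, ab, hE, hF, i, h2⟩

namespace B1Fl

variable (f : B1Fl N q X Y a b E F)
include f

theorem symm : B1Fl N q Y X a b F E := ⟨f.H.symm, f.B, f.ab, f.hF, f.hE, inc_symm f.i, sup_comm E F ▸ f.fx⟩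
theorem l : Hf (N a) q (X a) (Y a) := (f.H.pl a).l
theorem r : Hf (N a) q (Y a) (X a) := (f.H.pl a).r
theorem eE : IsE (N a) q E := f.l.isE E f.hE
theorem eF : IsE (N a) q F := f.r.isE F f.hF
theorem ne : E ≠ F := f.l.toHfa.ne f.hE f.hF
theorem syl : IsSylowIn 2 (E ⊔ F) (N a) := f.l.syl E f.hE F f.hF f.i
theorem le : E ⊔ F ≤ N a := f.syl.1
theorem fa : Fx (E ⊔ F) a := f.H.syl_fix f.syl
theorem st_le : st2 G a b ≤ 𝒩(E ⊔ F) := (f.H.le_of_caseB f.B f.ab f.syl f.fx).1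
theorem pw {x : G} (hx : x ∈ E ⊔ F) : ∃ n : ℕ, x ^ 2 ^ n = 1 := isPGroup_iff_forall.1 f.syl.2.1 x hx
theorem Zle : E ⊓ F ≤ N a := inf_le_left.trans f.eE.le
theorem ZT : E ⊓ F ≤ E ⊔ F := inf_le_left.trans le_sup_left
theorem Zc {z x : G} (hz : z ∈ E ⊓ F) (hx : x ∈ E ⊔ F) : x * z = z * x :=
  comm_of_mem (f.l.toHfa.inf_le_cent f.r.toHfa f.hE f.hF f.i hz) hx
theorem exE : ∃ x ∈ E, x ∉ F := f.l.toHfa.exists_not_mem f.r.toHfa f.hE f.hF f.i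
theorem exF : ∃ x ∈ F, x ∉ E := f.symm.exE
theorem cases {g : G} (hg : g ∈ 𝒩(E ⊔ F)) : (g ∈ 𝒩(E) ∧ g ∈ 𝒩(F)) ∨ (cj g E = F ∧ cj g F = E) :=
  f.l.toHfa.norm_cases f.r.toHfa f.hE f.hF f.i hg
theorem meet (hU : U ≤ E ⊔ F) (hn : E ⊔ F ≤ 𝒩(U)) (h0 : U ≠ ⊥) : ∃ z ∈ U, z ≠ 1 ∧ z ∈ E ⊓ F :=
  f.l.toHfa.exists_mem_inf f.r.toHfa f.hE f.hF f.i hU hn h0

theorem tcZ {g : G} (hg : g • a = a) (hc : g ∈ 𝒞(E ⊔ F)) : TC (N a) (E ⊓ F) g :=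
  tc_inf f.l.zc f.eE.le f.eF.le (f.l.centE E f.hE g (f.H.norm hg) (cent_mono le_sup_left hc))
    (f.r.centE F f.hF g (f.H.norm hg) (cent_mono le_sup_right hc))

variable (f' : B1Fl N q X Y b a E' F')
include f'

theorem nrm : E' ⊔ F' ≤ 𝒩(E ⊔ F) := fun h hh => f.st_le ⟨f'.fx h hh, f'.fa h hh⟩

theorem cT {x h : G} (hx : x ∈ E ⊔ F) (hh : h ∈ E' ⊔ F') : x⁻¹ * (h * x * h⁻¹) ∈ E ⊔ F :=
  mul_mem (inv_mem hx) (conj_mem (f.nrm f' hh) hx)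

theorem cT' {x h : G} (hx : x ∈ E ⊔ F) (hh : h ∈ E' ⊔ F') : x⁻¹ * (h * x * h⁻¹) ∈ E' ⊔ F' := by
  simpa [mul_assoc] using mul_mem (conj_mem' (f'.nrm f hx) hh) (inv_mem hh)

theorem star (hU : U ≤ N a) (hc : ∀ x ∈ U, ∀ y ∈ U, x * y = y * x) (h : ∀ g ∈ E' ⊔ F', TC (N a) U g) :
    E' ⊓ F' ≤ 𝒞(N a) := fun z hz => by
  have := f
  obtain ⟨x, hx, h1⟩ := f'.exE
  obtain ⟨y, hy, rfl⟩ := f'.l.comm_onto E' f'.hE F' f'.hF f'.i x hx h1 z hz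
  exact tc_comm hU hc (h x (mem_sup_left hx)) (h y (mem_sup_right hy))

theorem D_ne : (E ⊔ F) ⊓ (E' ⊔ F') ≠ ⊥ := fun e => by
  have h1 := f.star f' f.Zle (fun x hx y hy => f.eE.comm hx.1 hy.1) fun g hg => f.tcZ (f'.fx g hg)
    (mem_centralizer_iff.2 fun x hx => by
      have := mem_bot.1 (e.le ⟨f.cT f' hx hg, f.cT' f' hx hg⟩)
      rw [inv_mul_eq_one, eq_mul_inv_iff_mul_eq] at this
      exact this)
  obtain ⟨z, hz, z1⟩ := exists_ne_one f'.i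
  obtain ⟨x, hx, hb⟩ := f.H.exists_move f.ab
  obtain ⟨g, g1, g2⟩ := f.H.two a b b (x • b) f.ab hb.symm
  have zb : z • b = b := f'.fa z (f'.ZT hz)
  have z2 : IsPGroup 2 (zpowers z) := f'.syl.2.1.to_le (zpowers_le.2 (f'.ZT hz))
  have k1 := (f.H.le_of_caseB f.B (a := g • a) (b := g • b) (by rw [g1, g2]; exact hb.symm) (f.H.syl_smul f.syl g)
    ((fx_cj g).2 f.fx)).2 _ z2 (by rw [g1]; exact zpowers_le.2 (f'.Zle hz))
    (by rw [g2]; exact fx_iff_le.2 (zpowers_le.2 (Hyp0.cent_fix_orbit (h1 hz) zb hx)))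
  have k2 := (f.H.le_of_caseB f.B (a := g • b) (b := g • a) (by rw [g1, g2]; exact hb) (f.H.syl_smul f'.syl g)
    ((fx_cj g).2 f'.fx)).2 _ z2 (by
      rw [g2, zpowers_le, ← show x * z * x⁻¹ = z by rw [comm_of_mem (h1 hz) hx, mul_inv_cancel_right]]
      exact f.H.conj_mem_N (f'.Zle hz)) (by rw [g1]; exact fx_iff_le.2 (zpowers_le.2 zb))
  have k3 := le_inf k1 k2 (mem_zpowers z)
  rw [← cj_inf, e, cj_bot] at k3
  exact z1 k3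

theorem nzc : ¬ E' ⊓ F' ≤ 𝒞(N a) := fun e => by
  obtain ⟨z, h1, h2, h3⟩ := f'.meet inf_le_right (le_norm_inf (f.nrm f') le_normalizer) (f.D_ne f')
  exact h2 (f.l.zc z (f.le h1.1) (e h3))

theorem Z_le : E ⊓ F ≤ E' ⊔ F' := fun z0 hz0 => by_contra fun n => by
  have k : ∀ x ∈ E ⊔ F, (∀ y ∈ E ⊔ F, x * y * x⁻¹ * y⁻¹ ∈ E' ⊔ F') → x ∈ E ⊓ F := fun x hx e => by_contra fun h1 => by
    obtain ⟨y, hy, rfl⟩ := f.l.toHfa.comm_onto' f.r.toHfa f.hE f.hF f.i hx h1 hz0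
    exact n (e y hy)
  have k1 : ∀ {x h}, x ∈ E ⊔ F → h ∈ E' ⊔ F' → x⁻¹ * (h * x * h⁻¹) ∈ E ⊓ F := fun hx hh =>
    k _ (f.cT f' hx hh) fun y hy => by
      rw [mul_assoc _ _ y⁻¹, mul_assoc _ y, ← mul_assoc y]
      exact mul_mem (f.cT' f' hx hh) (conj_mem (f'.nrm f hy) (inv_mem (f.cT' f' hx hh)))
  refine f.nzc f' (f.star f' f.Zle (fun x hx y hy => f.eE.comm hx.1 hy.1) fun h hh => ?_)
  obtain ⟨x, hx, e⟩ := f.l.stab E f.hE F f.hF f.i h (f.H.norm (f'.fx h hh))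
    (b1a_norm fun x hx => (k1 (mem_sup_left hx) hh).1) (b1a_norm fun x hx => (k1 (mem_sup_right hx) hh).2)
    (mem_centralizer_iff.2 fun z hz => by
      obtain ⟨x, hx, h1⟩ := f.exE
      obtain ⟨y, hy, rfl⟩ := f.l.comm_onto E f.hE F f.hF f.i x hx h1 z hz
      exact b1a_cz (f.Zc (k1 (mem_sup_left hx) hh) (conj_mem (f.nrm f' hh) (mem_sup_right hy))).symm
        (f.Zc (k1 (mem_sup_right hy) hh) (mem_sup_left hx)).symm) (f'.pw hh)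
  refine ⟨x, k x hx fun y hy => ?_, e⟩
  rw [← b1a_tc e (f.le hy), mul_assoc, mul_assoc, ← mul_assoc y]
  exact mul_mem hh (conj_mem (f'.nrm f hy) (inv_mem hh))

theorem Z_aux {z : G} (hz : z ∈ E' ⊓ F') (h1 : z ∈ E) : z ∈ F := by_contra fun h2 => by
  have k : ∀ x ∈ E ⊔ F, x * z = z * x → x ∈ E := fun x hx e => f.l.cent_eq E f.hE F f.hF f.i z h1 h2 x hx e.symm
  refine f.nzc f' (f.star f' f.eE.le (fun x hx y hy => f.eE.comm hx hy) fun h hh => ?_)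
  have hc : h * z * h⁻¹ = z := by rw [f'.Zc hz hh, mul_inv_cancel_right]
  obtain ⟨n1, n2⟩ := (f.cases (f.nrm f' hh)).resolve_right fun e => h2 (by rw [← hc, ← e.1]; exact conj_mem_cj h h1)
  obtain ⟨x, hx, e⟩ := f.l.stab E f.hE F f.hF f.i h (f.H.norm (f'.fx h hh)) n1 n2
    (mem_centralizer_iff.2 fun w hw => by
      obtain ⟨y, hy, rfl⟩ := f.l.comm_onto E f.hE F f.hF f.i z h1 h2 w hw
      refine b1a_cz (by rw [hc, inv_mul_cancel]; exact Commute.one_left _) (f'.Zc hz (f.cT' f' (mem_sup_right hy) hh)))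
    (f'.pw hh)
  exact ⟨x, k x hx (by rw [← mul_inv_eq_iff_eq_mul, ← b1a_tc e (f.eE.le h1), hc]), e⟩

theorem Z_le' : E' ⊓ F' ≤ E ⊓ F := fun z hz => by
  rcases f.l.mem_or E f.hE F f.hF f.i z (f'.Z_le f hz) (f'.eE.sq z hz.1) with e | e
  exacts [⟨e, f.Z_aux f' hz e⟩, ⟨f.symm.Z_aux f'.symm ⟨hz.2, hz.1⟩ e, e⟩]

theorem sameZ : E ⊓ F = E' ⊓ F' := le_antisymm (f'.Z_le' f) (f.Z_le' f')

theorem csr {j : G} (hj : j ∈ 𝒞(N a)) (hb : j • b = b) : j = 1 := by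
  have k : (E' ⊔ F') ⊓ 𝒞(N a) = ⊥ := by_contra fun n => by
    obtain ⟨z, h1, h2, h3⟩ := f'.meet inf_le_left
      (le_norm_inf le_normalizer (le_norm_cent fun h hh => f.H.norm (f'.fx h hh))) n
    exact h2 (f.l.zc z (f.Zle (f.Z_le' f' h3)) h1.2)
  obtain ⟨y, hy, e⟩ := f'.tcZ hb (mem_centralizer_iff.2 fun h hh => by
    have h1 : j * h * j⁻¹ * h⁻¹ ∈ (E' ⊔ F') ⊓ 𝒞(N a) := by
      refine mem_inf.2 ⟨mul_mem (conj_mem (f'.st_le ⟨hb, f.H.cent_fix hj⟩) hh) (inv_mem hh), ?_⟩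
      rw [mul_assoc j, mul_assoc j]
      exact mul_mem hj (conj_mem (norm_le_norm_cent _ (f.H.norm (f'.fx h hh))) (inv_mem hj))
    rw [k, mem_bot, mul_inv_eq_one, mul_inv_eq_iff_eq_mul] at h1
    exact h1.symm)
  have y1 : y = 1 := f.H.eq_one_of_fix f.ab hj hb (f.Zle (f.Z_le' f' hy)) fun c hc => by
    by_cases bc : b = c
    · exact bc ▸ f'.fa y (f'.ZT hy)
    obtain ⟨S, s1, s2, s3⟩ := f.B b c bc
    refine s2 y (mem_syl s1 (f'.Zle hy) ?_ (f'.pw (f'.ZT hy)))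
    simpa using mul_mem (s3 (show j ∈ st2 G b c from ⟨hb, hc⟩)) (inv_mem (cent_le_norm _ (cent_mono s1.1 e)))
  obtain ⟨z, hz, z1⟩ := exists_ne_one f.i
  exact f.H.j0 f.ab (f.Zle hz) (f'.Zle (f'.Z_le' f hz)) z1 hj (by simpa [y1] using e)

end B1Fl

theorem b1a : B1a.{u, v} := by
  intro G Ω _ _ _ _ N q X Y H B
  refine ⟨H, B, fun a b ab j hj hb => ?_, fun a b ab E hE F hF E' hE' F' hF' i i' x x' =>
    B1Fl.sameZ ⟨H, B, ab, hE, hF, i, x⟩ ⟨H, B, ab.symm, hE', hF', i', x'⟩⟩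
  obtain ⟨E, F, f⟩ := b1a_exists H B ab
  obtain ⟨E', F', f'⟩ := b1a_exists H B ab.symm
  exact f.csr f' hj hb

end CL.HL
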