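/-
Project HL3 (S3727), the Borel case: `T(a, b) = T(b, a)`, or `q = 2` and a Sylow subgroup fixes two points.
-/
import Cfsg.Agent.Perm.HLB1a

set_option autoImplicit false
set_option linter.unusedSectionVars false
open Cfsg Subgroup MulAction CL.Even CL.Grp CL.Loc
open CL.Bender (Fx st2)
open CL.Hir (TC Pt Soc fx_cj fx_smul fix_smul_of_comm)

namespace CL.HL

universe u v

variable {G : Type*} [Group G] [Finite G] {Ω : Type*} [MulAction G Ω] {N : Ω → Subgroup G} {q : ℕ}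
  {X Y : Ω → Set (Subgroup G)} {a b c : Ω} {E F E' F' E'' F'' U : Subgroup G}

theorem b1b_card {A B : Subgroup G} {x : G} (h : ∀ y ∈ A, y ∈ B ∨ x * y ∈ B) : Nat.card A ≤ 2 * Nat.card B := by
  have h1 : (A : Set G) ⊆ B ∪ (fun y => x⁻¹ * y) '' B := fun y hy =>
    (h y hy).imp id fun e => ⟨_, e, inv_mul_cancel_left x y⟩
  have h2 := (Set.ncard_le_ncard h1).trans (Set.ncard_union_le _ _)
  rw [Set.ncard_image_of_injective _ (mul_right_injective _)] at h2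
  change (A : Set G).ncard ≤ 2 * (B : Set G).ncard
  omega

/-- the Sylow subgroups `T(a, b)` and `T(b, a)` are never equal -/
def B1No (N : Ω → Subgroup G) (q : ℕ) (X Y : Ω → Set (Subgroup G)) : Prop :=
  ∀ a b E F E' F', B1Fl N q X Y a b E F → B1Fl N q X Y b a E' F' → ¬ E' ⊔ F' ≤ E ⊔ F

namespace B1Fl

variable (f : B1Fl N q X Y a b E F)
include f

theorem nE {x : G} (hx : x ∈ E ⊔ F) : cj x E = E := cj_eq (f.l.toHfa.norm_E f.hE f.hF f.i f.r.toHfa hx)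
theorem nF {x : G} (hx : x ∈ E ⊔ F) : cj x F = F := cj_eq (f.l.toHfa.norm_F f.hE f.hF f.i hx)

theorem sq_mem {x : G} (hx : x ∈ E ⊔ F) : x * x ∈ E ⊓ F := by
  obtain ⟨e, he, y, hy, rfl⟩ := (f.l.toHfa.mem_sup f.hE f.hF f.i).1 hx
  have := f.l.comm_mem E f.hE F f.hF f.i e (mem_sup_left he) y (mem_sup_right hy)
  rwa [f.eE.inv he, f.eF.inv hy, mul_assoc] at this

theorem pass (hc : a ≠ c) (h : Fx (E ⊔ F) c) : B1Fl N q X Y a c E F := ⟨f.H, f.B, hc, f.hE, f.hF, f.i, h⟩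

variable (f' : B1Fl N q X Y b a E' F')
include f'

theorem keyK {h : G} (ha : h • a = a) (hb : h • b = b) (h2 : ∃ n : ℕ, h ^ 2 ^ n = 1) (hc : h ∈ 𝒞(E ⊓ F))
    (hn : cj h E = E) : h ∈ E ⊔ F := by
  obtain ⟨n1, n2⟩ := (f.cases (f.st_le ⟨ha, hb⟩)).resolve_right fun e => f.ne (hn.symm.trans e.1)
  obtain ⟨x, hx, e⟩ := f.l.stab E f.hE F f.hF f.i h (f.H.norm ha) n1 n2 hc h2
  have := f.csr f' e (by rw [mul_smul, hb, inv_smul_eq_iff, f.fx x hx])
  exact inv_mul_eq_one.1 this ▸ hx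

theorem cZ {h : G} (hh : h ∈ E' ⊔ F') : h ∈ 𝒞(E ⊓ F) :=
  mem_centralizer_iff.2 fun _ hz => (f'.Zc (f'.Z_le' f hz) hh).symm

theorem swap {h : G} (hh : h ∈ E' ⊔ F') (n : h ∉ E ⊔ F) : cj h E = F ∧ cj h F = E :=
  (f.cases (f.nrm f' hh)).resolve_left fun e =>
    n (f.keyK f' (f'.fx h hh) (f'.fa h hh) (f'.pw hh) (f.cZ f' hh) (cj_eq e.1))

theorem two_swap {x y : G} (hx : x ∈ E' ⊔ F') (hy : y ∈ E' ⊔ F') (nx : x ∉ E ⊔ F) (ny : y ∉ E ⊔ F) :
    x * y ∈ E ⊔ F := by_contra fun n => by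
  have := (f.swap f' (mul_mem hx hy) n).1
  rw [cj_mul, (f.swap f' hy ny).1, (f.swap f' hx nx).2] at this
  exact f.ne this

theorem same (e : E' ⊔ F' ≤ E ⊔ F) : Same N := by
  have e' : E' ⊔ F' = E ⊔ F := eq_of_le_of_card_ge e (by rw [f.l.card_syl _ f.syl, f'.l.card_syl _ f'.syl])
  intro c d S hS hd
  by_cases cd : c = d
  · exact cd ▸ hS
  obtain ⟨g, rfl, rfl⟩ := f.H.two a b c d f.ab cd
  have h1 := f.H.syl_smul f.syl g
  rw [hS.eq_of_le h1.2.1 ((f.H.le_of_caseB f.B cd h1 ((fx_cj g).2 f.fx)).2 S hS.2.1 hS.1 hd) h1.1 |>.symm, ← e']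
  exact f.H.syl_smul f'.syl g

variable (no : B1No N q X Y)
include no

theorem invD {d : G} (hd : d ∈ E ⊔ F) (hd' : d ∈ E' ⊔ F') (d2 : d * d = 1) : d ∈ E ⊓ F := by_contra fun n => by
  have k : ∀ x ∈ E ⊔ F, x * d = d * x → x ∈ E' ⊔ F' := fun x hx e => by_contra fun h1 => by
    obtain ⟨s1, s2⟩ := f'.swap f hx h1
    have hc : x * d * x⁻¹ = d := by rw [e, mul_inv_cancel_right]
    refine n (f.Z_le' f' ?_)
    rcases f'.l.mem_or E' f'.hE F' f'.hF f'.i d hd' d2 with e | e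
    · exact ⟨e, by rw [← hc, ← s1]; exact conj_mem_cj x e⟩
    · exact ⟨by rw [← hc, ← s2]; exact conj_mem_cj x e, e⟩
  obtain ⟨h, hh, h1⟩ := SetLike.not_le_iff_exists.1 (no a b E F E' F' f f')
  obtain ⟨s1, s2⟩ := f.swap f' hh h1
  refine no b a E' F' E F f' f ?_
  rcases f.l.mem_or E f.hE F f.hF f.i d hd d2 with e | e
  · have : E ≤ E' ⊔ F' := fun x hx => k x (mem_sup_left hx) (f.eE.comm hx e)
    exact sup_le this (s1 ▸ cj_le_of_mem this hh)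
  · have : F ≤ E' ⊔ F' := fun x hx => k x (mem_sup_right hx) (f.eF.comm hx e)
    exact sup_le (s2 ▸ cj_le_of_mem this hh) this

theorem notE {x : G} (hx : x ∈ E) (n : x ∉ F) : x ∉ E' ⊔ F' := fun e =>
  n (f.invD f' no (mem_sup_left hx) e (f.eE.sq x hx)).2

theorem notF {x : G} (hx : x ∈ F) (n : x ∉ E) : x ∉ E' ⊔ F' := fun e =>
  n (f.invD f' no (mem_sup_right hx) e (f.eF.sq x hx)).1

theorem q_two : q = 2 := by
  obtain ⟨x, hx, n⟩ := f.exE
  have h1 := b1b_card (A := E) (B := E ⊓ F) (x := x) fun y hy => or_iff_not_imp_left.2 fun e =>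
    f.invD f' no (mem_sup_left (mul_mem hx hy)) (f'.two_swap f (mem_sup_left hx) (mem_sup_left hy)
      (f.notE f' no hx n) (f.notE f' no hy fun e' => e ⟨hy, e'⟩)) (f.eE.sq _ (mul_mem hx hy))
  rw [f.eE.card, f.l.card_inf E f.hE F f.hF f.i] at h1
  have := (f.H.pl a).two_le
  nlinarith

theorem step (bc : b ≠ c) (hc : Fx (E ⊔ F) c) : Fx (E' ⊔ F') c := by
  obtain ⟨E₁, F₁, f₁⟩ := b1a_exists f.H f.B bc
  obtain ⟨x, hx, nx⟩ := f.exE
  obtain ⟨y, hy, ny⟩ := f.exF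
  have r1 : x * y ∈ E ⊔ F := mul_mem (mem_sup_left hx) (mem_sup_right hy)
  have r2 := f'.two_swap f (mem_sup_left hx) (mem_sup_right hy) (f.notE f' no hx nx) (f.notF f' no hy ny)
  have r3 : x * y * (x * y) ≠ 1 := fun e => nx ((mul_mem_cancel_right hy).1 (f.invD f' no r1 r2 e).2)
  have r4 := f₁.sq_mem (mem_syl f₁.syl (f'.le r2) (f₁.st_le ⟨f.fx _ r1, hc _ r1⟩) (f.pw r1))
  have r5 := f'.sq_mem r2
  rw [f'.l.toHf0.eq_of_mem f'.hE f₁.hE r5.1 r4.1 r3, f'.r.toHf0.eq_of_mem f'.hF f₁.hF r5.2 r4.2 r3]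
  exact f₁.fx

theorem no_third (g : B1Fl N q X Y a c E F) (g' : B1Fl N q X Y c a E'' F'') : b = c := by_contra fun bc => by
  have k := f'.pass bc (f.step f' no bc g.fx)
  have k' := g'.pass (Ne.symm bc) (g.step g' no (Ne.symm bc) f.fx)
  obtain ⟨s, hs, ns⟩ := f'.exE
  obtain ⟨t, ht, nt⟩ := g'.exE
  have hs' : s ∈ E' ⊔ F' := mem_sup_left hs
  have ht' : t ∈ E'' ⊔ F'' := mem_sup_left ht
  have s1 := f.swap f' hs' (f'.notE f no hs ns)
  have t1 := g.swap g' ht' (g'.notE g no ht nt)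
  have t2 := k.swap k' ht' (k'.notE k no ht nt)
  have x1 : s * t ∈ E ⊔ F := f.keyK f' (by rw [mul_smul, g'.fx t ht', f'.fx s hs'])
    (by rw [mul_smul, k'.fx t ht', f'.fa s hs'])
    (isPGroup_iff_forall.1 (isPGroup_sup k.syl.2.1 k'.syl.2.1 (k'.nrm k)) _
      (mul_mem (mem_sup_left hs') (mem_sup_right ht')))
    (mul_mem (f.cZ f' hs') (g.cZ g' ht')) (by rw [cj_mul, t1.1, s1.2])
  have x2 : s * t ∉ E' ⊔ F' := fun e => k'.notE k no ht nt ((mul_mem_cancel_left hs').1 e)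
  have x3 : s * t * (s * t) = 1 := by
    obtain ⟨e, he, y, hy, e1⟩ := (f.l.toHfa.mem_sup f.hE f.hF f.i).1 x1
    rw [← e1] at x2 ⊢
    by_cases h1 : y ∈ E
    · exact f.eE.sq _ (mul_mem he h1)
    by_cases h2 : e ∈ F
    · exact f.eF.sq _ (mul_mem h2 hy)
    exact absurd (f'.two_swap f (mem_sup_left he) (mem_sup_right hy) (f.notE f' no he h2) (f.notF f' no hy h1)) x2
  have x4 : t * s * t⁻¹ = s := by
    rw [g'.eE.inv ht, ← f'.eE.inv hs, eq_inv_iff_mul_eq_one, f'.eE.inv hs]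
    calc _ = s⁻¹ * (s * t * (s * t)) * s := by group
      _ = 1 := by rw [x3]; group
  exact ns (by rw [← x4, ← t2.1]; exact conj_mem_cj t hs)

end B1Fl

theorem b1b : B1b.{u, v} := by
  intro G Ω _ _ _ _ N q X Y S
  by_cases no : B1No N q X Y
  · refine .inr ⟨?_, fun a b c T hT ba ca hb hc => ?_⟩
    · obtain ⟨a, b, ab⟩ := S.nontriv
      obtain ⟨E, F, f⟩ := b1a_exists S.toHyp S.bor ab
      obtain ⟨E', F', f'⟩ := b1a_exists S.toHyp S.bor ab.symm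
      exact f.q_two f' no
    obtain ⟨E, hE, F, hF, i, rfl⟩ := (S.pl a).l.flag T hT
    obtain ⟨E', F', f'⟩ := b1a_exists S.toHyp S.bor ba
    obtain ⟨E'', F'', g'⟩ := b1a_exists S.toHyp S.bor ca
    exact B1Fl.no_third ⟨S.toHyp, S.bor, ba.symm, hE, hF, i, hb⟩ f' no ⟨S.toHyp, S.bor, ca.symm, hE, hF, i, hc⟩ g'
  · simp only [B1No, not_forall, not_not] at no
    obtain ⟨a, b, E, F, E', F', f, f', e⟩ := no
    exact .inl (f.same f' e)

end CL.HL
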