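/-
Project HL3 (S3727): the Borel case, `T(a, b) = T(b, a)`.
-/
import Cfsg.Agent.Perm.HL1

set_option autoImplicit false
open Cfsg Subgroup MulAction CL.Even CL.Grp CL.Loc
open CL.Bender (Fx st2)

namespace CL.HL

universe u v

variable {G : Type u} [Group G] [Finite G] {Ω : Type v} [MulAction G Ω] {N : Ω → Subgroup G} {q : ℕ}
  {X Y : Ω → Set (Subgroup G)} {a c d : Ω} {E F F' U : Subgroup G} {t : G}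

omit [Finite G] in
theorem b2_isE (h : Hyp N q X Y) (hU : U ∈ X a ∨ U ∈ Y a) : IsE (N a) q U :=
  hU.elim ((h.pl a).l.isE U) ((h.pl a).r.isE U)

omit [Finite G] in
theorem b2_three (h : Hyp N q X Y) {U₁ U₂ U₃ : Subgroup G} (h1 : U₁ ∈ X a ∨ U₁ ∈ Y a) (h2 : U₂ ∈ X a ∨ U₂ ∈ Y a)
    (h3 : U₃ ∈ X a ∨ U₃ ∈ Y a) (t1 : t ≠ 1) (m1 : t ∈ U₁) (m2 : t ∈ U₂) (m3 : t ∈ U₃) (n1 : U₁ ≠ U₃) (n2 : U₂ ≠ U₃) :
    U₁ = U₂ := by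
  have l := (h.pl a).l.toHf0
  have r := (h.pl a).r.toHf0
  rcases h3 with h3 | h3
  · exact r.eq_of_mem (h1.resolve_left fun k => n1 (l.eq_of_mem k h3 m1 m3 t1))
      (h2.resolve_left fun k => n2 (l.eq_of_mem k h3 m2 m3 t1)) m1 m2 t1
  · exact l.eq_of_mem (h1.resolve_right fun k => n1 (r.eq_of_mem k h3 m1 m3 t1))
      (h2.resolve_right fun k => n2 (r.eq_of_mem k h3 m2 m3 t1)) m1 m2 t1

section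
variable (h : Hyp N q X Y) (hB : CaseB N)
include h hB

/-- (A) -/
theorem b2_fix (hE : E ∈ X a) (hF : F ∈ Y a) (tE : t ∈ E) (tF : t ∈ F) (t1 : t ≠ 1) (hc : t • c = c) :
    Fx E c ∨ Fx F c := by
  have l := (h.pl a).l
  rcases eq_or_ne a c with rfl | ac
  · exact .inl (fx_mono (l.toHf0.le hE) (h.fix a))
  obtain ⟨T, hT, fT, -⟩ := hB a c ac
  have m := (h.le_of_caseB hB ac hT fT).2 (zpowers t) ((l.isE E hE).two.to_le (zpowers_le.2 tE))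
    (zpowers_le.2 (l.toHf0.le hE tE)) (fx_iff_le.2 (zpowers_le.2 hc)) (mem_zpowers t)
  obtain ⟨E', hE', F', hF', i, rfl⟩ := l.flag T hT
  exact (l.mem_or E' hE' F' hF' i t m ((l.isE E hE).sq t tE)).imp
    (fun k => l.toHf0.eq_of_mem hE hE' tE k t1 ▸ (fx_sup.1 fT).1)
    fun k => (h.pl a).r.toHf0.eq_of_mem hF hF' tF k t1 ▸ (fx_sup.1 fT).2

theorem b2_other0 (hE : E ∈ X a) (tE : t ∈ E) (t1 : t ≠ 1) : ∃ F ∈ Y a, t ∈ F ∧ F ≠ E ∧ IsSylowIn 2 (E ⊔ F) (N a) ∧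
    ∀ x : Ω, t • x = x → Fx E x ∨ Fx F x := by
  have l := (h.pl a).l
  obtain ⟨F, hF, tF⟩ := (h.pl a).r.cover t (l.toHf0.le hE tE) ((l.isE E hE).sq t tE)
  exact ⟨F, hF, tF, (l.toHfa.ne hE hF).symm, l.syl E hE F hF (ne_bot_of_mem ⟨tE, tF⟩ t1),
    fun x => b2_fix h hB hE hF tE tF t1⟩

theorem b2_other (hE : E ∈ X a ∨ E ∈ Y a) (tE : t ∈ E) (t1 : t ≠ 1) : ∃ F, (F ∈ X a ∨ F ∈ Y a) ∧ t ∈ F ∧ F ≠ E ∧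
    IsSylowIn 2 (E ⊔ F) (N a) ∧ ∀ x : Ω, t • x = x → Fx E x ∨ Fx F x :=
  hE.elim (fun k => let ⟨F, hF, e⟩ := b2_other0 h hB k tE t1; ⟨F, .inr hF, e⟩)
    fun k => let ⟨F, hF, e⟩ := b2_other0 h.symm hB k tE t1; ⟨F, .inl hF, e⟩

theorem b2_eq (hE : E ∈ X a) (hF : F ∈ Y a) (hF' : F' ∈ Y a) (i : E ⊓ F ≠ ⊥) (ac : c ≠ a) (f : Fx E c) (f1 : Fx F c)
    (f2 : Fx F' c) : F' = F :=
  (h.pl a).r.flag_uniq F hF E hE (inc_symm i) F' hF' (sup_comm E F ▸ (h.le_of_caseB hB ac.symm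
    ((h.pl a).l.syl E hE F hF i) (fx_sup.2 ⟨f, f1⟩)).2 F' ((h.pl a).r.isE F' hF').two ((h.pl a).r.toHf0.le hF') f2)

omit hB [Finite G] in
theorem b2_pt [Finite Ω] (hE : E ∈ X a) (hF : F ∈ Y a) (i : E ⊓ F ≠ ⊥) : ∃ c, c ≠ a ∧ Fx E c ∧ Fx F c :=
  have s := (h.pl a).l.syl E hE F hF i
  let ⟨c, h1, h2⟩ := h.exists_fix s.2.1 (h.syl_fix s)
  ⟨c, h1, fx_sup.1 h2⟩

omit hB [Finite G] in
theorem b2_line (hE : E ∈ X a) (F : Subgroup G) : ∃ F' ∈ Y a, E ⊓ F' ≠ ⊥ ∧ F' ≠ F := by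
  obtain ⟨F', k, ne⟩ := Set.exists_ne_of_one_lt_ncard (s := {F | F ∈ Y a ∧ E ⊓ F ≠ ⊥})
    (by rw [(h.pl a).l.card_lines E hE]; have := (h.pl a).two_le; omega) F
  exact ⟨F', k.1, k.2, ne⟩

variable (hS : Same N)
include hS

theorem b2_mem (hU : U ∈ X a ∨ U ∈ Y a) (hc : Fx U c) : U ∈ X c ∨ U ∈ Y c := by
  rcases eq_or_ne a c with rfl | ac
  · exact hU
  obtain ⟨T, hT, fT, -⟩ := hB a c ac
  have e := b2_isE h hU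
  exact (h.pl c).l.mem_or_mem U (e.of_le (((h.le_of_caseB hB ac hT fT).2 U e.two e.le hc).trans (hS a c T hT fT).1))

/-- the second member at `c` containing `t` -/
theorem b2_third (hE : E ∈ X a) (tE : t ∈ E) (tF : t ∈ F) (t1 : t ≠ 1) (f1 : Fx E c) (f2 : ¬ Fx F c) :
    ∃ U, t ∈ U ∧ U ≠ E ∧ U ≠ F ∧ Fx U c ∧ IsSylowIn 2 (E ⊔ U) (N c) ∧
      ∀ d : Ω, Fx F d → ¬ Fx E d → Fx U d ∧ (U ∈ X d ∨ U ∈ Y d) := by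
  obtain ⟨U, hU, tU, ne, s, k⟩ := b2_other h hB (b2_mem h hB hS (.inl hE) f1) tE t1
  have f := fx_mono (b2_isE h hU).le (h.fix c)
  exact ⟨U, tU, ne, fun e => f2 (e ▸ f), f, s, fun d d1 d2 =>
    have := (k d (d1 t tF)).resolve_left d2
    ⟨this, b2_mem h hB hS hU this⟩⟩

theorem b2_two [Finite Ω] : Two N := fun a d d' T hT da da' fd fd' => by
  by_contra dd
  obtain ⟨E₁, hE₁, F, hF, i₁, rfl⟩ := (h.pl a).l.flag T hT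
  obtain ⟨E, hE, i, ne⟩ := b2_line h.symm hF E₁
  obtain ⟨F', hF', i', ne'⟩ := b2_line h hE F
  obtain ⟨t, ⟨tF, tE⟩, t1⟩ := exists_ne_one i
  obtain ⟨c, ca, c1, c2⟩ := b2_pt h hE hF' i'
  obtain ⟨U, tU, n1, n2, -, -, k⟩ := b2_third h hB hS hE tE tF t1 c1
    fun f => ne' (b2_eq h hB hE hF hF' (inc_symm i) ca c1 f c2)
  have nf : ∀ {x : Ω}, x ≠ a → Fx (E₁ ⊔ F) x → Fx U x ∧ (U ∈ X x ∨ U ∈ Y x) := fun xa f => k _ (fx_sup.1 f).2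
    fun f' => ne (b2_eq h.symm hB hF hE₁ hE (inc_symm i₁) xa (fx_sup.1 f).2 (fx_sup.1 f).1 f')
  have e := b2_isE h (nf da fd).2
  have le := (h.le_of_caseB hB dd (hS a d _ hT fd) fd').2 U e.two e.le (nf da' fd').1
  exact n1 (b2_three h ((h.pl a).l.mem_or_mem U (e.of_le (le.trans hT.1))) (.inl hE) (.inr hF) t1 tU tE tF n2
    ((h.pl a).l.toHfa.ne hE hF))

theorem b2_q [Finite Ω] : q = 2 := by
  obtain ⟨a, -⟩ := h.nontriv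
  refine (h.pl a).eq_two_or.resolve_right fun q4 => ?_
  obtain ⟨E, hE, -⟩ := (h.pl a).l.levi0
  obtain ⟨F, F₁, F₂, F₃, ⟨hF, i⟩, ⟨h₁, i₁⟩, ⟨h₂, i₂⟩, ⟨h₃, i₃⟩, n₁, n₂, n₃, n₁₂, n₁₃, n₂₃⟩ :=
    (Set.three_lt_ncard_iff (s := {F | F ∈ Y a ∧ E ⊓ F ≠ ⊥})).1 (by rw [(h.pl a).l.card_lines E hE]; omega)
  obtain ⟨t, ⟨tE, tF⟩, t1⟩ := exists_ne_one i
  obtain ⟨E', hE', i', ne⟩ := b2_line h.symm hF E
  obtain ⟨d, da, d1, d2⟩ := b2_pt h.symm hF hE' i'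
  have d3 : ¬ Fx E d := fun f => ne (b2_eq h.symm hB hF hE hE' (inc_symm i) da d1 f d2)
  have key : ∀ {P : Subgroup G}, P ∈ Y a → E ⊓ P ≠ ⊥ → F ≠ P → ∃ c, c ≠ a ∧ Fx E c ∧ Fx P c ∧ ∃ U, t ∈ U ∧ U ≠ F ∧
      Fx U c ∧ IsSylowIn 2 (E ⊔ U) (N c) ∧ (U ∈ X d ∨ U ∈ Y d) := fun hP iP n => by
    obtain ⟨c, ca, c1, c2⟩ := b2_pt h hE hP iP
    obtain ⟨U, tU, -, n2, f, s, k⟩ := b2_third h hB hS hE tE tF t1 c1 fun f => n (b2_eq h hB hE hP hF iP ca c1 c2 f)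
    exact ⟨c, ca, c1, c2, U, tU, n2, f, s, (k d d1 d3).2⟩
  obtain ⟨c₁, a₁, e₁, p₁, U₁, t₁, m₁, -, s₁, k₁⟩ := key h₁ i₁ n₁
  obtain ⟨c₂, a₂, e₂, p₂, U₂, t₂, m₂, f₂, -, k₂⟩ := key h₂ i₂ n₂
  obtain ⟨c₃, a₃, e₃, p₃, U₃, t₃, m₃, f₃, -, k₃⟩ := key h₃ i₃ n₃
  have Fd := b2_mem h hB hS (.inr hF) d1
  obtain rfl := b2_three h k₁ k₂ Fd t1 t₁ t₂ tF m₁ m₂
  obtain rfl := b2_three h k₁ k₃ Fd t1 t₁ t₃ tF m₁ m₃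
  obtain rfl := b2_two h hB hS c₁ c₂ c₃ _ s₁ (fun e => n₁₂ (b2_eq h hB hE h₂ h₁ i₂ a₂ e₂ p₂ (e ▸ p₁)))
    (fun e => n₁₃ (b2_eq h hB hE h₃ h₁ i₃ a₃ e₃ p₃ (e ▸ p₁))) (fx_sup.2 ⟨e₂, f₂⟩) (fx_sup.2 ⟨e₃, f₃⟩)
  exact n₂₃ (b2_eq h hB hE h₃ h₂ i₃ a₃ e₃ p₃ p₂)

end

theorem b2 : B2.{u, v} := fun _ _ _ _ _ _ _ _ _ _ h hB hS => ⟨b2_q h hB hS, b2_two h hB hS⟩

end CL.HL
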