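/-
Project HL3 (S3727), job B3: the Borel case on 22 points does not occur.
-/
import Cfsg.Agent.Perm.HL1

set_option autoImplicit false
set_option linter.unusedSectionVars false
open Cfsg Subgroup MulAction CL.Even CL.Grp CL.Loc
open CL.Bender (Fx st2)
open CL.Hir (TC fx_cj fx_smul fix_smul_of_comm)

namespace CL.HL

universe u v

variable {G : Type*} [Group G] [Finite G]

theorem b3_two {Z : Subgroup G} (h : Nat.card Z = 2) : 𝒩(Z) ≤ 𝒞(Z) := fun g hg => mem_centralizer_iff.2 fun x hx => by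
  by_cases x1 : x = 1
  · simp [x1]
  obtain ⟨y, -, hy⟩ := (Nat.card_eq_two_iff' (1 : Z)).1 h
  have := (hy ⟨_, conj_mem hg hx⟩ fun e => x1 (conj_eq_one_iff.1 (congrArg Subtype.val e))).trans
    (hy ⟨x, hx⟩ fun e => x1 (congrArg Subtype.val e)).symm
  exact (mul_inv_eq_iff_eq_mul.1 (congrArg Subtype.val this)).symm

/-- the stabiliser of a flag in `N(L)` -/
theorem b3_mem {L E F : Subgroup G} {X Y : Set (Subgroup G)} (h : Pl L 2 X Y) (hc : 𝒞(L) = ⊥) (hE : E ∈ X) (hF : F ∈ Y)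
    (i : E ⊓ F ≠ ⊥) {g : G} (hL : g ∈ 𝒩(L)) (h1 : g ∈ 𝒩(E)) (h2 : g ∈ 𝒩(F)) : g ∈ E ⊔ F := by
  have tc : ∀ U g, TC L U g → g ∈ U := fun U g ⟨x, hx, e⟩ => by
    rw [hc, mem_bot, inv_mul_eq_one] at e
    exact e ▸ hx
  have hZ := h.l.card_inf E hE F hF i
  have hI := h.l.isE E hE
  have a1 : g ∈ 𝒞(E ⊓ F) := b3_two hZ (inf_normalizer_le_normalizer_inf ⟨h1, h2⟩)
  have a2 : (E ⊓ F).relIndex E = 2 := by
    have := card_mul_relIndex (inf_le_left : E ⊓ F ≤ E)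
    rw [hZ, hI.card] at this
    omega
  have a3 : g * g ∈ 𝒞(E) := mem_centralizer_iff.2 fun x hx => by
    have b1 : x⁻¹ * (g * x * g⁻¹) ∈ E ⊓ F := by
      refine (mul_mem_iff_of_index_two a2 (a := ⟨x⁻¹, E.inv_mem hx⟩) (b := ⟨_, conj_mem h1 hx⟩)).2 ?_
      simp only [mem_subgroupOf, inv_mem_iff]
      exact mem_normalizer_iff.1 (cent_le_norm _ a1) x
    obtain ⟨w, hw⟩ : ∃ w, g * x * g⁻¹ = x * w := ⟨x⁻¹ * (g * x * g⁻¹), by group⟩
    rw [hw, inv_mul_cancel_left] at b1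
    rw [eq_comm, ← mul_inv_eq_iff_eq_mul, show g * g * x * (g * g)⁻¹ = g * (g * x * g⁻¹) * g⁻¹ by group, hw,
      show g * (x * w) * g⁻¹ = g * x * g⁻¹ * (g * w * g⁻¹) by group, hw, conj_eq_of_mem a1 b1, mul_assoc,
      hI.sq w b1.1, mul_one]
  refine tc _ _ (h.l.stab E hE F hF i g hL h1 h2 a1 ⟨2, ?_⟩)
  simpa [pow_succ, mul_assoc] using hI.sq _ (tc _ _ (h.l.centE E hE _ (mul_mem hL hL) a3))

variable {Ω : Type*} [MulAction G Ω] [Finite Ω] {N : Ω → Subgroup G} {X Y : Ω → Set (Subgroup G)} {a b : Ω}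

theorem b3_card (h : Hyp N 2 X Y) (hB : CaseB N) (h2 : Two N) : Nat.card Ω = 22 := by
  have := h.nontriv
  obtain ⟨a⟩ : Nonempty Ω := inferInstance
  have h1 : ∀ T : {T : Subgroup G | IsSylowIn 2 T (N a)}, ∃ b, b ≠ a ∧ Fx T.1 b := fun T =>
    h.exists_fix T.2.2.1 (h.syl_fix T.2)
  choose f f1 f2 using h1
  have h3 : Set.range f = {a}ᶜ := by
    refine (Set.range_subset_iff.2 f1).antisymm fun b hb => ?_
    obtain ⟨T, t1, t2, -⟩ := hB a b (Ne.symm hb)
    exact ⟨⟨T, t1⟩, h2 a _ _ T t1 (f1 _) hb (f2 ⟨T, t1⟩) t2⟩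
  have h4 : Function.Injective f := fun T T' e => Subtype.ext (T.2.eq_of_le T'.2.2.1
    ((h.le_of_caseB hB (f1 T').symm T'.2 (f2 T')).2 _ T.2.2.1 T.2.1 (e ▸ f2 T)) T'.2.1).symm
  have h5 := Set.ncard_add_ncard_compl ({a} : Set Ω)
  rw [← h3, Set.ncard_range_of_injective h4, Nat.card_coe_set_eq, (h.pl a).l.num_syl, Set.ncard_singleton] at h5
  exact h5.symm

omit [Finite Ω] in
theorem b3_cent (h : Hyp N 2 X Y) (hB : CaseB N) (h2 : Two N) (a : Ω) : 𝒞(N a) = ⊥ :=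
  eq_bot_iff.2 fun j hj => mem_bot.2 (h.faithful j fun b => by
    by_cases hb : a = b
    · exact hb ▸ h.cent_fix hj
    obtain ⟨T, t1, t2, -⟩ := hB a b hb
    exact h2 a _ _ T t1 (h.smul_ne hb (h.cent_fix hj)).symm (Ne.symm hb)
      (fx_smul (cent_le_norm _ (cent_mono t1.1 hj)) t2) t2)

omit [Finite Ω] in
theorem b3_st2 (h : Hyp N 2 X Y) (hB : CaseB N) (h2 : Two N) (hab : a ≠ b) : Nat.card (st2 G a b) ∣ 16 := by
  obtain ⟨T, t1, -, t3⟩ := hB a b hab
  have t4 := (h.pl a).l.card_syl T t1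
  obtain ⟨E, hE, F, hF, i, rfl⟩ := (h.pl a).l.flag T t1
  have c := fun g (hg : g ∈ st2 G a b) => (h.pl a).l.toHfa.norm_cases (h.pl a).r.toHfa hE hF i (t3 hg)
  have d := fun g (hg : g ∈ st2 G a b) => b3_mem (h.pl a) (b3_cent h hB h2 a) hE hF i (h.norm hg.1)
  have h1 : (E ⊔ F).relIndex (st2 G a b) ∣ 2 := by
    rw [relIndex_dvd_two_iff]
    by_cases e : ∃ s ∈ st2 G a b, cj s E = F ∧ cj s F = E
    · obtain ⟨s, hs, e1, e2⟩ := e
      refine ⟨s, hs, fun g hg => (c g hg).symm.imp (fun e => ?_) fun e => d g hg e.1 e.2⟩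
      exact d _ (mul_mem hg hs) (cj_eq_iff_mem.1 (by rw [cj_mul, e1, e.2])) (cj_eq_iff_mem.1 (by rw [cj_mul, e2, e.1]))
    · exact ⟨1, one_mem _, fun g hg => (c g hg).symm.imp (fun e' => (e ⟨g, hg, e'⟩).elim) fun e => d g hg e.1 e.2⟩
  rw [← card_inf_mul_relIndex (E ⊔ F)]
  exact Nat.mul_dvd_mul ((card_dvd_of_le inf_le_left).trans t4.dvd) h1

theorem b3_stab (h : Hyp0 N) (hab : a ≠ b) :
    Nat.card (stabilizer G a) = Nat.card (st2 G a b) * (Nat.card Ω - 1) := by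
  have h1 : orbit (stabilizer G a) b = {a}ᶜ := Set.ext fun c =>
    ⟨by rintro ⟨g, rfl⟩; exact (h.smul_ne hab g.2).symm,
      fun hc => let ⟨g, h1, h2⟩ := h.two a b a c hab (Ne.symm hc); ⟨⟨g, h1⟩, h2⟩⟩
  have h2 := index_stabilizer (stabilizer G a) b
  rw [h1, Set.ncard_compl, Set.ncard_singleton] at h2
  rw [← h2, ← card_inf_mul_relIndex (stabilizer G b), inf_comm]
  rfl

/-- the arithmetic of the Sylow 11-subgroups -/
theorem b3_num {m n t : ℕ} (hm : m ∣ 16) (e : n * t = 42 * m) (h1 : n % 11 = 1) (h3 : ¬ 3 ∣ t) (h7 : ¬ 7 ∣ t) :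
    t = 1 := by
  have a1 : Nat.Coprime 21 t := Nat.Coprime.mul_left ((Nat.Prime.coprime_iff_not_dvd Nat.prime_three).2 h3)
    ((Nat.Prime.coprime_iff_not_dvd (by norm_num : Nat.Prime 7)).2 h7)
  obtain ⟨s, rfl⟩ := a1.dvd_of_dvd_mul_right (⟨2 * m, by omega⟩ : 21 ∣ n * t)
  have a2 : s * t = 2 * m := by nlinarith
  have a3 : s ∣ 2 ^ 5 := (Dvd.intro _ a2).trans (Nat.mul_dvd_mul_left 2 hm)
  obtain ⟨j, hj, rfl⟩ := (Nat.dvd_prime_pow Nat.prime_two).1 a3
  have a4 := Nat.le_of_dvd (by norm_num) hm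
  have a5 : t ≠ 0 := by rintro rfl; simp at h3
  interval_cases j <;> omega

theorem b3 : B3.{u, v} := by
  intro G Ω _ _ _ _ N q X Y h hB hq h2
  subst hq
  have hn := b3_card h hB h2
  have : Fact (Nat.Prime 11) := ⟨by norm_num⟩
  have := h.nontriv
  have : IsPretransitive G Ω := ⟨h.trans⟩
  have s1 : ∀ a : Ω, ∃ m, m ∣ 16 ∧ Nat.card (stabilizer G a) = m * 21 := fun a =>
    let ⟨b, hb⟩ := exists_ne a
    ⟨_, b3_st2 h hB h2 hb.symm, by rw [b3_stab h.toHyp0 hb.symm, hn]⟩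
  have s2 : ∀ (a : Ω) (g : G), g • a = a → g ^ 336 = 1 := fun a g hg => by
    obtain ⟨m, ⟨k, hk⟩, e⟩ := s1 a
    exact orderOf_dvd_iff_pow_eq_one.1 ((orderOf_dvd_natCard (stabilizer G a) hg).trans ⟨k, by rw [e]; nlinarith⟩)
  obtain ⟨a⟩ : Nonempty Ω := inferInstance
  obtain ⟨m, hm, e⟩ := s1 a
  have hG : Nat.card G = 11 * (42 * m) := by
    rw [← (stabilizer G a).card_mul_index, index_stabilizer_of_transitive, hn, e]; ring
  obtain ⟨P⟩ : Nonempty (Sylow 11 G) := inferInstance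
  have hP : Nat.card P = 11 := by
    have m0 := Nat.le_of_dvd (by norm_num) hm
    have m1 := Nat.pos_of_dvd_of_pos hm (by norm_num)
    have h0 := (P : Subgroup G).card_mul_index
    obtain ⟨n, hn⟩ := IsPGroup.iff_card.1 P.2
    have h3 := P.not_dvd_index
    rw [hG, hn] at h0
    rcases n with _ | _ | n
    · exact absurd (by omega) h3
    · exact hn
    · have : 11 ∣ m := (by norm_num : Nat.Coprime 11 42).dvd_of_dvd_mul_left
        ⟨11 ^ n * (P : Subgroup G).index, Nat.eq_of_mul_eq_mul_left (by norm_num : 0 < 11) (by rw [← h0]; ring)⟩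
      exact absurd (this.trans hm) (by norm_num)
  have hc : IsCyclic P := isCyclic_of_prime_card hP
  obtain ⟨t, ht⟩ : 11 ∣ Nat.card 𝒩((P : Subgroup G)) := hP.symm.dvd.trans (card_dvd_of_le le_normalizer)
  have s3 : ∀ r : ℕ, r.Prime → r.Coprime 10 → ¬ r ∣ 22 → ¬ r ∣ t := fun r hr r1 r2 d => by
    have := Fact.mk hr
    obtain ⟨x, hx⟩ := exists_prime_orderOf_dvd_card' (G := 𝒩((P : Subgroup G))) r (by rw [ht]; exact d.mul_left _)
    have x1 : x ∈ (P : Subgroup G).normalizerMonoidHom.ker := by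
      refine orderOf_eq_one_iff.1 (Nat.eq_one_of_dvd_coprimes r1 (hx ▸ orderOf_map_dvd _ x) ?_)
      have := _root_.orderOf_dvd_natCard ((P : Subgroup G).normalizerMonoidHom x)
      rwa [IsCyclic.card_mulAut, hP, Nat.totient_prime (by norm_num)] at this
    rw [normalizerMonoidHom_ker, mem_subgroupOf] at x1
    rw [← orderOf_coe] at hx
    obtain ⟨c, hc⟩ := (IsPGroup.of_card (p := r) (n := 1) (G := zpowers (x : G))
      (by rw [Nat.card_zpowers, hx, pow_one])).nonempty_fixed_point_of_prime_not_dvd_card Ω (by rwa [hn])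
    have x2 : (x : G) • c = c := hc ⟨x, mem_zpowers _⟩
    obtain ⟨y, hy, y1⟩ := exists_ne_one (U := (P : Subgroup G)) fun e => by rw [e, card_bot] at hP; omega
    by_cases y2 : c = y • c
    · have := orderOf_dvd_natCard _ hy
      exact y1 (orderOf_eq_one_iff.1 (Nat.eq_one_of_dvd_coprimes (by norm_num : Nat.Coprime 11 336) (hP ▸ this)
        (orderOf_dvd_of_pow_eq_one (s2 c y y2.symm))))
    · have := (orderOf_dvd_natCard (st2 G c (y • c)) ⟨x2, fix_smul_of_comm (comm_of_mem x1 hy) x2⟩).trans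
        (b3_st2 h hB h2 y2)
      rw [hx] at this
      exact r2 ((hr.dvd_of_dvd_pow (show r ∣ 2 ^ 4 from this)).trans (by norm_num))
  have s4 : t = 1 := b3_num (n := Nat.card (Sylow 11 G)) hm (by
      have := (𝒩((P : Subgroup G))).card_mul_index
      rw [ht, hG, show (𝒩((P : Subgroup G))).index = _ from P.card_eq_index_normalizer.symm] at this
      nlinarith) (card_sylow_modEq_one 11 G) (s3 3 (by norm_num) (by norm_num) (by norm_num))
    (s3 7 (by norm_num) (by norm_num) (by norm_num))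
  have s5 : 𝒩((P : Subgroup G)) ≤ 𝒞((P : Subgroup G)) := by
    rw [← eq_of_le_of_card_ge (le_normalizer (H := (P : Subgroup G))) (by rw [ht, s4, hP])]
    exact le_centralizer _
  have s6 : ∀ (c : Ω) (g : G), g • c = c → g ∈ (MonoidHom.transferSylow P s5).ker := fun c g hg =>
    orderOf_eq_one_iff.1 (Nat.eq_one_of_dvd_coprimes (by norm_num : Nat.Coprime 11 336)
      ((_root_.orderOf_dvd_natCard _).trans hP.dvd) ((orderOf_map_dvd _ g).trans (orderOf_dvd_of_pow_eq_one (s2 c g hg))))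
  refine MonoidHom.not_dvd_card_ker_transferSylow P s5 ?_
  suffices e : (MonoidHom.transferSylow P s5).ker = ⊤ by
    rw [e, card_top, hG]
    exact dvd_mul_right _ _
  refine eq_top_iff.2 fun g _ => ?_
  obtain ⟨c, c1, c2⟩ : ∃ c, c ≠ a ∧ c ≠ g • a := by
    by_contra! c
    have := Set.ncard_le_ncard (s := Set.univ) (t := {a, g • a}) fun x _ => or_iff_not_imp_left.2 (c x)
    have := Set.ncard_insert_le a {g • a}
    simp only [Set.ncard_univ, Set.ncard_singleton] at *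
    omega
  obtain ⟨k, k1, k2⟩ := h.two c a c (g • a) c1 c2
  simpa using mul_mem (s6 c k k1) (s6 a (k⁻¹ * g) (by rw [mul_smul, ← k2, inv_smul_smul]))

end CL.HL
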