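/-
Project HL3 (Hiramine, S3727), job G0: the Borel case and the parabolic case.
-/
import Cfsg.Agent.Perm.HL1

set_option autoImplicit false
open Cfsg Subgroup MulAction CL.Even CL.Grp CL.Loc
open CL.Bender (Fx st2)
open CL.Hir (fx_cj)

namespace CL.HL

universe u v

section

variable {G : Type*} [Group G] {Ω : Type*} [MulAction G Ω]

/-- the stabiliser of `b` in `L` lies in a parabolic subgroup of type `X` -/
def G0Ty (L : Subgroup G) (X Y : Set (Subgroup G)) (b : Ω) : Prop :=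
  ∃ E ∈ X, Fx (LY Y E) b ∧ L ⊓ stabilizer G b ≤ 𝒩(E)

theorem g0_tr {L : Subgroup G} {X Y X' Y' : Set (Subgroup G)} {g : G} {b : Ω} (k1 : ∀ E ∈ X, cj g E ∈ X')
    (k2 : ∀ F ∈ Y, cj g F ∈ Y') (k3 : ∀ F ∈ Y', cj g⁻¹ F ∈ X ∪ Y) (d : ∀ E ∈ X', E ∉ Y') :
    G0Ty L X Y b → G0Ty (cj g L) X' Y' (g • b) := fun ⟨E, hE, h1, h2⟩ =>
  ⟨_, k1 E hE, cj_LY k2 (fun F hF => (k3 F hF).resolve_left fun h => d F (cj_cj_inv g F ▸ k1 _ h) hF) ▸ (fx_cj g).2 h1,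
    fun x hx => cj_norm g E ▸ mem_cj.2 (h2 ⟨mem_cj.1 hx.1, show _ • b = b by
      rw [mul_smul, mul_smul, mem_stabilizer_iff.1 hx.2, inv_smul_smul]⟩)⟩

variable {N : Ω → Subgroup G} {q : ℕ} {X Y : Ω → Set (Subgroup G)} (h : Hyp N q X Y) {a b c : Ω} {g : G}
include h

theorem g0_un (g : G) (a : Ω) : ∀ F ∈ Y (g • a), cj g⁻¹ F ∈ X a ∪ Y a := fun F hF => by
  have := h.cjXY g⁻¹ (g • a)
  rw [inv_smul_smul] at this
  exact this.elim (fun k => .inr (k.2 F hF)) fun k => .inl (k.2 F hF)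

theorem g0_pres (k : (∀ E ∈ X a, cj g E ∈ X (g • a)) ∧ ∀ F ∈ Y a, cj g F ∈ Y (g • a)) :
    G0Ty (N a) (X a) (Y a) b → G0Ty (N (g • a)) (X (g • a)) (Y (g • a)) (g • b) :=
  h.cjN g a ▸ g0_tr k.1 k.2 (g0_un h g a) (h.pl _).l.disj

theorem g0_swap (k : (∀ E ∈ X a, cj g E ∈ Y (g • a)) ∧ ∀ F ∈ Y a, cj g F ∈ X (g • a)) :
    G0Ty (N a) (X a) (Y a) b → G0Ty (N (g • a)) (Y (g • a)) (X (g • a)) (g • b) :=
  h.cjN g a ▸ g0_tr k.1 k.2 (fun F hF => (g0_un h.symm g a F hF).symm) (h.pl _).r.disj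

theorem g0_excl : G0Ty (N a) (X a) (Y a) b → ¬ G0Ty (N a) (Y a) (X a) b := fun ⟨E, hE, h1, _⟩ ⟨F, hF, _, h2⟩ =>
  (h.pl a).l.disj E hE ((h.pl a).l.LY_norm E hE F (.inr hF)
    ((le_inf (((h.pl a).l.LY_le E hE).trans inf_le_left) (fx_iff_le.1 h1)).trans h2) ▸ hF)

variable [Finite G] [Finite Ω]

theorem g0_tot (hB : ¬ CaseB N) (hab : a ≠ b) : G0Ty (N a) (X a) (Y a) b ∨ G0Ty (N a) (Y a) (X a) b := by
  obtain ⟨T0, h0⟩ := exists_isSylowIn 2 (N a)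
  obtain ⟨b0, h1, h2⟩ := h.exists_fix h0.isPGroup (h.syl_fix h0)
  obtain ⟨g, h3, rfl⟩ := h.two a b0 a b h1.symm hab
  have hT := h.syl_smul h0 g
  have hb := (fx_cj g).2 h2
  rw [h3] at hT
  generalize cj g T0 = T at hT hb
  generalize g • b0 = b at hab hb
  rcases (h.pl a).l.og T _ hT (le_inf hT.le (fx_iff_le.1 hb)) inf_le_left (fun e => h.not_fix hab
    (fx_iff_le.2 (e.ge.trans inf_le_right))) with h4 | ⟨E, hE, h4, h5⟩ | ⟨E, hE, h4, h5⟩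
  · refine absurd (fun c d hcd => ?_) hB
    obtain ⟨k, rfl, rfl⟩ := h.two a b c d hab hcd
    refine ⟨_, h.syl_smul hT k, (fx_cj k).2 hb, fun x hx => cj_norm k T ▸ mem_cj.2 ?_⟩
    have h5 : (k⁻¹ * x * k) • a = a := by rw [mul_smul, mul_smul, mem_stabilizer_iff.1 hx.1, inv_smul_smul]
    have h6 : (k⁻¹ * x * k) • b = b := by rw [mul_smul, mul_smul, mem_stabilizer_iff.1 hx.2, inv_smul_smul]
    have h7 := cj_le_of_le hT.le (h.norm h5)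
    exact mem_norm_of_cj_le (le_syl hT (hT.isPGroup.map _) h7 ((le_inf h7 (fx_iff_le.1 (h6 ▸ (fx_cj _).2 hb))).trans h4))
  exacts [.inl ⟨E, hE, fx_iff_le.2 (h4.trans inf_le_right), h5⟩, .inr ⟨E, hE, fx_iff_le.2 (h4.trans inf_le_right), h5⟩]

theorem g0_same (hB : ¬ CaseB N) (hab : a ≠ b) (hac : a ≠ c) (h1 : G0Ty (N a) (X a) (Y a) b) :
    G0Ty (N a) (X a) (Y a) c := by
  obtain ⟨g, h2, rfl⟩ := h.two a b a c hab hac
  refine (h.cjXY g a).elim (fun k => h2 ▸ g0_pres h k h1) fun k => ?_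
  have h3 : {b | a ≠ b ∧ G0Ty (N a) (X a) (Y a) b}.ncard = {b | a ≠ b ∧ G0Ty (N a) (Y a) (X a) b}.ncard :=
    le_antisymm (Set.ncard_le_ncard_of_injOn (g • ·) (fun b hb => ⟨h.smul_ne hb.1 h2, h2 ▸ g0_swap h k hb.2⟩)
      (MulAction.injective g).injOn) (Set.ncard_le_ncard_of_injOn (g • ·)
      (fun b hb => ⟨h.smul_ne hb.1 h2, h2 ▸ g0_swap h.symm k.symm hb.2⟩) (MulAction.injective g).injOn)
  have h4 := Set.ncard_union_eq (s := {b | a ≠ b ∧ G0Ty (N a) (X a) (Y a) b})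
    (t := {b | a ≠ b ∧ G0Ty (N a) (Y a) (X a) b}) (Set.disjoint_left.2 fun b h5 h6 => g0_excl h h5.2 h6.2)
  rw [show {b | a ≠ b ∧ G0Ty (N a) (X a) (Y a) b} ∪ {b | a ≠ b ∧ G0Ty (N a) (Y a) (X a) b} = {a}ᶜ from
    Set.ext fun b => ⟨fun h5 e => h5.elim (·.1 e.symm) (·.1 e.symm), fun h5 =>
      (g0_tot h hB (Ne.symm h5)).imp (⟨Ne.symm h5, ·⟩) (⟨Ne.symm h5, ·⟩)⟩] at h4
  have h5 := Set.ncard_add_ncard_compl ({a} : Set Ω)
  have h6 := h.even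
  rw [← h5, Set.ncard_singleton, h4, h3, Nat.even_iff] at h6
  omega

end

theorem g0 : G0.{u, v} := fun G Ω _ _ _ _ N q X Y h => (em (CaseB N)).imp_right fun hB => by
  classical
  let τ : Ω → Prop := fun a => ∃ b, a ≠ b ∧ G0Ty (N a) (X a) (Y a) b
  have t1 : ∀ {a b}, a ≠ b → τ a → G0Ty (N a) (X a) (Y a) b := fun hab ⟨_, h1, h2⟩ => g0_same h hB h1 hab h2
  have t2 : ∀ {a b}, a ≠ b → ¬ τ a → G0Ty (N a) (Y a) (X a) b := fun hab h1 =>
    (g0_tot h hB hab).resolve_left fun h2 => h1 ⟨_, hab, h2⟩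
  have k : ∀ (g : G) a, (∀ E ∈ if τ a then X a else Y a, cj g E ∈ if τ (g • a) then X (g • a) else Y (g • a)) ∧
      ∀ E ∈ if τ a then Y a else X a, cj g E ∈ if τ (g • a) then Y (g • a) else X (g • a) := fun g a => by
    have := h.nontriv
    obtain ⟨b, hb⟩ := exists_ne a
    have hb' := (MulAction.injective g).ne hb.symm
    by_cases h1 : τ a <;> rcases h.cjXY g a with k | k
    · rwa [if_pos h1, if_pos h1, if_pos ⟨_, hb', g0_pres h k (t1 hb.symm h1)⟩,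
        if_pos ⟨_, hb', g0_pres h k (t1 hb.symm h1)⟩]
    · have h2 : ¬ τ (g • a) := fun h2 => g0_excl h (t1 hb' h2) (g0_swap h k (t1 hb.symm h1))
      rwa [if_pos h1, if_pos h1, if_neg h2, if_neg h2]
    · have h2 : ¬ τ (g • a) := fun h2 => g0_excl h (t1 hb' h2) (g0_pres h.symm k.symm (t2 hb.symm h1))
      rw [if_neg h1, if_neg h1, if_neg h2, if_neg h2]
      exact k.symm
    · have h2 : τ (g • a) := ⟨_, hb', g0_swap h.symm k.symm (t2 hb.symm h1)⟩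
      rw [if_neg h1, if_neg h1, if_pos h2, if_pos h2]
      exact k.symm
  have pl : ∀ a, Pl (N a) q (if τ a then X a else Y a) (if τ a then Y a else X a) := fun a => by
    split_ifs
    exacts [h.pl a, (h.pl a).symm]
  refine ⟨_, _, ⟨h.toHyp0, pl, fun g a => .inl (k g a)⟩, fun g a => (k g a).1, fun g a => (k g a).2, fun a b hab => ?_⟩
  obtain ⟨E, hE, h1, h2⟩ : G0Ty (N a) (if τ a then X a else Y a) (if τ a then Y a else X a) b := by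
    split_ifs with h1
    exacts [t1 hab h1, t2 hab h1]
  refine ⟨E, hE, h1, fun g hg => cj_eq_iff_mem.1 ?_⟩
  have h3 := k g a
  have h4 := (k g⁻¹ a).2
  rw [mem_stabilizer_iff.1 hg.1] at h3
  rw [mem_stabilizer_iff.1 (inv_mem hg.1)] at h4
  have h5 := (fx_cj g).2 h1
  rw [mem_stabilizer_iff.1 hg.2, cj_LY h3.2 h4] at h5
  exact ((pl a).l.LY_norm _ (h3.1 E hE) E (.inl hE)
    ((le_inf (((pl a).l.LY_le _ (h3.1 E hE)).trans inf_le_left) (fx_iff_le.1 h5)).trans h2)).symm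

end CL.HL
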