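/-
Project HL3 (S3727), job LA1: consequences of the axioms inside `L` (helper28).
-/
import Cfsg.Agent.Perm.HL1
import Cfsg.Agent.Perm.ONan1

set_option autoImplicit false
set_option linter.unusedSectionVars false
open Cfsg Subgroup CL.Even CL.Grp CL.Loc

namespace CL.HL

universe u

theorem la1_part {α β : Type*} [Finite α] [Finite β] [Nonempty β] {S : Set α} {T : Set β} (R : α → β → Prop) {m : ℕ}
    (h1 : ∀ a ∈ S, ∃ b ∈ T, R a b) (h2 : ∀ a ∈ S, ∀ b ∈ T, ∀ b' ∈ T, R a b → R a b' → b = b')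
    (h3 : ∀ b ∈ T, {a | a ∈ S ∧ R a b}.ncard = m) : S.ncard = m * T.ncard := by
  choose! f hf using h1
  refine CL.Perm.ncard_eq_mul_fib f S (Set.toFinite T) m (fun a ha => (hf a ha).1) fun b hb => ?_
  rw [← h3 b hb]
  exact congrArg _ (Set.ext fun a => and_congr_right fun ha =>
    ⟨fun e => e ▸ (hf a ha).2, fun e => h2 a ha _ (hf a ha).1 b hb (hf a ha).2 e⟩)

variable {G : Type u} [Group G] [Finite G] {L E F E' U T : Subgroup G} {q : ℕ} {X Y : Set (Subgroup G)}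

theorem la1_sharp (U : Subgroup G) : ((U : Set G) \ {1}).ncard + 1 = Nat.card U :=
  Set.ncard_sdiff_singleton_add_one U.one_mem

variable (b : Bas L q) (h : Hf0 L q X Y) (h' : Hf0 L q Y X)
include b h h'

theorem la1_zc {x : G} (hx : x ∈ L) (hc : x ∈ 𝒞(L)) : x = 1 := by
  rcases simple_dich b.simple (U := L ⊓ 𝒞(L)) inf_le_left
    ((le_centralizer_iff.1 inf_le_right).trans (cent_le_norm _)) with e | e
  · exact mem_bot.1 (e.le ⟨hx, hc⟩)
  · obtain ⟨-, -, E, hE, E₂, -, ne, -, -, -, -, -, -, w, hw, e2, -⟩ := h.tor0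
    exact (ne (e2.symm.trans (cj_eq_of_mem_cent (centralizer_le (h.le hE) (e.ge hw).2))).symm).elim

theorem la1_disj (hE : E ∈ X) : E ∉ Y := fun hY => by
  have h1 := h.card_inf E hE E hY (by rw [inf_idem]; exact (h.isE E hE).ne_bot b.two_le)
  rw [inf_idem, (h.isE E hE).card] at h1
  have := b.two_le
  nlinarith

theorem la1_le_norm (hE : E ∈ X) (hF : F ∈ Y) (i : E ⊓ F ≠ ⊥) : E ≤ 𝒩(F) := fun x hx => by
  by_cases h1 : x = 1
  · exact h1 ▸ one_mem _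
  · exact (h'.norm_iff E hE x hx h1 F hF).2 (inc_symm i)

theorem la1_card_lines (hE : E ∈ X) : {F | F ∈ Y ∧ E ⊓ F ≠ ⊥}.ncard = q + 1 := by
  have h1 := la1_part (S := (E : Set G) \ {1}) (T := {F | F ∈ Y ∧ E ⊓ F ≠ ⊥}) (fun x F => x ∈ F) (m := q - 1)
    (fun x hx => by
      obtain ⟨F, hF, e⟩ := h'.cover x (h.le hE hx.1) ((h.isE E hE).sq x hx.1)
      exact ⟨F, ⟨hF, ne_bot_of_mem ⟨hx.1, e⟩ hx.2⟩, e⟩)
    (fun x hx F hF F' hF' e e' => h'.eq_of_mem hF.1 hF'.1 e e' hx.2) fun F hF => by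
      rw [← h.card_inf E hE F hF.1 hF.2, ← la1_sharp, Nat.add_sub_cancel]
      exact congrArg _ (Set.ext fun x => by simp [and_right_comm])
  have h2 := la1_sharp E
  rw [(h.isE E hE).card, h1] at h2
  obtain ⟨k, rfl⟩ : ∃ k, q = k + 1 := ⟨q - 1, by have := b.two_le; omega⟩
  rw [Nat.add_sub_cancel] at h2
  exact Nat.eq_of_mul_eq_mul_left (show 0 < k by have := b.two_le; omega) (by nlinarith)

theorem la1_card_X : X.ncard = q ^ 2 + q + 1 := by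
  obtain ⟨E, hE, -⟩ := h.levi0
  have h1 := la1_part (S := X \ {E}) (T := {F | F ∈ Y ∧ E ⊓ F ≠ ⊥}) (fun E' F => E' ⊓ F ≠ ⊥) (m := q)
    (fun E' hE' => by
      obtain ⟨F, hF, e, e'⟩ := h.join E hE E' hE'.1 (Ne.symm hE'.2)
      exact ⟨F, ⟨hF, e⟩, e'⟩)
    (fun E' hE' F hF F' hF' e e' => h.join_uniq E hE E' hE'.1 (Ne.symm hE'.2) F hF.1 F' hF'.1 hF.2 e hF'.2 e')
    fun F hF => by
      have h2 := Set.ncard_sdiff_singleton_add_one (s := {E' | E' ∈ X ∧ F ⊓ E' ≠ ⊥}) (a := E) ⟨hE, inc_symm hF.2⟩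
      rw [la1_card_lines b h' h hF.1, Nat.add_right_cancel_iff] at h2
      rw [← h2]
      exact congrArg _ (Set.ext fun x => by simp [and_right_comm, inf_comm F])
  rw [← Set.ncard_sdiff_singleton_add_one hE, h1, la1_card_lines b h h' hE]
  ring

theorem la1_eq (hE : E ∈ X) (hE' : E' ∈ X) (hn : E ≤ 𝒩(E')) : E = E' := by
  by_contra ne
  obtain ⟨F, hF, e, e'⟩ := h.join E hE E' hE' ne
  refine la1_disj b h h' hE ((h.isE E hE).eq_of_le (h'.isE F hF) (fun t ht => ?_) ▸ hF)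
  by_cases h1 : t = 1
  · exact h1 ▸ one_mem _
  obtain ⟨F', hF', e2⟩ := h'.cover t (h.le hE ht) ((h.isE E hE).sq t ht)
  rwa [h.join_uniq E hE E' hE' ne F hF F' hF' e e' (ne_bot_of_mem ⟨ht, e2⟩ h1)
    ((h.norm_iff F' hF' t e2 h1 E' hE').1 (hn ht))]

section Flag

variable (hE : E ∈ X) (hF : F ∈ Y) (i : E ⊓ F ≠ ⊥)
include hE hF i

theorem la1_card_sup : Nat.card (E ⊔ F : Subgroup G) = q ^ 3 := by
  have h1 := card_sup_mul_card_inf (la1_le_norm b h h' hE hF i)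
  rw [h.card_inf E hE F hF i, (h.isE E hE).card, (h'.isE F hF).card] at h1
  exact Nat.eq_of_mul_eq_mul_right (show 0 < q by have := b.two_le; omega) (h1.trans (by ring))

theorem la1_syl : IsSylowIn 2 (E ⊔ F) L := by
  have hle : E ⊔ F ≤ L := sup_le (h.le hE) (h'.le hF)
  refine ⟨hle, isPGroup_sup (h.isE E hE).two (h'.isE F hF).two (la1_le_norm b h h' hE hF i), fun h2 => ?_⟩
  have h1 := b.card_L
  have q2 := b.two_le
  rw [← card_mul_index ((E ⊔ F).subgroupOf L), Nat.card_congr (subgroupOfEquivOfLe hle).toEquiv,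
    la1_card_sup b h h' hE hF i, mul_left_comm, mul_assoc] at h1
  have h3 := (h2.mul_left _).trans (Nat.eq_of_mul_eq_mul_left (by positivity) h1).dvd
  have od : ∀ k, Odd (q ^ (k + 1) - 1) := fun k =>
    Nat.Even.sub_odd (Nat.one_le_pow _ _ (by omega)) (b.even.pow_of_ne_zero k.succ_ne_zero) odd_one
  exact ((od 2).mul (od 1)).not_two_dvd_nat h3

theorem la1_norm : E ⊔ F ≤ 𝒩(E) := sup_le le_normalizer (la1_le_norm b h' h hF hE (inc_symm i))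

theorem la1_flag_uniq (hE' : E' ∈ X) (hle : E' ≤ E ⊔ F) : E' = E :=
  la1_eq b h h' hE' hE (hle.trans (la1_norm b h h' hE hF i))

theorem la1_mem_or {t : G} (ht : t ∈ E ⊔ F) (h2 : t * t = 1) : t ∈ E ∨ t ∈ F := by
  by_cases h1 : t = 1
  · exact .inl (h1 ▸ one_mem _)
  have hL := (la1_syl b h h' hE hF i).1 ht
  obtain ⟨E', hE', e⟩ := h.cover t hL h2
  obtain ⟨F', hF', e'⟩ := h'.cover t hL h2
  refine or_iff_not_imp_left.2 fun h3 => ?_
  rwa [h.join_uniq E hE E' hE' (fun e2 => h3 (e2 ▸ e)) F hF F' hF' i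
    (inc_symm ((h'.norm_iff E' hE' t e h1 F hF).1 (la1_norm b h' h hF hE (inc_symm i) (by rwa [sup_comm]))))
    ((h.norm_iff F' hF' t e' h1 E hE).1 (la1_norm b h h' hE hF i ht)) (ne_bot_of_mem ⟨e, e'⟩ h1)]

theorem la1_cent_eq {x y : G} (hx : x ∈ E) (hx' : x ∉ F) (hy : y ∈ E ⊔ F) (hc : x * y = y * x) : y ∈ E := by
  have x1 : x ≠ 1 := fun e => hx' (e ▸ one_mem _)
  obtain ⟨F', hF', e'⟩ := h'.cover x (h.le hE hx) ((h.isE E hE).sq x hx)
  have i' : E ⊓ F' ≠ ⊥ := ne_bot_of_mem ⟨hx, e'⟩ x1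
  have h1 := h'.norm_of_comm hF' (h'.cj_mem y ((la1_syl b h h' hE hF i).1 hy) F' hF') e' x1 hc.symm
  obtain ⟨e, he, f, hf, rfl⟩ := (mem_sup_nr (la1_le_norm b h h' hE hF i)).1 hy
  rw [mul_mem_cancel_left (la1_le_norm b h h' hE hF' i' he)] at h1
  refine mul_mem he ?_
  by_cases f1 : f = 1
  · exact f1 ▸ one_mem _
  obtain ⟨E', hE', e2⟩ := h.cover f (h'.le hF hf) ((h'.isE F hF).sq f hf)
  rwa [h'.join_uniq F hF F' hF' (fun e3 => hx' (e3 ▸ e')) E hE E' hE' (inc_symm i) (inc_symm i')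
    (ne_bot_of_mem ⟨hf, e2⟩ f1) ((h'.norm_iff E' hE' f e2 f1 F' hF').1 h1)]

theorem la1_comm_left {x y : G} (hx : x ∈ E ⊔ F) (hy : y ∈ E ⊔ F) : x * y * x⁻¹ * y⁻¹ ∈ E := by
  obtain ⟨e, he, f, hf, rfl⟩ := (mem_sup_nr (la1_le_norm b h h' hE hF i)).1 hx
  obtain ⟨e', he', f', hf', rfl⟩ := (mem_sup_nr (la1_le_norm b h h' hE hF i)).1 hy
  have hn := la1_le_norm b h' h hF hE (inc_symm i)
  have e1 : e * f * (e' * f') * (e * f)⁻¹ * (e' * f')⁻¹ = e * (f * e' * f⁻¹) * (f' * e⁻¹ * f'⁻¹) * e'⁻¹ := by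
    calc _ = e * (f * e' * f⁻¹) * (f * f' * f⁻¹ * e⁻¹ * f'⁻¹) * e'⁻¹ := by group
      _ = _ := by rw [(h'.isE F hF).comm hf hf', mul_inv_cancel_right]
  exact e1 ▸ mul_mem (mul_mem (mul_mem he (conj_mem (hn hf) he')) (conj_mem (hn hf') (inv_mem he))) (inv_mem he')

theorem la1_comm_mem {x y : G} (hx : x ∈ E ⊔ F) (hy : y ∈ E ⊔ F) : x * y * x⁻¹ * y⁻¹ ∈ E ⊓ F :=
  ⟨la1_comm_left b h h' hE hF i hx hy,
    la1_comm_left b h' h hF hE (inc_symm i) (by rwa [sup_comm]) (by rwa [sup_comm])⟩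

theorem la1_comm_onto {x z : G} (hx : x ∈ E) (hx' : x ∉ F) (hz : z ∈ E ⊓ F) : ∃ y ∈ F, x * y * x⁻¹ * y⁻¹ = z := by
  have hm : ∀ y : F, x * y * x⁻¹ * (y : G)⁻¹ ∈ E ⊓ F := fun y =>
    la1_comm_mem b h h' hE hF i (mem_sup_left hx) (mem_sup_right y.2)
  let φ : F →* G := MonoidHom.mk' (fun y => x * y * x⁻¹ * (y : G)⁻¹) fun y y' => by
    calc _ = x * y * x⁻¹ * (x * y' * x⁻¹ * (y' : G)⁻¹ * (y : G)⁻¹) := by rw [coe_mul]; group
      _ = _ := by rw [(h'.isE F hF).comm (hm y').2 (inv_mem y.2), ← mul_assoc]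
  have hk : φ.ker = (E ⊓ F).subgroupOf F := by
    ext y
    change x * y * x⁻¹ * (y : G)⁻¹ = 1 ↔ (y : G) ∈ E ⊓ F
    rw [mul_inv_eq_one, mul_inv_eq_iff_eq_mul]
    exact ⟨fun e => ⟨la1_cent_eq b h h' hE hF i hx hx' (mem_sup_right y.2) e, y.2⟩,
      fun e => (h.isE E hE).comm hx e.1⟩
  have h1 := card_mul_index φ.ker
  rw [index_ker, hk, Nat.card_congr (subgroupOfEquivOfLe inf_le_right).toEquiv, h.card_inf E hE F hF i,
    (h'.isE F hF).card, sq] at h1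
  have h2 : φ.range = E ⊓ F := eq_of_le_of_card_ge (by rintro _ ⟨y, rfl⟩; exact hm y) (by
    rw [h.card_inf E hE F hF i, Nat.eq_of_mul_eq_mul_left (show 0 < q by have := b.two_le; omega) h1])
  obtain ⟨y, e⟩ := h2.ge hz
  exact ⟨y, y.2, e⟩

end Flag

theorem la1_flag (hT : IsSylowIn 2 T L) : ∃ E ∈ X, ∃ F ∈ Y, E ⊓ F ≠ ⊥ ∧ T = E ⊔ F := by
  obtain ⟨F, hF, E, hE, -, -, -, i, -⟩ := h.tor0
  obtain ⟨g, hg, rfl⟩ := syl_conj (la1_syl b h h' hE hF i) hT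
  exact ⟨_, h.cj_mem g hg E hE, _, h'.cj_mem g hg F hF, (inc_cj g).2 i, cj_sup g E F⟩

theorem la1_num_syl : {T : Subgroup G | IsSylowIn 2 T L}.ncard = (q ^ 2 + q + 1) * (q + 1) := by
  rw [mul_comm, ← la1_card_X b h h']
  refine la1_part (fun T E => E ≤ T) (fun T hT => ?_) (fun T hT E₁ h1 E₂ h2 e1 e2 => ?_) fun E hE => ?_
  · obtain ⟨E, hE, F, -, -, rfl⟩ := la1_flag b h h' hT
    exact ⟨E, hE, le_sup_left⟩
  · obtain ⟨E, hE, F, hF, i, rfl⟩ := la1_flag b h h' hT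
    rw [la1_flag_uniq b h h' hE hF i h1 e1, la1_flag_uniq b h h' hE hF i h2 e2]
  · rw [← la1_card_lines b h h' hE, ← Set.InjOn.ncard_image (s := {F | F ∈ Y ∧ E ⊓ F ≠ ⊥}) (f := fun F => E ⊔ F)
      fun F hF F' hF' e =>
      la1_flag_uniq b h' h hF'.1 hE (inc_symm hF'.2) hF.1 (by rw [sup_comm, ← show _ = E ⊔ F' from e]; exact le_sup_right)]
    refine congrArg _ (Set.ext fun T => ⟨fun ⟨hT, e⟩ => ?_, ?_⟩)
    · obtain ⟨E', hE', F, hF, i, rfl⟩ := la1_flag b h h' hT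
      obtain rfl := la1_flag_uniq b h h' hE' hF i hE e
      exact ⟨F, ⟨hF, i⟩, rfl⟩
    · rintro ⟨F, hF, rfl⟩
      exact ⟨la1_syl b h h' hE hF.1 hF.2, le_sup_left⟩

theorem la1_mem_or_mem (hU : IsE L q U) : U ∈ X ∨ U ∈ Y := by
  obtain ⟨T, hT, hle⟩ := exists_isSylowIn_ge hU.two hU.le
  obtain ⟨E, hE, F, hF, i, rfl⟩ := la1_flag b h h' hT
  by_cases h1 : U ≤ F
  · exact .inr (hU.eq_of_le (h'.isE F hF) h1 ▸ hF)
  obtain ⟨x, hx, hx'⟩ := SetLike.not_le_iff_exists.1 h1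
  exact .inl (hU.eq_of_le (h.isE E hE) (fun y hy => la1_cent_eq b h h' hE hF i
    ((la1_mem_or b h h' hE hF i (hle hx) (hU.sq x hx)).resolve_right hx') hx' (hle hy) (hU.comm hx hy)) ▸ hE)

omit b h h' in
theorem la1 : LA1.{u} := fun _ _ _ _ _ _ _ ⟨b, h, h'⟩ =>
  { h with
    zc := fun _ => la1_zc b h h'
    disj := fun _ => la1_disj b h h'
    le_norm := fun _ hE _ => la1_le_norm b h h' hE
    card_lines := fun _ => la1_card_lines b h h'
    card_X := la1_card_X b h h'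
    syl := fun _ hE _ => la1_syl b h h' hE
    card_syl := fun _ hT => by
      obtain ⟨E, hE, F, hF, i, rfl⟩ := la1_flag b h h' hT
      exact la1_card_sup b h h' hE hF i
    flag := fun _ => la1_flag b h h'
    flag_uniq := fun _ hE _ hF i _ => la1_flag_uniq b h h' hE hF i
    num_syl := la1_num_syl b h h'
    mem_or := fun _ hE _ hF i _ => la1_mem_or b h h' hE hF i
    cent_eq := fun _ hE _ hF i _ hx hx' _ => la1_cent_eq b h h' hE hF i hx hx'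
    comm_onto := fun _ hE _ hF i _ hx hx' _ => la1_comm_onto b h h' hE hF i hx hx'
    comm_mem := fun _ hE _ hF i _ hx _ => la1_comm_mem b h h' hE hF i hx
    mem_or_mem := fun _ => la1_mem_or_mem b h h'
    eq_of_le_norm := fun _ hE _ => la1_eq b h h' hE }

end CL.HL
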