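/-
Project HL3 (S3727), job LA2: transitivity properties and the parabolic subgroups of `L`.
-/
import Cfsg.Agent.Perm.HL1
import Cfsg.Agent.Cls.SLnCard

set_option autoImplicit false
open Cfsg Subgroup MulAction CL.Even CL.Grp CL.Loc

namespace CL.HL

universe u

variable {G : Type*} [Group G] [Finite G] {L A D E F F' F'' U : Subgroup G} {q : ℕ} {X Y S : Set (Subgroup G)}

/-- an orbit under conjugation which is large enough -/
theorem la2_orbit (h1 : ∀ y ∈ A, cj y F ∈ S) (hD : A ⊓ 𝒩(F) ≤ D) (h2 : S.ncard * Nat.card D ≤ Nat.card A)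
    (h3 : F' ∈ S) : ∃ y ∈ A, cj y F = F' := by
  have inj : Function.Injective fun c : A ⧸ (𝒩(F)).subgroupOf A => (⟨cj (c.out : G) F, h1 _ c.out.2⟩ : S) :=
    fun a b e => by
      rw [← a.out_eq, ← b.out_eq]
      refine QuotientGroup.eq.2 (mem_subgroupOf.2 (cj_eq_iff_mem.1 ?_))
      rw [Subgroup.coe_mul, cj_mul, ← Subtype.mk.inj e, Subgroup.coe_inv, cj_inv_cj]
  have h4 := relIndex_mul_relIndex ⊥ (A ⊓ 𝒩(F)) A bot_le inf_le_left
  rw [relIndex_bot_left, relIndex_bot_left, inf_comm A, inf_relIndex_right, inf_comm, mul_comm] at h4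
  obtain ⟨c, hc⟩ := (inj.bijective_of_nat_card_le (Nat.le_of_mul_le_mul_right (c := Nat.card D)
    (h2.trans (h4.ge.trans (Nat.mul_le_mul_left _ (card_le_of_le hD)))) Nat.card_pos)).2 ⟨F', h3⟩
  exact ⟨_, c.out.2, Subtype.mk.inj hc⟩

omit [Finite G] in
theorem la2_torus {E₂ : Subgroup G} {g : G} (hX : ∀ g ∈ L, ∀ E ∈ X, cj g E ∈ X) (hg : g ∈ L) (t : Torus L q X F E E₂) :
    Torus L q X (cj g F) (cj g E) (cj g E₂) := by
  obtain ⟨K, h1, h2, h3, w, hw, h4, h5⟩ := t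
  refine ⟨cj g K, (cj_mono g h1).trans ?_, by rwa [card_cj], ?_, g * w * g⁻¹, mul_mem (mul_mem hg hw) (inv_mem hg),
    by rw [cj_mul, cj_inv_cj, cj_mul, h4], ?_⟩
  · rw [cj_inf, cj_inf, cj_norm, cj_norm, cj_eq (le_normalizer hg)]
  · rintro _ ⟨x, hx, rfl⟩ E₃ hE i n1 n2 hn
    obtain ⟨E₄, rfl⟩ : ∃ E₄, cj g E₄ = E₃ := ⟨_, cj_cj_inv g E₃⟩
    rw [← cj_norm] at hn
    rw [h3 x hx E₄ (cj_inv_cj g E₄ ▸ hX _ (inv_mem hg) _ hE) ((inc_cj g).1 i) (fun e => n1 (e ▸ rfl))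
      (fun e => n2 (e ▸ rfl)) ((mem_map_iff_mem (MulAut.conj g).injective).1 hn), map_one]
  · rintro _ ⟨x, hx, rfl⟩
    change g * w * g⁻¹ * (g * x * g⁻¹) * (g * w * g⁻¹)⁻¹ = (g * x * g⁻¹)⁻¹
    rw [conj_inv, conj_inv, ← h5 x hx]
    group

variable (h : Hfa L q X Y) (h' : Hfa L q Y X)
include h

omit [Finite G] in
theorem la2_line (b : Bas L q) (hE : E ∈ X) (F' F'' : Subgroup G) : ∃ F ∈ Y, E ⊓ F ≠ ⊥ ∧ F ≠ F' ∧ F ≠ F'' := by
  obtain ⟨F, h1, h2⟩ := Set.exists_mem_notMem_of_ncard_lt_ncard (s := {F', F''}) (t := {F | F ∈ Y ∧ E ⊓ F ≠ ⊥}) (by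
    have h1 := Set.ncard_insert_le F' {F''}
    have h2 := b.two_le
    rw [Set.ncard_singleton] at h1
    rw [h.card_lines E hE]
    omega)
  exact ⟨F, h1.1, h1.2, fun e => h2 (Or.inl e), fun e => h2 (Or.inr e)⟩

include h'

theorem la2_transL (hE : E ∈ X) (hF : F ∈ Y) (hF' : F' ∈ Y) (hF'' : F'' ∈ Y) (i : E ⊓ F ≠ ⊥) (i' : E ⊓ F' ≠ ⊥)
    (i'' : E ⊓ F'' ≠ ⊥) (n' : F' ≠ F) (n'' : F'' ≠ F) : ∃ y ∈ F, cj y F' = F'' := by
  refine la2_orbit (S := {F | F ∈ Y ∧ E ⊓ F ≠ ⊥} \ {F}) (D := E ⊓ F) (fun y hy => ⟨⟨h'.cj_mem y (h'.toHf0.le hF hy) _ hF',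
    ?_⟩, fun e => n' (cj_inj.1 (e.trans (cj_eq (le_normalizer hy)).symm))⟩) (fun y hy => ⟨?_, hy.1⟩) ?_ ⟨⟨hF'', i''⟩, n''⟩
  · rw [← cj_eq (h'.le_norm F hF E hE (inc_symm i) hy)]
    exact (inc_cj y).2 i'
  · by_cases y1 : y = 1
    · exact y1 ▸ one_mem E
    obtain ⟨E', hE', h1⟩ := h.cover y (h'.toHf0.le hF hy.1) ((h'.isE F hF).sq y hy.1)
    rwa [h'.join_uniq F hF F' hF' n'.symm E hE E' hE' (inc_symm i) (inc_symm i') (ne_bot_of_mem ⟨hy.1, h1⟩ y1)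
      ((h'.norm_iff E' hE' y h1 y1 F' hF').1 hy.2)]
  · rw [Set.ncard_sdiff_singleton_of_mem (by exact ⟨hF, i⟩), h.card_lines E hE, h.card_inf E hE F hF i,
      (h'.isE F hF).card, Nat.add_sub_cancel, sq]

theorem la2_transE (hE : E ∈ X) (hF : F ∈ Y) (hF' : F' ∈ Y) (i : E ⊓ F = ⊥) (i' : E ⊓ F' = ⊥) :
    ∃ x ∈ E, cj x F = F' := by
  refine la2_orbit (S := Y \ {F | F ∈ Y ∧ E ⊓ F ≠ ⊥}) (D := ⊥) (fun x hx => ⟨h'.cj_mem x (h.toHf0.le hE hx) _ hF,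
    fun e => ?_⟩) (fun x hx => by_contra fun x1 => ?_) ?_ ⟨hF', fun e => e.2 i'⟩
  · have := e.2
    rw [← cj_eq (le_normalizer hx), inc_cj] at this
    exact this i
  · exact inc_symm ((h'.norm_iff E hE x hx.1 x1 F hF).1 hx.2) i
  · rw [Set.ncard_sdiff fun _ e => e.1, h.card_lines E hE, h'.card_X, (h.isE E hE).card, card_bot]
    omega

omit [Finite G] in
theorem la2_le_LY (hE : E ∈ X) : E ≤ LY Y E := fun t ht => by
  by_cases t1 : t = 1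
  · exact t1 ▸ one_mem _
  obtain ⟨F, hF, h1⟩ := h'.cover t (h.toHf0.le hE ht) ((h.isE E hE).sq t ht)
  exact le_LY' hF (ne_bot_of_mem ⟨ht, h1⟩ t1) h1

omit [Finite G] in
theorem la2_irr (b : Bas L q) (hE : E ∈ X) (hU : U ≤ E) (hn : LY Y E ≤ 𝒩(U)) : U = ⊥ ∨ U = E := by
  refine or_iff_not_imp_left.2 fun h0 => le_antisymm hU fun t ht => ?_
  have key : ∀ u ∈ U, ∀ F ∈ Y, E ⊓ F ≠ ⊥ → u ∉ F → E ⊓ F ≤ U := fun u hu F hF i h1 z hz => by
    obtain ⟨y, hy, rfl⟩ := h.comm_onto E hE F hF i u (hU hu) h1 z hz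
    rw [mul_assoc, mul_assoc, ← mul_assoc y]
    exact mul_mem hu (conj_mem (hn (le_LY' hF i hy)) (inv_mem hu))
  by_cases t1 : t = 1
  · exact t1 ▸ one_mem _
  obtain ⟨u, hu, u1⟩ := exists_ne_one h0
  obtain ⟨F, hF, h1⟩ := h'.cover t (h.toHf0.le hE ht) ((h.isE E hE).sq t ht)
  have i : E ⊓ F ≠ ⊥ := ne_bot_of_mem ⟨ht, h1⟩ t1
  by_cases h2 : u ∈ F
  swap
  · exact key u hu F hF i h2 ⟨ht, h1⟩
  obtain ⟨F', hF', i', n, -⟩ := la2_line h b hE F F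
  obtain ⟨v, hv, v1⟩ := exists_ne_one i'
  exact key v (key u hu F' hF' i' (fun e => n (h'.toHf0.eq_of_mem hF' hF e h2 u1)) hv) F hF i
    (fun e => n (h'.toHf0.eq_of_mem hF' hF hv.2 e v1)) ⟨ht, h1⟩

omit [Finite G] in
theorem la2_levi (hE : E ∈ X) : Levi q Y E := by
  obtain ⟨E₀, hE₀, k, _, _, hk, φ, hs, hker⟩ := h.levi0
  obtain ⟨g, hg, rfl⟩ := h.trans E₀ hE₀ E hE
  let e : LY Y E₀ ≃* LY Y (cj g E₀) := ((LY Y E₀).equivMapOfInjective _ (MulAut.conj g).injective).trans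
    (MulEquiv.subgroupCongr (h.toHf0.cj_LY_L h'.toHf0 hg))
  refine ⟨k, _, _, hk, φ.comp e.symm.toMonoidHom, hs.comp e.symm.surjective, fun x => ?_⟩
  obtain ⟨y, rfl⟩ := e.surjective x
  rw [MonoidHom.comp_apply, MulEquiv.coe_toMonoidHom, e.symm_apply_apply, hker]
  exact (mem_map_iff_mem (MulAut.conj g).injective).symm

omit [Finite G] in
theorem la2_card_LY (b : Bas L q) (hE : E ∈ X) : Nat.card (LY Y E) = q ^ 3 * (q ^ 2 - 1) := by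
  obtain ⟨k, _, _, rfl, φ, hs, hker⟩ := la2_levi h h' hE
  have h1 := CL.SLn.card_PSL_mul (ι := Fin 2) (F := k)
  have h2 : Nat.gcd (Fintype.card (Fin 2)) (Fintype.card k - 1) = 1 := by
    rw [Fintype.card_fin]
    exact Nat.coprime_two_left.2 (Nat.Even.sub_odd (by have := b.two_le; omega) b.even odd_one)
  rw [h2, one_mul, CL.SLn.card_SL_two] at h1
  rw [← φ.ker.index_mul_card, index_ker, MonoidHom.range_eq_top.2 hs, card_top, h1,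
    show φ.ker = E.subgroupOf (LY Y E) from Subgroup.ext hker,
    Nat.card_congr (subgroupOfEquivOfLe (la2_le_LY h h' hE)).toEquiv, (h.isE E hE).card]
  ring

theorem la2_two (b : Bas L q) {A' : Subgroup G} (hE : E ∈ X) (hA : A ∈ X) (hA' : A' ∈ X) (n : E ≠ A) (n' : E ≠ A') :
    ∃ g ∈ L, cj g E = E ∧ cj g A = A' := by
  obtain ⟨F, hF, i, j⟩ := h.join E hE A hA n
  obtain ⟨F', hF', i', j'⟩ := h.join E hE A' hA' n'
  obtain ⟨F₃, hF₃, i₃, n1, n2⟩ := la2_line h b hE F F'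
  obtain ⟨y, hy, rfl⟩ := la2_transL h h' hE hF₃ hF hF' i₃ i i' n1.symm n2.symm
  have yL := h'.toHf0.le hF₃ hy
  have yE := cj_eq (h'.le_norm F₃ hF₃ E hE (inc_symm i₃) hy)
  obtain ⟨x, hx, e⟩ := la2_transL h' h hF' hE (h.cj_mem y yL A hA) hA' (inc_symm i') (inc_symm ((inc_cj y).2 j))
    (inc_symm j') (fun e => n (cj_inj.1 (yE.trans e.symm))) n'.symm
  exact ⟨x * y, mul_mem (h.toHf0.le hE hx) yL, by rw [cj_mul, yE, cj_eq (le_normalizer hx)], by rw [cj_mul, e]⟩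

theorem la2_tor (b : Bas L q) (hF : F ∈ Y) (hE : E ∈ X) (hA : A ∈ X) (n : E ≠ A) (i : E ⊓ F ≠ ⊥) (j : A ⊓ F ≠ ⊥) :
    Torus L q X F E A := by
  obtain ⟨F₀, hF₀, E₀, hE₀, A₀, hA₀, n₀, i₀, j₀, t⟩ := h.tor0
  obtain ⟨g, hg, rfl⟩ := h.trans E₀ hE₀ E hE
  obtain ⟨x, hx, e1, e2⟩ := la2_two h h' b hE (h.cj_mem g hg A₀ hA₀) hA (fun e => n₀ (cj_inj.1 e)) n
  have t1 := la2_torus h.cj_mem hx (la2_torus h.cj_mem hg t)
  have i1 := (inc_cj x).2 ((inc_cj g).2 i₀)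
  have j1 := (inc_cj x).2 ((inc_cj g).2 j₀)
  rw [e1] at i1
  rw [e2] at j1
  rwa [e1, e2, ← h.join_uniq _ hE A hA n F hF _ (h'.cj_mem x hx _ (h'.cj_mem g hg _ hF₀)) i j i1 j1] at t1

omit h h' in
theorem la2 : LA2.{u} := fun G _ _ L q X Y b h h' =>
  { h with
    transL := fun _ hE _ hF _ hF' _ hF'' => la2_transL h h' hE hF hF' hF''
    transE := fun _ hE _ hF _ hF' => la2_transE h h' hE hF hF'
    le_LY := fun _ => la2_le_LY h h'
    LY_le := fun E hE => LY_le' fun F hF i => le_inf (h'.toHf0.le hF) (h'.le_norm F hF E hE (inc_symm i))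
    mem_LY := fun E hE t ht t2 hn => by
      by_cases t1 : t = 1
      · exact t1 ▸ one_mem _
      obtain ⟨F, hF, h1⟩ := h'.cover t ht t2
      exact le_LY' hF ((h.norm_iff F hF t h1 t1 E hE).1 hn) h1
    irr := fun _ hE _ => la2_irr h h' b hE
    LY_norm := fun E hE E' hE' hn => by
      rcases hE' with hE' | hE'
      · exact (h.eq_of_le_norm E hE E' hE' ((la2_le_LY h h' hE).trans hn)).symm
      · obtain ⟨F, hF, i, n, -⟩ := la2_line h b hE E' E'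
        exact absurd (h'.eq_of_le_norm F hF E' hE' ((le_LY' hF i).trans hn)) n
    card_LY := fun _ => la2_card_LY h h' b
    levi := fun _ => la2_levi h h'
    tor := fun _ hF _ hE _ hA => la2_tor h h' b hF hE hA }

end CL.HL
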