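/-
Project HL3 (S3727), job LB: the normaliser of `L` and the overgroups of a Sylow 2-subgroup of `L`.
-/
import Cfsg.Agent.Perm.HL1

set_option autoImplicit false
open Cfsg Subgroup MulAction CL.Even CL.Grp CL.Loc
open CL.Hir (TC)
open CL.ZD (a1_exists_fixed)

namespace CL.HL

universe u

variable {G : Type u} [Group G] {L E F E' F' A : Subgroup G} {q : ℕ} {X Y : Set (Subgroup G)} {g k : G}

/-- type preserving elements. -/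
def LBTp (X Y : Set (Subgroup G)) (g : G) : Prop := (∀ E ∈ X, cj g E ∈ X) ∧ ∀ F ∈ Y, cj g F ∈ Y

theorem LBTp.symm (h : LBTp X Y g) : LBTp Y X g := ⟨h.2, h.1⟩

theorem lb_norm_conj {x : G} : x * g * x⁻¹ ∈ 𝒩(E) ↔ g ∈ 𝒩(cj x⁻¹ E) := by
  rw [← cj_norm, mem_cj, inv_inv]

theorem lb_norm_of_eq {x : G} (h : cj x E = cj g E) : x⁻¹ * g ∈ 𝒩(E) := by
  rw [← cj_eq_iff_mem, cj_mul, ← h, cj_inv_cj]

theorem lb_norm_comm {y : G} (hk : k ∈ 𝒩(E)) (e : y * k = k * y) : k ∈ 𝒩(cj y E) := by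
  rw [← cj_eq_iff_mem, ← cj_mul, ← e, cj_mul, cj_eq hk]

theorem lb_inc (hE : g ∈ 𝒩(E)) (i : E ⊓ F ≠ ⊥) : E ⊓ cj g F ≠ ⊥ := by
  have := (inc_cj g).2 i
  rwa [cj_eq hE] at this

theorem lb_off (hE : g ∈ 𝒩(E)) (i : E ⊓ F = ⊥) : E ⊓ cj g F = ⊥ := by
  rw [← cj_eq hE, ← cj_inf, i, cj_bot]

theorem lb_cls {Z : Set (Subgroup G)} (ht : ∀ E ∈ X, ∀ E' ∈ X, ∃ g ∈ L, cj g E = E')
    (hZ : ∀ g ∈ L, ∀ E ∈ Z, cj g E ∈ Z) (hg : g ∈ 𝒩(L)) (hE : E ∈ X) (h0 : cj g E ∈ Z) : ∀ E' ∈ X, cj g E' ∈ Z := by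
  intro E' hE'
  obtain ⟨x, hx, rfl⟩ := ht E hE E' hE'
  have := hZ _ (conj_mem hg hx) _ h0
  rwa [← cj_mul, inv_mul_cancel_right, cj_mul] at this

namespace Pl1

variable (h : Pl1 L q X Y)
include h

theorem lb_types (hg : g ∈ 𝒩(L)) :
    ((∀ E ∈ X, cj g E ∈ X) ∧ ∀ F ∈ Y, cj g F ∈ Y) ∨ ((∀ E ∈ X, cj g E ∈ Y) ∧ ∀ F ∈ Y, cj g F ∈ X) := by
  obtain ⟨F, hF, E, hE, -, -, -, i, -⟩ := h.l.tor0
  have h1 := h.l.mem_or_mem _ (cj_eq hg ▸ (h.l.isE E hE).conj g)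
  have h2 := h.l.mem_or_mem _ (cj_eq hg ▸ (h.r.isE F hF).conj g)
  have h3 : cj g E ≠ cj g F := fun e => h.l.toHfa.ne hE hF (cj_inj.1 e)
  rcases h1 with h1 | h1 <;> rcases h2 with h2 | h2
  · exact absurd (h.l.ti _ h1 _ h2 h3) ((inc_cj g).2 i)
  · exact Or.inl ⟨lb_cls h.l.trans h.l.cj_mem hg hE h1, lb_cls h.r.trans h.r.cj_mem hg hF h2⟩
  · exact Or.inr ⟨lb_cls h.l.trans h.r.cj_mem hg hE h1, lb_cls h.r.trans h.l.cj_mem hg hF h2⟩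
  · exact absurd (h.r.ti _ h1 _ h2 h3) ((inc_cj g).2 i)

theorem lb_tp (hg : g ∈ 𝒩(L)) (hE : E ∈ X) (h1 : g ∈ 𝒩(E)) : LBTp X Y g :=
  (h.lb_types hg).resolve_right fun e => h.l.disj E hE (cj_eq h1 ▸ e.1 E hE)

theorem lb_ker (hg : g ∈ 𝒩(L)) (h1 : ∀ E ∈ X, g ∈ 𝒩(E)) : g ∈ 𝒞(L) := by
  let K : Subgroup G := L ⊓ ⨅ E ∈ X, 𝒩(E)
  have hK : ∀ x, x ∈ K ↔ x ∈ L ∧ ∀ E ∈ X, x ∈ 𝒩(E) := fun x => by simp [K, mem_iInf]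
  rcases simple_dich h.simple (U := K) inf_le_left (le_norm_of_cj_le fun a ha x hx => by
    obtain ⟨y, hy, rfl⟩ := hx
    have h2 := (hK y).1 hy
    exact (hK _).2 ⟨conj_mem (le_normalizer ha) h2.1, fun E hE =>
      lb_norm_conj.2 (h2.2 _ (h.l.cj_mem _ (inv_mem ha) E hE))⟩) with e | e
  · refine mem_centralizer_iff.2 fun x hx => ?_
    have : g * x * g⁻¹ * x⁻¹ ∈ K := (hK _).2 ⟨mul_mem (conj_mem hg hx) (inv_mem hx), fun E hE => by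
      have := mul_mem (h1 E hE) (lb_norm_conj.2 (inv_mem (h1 _ (h.l.cj_mem _ (inv_mem hx) E hE))))
      simpa [mul_assoc] using this⟩
    rw [e, mem_bot, mul_inv_eq_one, mul_inv_eq_iff_eq_mul] at this
    exact this.symm
  · obtain ⟨-, -, E, hE, E', hE', ne, -⟩ := h.l.tor0
    obtain ⟨a, ha, rfl⟩ := h.l.trans E hE E' hE'
    exact absurd (cj_eq (((hK a).1 (e.ge ha)).2 E hE)).symm ne

/-- the line through two fixed points is fixed. -/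
theorem lb_join (t : LBTp X Y g) (hE : E ∈ X) (hE' : E' ∈ X) (ne : E ≠ E') (hF : F ∈ Y) (i : E ⊓ F ≠ ⊥)
    (i' : E' ⊓ F ≠ ⊥) (n : g ∈ 𝒩(E)) (n' : g ∈ 𝒩(E')) : g ∈ 𝒩(F) :=
  cj_eq_iff_mem.1 (h.l.join_uniq E hE E' hE' ne _ (t.2 F hF) F hF (lb_inc n i) (lb_inc n' i') i i')

/-- there are three lines through a point. -/
theorem lb_third (hE : E ∈ X) (F₁ F₂ : Subgroup G) : ∃ F ∈ Y, E ⊓ F ≠ ⊥ ∧ F ≠ F₁ ∧ F ≠ F₂ := by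
  by_contra hc
  push Not at hc
  have h1 : {F | F ∈ Y ∧ E ⊓ F ≠ ⊥} ⊆ {F₁, F₂} := fun F hF => by
    by_cases e : F = F₁
    · exact Or.inl e
    · exact Or.inr (hc F hF.1 hF.2 e)
  have h2 := Set.ncard_le_ncard h1
  have h3 := Set.ncard_insert_le F₁ ({F₂} : Set (Subgroup G))
  have h4 := h.toBas.two_le
  rw [h.l.card_lines E hE] at h2
  rw [Set.ncard_singleton] at h3
  omega

/-- there is a line off a point. -/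
theorem lb_exists_off [Finite G] (hE : E ∈ X) : ∃ F ∈ Y, E ⊓ F = ⊥ := by
  by_contra hc
  push Not at hc
  have h1 : Y ⊆ {F | F ∈ Y ∧ E ⊓ F ≠ ⊥} := fun F hF => ⟨hF, hc F hF⟩
  have h2 := Set.ncard_le_ncard h1
  have h4 := h.toBas.two_le
  rw [h.l.card_lines E hE, h.r.card_X] at h2
  nlinarith

theorem lb_centE [Finite G] (hE : E ∈ X) (hg : g ∈ 𝒩(L)) (hc : g ∈ 𝒞(E)) : TC L E g := by
  have n := cent_le_norm _ hc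
  obtain ⟨F₀, hF₀, o⟩ := h.lb_exists_off hE
  obtain ⟨x, hx, e⟩ := h.l.transE E hE F₀ hF₀ _ ((h.lb_tp hg hE n).2 F₀ hF₀) o (lb_off n o)
  have k1 : x⁻¹ * g ∈ 𝒩(L) := mul_mem (inv_mem (le_normalizer (h.l.toHf0.le hE hx))) hg
  have k2 : x⁻¹ * g ∈ 𝒞(E) := mul_mem (inv_mem ((h.l.isE E hE).le_cent hx)) hc
  refine ⟨x, hx, h.symm.lb_ker k1 fun F hF => ?_⟩
  by_cases i : E ⊓ F = ⊥
  · obtain ⟨y, hy, rfl⟩ := h.l.transE E hE F₀ hF₀ F hF o i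
    exact lb_norm_comm (lb_norm_of_eq e) (comm_of_mem k2 hy)
  · obtain ⟨z, hz, z1⟩ := exists_ne_one i
    exact h.r.toHf0.norm_of_comm hF ((h.lb_tp k1 hE (cent_le_norm _ k2)).2 F hF) hz.2 z1 (comm_of_mem k2 hz.1).symm

/-- `E ⊓ F` is regular on the points `≠ E` of a line `F₁ ≠ F` through `E`. -/
theorem lb_reg [Finite G] (hE : E ∈ X) (hF : F ∈ Y) (i : E ⊓ F ≠ ⊥) {F₁ E₂ : Subgroup G} (hF₁ : F₁ ∈ Y)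
    (i₁ : E ⊓ F₁ ≠ ⊥) (ne : F₁ ≠ F) (hE₂ : E₂ ∈ X) (i₂ : E₂ ⊓ F₁ ≠ ⊥) (ne₂ : E₂ ≠ E) (kc : k ∈ 𝒞(E ⊓ F))
    (kE : k ∈ 𝒩(E)) (k₂ : k ∈ 𝒩(E₂)) (hE' : E' ∈ X) (i' : E' ⊓ F₁ ≠ ⊥) : k ∈ 𝒩(E') := by
  by_cases e : E' = E
  · rwa [e]
  let S : Set (Subgroup G) := {P | P ∈ X ∧ F₁ ⊓ P ≠ ⊥} \ {E}
  have hS : S.ncard = q := by
    rw [Set.ncard_sdiff_singleton_of_mem (s := {P | P ∈ X ∧ F₁ ⊓ P ≠ ⊥}) ⟨hE, inc_symm i₁⟩, h.r.card_lines F₁ hF₁]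
    rfl
  let f : G → Subgroup G := fun z => cj z E₂
  have h1 : f '' (E ⊓ F : Subgroup G) ⊆ S := by
    rintro _ ⟨z, hz, rfl⟩
    refine ⟨⟨h.l.cj_mem z (h.l.toHf0.le hE hz.1) _ hE₂, lb_inc (h.l.le_norm E hE F₁ hF₁ i₁ hz.1) (inc_symm i₂)⟩,
      fun e => ne₂ ?_⟩
    rw [← cj_inj (g := z), cj_eq (le_normalizer hz.1)]
    exact e
  have h2 : Set.InjOn f (E ⊓ F : Subgroup G) := fun z hz z' hz' e => by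
    by_contra h3
    have := (h.l.norm_iff F hF _ (mul_mem (inv_mem hz.2) hz'.2) (fun e => h3 (inv_mul_eq_one.1 e)) E₂ hE₂).1
      (lb_norm_of_eq e)
    exact ne (h.l.join_uniq E hE E₂ hE₂ (Ne.symm ne₂) F₁ hF₁ F hF i₁ i₂ i this)
  have h3 := Set.eq_of_subset_of_ncard_le h1 (by
    rw [hS, h2.ncard_image, ← Nat.card_coe_set_eq]
    exact (h.l.card_inf E hE F hF i).ge)
  obtain ⟨z, hz, rfl⟩ := h3.ge (⟨⟨hE', inc_symm i'⟩, e⟩ : E' ∈ S)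
  exact lb_norm_comm k₂ (comm_of_mem kc hz)

/-- a 2-element fixing two points of a line fixes a third one. -/
theorem lb_fix3 [Finite G] (hF : F ∈ Y) (hE : E ∈ X) (hE' : E' ∈ X) (i : E ⊓ F ≠ ⊥) (i' : E' ⊓ F ≠ ⊥) (ne : E ≠ E')
    (kL : k ∈ 𝒩(L)) (kE : k ∈ 𝒩(E)) (kE' : k ∈ 𝒩(E')) (kF : k ∈ 𝒩(F)) {n : ℕ} (h2 : k ^ 2 ^ n = 1) :
    ∃ P ∈ X, P ⊓ F ≠ ⊥ ∧ P ≠ E ∧ P ≠ E' ∧ k ∈ 𝒩(P) := by
  let act : MulAction G (Subgroup G) := { smul := fun g H => cj g H, one_smul := cj_one, mul_smul := cj_mul }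
  let S : Set (Subgroup G) := ({P | P ∈ X ∧ F ⊓ P ≠ ⊥} \ {E}) \ {E'}
  have hS : S.ncard = q - 1 := by
    rw [Set.ncard_sdiff_singleton_of_mem (s := {P | P ∈ X ∧ F ⊓ P ≠ ⊥} \ {E}) ⟨⟨hE', inc_symm i'⟩, ne.symm⟩,
      Set.ncard_sdiff_singleton_of_mem (s := {P | P ∈ X ∧ F ⊓ P ≠ ⊥}) ⟨hE, inc_symm i⟩, h.r.card_lines F hF]
    rfl
  have hle : zpowers k ≤ 𝒩(L) ⊓ 𝒩(E) ⊓ 𝒩(E') ⊓ 𝒩(F) := zpowers_le.2 ⟨⟨⟨kL, kE⟩, kE'⟩, kF⟩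
  obtain ⟨P, hP, hf⟩ := @a1_exists_fixed G _ _ act _ (isPGroup_zpowers h2) S (by
    rw [hS]
    exact Nat.Even.sub_odd (by have := h.toBas.two_le; omega) h.toBas.even odd_one) fun x hx P hP => by
      obtain ⟨⟨⟨x1, x2⟩, x3⟩, x4⟩ := hle hx
      refine ⟨⟨⟨(h.lb_tp x1 hE x2).1 P hP.1.1.1, lb_inc x4 hP.1.1.2⟩, fun e => hP.1.2 ?_⟩, fun e => hP.2 ?_⟩
      · exact cj_inj.1 (Eq.trans e (cj_eq x2).symm)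
      · exact cj_inj.1 (Eq.trans e (cj_eq x3).symm)
  exact ⟨P, hP.1.1.1, inc_symm hP.1.1.2, hP.1.2, hP.2, cj_eq_iff_mem.1 (hf k (mem_zpowers k))⟩

/-- an element fixing a line and all points off it centralises `L`. -/
theorem lb_ker_off (hF : F ∈ Y) (kL : k ∈ 𝒩(L)) (kF : k ∈ 𝒩(F)) (ho : ∀ P ∈ X, P ⊓ F = ⊥ → k ∈ 𝒩(P)) :
    k ∈ 𝒞(L) := by
  refine h.symm.lb_ker kL fun F' hF' => ?_
  by_cases e : F' = F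
  · rwa [e]
  obtain ⟨M, hM, m, m'⟩ := h.r.join F' hF' F hF e
  obtain ⟨P, hP, p, p1, -⟩ := h.symm.lb_third hF' M M
  obtain ⟨Q, hQ, r, r1, r2⟩ := h.symm.lb_third hF' M P
  have key : ∀ R ∈ X, F' ⊓ R ≠ ⊥ → R ≠ M → k ∈ 𝒩(R) := fun R hR s s1 => ho R hR (by_contra fun s2 =>
    s1 (h.r.join_uniq F' hF' F hF e R hR M hM s (inc_symm s2) m m'))
  exact h.lb_join (h.symm.lb_tp kL hF kF).symm hQ hP r2 hF' (inc_symm r) (inc_symm p) (key Q hQ r r1) (key P hP p p1)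

theorem lb_stab [Finite G] (hE : E ∈ X) (hF : F ∈ Y) (i : E ⊓ F ≠ ⊥) (gL : g ∈ 𝒩(L)) (gE : g ∈ 𝒩(E)) (gF : g ∈ 𝒩(F))
    (gc : g ∈ 𝒞(E ⊓ F)) (g2 : ∃ n : ℕ, g ^ 2 ^ n = 1) : TC L (E ⊔ F) g := by
  have TL := (h.l.syl E hE F hF i).1
  have nE := h.l.toHfa.norm_E hE hF i h.r.toHfa
  have nF := h.l.toHfa.norm_F hE hF i
  obtain ⟨E₂, hE₂, o₂⟩ := h.symm.lb_exists_off hF
  obtain ⟨y, hy, ey⟩ := h.r.transE F hF E₂ hE₂ _ ((h.lb_tp gL hE gE).1 E₂ hE₂) o₂ (lb_off gF o₂)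
  have ne₂ : E ≠ E₂ := fun e => i (by rwa [inf_comm, e])
  obtain ⟨F₁, hF₁, i₁, i₁'⟩ := h.l.join E hE E₂ hE₂ ne₂
  have ne₁ : F₁ ≠ F := fun e => i₁' (by rwa [inf_comm, e])
  have aL : y⁻¹ * g ∈ 𝒩(L) := mul_mem (inv_mem (le_normalizer (TL (mem_sup_right hy)))) gL
  have aE : y⁻¹ * g ∈ 𝒩(E) := mul_mem (inv_mem (nE (mem_sup_right hy))) gE
  have a₁ := h.lb_join (h.lb_tp aL hE aE) hE hE₂ ne₂ hF₁ i₁ i₁' aE (lb_norm_of_eq ey)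
  obtain ⟨F₂, hF₂, i₂, n₂, -⟩ := h.lb_third hE₂ F₁ F₁
  have o : E ⊓ F₂ = ⊥ := by_contra fun e => n₂ (h.l.join_uniq E hE E₂ hE₂ ne₂ F₂ hF₂ F₁ hF₁ e i₂ i₁ i₁')
  obtain ⟨x, hx, ex⟩ := h.l.transE E hE F₂ hF₂ _ ((h.lb_tp aL hE aE).2 F₂ hF₂) o (lb_off aE o)
  have hT : y * x ∈ E ⊔ F := mul_mem (mem_sup_right hy) (mem_sup_left hx)
  have k₂ := lb_norm_of_eq ex
  have k₁ : x⁻¹ * (y⁻¹ * g) ∈ 𝒩(F₁) := mul_mem (inv_mem (h.l.le_norm E hE F₁ hF₁ i₁ hx)) a₁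
  rw [← mul_assoc, ← mul_inv_rev] at k₁ k₂
  refine ⟨y * x, hT, ?_⟩
  have kL : (y * x)⁻¹ * g ∈ 𝒩(L) := mul_mem (inv_mem (le_normalizer (TL hT))) gL
  have kE : (y * x)⁻¹ * g ∈ 𝒩(E) := mul_mem (inv_mem (nE hT)) gE
  have kF : (y * x)⁻¹ * g ∈ 𝒩(F) := mul_mem (inv_mem (nF hT)) gF
  have kc : (y * x)⁻¹ * g ∈ 𝒞(E ⊓ F) := mul_mem (inv_mem (mem_centralizer_iff.2 fun z hz =>
    (comm_of_mem (h.l.toHfa.inf_le_cent h.r.toHfa hE hF i hz) hT).symm)) gc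
  obtain ⟨n, g2⟩ := g2
  obtain ⟨m, k2⟩ := isPGroup_sup (isPGroup_zpowers g2) (h.l.syl E hE F hF i).2.1
    (zpowers_le.2 (le_norm_sup (L := zpowers g) (zpowers_le.2 gE) (zpowers_le.2 gF) (mem_zpowers g)))
    ⟨(y * x)⁻¹ * g, mul_mem (inv_mem (mem_sup_right hT)) (mem_sup_left (mem_zpowers g))⟩
  replace k2 : ((y * x)⁻¹ * g) ^ 2 ^ m = 1 := congrArg Subtype.val k2
  generalize (y * x)⁻¹ * g = k at k₁ k₂ kL kE kF kc k2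
  have t := h.lb_tp kL hE kE
  have kE₂ := h.symm.lb_join t.symm hF₂ hF₁ n₂ hE₂ (inc_symm i₂) (inc_symm i₁') k₂ k₁
  have ne₃ : F₂ ≠ F := fun e => i (e ▸ o)
  obtain ⟨M, hM, m₂, m₀⟩ := h.r.join F₂ hF₂ F hF ne₃
  have nM : M ≠ E := fun e => m₂ (by rwa [e, inf_comm])
  have kM := h.symm.lb_join t.symm hF₂ hF ne₃ hM m₂ m₀ k₂ kF
  have p1 : ∀ P ∈ X, P ⊓ F₁ ≠ ⊥ → k ∈ 𝒩(P) := fun P hP j =>
    h.lb_reg hE hF i hF₁ i₁ ne₁ hE₂ i₁' ne₂.symm kc kE kE₂ hP j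
  have p2 : ∀ R ∈ Y, R ⊓ M ≠ ⊥ → k ∈ 𝒩(R) := fun R hR j =>
    h.symm.lb_reg hF hE (inc_symm i) hM m₀ nM hF₂ m₂ ne₃ (by rwa [inf_comm]) kF k₂ hR j
  obtain ⟨E₃, hE₃, i₃, n₃, n₃', k₃⟩ := h.lb_fix3 hF hE hM i (inc_symm m₀) nM.symm kL kE kM kF k2
  have o₃ : E₃ ⊓ F₁ = ⊥ := by_contra fun e => ne₁ (h.l.join_uniq E₃ hE₃ E hE n₃ F₁ hF₁ F hF e i₁ i₃ i)
  refine h.lb_ker_off hF kL kF fun P hP o => ?_
  obtain ⟨R, hR, r, r'⟩ := h.l.join P hP M hM fun e => m₀ (by rwa [← e, inf_comm])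
  obtain ⟨R', hR', s, s'⟩ := h.l.join P hP E₃ hE₃ fun e => i₃ (e ▸ o)
  obtain ⟨Q, hQ, u, u'⟩ := h.r.join R' hR' F₁ hF₁ fun e => s' (e ▸ o₃)
  have kR' := h.lb_join t hQ hE₃ (fun e => u' (by rwa [e, inf_comm])) hR' (inc_symm u) s' (p1 Q hQ (inc_symm u')) k₃
  refine h.symm.lb_join t.symm hR hR' (fun e => r ?_) hP (inc_symm r) (inc_symm s) (p2 R hR (inc_symm r')) kR'
  rwa [h.l.join_uniq E₃ hE₃ M hM n₃' R hR F hF (e ▸ s') r' i₃ (inc_symm m₀)]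

theorem lb_og_half (hE : E ∈ X) (hF : F ∈ Y) (i : E ⊓ F ≠ ⊥) (hA : F ≤ A) (AL : A ≤ L) (n : A ≤ 𝒩(E))
    (n' : ¬ A ≤ 𝒩(F)) : LY Y E ≤ A := by
  obtain ⟨a, ha, h1⟩ := SetLike.not_le_iff_exists.1 n'
  refine LY_le' fun F' hF' i' => ?_
  by_cases e : F' = F
  · rwa [e]
  obtain ⟨y, hy, rfl⟩ := h.l.transL E hE F hF _ (h.r.cj_mem a (AL ha) F hF) F' hF' i (lb_inc (n ha) i) i'
    (fun e => h1 (cj_eq_iff_mem.1 e)) e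
  exact cj_le_of_mem (cj_le_of_mem hA ha) (hA hy)

/-- an invariant set of at least two points of the line `F`. -/
theorem lb_inv_line (hF : F ∈ Y) (AL : A ≤ L) {S : Set (Subgroup G)} (hS : ∀ P ∈ S, P ∈ X ∧ P ⊓ F ≠ ⊥)
    (hi : ∀ a ∈ A, ∀ P ∈ S, cj a P ∈ S) (hE : E ∈ S) (hE' : E' ∈ S) (ne : E ≠ E') : A ≤ 𝒩(F) := fun a ha =>
  cj_eq_iff_mem.1 (h.l.join_uniq _ (hS _ (hi a ha E hE)).1 _ (hS _ (hi a ha E' hE')).1 (fun e => ne (cj_inj.1 e)) _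
    (h.r.cj_mem a (AL ha) F hF) F hF ((inc_cj a).2 (hS E hE).2) ((inc_cj a).2 (hS E' hE').2) (hS _ (hi a ha E hE)).2
    (hS _ (hi a ha E' hE')).2)

theorem lb_og_top (hE : E ∈ X) (hF : F ∈ Y) (i : E ⊓ F ≠ ⊥) (hA : E ⊔ F ≤ A) (AL : A ≤ L) (n : ¬ A ≤ 𝒩(E))
    (n' : ¬ A ≤ 𝒩(F)) : A = L := by
  let O : Set (Subgroup G) := {P | ∃ a ∈ A, cj a E = P}
  have O1 : ∀ a ∈ A, ∀ P ∈ O, cj a P ∈ O := by
    rintro a ha _ ⟨b, hb, rfl⟩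
    exact ⟨a * b, mul_mem ha hb, cj_mul a b E⟩
  have O2 : ∀ a ∈ A, ∀ P, cj a P ∈ O → P ∈ O := fun a ha P hP => cj_inv_cj a P ▸ O1 _ (inv_mem ha) _ hP
  have OX : ∀ P ∈ O, P ∈ X := by
    rintro _ ⟨b, hb, rfl⟩
    exact h.l.cj_mem b (AL hb) E hE
  have OE : E ∈ O := ⟨1, one_mem _, cj_one E⟩
  have h1 : ∃ P ∈ O, F ⊓ P = ⊥ := by
    by_contra hc
    push Not at hc
    obtain ⟨a, ha, h1⟩ := SetLike.not_le_iff_exists.1 n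
    exact n' (h.lb_inv_line hF AL (fun P hP => ⟨OX P hP, inc_symm (hc P hP)⟩) O1 ⟨a, ha, rfl⟩ OE
      fun e => h1 (cj_eq_iff_mem.1 e))
  obtain ⟨P₀, hP₀, o₀⟩ := h1
  have h2 : ∀ P ∈ X, F ⊓ P = ⊥ → P ∈ O := fun P hP o => by
    obtain ⟨y, hy, rfl⟩ := h.r.transE F hF P₀ (OX _ hP₀) P hP o₀ o
    exact O1 y (hA (mem_sup_right hy)) _ hP₀
  have h3 : ∀ P ∈ X, P ∈ O := fun P hP => by
    by_contra hc
    have j : F ⊓ P ≠ ⊥ := fun o => hc (h2 P hP o)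
    obtain ⟨Q, hQ, j', q1, q2⟩ := h.symm.lb_third hF E P
    refine n' (h.lb_inv_line hF AL (S := X \ O) (fun R hR => ⟨hR.1, inc_symm fun o => hR.2 (h2 R hR.1 o)⟩)
      (fun a ha R hR => ⟨h.l.cj_mem a (AL ha) R hR.1, fun e => hR.2 (O2 a ha R e)⟩) ⟨hQ, fun e => hc ?_⟩ ⟨hP, hc⟩ q2)
    obtain ⟨y, hy, rfl⟩ := h.r.transL F hF E hE Q hQ P hP (inc_symm i) j' j q1 fun e => hc (e ▸ OE)
    exact O1 y (hA (mem_sup_left hy)) _ e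
  rcases simple_dich h.simple (U := sSup X) (sSup_le fun P hP => h.l.toHf0.le hP) (le_norm_of_cj_le fun a ha =>
    cj_le_iff.2 (sSup_le fun P hP => cj_le_iff.1 (le_sSup (h.l.cj_mem a ha P hP)))) with e | e
  · exact absurd (le_bot_iff.1 (inf_le_left.trans ((le_sSup hE).trans e.le))) i
  · refine le_antisymm AL (e.ge.trans (sSup_le fun P hP => ?_))
    obtain ⟨a, ha, rfl⟩ := h3 P hP
    exact cj_le_of_mem (le_sup_left.trans hA) ha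

theorem lb_og {T : Subgroup G} (hT : IsSylowIn 2 T L) (hA : T ≤ A) (AL : A ≤ L) (ne : A ≠ L) :
    A ≤ 𝒩(T) ∨ (∃ E ∈ X, LY Y E ≤ A ∧ A ≤ 𝒩(E)) ∨ ∃ F ∈ Y, LY X F ≤ A ∧ A ≤ 𝒩(F) := by
  obtain ⟨E, hE, F, hF, i, rfl⟩ := h.l.flag T hT
  by_cases n : A ≤ 𝒩(E) <;> by_cases n' : A ≤ 𝒩(F)
  · exact Or.inl (le_norm_sup n n')
  · exact Or.inr (Or.inl ⟨E, hE, h.lb_og_half hE hF i (le_sup_right.trans hA) AL n n', n⟩)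
  · exact Or.inr (Or.inr ⟨F, hF, h.symm.lb_og_half hF hE (inc_symm i) (le_sup_left.trans hA) AL n' n, n'⟩)
  · exact absurd (h.lb_og_top hE hF i hA AL n n') ne

end Pl1

theorem lb : LB.{u} := fun _ _ _ _ _ _ _ h =>
  ⟨h.l, fun _ => h.lb_types, fun _ => h.lb_ker, fun _ hE _ => h.lb_centE hE, fun _ hE _ hF i _ => h.lb_stab hE hF i,
    fun _ _ => h.lb_og⟩

end CL.HL
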