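/-
Project HL3 (S3727): the axioms are preserved by injective homomorphisms.
-/
import Cfsg.Agent.Perm.HL1

set_option autoImplicit false
open Cfsg Subgroup MulAction CL.Even CL.Grp CL.Loc

namespace CL.HL

variable {G H : Type*} [Group G] [Group H] {f : G →* H} (hf : Function.Injective f) {L E F : Subgroup G} {q : ℕ}
  {X Y : Set (Subgroup G)}

theorem m1_cj (f : G →* H) (g : G) (U : Subgroup G) : cj (f g) (U.map f) = (cj g U).map f := by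
  rw [map_map, map_map]
  congr 1
  ext x
  simp

include hf

theorem m1_inc : E.map f ⊓ F.map f ≠ ⊥ ↔ E ⊓ F ≠ ⊥ := by
  rw [← map_inf _ _ f hf, Ne, map_eq_bot_iff_of_injective _ hf]

theorem m1_LY : LY (Subgroup.map f '' Y) (E.map f) = (LY Y E).map f := by
  refine le_antisymm (LY_le' ?_) (map_le_iff_le_comap.2 (LY_le' fun F hF i => map_le_iff_le_comap.1
    (le_LY' ⟨F, hF, rfl⟩ ((m1_inc hf).2 i))))
  rintro _ ⟨F, hF, rfl⟩ i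
  exact map_mono (le_LY' hF ((m1_inc hf).1 i))

theorem Hf0.map (h : Hf0 L q X Y) : Hf0 (L.map f) q (Subgroup.map f '' X) (Subgroup.map f '' Y) := by
  have hcard : ∀ X : Subgroup G, Nat.card (X.map f) = Nat.card X := fun X => card_map_of_injective hf
  have mm : ∀ {X : Subgroup G} {x : G}, f x ∈ X.map f ↔ x ∈ X := mem_map_iff_mem hf
  have mn : ∀ {X : Subgroup G} {x : G}, f x ∈ 𝒩(X.map f) ↔ x ∈ 𝒩(X) := mem_norm_map_iff hf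
  have h1 : ∀ {x : G}, f x = 1 ↔ x = 1 := map_eq_one_iff f hf
  have ne : ∀ {S T : Subgroup G}, S.map f ≠ T.map f → S ≠ T := fun h e => h (by rw [e])
  have i := fun E F : Subgroup G => m1_inc hf (E := E) (F := F)
  constructor
  · rintro _ ⟨E, hE, rfl⟩
    refine ⟨map_mono (h.isE E hE).le, ?_, by rw [hcard, (h.isE E hE).card]⟩
    rintro _ ⟨x, hx, rfl⟩
    rw [← map_mul, (h.isE E hE).sq x hx, map_one]
  · rintro _ ⟨g, hg, rfl⟩ _ ⟨E, hE, rfl⟩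
    exact ⟨_, h.cj_mem g hg E hE, (m1_cj f g E).symm⟩
  · rintro _ ⟨E, hE, rfl⟩ _ ⟨E', hE', rfl⟩
    obtain ⟨g, hg, rfl⟩ := h.trans E hE E' hE'
    exact ⟨f g, mm.2 hg, m1_cj f g E⟩
  · rintro _ ⟨t, ht, rfl⟩ e
    obtain ⟨E, hE, h2⟩ := h.cover t ht (by rwa [← map_mul, h1] at e)
    exact ⟨_, ⟨E, hE, rfl⟩, mm.2 h2⟩
  · rintro _ ⟨E, hE, rfl⟩ _ ⟨E', hE', rfl⟩ e
    exact by_contra fun e' => (i _ _).1 e' (h.ti E hE E' hE' (ne e))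
  · rintro _ ⟨E, hE, rfl⟩ _ ⟨E', hE', rfl⟩ e
    obtain ⟨F, hF, h2, h3⟩ := h.join E hE E' hE' (ne e)
    exact ⟨_, ⟨F, hF, rfl⟩, (i _ _).2 h2, (i _ _).2 h3⟩
  · rintro _ ⟨E, hE, rfl⟩ _ ⟨E', hE', rfl⟩ e _ ⟨F, hF, rfl⟩ _ ⟨F', hF', rfl⟩ h2 h3 h4 h5
    rw [h.join_uniq E hE E' hE' (ne e) F hF F' hF' ((i _ _).1 h2) ((i _ _).1 h3) ((i _ _).1 h4) ((i _ _).1 h5)]
  · rintro _ ⟨E, hE, rfl⟩ _ ⟨F, hF, rfl⟩ e
    rw [← map_inf _ _ f hf, hcard, h.card_inf E hE F hF ((i _ _).1 e)]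
  · rintro _ ⟨F, hF, rfl⟩ _ ⟨t, ht, rfl⟩ t1 _ ⟨E, hE, rfl⟩
    rw [mn, i, h.norm_iff F hF t ht (fun e => t1 (h1.2 e)) E hE]
  · obtain ⟨E, hE, k, i1, i2, hk, φ, h2, h3⟩ := h.levi0
    let e : LY Y E ≃* LY (Subgroup.map f '' Y) (E.map f) :=
      ((LY Y E).equivMapOfInjective f hf).trans (MulEquiv.subgroupCongr (m1_LY hf).symm)
    refine ⟨_, ⟨E, hE, rfl⟩, k, i1, i2, hk, φ.comp e.symm.toMonoidHom, h2.comp e.symm.surjective, fun x => ?_⟩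
    obtain ⟨x, rfl⟩ := e.surjective x
    simp only [MonoidHom.comp_apply, MulEquiv.coe_toMonoidHom, MulEquiv.symm_apply_apply, h3]
    exact mm.symm
  · obtain ⟨F, hF, E, hE, E₂, hE₂, h2, h3, h4, K, k1, k2, k3, w, hw, k4, k5⟩ := h.tor0
    refine ⟨_, ⟨F, hF, rfl⟩, _, ⟨E, hE, rfl⟩, _, ⟨E₂, hE₂, rfl⟩, fun e => h2 (map_injective hf e), (i _ _).2 h3,
      (i _ _).2 h4, K.map f, ?_, by rw [hcard, k2], ?_, f w, mm.2 hw, by rw [m1_cj, k4], ?_⟩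
    · rintro _ ⟨x, hx, rfl⟩
      exact ⟨⟨mm.2 (k1 hx).1.1, mn.2 (k1 hx).1.2⟩, mn.2 (k1 hx).2⟩
    · rintro _ ⟨x, hx, rfl⟩ _ ⟨E₃, hE₃, rfl⟩ a1 a2 a3 a4
      exact h1.2 (k3 x hx E₃ hE₃ ((i _ _).1 a1) (ne a2) (ne a3) (mn.1 a4))
    · rintro _ ⟨x, hx, rfl⟩
      rw [← map_inv, ← map_mul, ← map_mul, k5 x hx, map_inv]

theorem Pl0.map (h : Pl0 L q X Y) : Pl0 (L.map f) q (Subgroup.map f '' X) (Subgroup.map f '' Y) :=
  ⟨⟨have := h.simple; (L.equivMapOfInjective f hf).symm.isSimpleGroup, h.pow,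
    by rw [card_map_of_injective hf, h.card_L]⟩, h.l.map hf, h.r.map hf⟩

end CL.HL
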