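/-
Project HL3 (S3727): the model `PSL₃(F)`, `F` finite of characteristic 2.
-/
import Cfsg.Agent.Perm.HLM1
import Cfsg.Agent.Known.LSSL
import Cfsg.Agent.Known.GLAut2
import Cfsg.Agent.Cls.SL2Tori

set_option autoImplicit false
open Cfsg Subgroup MulAction CL.Even CL.Grp CL.Loc Matrix CL.GLn

namespace CL.HL

variable {F : Type} [Field F]

local notation "V3" => Fin 3 → F
local notation "P3" => ProjectiveSpecialLinearGroup (Fin 3) F
local notation "S3" => SpecialLinearGroup (Fin 3) F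

/-- the elations with centre `v`. -/
def EP (v : V3) : Subgroup P3 where
  carrier := {x | ∃ φ, φ ⬝ᵥ v = 0 ∧ x = tvP v φ}
  one_mem' := ⟨0, by simp, (tvP_zero_right v).symm⟩
  mul_mem' := by
    rintro _ _ ⟨φ, h, rfl⟩ ⟨ψ, h', rfl⟩
    exact ⟨φ + ψ, by rw [add_dotProduct, h, h', add_zero], tvP_mul_left h h'⟩
  inv_mem' := by
    rintro _ ⟨φ, h, rfl⟩
    refine ⟨-φ, by simp [h], ?_⟩
    rw [inv_eq_iff_mul_eq_one, tvP_mul_left h (by simp [h]), add_neg_cancel, tvP_zero_right]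

/-- the elations with axis `φ`. -/
def FP (φ : V3) : Subgroup P3 := (EP φ).map (graphAut (Fin 3) F).toMonoidHom

theorem mem_EP {v : V3} {x : P3} : x ∈ EP v ↔ ∃ φ, φ ⬝ᵥ v = 0 ∧ x = tvP v φ := Iff.rfl

theorem mem_FP {φ : V3} {x : P3} : x ∈ FP φ ↔ ∃ v, φ ⬝ᵥ v = 0 ∧ x = tvP v φ := by
  constructor
  · rintro ⟨_, ⟨v, h, rfl⟩, rfl⟩
    exact ⟨-v, by rw [dotProduct_neg, dotProduct_comm, h, neg_zero], graphAut_tvP h⟩
  · rintro ⟨v, h, rfl⟩
    have h1 : (-v) ⬝ᵥ φ = 0 := by rw [neg_dotProduct, dotProduct_comm, h, neg_zero]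
    exact ⟨_, ⟨-v, h1, rfl⟩, (graphAut_tvP h1).trans (by rw [neg_neg])⟩

theorem map_FP (φ : V3) : (FP φ).map (graphAut (Fin 3) F).toMonoidHom = EP φ := by
  rw [FP, Subgroup.map_map]
  rw [show (graphAut (Fin 3) F).toMonoidHom.comp (graphAut (Fin 3) F).toMonoidHom = MonoidHom.id _ from
    MonoidHom.ext fun x => DFunLike.congr_fun (graphAut_mul_self (n := Fin 3) (F := F)) x, Subgroup.map_id]

/-- the points. -/
def XP (F : Type) [Field F] : Set (Subgroup (ProjectiveSpecialLinearGroup (Fin 3) F)) := {E | ∃ v, v ≠ 0 ∧ E = EP v}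

/-- the lines. -/
def YP (F : Type) [Field F] : Set (Subgroup (ProjectiveSpecialLinearGroup (Fin 3) F)) := {E | ∃ v, v ≠ 0 ∧ E = FP v}

theorem EP_smul (v : V3) {c : F} (hc : c ≠ 0) : EP (c • v) = EP v := by
  ext x
  constructor
  · rintro ⟨φ, h, rfl⟩
    have h1 : φ ⬝ᵥ v = 0 := by simpa [hc] using h
    exact ⟨c • φ, by simp [h1], tvP_smul h1 c⟩
  · rintro ⟨φ, h, rfl⟩
    exact ⟨c⁻¹ • φ, by simp [h], by rw [tvP_smul (by simp [h]), smul_inv_smul₀ hc]⟩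

theorem par_of_inf {v w : V3} (h : EP v ⊓ EP w ≠ ⊥) : ∃ c : F, w = c • v := by
  obtain ⟨_, ⟨⟨φ, h1, rfl⟩, ψ, h2, e⟩, h3⟩ := exists_ne_one h
  refine exists_smul_of_vecMulVec_eq_left (fun e1 => h3 ?_) ((tvP_eq_iff h1 h2).1 e)
  rw [e, e1, tvP_zero_right]

theorem EP_eq_of_par {v w : V3} (hw : w ≠ 0) (h : ∃ c : F, w = c • v) : EP v = EP w := by
  obtain ⟨c, rfl⟩ := h
  exact (EP_smul v fun e => hw (by rw [e, zero_smul])).symm

theorem inc_iff {v φ : V3} (hv : v ≠ 0) (hφ : φ ≠ 0) : EP v ⊓ FP φ ≠ ⊥ ↔ φ ⬝ᵥ v = 0 := by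
  constructor
  · intro h
    obtain ⟨_, ⟨⟨ψ, h1, rfl⟩, h2⟩, h3⟩ := exists_ne_one h
    obtain ⟨u, h2, e⟩ := mem_FP.1 h2
    obtain ⟨c, rfl⟩ := exists_smul_of_vecMulVec_eq_right (fun e1 => h3 (by rw [e, e1, tvP_zero_left]))
      ((tvP_eq_iff h1 h2).1 e)
    simp [h1]
  · exact fun h => ne_bot_of_mem ⟨⟨φ, h, rfl⟩, mem_FP.2 ⟨v, h, rfl⟩⟩ fun e => ((tvP_eq_one_iff h).1 e).elim hv hφ

theorem cj_EP (g : S3) (v : V3) : cj (QuotientGroup.mk g : P3) (EP v) = EP ((g : Matrix _ _ F) *ᵥ v) := by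
  have key : ∀ (g : S3) (v : V3), cj (QuotientGroup.mk g : P3) (EP v) ≤ EP ((g : Matrix _ _ F) *ᵥ v) := by
    rintro g v _ ⟨_, ⟨φ, h, rfl⟩, rfl⟩
    refine ⟨_, ?_, (DFunLike.congr_fun (diagAut_toGL g) _).symm.trans (diagAut_tvP _ h)⟩
    rw [← dotProduct_mulVec, mulVec_mulVec]
    simpa using h
  refine le_antisymm (key g v) (le_cj_iff.2 ?_)
  have := key g⁻¹ ((g : Matrix _ _ F) *ᵥ v)
  rwa [mulVec_mulVec, ← Matrix.SpecialLinearGroup.coe_mul, inv_mul_cancel, Matrix.SpecialLinearGroup.coe_one, one_mulVec]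
    at this

theorem exists_dot {v : V3} : ∃ φ : V3, φ ≠ 0 ∧ φ ⬝ᵥ v = 0 := by
  by_cases h : v 0 = 0
  · exact ⟨Pi.single 0 1, by simp, by simp [h]⟩
  · exact ⟨![v 1, -v 0, 0], fun e => h (by simpa using congrFun e 1), by simp [dotProduct, Fin.sum_univ_three, mul_comm]⟩

theorem EP_ne_bot {v : V3} (hv : v ≠ 0) : EP v ≠ ⊥ :=
  let ⟨φ, h1, h2⟩ := exists_dot (v := v)
  ne_bot_of_mem ⟨φ, h2, rfl⟩ fun e => ((tvP_eq_one_iff h2).1 e).elim hv h1

theorem mem_norm_EP {g : S3} {v : V3} (hv : v ≠ 0) :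
    (QuotientGroup.mk g : P3) ∈ 𝒩(EP v) ↔ ∃ c : F, (g : Matrix _ _ F) *ᵥ v = c • v := by
  rw [← cj_eq_iff_mem, cj_EP]
  refine ⟨fun e => par_of_inf (by rw [e, inf_idem]; exact EP_ne_bot hv), fun e => (EP_eq_of_par (fun e1 => hv ?_) e).symm⟩
  rw [← one_mulVec v, ← Matrix.SpecialLinearGroup.coe_one, ← inv_mul_cancel g, Matrix.SpecialLinearGroup.coe_mul,
    ← mulVec_mulVec, e1, mulVec_zero]

theorem card_EP [Fintype F] {v : V3} (hv : v ≠ 0) : Nat.card (EP v) = Fintype.card F ^ 2 := by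
  have e : CL.LS.annE v ≃ EP v := Equiv.ofBijective (fun φ => ⟨tvP v φ, φ, φ.2, rfl⟩) ⟨fun φ ψ e => ?_, ?_⟩
  · have h1 := Module.Dual.finrank_ker_add_one_of_ne_zero (CL.LS.dotR_ne_zero hv)
    rw [Module.finrank_fin_fun] at h1
    rw [← Nat.card_congr e, Module.natCard_eq_pow_finrank (K := F), Nat.card_eq_fintype_card]
    congr 1
    exact Nat.add_right_cancel (m := 1) h1
  · have h1 := (tvP_eq_iff (CL.LS.mem_annE.1 φ.2) (CL.LS.mem_annE.1 ψ.2)).1 (congrArg Subtype.val e)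
    rw [← sub_eq_zero, ← vecMulVec_sub, vecMulVec_eq_zero, sub_eq_zero] at h1
    exact Subtype.ext (h1.resolve_left hv)
  · rintro ⟨_, φ, h, rfl⟩
    exact ⟨⟨φ, h⟩, rfl⟩

theorem card_inf_EP [Fintype F] {v φ : V3} (hv : v ≠ 0) (hφ : φ ≠ 0) (h : φ ⬝ᵥ v = 0) :
    Nat.card (EP v ⊓ FP φ : Subgroup P3) = Fintype.card F := by
  have h0 : ∀ c : F, (c • φ) ⬝ᵥ v = 0 := fun c => by simp [h]
  rw [← Nat.card_eq_fintype_card]
  refine (Nat.card_congr (Equiv.ofBijective (fun c : F => (⟨tvP v (c • φ), ⟨_, h0 c, rfl⟩,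
    mem_FP.2 ⟨c • v, by simp [h], (tvP_smul h c).symm⟩⟩ : (EP v ⊓ FP φ : Subgroup P3))) ⟨fun c d e => ?_, ?_⟩)).symm
  · have h1 := (tvP_eq_iff (h0 c) (h0 d)).1 (congrArg Subtype.val e)
    rw [← sub_eq_zero, ← vecMulVec_sub, vecMulVec_eq_zero, ← sub_smul, smul_eq_zero, sub_eq_zero] at h1
    exact (h1.resolve_left hv).resolve_right hφ
  · rintro ⟨_, ⟨ψ, h1, rfl⟩, h2⟩
    obtain ⟨u, h2, e⟩ := mem_FP.1 h2
    obtain ⟨c, rfl⟩ := exists_smul_of_vecMulVec_eq_right hv ((tvP_eq_iff h2 h1).1 e.symm)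
    exact ⟨c, rfl⟩

theorem cross_ne {v w : V3} (hv : v ≠ 0) (h : ¬ ∃ c : F, w = c • v) : v ⨯₃ w ≠ 0 := by
  rw [crossProduct_ne_zero_iff_linearIndependent, LinearIndependent.pair_iff' hv]
  exact fun a e => h ⟨a, e.symm⟩

theorem par_cross {v w φ : V3} (h : v ⨯₃ w ≠ 0) (h1 : φ ⬝ᵥ v = 0) (h2 : φ ⬝ᵥ w = 0) : ∃ c : F, φ = c • v ⨯₃ w :=
  by_contra fun e => cross_ne h e (by
    rw [cross_cross_eq_smul_sub_smul, dotProduct_comm v, dotProduct_comm w, h1, h2]; simp)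

theorem cover_EP (h2 : (2 : F) = 0) (t : P3) (ht : t * t = 1) : ∃ v, v ≠ 0 ∧ t ∈ EP v := by
  obtain ⟨g, rfl⟩ := QuotientGroup.mk_surjective t
  have hz : g * g ∈ center S3 := (QuotientGroup.eq_one_iff _).1 ht
  obtain ⟨r, h3, hr⟩ := Matrix.SpecialLinearGroup.mem_center_iff.1 hz
  have e : (QuotientGroup.mk g : P3) = QuotientGroup.mk (g * (g * g)) := by
    rw [QuotientGroup.mk_mul, QuotientGroup.mk_mul, ht, mul_one]
  have h4 : (g * (g * g) : S3).1 * (g * (g * g) : S3).1 = 1 := by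
    rw [← Matrix.SpecialLinearGroup.coe_mul, show g * (g * g) * (g * (g * g)) = (g * g) ^ 3 by simp only [pow_three, mul_assoc],
     
      Matrix.SpecialLinearGroup.coe_pow, ← hr, ← map_pow, ← Fintype.card_fin 3, h3, map_one]
  rw [e]
  generalize g * (g * g) = k at h4
  have h5 : (k.1 - 1) * (k.1 - 1) = 0 := by
    rw [sub_mul, mul_sub, mul_sub, h4, mul_one, one_mul, one_mul, show (1 : Matrix (Fin 3) (Fin 3) F) - k.1 - (k.1 - 1) =
      (2 : F) • (1 - k.1) by rw [two_smul]; abel, h2, zero_smul]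
  have h6 := rank_add_rank_le_card_of_mul_eq_zero h5
  rw [Fintype.card_fin] at h6
  by_cases h7 : (k.1 - 1).rank = 1
  · obtain ⟨v, φ, hv, -, h8, h9⟩ := isTransvection_iff.1 ⟨h7, h5⟩
    exact ⟨v, hv, φ, h8, by rw [tvP, ← tv_eq_of_coe h8 h9]⟩
  · have h8 : (k.1 - 1).rank = 0 := by omega
    rw [Matrix.rank, Submodule.finrank_eq_zero, LinearMap.range_eq_bot] at h8
    have h9 : k = 1 := Subtype.ext (sub_eq_zero.1 (toLin'.injective (h8.trans (map_zero _).symm)))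
    exact ⟨Pi.single 0 1, by simp, by rw [h9]; exact one_mem _⟩

theorem trans_EP {v w : V3} (hv : v ≠ 0) (hw : w ≠ 0) : ∃ g : S3, (g : Matrix _ _ F) *ᵥ v = w := by
  have key : ∀ u : V3, ∃ u', u' ∉ F ∙ u := fun u => by
    obtain ⟨φ, h1, h2⟩ := exists_dot (v := u)
    obtain ⟨i, hi⟩ := Function.ne_iff.1 h1
    refine ⟨Pi.single i 1, fun e => hi ?_⟩
    obtain ⟨c, hc⟩ := Submodule.mem_span_singleton.1 e
    simpa [h2] using (congrArg (φ ⬝ᵥ ·) hc).symm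
  obtain ⟨v', h1⟩ := key v
  obtain ⟨w', h2⟩ := key w
  obtain ⟨g, hg, -⟩ := CL.LS.exists_SL_pair (by simp) hv h1 hw h2
  exact ⟨g, hg⟩

theorem norm_iff_EP {u v φ : V3} (hv : v ≠ 0) (hu : u ≠ 0) (h : φ ⬝ᵥ u = 0) : tvP u φ ∈ 𝒩(EP v) ↔ φ ⬝ᵥ v = 0 := by
  rw [tvP, mem_norm_EP hv, CL.LS.tv_mulVec h]
  refine ⟨fun ⟨c, e⟩ => by_contra fun h1 => hu ?_, fun e => ⟨1, by simp [e]⟩⟩
  have h2 := congrArg (φ ⬝ᵥ ·) e
  simp only [dotProduct_add, dotProduct_smul, h, smul_eq_mul, mul_zero, add_zero] at h2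
  obtain rfl : c = 1 := mul_right_cancel₀ h1 (h2.symm.trans (one_mul _).symm)
  simpa [h1] using e

/-- the stabiliser of the first basis vector. -/
def PP (F : Type) [Field F] : Subgroup (SpecialLinearGroup (Fin 3) F) where
  carrier := {g | g 0 0 = 1 ∧ g 1 0 = 0 ∧ g 2 0 = 0}
  one_mem' := by simp
  mul_mem' := by
    rintro g h ⟨a1, a2, a3⟩ ⟨b1, b2, b3⟩
    simp [Matrix.mul_apply, Fin.sum_univ_three, *]
  inv_mem' := by
    rintro g ⟨a1, a2, a3⟩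
    have h := g.det_coe
    simp only [det_fin_three] at h
    simp only [Set.mem_ofPred_eq, Matrix.SpecialLinearGroup.coe_inv, adjugate_fin_three]
    simp only [a1, a2, a3] at h
    simp [a2, a3]
    linear_combination h

/-- a matrix of determinant one. -/
def mkS {n : ℕ} (A : Matrix (Fin n) (Fin n) F) (h : A.det = 1) : SpecialLinearGroup (Fin n) F := ⟨A, h⟩

@[simp] theorem coe_mkS {n : ℕ} (A : Matrix (Fin n) (Fin n) F) (h : A.det = 1) : (mkS A h).1 = A := rfl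

/-- the lower right block. -/
def blk : PP F →* SpecialLinearGroup (Fin 2) F where
  toFun g := mkS !![g.1 1 1, g.1 1 2; g.1 2 1, g.1 2 2] (by
    obtain ⟨a1, a2, a3⟩ := g.2
    have h := g.1.det_coe
    simp only [det_fin_three, a1, a2, a3] at h
    rw [det_fin_two_of]
    linear_combination h)
  map_one' := by ext i j; fin_cases i <;> fin_cases j <;> simp
  map_mul' g h := by
    obtain ⟨a1, a2, a3⟩ := g.2
    ext i j
    fin_cases i <;> fin_cases j <;> simp [Matrix.mul_apply, Fin.sum_univ_three, a2, a3]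

@[simp] theorem coe_blk (g : PP F) : (blk g).1 = !![g.1 1 1, g.1 1 2; g.1 2 1, g.1 2 2] := rfl

theorem tv_mem_PP {u φ : V3} (h : φ ⬝ᵥ u = 0) (h0 : φ 0 = 0) : tv u φ ∈ PP F := by
  refine ⟨?_, ?_, ?_⟩ <;> simp [coe_tv h, vecMulVec_apply, h0]

theorem levi_EP [Fintype F] (h2 : (2 : F) = 0) : Levi (Fintype.card F) (YP F) (EP (Pi.single 0 1)) := by
  let π : PP F →* P3 := (QuotientGroup.mk' _).comp (PP F).subtype
  have hπ : Function.Injective π := fun g h e => by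
    obtain ⟨c, hc⟩ := psl_mk_eq_mk_iff.1 e
    have h1 := congrFun (congrFun hc 0) 0
    rw [Matrix.smul_apply, show ((PP F).subtype g).1 0 0 = 1 from g.2.1, show ((PP F).subtype h).1 0 0 = 1 from h.2.1,
      smul_eq_mul, mul_one] at h1
    rw [← h1, one_smul] at hc
    exact Subtype.ext (Subtype.ext hc.symm)
  have hle : LY (YP F) (EP (Pi.single 0 1)) ≤ π.range := LY_le' (by
    rintro _ ⟨φ, hφ, rfl⟩ i x hx
    obtain ⟨u, hu, rfl⟩ := mem_FP.1 hx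
    exact ⟨⟨_, tv_mem_PP hu (by simpa using (inc_iff (by simp) hφ).1 i)⟩, rfl⟩)
  let ψ := ((MonoidHom.ofInjective hπ).symm.toMonoidHom).comp (inclusion hle)
  have hψ : ∀ x, π (ψ x) = x.1 := fun x => MonoidHom.apply_ofInjective_symm hπ _
  refine ⟨F, inferInstance, inferInstance, rfl, (QuotientGroup.mk' _).comp (blk.comp ψ), fun y => ?_, fun x => ?_⟩
  · obtain ⟨y, rfl⟩ := QuotientGroup.mk_surjective y
    have : (blk.comp ψ).range = ⊤ := CL.SLn.eq_top_of_transvection_mem _ fun i j hij c => by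
      have h1 := single_dot_single (fun e => hij (Fin.succ_injective _ e) : i.succ ≠ j.succ) (1 : F) c
      have h3 : (Pi.single j.succ 1 : V3) 0 = 0 := Pi.single_eq_of_ne (Fin.succ_ne_zero j).symm _
      have h4 : tvP (Pi.single i.succ c) (Pi.single j.succ 1) ∈ LY (YP F) (EP (Pi.single 0 1)) :=
        le_LY' (Y := YP F) (F := FP (Pi.single j.succ 1)) ⟨_, by simp, rfl⟩ ((inc_iff (by simp) (by simp)).2 (by simp)) (mem_FP.2 ⟨_, h1, rfl⟩)
      refine ⟨⟨_, h4⟩, ?_⟩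
      rw [MonoidHom.comp_apply, show ψ ⟨_, h4⟩ = ⟨_, tv_mem_PP h1 h3⟩ from hπ (hψ _)]
      apply Subtype.ext
      rw [coe_blk, Matrix.SpecialLinearGroup.transvection_coe]
      simp only [coe_tv h1]
      ext a b
      fin_cases i <;> fin_cases j <;> first | exact absurd rfl hij | skip
      all_goals fin_cases a <;> fin_cases b <;> simp [vecMulVec_apply]
    obtain ⟨x, hx⟩ := this.ge (mem_top y)
    exact ⟨x, congrArg _ hx⟩
  · rw [← hψ x, MonoidHom.comp_apply, MonoidHom.comp_apply]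
    generalize ψ x = g
    obtain ⟨g, a1, a2, a3⟩ := g
    constructor
    · intro e
      have h1 := congrArg Subtype.val (CL.SL2.psl_mk_injective h2 (e.trans (QuotientGroup.mk_one _).symm))
      have h3 : (![0, g 0 1, g 0 2] : V3) ⬝ᵥ Pi.single 0 1 = 0 := by simp
      refine ⟨_, h3, congrArg QuotientGroup.mk (tv_eq_of_coe h3 ?_)⟩
      have b1 : g 1 1 = 1 := congrFun (congrFun h1 0) 0
      have b2 : g 1 2 = 0 := congrFun (congrFun h1 0) 1
      have b3 : g 2 1 = 0 := congrFun (congrFun h1 1) 0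
      have b4 : g 2 2 = 1 := congrFun (congrFun h1 1) 1
      ext a b
      fin_cases a <;> fin_cases b <;> simp [*]
    · rintro ⟨φ, h3, e⟩
      rw [show (⟨g, a1, a2, a3⟩ : PP F) = ⟨_, tv_mem_PP h3 (by simpa using h3)⟩ from hπ e,
        show blk (⟨_, tv_mem_PP h3 (by simpa using h3)⟩ : PP F) = 1 from ?_, map_one]
      ext a b
      fin_cases a <;> fin_cases b <;> simp [coe_tv h3, vecMulVec_apply]

/-- the torus. -/
def torH : Fˣ →* S3 where
  toFun a := mkS !![a, 0, 0; 0, (a⁻¹ : Fˣ), 0; 0, 0, 1] (by simp [det_fin_three])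
  map_one' := by ext i j; fin_cases i <;> fin_cases j <;> simp
  map_mul' a b := by ext i j; fin_cases i <;> fin_cases j <;> simp [Matrix.mul_apply, Fin.sum_univ_three, mul_comm]

@[simp] theorem coe_torH (a : Fˣ) : (torH a).1 = !![(a : F), 0, 0; 0, (a⁻¹ : Fˣ), 0; 0, 0, 1] := rfl

theorem tor_EP [Fintype F] (h2 : (2 : F) = 0) : Torus ⊤ (Fintype.card F) (XP F) (FP (Pi.single 2 1))
    (EP (Pi.single 0 1)) (EP (Pi.single 1 1)) := by
  let τ : Fˣ →* P3 := (QuotientGroup.mk' _).comp torH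
  have hτ : Function.Injective τ := (injective_iff_map_eq_one _).2 fun a e => by
    obtain ⟨c, hc⟩ := psl_mk_eq_mk_iff.1 (e.trans (QuotientGroup.mk_one _).symm)
    have h1 := congrFun (congrFun hc 0) 0
    have h3 := congrFun (congrFun hc 2) 2
    simp at h1 h3
    exact Units.ext (by rw [← h3, one_mul] at h1; exact h1.symm)
  let w : S3 := mkS !![0, -1, 0; 1, 0, 0; 0, 0, 1] (by simp [det_fin_three])
  refine ⟨τ.range, ?_, ?_, ?_, QuotientGroup.mk w, mem_top _, ?_, ?_⟩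
  · rintro _ ⟨a, rfl⟩
    refine ⟨⟨mem_top _, (mem_norm_EP (by simp)).2 ⟨a, ?_⟩⟩, (mem_norm_EP (by simp)).2 ⟨(a⁻¹ : Fˣ), ?_⟩⟩ <;>
      ext i <;> fin_cases i <;> simp
  · classical
    rw [← Nat.card_congr (MonoidHom.ofInjective hτ).toEquiv, Nat.card_eq_fintype_card, Fintype.card_units,
      Nat.sub_add_cancel Fintype.card_pos]
  · rintro _ ⟨a, rfl⟩ _ ⟨v, hv, rfl⟩ i n1 n2 hn
    obtain ⟨c, hc⟩ := (mem_norm_EP hv).1 hn
    have h3 : v 2 = 0 := by simpa using (inc_iff hv (by simp)).1 i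
    have h0 : v 0 ≠ 0 := fun e => n2 (EP_eq_of_par hv ⟨v 1, by ext i; fin_cases i <;> simp [e, h3]⟩).symm
    have h1 : v 1 ≠ 0 := fun e => n1 (EP_eq_of_par hv ⟨v 0, by ext i; fin_cases i <;> simp [e, h3]⟩).symm
    have c0 := congrFun hc 0
    have c1 := congrFun hc 1
    simp [mulVec, dotProduct, Fin.sum_univ_three, h0, h1] at c0 c1
    have h4 : ((a : F) - 1) ^ 2 = 0 := by
      have := a.ne_zero
      rw [← c0] at c1
      field_simp at c1
      linear_combination -c1 + (1 - (a : F)) * h2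
    rw [show a = 1 from Units.ext (sub_eq_zero.1 (pow_eq_zero_iff two_ne_zero |>.1 h4)), map_one]
  · rw [cj_EP]
    congr 1
    ext i
    fin_cases i <;> simp [w]
  · rintro _ ⟨a, rfl⟩
    rw [mul_inv_eq_iff_eq_mul, ← map_inv]
    refine congrArg QuotientGroup.mk (show w * torH a = torH a⁻¹ * w from ?_)
    ext i j
    fin_cases i <;> fin_cases j <;> simp [w, Matrix.mul_apply, Fin.sum_univ_three]

theorem hf0_model [Fintype F] (h2 : (2 : F) = 0) : Hf0 ⊤ (Fintype.card F) (XP F) (YP F) := by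
  constructor
  · rintro _ ⟨v, hv, rfl⟩
    refine ⟨le_top, ?_, card_EP hv⟩
    rintro _ ⟨φ, h, rfl⟩
    rw [tvP_mul_left h h, ← two_smul F, h2, zero_smul, tvP_zero_right]
  · rintro g - _ ⟨v, hv, rfl⟩
    obtain ⟨g, rfl⟩ := QuotientGroup.mk_surjective g
    refine ⟨_, fun e => EP_ne_bot hv ?_, cj_EP g v⟩
    rw [← cj_eq_bot (g := QuotientGroup.mk g), cj_EP, e, eq_bot_iff]
    rintro _ ⟨φ, -, rfl⟩
    exact tvP_zero_left φ
  · rintro _ ⟨v, hv, rfl⟩ _ ⟨w, hw, rfl⟩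
    obtain ⟨g, rfl⟩ := trans_EP hv hw
    exact ⟨_, mem_top _, cj_EP g v⟩
  · intro t _ ht
    obtain ⟨v, hv, h⟩ := cover_EP h2 t ht
    exact ⟨_, ⟨v, hv, rfl⟩, h⟩
  · rintro _ ⟨v, hv, rfl⟩ _ ⟨w, hw, rfl⟩ e
    exact by_contra fun h => e (EP_eq_of_par hw (par_of_inf h))
  · rintro _ ⟨v, hv, rfl⟩ _ ⟨w, hw, rfl⟩ e
    have h := cross_ne hv fun h => e (EP_eq_of_par hw h)
    exact ⟨_, ⟨_, h, rfl⟩, (inc_iff hv h).2 (by rw [dotProduct_comm, dot_self_cross]),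
      (inc_iff hw h).2 (by rw [dotProduct_comm, dot_cross_self])⟩
  · rintro _ ⟨v, hv, rfl⟩ _ ⟨w, hw, rfl⟩ e _ ⟨φ, hφ, rfl⟩ _ ⟨ψ, hψ, rfl⟩ a1 a2 a3 a4
    have h := cross_ne hv fun h => e (EP_eq_of_par hw h)
    rw [FP, FP, ← EP_eq_of_par hφ (par_cross h ((inc_iff hv hφ).1 a1) ((inc_iff hw hφ).1 a2)),
      ← EP_eq_of_par hψ (par_cross h ((inc_iff hv hψ).1 a3) ((inc_iff hw hψ).1 a4))]
  · rintro _ ⟨v, hv, rfl⟩ _ ⟨φ, hφ, rfl⟩ i
    exact card_inf_EP hv hφ ((inc_iff hv hφ).1 i)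
  · rintro _ ⟨φ, hφ, rfl⟩ t ht t1 _ ⟨v, hv, rfl⟩
    obtain ⟨u, hu, rfl⟩ := mem_FP.1 ht
    rw [norm_iff_EP hv (fun e => t1 (by rw [e, tvP_zero_left])) hu, inc_iff hv hφ]
  · exact ⟨_, ⟨_, by simp, rfl⟩, levi_EP h2⟩
  · refine ⟨_, ⟨_, by simp, rfl⟩, _, ⟨_, by simp, rfl⟩, _, ⟨_, by simp, rfl⟩, fun e => ?_,
      (inc_iff (by simp) (by simp)).2 (by simp), (inc_iff (by simp) (by simp)).2 (by simp), tor_EP h2⟩
    obtain ⟨c, hc⟩ := par_of_inf (v := (Pi.single 0 1 : V3)) (w := Pi.single 1 1) (by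
      rw [e, inf_idem]; exact EP_ne_bot (by simp))
    simpa using congrFun hc 1

theorem pl0_model [Fintype F] {n : ℕ} (hn : 1 ≤ n) (hF : Fintype.card F = 2 ^ n) :
    Pl0 ⊤ (2 ^ n) (XP F) (YP F) := by
  have h2 : (2 : F) = 0 := by
    have := FiniteField.cast_card_eq_zero F
    rw [hF, Nat.cast_pow] at this
    exact_mod_cast pow_eq_zero_iff (by omega) |>.1 this
  have h := hf0_model h2
  have h' := h.map (f := (graphAut (Fin 3) F).toMonoidHom) (graphAut (Fin 3) F).injective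
  rw [map_top_of_surjective (graphAut (Fin 3) F).toMonoidHom (graphAut (Fin 3) F).surjective,
    show Subgroup.map (graphAut (Fin 3) F).toMonoidHom '' XP F = YP F from ?_,
    show Subgroup.map (graphAut (Fin 3) F).toMonoidHom '' YP F = XP F from ?_] at h'
  · rw [hF] at h h'
    refine ⟨⟨have := CL.SLn.isSimpleGroup_PSL_fin (F := F) 3 (by omega) (by omega); topEquiv.isSimpleGroup,
      ⟨n, hn, rfl⟩, ?_⟩, h, h'⟩
    have h1 := CL.SLn.card_PSL_mul (ι := Fin 3) (F := F)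
    rw [CL.SLn.card_SL, hF, Fintype.card_fin] at h1
    rw [card_top, h1]
    simp [Finset.prod_range_succ]
    ring
  · ext E
    exact ⟨by rintro ⟨_, ⟨v, hv, rfl⟩, rfl⟩; exact ⟨v, hv, map_FP v⟩,
      by rintro ⟨v, hv, rfl⟩; exact ⟨_, ⟨v, hv, rfl⟩, map_FP v⟩⟩
  · ext E
    exact ⟨by rintro ⟨_, ⟨v, hv, rfl⟩, rfl⟩; exact ⟨v, hv, rfl⟩, by rintro ⟨v, hv, rfl⟩; exact ⟨_, ⟨v, hv, rfl⟩, rfl⟩⟩

theorem pl0_of_equiv {G : Type*} [Group G] [Fintype F] {n : ℕ} (hn : 1 ≤ n) (hF : Fintype.card F = 2 ^ n)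
    {N : Subgroup G} (e : N ≃* P3) : ∃ X Y, Pl0 N (2 ^ n) X Y := by
  have h := (pl0_model hn hF).map (f := N.subtype.comp e.symm.toMonoidHom) (N.subtype_injective.comp e.symm.injective)
  rw [← Subgroup.map_map, map_top_of_surjective _ e.symm.surjective, ← MonoidHom.range_eq_map, range_subtype] at h
  exact ⟨_, _, h⟩

end CL.HL
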