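/-
Project HL3 (S3727): the parabolic case, first step.
-/
import Cfsg.Agent.Perm.HL1

set_option autoImplicit false
open Cfsg Subgroup MulAction CL.Even CL.Grp CL.Loc
open CL.Bender (Fx st2)
open CL.Hir (fx_cj)

namespace CL.HL

universe u v

variable {G : Type u} [Group G] [Finite G] {Ω : Type v} [MulAction G Ω] {N : Ω → Subgroup G} {q : ℕ}
  {X Y : Ω → Set (Subgroup G)} {a b : Ω} {E E' : Subgroup G}

section
variable (h : CaseP N q X Y)
include h

omit [Finite G]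

theorem p1a_ex (hab : a ≠ b) : ∃ E ∈ X a, Fx E b :=
  let ⟨E, hE, k, _⟩ := h.par a b hab
  ⟨E, hE, fx_mono ((h.pl a).l.le_LY E hE) k⟩

theorem p1a_fix (hE : E ∈ X a) : Fx E a := fx_mono ((h.pl a).l.toHf0.le hE) (h.fix a)

theorem p1a_norm (hab : a ≠ b) (hE : E ∈ X a) (hb : Fx E b) {g : G} (ga : g • a = a) (gb : g • b = b) : g ∈ 𝒩(E) :=
  (h.par' hab hE hb).2 ⟨ga, gb⟩

theorem p1a_uniq (hab : a ≠ b) (hE : E ∈ X a) (hE' : E' ∈ X a) (hb : Fx E b) (hb' : Fx E' b) : E = E' :=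
  (h.pl a).l.eq_of_le_norm E hE E' hE' fun g hg => p1a_norm h hab hE' hb' (p1a_fix h hE g hg) (hb g hg)

theorem p1a_LY (hab : a ≠ b) (hE : E ∈ X a) (hE' : E' ∈ X b) (hb : Fx E b) (ha : Fx E' a) : LY (Y a) E ≤ 𝒩(E') :=
  fun g hg => p1a_norm h hab.symm hE' ha ((h.par' hab hE hb).1 g hg) (h.fix a g ((h.pl a).l.LY_le E hE hg).1)

theorem p1a_cent (hab : a ≠ b) (hE : E ∈ X a) (hE' : E' ∈ X b) (hb : Fx E b) (ha : Fx E' a) (h0 : E ⊓ E' = ⊥) :
    E' ≤ 𝒞(N a) := fun y hy => by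
  have l := (h.pl a).l
  have one : ∀ x ∈ E, x ∈ E' → x = 1 := fun x h1 h2 => mem_bot.1 (h0.le ⟨h1, h2⟩)
  obtain ⟨e, he, hc⟩ := l.centE E hE y (h.norm (ha y hy)) (mem_centralizer_iff.2 fun x hx => by
    have := one (x * y * x⁻¹ * y⁻¹)
      (by simpa only [mul_assoc] using mul_mem hx (conj_mem (p1a_norm h hab hE hb (ha y hy) (p1a_fix h hE' y hy))
        (inv_mem hx)))
      (mul_mem (conj_mem (p1a_norm h hab.symm hE' ha (hb x hx) (p1a_fix h hE x hx)) hy) (inv_mem hy))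
    rwa [mul_inv_eq_one, mul_inv_eq_iff_eq_mul] at this)
  have cm : ∀ u ∈ LY (Y a) E, u * e * u⁻¹ = e := fun u hu => mul_inv_eq_one.1 (one _
    (mul_mem (conj_mem (l.LY_le E hE hu).2 he) (inv_mem he)) (by
      have := mul_mem (conj_mem (p1a_LY h hab hE hE' hb ha hu) hy) (inv_mem hy)
      convert this using 1
      calc _ = u * e * (u⁻¹ * (e⁻¹ * y)) * y⁻¹ := by group
        _ = _ := by rw [comm_of_mem hc (inv_mem (l.LY_le E hE hu).1)]; group))
  rcases l.irr E hE (zpowers e) (zpowers_le.2 he) (le_norm_of_cj_le fun u hu => by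
    rw [MonoidHom.map_zpowers]
    exact (congrArg zpowers (cm u hu)).le) with k | k
  · simpa [zpowers_eq_bot.1 k] using hc
  · have := (l.isE E hE).card
    rw [← k, Nat.card_zpowers] at this
    have h2 := orderOf_le_of_pow_eq_one two_pos ((pow_two e).trans ((l.isE E hE).sq e he))
    have := (h.pl a).two_le
    nlinarith

theorem p1a_ne (hab : a ≠ b) (hE : E ∈ X a) (hE' : E' ∈ X b) (hb : Fx E b) (ha : Fx E' a) : E ⊓ E' ≠ ⊥ := fun h0 => by
  have c := p1a_cent h hab hE hE' hb ha h0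
  obtain ⟨x, hx, ne⟩ := h.exists_move hab
  have m : E' ∈ X (x • b) := by
    have := h.cjX x b E' hE'
    rwa [cj_eq (cent_le_norm _ (le_centralizer_iff.1 c hx))] at this
  obtain ⟨g, ga, gb⟩ := h.two a b b (x • b) hab ne.symm
  have e1 : cj g E = E' := p1a_uniq h ne.symm (ga ▸ h.cjX g a E hE) hE' (gb ▸ (fx_cj g).2 hb) (p1a_fix h m)
  have e2 : cj g E' = E' := p1a_uniq h ne (gb ▸ h.cjX g b E' hE') m (ga ▸ (fx_cj g).2 ha) (p1a_fix h hE')
  exact (inc_cj g).1 (by rw [e1, e2, inf_idem]; exact ((h.pl b).l.isE E' hE').ne_bot (h.pl b).two_le) h0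

end

theorem p1a_memX (h : CaseP N q X Y) (a b : Ω) (E : Subgroup G) (hE : E ∈ X a) (hb : Fx E b) : E ∈ X b := by
  rcases eq_or_ne a b with rfl | hab
  · exact hE
  obtain ⟨E', hE', ha⟩ := p1a_ex h hab.symm
  have l := (h.pl a).l
  have := (l.irr E hE (E ⊓ E') inf_le_left (le_norm_inf ((l.LY_le E hE).trans inf_le_right)
    (p1a_LY h hab hE hE' hb ha))).resolve_left (p1a_ne h hab hE hE' hb ha)
  rwa [(l.isE E hE).eq_of_le ((h.pl b).l.isE E' hE') (inf_eq_left.1 this)]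

theorem p1a_csr (h : CaseP N q X Y) (a b : Ω) (hab : a ≠ b) (j : G) (hj : j ∈ 𝒞(N a)) (hb : j • b = b) : j = 1 := by
  obtain ⟨E, hE, fb⟩ := p1a_ex h hab
  have hE' := p1a_memX h a b E hE fb
  have l := (h.pl b).l
  have Ea := (h.pl a).l.toHf0.le hE
  obtain ⟨e, he, hc⟩ := l.centE E hE' j (h.norm hb) (cent_mono Ea hj)
  obtain rfl : e = 1 := h.eq_one_of_fix hab hj hb (Ea he) fun c jc => by
    rcases eq_or_ne b c with rfl | bc
    · exact fb e he
    obtain ⟨U, hU, fc⟩ := p1a_ex h bc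
    refine (h.par' bc hU fc).1 e (l.mem_LY U hU e (l.toHf0.le hE' he) ((l.isE E hE').sq e he) ?_)
    simpa using mul_mem (p1a_norm h bc hU fc hb jc) (inv_mem (cent_le_norm _ (cent_mono (l.toHf0.le hU) hc)))
  obtain ⟨z, hz, z1⟩ := exists_ne_one ((l.isE E hE').ne_bot (h.pl b).two_le)
  exact h.j0 hab (Ea hz) (l.toHf0.le hE' hz) z1 hj (by simpa using hc)

theorem p1a : P1a.{u, v} := fun _ _ _ _ _ _ _ _ _ _ h => ⟨h, p1a_csr h, p1a_memX h⟩

end CL.HL
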