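/-
Project HL3 (S3727), job P1b: in the parabolic case an involution of `N b` fixing `a` lies in `N a`.
-/
import Cfsg.Agent.Perm.HL1
import Cfsg.Agent.Cls.SLnBasic

set_option autoImplicit false
open Cfsg Subgroup MulAction CL.Even CL.Grp CL.Loc
open CL.Bender (Fx st2)
open CL.Hir (TC Pt Soc)

namespace CL.HL

universe u v

variable {G : Type*} [Group G]

/-- the action of `N(E)` on the non-trivial elements of `E` -/
def p1bAct (E : Subgroup G) : 𝒩(E) →* Equiv.Perm {x : G // x ∈ E ∧ x ≠ 1} :=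
  MonoidHom.mk' (fun g => Equiv.Perm.subtypePerm (MulAut.conj (g : G)).toEquiv fun x =>
    and_congr ((mem_normalizer_iff.1 g.2) x).symm (MulEquiv.map_ne_one_iff (MulAut.conj (g : G))))
    fun a b => Equiv.ext fun x => Subtype.ext (by
      change (a * b : G) * x * (a * b : G)⁻¹ = a * (b * x * (b : G)⁻¹) * (a : G)⁻¹
      group)

theorem p1bAct_eq {E : Subgroup G} {g k : 𝒩(E)} (h : p1bAct E g = p1bAct E k) : (g : G)⁻¹ * k ∈ 𝒞(E) :=
  mem_centralizer_iff.2 fun x hx => by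
    by_cases h1 : x = 1
    · simp [h1]
    have : (g : G) * x * (g : G)⁻¹ = k * x * (k : G)⁻¹ := congrArg (fun f => (f ⟨x, hx, h1⟩).1) h
    calc x * ((g : G)⁻¹ * k) = (g : G)⁻¹ * (g * x * (g : G)⁻¹) * k := by group
      _ = _ := by rw [this]; group

theorem p1b_aut [Finite G] {E M : Subgroup G} (hE : Nat.card E = 4) (hM : Nat.card M = 24) (hn : M ≤ 𝒩(E))
    (hc : ∀ u ∈ M, u ∈ 𝒞(E) → u ∈ E) {t : G} (ht : t ∈ 𝒩(E)) : ∃ u ∈ M, u⁻¹ * t ∈ 𝒞(E) := by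
  let φ := (p1bAct E).comp (inclusion hn)
  have h1 : Nat.card φ.ker ≤ 4 := hE ▸ Nat.card_le_card_of_injective
    (fun x : φ.ker => (⟨x.1.1, hc _ x.1.2 (by
      simpa using p1bAct_eq ((map_one (p1bAct E)).trans (MonoidHom.mem_ker.1 x.2).symm))⟩ : E))
    fun x y e => Subtype.ext (Subtype.ext (congrArg (fun w : E => (w : G)) e))
  have h2 : Nat.card {x : G // x ∈ E ∧ x ≠ 1} = 3 := by
    have : {x : G | x ∈ E ∧ x ≠ 1}.ncard + 1 = 4 := by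
      rw [← hE]; exact Set.ncard_diff_singleton_add_one (s := (E : Set G)) E.one_mem
    change {x : G | x ∈ E ∧ x ≠ 1}.ncard = 3
    omega
  have h3 : Nat.card (Equiv.Perm {x : G // x ∈ E ∧ x ≠ 1}) = 6 := by rw [Nat.card_perm, h2]; rfl
  have h4 := φ.ker.card_mul_index
  rw [index_ker, hM] at h4
  have h5 : φ.range = ⊤ := eq_top_of_le_card _ (by rw [h3]; by_contra h; nlinarith)
  obtain ⟨u, hu⟩ := MonoidHom.range_eq_top.1 h5 (p1bAct E ⟨t, ht⟩)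
  exact ⟨u, u.2, p1bAct_eq hu⟩

theorem p1b_ne [Finite G] {L L' E : Subgroup G} {q : ℕ} {X Y X' Y' : Set (Subgroup G)} (h : Hf1 L q X Y)
    (l : Hfa L' q X' Y') (r : Hfa L' q Y' X') (hE : E ∈ X) (hE' : E ∈ X') (h0 : LY Y E ≤ 𝒩(E))
    (h1 : LY Y E ≤ 𝒩(LY Y' E)) (h2 : LY Y' E ≤ 𝒩(LY Y E)) : ∃ d ∈ LY Y E, d ∈ LY Y' E ∧ d ∉ E := by
  by_contra! H
  obtain ⟨F, hF, i⟩ : {F | F ∈ Y' ∧ E ⊓ F ≠ ⊥}.Nonempty :=
    Set.nonempty_of_ncard_ne_zero (by rw [l.card_lines E hE']; omega)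
  obtain ⟨s, hs, sE⟩ := r.exists_not_mem l hF hE' (inc_symm i)
  have sM := le_LY' hF i hs
  rcases h.irr E hE (E ⊓ centralizer {s}) inf_le_left (le_norm_of_cj_le fun g hg x hx => by
    obtain ⟨y, hy, rfl⟩ := hx
    have he : g⁻¹ * s * g * s⁻¹ ∈ E := H _
      (by rw [mul_assoc, mul_assoc, ← mul_assoc s]; exact mul_mem (inv_mem hg) (conj_mem (h2 sM) hg))
      (mul_mem (conj_mem' (h1 hg) sM) (inv_mem sM))
    have c1 : Commute y (g⁻¹ * s * g * s⁻¹) := (h.isE E hE).comm hy.1 he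
    have c2 := (c1.mul_right (mem_centralizer_singleton_iff.1 hy.2)).conj g
    refine ⟨conj_mem (h0 hg) hy.1, mem_centralizer_singleton_iff.2 ?_⟩
    simpa [mul_assoc, Commute, SemiconjBy] using c2) with e | e
  · exact i (eq_bot_iff.2 (e ▸ fun x hx => ⟨hx.1, mem_centralizer_singleton_iff.2 ((r.isE F hF).comm hx.2 hs)⟩))
  · obtain ⟨x, hx, xF⟩ := l.exists_not_mem r hE' hF i
    exact xF (r.cent_eq F hF E hE' (inc_symm i) s hs sE x (mem_sup_right hx)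
      (mem_centralizer_singleton_iff.1 (e.ge hx).2).symm)

theorem p1b_le {E M' : Subgroup G} {q : ℕ} {Y : Set (Subgroup G)} (h : Levi q Y E) (hq : 4 ≤ q) (h0 : E ≤ M')
    (h1 : LY Y E ≤ 𝒩(M')) {d : G} (hd : d ∈ LY Y E) (hd' : d ∈ M') (dE : d ∉ E) : LY Y E ≤ M' := by
  obtain ⟨k, _, _, hk, φ, hs, hφ⟩ := h
  have := CL.SLn.isSimpleGroup_PSL_fin (F := k) 2 le_rfl fun _ => hk ▸ hq
  have hn : (M'.subgroupOf (LY Y E)).Normal :=
    normal_subgroupOf_iff_le_normalizer_inf.2 (le_norm_inf h1 le_normalizer)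
  rcases (hn.map φ hs).eq_bot_or_eq_top with e | e
  · exact absurd ((hφ ⟨d, hd⟩).1 (mem_bot.1 (e ▸ mem_map_of_mem φ (K := M'.subgroupOf _) hd'))) dE
  · intro u hu
    obtain ⟨x, hx, e1⟩ := e.ge (mem_top (φ ⟨u, hu⟩))
    have := h0 ((hφ (x⁻¹ * ⟨u, hu⟩)).1 (by rw [map_mul, map_inv, e1, inv_mul_cancel]))
    exact (M'.mul_mem_cancel_left (M'.inv_mem hx)).1 this

theorem p1b : P1b.{u, v} := by
  intro G Ω _ _ _ _ N q X Y h a b t ht tt ta
  by_cases hab : a = b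
  · rwa [hab]
  have pa := h.pl a
  have pb := h.pl b
  obtain ⟨E, hE, f1, n1⟩ := h.par a b hab
  have Eb : Fx E b := fx_mono (pa.l.le_LY E hE) f1
  have hE' := h.memX a b E hE Eb
  have Ea : Fx E a := fx_mono (pa.l.toHf0.le hE) (h.fix a)
  have tb := h.fix b t ht
  have tE : t ∈ 𝒩(E) := n1 ⟨ta, tb⟩
  have hM := pa.l.LY_le E hE
  rcases pa.toBas.eq_two_or with rfl | hq
  · obtain ⟨u, hu, e⟩ := p1b_aut (pa.l.isE E hE).card (pa.l.card_LY E hE) (hM.trans inf_le_right)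
      (fun u hu hc => tc_mem pa.l.zc (pa.l.toHf0.le hE) (pa.l.centE E hE u (le_normalizer (hM hu).1) hc) (hM hu).1) tE
    obtain ⟨x, hx, e1⟩ := pa.l.centE E hE _ (mul_mem (inv_mem (le_normalizer (hM hu).1)) (h.toHyp0.norm ta)) e
    have := h.csr a b hab _ e1 (by rw [mul_smul, mul_smul, tb, inv_smul_eq_iff, f1 _ (inv_mem hu), Eb x hx])
    rw [inv_mul_eq_one, eq_inv_mul_iff_mul_eq] at this
    exact this ▸ mul_mem (hM hu).1 (pa.l.toHf0.le hE hx)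
  obtain ⟨f2, -⟩ := h.toCaseP.par' (Ne.symm hab) hE' Ea
  have hM' := pb.l.LY_le E hE'
  have nn : ∀ c : Ω, ∀ g ∈ 𝒩(E), g • c = c → g ∈ 𝒩(LY (Y c) E) := fun c g hg e =>
    cj_eq_iff_mem.1 (by rw [h.toCaseP.cj_LY, e, cj_eq hg])
  have m1 : LY (Y a) E ≤ 𝒩(LY (Y b) E) := fun g hg => nn b g (hM hg).2 (f1 g hg)
  obtain ⟨d, d1, d2, d3⟩ := p1b_ne pa.l.toHf1 pb.l.toHfa pb.r.toHfa hE hE' (hM.trans inf_le_right) m1
    fun g hg => nn a g (hM' hg).2 (f2 g hg)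
  have := eq_of_le_of_card_ge (p1b_le (pa.l.levi E hE) hq (pb.l.le_LY E hE') m1 d1 d2 d3)
    (by rw [pa.l.card_LY E hE, pb.l.card_LY E hE'])
  exact (hM (this ▸ pb.l.mem_LY E hE' t ht tt tE)).1

end CL.HL
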