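/-
Project HL3 (S3727), part P2: the lines and planes of the space.
-/
import Cfsg.Agent.Perm.HL1

set_option autoImplicit false
set_option linter.unusedSectionVars false
open Cfsg Subgroup MulAction CL.Even CL.Grp CL.Loc
open CL.Bender (Fx st2)
open CL.Hir (TC Pt Soc fx_cj fx_smul fix_smul_of_comm)

namespace CL.HL

universe u v

/-- counting a set that is partitioned into classes of equal size. -/
theorem p2_part {Ω ι : Type*} [Finite Ω] [Finite ι] {S : Set Ω} {I : Set ι} (B : ι → Set Ω) {m : ℕ}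
    (h1 : ∀ i ∈ I, B i ⊆ S) (h2 : ∀ i ∈ I, (B i).ncard = m) (h3 : ∀ x ∈ S, ∃ i ∈ I, x ∈ B i)
    (h4 : ∀ i ∈ I, ∀ j ∈ I, ∀ x ∈ B i, x ∈ B j → i = j) : S.ncard = I.ncard * m := by
  classical
  have e : S.toFinite.toFinset = I.toFinite.toFinset.biUnion fun i => (B i).toFinite.toFinset := by
    ext x
    simp only [Set.Finite.mem_toFinset, Finset.mem_biUnion]
    exact ⟨h3 x, fun ⟨i, hi, hx⟩ => h1 i hi hx⟩
  rw [Set.ncard_eq_toFinset_card S, e, Finset.card_biUnion, Finset.sum_congr rfl (g := fun _ => m),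
    Finset.sum_const, smul_eq_mul, Set.ncard_eq_toFinset_card I]
  · intro i hi
    rw [← Set.ncard_eq_toFinset_card, h2 i (by simpa using hi)]
  · intro i hi j hj hne
    refine Finset.disjoint_left.2 fun x a b => hne (h4 i (by simpa using hi) j (by simpa using hj) x ?_ ?_)
    exacts [by simpa using a, by simpa using b]

variable {G : Type*} [Group G] [Finite G] {Ω : Type*} [Finite Ω] [MulAction G Ω] {N : Ω → Subgroup G} {q : ℕ}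
  {X Y : Ω → Set (Subgroup G)} {a b c : Ω} {E E' F : Subgroup G}

namespace CaseP

variable (h : CaseP N q X Y)
include h

theorem p2_fxX (hE : E ∈ X a) : Fx E a := fx_mono ((h.pl a).l.toHf0.le hE) (h.fix a)

theorem p2_fxY (hF : F ∈ Y a) : Fx F a := fx_mono ((h.pl a).r.toHf0.le hF) (h.fix a)

theorem p2_thru (a b : Ω) : ∃ E ∈ X a, Fx E b := by
  by_cases e : a = b
  · obtain ⟨E, hE, -⟩ := (h.pl a).l.levi0
    exact ⟨E, hE, e ▸ h.p2_fxX hE⟩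
  · obtain ⟨E, h1, h2, -⟩ := h.par a b e
    exact ⟨E, h1, fx_mono ((h.pl a).l.le_LY E h1) h2⟩

theorem p2_uniq (hab : a ≠ b) (hE : E ∈ X a) (hE' : E' ∈ X a) (h1 : Fx E b) (h2 : Fx E' b) : E = E' :=
  (h.pl a).l.eq_of_le_norm E hE E' hE' ((le_st2.2 ⟨h.p2_fxX hE, h1⟩).trans (h.par' hab hE' h2).2)

theorem p2_fix_of_inc (hE : E ∈ X a) (hF : F ∈ Y a) (i : E ⊓ F ≠ ⊥) (h1 : Fx E b) : Fx F b := by
  by_cases e : a = b
  · exact e ▸ h.p2_fxY hF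
  · exact fx_mono (le_LY' hF i) (h.par' e hE h1).1

theorem p2_inc (hab : a ≠ b) (hE : E ∈ X a) (hF : F ∈ Y a) (h1 : Fx E b) {t : G} (ht : t ∈ F) (t1 : t ≠ 1)
    (tb : t • b = b) : E ⊓ F ≠ ⊥ :=
  ((h.pl a).l.norm_iff F hF t ht t1 E hE).1 ((h.par' hab hE h1).2 ⟨h.p2_fxY hF t ht, tb⟩)

theorem p2_inc_of_fix (hab : a ≠ b) (hE : E ∈ X a) (hF : F ∈ Y a) (h1 : Fx E b) (h2 : Fx F b) : E ⊓ F ≠ ⊥ :=
  let ⟨t, ht, t1⟩ := exists_ne_one (((h.pl a).r.isE F hF).ne_bot (h.pl a).toBas.two_le)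
  h.p2_inc hab hE hF h1 ht t1 (h2 t ht)

theorem p2_fixY (hF : F ∈ Y a) {t : G} (ht : t ∈ F) (t1 : t ≠ 1) (tc : t • c = c) : Fx F c := by
  by_cases e : a = c
  · exact e ▸ h.p2_fxY hF
  · obtain ⟨E, hE, h1⟩ := h.p2_thru a c
    exact h.p2_fix_of_inc hE hF (h.p2_inc e hE hF h1 ht t1 tc) h1

theorem p2_line : ∃ f, 2 ≤ f ∧ ∀ a, ∀ E ∈ X a, (Pt Ω E).ncard = f := by
  have := h.nontriv
  obtain ⟨a, b, hab⟩ := exists_pair_ne Ω
  obtain ⟨E, hE, h1⟩ := h.p2_thru a b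
  refine ⟨_, (Set.one_lt_ncard (s := Pt Ω E)).2 ⟨a, h.p2_fxX hE, b, h1, hab⟩, fun c E' hE' => ?_⟩
  obtain ⟨g, rfl⟩ := h.toHyp0.trans a c
  obtain ⟨k, -, rfl⟩ := (h.pl _).l.trans _ (h.cjX g a E hE) E' hE'
  rw [ncard_pt_cj, ncard_pt_cj]

variable {f : ℕ} (hf : ∀ a, ∀ E ∈ X a, (Pt Ω E).ncard = f)
include hf

/-- a union of lines through `a`. -/
theorem p2_union {S : Set Ω} {I : Set (Subgroup G)} (ha : a ∈ S) (h0 : I ⊆ X a) (h1 : ∀ E ∈ I, Pt Ω E ⊆ S)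
    (h2 : ∀ b ∈ S, b ≠ a → ∀ E ∈ X a, Fx E b → E ∈ I) : S.ncard = I.ncard * (f - 1) + 1 := by
  rw [← Set.ncard_sdiff_singleton_add_one ha, p2_part (I := I) (fun E => Pt Ω E \ {a})
    (fun E hE => Set.sdiff_subset_sdiff_left (h1 E hE))
    (fun E hE => by rw [Set.ncard_sdiff_singleton_of_mem (h.p2_fxX (h0 hE)), hf a E (h0 hE)])
    (fun b hb => let ⟨E, hE, e⟩ := h.p2_thru a b; ⟨E, h2 b hb.1 hb.2 E hE e, e, hb.2⟩)
    fun E hE E' hE' b e e' => h.p2_uniq (Ne.symm e.2) (h0 hE) (h0 hE') e.1 e'.1]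

theorem p2_count : Nat.card Ω = (q ^ 2 + q + 1) * (f - 1) + 1 := by
  have := h.nontriv
  obtain ⟨a⟩ : Nonempty Ω := inferInstance
  rw [← Set.ncard_univ, h.p2_union hf (Set.mem_univ a) le_rfl (fun _ _ => Set.subset_univ _) fun _ _ _ _ e _ => e,
    (h.pl a).l.card_X]

theorem p2_plane (hF : F ∈ Y a) : (Pt Ω F).ncard = (q + 1) * (f - 1) + 1 := by
  rw [h.p2_union hf (S := Pt Ω F) (I := {E | E ∈ X a ∧ F ⊓ E ≠ ⊥}) (h.p2_fxY hF) (fun _ e => e.1)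
    (fun E e b hb => h.p2_fix_of_inc e.1 hF (inc_symm e.2) hb)
    fun b hb e E hE h1 => ⟨hE, inc_symm (h.p2_inc_of_fix e.symm hE hF h1 hb)⟩, (h.pl a).r.card_lines F hF]

end CaseP

namespace PS1

variable (h : PS1 N q X Y) {f : ℕ} (f2 : 2 ≤ f) (hf : ∀ a, ∀ E ∈ X a, (Pt Ω E).ncard = f)
include h f2 hf

theorem p2_memY (hF : F ∈ Y a) (hb : Fx F b) : F ∈ Y b := by
  have h1 := (h.pl a).r.isE F hF
  refine ((h.pl b).l.mem_or_mem F (h1.of_le fun t ht =>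
    h.caseI b a t (h1.le ht) (h1.sq t ht) (hb t ht))).resolve_left fun e => ?_
  have h2 := (hf b F e).symm.trans (h.toCaseP.p2_plane hf hF)
  have h3 := (h.pl a).toBas.two_le
  obtain ⟨g, rfl⟩ := Nat.exists_eq_add_of_le' f2
  rw [show g + 2 - 1 = g + 1 from rfl] at h2
  nlinarith

theorem p2_dvd : f ∣ q := by
  have k := h.toCaseP
  have := h.nontriv
  obtain ⟨a⟩ : Nonempty Ω := inferInstance
  obtain ⟨F, hF, E, hE, -, -, -, i, -⟩ := (h.pl a).l.tor0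
  obtain ⟨t, tE, tF⟩ := (h.pl a).l.toHfa.exists_not_mem (h.pl a).r.toHfa hE hF i
  have t2 := ((h.pl a).l.isE E hE).sq t tE
  have t1 : t ≠ 1 := fun e => tF (e ▸ one_mem _)
  obtain ⟨F', hF', tF'⟩ := (h.pl a).r.cover t ((h.pl a).l.toHf0.le hE tE) t2
  have i' : E ⊓ F' ≠ ⊥ := ne_bot_of_mem ⟨tE, tF'⟩ t1
  have tn : t ∈ 𝒩(F) := (h.pl a).l.le_norm E hE F hF i tE
  have h1 : ∀ c ∈ Pt Ω F \ Pt Ω E, c ≠ t • c := fun c hc e => by
    have ca : a ≠ c := fun e => hc.2 (e ▸ k.p2_fxX hE)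
    obtain ⟨E', hE', e'⟩ := k.p2_thru a c
    exact hc.2 ((h.pl a).r.join_uniq F hF F' hF' (fun e => tF (e ▸ tF')) E' hE' E hE
      (inc_symm (k.p2_inc_of_fix ca hE' hF e' hc.1)) (inc_symm (k.p2_inc ca hE' hF' e' tF' t1 e.symm))
      (inc_symm i) (inc_symm i') ▸ e')
  have h2 : ∀ c ∈ Pt Ω F \ Pt Ω E, ∀ M ∈ X c, Fx M (t • c) → t ∈ 𝒩(M) ∧ Pt Ω M ⊆ Pt Ω F \ Pt Ω E :=
    fun c hc M hM e => by
      have h3 : t ∈ 𝒩(M) := cj_eq_iff_mem.1 (k.p2_uniq (h1 c hc) (h.memX _ c _ (k.cjX t c M hM) (by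
        simpa [smul_smul, t2] using (fx_cj t).2 e)) hM ((fx_cj t).2 (k.p2_fxX hM)) e)
      have h4 := h.p2_memY f2 hf hF hc.1
      refine ⟨h3, fun d hd => ⟨k.p2_fix_of_inc hM h4 (k.p2_inc_of_fix (h1 c hc) hM h4 e (fx_smul tn hc.1)) hd,
        fun hd' => h1 c hc ?_⟩⟩
      have h5 := h.p2_memY f2 hf hF' (k.p2_fix_of_inc hE hF' i' hd')
      have h6 := h.memX c d M hM hd
      exact (k.p2_fix_of_inc h6 h5 (((h.pl d).l.norm_iff F' h5 t tF' t1 M h6).1 h3) (k.p2_fxX hM) t tF').symm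
  have h3 := p2_part (S := Pt Ω F \ Pt Ω E) (I := {M | ∃ c ∈ Pt Ω F \ Pt Ω E, M ∈ X c ∧ Fx M (t • c)}) (Pt Ω)
    (fun M ⟨c, hc, hM, e⟩ => (h2 c hc M hM e).2) (fun M ⟨c, _, hM, _⟩ => hf c M hM)
    (fun c hc => let ⟨M, hM, e⟩ := k.p2_thru c (t • c); ⟨M, ⟨c, hc, hM, e⟩, k.p2_fxX hM⟩)
    fun M ⟨c, hc, hM, e⟩ M' ⟨c', hc', hM', e'⟩ d hd hd' =>
      k.p2_uniq (h1 d ((h2 c hc M hM e).2 hd)) (h.memX c d M hM hd) (h.memX c' d M' hM' hd')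
        (fx_smul (h2 c hc M hM e).1 hd) (fx_smul (h2 c' hc' M' hM' e').1 hd')
  have h4 := Set.ncard_sdiff_add_ncard_of_subset (s := Pt Ω E) (t := Pt Ω F) fun d hd => k.p2_fix_of_inc hE hF i hd
  rw [h3, hf a E hE, k.p2_plane hf hF] at h4
  obtain ⟨g, rfl⟩ := Nat.exists_eq_add_of_le' (one_le_two.trans f2)
  refine (Nat.coprime_self_add_left.2 (Nat.coprime_one_left g)).dvd_of_dvd_mul_right
    (Dvd.intro_left {M | ∃ c ∈ Pt Ω F \ Pt Ω E, M ∈ X c ∧ Fx M (t • c)}.ncard ?_)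
  rw [Nat.add_sub_cancel] at h4
  nlinarith

end PS1

theorem p2 : P2.{u, v} := by
  intro G Ω _ _ _ _ N q X Y h
  have k := h.toCaseP
  obtain ⟨f, f2, hf⟩ := k.p2_line
  exact ⟨f, h, fun _ _ _ => h.p2_memY f2 hf, k.p2_thru, fun _ _ e _ h1 _ h2 => k.p2_uniq e h1 h2,
    fun _ _ _ h1 _ h2 => k.p2_fix_of_inc h1 h2, fun _ _ e _ h1 _ h2 => k.p2_inc_of_fix e h1 h2,
    fun _ _ _ h1 _ => k.p2_fixY h1, hf, fun _ _ => k.p2_plane hf, k.p2_count hf, f2, h.p2_dvd f2 hf⟩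

end CL.HL
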