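/-
Project HL3 (S3727): the space is an affine space.
-/
import Cfsg.Agent.Perm.HL1

set_option autoImplicit false
set_option linter.unusedSectionVars false
open Cfsg Subgroup MulAction CL.Even CL.Grp CL.Loc
open CL.Bender (Fx st2)
open CL.Hir (TC Pt Soc fx_cj fx_smul)

namespace CL.HL

universe u v

namespace P4a

variable {G : Type*} [Group G] {Ω : Type*} [MulAction G Ω] {N : Ω → Subgroup G} {q : ℕ}
  {X Y : Ω → Set (Subgroup G)} {a a' b b' c d : Ω} {E E' E'' F F' : Subgroup G}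

theorem par_symm (h : Par Ω Y E E') : Par Ω Y E' E :=
  h.imp Eq.symm fun ⟨h1, c, F, h2, h3, h4⟩ => ⟨h1.symm, c, F, h2, h4, h3⟩

theorem par_eq (h : Par Ω Y E E') (h1 : c ∈ Pt Ω E) (h2 : c ∈ Pt Ω E') : E = E' :=
  h.resolve_right fun e => Set.disjoint_left.1 e.1 h1 h2

variable (h : PS N q X Y q)
include h

theorem fX (hE : E ∈ X a) : a ∈ Pt Ω E := fx_mono ((h.pl a).l.toHf0.le hE) (h.fix a)

theorem fY (hF : F ∈ Y a) : a ∈ Pt Ω F := fx_mono ((h.pl a).r.toHf0.le hF) (h.fix a)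

theorem luniq (hE : E ∈ X a) (hE' : E' ∈ X a') (cd : c ≠ d) (h1 : c ∈ Pt Ω E) (h2 : d ∈ Pt Ω E) (h3 : c ∈ Pt Ω E')
    (h4 : d ∈ Pt Ω E') : E = E' := h.uniq c d cd E (h.memX _ _ E hE h1) E' (h.memX _ _ E' hE' h3) h2 h4

theorem sub_of_inc (hE : E ∈ X a) (hF : F ∈ Y a) (i : E ⊓ F ≠ ⊥) : Pt Ω E ⊆ Pt Ω F :=
  fun c hc => h.fix_of_inc a c E hE F hF i hc

theorem lsub (hE : E ∈ X a) (hF : F ∈ Y b) (cd : c ≠ d) (h1 : c ∈ Pt Ω E) (h2 : d ∈ Pt Ω E) (h3 : c ∈ Pt Ω F)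
    (h4 : d ∈ Pt Ω F) : Pt Ω E ⊆ Pt Ω F :=
  sub_of_inc h (h.memX _ _ E hE h1) (h.memY _ _ F hF h3)
    (h.inc_of_fix c d cd E (h.memX _ _ E hE h1) F (h.memY _ _ F hF h3) h2 h4)

theorem pl_ex (hE : E ∈ X a) (hc : c ∉ Pt Ω E) : ∃ F ∈ Y c, Pt Ω E ⊆ Pt Ω F := by
  obtain ⟨E', h1, h2⟩ := h.thru a c
  obtain ⟨F, hF, i, i'⟩ := (h.pl a).l.join E hE E' h1 fun e => hc (e ▸ h2)
  exact ⟨F, h.memY _ _ F hF (sub_of_inc h h1 hF i' h2), sub_of_inc h hE hF i⟩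

theorem meet (hF : F ∈ Y a) (hF' : F' ∈ Y b) (h1 : c ∈ Pt Ω F) (h2 : c ∈ Pt Ω F') (ne : F ≠ F') :
    ∃ E ∈ X c, Pt Ω E ⊆ Pt Ω F ∧ Pt Ω E ⊆ Pt Ω F' := by
  have k := h.memY _ _ F hF h1
  have k' := h.memY _ _ F' hF' h2
  obtain ⟨E, hE, i, i'⟩ := (h.pl c).r.join F k F' k' ne
  exact ⟨E, hE, sub_of_inc h hE k (inc_symm i), sub_of_inc h hE k' (inc_symm i')⟩

theorem inc_of_sub (hE : E ∈ X a) (hF : F ∈ Y a) (hs : Pt Ω E ⊆ Pt Ω F) : E ⊓ F ≠ ⊥ := by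
  obtain ⟨b, hb, ne⟩ := Set.exists_ne_of_one_lt_ncard (s := Pt Ω E) (by rw [h.card_line a E hE]; exact h.two_le) a
  exact h.inc_of_fix a b ne.symm E hE F hF hb (hs hb)

theorem pl_uniq (hE : E ∈ X a) (hc : c ∉ Pt Ω E) (hF : F ∈ Y b) (hF' : F' ∈ Y b') (h1 : Pt Ω E ⊆ Pt Ω F)
    (h2 : Pt Ω E ⊆ Pt Ω F') (h3 : c ∈ Pt Ω F) (h4 : c ∈ Pt Ω F') : F = F' := by
  obtain ⟨E', e1, e2⟩ := h.thru a c
  have ha := fX h hE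
  have ac : a ≠ c := fun e => hc (e ▸ ha)
  have k := h.memY _ _ F hF (h1 ha)
  have k' := h.memY _ _ F' hF' (h2 ha)
  exact (h.pl a).l.join_uniq E hE E' e1 (fun e => hc (e ▸ e2)) F k F' k' (inc_of_sub h hE k h1)
    (h.inc_of_fix a c ac E' e1 F k e2 h3) (inc_of_sub h hE k' h2) (h.inc_of_fix a c ac E' e1 F' k' e2 h4)

theorem par_plane (hE : E ∈ X a) (hF : F ∈ Y b) (hE' : E' ∈ X c) (hc : c ∈ Pt Ω F) (hs : Pt Ω E ⊆ Pt Ω F)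
    (hp : Par Ω Y E E') : Pt Ω E' ⊆ Pt Ω F := by
  rcases hp with rfl | ⟨h1, _, F0, h2, h3, h4⟩
  · exact hs
  · rwa [pl_uniq h hE (Set.disjoint_right.1 h1 (fX h hE')) hF h2 hs h3 hc (h4 (fX h hE'))]

variable [Finite G] [Finite Ω]

theorem ap (hE : E ∈ X a) (hF : F ∈ Y c) (hs : Pt Ω E ⊆ Pt Ω F) (hc : c ∉ Pt Ω E) :
    ∃ E₀, ∀ E', (E' ∈ X c ∧ Pt Ω E' ⊆ Pt Ω F ∧ Disjoint (Pt Ω E) (Pt Ω E')) ↔ E' = E₀ := by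
  choose l l1 l2 using h.thru c
  have ne : ∀ {d}, d ∈ Pt Ω E → c ≠ d := fun hd e => hc (e ▸ hd)
  have h1 : (l '' Pt Ω E).ncard = q := by
    rw [Set.InjOn.ncard_image (f := l) fun d hd d' hd' e => by_contra fun n =>
      hc (luniq h (l1 d) hE n (l2 d) (e ▸ l2 d') hd hd' ▸ fX h (l1 d)), h.card_line a E hE]
  have h2 : l '' Pt Ω E ⊆ {E' | E' ∈ X c ∧ F ⊓ E' ≠ ⊥} := by
    rintro _ ⟨d, hd, rfl⟩
    exact ⟨l1 d, inc_symm (h.inc_of_fix c d (ne hd) _ (l1 d) F hF (l2 d) (hs hd))⟩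
  have h3 := Set.ncard_sdiff h2
  rw [h1, (h.pl c).r.card_lines F hF, Nat.add_sub_cancel_left, Set.ncard_eq_one] at h3
  obtain ⟨E₀, h3⟩ := h3
  refine ⟨E₀, fun E' => Iff.trans ⟨fun ⟨e1, e2, e3⟩ => ⟨⟨e1, inc_symm (inc_of_sub h e1 hF e2)⟩, ?_⟩,
    fun ⟨⟨e1, e2⟩, e3⟩ => ⟨e1, sub_of_inc h e1 hF (inc_symm e2), Set.disjoint_left.2 fun d hd hd' => e3 ⟨d, hd, ?_⟩⟩⟩
    (Set.ext_iff.1 h3 E')⟩
  · rintro ⟨d, hd, rfl⟩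
    exact Set.disjoint_left.1 e3 hd (l2 d)
  · exact h.uniq c d (ne hd) _ (l1 d) _ e1 (l2 d) hd'

theorem par_ex (hE : E ∈ X a) (c : Ω) : ∃ E' ∈ X c, Par Ω Y E E' := by
  by_cases hc : c ∈ Pt Ω E
  · exact ⟨E, h.memX _ _ E hE hc, Or.inl rfl⟩
  · obtain ⟨F, hF, hs⟩ := pl_ex h hE hc
    obtain ⟨E₀, h0⟩ := ap h hE hF hs hc
    obtain ⟨e1, e2, e3⟩ := (h0 E₀).2 rfl
    exact ⟨E₀, e1, Or.inr ⟨e3, c, F, hF, hs, e2⟩⟩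

theorem par_uniq (hE : E ∈ X a) (hE' : E' ∈ X c) (hE'' : E'' ∈ X c) (h1 : Par Ω Y E E') (h2 : Par Ω Y E E'') :
    E' = E'' := by
  by_cases hc : c ∈ Pt Ω E
  · rw [← par_eq h1 hc (fX h hE'), par_eq h2 hc (fX h hE'')]
  · obtain ⟨F, hF, hs⟩ := pl_ex h hE hc
    obtain ⟨E₀, h0⟩ := ap h hE hF hs hc
    have k : ∀ {U}, U ∈ X c → Par Ω Y E U → U = E₀ := fun hU hp =>
      (h0 _).1 ⟨hU, par_plane h hE hF hU (fY h hF) hs hp, (hp.resolve_left fun e => hc (e ▸ fX h hU)).1⟩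
    rw [k hE' h1, k hE'' h2]

theorem par_trans (hE : E ∈ X a) (hE' : E' ∈ X b) (hE'' : E'' ∈ X c) (h1 : Par Ω Y E E') (h2 : Par Ω Y E' E'') :
    Par Ω Y E E'' := by
  refine or_iff_not_imp_left.2 fun ne => ⟨Set.disjoint_left.2 fun d d1 d2 => ne (par_uniq h hE' (h.memX _ _ E hE d1)
    (h.memX _ _ E'' hE'' d2) (par_symm h1) h2), ?_⟩
  rcases h1 with rfl | ⟨d1, x, F, hF, s1, s2⟩
  · exact (h2.resolve_left ne).2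
  by_cases hc : c ∈ Pt Ω F
  · exact ⟨x, F, hF, s1, par_plane h hE' hF hE'' hc s2 h2⟩
  obtain ⟨σ, hσ, s3⟩ := pl_ex h hE fun e => hc (s1 e)
  refine ⟨c, σ, hσ, s3, ?_⟩
  rcases id h2 with rfl | ⟨-, y, F', hF', s4, s5⟩
  · exact (hc (s2 (fX h hE''))).elim
  by_cases e : σ = F'
  · exact e ▸ s5
  obtain ⟨m, hm, m1, m2⟩ := meet h hσ hF' (fY h hσ) (s5 (fX h hE'')) e
  rwa [par_uniq h hE' hE'' hm h2 (Or.inr ⟨Set.disjoint_left.2 fun d d2 d3 => hc ?_, y, F', hF', s4, m2⟩)]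
  exact pl_uniq h hE (Set.disjoint_right.1 d1 d2) hσ hF s3 s1 (m1 d3) (s2 d2) ▸ fY h hσ

theorem dir (hE : E ∈ X a) (hE' : E' ∈ X c) (hp : Par Ω Y E E') {t : G} (ht : t ∈ E) : Fx E' (t • c) := by
  by_cases e : t • c = c
  · exact e.symm ▸ fX h hE'
  have hc : c ∉ Pt Ω E := fun hc => e (hc t ht)
  have t1 : t ≠ 1 := fun e1 => e (by rw [e1, one_smul])
  have tt := ((h.pl a).l.isE E hE).sq t ht
  obtain ⟨F, hF, hs⟩ := pl_ex h hE hc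
  have hFa := h.memY _ _ F hF (hs (fX h hE))
  have h1 : t • c ∈ Pt Ω F := fx_smul ((h.pl a).l.le_norm E hE F hFa (inc_of_sub h hE hFa hs) ht) (fY h hF)
  obtain ⟨m, hm, m1⟩ := h.thru c (t • c)
  have h2 : t ∈ 𝒩(m) := cj_eq_iff_mem.1 (luniq h (h.cjX t c m hm) hm e ((fx_cj t).2 (fX h hm))
    (by have := (fx_cj t).2 m1; rwa [← mul_smul, tt, one_smul] at this) m1 (fX h hm))
  obtain ⟨U, hU, tU⟩ := (h.pl a).r.cover t ((h.pl a).l.toHf0.le hE ht) tt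
  rwa [par_uniq h hE hE' hm hp (Or.inr ⟨Set.disjoint_left.2 fun d d1 d2 => e ?_, c, F, hF, hs,
    lsub h hm hF (Ne.symm e) (fX h hm) m1 (fY h hF) h1⟩)]
  have hUd := h.memY _ _ U hU (sub_of_inc h hE hU (ne_bot_of_mem ⟨ht, tU⟩ t1) d1)
  have hmd := h.memX _ _ m hm d2
  exact sub_of_inc h hmd hUd (((h.pl d).l.norm_iff U hUd t tU t1 m hmd).1 h2) (fX h hm) t tU

theorem disjP (hF : F ∈ Y a) (hc : ¬ Fx F c) : ∃ F' ∈ Y c, Disjoint (Pt Ω F) (Pt Ω F') ∧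
    ∀ b : Ω, ∀ E ∈ X b, ∀ E' ∈ X c, Pt Ω E ⊆ Pt Ω F → Par Ω Y E E' → Pt Ω E' ⊆ Pt Ω F' := by
  obtain ⟨E1, ⟨x1, i1⟩, E2, ⟨x2, i2⟩, ne⟩ := (Set.one_lt_ncard (s := {E | E ∈ X a ∧ F ⊓ E ≠ ⊥})).1 (by
    rw [(h.pl a).r.card_lines F hF]; have := h.two_le; omega)
  obtain ⟨U1, y1, p1⟩ := par_ex h x1 c
  obtain ⟨U2, y2, p2⟩ := par_ex h x2 c
  have ne' : U1 ≠ U2 := fun e => ne (par_eq (par_trans h x1 y1 x2 p1 (e ▸ par_symm p2)) (fX h x1) (fX h x2))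
  obtain ⟨F', hF', j1, j2⟩ := (h.pl c).l.join U1 y1 U2 y2 ne'
  have dj : Disjoint (Pt Ω F) (Pt Ω F') := Set.disjoint_left.2 fun d d1 d2 => by
    obtain ⟨m, hm, m1, m2⟩ := meet h hF hF' d1 d2 fun e => hc (e ▸ fY h hF')
    have k : ∀ {E U}, E ∈ X a → F ⊓ E ≠ ⊥ → U ∈ X c → U ⊓ F' ≠ ⊥ → Par Ω Y E U → Par Ω Y m U := fun x i y j p =>
      Or.inr ⟨Set.disjoint_left.2 fun d' e1 e2 => hc (par_plane h x hF (h.memX _ _ _ y e2) (m1 e1)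
        (sub_of_inc h x hF (inc_symm i)) p (fX h y)), c, F', hF', m2, sub_of_inc h y hF' j⟩
    exact ne' (par_uniq h hm y1 y2 (k x1 i1 y1 j1 p1) (k x2 i2 y2 j2 p2))
  refine ⟨F', hF', dj, fun b E hE E' hE' hs hp => ?_⟩
  obtain ⟨σ, hσ, s1⟩ := pl_ex h hE fun e => hc (hs e)
  obtain ⟨m, hm, m1, m2⟩ := meet h hσ hF' (fY h hσ) (fY h hF') fun e =>
    Set.disjoint_left.1 dj (hs (fX h hE)) (e ▸ s1 (fX h hE))
  rwa [par_uniq h hE hE' hm hp (Or.inr ⟨dj.mono hs m2, c, σ, hσ, s1, m1⟩)]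

end P4a

open P4a in
theorem p4a : P4a.{u, v} := fun _ _ _ _ _ _ _ _ _ _ h =>
  ⟨h, fun _ c _ hE => par_ex h hE c, fun _ _ _ hE _ hE' _ hE'' => par_uniq h hE hE' hE'',
    fun _ _ _ _ hE _ hE' _ hE'' => par_trans h hE hE' hE'', fun _ _ _ hE _ hF _ hE' => par_plane h hE hF hE' (fY h hF),
    fun _ _ _ hE _ hE' hp _ ht => dir h hE hE' hp ht, fun _ _ _ hF hc => disjP h hF hc⟩

end CL.HL
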