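/-
Project HL3 (S3727): the affine space has a translation.
-/
import Cfsg.Agent.Perm.HL1

set_option autoImplicit false
open Cfsg Subgroup MulAction CL.Even CL.Grp CL.Loc
open CL.Bender (Fx st2)
open CL.Hir (Pt fx_cj)

namespace CL.HL

universe u v

variable {G : Type u} [Group G] {Ω : Type v} [MulAction G Ω] {N : Ω → Subgroup G} {q : ℕ}
  {X Y : Ω → Set (Subgroup G)} {a b c d : Ω} {E E' F F' F₁ F₂ : Subgroup G}

theorem p4b_symm (h : Par Ω Y E E') : Par Ω Y E' E :=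
  h.imp Eq.symm fun ⟨h1, c, F, hF, h2, h3⟩ => ⟨h1.symm, c, F, hF, h3, h2⟩

section
variable (h : AS N q X Y)
include h

theorem p4b_fixX (hE : E ∈ X a) : Fx E a := fx_mono ((h.pl a).l.toHf0.le hE) (h.fix a)
theorem p4b_fixY (hF : F ∈ Y a) : Fx F a := fx_mono ((h.pl a).r.toHf0.le hF) (h.fix a)

theorem p4b_second (hE : E ∈ X a) : ∃ b, Fx E b ∧ b ≠ a :=
  Set.exists_ne_of_one_lt_ncard (s := Pt Ω E) (by rw [h.card_line a E hE]; exact h.two_le) a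

theorem p4b_sub (hE : E ∈ X a) (hF : F ∈ Y a) (i : E ⊓ F ≠ ⊥) : Pt Ω E ⊆ Pt Ω F :=
  fun b hb => h.fix_of_inc a b E hE F hF i hb

theorem p4b_inc (hE : E ∈ X a) (hF : F ∈ Y a) (s : Pt Ω E ⊆ Pt Ω F) : E ⊓ F ≠ ⊥ :=
  let ⟨b, hb, ne⟩ := p4b_second h hE
  h.inc_of_fix a b ne.symm E hE F hF hb (s hb)

theorem p4b_line (hE : E ∈ X a) (hE' : E' ∈ X b) (cd : c ≠ d) (h1 : Fx E c) (h2 : Fx E d) (h3 : Fx E' c)
    (h4 : Fx E' d) : E = E' :=
  h.uniq c d cd E (h.memX a c E hE h1) E' (h.memX b c E' hE' h3) h2 h4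

/-- the parallel of a line of `F` through a point of a plane disjoint from `F` lies in that plane -/
theorem p4b_par (hF₁ : F₁ ∈ Y c) (dj : Disjoint (Pt Ω F) (Pt Ω F₁)) (hE : E ∈ X b) (s : Pt Ω E ⊆ Pt Ω F)
    (hE' : E' ∈ X c) (p : Par Ω Y E E') : Pt Ω E' ⊆ Pt Ω F₁ := by
  obtain ⟨D, hD, fD⟩ := h.thru b c
  obtain ⟨S, hS, i1, i2⟩ := (h.pl b).l.join E hE D hD fun e =>
    Set.disjoint_left.1 dj (s (e ▸ fD)) (p4b_fixY h hF₁)
  have hS' := h.memY b c S hS (p4b_sub h hD hS i2 fD)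
  obtain ⟨U, hU, j1, j2⟩ := (h.pl c).r.join S hS' F₁ hF₁ fun e =>
    Set.disjoint_left.1 dj (s (p4b_fixX h hE)) (e ▸ p4b_fixY h hS)
  have k := p4b_sub h hU hF₁ (inc_symm j2)
  rwa [h.par_uniq b c E hE E' hE' U hU p (.inr ⟨dj.mono s k, b, S, hS, p4b_sub h hE hS i1,
    p4b_sub h hU hS' (inc_symm j1)⟩)]

theorem p4b_uniq (hF : F ∈ Y a) (h₁ : F₁ ∈ Y c) (h₂ : F₂ ∈ Y c) (d₁ : Disjoint (Pt Ω F) (Pt Ω F₁))
    (d₂ : Disjoint (Pt Ω F) (Pt Ω F₂)) : F₁ = F₂ := by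
  have n := (h.pl a).r.card_lines F hF
  obtain ⟨A, B, ⟨hA, iA⟩, ⟨hB, iB⟩, ne⟩ := (Set.one_lt_ncard_iff (s := {E | E ∈ X a ∧ F ⊓ E ≠ ⊥})
    (Set.finite_of_ncard_ne_zero (by omega))).1 (by have := h.two_le; omega)
  obtain ⟨A', hA', pA⟩ := h.par_ex a c A hA
  obtain ⟨B', hB', pB⟩ := h.par_ex a c B hB
  have sA := p4b_sub h hA hF (inc_symm iA)
  have sB := p4b_sub h hB hF (inc_symm iB)
  exact (h.pl c).l.join_uniq A' hA' B' hB'
    (fun e => ne (h.par_uniq c a A' hA' A hA B hB (p4b_symm pA) (e ▸ p4b_symm pB))) F₁ h₁ F₂ h₂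
    (p4b_inc h hA' h₁ (p4b_par h h₁ d₁ hA sA hA' pA)) (p4b_inc h hB' h₁ (p4b_par h h₁ d₁ hB sB hB' pB))
    (p4b_inc h hA' h₂ (p4b_par h h₂ d₂ hA sA hA' pA)) (p4b_inc h hB' h₂ (p4b_par h h₂ d₂ hB sB hB' pB))

theorem p4b_norm (hF : F ∈ Y a) (hF' : F' ∈ Y c) (dj : Disjoint (Pt Ω F) (Pt Ω F')) : F ≤ 𝒩(F') := fun t ht => by
  rcases eq_or_ne t 1 with rfl | t1
  · exact one_mem _
  obtain ⟨E, hE, tE⟩ := (h.pl a).l.cover t ((h.pl a).r.toHf0.le hF ht) (((h.pl a).r.isE F hF).sq t ht)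
  obtain ⟨E', hE', p⟩ := h.par_ex a c E hE
  have s := p4b_par h hF' dj hE (p4b_sub h hE hF (ne_bot_of_mem ⟨tE, ht⟩ t1)) hE' p
  refine cj_eq_iff_mem.1 (p4b_uniq h hF (h.cjY t c F' hF')
    (h.memY c _ F' hF' (s (h.dir a c E hE E' hE' p t tE))) (Set.disjoint_left.2 fun x hx hx' => ?_) dj)
  exact Set.disjoint_left.1 dj hx ((fx_cj t).1 ((hx t ht).symm ▸ hx'))

theorem p4b_comm (hF : F ∈ Y a) (hF' : F' ∈ Y c) (dj : Disjoint (Pt Ω F) (Pt Ω F')) {x y : G} (hx : x ∈ F)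
    (hy : y ∈ F') : x * y = y * x := by
  by_contra ne
  exact Set.disjoint_left.1 dj (h.fixY a c F hF (x * y * x⁻¹ * y⁻¹)
    (by simpa only [mul_assoc] using mul_mem hx (conj_mem (p4b_norm h hF' hF dj.symm hy) (inv_mem hx)))
    (by rwa [Ne, mul_inv_eq_one, mul_inv_eq_iff_eq_mul])
    (p4b_fixY h hF' _ (mul_mem (conj_mem (p4b_norm h hF hF' dj hx) hy) (inv_mem hy)))) (p4b_fixY h hF')

theorem p4b_card : Nat.card Ω = q * q ^ 2 + 0 := by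
  obtain ⟨n, rfl⟩ := Nat.exists_eq_add_of_le' h.two_le
  rw [h.count, show n + 2 - 1 = n + 1 from rfl]
  ring

/-- an element moving every point along its parallel of `E` is a translation -/
theorem p4b_trl (hE : E ∈ X a) {w : G} (w1 : ∀ c : Ω, w • c ≠ c)
    (w2 : ∀ c : Ω, ∀ D ∈ X c, Par Ω Y E D → Fx D (w • c)) (hU : E' ∈ X c) : Par Ω Y E' (cj w E') := by
  obtain ⟨D, hD, p⟩ := h.par_ex a c E hE
  rcases eq_or_ne E' D with rfl | ne
  · obtain ⟨d, hd, dc⟩ := p4b_second h hU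
    exact .inl (p4b_line h hU (h.cjX w c E' hU) (fun e => dc (smul_left_cancel w e)) (w2 d E' (h.memX c d E' hU hd) p)
      (w2 c E' hU p) ((fx_cj w).2 hd) ((fx_cj w).2 (p4b_fixX h hU)))
  obtain ⟨S, hS, i1, i2⟩ := (h.pl c).l.join E' hU D hD ne
  have s := p4b_sub h hU hS i1
  refine .inr ⟨Set.disjoint_left.2 fun x hx hx' => ?_, c, S, hS, s, fun x hx => ?_⟩ <;>
    obtain ⟨d, rfl⟩ := MulAction.surjective w x <;> obtain ⟨B, hB, pB⟩ := h.par_ex a d E hE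
  · obtain rfl := p4b_line h hU hB (w1 d) hx ((fx_cj w).1 hx') (w2 d B hB pB) (p4b_fixX h hB)
    exact ne (h.par_uniq a c E hE E' hU D hD pB p)
  · exact h.par_plane c d D hD S (h.memY c d S hS (s ((fx_cj w).1 hx))) B hB (p4b_sub h hD hS i2)
      (h.par_trans c a d D hD E hE B hB (p4b_symm p) pB) (w2 d B hB pB)

theorem p4b_z [Finite G] [Finite Ω] (hE : E ∈ X a) (hF : F ∈ Y a) (i : E ⊓ F ≠ ⊥) {t : G}
    (ht : ∀ x ∈ F, x * t = t * x) : ∃ z ∈ E ⊓ F, ∀ c : Ω, ¬ Fx F c → z • c ≠ t • c := by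
  by_contra! k
  choose p hp e using k
  have free : ∀ x ∈ F, ∀ y ∈ F, ∀ c : Ω, ¬ Fx F c → x • c = y • c → x = y := fun x hx y hy c hc e =>
    by_contra fun ne => hc (h.fixY a c F hF (y⁻¹ * x) (mul_mem (inv_mem hy) hx)
      (fun k => ne (inv_mul_eq_one.1 k).symm) (by rw [mul_smul, e, inv_smul_smul]))
  have r := (h.pl a).r.isE F hF
  have mv : ∀ (z : (E ⊓ F : Subgroup G)) (y : F), (z : G) • (y : G) • p z z.2 = t • (y : G) • p z z.2 := fun z y => by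
    rw [← mul_smul, r.comm z.2.2 y.2, mul_smul, e, ← mul_smul, ht y y.2, mul_smul]
  have inj : Function.Injective fun x : (E ⊓ F : Subgroup G) × F => (x.2 : G) • p x.1 x.1.2 := by
    rintro ⟨z, y⟩ ⟨z', y'⟩ k
    simp only at k
    obtain rfl : z = z' := Subtype.ext (free z z.2.2 z' z'.2.2 ((y : G) • p z z.2)
      (fun f => hp z z.2 (by simpa using CL.Hir.fx_smul (le_normalizer (inv_mem y.2)) f)) (by rw [mv, k, mv]))
    exact Prod.ext rfl (Subtype.ext (free y y.2 y' y'.2 _ (hp z z.2) k))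
  obtain ⟨⟨z, y⟩, k⟩ := (inj.bijective_of_nat_card_le (by
    rw [Nat.card_prod, (h.pl a).l.card_inf E hE F hF i, r.card, p4b_card h, add_zero])).2 a
  exact hp z z.2 (by simpa [← k] using CL.Hir.fx_smul (le_normalizer (inv_mem y.2)) (p4b_fixY h hF))

end

theorem p4b : P4b.{u, v} := fun G Ω _ _ _ _ N q X Y h => by
  obtain ⟨a, -⟩ := h.nontriv
  obtain ⟨F, hF, -⟩ := (h.pl a).r.levi0
  obtain ⟨c, hc⟩ : ∃ c : Ω, ¬ Fx F c := by
    by_contra! k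
    obtain ⟨t, ht, t1⟩ := exists_ne_one (((h.pl a).r.isE F hF).ne_bot h.two_le)
    exact t1 (h.faithful t fun x => k x t ht)
  obtain ⟨F', hF', dj, -⟩ := h.disjP a c F hF hc
  have r := (h.pl c).r.isE F' hF'
  obtain ⟨t, ht, t1⟩ := exists_ne_one (r.ne_bot h.two_le)
  obtain ⟨E', hE', tE⟩ := (h.pl c).l.cover t (r.le ht) (r.sq t ht)
  obtain ⟨E, hE, p⟩ := h.par_ex c a E' hE'
  have i := p4b_inc h hE hF (p4b_par h hF dj.symm hE' (p4b_sub h hE' hF' (ne_bot_of_mem ⟨tE, ht⟩ t1)) hE p)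
  obtain ⟨z, hz, k⟩ := p4b_z h hE hF i fun x hx => p4b_comm h hF hF' dj hx ht
  have z2 := ((h.pl a).l.isE E hE).sq z hz.1
  have w1 : ∀ x : Ω, (z * t) • x ≠ x := fun x e => by
    have e' : z • x = t • x := by rw [← e, smul_smul, ← mul_assoc, z2, one_mul, e]
    by_cases hx : Fx F x
    · exact Set.disjoint_left.1 dj hx (h.fixY c x F' hF' t ht t1 (e'.symm.trans (hx z hz.2)))
    · exact k x hx e'
  refine ⟨z * t, ?_, w1, fun x U hU => p4b_trl h hE w1 (fun y D hD pD => ?_) hU⟩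
  · rw [mul_assoc, ← mul_assoc t, ← p4b_comm h hF hF' dj hz.2 ht, mul_assoc, r.sq t ht, mul_one, z2]
  · rw [mul_smul]
    exact h.dir a _ E hE D (h.memX y _ D hD (h.dir c y E' hE' D hD (h.par_trans c a y E' hE' E hE D hD p pD) t tE)) pD z
      hz.1

end CL.HL
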