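/-
Project HL3 (S3727), job P4c: the translations form a regular normal subgroup.
-/
import Cfsg.Agent.Perm.HL1

set_option autoImplicit false
open Cfsg Subgroup MulAction CL.Even CL.Grp CL.Loc
open CL.Bender (Fx st2)
open CL.Hir (TC Pt Soc)

namespace CL.HL

universe u v

section

variable {G : Type*} [Group G] {Ω : Type*} [MulAction G Ω]

/-- in a group whose non-trivial elements fix at most one point fewer than `|Ω|` elements are fixed point free. -/
theorem p4c_count [Fintype G] [Fintype Ω] [Nonempty Ω] [DecidablePred fun g : G => ∀ c : Ω, g • c ≠ c]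
    (h : ∀ g : G, ∀ a b : Ω, a ≠ b → g • a = a → g • b = b → g = 1) :
    (Finset.univ.filter fun g : G => ∀ c : Ω, g • c ≠ c).card + 1 ≤ Fintype.card Ω := by
  classical
  have h1 := sum_card_fixedBy_eq_card_orbits_mul_card_group G Ω
  have h2 : 1 ≤ Fintype.card (Quotient (orbitRel G Ω)) :=
    Fintype.card_pos_iff.2 ⟨Quotient.mk _ (Classical.arbitrary Ω)⟩
  have h0 : 1 ≤ Fintype.card Ω := Fintype.card_pos
  have h3 : ∀ g : G, Fintype.card (fixedBy Ω g) + (if ∀ c : Ω, g • c ≠ c then 1 else 0) ≤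
      1 + (if g = 1 then Fintype.card Ω - 1 else 0) := fun g => by
    by_cases hg : ∀ c : Ω, g • c ≠ c
    · have : Fintype.card (fixedBy Ω g) = 0 := Fintype.card_eq_zero_iff.2 ⟨fun c => hg c.1 c.2⟩
      rw [if_pos hg, this]
      omega
    · rw [if_neg hg]
      by_cases g1 : g = 1
      · have : Fintype.card (fixedBy Ω g) ≤ Fintype.card Ω := Fintype.card_le_of_injective _ Subtype.val_injective
        rw [if_pos g1]
        omega
      · have : Fintype.card (fixedBy Ω g) ≤ 1 := Fintype.card_le_one_iff.2 fun a b =>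
          Subtype.ext (by_contra fun e => g1 (h g a b e a.2 b.2))
        omega
  have h4 := Finset.sum_le_sum fun g (_ : g ∈ (Finset.univ : Finset G)) => h3 g
  rw [Finset.sum_add_distrib, Finset.sum_add_distrib, h1, ← Finset.card_filter, Finset.sum_ite_eq'] at h4
  simp only [Finset.sum_const, Finset.card_univ, smul_eq_mul, mul_one, Finset.mem_univ, if_true] at h4
  have h5 : Fintype.card G ≤ Fintype.card (Quotient (orbitRel G Ω)) * Fintype.card G := Nat.le_mul_of_pos_left _ h2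
  omega

theorem p4c_reg [Finite G] [Finite Ω] [Nonempty Ω] (D : Subgroup G) [hD : D.Normal]
    (h : ∀ g ∈ D, ∀ a b : Ω, a ≠ b → g • a = a → g • b = b → g = 1)
    (ht : ∀ a b : Ω, a ≠ b → ∃ g ∈ D, (∀ c : Ω, g • c ≠ c) ∧ g • a = b) :
    ∃ R : Subgroup G, R.Normal ∧ (∀ x y : Ω, ∃ r ∈ R, r • x = y) ∧ ∀ x : Ω, ∀ r ∈ R, r • x = x → r = 1 := by
  classical
  have := Fintype.ofFinite D
  have := Fintype.ofFinite Ω
  have h1 := p4c_count (G := D) (Ω := Ω) fun g a b hab ha hb => Subtype.ext (h g g.2 a b hab ha hb)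
  have key : ∀ g ∈ D, ∀ k ∈ D, (∀ c : Ω, g • c ≠ c) → (∀ c : Ω, k • c ≠ c) → ∀ a : Ω, g • a = k • a → g = k :=
    fun g hg k hk fg fk a e => by
      have h2 := Finset.injOn_of_surjOn_of_card_le (s := Finset.univ.filter fun g : D => ∀ c : Ω, g • c ≠ c)
        (t := Finset.univ.erase a) (fun g : D => g • a)
        (fun x hx => by simpa using (Finset.mem_filter.1 hx).2 a)
        (fun b hb => by
          obtain ⟨x, hx, fx, e⟩ := ht a b (Finset.mem_erase.1 hb).1.symm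
          exact ⟨⟨x, hx⟩, by simpa using fx, e⟩)
        (by rw [Finset.card_erase_of_mem (Finset.mem_univ a), Finset.card_univ]; omega)
      exact congrArg Subtype.val (h2 (x₁ := ⟨g, hg⟩) (by simpa using fg) (x₂ := ⟨k, hk⟩) (by simpa using fk) e)
  have hinv : ∀ g : G, (∀ c : Ω, g • c ≠ c) → ∀ c : Ω, g⁻¹ • c ≠ c := fun g hg c e => hg c (inv_smul_eq_iff.1 e).symm
  refine ⟨⟨⟨⟨{g | g ∈ D ∧ (g = 1 ∨ ∀ c : Ω, g • c ≠ c)}, ?_⟩, one_mem D, Or.inl rfl⟩, ?_⟩, ⟨?_⟩, ?_, ?_⟩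
  · rintro g k ⟨hg, rfl | fg⟩ ⟨hk, fk⟩
    · rw [one_mul]; exact ⟨hk, fk⟩
    · rcases fk with rfl | fk
      · rw [mul_one]; exact ⟨hg, Or.inr fg⟩
      · refine ⟨mul_mem hg hk, or_iff_not_imp_right.2 fun e => ?_⟩
        obtain ⟨c, e⟩ := not_forall.1 e
        rw [key k hk g⁻¹ (inv_mem hg) fk (hinv g fg) c (by rw [eq_inv_smul_iff, ← mul_smul]; exact not_not.1 e),
          mul_inv_cancel]
  · rintro g ⟨hg, fg⟩
    exact ⟨inv_mem hg, fg.imp inv_eq_one.2 (hinv g)⟩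
  · rintro g ⟨hg, fg⟩ k
    refine ⟨hD.conj_mem g hg k, fg.imp (fun e => by simp [e]) fun fg c e => fg (k⁻¹ • c) ?_⟩
    rw [eq_inv_smul_iff, ← mul_smul, ← mul_smul]; exact e
  · intro x y
    by_cases e : x = y
    · exact ⟨1, one_mem _, by rw [one_smul, e]⟩
    · obtain ⟨g, hg, fg, e⟩ := ht x y e
      exact ⟨g, ⟨hg, Or.inr fg⟩, e⟩
  · rintro x r ⟨-, rfl | fr⟩ e
    · rfl
    · exact absurd e (fr x)

variable {Y : Ω → Set (Subgroup G)} {E E' : Subgroup G}

theorem p4c_symm (h : Par Ω Y E E') : Par Ω Y E' E :=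
  h.imp Eq.symm fun ⟨h1, c, F, hF, h2, h3⟩ => ⟨h1.symm, c, F, hF, h3, h2⟩

theorem p4c_cj (hY : ∀ (g : G) (a : Ω), ∀ F ∈ Y a, cj g F ∈ Y (g • a)) (g : G) (h : Par Ω Y E E') :
    Par Ω Y (cj g E) (cj g E') :=
  h.imp (congrArg _) fun ⟨h1, c, F, hF, h2, h3⟩ => ⟨by rw [pt_cj, pt_cj]; exact Set.disjoint_smul_set.2 h1, g • c,
    cj g F, hY g c F hF, by rw [pt_cj, pt_cj]; exact Set.smul_set_mono h2,
    by rw [pt_cj, pt_cj]; exact Set.smul_set_mono h3⟩

end

theorem p4c : P4c.{u, v} := by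
  rintro G Ω _ _ _ _ N q X Y h ⟨w, -, fw, hw⟩
  have := h.nontriv
  let D : Subgroup G :=
    { carrier := {g | ∀ a : Ω, ∀ E ∈ X a, Par Ω Y E (cj g E)}
      one_mem' := fun a E _ => Or.inl (cj_one E).symm
      mul_mem' := fun {g k} hg hk a E hE => by
        rw [cj_mul]
        exact h.par_trans a _ _ E hE _ (h.cjX k a E hE) _ (h.cjX g _ _ (h.cjX k a E hE)) (hk a E hE)
          (hg _ _ (h.cjX k a E hE))
      inv_mem' := fun {g} hg a E hE => by
        have := hg _ _ (h.cjX g⁻¹ a E hE)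
        rw [cj_cj_inv] at this
        exact p4c_symm this }
  have hD : D.Normal := ⟨fun g hg k a E hE => by
    have := p4c_cj h.cjY k (hg _ _ (h.cjX k⁻¹ a E hE))
    rwa [cj_cj_inv, ← cj_mul, ← cj_mul] at this⟩
  refine p4c_reg D (fun g hg a b hab ha hb => ?_) fun a b hab => ?_
  · refine h.csr a b hab g ((h.pl a).l.ker g (h.toHyp0.norm ha) fun E hE => cj_eq_iff_mem.1 ?_) hb
    have h1 := h.cjX g a E hE
    rw [ha] at h1
    exact h.par_uniq a a E hE _ h1 E hE (hg a E hE) (Or.inl rfl)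
  · obtain ⟨k, h1, h2⟩ := h.two a (w • a) a b (fw a).symm hab
    refine ⟨k * w * k⁻¹, hD.conj_mem w hw k, fun c e => fw (k⁻¹ • c) ?_, ?_⟩
    · rw [eq_inv_smul_iff, ← mul_smul, ← mul_smul]; exact e
    · rw [mul_smul, mul_smul, inv_smul_eq_iff.2 h1.symm, h2]

end CL.HL
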