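/-
Project HL3 (S3727), job P5: in the affine case `N a` is transitive on `Ω - a` and `3 ∤ q - 1`.
-/
import Cfsg.Agent.Perm.HL1

set_option autoImplicit false
open Cfsg Subgroup MulAction CL.Even CL.Grp CL.Loc
open CL.Bender (Fx st2)
open CL.Hir (TC Pt Soc fx_cj fx_smul fix_smul_of_comm)

namespace CL.HL

universe u v

section

variable {G : Type*} [Group G] [Finite G] {Ω : Type*} [MulAction G Ω] [Finite Ω] {N : Ω → Subgroup G} {q : ℕ}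
  {X Y : Ω → Set (Subgroup G)} {a : Ω} {E E₂ F : Subgroup G}

omit [Finite G] [Finite Ω] in
theorem p5_fx (h : PS N q X Y q) (hE : E ∈ X a) : Fx E a := fx_mono ((h.pl a).l.toHf0.le hE) (h.fix a)

omit [Finite Ω] in
/-- an element fixing `a`, and further points of two lines through `a`, fixes a third line of their plane. -/
theorem p5_third (h : PS N q X Y q) (hE : E ∈ X a) (hE₂ : E₂ ∈ X a) (hF : F ∈ Y a) (hne : E ≠ E₂) (i : E ⊓ F ≠ ⊥)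
    (i₂ : E₂ ⊓ F ≠ ⊥) {x : G} {c c₂ : Ω} (xa : x • a = a) (xE : x ∈ 𝒩(E)) (xE₂ : x ∈ 𝒩(E₂)) (ca : a ≠ c)
    (ca₂ : a ≠ c₂) (fc : Fx E c) (fc₂ : Fx E₂ c₂) (xc : x • c = c) (xc₂ : x • c₂ = c₂) :
    ∃ E₃ ∈ X a, E₃ ⊓ F ≠ ⊥ ∧ E₃ ≠ E ∧ E₃ ≠ E₂ ∧ x ∈ 𝒩(E₃) := by
  have xF : x ∈ 𝒩(F) := by
    have h1 : cj x F ∈ Y a := by simpa [xa] using h.cjY x a F hF
    refine cj_eq_iff_mem.1 ((h.pl a).l.join_uniq E hE E₂ hE₂ hne _ h1 F hF ?_ ?_ i i₂)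
    · rw [← cj_eq xE]; exact (inc_cj x).2 i
    · rw [← cj_eq xE₂]; exact (inc_cj x).2 i₂
  have cc : c ≠ c₂ := fun e => hne (h.uniq a c ca E hE E₂ hE₂ fc (e ▸ fc₂))
  obtain ⟨l, hl, lc₂⟩ := h.thru c c₂
  have lc : Fx l c := p5_fx h hl
  have xl : x ∈ 𝒩(l) := by
    have h1 : cj x l ∈ X c := by simpa [xc] using h.cjX x c l hl
    have h2 : Fx (cj x l) c₂ := by simpa [xc₂] using (fx_cj x).2 lc₂
    exact cj_eq_iff_mem.1 (h.uniq c c₂ cc _ h1 l hl h2 lc₂)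
  have Fc : F ∈ Y c := h.memY a c F hF (h.fix_of_inc a c E hE F hF i fc)
  have il : l ⊓ F ≠ ⊥ := h.inc_of_fix c c₂ cc l hl F Fc lc₂ (h.fix_of_inc a c₂ E₂ hE₂ F hF i₂ fc₂)
  have la : ¬ Fx l a := fun e => by
    have h1 := h.memX c a l hl e
    exact hne ((h.uniq a c ca E hE l h1 fc lc).trans (h.uniq a c₂ ca₂ l h1 E₂ hE₂ lc₂ fc₂))
  have da : ∀ d, Fx l d → a ≠ d := fun d hd e => la (e ▸ hd)
  choose f hf hfx using h.thru a
  let S : Set (Subgroup G) := {E' | E' ∈ X a ∧ F ⊓ E' ≠ ⊥}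
  have hS : S.ncard = q + 1 := (h.pl a).r.card_lines F hF
  have hsub : f '' Pt Ω l ⊆ S := by
    rintro _ ⟨d, hd, rfl⟩
    exact ⟨hf d, inc_symm (h.inc_of_fix a d (da d hd) _ (hf d) F hF (hfx d) (h.fix_of_inc c d l hl F Fc il hd))⟩
  have hinj : Set.InjOn f (Pt Ω l) := fun d hd d' hd' e => by
    by_contra dd
    have h1 := h.uniq d d' dd l (h.memX c d l hl hd) (f d) (h.memX a d _ (hf d) (hfx d)) hd' (e ▸ hfx d')
    exact la (h1 ▸ p5_fx h (hf d))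
  have hmem : ∀ E' ∈ X a, ∀ d, Fx l d → Fx E' d → E' ∈ f '' Pt Ω l := fun E' h1 d hd h2 =>
    ⟨d, hd, h.uniq a d (da d hd) _ (hf d) E' h1 (hfx d) h2⟩
  have h1 : (S \ f '' Pt Ω l).ncard = 1 := by
    rw [Set.ncard_diff hsub, hS, hinj.ncard_image, h.card_line c l hl]; omega
  obtain ⟨E₃, h3⟩ := Set.ncard_eq_one.1 h1
  have h4 : E₃ ∈ S \ f '' Pt Ω l := h3 ▸ rfl
  refine ⟨E₃, h4.1.1, inc_symm h4.1.2, fun e => h4.2 (hmem _ h4.1.1 c lc (e ▸ fc)),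
    fun e => h4.2 (hmem _ h4.1.1 c₂ lc₂ (e ▸ fc₂)), cj_eq_iff_mem.1 ?_⟩
  have h5 : cj x E₃ ∈ S \ f '' Pt Ω l := by
    refine ⟨⟨by simpa [xa] using h.cjX x a _ h4.1.1, ?_⟩, ?_⟩
    · rw [← cj_eq xF]; exact (inc_cj x).2 h4.1.2
    · rintro ⟨d, hd, e⟩
      refine h4.2 (hmem _ h4.1.1 (x⁻¹ • d) (fx_smul (inv_mem xl) hd) ((fx_cj x).1 ?_))
      rw [smul_inv_smul, ← e]; exact hfx d
  rwa [h3] at h5

/-- `N a` is transitive on the points different from `a` of a line through `a`. -/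
theorem p5_line (h : PS N q X Y q) (hE : E ∈ X a) {x y : Ω} (xa : x ≠ a) (ya : y ≠ a) (hx : Fx E x) (hy : Fx E y) :
    ∃ g ∈ N a, g • x = y := by
  obtain ⟨F, hF, i⟩ : {F | F ∈ Y a ∧ E ⊓ F ≠ ⊥}.Nonempty :=
    Set.nonempty_of_ncard_ne_zero (by rw [(h.pl a).l.card_lines E hE]; omega)
  have q2 := (h.pl a).toBas.two_le
  obtain ⟨E₂, ⟨hE₂, i₂⟩, hne⟩ := Set.exists_ne_of_one_lt_ncard
    (s := {E' | E' ∈ X a ∧ F ⊓ E' ≠ ⊥}) (by rw [(h.pl a).r.card_lines F hF]; omega) E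
  obtain ⟨K, hK, cK, hs, w, hw, e, hi⟩ := (h.pl a).l.tor F hF E hE E₂ hE₂ hne.symm i (inc_symm i₂)
  have semi : ∀ k ∈ K, k • x = x → k = 1 := fun k hk kx => by
    have h1 : k • w • x = w • x := by
      have : k⁻¹ • w • x = w • x := by rw [← hi k hk, mul_smul, mul_smul, inv_smul_smul, kx]
      exact (inv_smul_eq_iff.1 this).symm
    obtain ⟨E₃, h3, i₃, n1, n2, h4⟩ := p5_third h hE hE₂ hF hne.symm i (inc_symm i₂) (h.fix a k (hK hk).1.1)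
      (hK hk).1.2 (hK hk).2 xa.symm (h.toHyp0.smul_ne xa.symm (h.fix a w hw)) hx (e ▸ (fx_cj w).2 hx) kx h1
    exact hs k hk E₃ h3 i₃ n1 n2 h4
  have hinj : Set.InjOn (fun k : G => k • x) (K : Set G) := fun k hk k' hk' e' => by
    have := semi _ (mul_mem (inv_mem hk') hk) (by rw [mul_smul, show k • x = k' • x from e', inv_smul_smul])
    exact (inv_mul_eq_one.1 this).symm
  have hsub : (fun k : G => k • x) '' (K : Set G) ⊆ Pt Ω E \ {a} := by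
    rintro _ ⟨k, hk, rfl⟩
    exact ⟨fx_smul (hK hk).1.2 hx, (h.toHyp0.smul_ne xa.symm (h.fix a k (hK hk).1.1)).symm⟩
  have heq := Set.eq_of_subset_of_ncard_le hsub (by
    rw [hinj.ncard_image, Set.ncard_diff_singleton_of_mem (show a ∈ Pt Ω E from p5_fx h hE), h.card_line a E hE,
      ← Nat.card_coe_set_eq]
    change q - 1 ≤ Nat.card K
    omega)
  obtain ⟨k, hk, e'⟩ := heq.ge (⟨hy, ya⟩ : y ∈ Pt Ω E \ {a})
  exact ⟨k, (hK hk).1.1, e'⟩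

theorem p5_trans (h : PS N q X Y q) (a x y : Ω) (xa : x ≠ a) (ya : y ≠ a) : ∃ g ∈ N a, g • x = y := by
  obtain ⟨E, hE, hx⟩ := h.thru a x
  obtain ⟨E', hE', hy⟩ := h.thru a y
  obtain ⟨g, hg, rfl⟩ := (h.pl a).l.trans E hE E' hE'
  obtain ⟨k, hk, e⟩ := p5_line h hE' (h.toHyp0.smul_ne xa.symm (h.fix a g hg)).symm ya ((fx_cj g).2 hx) hy
  exact ⟨k * g, mul_mem hk hg, by rw [mul_smul, e]⟩

theorem p5_three (h : PS N q X Y q) : ¬ 3 ∣ q - 1 := by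
  have := h.nontriv
  obtain ⟨a, b, hab⟩ := exists_pair_ne Ω
  have q2 := (h.pl a).toBas.two_le
  have horb : orbit (N a) b = {a}ᶜ := by
    ext c
    refine ⟨?_, fun hc => ?_⟩
    · rintro ⟨g, rfl⟩
      exact (h.toHyp0.smul_ne hab (h.fix a g g.2)).symm
    · obtain ⟨g, hg, e⟩ := p5_trans h a b c hab.symm hc
      exact ⟨⟨g, hg⟩, e⟩
  have h1 : (stabilizer (N a) b).index = q ^ 3 - 1 := by
    have h2 := Set.ncard_add_ncard_compl ({a} : Set Ω)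
    rw [Set.ncard_singleton, h.count] at h2
    rw [index_stabilizer, horb]
    obtain ⟨r, rfl⟩ : ∃ r, q = r + 1 := ⟨q - 1, by omega⟩
    have : ((r + 1) ^ 2 + (r + 1) + 1) * (r + 1 - 1) + 1 = (r + 1) ^ 3 := by rw [Nat.add_sub_cancel]; ring
    omega
  obtain ⟨E, hE, hb⟩ := h.thru a b
  have hle : LY (Y a) E ≤ N a := ((h.pl a).l.LY_le E hE).trans inf_le_left
  have h2 : (LY (Y a) E).subgroupOf (N a) ≤ stabilizer (N a) b := fun g hg =>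
    (h.toCaseP.par' hab hE hb).1 g hg
  obtain ⟨m, hm⟩ := card_dvd_of_le h2
  rw [Nat.card_congr (subgroupOfEquivOfLe hle).toEquiv, (h.pl a).l.card_LY E hE] at hm
  have h3 := (h.pl a).card_L
  rw [← card_mul_index (stabilizer (N a) b), h1, hm] at h3
  have p1 : 0 < q ^ 3 - 1 := Nat.sub_pos_of_lt (Nat.one_lt_pow (by omega) (by omega))
  have p2 : 0 < q ^ 2 - 1 := Nat.sub_pos_of_lt (Nat.one_lt_pow (by omega) (by omega))
  have h4 : Nat.gcd 3 (q - 1) * m = 1 :=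
    Nat.eq_of_mul_eq_mul_right (show 0 < q ^ 3 * (q ^ 3 - 1) * (q ^ 2 - 1) by positivity) (by
      rw [one_mul]; refine Eq.trans ?_ h3; ring)
  intro h5
  rw [Nat.gcd_eq_left h5] at h4
  omega

end

theorem p5 : P5.{u, v} := fun _ _ _ _ _ _ _ _ _ _ h => ⟨p5_trans h, p5_three h⟩

end CL.HL
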