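/-
Project HL3 (S3727), job P6a: the configuration on 22 points.
-/
import Cfsg.Agent.Perm.HL1

set_option autoImplicit false
open Cfsg Subgroup MulAction CL.Even CL.Grp CL.Loc
open CL.Bender (Fx st2)
open CL.Hir (TC Pt Soc fx_cj fx_smul fix_smul_of_comm)
open CL.ZD (a1_exists_fixed a1_exists_cent a1_relIndex_cent)

namespace CL.HL

universe u v

/-- the kernel of the action of a subgroup on a finite invariant set. -/
theorem p6a_ker {G α : Type*} [Group G] [Finite G] [MulAction G α] (H : Subgroup G) {S : Set α} (hS : S.Finite)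
    (hinv : ∀ g ∈ H, ∀ s ∈ S, g • s ∈ S) :
    ∃ J : Subgroup G, J ≤ H ∧ (∀ g ∈ J, ∀ s ∈ S, g • s = s) ∧ Nat.card H ∣ S.ncard.factorial * Nat.card J := by
  let M : SubMulAction H α := ⟨S, fun x s hs => hinv x x.2 s hs⟩
  have : Finite M := hS
  let φ := toPermHom H M
  refine ⟨φ.ker.map H.subtype, map_subtype_le _, ?_, ?_⟩
  · rintro _ ⟨g, hg, rfl⟩ s hs
    exact congrArg Subtype.val (congrArg (fun σ : Equiv.Perm M => σ ⟨s, hs⟩) (MonoidHom.mem_ker.1 hg))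
  · rw [card_map_of_injective H.subtype_injective, ← φ.ker.card_mul_index, index_ker, mul_comm]
    refine Nat.mul_dvd_mul_right ?_ _
    have := φ.range.card_subgroup_dvd_card
    rwa [Nat.card_perm] at this

section

variable {G : Type*} [Group G] [Finite G] {Ω : Type*} [MulAction G Ω] [Finite Ω] {N : Ω → Subgroup G}
  {X Y : Ω → Set (Subgroup G)} {a b : Ω} {E F : Subgroup G}

omit [Finite G] [Finite Ω] in
theorem p6a_fx (h : PS N 4 X Y 2) (hE : E ∈ X a) : Fx E a := fx_mono ((h.pl a).l.toHf0.le hE) (h.fix a)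

omit [Finite G] [Finite Ω] in
theorem p6a_fy (h : PS N 4 X Y 2) (hF : F ∈ Y a) : Fx F a := fx_mono ((h.pl a).r.toHf0.le hF) (h.fix a)

omit [Finite G] in
/-- lines have two points. -/
theorem p6a_pt (h : PS N 4 X Y 2) (hab : a ≠ b) (hE : E ∈ X a) (hb : Fx E b) {c : Ω} (hc : Fx E c) :
    c = a ∨ c = b := by
  have e : ({a, b} : Set Ω) = Pt Ω E := Set.eq_of_subset_of_ncard_le
    (Set.insert_subset (p6a_fx h hE) (Set.singleton_subset_iff.2 hb))
    (by rw [h.card_line a E hE, Set.ncard_pair hab])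
  exact e.ge hc

omit [Finite G] in
/-- a plane has a third point. -/
theorem p6a_third_pt (h : PS N 4 X Y 2) (hF : F ∈ Y a) (b : Ω) : ∃ c, c ≠ a ∧ c ≠ b ∧ Fx F c := by
  by_contra hc
  push Not at hc
  have h1 : Pt Ω F ⊆ {a, b} := fun c hc' => by
    by_contra h2
    simp only [Set.mem_insert_iff, Set.mem_singleton_iff, not_or] at h2
    exact hc c h2.1 h2.2 hc'
  have h2 := (Set.ncard_le_ncard h1).trans (Set.ncard_insert_le a {b})
  rw [h.card_plane a F hF, Set.ncard_singleton] at h2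
  omega

omit [Finite G] in
theorem p6a_cent (h : PS N 4 X Y 2) (a : Ω) : 𝒞(N a) = ⊥ := by
  have := h.nontriv
  obtain ⟨b, hb⟩ := exists_ne a
  obtain ⟨E, hE, fb⟩ := h.thru a b
  refine eq_bot_iff.2 fun j hj => mem_bot.2 (h.csr a b hb.symm j hj ?_)
  have h1 := fx_smul (cent_le_norm _ (cent_mono ((h.pl a).l.toHf0.le hE) hj)) fb
  exact (p6a_pt h hb.symm hE fb h1).resolve_left (h.toHyp0.smul_ne hb.symm (h.toHyp0.cent_fix hj)).symm

/-- (S) an element normalising all lines through `E` and centralising a non-trivial element of `E` lies in `E`. -/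
theorem p6a_S (h : PS N 4 X Y 2) (hE : E ∈ X a) {g z : G} (ga : g • a = a)
    (gn : ∀ F ∈ Y a, E ⊓ F ≠ ⊥ → g ∈ 𝒩(F)) (hz : z ∈ E) (z1 : z ≠ 1) (e : z * g = g * z) : g ∈ E := by
  have l := (h.pl a).l
  have r := (h.pl a).r
  have iE := l.isE E hE
  obtain ⟨F, hF, zF⟩ := r.cover z (iE.le hz) (iE.sq z hz)
  have key : ∀ x ∈ E, x ∉ F → x * g = g * x := fun x hx xF => by
    have x1 : x ≠ 1 := fun e => xF (e ▸ one_mem F)
    have xz1 : x * z ≠ 1 := fun e => xF (by rw [eq_inv_of_mul_eq_one_left e]; exact inv_mem zF)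
    obtain ⟨F', hF', xF'⟩ := r.cover x (iE.le hx) (iE.sq x hx)
    obtain ⟨F'', hF'', xF''⟩ := r.cover _ (iE.le (mul_mem hx hz)) (iE.sq _ (mul_mem hx hz))
    have hne : F' ≠ F'' := fun e => by
      subst e
      have h1 : z ∈ F' := (mul_mem_cancel_left xF').1 xF''
      exact xF (r.toHf0.eq_of_mem hF' hF h1 zF z1 ▸ xF')
    have h1 := mul_mem (conj_mem (gn F' hF' (ne_bot_of_mem ⟨hx, xF'⟩ x1)) xF') (inv_mem xF')
    have h2 := mul_mem (conj_mem (gn F'' hF'' (ne_bot_of_mem ⟨mul_mem hx hz, xF''⟩ xz1)) xF'') (inv_mem xF'')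
    have h3 : g * (x * z) * g⁻¹ * (x * z)⁻¹ = g * x * g⁻¹ * x⁻¹ := by
      have : z * g⁻¹ = g⁻¹ * z := (Commute.inv_right e).eq
      rw [mul_inv_rev, show g * (x * z) * g⁻¹ * (z⁻¹ * x⁻¹) = g * x * (z * g⁻¹) * (z⁻¹ * x⁻¹) by group, this]
      group
    rw [h3] at h2
    have h4 : g * x * g⁻¹ * x⁻¹ ∈ F' ⊓ F'' := ⟨h1, h2⟩
    rw [r.ti F' hF' F'' hF'' hne, mem_bot, mul_inv_eq_one, mul_inv_eq_iff_eq_mul] at h4
    exact h4.symm
  have hc : g ∈ 𝒞(E) := mem_centralizer_iff.2 fun x hx => by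
    by_cases xF : x ∈ F
    · obtain ⟨y, hy, yF⟩ := l.toHfa.exists_not_mem r.toHfa hE hF (ne_bot_of_mem (mem_inf.2 ⟨hz, zF⟩) z1)
      have h1 : Commute y g := key y hy yF
      have h2 : Commute (y * x) g := key _ (mul_mem hy hx) fun e => yF ((mul_mem_cancel_right xF).1 e)
      have h3 := h1.inv_left.mul_left h2
      rwa [inv_mul_cancel_left] at h3
    · exact key x hx xF
  obtain ⟨x, hx, h1⟩ := l.centE E hE g (h.toHyp0.norm ga) hc
  rw [p6a_cent h a, mem_bot, inv_mul_eq_one] at h1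
  exact h1 ▸ hx

omit [Finite G] [Finite Ω] in
theorem p6a_three (h : PS N 4 X Y 2) (hE : E ∈ X a) (hF : F ∈ Y a) (i : E ⊓ F ≠ ⊥) :
    (((E ⊓ F : Subgroup G) : Set G) \ {1}).ncard = 3 := by
  rw [Set.ncard_sdiff_singleton_of_mem (one_mem (E ⊓ F)), ← Nat.card_coe_set_eq]
  change Nat.card (E ⊓ F : Subgroup G) - 1 = 3
  rw [(h.pl a).l.card_inf E hE F hF i]

omit [Finite G] [Finite Ω] in
theorem p6a_line (h : PS N 4 X Y 2) (hE : E ∈ X a) : ∃ F ∈ Y a, E ⊓ F ≠ ⊥ :=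
  Set.nonempty_of_ncard_ne_zero (s := {F | F ∈ Y a ∧ E ⊓ F ≠ ⊥}) (by rw [(h.pl a).l.card_lines E hE]; decide)

omit [Finite G] in
theorem p6a_conj {T : Subgroup G} (hT : T ≤ 𝒩(F)) : ∀ x ∈ T, ∀ s ∈ (F : Set G) \ {1}, x * s * x⁻¹ ∈ (F : Set G) \ {1} :=
  fun x hx s hs => ⟨conj_mem (hT hx) hs.1, fun e => hs.2 (by
    have : x * s * x⁻¹ = 1 := e
    simpa using this)⟩

/-- a 2-group normalising `E` and all lines through `E` lies in `E`. -/
theorem p6a_two (h : PS N 4 X Y 2) (hE : E ∈ X a) {T : Subgroup G} (hT : IsPGroup 2 T) (Ta : Fx T a) (TE : T ≤ 𝒩(E))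
    (Tn : ∀ F ∈ Y a, E ⊓ F ≠ ⊥ → T ≤ 𝒩(F)) : T ≤ E := by
  obtain ⟨F, hF, i⟩ := p6a_line h hE
  obtain ⟨z, hz, hc⟩ := a1_exists_cent hT (by rw [p6a_three h hE hF i]; decide)
    (p6a_conj (le_norm_inf TE (Tn F hF i)))
  exact fun g hg => p6a_S h hE (Ta g hg) (fun F' hF' i' => Tn F' hF' i' hg) hz.1.1 hz.2 (comm_of_mem hc hg).symm

theorem p6a_dvd (h : PS N 4 X Y 2) (hab : a ≠ b) : Nat.card (st2 G a b) ∣ 5760 := by
  obtain ⟨E, hE, fb⟩ := h.thru a b
  have hn := (h.toCaseP.par' hab hE fb).2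
  let _ : MulAction G (Subgroup G) :=
    { smul := fun g H => cj g H, one_smul := cj_one, mul_smul := cj_mul }
  obtain ⟨J, J1, J2, J3⟩ := p6a_ker (st2 G a b) (S := {F | F ∈ Y a ∧ E ⊓ F ≠ ⊥}) (Set.toFinite _) fun g hg F hF => by
    refine ⟨?_, ?_⟩
    · have := h.cjY g a F hF.1
      rwa [show g • a = a from hg.1] at this
    · rw [← cj_eq (hn hg)]
      exact (inc_cj g).2 hF.2
  rw [(h.pl a).l.card_lines E hE] at J3
  refine J3.trans (Nat.mul_dvd_mul_left (Nat.factorial 5) (show Nat.card J ∣ 48 from ?_))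
  have Jn : ∀ F ∈ Y a, E ⊓ F ≠ ⊥ → J ≤ 𝒩(F) := fun F hF i g hg => cj_eq_iff_mem.1 (J2 g hg F ⟨hF, i⟩)
  have c16 : Nat.card E = 16 := ((h.pl a).l.isE E hE).card
  obtain ⟨F, hF, i⟩ := p6a_line h hE
  obtain ⟨z, hz, z1⟩ := exists_ne_one i
  have h1 := card_inf_mul_relIndex (centralizer {z}) J
  have h2 : Nat.card (centralizer {z} ⊓ J : Subgroup G) ∣ 16 := c16 ▸ card_dvd_of_le fun g hg =>
    p6a_S h hE (J1 hg.2).1 (fun F' hF' i' => Jn F' hF' i' hg.2) hz.1 z1 (mem_centralizer_singleton_iff.1 hg.1).symm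
  have h3 : (centralizer {z}).relIndex J ≤ 3 := by
    rw [a1_relIndex_cent, ← p6a_three h hE hF i]
    refine Set.ncard_le_ncard ?_
    rintro _ ⟨x, hx, rfl⟩
    exact p6a_conj (le_norm_inf (J1.trans hn) (Jn F hF i)) x hx z ⟨hz, z1⟩
  have h4 : (centralizer {z}).relIndex J ≠ 0 := index_ne_zero_of_finite
  generalize (centralizer {z}).relIndex J = s at h1 h3 h4
  interval_cases s
  · exact absurd rfl h4
  · rw [← h1, mul_one]
    exact h2.trans (by decide)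
  · have h5 : IsPGroup 2 J := by
      obtain ⟨k, -, hk⟩ := (Nat.dvd_prime_pow Nat.prime_two (m := 5)).1 (h1 ▸ Nat.mul_dvd_mul_right h2 2)
      exact IsPGroup.of_card hk
    exact (c16 ▸ card_dvd_of_le (p6a_two h hE h5 (fun g hg => (J1 hg).1) (J1.trans hn) Jn)).trans (by decide)
  · rw [← h1]
    exact Nat.mul_dvd_mul_right h2 3

theorem p6a_third (h : PS N 4 X Y 2) {j : G} (j2 : j * j = 1) (hab : a ≠ b) (ja : j • a = a) (jb : j • b = b) :
    ∃ c, c ≠ a ∧ c ≠ b ∧ j • c = c := by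
  by_contra hc
  push Not at hc
  have l := (h.pl a).l
  obtain ⟨E, hE, fb⟩ := h.thru a b
  have hT : IsPGroup 2 (zpowers j) := isPGroup_zpowers (k := 1) (by rw [pow_one, sq, j2])
  have Ta : Fx (zpowers j) a := fx_iff_le.2 (zpowers_le.2 ja)
  have cX : ∀ E ∈ X a, cj j E ∈ X a := fun E hE => by simpa [ja] using h.cjX j a E hE
  have cY : ∀ E ∈ Y a, cj j E ∈ Y a := fun E hE => by simpa [ja] using h.cjY j a E hE
  have jE : j ∈ E := by
    refine p6a_two h hE hT Ta (zpowers_le.2 ((h.toCaseP.par' hab hE fb).2 ⟨ja, jb⟩)) (fun F hF i => ?_) (mem_zpowers j)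
    obtain ⟨c, ca, cb, fc⟩ := p6a_third_pt h hF b
    obtain ⟨E₁, hE₁, f₁⟩ := h.thru a c
    have hne : E₁ ≠ cj j E₁ := fun e => by
      have h1 : Fx E₁ (j • c) := by rw [e]; exact (fx_cj j).2 f₁
      exact (p6a_pt h ca.symm hE₁ f₁ h1).elim (h.toHyp0.smul_ne ca.symm ja).symm (hc c ca cb)
    obtain ⟨F₁, hF₁, i₁, i₂⟩ := l.join E₁ hE₁ _ (cX _ hE₁) hne
    have jF : j ∈ 𝒩(F₁) := by
      refine cj_eq_iff_mem.1 (l.join_uniq E₁ hE₁ _ (cX _ hE₁) hne _ (cY _ hF₁) F₁ hF₁ ?_ ((inc_cj j).2 i₁) i₁ i₂)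
      have := (inc_cj j).2 i₂
      rwa [← cj_mul, j2, cj_one] at this
    obtain ⟨d, hd, jd⟩ := a1_exists_fixed hT (S := Pt Ω F₁ \ {a}) (by
      rw [Set.ncard_sdiff_singleton_of_mem (show a ∈ Pt Ω F₁ from p6a_fy h hF₁), h.card_plane a F₁ hF₁]
      decide) fun x hx s hs => ⟨fx_smul (zpowers_le.2 jF hx) hs.1, (h.toHyp0.smul_ne (Ne.symm hs.2) (Ta x hx)).symm⟩
    obtain rfl : d = b := by_contra fun e => hc d hd.2 e (jd j (mem_zpowers j))
    have hne' : E ≠ E₁ := fun e => (p6a_pt h hab hE fb (e ▸ f₁)).elim ca cb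
    rw [l.join_uniq E hE E₁ hE₁ hne' F hF F₁ hF₁ i (h.inc_of_fix a c ca.symm E₁ hE₁ F hF f₁ fc)
      (h.inc_of_fix a d hab E hE F₁ hF₁ fb hd.1) i₁]
    exact zpowers_le.2 jF
  obtain ⟨F, hF, jF⟩ := (h.pl a).r.cover j (l.toHf0.le hE jE) j2
  obtain ⟨c, ca, cb, fc⟩ := p6a_third_pt h hF b
  exact hc c ca cb (fc j jF)

end

theorem p6a : P6a.{u, v} := by
  intro G Ω _ _ _ _ N q X Y hq h
  subst hq
  refine ⟨h.toHyp0, h.count, fun a => ?_, p6a_cent h, fun a b => p6a_dvd h, fun j j2 a b => p6a_third h j2⟩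
  have := (h.pl a).card_L
  norm_num at this
  omega

end CL.HL
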