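/-
Project HL3 (S3727): assembly.
-/
import Cfsg.Agent.Perm.HLM2
import Cfsg.Agent.Perm.PrimBurnside
import Cfsg.Agent.Perm.PrimCentral

set_option autoImplicit false
open Cfsg Subgroup MulAction CL.Even CL.Grp CL.Loc
open CL.Bender (Fx st2)
open CL.Hir (TC Pt Soc fx_cj fx_smul)

namespace CL.HL

universe u v

variable {G : Type u} {Ω : Type v} [Group G] [Finite G] [MulAction G Ω]

theorem z_pl (a1 : LA1.{u}) (a2 : LA2.{u}) (b : LB.{u}) {L : Subgroup G} {q : ℕ} {X Y : Set (Subgroup G)}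
    (h : Pl0 L q X Y) : Pl L q X Y :=
  have l := a1 G L q X Y h
  have r := a1 G L q Y X h.symm
  have h1 : Pl1 L q X Y := ⟨h.toBas, a2 G L q X Y h.toBas l r, a2 G L q Y X h.toBas r l⟩
  ⟨h.toBas, b G L q X Y h1, b G L q Y X h1.symm⟩

theorem z_hyp (a1 : LA1.{u}) (a2 : LA2.{u}) (b : LB.{u}) [FaithfulSMul G Ω] (h2 : IsMultiplyPretransitive G Ω 2)
    (hev : Even (Nat.card Ω)) (a : Ω) (N : Subgroup G) (hle : N ≤ stabilizer G a)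
    (hn : ∀ g ∈ stabilizer G a, ∀ n ∈ N, g * n * g⁻¹ ∈ N) {q : ℕ} {X Y : Set (Subgroup G)} (h : Pl0 N q X Y) :
    ∃ (N' : Ω → Subgroup G) (X' Y' : Ω → Set (Subgroup G)), Hyp N' q X' Y' ∧ N' a = N := by
  have hs := h.simple
  have hΩ : Nontrivial Ω := CL.Perm.nontrivial_of_ne_bot (N := N) ((nontrivial_iff_ne_bot N).1 hs.toNontrivial)
  have : IsPretransitive G Ω := isPretransitive_of_is_two_pretransitive
  choose g hg using fun x => exists_smul_eq G a x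
  have key : ∀ k : G, k • a = a → cj k N = N := fun k hk => cj_eq (mem_norm_of_cj_le (by
    rintro _ ⟨x, hx, rfl⟩; exact hn k hk x hx))
  have fx : ∀ (k : G) (x : Ω), ((g (k • x))⁻¹ * (k * g x)) • a = a := fun k x => by
    rw [mul_smul, mul_smul, hg, inv_smul_eq_iff, hg]
  have e : ∀ (k : G) (x : Ω) (U : Subgroup G), cj k (cj (g x) U) = cj (g (k • x)) (cj ((g (k • x))⁻¹ * (k * g x)) U) :=
    fun k x U => by rw [← cj_mul, ← cj_mul, mul_inv_cancel_left]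
  have pl : ∀ x, Pl0 (cj (g x) N) q ((fun U => cj (g x) U) '' X) ((fun U => cj (g x) U) '' Y) := fun x =>
    h.map (MulAut.conj (g x)).injective
  refine ⟨fun x => cj (g x) N, fun x => (fun U => cj (g x) U) '' X, fun x => (fun U => cj (g x) U) '' Y,
    ⟨⟨fun k hk => eq_of_smul_eq_smul (α := Ω) fun x => by rw [hk, one_smul],
    fun a b c d h1 h3 => is_two_pretransitive_iff.1 h2 h1 h3, hΩ, fun k x => ?_, fun x => ?_,
    fun x => (pl x).simple, hev⟩, fun x => z_pl a1 a2 b (pl x), fun k x => ?_⟩, key _ (hg a)⟩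
  · rw [e, key _ (fx k x)]
  · have := (fx_cj (X := N) (a := a) (g x)).2 hle
    rwa [hg] at this
  · refine ((z_pl a1 a2 b h).l.types _ (cj_eq_iff_mem.1 (key _ (fx k x)))).imp (fun h => ⟨?_, ?_⟩) fun h => ⟨?_, ?_⟩
    all_goals rintro _ ⟨E, hE, rfl⟩
    exacts [⟨_, h.1 E hE, (e k x E).symm⟩, ⟨_, h.2 E hE, (e k x E).symm⟩, ⟨_, h.1 E hE, (e k x E).symm⟩,
      ⟨_, h.2 E hE, (e k x E).symm⟩]

theorem hl_of (a1 : LA1.{u}) (a2 : LA2.{u}) (b : LB.{u}) (g0 : G0.{u, v}) (b1a : B1a.{u, v}) (b1b : B1b.{u, v})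
    (b2 : B2.{u, v}) (b3 : B3.{u, v}) (p1a : P1a.{u, v}) (p1b : P1b.{u, v}) (p2 : P2.{u, v}) (p3 : P3.{u, v})
    (p4a : P4a.{u, v}) (p4b : P4b.{u, v}) (p4c : P4c.{u, v}) (p5 : P5.{u, v}) (p6a : P6a.{u, v}) (p6b : P6b.{u, v})
    [Fintype Ω] [FaithfulSMul G Ω] (h2 : IsMultiplyPretransitive G Ω 2) (hev : Even (Fintype.card Ω)) (a : Ω)
    (N : Subgroup G) (hle : N ≤ stabilizer G a) (hn : ∀ g ∈ stabilizer G a, ∀ n ∈ N, g * n * g⁻¹ ∈ N)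
    (n : ℕ) (h1 : 1 ≤ n) (hN : ∃ (F : Type) (_ : Field F) (_ : Fintype F), Fintype.card F = 2 ^ n ∧
      Nonempty (↥N ≃* Matrix.ProjectiveSpecialLinearGroup (Fin 3) F)) :
    (∀ x y : Ω, x ≠ a → y ≠ a → ∃ g ∈ N, g • x = y) ∧
    ((Odd n ∧ ∃ E : Subgroup G, E.Normal ∧ Nat.card E = (2 ^ n) ^ 3 ∧ (∀ x y : Ω, ∃ r ∈ E, r • x = y) ∧
        ∀ x : Ω, ∀ r ∈ E, r • x = x → r = 1) ∨
     (Fintype.card Ω = 22 ∧ n = 2 ∧ (Cfsg.Spor.IsoM22 G ∨ ∃ H : Subgroup G, H.index = 2 ∧ Cfsg.Spor.IsoM22 ↥H))) := by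
  obtain ⟨F, i1, i2, hF, ⟨e⟩⟩ := hN
  obtain ⟨X₀, Y₀, h0⟩ := pl0_of_equiv h1 hF e
  obtain ⟨N', X₁, Y₁, H, rfl⟩ := z_hyp a1 a2 b h2 (by rwa [Nat.card_eq_fintype_card]) a N hle hn h0
  rcases g0 G Ω N' _ _ _ H with hB | ⟨X, Y, hP⟩
  · obtain ⟨h3, h4⟩ := (b1b G Ω N' _ _ _ (b1a G Ω N' _ _ _ H hB)).elim (b2 G Ω N' _ _ _ H hB) id
    exact absurd h4 (b3 G Ω N' _ _ _ H hB h3)
  have h3 := p1a G Ω N' _ _ _ hP
  obtain ⟨f, hf⟩ := p2 G Ω N' _ X Y ⟨h3, p1b G Ω N' _ _ _ h3⟩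
  rcases p3 G Ω N' _ _ _ f hf with rfl | ⟨h4, rfl⟩
  · obtain ⟨h4, h5⟩ := p5 G Ω N' _ _ _ hf
    have h6 := p4a G Ω N' _ _ _ hf
    obtain ⟨R, r1, r2, r3⟩ := p4c G Ω N' _ _ _ h6 (p4b G Ω N' _ _ _ h6)
    refine ⟨h4 a, Or.inl ⟨?_, R, r1, ?_, r2, r3⟩⟩
    · refine Nat.not_even_iff_odd.1 fun ⟨k, hk⟩ => h5 ?_
      rw [hk, ← two_mul, pow_mul]
      exact Nat.sub_dvd_pow_sub_pow 4 1 k |>.trans (by simp)
    · rw [Nat.card_congr (Equiv.ofBijective (fun r : R => (r : G) • a) ⟨fun r s e => ?_, fun y => ?_⟩), hf.count]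
      · obtain ⟨m, hm⟩ : ∃ m, 2 ^ n = m + 1 := ⟨2 ^ n - 1, (Nat.sub_add_cancel Nat.one_le_two_pow).symm⟩
        rw [hm, Nat.add_sub_cancel]
        ring
      · have := r3 a _ (mul_mem (inv_mem s.2) r.2) (by rw [mul_smul, inv_smul_eq_iff]; exact e)
        exact Subtype.ext (inv_mul_eq_one.1 this).symm
      · obtain ⟨r, hr, e⟩ := r2 a y
        exact ⟨⟨r, hr⟩, e⟩
  · have h5 := p6a G Ω N' _ _ _ h4 hf
    refine ⟨fun x y hx hy => ?_, Or.inr ⟨Nat.card_eq_fintype_card.symm.trans h5.card_Ω,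
      Nat.pow_right_injective le_rfl h4, p6b G Ω N' 4 X Y h5⟩⟩
    obtain ⟨E, hE, e1⟩ := hf.thru a x
    obtain ⟨E', hE', e2⟩ := hf.thru a y
    obtain ⟨g, hg, rfl⟩ := (hf.pl a).l.trans E hE E' hE'
    refine ⟨g, hg, by_contra fun h6 => ?_⟩
    have h7 : ({a, y, g • x} : Set Ω) ⊆ Pt Ω (cj g E) := by
      simp only [Set.insert_subset_iff, Set.singleton_subset_iff]
      exact ⟨fx_mono ((hf.pl a).l.toHf0.le hE') (hf.fix a), e2, (fx_cj g).2 e1⟩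
    have h8 := Set.ncard_le_ncard h7 (Set.toFinite _)
    have h9 := hf.toHyp0.smul_ne hx.symm (hf.fix a g hg)
    rw [hf.card_line a _ hE', Set.ncard_insert_of_notMem (by simp [hy.symm, h9]), Set.ncard_pair (Ne.symm h6)] at h8
    omega

end CL.HL
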