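/-
Hall's theorem 5.8.1, second part: the four-group, its fixed points and its regular orbits.
-/
import Cfsg.Agent.Perm.HallFour

set_option autoImplicit false
set_option linter.unusedSectionVars false

namespace CL.Perm

open Equiv MulAction Pointwise CL.Spor

variable {α : Type*} [Fintype α] [DecidableEq α]

/-- A four-group `⟨a, b⟩` with `a = (x1)(x2)(x3 x4)⋯` and `b = (x1 x2)(x3)(x4)⋯`. -/
structure FourG (G : Subgroup (Perm α)) (a b : Perm α) (x1 x2 x3 x4 : α) : Prop where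
  S : Hall4 G
  ha : a ∈ G
  hb : b ∈ G
  aa : a * a = 1
  bb : b * b = 1
  ba : b * a = a * b
  dist : Dist4 x1 x2 x3 x4
  a1 : a x1 = x1
  a2 : a x2 = x2
  a3 : a x3 = x4
  a4 : a x4 = x3
  b1 : b x1 = x2
  b2 : b x2 = x1
  b3 : b x3 = x3
  b4 : b x4 = x4

theorem Hall4.exists_fourG {G : Subgroup (Perm α)} (S : Hall4 G) {x1 x2 x3 x4 : α} (h : Dist4 x1 x2 x3 x4) :
    ∃ a b, FourG G a b x1 x2 x3 x4 := by
  obtain ⟨g, hg, g1, g2, g3, g4⟩ := S.exists_map h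
    (⟨h.1.symm, h.2.2.2.2.1, h.2.2.2.1, h.2.2.1, h.2.1, h.2.2.2.2.2.symm⟩ : Dist4 x2 x1 x4 x3)
  obtain ⟨m, hm, hmm⟩ := S.exists_invol hg h (by rw [g1, g2]) (by rw [g2, g1]) (by rw [g3, g4]) (by rw [g4, g3])
  have t1 : (g ^ m) x1 = x2 := by rw [pow_odd_apply hm (by rw [g1, g2]), g1]
  have t2 : (g ^ m) x2 = x1 := by rw [pow_odd_apply hm (by rw [g2, g1]), g2]
  have t3 : (g ^ m) x3 = x4 := by rw [pow_odd_apply hm (by rw [g3, g4]), g3]
  have t4 : (g ^ m) x4 = x3 := by rw [pow_odd_apply hm (by rw [g4, g3]), g4]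
  obtain ⟨z, hz, zz, zx, z1, z2, z3, z4⟩ := S.exists_comm (G.pow_mem hg m) hmm h t1 t3
  refine ⟨z * g ^ m, z, S, G.mul_mem hz (G.pow_mem hg m), hz, ?_, zz, ?_, h, by simp [t1, z2], by simp [t2, z1],
    by simp [t3, z4], by simp [t4, z3], z1, z2, z3, z4⟩
  · rw [mul_assoc, ← mul_assoc (g ^ m), ← zx, mul_assoc, hmm, mul_one, zz]
  · rw [mul_assoc, zx]

namespace FourG

variable {G : Subgroup (Perm α)} {a b : Perm α} {x1 x2 x3 x4 : α} (S : FourG G a b x1 x2 x3 x4)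
include S

theorem aa' (u : α) : a (a u) = u := by rw [← Perm.mul_apply, S.aa]; rfl
theorem bb' (u : α) : b (b u) = u := by rw [← Perm.mul_apply, S.bb]; rfl
theorem ba' (u : α) : b (a u) = a (b u) := by rw [← Perm.mul_apply, S.ba]; rfl
theorem a_ne : a ≠ 1 := fun e => S.dist.2.2.2.2.2 (by rw [← S.a3, e]; rfl)
theorem b_ne : b ≠ 1 := fun e => S.dist.1 (by rw [← S.b1, e]; rfl)
theorem ab_ne : a * b ≠ 1 := fun e => S.dist.1 (by rw [← S.a2, ← S.b1, ← Perm.mul_apply, e]; rfl)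
theorem abab : a * b * (a * b) = 1 := by ext u; simp [S.ba', S.aa', S.bb']

/-- The four-group. -/
def V : Subgroup (Perm α) where
  carrier := {v | v = 1 ∨ v = a ∨ v = b ∨ v = a * b}
  one_mem' := Or.inl rfl
  mul_mem' := by
    have h1 : ∀ u : Perm α, a * (a * u) = u := fun u => by rw [← mul_assoc, S.aa, one_mul]
    have h2 : ∀ u : Perm α, b * (a * u) = a * (b * u) := fun u => by rw [← mul_assoc, S.ba, mul_assoc]
    rintro v w (rfl | rfl | rfl | rfl) (rfl | rfl | rfl | rfl) <;>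
      simp [mul_assoc, S.aa, S.bb, S.ba, h1, h2]
  inv_mem' := by
    rintro v (rfl | rfl | rfl | rfl)
    · simp
    · simp [inv_eq_of_mul_eq_one_right S.aa]
    · simp [inv_eq_of_mul_eq_one_right S.bb]
    · simp [inv_eq_of_mul_eq_one_right S.abab]

theorem mem_V {v : Perm α} : v ∈ S.V ↔ v = 1 ∨ v = a ∨ v = b ∨ v = a * b := Iff.rfl
theorem a_mem : a ∈ S.V := Or.inr (Or.inl rfl)
theorem b_mem : b ∈ S.V := Or.inr (Or.inr (Or.inl rfl))

theorem V_comm {v w : Perm α} (hv : v ∈ S.V) (hw : w ∈ S.V) : v * w = w * v := by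
  ext u
  rcases hv with rfl | rfl | rfl | rfl <;> rcases hw with rfl | rfl | rfl | rfl <;> simp [S.ba', S.aa', S.bb']

/-- The points fixed by some involution of the four-group. -/
noncomputable def F : Finset α := by
  classical exact Finset.univ.filter fun x => ∃ v ∈ S.V, v ≠ 1 ∧ v x = x

theorem mem_F {x : α} : x ∈ S.F ↔ ∃ v ∈ S.V, v ≠ 1 ∧ v x = x := by
  classical
  simp [F]

theorem mem_F_a {x : α} (h : a x = x) : x ∈ S.F := S.mem_F.2 ⟨a, S.a_mem, S.a_ne, h⟩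
theorem mem_F_b {x : α} (h : b x = x) : x ∈ S.F := S.mem_F.2 ⟨b, S.b_mem, S.b_ne, h⟩
theorem mem_F_ab {x : α} (h : a (b x) = x) : x ∈ S.F := S.mem_F.2 ⟨a * b, S.V.mul_mem S.a_mem S.b_mem, S.ab_ne, h⟩

theorem mem_F_of_norm {t : Perm α} (ht : ∀ v ∈ S.V, t * v * t⁻¹ ∈ S.V) {x : α} (hx : x ∈ S.F) : t x ∈ S.F := by
  obtain ⟨v, hv, h1, h2⟩ := S.mem_F.1 hx
  exact S.mem_F.2 ⟨_, ht v hv, fun e => h1 (by simpa using e), by simp [h2]⟩

theorem notMem_F {h w : α} (hh : h ∉ S.F) (hw : w ∈ orbF S.V h) : w ∉ S.F := by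
  intro e
  obtain ⟨v, hv, rfl⟩ := mem_orbF.1 hw
  have := S.mem_F_of_norm (t := v⁻¹) (fun u hu => S.V.mul_mem (S.V.mul_mem (S.V.inv_mem hv) hu)
    (S.V.inv_mem (S.V.inv_mem hv))) e
  exact hh (by simpa using this)

theorem dist_orb {h : α} (hh : h ∉ S.F) : Dist4 h (a h) (b h) (a (b h)) := by
  have h1 : a h ≠ h := fun e => hh (S.mem_F_a e)
  have h2 : b h ≠ h := fun e => hh (S.mem_F_b e)
  have h3 : a (b h) ≠ h := fun e => hh (S.mem_F_ab e)
  refine ⟨h1.symm, h2.symm, h3.symm, fun e => h3 (by rw [← e, S.aa']), fun e => h2 (a.injective e).symm,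
    fun e => h1 (b.injective ?_)⟩
  rw [S.ba', ← e]

theorem orb_eq (h : α) : orbF S.V h = {h, a h, b h, a (b h)} := by
  ext w
  simp only [mem_orbF, Finset.mem_insert, Finset.mem_singleton]
  constructor
  · rintro ⟨v, rfl | rfl | rfl | rfl, rfl⟩ <;> simp
  · rintro (rfl | rfl | rfl | rfl)
    exacts [⟨1, S.V.one_mem, rfl⟩, ⟨a, S.a_mem, rfl⟩, ⟨b, S.b_mem, rfl⟩, ⟨a * b, S.V.mul_mem S.a_mem S.b_mem, rfl⟩]

theorem eq_of_fix {z z' : α} (h1 : a z = z) (h2 : b z = z) (h3 : a z' = z') (h4 : b z' = z') : z = z' := by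
  by_contra hne
  have k1 : ∀ u, b u = u → x1 ≠ u ∧ x2 ≠ u := fun u hu =>
    ⟨fun e => S.dist.1 (by rw [← S.b1, e, hu]), fun e => S.dist.1 (by rw [← S.b2, e, hu])⟩
  exact S.a_ne (S.S.eq_one S.ha S.aa ⟨S.dist.1, (k1 z h2).1, (k1 z' h4).1, (k1 z h2).2, (k1 z' h4).2, hne⟩
    S.a1 S.a2 h1 h3)

/-- An involution normalising the four-group, centralising `a`, with a fixed point on the orbit of `h`. -/
structure Tw (h : α) (t : Perm α) : Prop where
  mem : t ∈ G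
  tt : t * t = 1
  ta : t * a = a * t
  tb : t * b = a * b * t
  fix : ∃ w ∈ orbF S.V h, t w = w

theorem exists_tw {h : α} (hh : h ∉ S.F) : ∃ t, S.Tw h t := by
  have hD := S.dist_orb hh
  obtain ⟨z, hz, zz, za, z1, z2, z3, z4⟩ := S.S.exists_comm S.ha S.aa hD rfl rfl
  set y := z * b with hy
  have hyG : y ∈ G := G.mul_mem hz S.hb
  have ya : Commute y a := by
    show z * b * a = a * (z * b)
    rw [mul_assoc, S.ba, ← mul_assoc, za, mul_assoc]
  have y1 : y h = b h := by simp [hy, z3]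
  have y2 : y (a h) = a (b h) := by simp [hy, S.ba', z4]
  have y3 : y (b h) = a h := by simp [hy, S.bb', z1]
  have y4 : y (a (b h)) = h := by simp [hy, S.ba', S.bb', z2]
  set w := y * y * a with hw
  have w1 : w h = h := by simp [hw, y2, y4]
  have w2 : w (a h) = a h := by simp [hw, S.aa', y1, y3]
  have w3 : w (b h) = b h := by simp [hw, y4, y1]
  have w4 : w (a (b h)) = a (b h) := by simp [hw, S.aa', y3, y2]
  obtain ⟨k, hk⟩ := S.S.odd w (G.mul_mem (G.mul_mem hyG hyG) S.ha) _ _ _ _ hD w1 w2 w3 w4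
  have hak : a ^ (2 * k + 1) = a := by rw [pow_succ, pow_mul, pow_two, S.aa, one_pow, one_mul]
  have h1 : y ^ (2 * k + 1) * y ^ (2 * k + 1) = a := by
    have := pow_orderOf_eq_one w
    rw [hk, hw, (ya.mul_left ya).mul_pow, (Commute.refl y).mul_pow, hak] at this
    rw [eq_inv_of_mul_eq_one_left this, inv_eq_of_mul_eq_one_right S.aa]
  have hbi : b⁻¹ = b := inv_eq_of_mul_eq_one_right S.bb
  have h2 : b * y * b⁻¹ = y⁻¹ := by
    rw [hy, mul_inv_rev, hbi, inv_eq_of_mul_eq_one_right zz, mul_assoc, mul_assoc, S.bb, mul_one]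
  have h3 : b * y ^ (2 * k + 1) * b = (y ^ (2 * k + 1))⁻¹ := by
    rw [← inv_pow, ← h2, conj_pow, hbi]
  have wa : Commute w a := (ya.mul_left ya).mul_left (Commute.refl a)
  have h4 : y ^ (2 * k + 1) = w ^ k * a ^ k * y := by
    rw [← wa.mul_pow, hw, mul_assoc (y * y), S.aa, mul_one, pow_succ, pow_mul, pow_two]
  refine ⟨y ^ (2 * k + 1) * b, G.mul_mem (G.pow_mem hyG _) S.hb, ?_, ?_, ?_, ?_⟩
  · rw [mul_assoc, ← mul_assoc b, h3, mul_inv_cancel]
  · rw [mul_assoc, S.ba, ← mul_assoc, (ya.pow_left _).eq, mul_assoc]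
  · rw [mul_assoc, S.bb, mul_one, mul_assoc, ← mul_assoc b, h3, ← h1, mul_inv_cancel_right]
  · rcases Nat.even_or_odd' k with ⟨j, rfl | rfl⟩
    · refine ⟨b h, mem_orbF.2 ⟨b, S.b_mem, rfl⟩, ?_⟩
      rw [h4, pow_mul a, pow_two, S.aa, one_pow, mul_one, Perm.mul_apply, Perm.mul_apply, S.bb', y1,
        Perm.pow_apply_eq_self_of_apply_eq_self w3]
    · refine ⟨h, self_mem_orbF _ _, ?_⟩
      rw [h4, pow_succ a, pow_mul a, pow_two, S.aa, one_pow, one_mul, Perm.mul_apply, Perm.mul_apply,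
        Perm.mul_apply, y3, S.aa', Perm.pow_apply_eq_self_of_apply_eq_self w1]

namespace Tw

variable {S} {h : α} {t : Perm α} (T : S.Tw h t)
include T

theorem tt' (u : α) : t (t u) = u := by rw [← Perm.mul_apply, T.tt]; rfl
theorem ta' (u : α) : t (a u) = a (t u) := by rw [← Perm.mul_apply, T.ta]; rfl
theorem tb' (u : α) : t (b u) = a (b (t u)) := by rw [← Perm.mul_apply, T.tb]; rfl

theorem ne_one : t ≠ 1 := by
  intro e
  have := T.tb' x3
  rw [e, Perm.one_apply, Perm.one_apply, S.b3, S.a3] at this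
  exact S.dist.2.2.2.2.2 this

theorem mul_a : S.Tw h (t * a) := by
  obtain ⟨w, hw, e⟩ := T.fix
  refine ⟨G.mul_mem T.mem S.ha, ?_, ?_, ?_, b w, apply_mem_orbF hw S.b_mem, ?_⟩
  · ext u; simp [T.ta', T.tt', S.aa']
  · ext u; simp [T.ta']
  · ext u; simp [T.ta', T.tb', S.ba']
  · simp [T.ta', T.tb', S.aa', e]

theorem norm {v : Perm α} (hv : v ∈ S.V) : t * v * t⁻¹ ∈ S.V := by
  rw [inv_eq_of_mul_eq_one_right T.tt]
  rcases hv with rfl | rfl | rfl | rfl
  · left; ext u; simp [T.tt']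
  · right; left; ext u; simp [T.ta', T.tt']
  · right; right; right; ext u; simp [T.tb', T.tt']
  · right; right; left; ext u; simp [T.ta', T.tb', T.tt', S.aa']

theorem fixZ {z : α} (h1 : a z = z) (h2 : b z = z) : t z = z := by
  have h3 : a (t z) = t z := by rw [← T.ta', h1]
  refine S.eq_of_fix h3 (a.injective ?_) h1 h2
  rw [← T.tb', h2, h3]

theorem b5 : b (t x3) = t x4 := a.injective (by rw [← T.tb', S.b3, ← T.ta', S.a4])
theorem b6 : b (t x4) = t x3 := by rw [← T.b5, S.bb']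
theorem ab5 : (a * b) (t x3) = t x3 := by rw [Perm.mul_apply, ← T.tb', S.b3]
theorem ab6 : (a * b) (t x4) = t x4 := by rw [Perm.mul_apply, ← T.tb', S.b4]
theorem ne56 : t x3 ≠ t x4 := fun e => S.dist.2.2.2.2.2 (t.injective e)

theorem pair56 {x : α} (h1 : (a * b) x = x) (h2 : b x ≠ x) : x = t x3 ∨ x = t x4 :=
  S.S.pair_fix (G.mul_mem S.ha S.hb) S.abab S.ab_ne (S.V_comm (S.V.mul_mem S.a_mem S.b_mem) S.b_mem) T.ne56
    T.ab5 T.ab6 T.b5 T.b6 h1 h2

theorem swap (hh : h ∉ S.F) : t x1 = x2 ∧ t x2 = x1 := by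
  have key : ∀ u, a u = u → b u ≠ u → t u = x1 ∨ t u = x2 := by
    intro u h1 h2
    have h3 : a (t u) = t u := by rw [← T.ta', h1]
    refine S.S.pair_fix S.ha S.aa S.a_ne S.ba.symm S.dist.1 S.a1 S.a2 S.b1 S.b2 h3 fun e => h2 ?_
    have := T.fixZ h3 e
    rw [T.tt'] at this
    rw [this, e]
  have h1 : t x1 = x2 := by
    rcases key x1 S.a1 (by rw [S.b1]; exact S.dist.1.symm) with e | e
    · exfalso
      have e2 : t x2 = x2 := by
        rcases key x2 S.a2 (by rw [S.b2]; exact S.dist.1) with e' | e'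
        · exact absurd (t.injective (e.trans e'.symm)) S.dist.1
        · exact e'
      obtain ⟨w, hw, ew⟩ := T.fix
      have w1 := S.notMem_F hh hw
      have w2 := S.notMem_F hh (apply_mem_orbF hw S.a_mem)
      have m1 := S.mem_F_a S.a1
      have m2 := S.mem_F_a S.a2
      refine T.ne_one (S.S.eq_one T.mem T.tt (a := x1) (b := x2) (c := w) (d := a w)
        ⟨S.dist.1, fun e => w1 (e ▸ m1), fun e => w2 (e ▸ m1), fun e => w1 (e ▸ m2), fun e => w2 (e ▸ m2),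
          (S.dist_orb w1).1⟩ e e2 ew (by rw [T.ta', ew]))
    · exact e
  exact ⟨h1, by rw [← h1, T.tt']⟩

theorem cases_F {x : α} (hx : x ∈ S.F) :
    x = x1 ∨ x = x2 ∨ x = x3 ∨ x = x4 ∨ x = t x3 ∨ x = t x4 ∨ (a x = x ∧ b x = x) := by
  obtain ⟨v, rfl | rfl | rfl | rfl, h1, h2⟩ := S.mem_F.1 hx
  · exact absurd rfl h1
  · by_cases e : b x = x
    · simp [h2, e]
    · rcases S.S.pair_fix S.ha S.aa S.a_ne S.ba.symm S.dist.1 S.a1 S.a2 S.b1 S.b2 h2 e with h | h <;> simp [h]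
  · by_cases e : a x = x
    · simp [h2, e]
    · rcases S.S.pair_fix S.hb S.bb S.b_ne S.ba S.dist.2.2.2.2.2 S.b3 S.b4 S.a3 S.a4 h2 e with h | h <;> simp [h]
  · by_cases e : b x = x
    · rw [Perm.mul_apply, e] at h2
      simp [h2, e]
    · rcases T.pair56 h2 e with h | h <;> simp [h]

theorem card_F_le : S.F.card ≤ 7 := by
  have h1 : S.F ⊆ {x1, x2, x3, x4, t x3, t x4} ∪ Finset.univ.filter fun x => a x = x ∧ b x = x := by
    intro x hx
    have := T.cases_F hx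
    simp only [Finset.mem_union, Finset.mem_insert, Finset.mem_singleton, Finset.mem_filter, Finset.mem_univ,
      true_and]
    tauto
  have h2 : (Finset.univ.filter fun x => a x = x ∧ b x = x).card ≤ 1 := by
    rw [Finset.card_le_one]
    intro u hu v hv
    simp only [Finset.mem_filter, Finset.mem_univ, true_and] at hu hv
    exact S.eq_of_fix hu.1 hu.2 hv.1 hv.2
  have h3 : ({x1, x2, x3, x4, t x3, t x4} : Finset α).card ≤ 6 := Finset.card_le_six
  have := (Finset.card_le_card h1).trans (Finset.card_union_le _ _)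
  omega

theorem dist3456 : Dist4 x3 x4 (t x3) (t x4) := by
  have k : ∀ u, b u = u → u ≠ t x3 ∧ u ≠ t x4 := fun u hu =>
    ⟨fun e => T.ne56 (by rw [← T.b5, ← e, hu]), fun e => T.ne56 (by rw [← T.b6, ← e, hu])⟩
  exact ⟨S.dist.2.2.2.2.2, (k _ S.b3).1, (k _ S.b3).2, (k _ S.b4).1, (k _ S.b4).2, T.ne56⟩

theorem ne_of_fix {u : α} (hu : a u = u) : u ≠ x3 ∧ u ≠ x4 ∧ u ≠ t x3 ∧ u ≠ t x4 := by
  refine ⟨fun e => S.dist.2.2.2.2.2 ?_, fun e => S.dist.2.2.2.2.2 ?_, fun e => T.ne56 ?_, fun e => T.ne56 ?_⟩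
  · rw [← S.a3, ← e, hu]
  · rw [← S.a4, ← e, hu]
  · rw [← S.a3, T.ta', ← e, hu]
  · rw [← S.a4, T.ta', ← e, hu]

theorem six_le_card_F : 6 ≤ S.F.card := by
  have h1 : ({x1, x2, x3, x4, t x3, t x4} : Finset α) ⊆ S.F := by
    intro x hx
    simp only [Finset.mem_insert, Finset.mem_singleton] at hx
    rcases hx with rfl | rfl | rfl | rfl | rfl | rfl
    exacts [S.mem_F_a S.a1, S.mem_F_a S.a2, S.mem_F_b S.b3, S.mem_F_b S.b4, S.mem_F_ab T.ab5, S.mem_F_ab T.ab6]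
  have h2 := Finset.card_le_card h1
  obtain ⟨d1, d2, d3, d4, d5, d6⟩ := T.dist3456
  obtain ⟨e1, e2, e3, e4⟩ := T.ne_of_fix S.a1
  obtain ⟨f1, f2, f3, f4⟩ := T.ne_of_fix S.a2
  rw [Finset.card_insert_of_notMem (by simp [S.dist.1, e1, e2, e3, e4]),
    Finset.card_insert_of_notMem (by simp [f1, f2, f3, f4]), Finset.card_insert_of_notMem (by simp [d1, d2, d3]),
    Finset.card_insert_of_notMem (by simp [d4, d5]), Finset.card_pair d6] at h2
  omega

end Tw

/-- The centraliser of the four-group in the pointwise stabiliser of `F` is transitive on the regular orbits. -/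
theorem exists_trans {h h' : α} (hh : h ∉ S.F) (hh' : h' ∉ S.F) :
    ∃ e ∈ fixIn G S.F ⊓ Subgroup.centralizer (S.V : Set (Perm α)), e h ∈ orbF S.V h' := by
  obtain ⟨t, T⟩ := S.exists_tw hh
  obtain ⟨t', T', e3⟩ : ∃ t', S.Tw h' t' ∧ t' x3 = t x3 := by
    obtain ⟨t', T'⟩ := S.exists_tw hh'
    rcases T.pair56 T'.ab5 (by rw [T'.b5]; exact T'.ne56.symm) with e | e
    · exact ⟨t', T', e⟩
    · exact ⟨t' * a, T'.mul_a, by rw [Perm.mul_apply, S.a3, ← T'.b5, e, T.b6]⟩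
  have e4 : t' x4 = t x4 := by rw [← T'.b5, e3, T.b5]
  have hK : t' * t ∈ fixIn G S.F ⊓ Subgroup.centralizer (S.V : Set (Perm α)) := by
    refine ⟨⟨G.mul_mem T'.mem T.mem, fun x hx => ?_⟩, ?_⟩
    · rw [Perm.mul_apply]
      rcases T.cases_F hx with rfl | rfl | rfl | rfl | rfl | rfl | ⟨h1, h2⟩
      · rw [(T.swap hh).1, (T'.swap hh').2]
      · rw [(T.swap hh).2, (T'.swap hh').1]
      · rw [← e3, T'.tt']
      · rw [← e4, T'.tt']
      · rw [T.tt', e3]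
      · rw [T.tt', e4]
      · rw [T.fixZ h1 h2, T'.fixZ h1 h2]
    · refine Subgroup.mem_centralizer_iff.2 ?_
      rintro v (rfl | rfl | rfl | rfl) <;> ext u <;> simp [T.ta', T.tb', T'.ta', T'.tb', S.aa']
  have hodd : Odd (orderOf (t' * t)) := S.S.odd _ hK.1.1 _ _ _ _ S.dist (hK.1.2 _ (S.mem_F_a S.a1))
    (hK.1.2 _ (S.mem_F_a S.a2)) (hK.1.2 _ (S.mem_F_b S.b3)) (hK.1.2 _ (S.mem_F_b S.b4))
  obtain ⟨e, he, hte⟩ := conj_of_odd_mul T.tt T'.tt hodd
  have heK := (Subgroup.zpowers_le.2 hK) he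
  refine ⟨e, heK, ?_⟩
  obtain ⟨w, hw, ew⟩ := T.fix
  obtain ⟨w', hw', ew'⟩ := T'.fix
  have f1 : t' (e w) = e w := by rw [hte]; simp [ew]
  have n1 : e w ∉ S.F := by
    intro hm
    have := heK.1.2 _ hm
    rw [e.injective this] at hm
    exact S.notMem_F hh hw hm
  have n2 := S.notMem_F hh' hw'
  have h1 : e w ∈ orbF S.V h' := by
    by_contra hcon
    have k1 : w' ≠ e w := fun e => hcon (e ▸ hw')
    have k2 : a w' ≠ e w := fun e => hcon (e ▸ apply_mem_orbF hw' S.a_mem)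
    refine T'.ne_one (S.S.eq_one T'.mem T'.tt (a := w') (b := a w') (c := e w) (d := a (e w))
      ⟨(S.dist_orb n2).1, k1, fun e => k2 (by rw [e, S.aa']), k2, fun e => k1 (a.injective e),
        (S.dist_orb n1).1⟩ ew' (by rw [T'.ta', ew']) f1 (by rw [T'.ta', f1]))
  obtain ⟨v, hv, rfl⟩ := mem_orbF.1 hw
  have h2 := apply_mem_orbF h1 (S.V.inv_mem hv)
  rw [← Perm.mul_apply e, ← Subgroup.mem_centralizer_iff.1 heK.2 v hv, Perm.mul_apply] at h2
  simpa using h2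

end FourG

end CL.Perm
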