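/-
Hall's theorem 5.8.1, third part: the degree is at most eleven, and the conclusion.
-/
import Cfsg.Agent.Perm.HallFour2

set_option autoImplicit false
set_option linter.unusedSectionVars false

namespace CL.Perm

open Equiv MulAction Pointwise CL.Spor

variable {α : Type*} [Fintype α] [DecidableEq α]

theorem Hall4.odd_of_card {G : Subgroup (Perm α)} (S : Hall4 G) {A : Finset α} (hA : A.card = 4) {g : Perm α}
    (hg : g ∈ fixIn G A) : Odd (orderOf g) := by
  obtain ⟨a, b, c, d, h1, h2, h3, h4, h5, h6, rfl⟩ := Finset.card_eq_four.1 hA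
  exact S.odd g hg.1 a b c d ⟨h1, h2, h3, h4, h5, h6⟩ (hg.2 _ (by simp)) (hg.2 _ (by simp)) (hg.2 _ (by simp))
    (hg.2 _ (by simp))

/-- If a Sylow subgroup of the pointwise stabiliser of `F` (six or seven points) fixes no further point, then every even
permutation of `F` is induced. -/
theorem Hall4.exists_induce {G : Subgroup (Perm α)} (S : Hall4 G) {F : Finset α} (h6 : 6 ≤ F.card) (h7 : F.card ≤ 7)
    {p : ℕ} [Fact p.Prime] {Q : Subgroup (Perm α)} (hQ : CL.Grp.IsSylowIn p Q (fixIn G F))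
    (hmv : ∀ x, x ∉ F → ∃ y ∈ Q, y x ≠ x) {τ : Perm F} (hτ : τ ∈ alternatingGroup F) :
    ∃ g ∈ G, ∀ x : F, g x = τ x := by
  set N : Subgroup (Perm α) := G ⊓ Subgroup.normalizer (Q : Set (Perm α)) with hN
  have hconj : ∀ u ∈ N, ∀ y ∈ Q, u * y * u⁻¹ ∈ Q := fun u hu y hy => (Subgroup.mem_normalizer_iff.1 hu.2 y).1 hy
  have hout : ∀ u ∈ N, ∀ a, a ∉ F → u a ∉ F := by
    intro u hu a ha h
    obtain ⟨y, hy, hya⟩ := hmv a ha
    have := (hQ.le (hconj u hu y hy)).2 _ h
    simp only [Perm.mul_apply, Perm.coe_inv, symm_apply_apply, EmbeddingLike.apply_eq_iff_eq] at this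
    exact hya this
  have hinv : ∀ u ∈ N, ∀ a, u a ∈ F ↔ a ∈ F := by
    intro u hu a
    refine ⟨fun h => by_contra fun h' => hout u hu a h' h, fun h => by_contra fun h' => ?_⟩
    have := hout u⁻¹ (N.inv_mem hu) _ h'
    simp only [Perm.coe_inv, symm_apply_apply] at this
    exact this h
  let ρ : N →* Perm F := MonoidHom.mk' (fun u => (u : Perm α).subtypePerm (hinv u u.2)) (fun u v => by ext; rfl)
  have hcF : Fintype.card F = F.card := Fintype.card_coe F
  have h4 : IsMultiplyPretransitive ρ.range F 4 := by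
    by_cases hA : ∃ A : Finset α, A ⊆ F ∧ A.card = 4 ∧ CL.Grp.IsSylowIn p Q (fixIn G A)
    · obtain ⟨A, -, hA4, hAQ⟩ := hA
      let e : Fin 4 ↪ α := (A.equivFinOfCardEq hA4).symm.toEmbedding.trans (Function.Embedding.subtype _)
      have he : ∀ i, e i ∈ A := fun i => ((A.equivFinOfCardEq hA4).symm i).2
      have key : ∀ x : Fin 4 ↪ F, ∃ k : N, ∀ i, (k : Perm α) (e i) = x i := by
        intro x
        obtain ⟨g, hg⟩ := S.trans.exists_smul_eq e (x.trans (Function.Embedding.subtype _))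
        have hg' : ∀ i, (g : Perm α) (e i) = x i := fun i => congrArg (fun f : Fin 4 ↪ α => f i) hg
        obtain ⟨k, k1, k2, k3⟩ := exists_normalizer_eq_on hAQ g.2 fun a ha y hy => by
          have : a = e (A.equivFinOfCardEq hA4 ⟨a, ha⟩) := by simp [e]
          rw [this, hg']
          exact (hQ.le hy).2 _ (x _).2
        exact ⟨⟨k, k1, k2⟩, fun i => (k3 _ (he i)).trans (hg' i)⟩
      refine ⟨fun x y => ?_⟩
      obtain ⟨k, hk⟩ := key x
      obtain ⟨l, hl⟩ := key y
      refine ⟨⟨ρ (l * k⁻¹), _, rfl⟩, ?_⟩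
      ext i
      show ((l : Perm α) * (k : Perm α)⁻¹) (x i) = y i
      rw [← hk, ← hl]
      simp
    · push Not at hA
      have key : ∀ s : Finset F, s.card ≤ 3 → ∀ a b : F, a ∉ s → b ∉ s →
          ∃ g : ρ.range, (∀ x ∈ s, g • x = x) ∧ g • a = b := by
        intro s hs a b ha hb
        obtain ⟨A, hsA, hAu, hA4⟩ := Finset.exists_subsuperset_card_eq (n := 4) (s := s) (t := ({a, b} : Finset F)ᶜ)
          (fun x hx => by
            simp only [Finset.mem_compl, Finset.mem_insert, Finset.mem_singleton, not_or]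
            exact ⟨fun e => ha (e ▸ hx), fun e => hb (e ▸ hx)⟩) (by omega)
          (by rw [Finset.card_compl]; have := Finset.card_le_two (a := a) (b := b); omega)
        have hA4' : (A.map (Function.Embedding.subtype _)).card = 4 := by rw [Finset.card_map, hA4]
        have hsub : A.map (Function.Embedding.subtype _) ⊆ F := fun x hx => by
          obtain ⟨y, -, rfl⟩ := Finset.mem_map.1 hx
          exact y.2
        have hle : fixIn G F ≤ fixIn G (A.map (Function.Embedding.subtype _)) :=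
          fun g hg => ⟨hg.1, fun x hx => hg.2 x (hsub hx)⟩
        obtain ⟨P, hP, hQP⟩ := CL.Grp.exists_isSylowIn_ge hQ.isPGroup (hQ.le.trans hle)
        have hlt : Q < P := lt_of_le_of_ne hQP fun e => hA _ hsub hA4' (e ▸ hP)
        obtain ⟨g, ⟨hgP, hgN⟩, hgQ⟩ := SetLike.exists_of_lt (CL.Grp.lt_inf_normalizer_of_isPGroup hP.isPGroup hlt)
        let u : N := ⟨g, (hP.le hgP).1, hgN⟩
        have hne : ρ u ≠ 1 := by
          intro h1
          apply hgQ
          rw [← hQ.eq_of_le (U := P ⊓ fixIn G F) hP.isPGroup.to_inf_left (le_inf hQP hQ.le) inf_le_right]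
          exact ⟨hgP, (hP.le hgP).1, fun x hx => congrArg (fun f : Perm F => (f ⟨x, hx⟩ : α)) h1⟩
        have hodd : Odd (orderOf (ρ u)) := by
          refine Odd.of_dvd_nat (S.odd_of_card hA4' (hP.le hgP)) ((orderOf_map_dvd ρ u).trans ?_)
          rw [← Subgroup.orderOf_coe]
        have hfix : ∀ x ∈ A, ρ u x = x := fun x hx =>
          Subtype.ext ((hP.le hgP).2 x (Finset.mem_map_of_mem _ hx))
        have hsupp : (ρ u).support ⊆ Aᶜ := fun x hx => Finset.mem_compl.2 fun h => Perm.mem_support.1 hx (hfix x h)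
        have hc1 := Finset.card_le_card hsupp
        have hc2 : Aᶜ.card ≤ 3 := by rw [Finset.card_compl]; omega
        have hc3 : (ρ u).support.card = 3 := by
          have h1 := Perm.one_lt_card_support_of_ne_one hne
          have h2 : (ρ u).support.card ≠ 2 := fun h => by
            rw [(Perm.card_support_eq_two.1 h).isCycle.orderOf, h] at hodd
            exact absurd hodd (by decide)
          omega
        have hc4 : (ρ u).support = Aᶜ := Finset.eq_of_subset_of_card_le hsupp (by omega)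
        have hm : ∀ x : F, x ∈ ({a, b} : Finset F) → ρ u x ≠ x := fun x hx => by
          rw [← Perm.mem_support, hc4, Finset.mem_compl]
          exact fun h => Finset.mem_compl.1 (hAu h) hx
        obtain ⟨i, hi⟩ := (card_support_eq_three_iff.1 hc3).isCycle.exists_pow_eq (hm a (by simp)) (hm b (by simp))
        exact ⟨⟨ρ (u ^ i), _, rfl⟩, fun x hx => by
          show ρ (u ^ i) x = x
          rw [map_pow]
          exact Perm.pow_apply_eq_self_of_apply_eq_self (hfix x (hsA hx)) i, by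
          show ρ (u ^ i) a = b
          rw [map_pow, hi]⟩
      have step : ∀ m, m ≤ 3 → IsMultiplyPretransitive ρ.range F m → IsMultiplyPretransitive ρ.range F (m + 1) := by
        intro m hm h
        obtain ⟨s, -, hs⟩ := Finset.exists_subset_card_eq (s := (Finset.univ : Finset F)) (n := m)
          (by rw [Finset.card_univ]; omega)
        exact isMultiplyPretransitive_succ_of_fixing h s hs (key s (by omega))
      exact step 3 le_rfl (step 2 (by omega) (step 1 (by omega) (step 0 (by omega) is_zero_pretransitive)))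
  obtain ⟨u, rfl⟩ := alternating_le_of_four_six_seven h4 (by omega) hτ
  exact ⟨u, u.2.1, fun _ => rfl⟩

namespace FourG

variable {G : Subgroup (Perm α)} {a b : Perm α} {x1 x2 x3 x4 : α} (S : FourG G a b x1 x2 x3 x4)
include S

theorem card_le {h : α} (hh : h ∉ S.F) : Fintype.card α ≤ 11 := by
  obtain ⟨t, T⟩ := S.exists_tw hh
  set K := fixIn G S.F ⊓ Subgroup.centralizer (S.V : Set (Perm α)) with hK
  have hKV : ∀ e ∈ K, ∀ w w', e w = w → w' ∈ orbF S.V w → e w' = w' := by
    intro e he w w' h1 h2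
    obtain ⟨v, hv, rfl⟩ := mem_orbF.1 h2
    rw [← Perm.mul_apply, ← Subgroup.mem_centralizer_iff.1 he.2 v hv, Perm.mul_apply, h1]
  by_cases h1 : (orbF K h).card = 1
  · have h2 : (Finset.univ : Finset α) ⊆ S.F ∪ orbF S.V h := by
      intro x _
      rw [Finset.mem_union, or_iff_not_imp_left]
      intro hx
      obtain ⟨e, he, h3⟩ := S.exists_trans hh hx
      rw [Finset.card_le_one.1 h1.le _ (mem_orbF.2 ⟨e, he, rfl⟩) _ (self_mem_orbF K h)] at h3
      rw [orbF_eq h3]
      exact self_mem_orbF _ _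
    have h3 := (Finset.card_le_card h2).trans (Finset.card_union_le _ _)
    have h4 : (orbF S.V h).card ≤ 4 := by rw [S.orb_eq]; exact Finset.card_le_four
    have := T.card_F_le
    rw [Finset.card_univ] at h3
    omega
  exfalso
  obtain ⟨p, hp, hpd⟩ := Nat.exists_prime_and_dvd h1
  have := Fact.mk hp
  obtain ⟨Q₀, hQ₀⟩ := CL.Grp.exists_isSylowIn p K
  obtain ⟨Q, hQ, hQQ⟩ := CL.Grp.exists_isSylowIn_ge hQ₀.isPGroup (hQ₀.le.trans inf_le_left)
  have hmv : ∀ x, x ∉ S.F → ∃ y ∈ Q, y x ≠ x := by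
    intro x hx
    by_contra hcon
    push Not at hcon
    obtain ⟨e, he, h3⟩ := S.exists_trans hh hx
    have h4 : Q₀ ≤ K ⊓ stabilizer (Perm α) (e h) := fun y hy =>
      ⟨hQ₀.le hy, hKV y (hQ₀.le hy) x _ (hcon y (hQQ hy)) h3⟩
    apply hQ₀.not_dvd_relIndex_of_le h4 inf_le_left
    rw [Subgroup.inf_relIndex_left]
    have h5 : (stabilizer (Perm α) (e h)).relIndex K = (stabilizer K (e h)).index := rfl
    rw [h5, index_stabilizer, ← Nat.card_coe_set_eq, ← card_orbF, orbF_eq (mem_orbF.2 ⟨e, he, rfl⟩)]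
    exact hpd
  let y1 : S.F := ⟨x1, S.mem_F_a S.a1⟩
  let y2 : S.F := ⟨x2, S.mem_F_a S.a2⟩
  let y3 : S.F := ⟨x3, S.mem_F_b S.b3⟩
  let y4 : S.F := ⟨x4, S.mem_F_b S.b4⟩
  let y5 : S.F := ⟨t x3, S.mem_F_ab T.ab5⟩
  let y6 : S.F := ⟨t x4, S.mem_F_ab T.ab6⟩
  obtain ⟨d1, d2, d3, d4, d5, d6⟩ := T.dist3456
  obtain ⟨e1, e2, e3, e4⟩ := T.ne_of_fix S.a1
  obtain ⟨f1, f2, f3, f4⟩ := T.ne_of_fix S.a2
  obtain ⟨g, hg, hgτ⟩ := S.S.exists_induce T.six_le_card_F T.card_F_le hQ hmv (τ := swap y3 y5 * swap y4 y6) (by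
    rw [Perm.mem_alternatingGroup, map_mul, Perm.sign_swap (fun e => d2 (congrArg Subtype.val e)),
      Perm.sign_swap (fun e => d5 (congrArg Subtype.val e))]
    simp)
  have g1 : g x1 = x1 := by simpa [y1, y3, y4, y5, y6, swap_apply_def, e1, e2, e3, e4] using hgτ y1
  have g2 : g x2 = x2 := by simpa [y2, y3, y4, y5, y6, swap_apply_def, f1, f2, f3, f4] using hgτ y2
  have g3 : g x3 = t x3 := by simpa [y3, y4, y5, y6, swap_apply_def, d1, d3] using hgτ y3
  have g4 : g x4 = t x4 := by simpa [y3, y4, y5, y6, swap_apply_def, d3.symm, d6.symm] using hgτ y4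
  have g5 : g (t x3) = x3 := by simpa [y3, y4, y5, y6, swap_apply_def, d4.symm, d6, d2.symm] using hgτ y5
  have g6 : g (t x4) = x4 := by
    simpa [y3, y4, y5, y6, swap_apply_def, d5.symm, d1.symm, d4] using hgτ y6
  have hodd := S.S.odd (t * g) (G.mul_mem T.mem hg) _ _ _ _ T.dist3456 (by simp [g3, T.tt']) (by simp [g4, T.tt'])
    (by simp [g5]) (by simp [g6])
  have := fix_of_odd hodd (a := x1) (by simp [g1, g2, (T.swap hh).1, (T.swap hh).2])
  rw [Perm.mul_apply, g1, (T.swap hh).1] at this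
  exact S.dist.1 this.symm

/-- In degree eleven the stabiliser of a regular orbit is trivial. -/
theorem fixIn_eq_bot (h11 : Fintype.card α = 11) (hmin : ∀ g ∈ G, g.support.card < 6 → g = 1) {h : α}
    (hh : h ∉ S.F) : fixIn G (orbF S.V h) = ⊥ := by
  set H := fixIn G (orbF S.V h) with hH
  have hD := S.dist_orb hh
  have hO : (orbF S.V h).card = 4 := by
    rw [S.orb_eq]
    exact Finset.card_eq_four.2 ⟨_, _, _, _, hD.1, hD.2.1, hD.2.2.1, hD.2.2.2.1, hD.2.2.2.2.1, hD.2.2.2.2.2, rfl⟩
  have hodd : ∀ g ∈ H, Odd (orderOf g) := fun g hg => S.S.odd_of_card hO hg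
  have hVG : ∀ v ∈ S.V, v ∈ G := by
    rintro v (rfl | rfl | rfl | rfl)
    exacts [G.one_mem, S.ha, S.hb, G.mul_mem S.ha S.hb]
  have hvv : ∀ v ∈ S.V, v * v = 1 := by
    rintro v (rfl | rfl | rfl | rfl)
    exacts [one_mul _, S.aa, S.bb, S.abab]
  obtain ⟨t, T⟩ := S.exists_tw hh
  have key : ∀ v ∈ S.V, v ≠ 1 → ∀ u u' : α, u ≠ u' → v u = u → v u' = u' → ∀ g ∈ H, v * g * v⁻¹ = g⁻¹ := by
    intro v hv hv1 u u' huu hu hu' g hg
    refine inv_of_centralizer_trivial (H := H) (hvv v hv) (fun k hk => ⟨G.mul_mem (G.mul_mem (hVG v hv) hk.1)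
      (G.inv_mem (hVG v hv)), fun x hx => ?_⟩) hodd (fun k hk hvk => ?_) hg
    · rw [Perm.mul_apply, Perm.mul_apply, hk.2 _ (apply_mem_orbF hx (S.V.inv_mem hv))]
      simp
    by_contra hk1
    obtain ⟨n, hp, hn1⟩ : ∃ n : ℕ, (orderOf (k ^ n)).Prime ∧ k ^ n ≠ 1 := by
      obtain ⟨p, hp, hd⟩ := Nat.exists_prime_and_dvd (fun e => hk1 (orderOf_eq_one_iff.1 e))
      have := orderOf_pow_orderOf_div (orderOf_pos k).ne' hd
      exact ⟨orderOf k / p, by rw [this]; exact hp, fun e => by rw [e, orderOf_one] at this; exact hp.one_lt.ne this⟩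
    set x := k ^ n with hx
    have hxH : x ∈ H := H.pow_mem hk n
    have hvx : ∀ c, x (v c) = v (x c) := fun c => by
      rw [← Perm.mul_apply, ← Perm.mul_apply, ((show Commute v k from hvk).pow_right n).eq]
    have hsub : orbF S.V h ⊆ v.support := fun w hw =>
      Perm.mem_support.2 fun e => S.notMem_F hh hw (S.mem_F.2 ⟨v, hv, hv1, e⟩)
    have h8 : v.support.card = 8 := by
      have h1 : 2 ∣ v.support.card := Perm.two_dvd_card_support (by rw [pow_two, hvv v hv])
      have h2 : 2 ≤ v.supportᶜ.card := by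
        rw [← Finset.card_pair huu]
        refine Finset.card_le_card fun z hz => ?_
        simp only [Finset.mem_insert, Finset.mem_singleton] at hz
        rcases hz with rfl | rfl <;> simpa
      have h3 : v.supportᶜ.card < 4 := by
        by_contra hcon
        obtain ⟨A, hA, hA4⟩ := Finset.exists_subset_card_eq (not_lt.1 hcon)
        have := S.S.odd_of_card hA4 (g := v) ⟨hVG v hv, fun z hz => by simpa using hA hz⟩
        refine hv1 (Equiv.ext fun z => fix_of_odd this ?_)
        rw [← Perm.mul_apply, hvv v hv]; rfl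
      rw [Finset.card_compl] at h2 h3
      omega
    have hinv : ∀ c, x c ∈ v.support \ orbF S.V h ↔ c ∈ v.support \ orbF S.V h := by
      intro c
      simp only [Finset.mem_sdiff, Perm.mem_support, ← hvx, ne_eq, EmbeddingLike.apply_eq_iff_eq]
      refine and_congr_right fun _ => not_congr ⟨fun e => ?_, fun e => by rwa [hxH.2 c e]⟩
      rwa [x.injective (hxH.2 _ e)] at e
    have := Fact.mk hp
    obtain ⟨c, hc⟩ := Perm.exists_fixed_point_of_prime (p := orderOf x) (n := 1)
      (α := ↥(v.support \ orbF S.V h)) (σ := x.subtypePerm hinv) (by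
        rw [Fintype.card_coe, Finset.card_sdiff_of_subset hsub, h8, hO]
        intro hd
        have h2 := (Nat.prime_dvd_prime_iff_eq hp Nat.prime_two).1 (hp.dvd_of_dvd_pow (show _ ∣ 2 ^ 2 from hd))
        exact absurd (h2 ▸ hodd x hxH) (by decide)) (by
        rw [pow_one, Perm.subtypePerm_pow]
        ext z
        simp [pow_orderOf_eq_one])
    have hc1 : x c = c := congrArg Subtype.val hc
    obtain ⟨hc2, hc3⟩ := Finset.mem_sdiff.1 c.2
    have hc4 : v c ∉ orbF S.V h := fun e => hc3 (by simpa using apply_mem_orbF e (S.V.inv_mem hv))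
    refine hn1 (hmin x hxH.1 ?_)
    have h5 : x.support ⊆ (insert (c : α) (insert (v c) (orbF S.V h)))ᶜ := by
      intro z hz
      simp only [Finset.mem_compl, Finset.mem_insert, not_or]
      refine ⟨?_, ?_, fun e => Perm.mem_support.1 hz (hxH.2 z e)⟩
      · rintro rfl; exact Perm.mem_support.1 hz hc1
      · rintro rfl; exact Perm.mem_support.1 hz (by rw [hvx, hc1])
    have h6 := Finset.card_le_card h5
    rw [Finset.card_compl, Finset.card_insert_of_notMem (by
      simp only [Finset.mem_insert, not_or]; exact ⟨(Perm.mem_support.1 hc2).symm, hc3⟩),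
      Finset.card_insert_of_notMem hc4] at h6
    omega
  rw [eq_bot_iff]
  intro g hg
  have h1 := key a S.a_mem S.a_ne _ _ S.dist.1 S.a1 S.a2
  have h2 := key b S.b_mem S.b_ne _ _ S.dist.2.2.2.2.2 S.b3 S.b4 g hg
  have h3 := key (a * b) (S.V.mul_mem S.a_mem S.b_mem) S.ab_ne _ _ T.ne56 T.ab5 T.ab6 g hg
  have h4 : g = g⁻¹ := by
    rw [← h3, show a * b * g * (a * b)⁻¹ = a * (b * g * b⁻¹) * a⁻¹ by group, h2, h1 _ (H.inv_mem hg), inv_inv]
  rw [Subgroup.mem_bot]
  ext z
  refine fix_of_odd (hodd g hg) ?_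
  nth_rewrite 1 [h4]
  simp

end FourG

theorem hall_four (G : Subgroup (Perm α)) (hG : IsMultiplyPretransitive G α 4) (x : Fin 4 ↪ α)
    (hodd : Odd (Nat.card (stabilizer G x))) :
    ((Fintype.card α = 4 ∨ Fintype.card α = 5) ∧ G = ⊤) ∨
      ((Fintype.card α = 6 ∨ Fintype.card α = 7) ∧ G = alternatingGroup α) ∨
      (Fintype.card α = 11 ∧ Nat.card G = 7920) := by
  have S : Hall4 G := ⟨hG, fun g hg a b c d hD ha hb hc hd => by
    obtain ⟨k, hk⟩ := hG.exists_smul_eq x hD.emb
    have hk' : ∀ i, (k : Perm α) (x i) = hD.emb i := fun i => congrArg (fun f : Fin 4 ↪ α => f i) hk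
    have h1 : k⁻¹ * ⟨g, hg⟩ * k ∈ stabilizer G x := by
      rw [mem_stabilizer_iff]
      ext i
      show ((k : Perm α)⁻¹ * g * k) (x i) = x i
      rw [Perm.mul_apply, Perm.mul_apply, Perm.inv_eq_iff_eq, hk']
      fin_cases i
      exacts [ha, hb, hc, hd]
    refine Odd.of_dvd_nat hodd ?_
    have h2 := Subgroup.orderOf_dvd_natCard _ h1
    rw [← Subgroup.orderOf_coe] at h2
    have h3 : orderOf ((k : Perm α)⁻¹ * g * k) = orderOf g := by
      simpa using (MulAut.conj (k : Perm α)⁻¹).orderOf_eq g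
    exact h3 ▸ h2⟩
  have h4 : 4 ≤ Fintype.card α := by simpa using Fintype.card_le_of_embedding x
  -- an element of even order cannot fix four points
  have hsupp : ∀ g ∈ G, g * g = 1 → g.support.card + 4 ≤ Fintype.card α → g = 1 := by
    intro g hg hgg hc
    obtain ⟨A, hA, hA4⟩ := Finset.exists_subset_card_eq (s := g.supportᶜ) (n := 4) (by rw [Finset.card_compl]; omega)
    have := S.odd_of_card hA4 (g := g) ⟨hg, fun z hz => by simpa using hA hz⟩
    refine Equiv.ext fun z => fix_of_odd this ?_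
    rw [← Perm.mul_apply, hgg]; rfl
  have hD : Dist4 (x 0) (x 1) (x 2) (x 3) := by
    refine ⟨?_, ?_, ?_, ?_, ?_, ?_⟩ <;> exact fun h => absurd (x.injective h) (by decide)
  rcases Nat.lt_or_ge (Fintype.card α) 6 with h6 | h6
  · refine Or.inl ⟨by omega, Perm.eq_top_of_isMultiplyPretransitive ?_⟩
    exact isMultiplyPretransitive_of_le (n := 4) (by rw [Nat.card_eq_fintype_card]; omega)
      (by rw [Nat.card_eq_fintype_card]; omega)
  rcases Nat.lt_or_ge (Fintype.card α) 8 with h8 | h8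
  · refine Or.inr (Or.inl ⟨by omega, ?_⟩)
    have h1 := alternating_le_of_four_six_seven hG (by omega)
    refine le_antisymm (fun g hg => by_contra fun hgA => ?_) h1
    have h2 : swap (x 0) (x 1) * g ∈ alternatingGroup α := by
      rw [Perm.mem_alternatingGroup] at hgA ⊢
      rw [map_mul, Perm.sign_swap hD.1, (Int.units_eq_one_or _).resolve_left hgA]
      simp
    have h3 : swap (x 0) (x 1) ∈ G := by simpa using G.mul_mem (h1 h2) (G.inv_mem hg)
    have := hsupp _ h3 (swap_mul_self _ _) (by rw [Perm.card_support_swap hD.1]; omega)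
    exact hD.1 (swap_eq_one_iff.1 this)
  have hA : ¬ alternatingGroup α ≤ G := by
    intro h1
    have h2 : swap (x 0) (x 1) * swap (x 2) (x 3) ∈ alternatingGroup α := by
      rw [Perm.mem_alternatingGroup, map_mul, Perm.sign_swap hD.1, Perm.sign_swap hD.2.2.2.2.2]
      simp
    have hdis : (swap (x 0) (x 1)).Disjoint (swap (x 2) (x 3)) :=
      Perm.disjoint_swap_swap (by simp [hD.1, hD.2.1, hD.2.2.1, hD.2.2.2.1, hD.2.2.2.2.1, hD.2.2.2.2.2])
    have := hsupp _ (h1 h2) (by rw [← pow_two, hdis.commute.mul_pow]; simp [pow_two]) (by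
      rw [hdis.card_support_mul, Perm.card_support_swap hD.1, Perm.card_support_swap hD.2.2.2.2.2]; omega)
    have := congrArg (fun f : Perm α => f (x 0)) this
    simp only [Perm.mul_apply, swap_apply_of_ne_of_ne hD.2.1 hD.2.2.1, swap_apply_left, Perm.one_apply] at this
    exact hD.1 this.symm
  obtain ⟨a, b, R⟩ := S.exists_fourG hD
  obtain ⟨h, hh⟩ : ∃ h, h ∉ R.F := by
    by_contra hcon
    push Not at hcon
    have h1 : (Finset.univ : Finset α) ⊆ {x 0, x 1, x 2, x 3} ∪ (a * b).supportᶜ := by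
      intro z _
      simp only [Finset.mem_union, Finset.mem_insert, Finset.mem_singleton, Finset.mem_compl, Perm.mem_support,
        not_not]
      obtain ⟨v, rfl | rfl | rfl | rfl, h1, h2⟩ := R.mem_F.1 (hcon z)
      · exact absurd rfl h1
      · by_cases e : b z = z
        · simp [h2, e]
        · rcases S.pair_fix R.ha R.aa R.a_ne R.ba.symm R.dist.1 R.a1 R.a2 R.b1 R.b2 h2 e with h | h <;> simp [h]
      · by_cases e : a z = z
        · simp [h2, e]
        · rcases S.pair_fix R.hb R.bb R.b_ne R.ba R.dist.2.2.2.2.2 R.b3 R.b4 R.a3 R.a4 h2 e with h | h <;> simp [h]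
      · exact Or.inr h2
    have h2 := (Finset.card_le_card h1).trans (Finset.card_union_le _ _)
    have h3 : ({x 0, x 1, x 2, x 3} : Finset α).card ≤ 4 := Finset.card_le_four
    rw [Finset.card_univ, Finset.card_compl] at h2
    exact R.ab_ne (hsupp _ (G.mul_mem R.ha R.hb) R.abab (by omega))
  have h11 := R.card_le hh
  have n8 : Fintype.card α ≠ 8 := fun e => hA (alternating_le_of_kp G (k := 1) (p := 5) (r := 3) (by norm_num) e
    (by norm_num) (by norm_num) (by norm_num) (by norm_num) hG)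
  have n9 : Fintype.card α ≠ 9 := fun e => hA (alternating_le_of_kp G (k := 2) (p := 3) (r := 3) (by norm_num) e
    (by norm_num) (by norm_num) (by norm_num) (by norm_num) hG)
  have n10 : Fintype.card α ≠ 10 := fun e => hA (alternating_le_of_kp G (k := 1) (p := 7) (r := 3) (by norm_num) e
    (by norm_num) (by norm_num) (by norm_num) (by norm_num) hG)
  have n11 : Fintype.card α = 11 := by omega
  refine Or.inr (Or.inr ⟨n11, ?_⟩)
  have hbot := R.fixIn_eq_bot n11 (fun g hg hc => by_contra fun h1 =>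
    hA (Cfsg.Agent.S0711.result G (k := 4) (by norm_num) h4 hG g hg h1 hc).2) hh
  have hD' := R.dist_orb hh
  have h2 := @index_stabilizer_of_transitive G (Fin 4 ↪ α) _ _ hD'.emb ⟨hG.exists_smul_eq⟩
  have h3 : stabilizer G hD'.emb = ⊥ := by
    rw [eq_bot_iff]
    intro g hg
    have h5 : ∀ i, (g : Perm α) (hD'.emb i) = hD'.emb i := fun i =>
      congrArg (fun f : Fin 4 ↪ α => f i) (mem_stabilizer_iff.1 hg)
    have : (g : Perm α) ∈ fixIn G (orbF R.V h) := ⟨g.2, fun z hz => by
      rw [R.orb_eq] at hz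
      simp only [Finset.mem_insert, Finset.mem_singleton] at hz
      rcases hz with rfl | rfl | rfl | rfl
      exacts [h5 0, h5 1, h5 2, h5 3]⟩
    rw [hbot, Subgroup.mem_bot] at this
    exact Subgroup.mem_bot.2 (Subtype.ext this)
  rw [h3, Subgroup.index_bot, Nat.card_eq_fintype_card (α := Fin 4 ↪ α), Fintype.card_embedding_eq, n11] at h2
  rw [h2]
  decide

end CL.Perm
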