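import Cfsg.Agent.Perm.JordanSets2

/-! Quasiprimitive groups with Jordan sets. -/

set_option autoImplicit false
open Cfsg MulAction
open scoped Pointwise

namespace CL.Perm

variable {G : Type*} {Ω : Type*} [Group G] [MulAction G Ω]

theorem ncard_preimage_of_equivariant [Finite Ω] {S : Type*} [MulAction G S] [IsPretransitive G S]
    (π : Ω → S) (hπ : ∀ (g : G) ω, π (g • ω) = g • π ω) (a : S) (T : Set S) (hT : T.Finite) :
    (π ⁻¹' T).ncard = (π ⁻¹' {a}).ncard * T.ncard := by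
  have h1 : ∀ b : S, (π ⁻¹' {b}).ncard = (π ⁻¹' {a}).ncard := by
    intro b
    obtain ⟨g, rfl⟩ := exists_smul_eq G a b
    rw [← Set.ncard_smul_set g (π ⁻¹' {a})]
    congr 1
    ext ω
    rw [Set.mem_smul_set_iff_inv_smul_mem, Set.mem_preimage, Set.mem_preimage, hπ,
      Set.mem_singleton_iff, Set.mem_singleton_iff, inv_smul_eq_iff]
  induction T, hT using Set.Finite.induction_on with
  | empty => simp
  | @insert b T hb hT ih =>
    rw [Set.insert_eq, Set.preimage_union, Set.ncard_union_eq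
      (Disjoint.preimage π (Set.disjoint_singleton_left.mpr hb)), ih, h1, ← Set.insert_eq,
      Set.ncard_insert_of_notMem hb hT]
    ring

/-- An imprimitive quasiprimitive group acts faithfully and primitively on a system of blocks. -/
theorem exists_block_quotient [Finite G] [Nontrivial Ω] [IsPretransitive G Ω]
    (hqp : ∀ N : Subgroup G, N.Normal → N ≠ ⊥ → IsPretransitive N Ω) (h : ¬ IsPreprimitive G Ω) :
    ∃ (M : Subgroup G) (π : Ω → G ⧸ M), (∀ (g : G) ω, π (g • ω) = g • π ω) ∧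
      IsPreprimitive G (G ⧸ M) ∧ (∀ g : G, (∀ x : G ⧸ M, g • x = x) → g = 1) ∧
      ∀ ω, ∃ ω', ω' ≠ ω ∧ π ω' = π ω := by
  obtain ⟨a, b, hab⟩ := exists_pair_ne Ω
  rw [← isCoatom_stabilizer_iff_preprimitive G a] at h
  have htop : stabilizer G a ≠ ⊤ := by
    intro e
    obtain ⟨g, hg⟩ := exists_smul_eq G a b
    exact hab ((e ▸ Subgroup.mem_top g : g ∈ stabilizer G a).symm.trans hg)
  obtain ⟨M, hM, haM⟩ := (eq_top_or_exists_le_coatom (stabilizer G a)).resolve_left htop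
  choose u hu using fun ω => exists_smul_eq G a ω
  have hπ0 : ∀ g : G, (u (g • a) : G ⧸ M) = g := fun g => by
    rw [QuotientGroup.eq]
    apply haM
    rw [mem_stabilizer_iff, mul_smul, inv_smul_eq_iff, hu]
  have hπ : ∀ (g : G) ω, (u (g • ω) : G ⧸ M) = g • (u ω : G ⧸ M) := fun g ω => by
    conv_lhs => rw [← hu ω, ← mul_smul, hπ0]
    rfl
  have hnt : Nontrivial (G ⧸ M) := by
    obtain ⟨g, hg⟩ : ∃ g, g ∉ M := by
      by_contra h'
      push Not at h'
      exact hM.1 (eq_top_iff.mpr fun g _ => h' g)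
    exact ⟨⟨(1 : G), g, fun e => hg (by simpa using QuotientGroup.eq.mp e)⟩⟩
  refine ⟨M, fun ω => u ω, hπ, ?_, fun g hg => ?_, fun ω => ?_⟩
  · rw [← isCoatom_stabilizer_iff_preprimitive G ((1 : G) : G ⧸ M), stabilizer_quotient]
    exact hM
  · by_contra h1
    have h2 := hqp (toPermHom G (G ⧸ M)).ker inferInstance (fun e => h1 (by
      rw [← Subgroup.mem_bot, ← e]
      exact Equiv.ext hg))
    obtain ⟨x, y, hxy⟩ := exists_pair_ne (G ⧸ M)
    induction x using QuotientGroup.induction_on with | H x => ?_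
    induction y using QuotientGroup.induction_on with | H y => ?_
    obtain ⟨k, hk⟩ := h2.exists_smul_eq (x • a) (y • a)
    apply hxy
    rw [← hπ0 y, ← hk]
    change _ = (u ((k : G) • x • a) : G ⧸ M)
    rw [hπ, hπ0]
    exact (congrArg (fun σ : Equiv.Perm (G ⧸ M) => σ x) k.2).symm
  · obtain ⟨m, hm, hma⟩ := SetLike.exists_of_lt (lt_of_le_of_ne haM fun e => h (e ▸ hM))
    refine ⟨(u ω * m) • a, fun e => hma ?_, ?_⟩
    · rw [mul_smul] at e
      exact smul_left_cancel (u ω) (e.trans (hu ω).symm)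
    · change (u ((u ω * m) • a) : G ⧸ M) = u ω
      rw [hπ0, QuotientGroup.eq]
      simpa using hm

theorem JC.fibre {S : Type*} [MulAction G S] (π : Ω → S) (hπ : ∀ (g : G) ω, π (g • ω) = g • π ω)
    (hf : ∀ g : G, (∀ x : S, g • x = x) → g = 1) (hsurj : Function.Surjective π) {s : Set Ω}
    (hs : JC G s) {γ γ' : Ω} (hγ : γ ∉ s) (hγ' : γ' ∉ s) (hne : γ ≠ γ') :
    (∃ δ ∉ s, π δ ≠ π γ) ∧ ∀ ω ∉ s, ∀ ω' ∈ s, π ω ≠ π ω' := by
  have h1 : ∃ δ ∉ s, π δ ≠ π γ := by
    by_contra h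
    push Not at h
    obtain ⟨g, hg, e⟩ := hs γ γ' hγ hγ'
    suffices g = 1 from hne (by rw [← e, this, one_smul])
    refine hf g fun x => ?_
    obtain ⟨ω, rfl⟩ := hsurj x
    by_cases hω : ω ∈ s
    · rw [← hπ, hg ω hω]
    · rw [h ω hω, ← hπ, e, h γ' hγ']
  refine ⟨h1, fun ω hω ω' hω' e => ?_⟩
  obtain ⟨δ, hδ, h2⟩ := h1
  have key : ∀ z ∉ s, π z = π ω' := fun z hz => by
    obtain ⟨g, hg, e'⟩ := hs ω z hω hz
    rw [← e', hπ, e, ← hπ, hg ω' hω']
  exact h2 ((key δ hδ).trans (key γ hγ).symm)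

theorem isPretransitive_of_quasiprimitive
    (hqp : ∀ N : Subgroup G, N.Normal → N ≠ ⊥ → IsPretransitive N Ω) {g : G} (hg : g ≠ 1) :
    IsPretransitive G Ω := by
  have := hqp ⊤ inferInstance fun e => hg (by rw [← Subgroup.mem_bot, ← e]; trivial)
  exact ⟨fun a b => by
    obtain ⟨k, hk⟩ := this.exists_smul_eq a b
    exact ⟨k, hk⟩⟩

theorem isPreprimitive_of_quasiprimitive_of_half [Finite G] [Finite Ω]
    (hqp : ∀ N : Subgroup G, N.Normal → N ≠ ⊥ → IsPretransitive N Ω) {s : Set Ω} (hs : JC G s)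
    (h1 : 1 < sᶜ.ncard) (h2 : 2 * sᶜ.ncard < Nat.card Ω) : IsPreprimitive G Ω := by
  classical
  obtain ⟨γ, γ', hγ, hγ', hne⟩ := (Set.one_lt_ncard_iff).mp h1
  have : Nontrivial Ω := ⟨⟨γ, γ', hne⟩⟩
  have : IsPretransitive G Ω := by
    obtain ⟨g, -, e⟩ := hs γ γ' hγ hγ'
    exact isPretransitive_of_quasiprimitive hqp (g := g) fun h => hne (by rw [← e, h, one_smul])
  by_contra hnp
  obtain ⟨M, π, hπ, hprim, hf, hfib⟩ := exists_block_quotient hqp hnp
  have hsurj : Function.Surjective π := fun x => by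
    obtain ⟨g, rfl⟩ := exists_smul_eq G (π γ) x
    exact ⟨g • γ, hπ g γ⟩
  obtain ⟨⟨δ, hδ, hδγ⟩, hsep⟩ := hs.fibre π hπ hf hsurj hγ hγ' hne
  set T : Set (G ⧸ M) := π '' sᶜ with hT
  have hpre : ∀ ω, π ω ∈ T ↔ ω ∉ s := fun ω =>
    ⟨fun ⟨z, hz, e⟩ hω => hsep z hz ω hω e, fun h => ⟨ω, h, rfl⟩⟩
  have hTc : 2 * T.ncard < Nat.card (G ⧸ M) := by
    have e1 := ncard_preimage_of_equivariant π hπ (π γ) T (Set.toFinite _)
    have e2 := ncard_preimage_of_equivariant π hπ (π γ) Set.univ (Set.toFinite _)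
    rw [show π ⁻¹' T = sᶜ from Set.ext hpre] at e1
    rw [Set.preimage_univ, Set.ncard_univ, Set.ncard_univ] at e2
    rw [e1, e2, mul_left_comm] at h2
    exact lt_of_mul_lt_mul_left h2 (Nat.zero_le _)
  have hT2 : 1 < T.ncard := (Set.one_lt_ncard_iff).mpr ⟨_, _, (hpre δ).mpr hδ, (hpre γ).mpr hγ, hδγ⟩
  have hfixT : ∀ g : G, (∀ x ∈ s, g • x = x) → ∀ P ∉ T, g • P = P := by
    intro g hg P hP
    obtain ⟨ω, rfl⟩ := hsurj P
    rw [hpre, not_not] at hP
    rw [← hπ, hg ω hP]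
  have hJ : JC G Tᶜ := by
    intro P Q hP hQ
    rw [Set.notMem_compl_iff] at hP hQ
    obtain ⟨ω, hω, rfl⟩ := hP
    obtain ⟨ω', hω', rfl⟩ := hQ
    obtain ⟨g, hg, e⟩ := hs ω ω' hω hω'
    exact ⟨g, hfixT g hg, by rw [← hπ, e]⟩
  have hTT := Set.ncard_add_ncard_compl T
  have hmt := hJ.marggraff hprim (by omega) (by omega)
  have := Fintype.ofFinite (G ⧸ M)
  have halt := exists_toPerm_eq_of_isMultiplyPretransitive hmt
  set B := π γ with hB
  have hBT : B ∈ T := (hpre γ).mpr hγ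
  obtain ⟨x, hx, hxγ⟩ := hs γ δ hγ hδ
  have hxB : x • B ≠ B := by rw [hB, ← hπ, hxγ]; exact hδγ
  -- an element `g` with `g T ∩ T = {B}`
  obtain ⟨g, hgB, hgT⟩ : ∃ g : G, g • B = B ∧ ∀ P ∈ T, P ≠ B → g • P ∉ T := by
    obtain ⟨f⟩ : Nonempty (T ↪ (Tᶜ : Set (G ⧸ M))) := by
      apply Function.Embedding.nonempty_of_card_le
      rw [← Nat.card_eq_fintype_card, ← Nat.card_eq_fintype_card, Nat.card_coe_set_eq,
        Nat.card_coe_set_eq]
      omega
    obtain ⟨τ, hτ⟩ := Equiv.Perm.exists_extending_pair (fun P : T => (P : G ⧸ M))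
      (fun P => if (P : G ⧸ M) = B then B else (f P : G ⧸ M)) Subtype.val_injective (by
        intro P Q h
        dsimp only at h
        split_ifs at h with e1 e2 e2
        · exact Subtype.ext (e1.trans e2.symm)
        · exact absurd (h ▸ hBT) (f Q).2
        · exact absurd (h ▸ hBT) (f P).2
        · exact f.injective (Subtype.ext h))
    obtain ⟨g, hg⟩ := exists_smul_eq_on hmt (Nat.sub_le _ _) T.toFinite.toFinset
      (by rw [← Set.ncard_eq_toFinset_card]; omega) τ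
    refine ⟨g, ?_, fun P hP hPB => ?_⟩
    · rw [hg B (by simpa using hBT), hτ ⟨B, hBT⟩, if_pos rfl]
    · rw [hg P (by simpa using hP), hτ ⟨P, hP⟩, if_neg hPB]
      exact (f _).2
  set y := g * x * g⁻¹ with hy
  have hyfix : ∀ ω, g⁻¹ • π ω ∉ T → y⁻¹ • ω = ω := fun ω h => by
    rw [← hπ, hpre, not_not] at h
    rw [inv_smul_eq_iff, hy, mul_smul, mul_smul, hx _ h, smul_inv_smul]
  have hxfix : ∀ ω, π ω ∉ T → x⁻¹ • ω = ω := fun ω h => by
    rw [hpre, not_not] at h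
    rw [inv_smul_eq_iff, hx _ h]
  have hint : ∀ P ∈ T, g⁻¹ • P ∈ T → P = B := fun P h3 h4 => by
    by_contra h5
    refine hgT _ h4 (fun e => h5 ?_) (by rwa [smul_inv_smul])
    rw [inv_smul_eq_iff, hgB] at e
    exact e
  have hxT : ∀ ω, π ω ∈ T → π (x⁻¹ • ω) ∈ T := fun ω h => by
    by_contra h'
    have := hxfix _ h'
    rw [smul_left_cancel_iff] at this
    exact h' (this.symm ▸ h)
  have hyT : ∀ ω, g⁻¹ • π ω ∈ T → g⁻¹ • π (y⁻¹ • ω) ∈ T := fun ω h => by
    by_contra h'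
    have := hyfix _ h'
    rw [smul_left_cancel_iff] at this
    exact h' (this.symm ▸ h)
  set c := x * y * x⁻¹ * y⁻¹ with hc
  have hcω : ∀ ω : Ω, c • ω = ω ↔ x⁻¹ • y⁻¹ • ω = y⁻¹ • x⁻¹ • ω := fun ω => by
    rw [hc, mul_smul, mul_smul, mul_smul, smul_eq_iff_eq_inv_smul, smul_eq_iff_eq_inv_smul]
  have hcfix : ∀ ω, π ω ∉ ({B, x • B, y • B} : Finset (G ⧸ M)) → c • ω = ω := by
    intro ω hω
    simp only [Finset.mem_insert, Finset.mem_singleton, not_or] at hω
    rw [hcω]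
    by_cases e1 : π ω ∈ T
    · have e2 : g⁻¹ • π ω ∉ T := fun h => hω.1 (hint _ e1 h)
      rw [hyfix ω e2, hyfix (x⁻¹ • ω) fun h => hω.2.1 ?_]
      rw [← hint _ (hxT ω e1) h, hπ, smul_inv_smul]
    · rw [hxfix ω e1]
      by_cases e2 : g⁻¹ • π ω ∈ T
      · refine hxfix _ fun h => hω.2.2 ?_
        rw [← hint _ h (hyT ω e2), hπ, smul_inv_smul]
      · rw [hyfix ω e2, hxfix ω e1]
  have hgB' : g⁻¹ • B = B := by rw [inv_smul_eq_iff, hgB]
  have hc1 : c ≠ 1 := by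
    intro e
    have e1 := (hcω γ).mp (by rw [e, one_smul])
    have e2 : π (x⁻¹ • γ) ≠ B := by
      rw [hπ, Ne, inv_smul_eq_iff]; exact hxB.symm
    have e3 : π (y⁻¹ • γ) ≠ B := by
      rw [hπ, Ne, inv_smul_eq_iff, hy, mul_smul, mul_smul, hgB', eq_comm, smul_eq_iff_eq_inv_smul, hgB']
      exact hxB
    have e4 := hxT γ hBT
    have e5 := hyT γ (hgB'.symm ▸ hBT)
    rw [hxfix _ (fun h => e3 (hint _ h e5)), hyfix _ (fun h => e2 (hint _ e4 h))] at e1
    exact e2 (hint _ e4 (e1 ▸ e5))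
  set φ := toPermHom G (G ⧸ M) with hφ
  have hφi : Function.Injective φ := (injective_iff_map_eq_one φ).mpr fun g hg =>
    hf g fun P => congrArg (fun σ : Equiv.Perm (G ⧸ M) => σ P) hg
  have hsupp : (φ c).support ⊆ {B, x • B, y • B} := by
    intro P hP
    by_contra h
    obtain ⟨ω, rfl⟩ := hsurj P
    exact Equiv.Perm.mem_support.mp hP (by
      change c • π ω = π ω
      rw [← hπ, hcfix ω h])
  have hsign : Equiv.Perm.sign (φ c) = 1 := by
    simp only [hc, map_mul, map_inv]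
    rw [mul_right_comm (Equiv.Perm.sign (φ x)), mul_inv_cancel, one_mul, mul_inv_cancel]
  have hcard3 : (φ c).support.card = 3 := by
    have e1 := (Finset.card_le_card hsupp).trans Finset.card_le_three
    have e2 := Equiv.Perm.one_lt_card_support_of_ne_one (f := φ c)
      (fun e => hc1 (hφi (e.trans (map_one φ).symm)))
    have e3 : (φ c).support.card ≠ 2 := fun e => by
      rw [(Equiv.Perm.card_support_eq_two.mp e).sign_eq] at hsign
      exact absurd hsign (by decide)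
    omega
  have hsupp' : (φ c).support = {B, x • B, y • B} :=
    Finset.eq_of_subset_of_card_le hsupp (hcard3 ▸ Finset.card_le_three)
  have h3c : (φ c).IsThreeCycle := card_support_eq_three_iff.mp hcard3
  have hall3 : ∀ τ : Equiv.Perm (G ⧸ M), τ.IsThreeCycle → τ B = B →
      τ ∈ (fixingSubgroup G (π ⁻¹' {B})).map φ := by
    intro τ hτ hτB
    obtain ⟨κ, hκ⟩ := isConj_iff.mp (alternatingGroup.isThreeCycle_isConj (by omega)
      (σ := ⟨φ c, h3c.mem_alternatingGroup⟩) (τ := ⟨τ, hτ.mem_alternatingGroup⟩) h3c hτ)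
    obtain ⟨k, hk⟩ := halt κ κ.2
    have e1 : φ (k * c * k⁻¹) = τ := by
      rw [map_mul, map_mul, map_inv, show φ k = κ from hk]
      exact congrArg Subtype.val hκ
    refine ⟨k * c * k⁻¹, (mem_fixingSubgroup_iff G).mpr fun ω hω => ?_, e1⟩
    rw [mul_smul, mul_smul, hcfix, smul_inv_smul]
    rw [← hsupp', Equiv.Perm.notMem_support, hπ, show π ω = B from hω]
    rw [← e1] at hτB
    change c • k⁻¹ • B = k⁻¹ • B
    rw [eq_inv_smul_iff, ← mul_smul, ← mul_smul]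
    exact hτB
  have hA := hqp ((alternatingGroup (G ⧸ M)).comap φ) inferInstance (fun e => hc1 (by
    rw [← Subgroup.mem_bot, ← e]; exact hsign))
  obtain ⟨ω, hω, hωB⟩ := hfib γ
  obtain ⟨a, ha⟩ := hA.exists_smul_eq γ ω
  have ha' : (a : G) • γ = ω := ha
  have haB : φ a B = B := by
    change (a : G) • B = B
    rw [hB, ← hπ, ha', hωB]
  have hp1 : ∀ P, φ a P ≠ B ↔ P ≠ B := fun P => by
    rw [not_iff_not]
    conv_lhs => rw [← haB]
    exact (φ a).injective.eq_iff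
  have hp2 : ∀ P, φ a P ≠ P → P ≠ B := fun P h e => h (e ▸ haB)
  have hmem : (φ a).subtypePerm (p := fun P => P ≠ B) hp1 ∈
      ((fixingSubgroup G (π ⁻¹' {B})).map φ).comap Equiv.Perm.ofSubtype := by
    have e1 : (φ a).subtypePerm (p := fun P => P ≠ B) hp1 ∈ alternatingGroup {P // P ≠ B} := by
      rw [Equiv.Perm.mem_alternatingGroup, Equiv.Perm.sign_subtypePerm _ hp1 hp2]
      exact a.2
    rw [← Equiv.Perm.closure_three_cycles_eq_alternating] at e1
    refine (Subgroup.closure_le (((fixingSubgroup G (π ⁻¹' {B})).map φ).comap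
      (Equiv.Perm.ofSubtype (p := fun P => P ≠ B)))).mpr (fun τ hτ => hall3 _ ?_ ?_) e1
    · exact Equiv.Perm.cycleType_ofSubtype.trans hτ
    · exact Equiv.Perm.ofSubtype_apply_of_not_mem τ (by simp)
  rw [Subgroup.mem_comap, Equiv.Perm.ofSubtype_subtypePerm hp1 hp2] at hmem
  obtain ⟨k, hk, e⟩ := hmem
  rw [hφi e] at hk
  exact hω (ha'.symm.trans ((mem_fixingSubgroup_iff G).mp hk γ rfl))

end CL.Perm
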