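/-
Solvable linear groups of odd order whose order is divisible by a primitive prime divisor are
semilinear of dimension one; 2-homogeneous groups of odd order.
-/
import Cfsg.Agent.Grp.Primitive
import Cfsg.Agent.Odd.BG3b
import Cfsg.Agent.Perm.GammaL1
import Cfsg.Agent.Fgs.Zsigmondy
import Cfsg.Agent.Perm.Homog6

set_option autoImplicit false

open Cfsg CL.Grp Subgroup MulAction

namespace CL.Perm

variable {G : Type*} [Group G] [Finite G] {N H R : Subgroup G} {p f r : ℕ}

/-- An `r`-group, `r` a primitive prime divisor of `p ^ f - 1`, acting non-trivially on a group of order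
`p ^ f` acts fixed-point-freely and irreducibly. -/
theorem irred_of_primitive_prime (hp : p.Prime) (hr : r.Prime) (hN : Nat.card N = p ^ f)
    (h1 : r ∣ p ^ f - 1) (h2 : ∀ i, 1 ≤ i → i < f → ¬ r ∣ p ^ i - 1) (hR : IsPGroup r R)
    (hn : R ≤ normalizer (N : Set G)) (hc : ¬ R ≤ centralizer (N : Set G)) :
    N ⊓ centralizer (R : Set G) = ⊥ ∧
      ∀ L : Subgroup G, L ≤ N → R ≤ normalizer (L : Set G) → L = ⊥ ∨ L = N := by
  have := Fact.mk hr
  have hmod : ∀ i, p ^ i ≡ 1 [MOD r] ↔ r ∣ p ^ i - 1 := fun i =>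
    ⟨fun h => (Nat.modEq_iff_dvd' (Nat.one_le_pow _ _ hp.pos)).1 h.symm,
      fun h => ((Nat.modEq_iff_dvd' (Nat.one_le_pow _ _ hp.pos)).2 h).symm⟩
  have key : ∀ L : Subgroup G, L ≤ N → Nat.card L ≡ 1 [MOD r] → L = ⊥ ∨ L = N := fun L hL h => by
    obtain ⟨i, hi, e⟩ := (Nat.dvd_prime_pow hp).1 (hN ▸ card_dvd_of_le hL)
    rcases Nat.eq_zero_or_pos i with rfl | h0
    · exact Or.inl (eq_bot_of_card_eq _ (by simpa using e))
    · right
      obtain rfl : i = f := by
        by_contra hne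
        exact h2 i h0 (by omega) ((hmod i).1 (e ▸ h))
      exact eq_of_le_of_card_ge hL (by rw [e, hN])
  have hC : N ⊓ centralizer (R : Set G) = ⊥ := by
    refine (key _ inf_le_left ((card_modEq_card_inf_centralizer hR hn).symm.trans ?_)).resolve_right
      fun e => hc (le_centralizer_iff.1 (e ▸ inf_le_right))
    rw [hN]; exact (hmod f).2 h1
  refine ⟨hC, fun L hL hRL => key L hL ((card_modEq_card_inf_centralizer hR hRL).trans ?_)⟩
  rw [eq_bot_iff.2 ((inf_le_inf_right _ hL).trans hC.le), card_bot]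

/-- A solvable group of odd order acting faithfully on a group of order `p ^ f`, of order divisible by a
primitive prime divisor of `p ^ f - 1`, has an irreducible abelian normal subgroup. -/
theorem exists_abelian_normal_irred (hp : p.Prime) (hr : r.Prime) (hf : 0 < f) (hN : Nat.card N = p ^ f)
    (h1 : r ∣ p ^ f - 1) (h2 : ∀ i, 1 ≤ i → i < f → ¬ r ∣ p ^ i - 1) (hs : Group.IsSolvable H)
    (hodd : Odd (Nat.card H)) (hrH : r ∣ Nat.card H) (hn : H ≤ normalizer (N : Set G))
    (hc : H ⊓ centralizer (N : Set G) = ⊥) :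
    ∃ T : Subgroup H, T.Normal ∧ IsMulCommutative T ∧ ∀ L : Subgroup G, L ≤ N →
      (∀ t ∈ T, ∀ l ∈ L, (t : G) * l * (t : G)⁻¹ ∈ L) → L = ⊥ ∨ L = N := by
  have := Fact.mk hr
  have := Fact.mk hp
  have hbot : ∀ {X : Subgroup G}, X ≤ H → X ≤ centralizer (N : Set G) → X = ⊥ := fun a b =>
    eq_bot_iff.2 (hc ▸ le_inf a b)
  have hO : pCoreOf r H ≠ ⊥ := by
    intro hO
    obtain ⟨x, hx⟩ := exists_prime_orderOf_dvd_card' r hrH
    have hRc : Nat.card (zpowers (x : G)) = r := by rw [Nat.card_zpowers, orderOf_coe, hx]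
    have hRH : zpowers (x : G) ≤ H := (zpowers_le).2 x.2
    have hRp : IsPGroup r (zpowers (x : G)) := IsPGroup.of_card (n := 1) (by rw [hRc, pow_one])
    have hR0 : zpowers (x : G) ≠ ⊥ := fun e => by
      rw [e, card_bot] at hRc; exact hr.one_lt.ne hRc
    obtain ⟨hC, hirr⟩ := irred_of_primitive_prime hp hr hN h1 h2 hRp (hRH.trans hn)
      fun e => hR0 (hbot hRH e)
    have hOp : pCoreOf p H = ⊥ := by
      refine hbot (pCoreOf_le p H) (le_centralizer_iff.1 ?_)
      rcases hirr _ (inf_le_left (b := centralizer (pCoreOf p H : Set G))) (hRH.trans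
        ((le_inf hn ((le_normalizer_pCoreOf p H).trans (CL.Odd.norm_le_norm_cent _))).trans
          inf_normalizer_le_normalizer_inf)) with e | e
      · exact absurd e (inf_centralizer_ne_bot_of_isPGroup (pCoreOf_isPGroup p H)
          ((pCoreOf_le p H).trans hn) (hN ▸ dvd_pow_self p hf.ne'))
      · exact e ▸ inf_le_right
    have hF : ∀ q : ℕ, q.Prime → pCoreOf q H = ⊥ → ¬ q ∣ Nat.card (fittingOf H) := fun q hq e hd => by
      have := Fact.mk hq
      obtain ⟨y, hy⟩ := exists_prime_orderOf_dvd_card' q hd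
      have hc : Nat.card (zpowers (y : G)) = q := by rw [Nat.card_zpowers, orderOf_coe, hy]
      have := le_pCoreOf_of_le_fittingOf (IsPGroup.of_card (n := 1) (by rw [hc, pow_one]))
        ((zpowers_le).2 y.2)
      rw [e, le_bot_iff] at this
      rw [this, card_bot] at hc
      exact hq.one_lt.ne hc
    have hRF : zpowers (x : G) ≤ normalizer (fittingOf H : Set G) := hRH.trans (le_normalizer_fittingOf H)
    have hrp : ¬ p ∣ r := fun e => by
      rw [(Nat.prime_dvd_prime_iff_eq hp hr).1 e] at h1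
      exact hr.one_lt.ne' (Nat.eq_one_of_dvd_one ((Nat.dvd_sub_iff_right (Nat.one_le_pow _ _ hr.pos)
        (dvd_pow_self r hf.ne')).1 h1))
    have hcomm := CL.Odd.comm_le_cent_of_prime (K := fittingOf H) (R := zpowers (x : G)) (V := N)
      (isSolvable_of_le_of_isSolvable hs (fittingOf_le H))
      ((hodd.of_dvd_nat (card_dvd_of_le (fittingOf_le H))).mul (hodd.of_dvd_nat (card_dvd_of_le hRH)))
      hRF (by rw [hRc]; exact ((Nat.Prime.coprime_iff_not_dvd hr).2 (hF r hr hO)).symm) (hRc ▸ hr)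
      (by
        rw [hN]
        refine (((Nat.Prime.coprime_iff_not_dvd hp).2 fun hd => ?_).symm).pow_right f
        rw [sup_comm] at hd
        rcases (Nat.Prime.dvd_mul hp).1 (hd.trans (card_sup_dvd hRF)) with e | e
        · exact hrp (hRc ▸ e)
        · exact hF p hp hOp e)
      ((sup_le (fittingOf_le H) hRH).trans hn)
      (CL.Odd.sol_of_nil (IsPGroup.of_card hN).isNilpotent) hC
    have h3 := hbot ((commutator_le_sup _ _).trans (sup_le hRH (fittingOf_le H))) hcomm
    have h4 := (le_inf hRH (commutator_eq_bot_iff_le_centralizer.1 h3)).trans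
      (inf_centralizer_fittingOf_le hs)
    exact hF r hr hO (hRc ▸ card_dvd_of_le h4)
  have hO' : pCore r H ≠ ⊥ := fun e => hO (by rw [pCoreOf_def, e, Subgroup.map_bot])
  have := (nontrivial_iff_ne_bot _).2 hO'
  let T : Subgroup H := (center (pCore r H)).map (pCore r H).subtype
  have hT0 : T.map H.subtype ≠ ⊥ := by
    rw [Ne, map_eq_bot_iff_of_injective _ H.subtype_injective,
      map_eq_bot_iff_of_injective _ (subtype_injective _)]
    exact (nontrivial_iff_ne_bot _).1 (pCore_isPGroup r H).center_nontrivial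
  refine ⟨T, inferInstance, inferInstance, fun L hL hT => ?_⟩
  refine (irred_of_primitive_prime hp hr hN h1 h2 (R := T.map H.subtype)
    ((((pCore_isPGroup r H).to_subgroup _).map _).map _) ((map_subtype_le _).trans hn)
    fun e => hT0 (hbot (map_subtype_le _) e)).2 L hL ?_
  rintro _ ⟨t, ht, rfl⟩
  exact mem_normalizer_fintype (hT t ht)

/-- A solvable 2-homogeneous group of odd order is a group of semi-affine maps of a finite field of order
`3` modulo `4`. -/
theorem Homog.exists_semiaffine_of_odd {α : Type*} [Fintype α] [DecidableEq α] [MulAction G α]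
    [FaithfulSMul G α] [Nontrivial G] (h2 : Homog G α 2) (hodd : Odd (Nat.card G))
    (hs : Group.IsSolvable G) :
    ∃ (K : Type) (_ : Field K) (_ : Fintype K) (e : K ≃ α), Fintype.card K % 4 = 3 ∧
      (∀ g : G, ∃ (c : Kˣ) (t : K) (φ : K ≃+* K), ∀ x : K, g • e x = e (c * φ x + t)) ∧
      ∀ t : K, ∃ g : G, ∀ x : K, g • e x = e (x + t) := by
  have h3 : 3 ≤ Fintype.card α := by
    by_contra hc
    have h1 := card_dvd_of_injective (toPermHom G α) toPerm_injective
    rw [Nat.card_eq_fintype_card (α := Equiv.Perm α), Fintype.card_perm] at h1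
    have h4 : Nat.card G ∣ 2 := h1.trans (Nat.factorial_dvd_factorial (show _ ≤ 2 by omega))
    have h5 := Finite.one_lt_card (α := G)
    have := Nat.le_of_dvd two_pos h4
    obtain ⟨k, hk⟩ := hodd
    omega
  have := h2.isPreprimitive h3
  obtain ⟨N, hN, -⟩ := exists_isMinNormal_le (⊤ : Subgroup G) top_ne_bot
  have := hN.normal
  have hNc := hN.isMulCommutative_of_isSolvable inferInstance
  obtain ⟨p, f, hp, hf, hNp⟩ := hN.exists_card_eq_pow inferInstance
  have hNt := CL.Grp.isPretransitive_of_normal_of_ne_bot (Ω := α) N hN.ne_bot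
  obtain ⟨a⟩ : Nonempty α := Fintype.card_pos_iff.1 (by omega)
  have hreg := stabilizer_eq_bot_of_isMulCommutative N a
  have hα : Nat.card α = p ^ f := by rw [CL.Grp.card_eq_of_regular N a hreg, hNp]
  obtain ⟨s, -, hs2⟩ := Finset.exists_subset_card_eq (s := (Finset.univ : Finset α)) (n := 2)
    (by rw [Finset.card_univ]; omega)
  have hch := h2.card_stabilizer_mul hs2
  have hG := card_eq_mul_card_stabilizer (G := G) a
  have ho : Odd (Nat.card α) := hodd.of_dvd_nat ⟨_, hG⟩
  obtain ⟨m, hm⟩ := ho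
  have hch2 : (Nat.card α).choose 2 = Nat.card α * m := by
    rw [Nat.choose_two_right, hm, Nat.add_sub_cancel, ← mul_assoc, mul_right_comm, Nat.mul_div_cancel _ two_pos]
  have hmd : m ∣ Nat.card (stabilizer G a) := by
    rw [hch2, hG, mul_left_comm] at hch
    exact Dvd.intro_left _ (Nat.eq_of_mul_eq_mul_left (by omega) hch)
  have hHo : Odd (Nat.card (stabilizer G a)) := hodd.of_dvd_nat (Dvd.intro_left _ hG.symm)
  obtain ⟨k, hk⟩ := hHo.of_dvd_nat hmd
  have hn : stabilizer G a ≤ normalizer (N : Set G) := by rw [normalizer_eq_top]; exact le_top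
  have hpo : Odd p := by
    refine hp.odd_of_ne_two ?_
    rintro rfl
    have := dvd_pow_self 2 hf.ne'
    omega
  obtain ⟨T, hT1, hT2, hT3⟩ : ∃ T : Subgroup (stabilizer G a), T.Normal ∧ IsMulCommutative T ∧
      ∀ L : Subgroup G, L ≤ N → (∀ t ∈ T, ∀ l ∈ L, (t : G) * l * (t : G)⁻¹ ∈ L) → L = ⊥ ∨ L = N := by
    by_cases hf1 : f = 1
    · refine ⟨⊥, inferInstance, inferInstance, fun L hL _ => ?_⟩
      rw [hf1, pow_one] at hNp
      rcases (Nat.dvd_prime hp).1 (hNp ▸ card_dvd_of_le hL) with e | e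
      · exact Or.inl (eq_bot_of_card_eq _ e)
      · exact Or.inr (eq_of_le_of_card_ge hL (by rw [e, hNp]))
    have hfo : Odd f := by
      rw [← Nat.not_even_iff_odd]
      rintro ⟨j, rfl⟩
      obtain ⟨i, hi⟩ := hpo.pow (n := j)
      rw [pow_add, hi] at hα
      have : (2 * i + 1) * (2 * i + 1) = 4 * (i * i + i) + 1 := by ring
      omega
    obtain ⟨M, hM1, hM2, hM3⟩ := CL.Fgs.exists_large_primitive_divisor p f hp.two_le
      (by obtain ⟨j, rfl⟩ := hfo; omega) (by
        intro hmem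
        simp only [CL.Fgs.zsigExc, List.mem_cons, Prod.mk.injEq, List.not_mem_nil, or_false] at hmem
        obtain ⟨i, hi⟩ := hpo
        obtain ⟨j, hj⟩ := hfo
        omega)
    have hr := Nat.minFac_prime (n := M) (by omega)
    have h4 : ∀ i, 1 ≤ i → i < f → ¬ M.minFac ∣ p ^ i - 1 := fun i h1 h2 hd =>
      hr.one_lt.ne' (Nat.eq_one_of_dvd_coprimes (hM2 i h1 h2) M.minFac_dvd hd)
    have h5 := M.minFac_dvd.trans hM1
    refine exists_abelian_normal_irred hp hr hf hNp h5 h4 inferInstance hHo ?_ hn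
      (stabilizer_inf_centralizer_eq_bot N a)
    rw [← hα, hm, Nat.add_sub_cancel] at h5
    refine (((Nat.Prime.dvd_mul hr).1 h5).resolve_left fun e => h4 1 le_rfl (by omega) ?_).trans hmd
    obtain ⟨i, hi⟩ := hpo
    exact e.trans ⟨i, by rw [pow_one]; omega⟩
  obtain ⟨K, _, _, ε, c, σ, e1, e2, e3, e4, e5, e6, -, -⟩ := exists_gammaL_one hNc hN.ne_bot hn T hT2 hT3
  have hεN : ∀ x, ε x ∈ N := fun x => (e2 _).2 ⟨x, rfl⟩
  have hbij : Function.Bijective fun x : K => ε x • a := by
    refine (Nat.bijective_iff_surjective_and_card _).2 ⟨fun y => ?_, ?_⟩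
    · obtain ⟨n, hn⟩ := exists_smul_eq N a y
      obtain ⟨x, hx⟩ := (e2 n).1 n.2
      exact ⟨x, by rw [← hn]; exact congrArg (· • a) hx⟩
    · rw [Nat.card_eq_fintype_card, e4, hNp, hα]
  refine ⟨K, inferInstance, inferInstance, Equiv.ofBijective _ hbij, by omega, fun g => ?_,
    fun t => ⟨ε t, fun x => ?_⟩⟩
  · obtain ⟨t, ht⟩ := hbij.2 (g • a)
    have hg : (ε t)⁻¹ * g ∈ stabilizer G a := by
      rw [mem_stabilizer_iff, mul_smul, inv_smul_eq_iff]; exact ht.symm
    refine ⟨Units.mk0 (c ⟨_, hg⟩) (e6 _), t, σ ⟨_, hg⟩, fun x => ?_⟩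
    show g • ε x • a = ε (c ⟨_, hg⟩ * σ ⟨_, hg⟩ x + t) • a
    rw [add_comm, e3, ← e5, mul_smul, mul_smul, inv_smul_eq_iff.2 (mem_stabilizer_iff.1 hg).symm,
      mul_smul, mul_smul, smul_inv_smul]
  · show ε t • ε x • a = ε (x + t) • a
    rw [add_comm, e3, mul_smul]

end CL.Perm
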