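/-
Knapp's theorem on primitive groups with a suborbit on which the stabiliser induces the alternating or
symmetric group unfaithfully (helper99), part A: the abstract amalgam argument.
-/
import Cfsg.Agent.Loc.TW

set_option autoImplicit false
open Cfsg Subgroup CL.Even CL.Grp CL.Loc CL.TW
open scoped commutatorElement

namespace CL.Knapp

section Perm

variable {α : Type*} [Fintype α] [DecidableEq α]

theorem alt_comm_ne (h5 : 5 ≤ Nat.card α) : ⁅alternatingGroup α, alternatingGroup α⁆ ≠ ⊥ := fun e => by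
  have h1 : IsMulCommutative (alternatingGroup α) := ⟨⟨fun x y => Subtype.ext
    ((commutator_eq_bot_iff_le_centralizer.mp e) y.2 x x.2)⟩⟩
  have := alternatingGroup.isMulCommutative_iff_card_le_three.mp h1
  omega

theorem alt_le_of_norm (h5 : 5 ≤ Nat.card α) {W : Subgroup (Equiv.Perm α)} (hW : W ≠ ⊥)
    (hn : alternatingGroup α ≤ 𝒩(W)) : alternatingGroup α ≤ W := by
  have := alternatingGroup.isSimpleGroup h5
  have hN : (W.subgroupOf (alternatingGroup α)).Normal := normal_subgroupOf_of_le_normalizer hn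
  rcases hN.eq_bot_or_eq_top with e | e
  · exfalso
    have h1 : W ≤ 𝒞(alternatingGroup α) := by
      rw [← commutator_eq_bot_iff_le_centralizer, ← le_bot_iff, ← (subgroupOf_eq_bot.mp e).eq_bot]
      exact le_inf (commutator_le_of_le_norm hn) (commutator_le_right _ _)
    have h2 : 𝒞(alternatingGroup α) ≠ ⊥ := fun e' => hW (le_bot_iff.mp (e' ▸ h1))
    have h3 := Equiv.Perm.alternatingGroup_le_of_normal h5 ((nontrivial_iff_ne_bot _).2 h2)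
    exact alt_comm_ne h5 (commutator_eq_bot_iff_le_centralizer.mpr h3)
  · exact subgroupOf_eq_top.mp e

theorem alt_le_of_subnIn (h5 : 5 ≤ Nat.card α) {W R : Subgroup (Equiv.Perm α)} (h : SubnIn W R)
    (hR : alternatingGroup α ≤ R) (hW : W ≠ ⊥) : alternatingGroup α ≤ W := by
  induction h with
  | refl => exact hR
  | step H L K hle hn _ ih => exact alt_le_of_norm h5 hW ((ih hR fun e => hW (le_bot_iff.mp (e ▸ hle))).trans hn)

end Perm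

variable {G : Type*} [Group G]

/-- `M/K` is almost simple with socle `Q/K` of order `n` and abelian quotient `M/Q`. -/
structure Top (M K Q : Subgroup G) (n : ℕ) : Prop where
  le₁ : K ≤ Q
  le₂ : Q ≤ M
  nK : M ≤ 𝒩(K)
  sub : ∀ W, SubnIn W M → ¬ W ≤ K → Q ≤ W ⊔ K
  nab : ¬ ⁅Q, Q⁆ ≤ K
  com : ⁅M, M⁆ ≤ Q
  idx : K.relIndex Q = n

theorem top_of_hom {α : Type*} [Fintype α] [DecidableEq α] (h5 : 5 ≤ Nat.card α) {M K : Subgroup G}
    (φ : M →* Equiv.Perm α) (hK : K ≤ M) (hker : φ.ker = K.subgroupOf M) (hA : alternatingGroup α ≤ φ.range) :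
    Top M K (((alternatingGroup α).comap φ).map M.subtype) (Nat.card (alternatingGroup α)) := by
  have hK' : K = φ.ker.map M.subtype := by rw [hker, map_subgroupOf_eq_of_le hK]
  have hm : ((alternatingGroup α).comap φ).map φ = alternatingGroup α := map_comap_eq_self hA
  refine ⟨?_, map_subtype_le _, ?_, fun W hW hWK => ?_, fun h => ?_, ?_, ?_⟩
  · rw [hK']; exact map_mono (ker_le_comap _ _)
  · rw [hK']; exact le_normalizer_map_subtype _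
  · have h1 : SubnIn ((W.subgroupOf M).map φ) φ.range := by
      have := (subnIn_top_iff.mpr (subnIn_iff.mp hW).2).map φ
      rwa [← MonoidHom.range_eq_map] at this
    have h2 := alt_le_of_subnIn h5 h1 hA fun e => hWK (by
      rw [Subgroup.map_eq_bot_iff, hker] at e
      exact fun x hx => e (show (⟨x, hW.le hx⟩ : M) ∈ W.subgroupOf M from hx))
    have h3 := comap_mono (f := φ) h2
    rw [comap_map_eq] at h3
    refine (map_mono h3).trans ?_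
    rw [Subgroup.map_sup, ← hK', map_subgroupOf_eq_of_le hW.le]
  · rw [← map_commutator, hK', map_le_map_iff_of_injective M.subtype_injective, ← Subgroup.map_eq_bot_iff, map_commutator,
      hm] at h
    exact alt_comm_ne h5 h
  · have : ⁅M, M⁆ = (⁅(⊤ : Subgroup M), (⊤ : Subgroup M)⁆ : Subgroup M).map M.subtype := by
      rw [map_commutator, ← MonoidHom.range_eq_map, range_subtype]
    rw [this]
    refine map_mono (map_le_iff_le_comap.mp ?_)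
    rw [map_commutator, ← alternatingGroup.commutator_perm_eq h5]
    exact commutator_mono le_top le_top
  · rw [hK', relIndex_map_map_of_injective _ _ M.subtype_injective, relIndex_ker, hm]

theorem comm_sup_le {A B K : Subgroup G} (hA : A ≤ 𝒩(K)) (hB : B ≤ 𝒩(K)) (h : ⁅A, B⁆ ≤ K) :
    ⁅A ⊔ K, B ⊔ K⁆ ≤ K := by
  have h1 : ∀ A B : Subgroup G, A ≤ 𝒩(K) → B ≤ 𝒩(K) → ⁅A, B⁆ ≤ K → ⁅B ⊔ K, A⁆ ≤ K := fun A B hA hB h => by
    rw [commutator_comm]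
    exact commutator_le_of_le_cmod (sup_le (le_cmod hB h) (le_cmod le_normalizer (commutator_le_of_le_norm' hA)))
  exact h1 _ _ (sup_le hB le_normalizer) hA (h1 A B hA hB h)

/-- `Z` has no proper normal subgroup of index `< n`. -/
def Big (n : ℕ) (Z : Subgroup G) : Prop := ∀ N : Subgroup G, Z ≤ 𝒩(N) → N.relIndex Z < n → Z ≤ N

theorem relIndex_cj (g : G) (A B : Subgroup G) : (cj g A).relIndex (cj g B) = A.relIndex B :=
  relIndex_map_map_of_injective _ _ (MulAut.conj g).injective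

theorem Big.conj {n : ℕ} {Z : Subgroup G} (h : Big n Z) (g : G) : Big n (cj g Z) := fun N h1 h2 => by
  rw [cj_le_iff]
  refine h _ (by rwa [← cj_norm, ← cj_le_iff]) ?_
  rwa [← relIndex_cj g, cj_cj_inv]

theorem Big.le [Finite G] {n : ℕ} {Z Y N : Subgroup G} (h : Big n Z) (hZ : Z ≤ Y) (hn : Y ≤ 𝒩(N))
    (hi : N.relIndex Y < n) : Z ≤ N :=
  h N (hZ.trans hn) ((relIndex_le_of_le_right hZ index_ne_zero_of_finite).trans_lt hi)

namespace Top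

variable {M K Q : Subgroup G} {n : ℕ} (h : Top M K Q n)
include h

theorem le_or_le {W W' : Subgroup G} (hW : SubnIn W M) (hW' : SubnIn W' M) (hc : ⁅W, W'⁆ ≤ K) :
    W ≤ K ∨ W' ≤ K := by
  by_contra hh
  push Not at hh
  exact h.nab ((commutator_mono (h.sub W hW hh.1) (h.sub W' hW' hh.2)).trans
    (comm_sup_le (hW.le.trans h.nK) (hW'.le.trans h.nK) hc))

theorem solv [Finite G] {W : Subgroup G} (hW : SubnIn W M) (hs : Group.IsSolvable W) : W ≤ K := by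
  induction W using WellFoundedLT.induction with
  | ind W ih =>
    by_cases e : W = ⊥
    · rw [e]; exact bot_le
    have h1 : ⁅W, W⁆ < W := by
      have := (nontrivial_iff_ne_bot _).2 e
      have h2 := IsSolvable.commutator_lt_top_of_nontrivial W
      have h3 := (map_lt_map_iff_of_injective W.subtype_injective).mpr h2
      rwa [_root_.commutator_def, map_commutator, ← MonoidHom.range_eq_map, range_subtype] at h3
    have h4 := ih _ h1 ((SubnIn.of_le_normalizer h1.le (le_norm_commutator le_normalizer le_normalizer)).trans hW)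
      (solvable_of_solvable_injective (inclusion_injective h1.le))
    exact (h.le_or_le hW hW h4).elim id id

theorem exists_big [Finite G] {Y : Subgroup G} (hY : Y ≤ M) (hQ : Q ≤ Y ⊔ K) :
    ∃ Z ≤ Y, Z ≠ ⊥ ∧ Big n Z := by
  obtain ⟨Z, hZ, hZ1, hZ2⟩ := exists_minimal_le_of_wellFoundedLT (fun Z => Q ≤ Z ⊔ K) Y hQ
  have hZM := hZ.trans hY
  refine ⟨Z, hZ, fun e => h.nab ?_, fun N h1 h2 => ?_⟩
  · rw [e, bot_sup_eq] at hZ1
    exact (commutator_mono hZ1 le_rfl).trans (commutator_le_of_le_norm (h.le₂.trans h.nK))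
  have h3 : SubnIn (Z ⊔ K) M := SubnIn.of_le_normalizer (sup_le hZM (h.le₁.trans h.le₂))
    (le_norm_of_commutator_le ((commutator_mono (sup_le hZM (h.le₁.trans h.le₂)) le_rfl).trans (h.com.trans hZ1)))
  have h4 : SubnIn (K ⊔ N ⊓ Z) (K ⊔ Z) :=
    (SubnIn.of_le_normalizer inf_le_right (le_norm_inf h1 le_normalizer)).sup_of_le_normalizer K (hZM.trans h.nK)
  rw [sup_comm K Z] at h4
  by_cases h5 : K ⊔ N ⊓ Z ≤ K
  · exfalso
    have h6 : K.relIndex Z ≤ N.relIndex Z := by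
      rw [← inf_relIndex_right N]
      exact relIndex_le_of_le_left (le_sup_right.trans h5) index_ne_zero_of_finite
    have h7 : K.relIndex Q ≤ K.relIndex (Z ⊔ K) := relIndex_le_of_le_right hZ1 index_ne_zero_of_finite
    have h8 : K.relIndex (Z ⊔ K) = K.relIndex Z := relIndex_sup_of_le_normalizer (hZM.trans h.nK)
    have := h.idx
    omega
  · have h6 := h.sub _ (h4.trans h3) h5
    rw [sup_comm, ← sup_assoc, sup_idem, sup_comm] at h6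
    exact (hZ2 h6 inf_le_right).trans inf_le_left

end Top

/-- The join of the big subgroups of `Y`. -/
def U (n : ℕ) (Y : Subgroup G) : Subgroup G := sSup {Z | Z ≤ Y ∧ Big n Z}

theorem U_le (n : ℕ) (Y : Subgroup G) : U n Y ≤ Y := sSup_le fun _ h => h.1

theorem cj_U (n : ℕ) (g : G) (Y : Subgroup G) : cj g (U n Y) = U n (cj g Y) := by
  have key : ∀ (g : G) (Y : Subgroup G), cj g (U n Y) ≤ U n (cj g Y) := fun g Y => by
    rw [cj_le_iff]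
    exact sSup_le fun Z hZ => cj_le_iff.mp (le_sSup ⟨cj_mono g hZ.1, hZ.2.conj g⟩)
  refine le_antisymm (key g Y) ?_
  have := key g⁻¹ (cj g Y)
  rwa [cj_inv_cj, ← le_cj_iff] at this

theorem le_norm_U (n : ℕ) (Y : Subgroup G) : Y ≤ 𝒩(U n Y) := fun g hg => by
  rw [← cj_eq_iff_mem, cj_U, cj_eq (le_normalizer hg)]

/-- Step 1: the paired action is also big. -/
theorem le_relIndex_cor [Finite G] {M₁ M₂ K Q : Subgroup G} {n : ℕ} (h : Pair M₁ M₂) (T : Top M₁ K Q n) :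
    n ≤ (cor M₂ M₁).relIndex M₂ := by
  by_contra hh
  push Not at hh
  have h1 : U n M₂ ≤ U n M₁ := sSup_le fun Z hZ =>
    le_sSup ⟨(hZ.2.le hZ.1 (le_norm_cor _ _) hh).trans (cor_le _ _), hZ.2⟩
  obtain ⟨g, hg⟩ := h.conj
  have h2 : U n M₂ = U n M₁ := eq_of_le_of_card_ge h1 (by rw [← hg, ← cj_U, card_cj])
  have h3 := h.eq_bot (U_le n M₁) (le_norm_U n M₁) (h2 ▸ le_norm_U n M₂)
  obtain ⟨Z, hZ, hZ1, hZ2⟩ := T.exists_big le_rfl (T.le₂.trans le_sup_left)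
  exact hZ1 (le_bot_iff.mp (h3 ▸ (le_sSup ⟨hZ, hZ2⟩ : Z ≤ U n M₁)))

theorem mem_cor {M X : Subgroup G} {x : G} : x ∈ cor M X ↔ x ∈ M ∧ ∀ g ∈ M, g * x * g⁻¹ ∈ X :=
  ⟨fun ⟨y, hy, e⟩ => e ▸ ⟨y.2, fun g hg => hy ⟨g, hg⟩⟩, fun h => ⟨⟨x, h.1⟩, fun g => h.2 g g.2, rfl⟩⟩

theorem le_cor' {M X Y : Subgroup G} (h1 : Y ≤ M) (h2 : ∀ g ∈ M, cj g Y ≤ X) : Y ≤ cor M X := fun _ hy =>
  mem_cor.mpr ⟨h1 hy, fun g hg => h2 g hg (conj_mem_cj g hy)⟩

/-- The data coming from an action of `M₁` on the cosets of `M₁ ⊓ M₂` containing the alternating group. -/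
structure Hyp (M₁ M₂ Q Q' : Subgroup G) (n n' : ℕ) : Prop where
  top : Top M₁ (cor M₁ M₂) Q n
  top' : Top (M₁ ⊓ M₂) (cor M₁ M₂) Q' n'
  tt : ∀ g ∈ M₁, ∀ g' ∈ M₁, g ∉ M₂ → g' ∉ M₂ → ∃ x ∈ M₁ ⊓ M₂, g * x * g'⁻¹ ∈ M₂
  small : (cor M₁ M₂).relIndex (M₁ ⊓ M₂) < n

namespace Hyp

variable {M₁ M₂ Q₁ Q₁' Q₂ Q₂' : Subgroup G} {n n₁ n₂ : ℕ}

theorem max (H : Hyp M₁ M₂ Q₁ Q₁' n n₁) {Y : Subgroup G} (h1 : M₁ ⊓ M₂ ≤ Y) {g : G} (hg : g ∈ M₁) (hg' : g ∉ M₂)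
    (hY : g ∈ Y) : M₁ ≤ Y := fun y hy => by
  by_cases e : y ∈ M₂
  · exact h1 ⟨hy, e⟩
  obtain ⟨x, hx, hx'⟩ := H.tt g hg y hy hg' e
  have h2 : g * x * y⁻¹ ∈ Y := h1 ⟨M₁.mul_mem (M₁.mul_mem hg hx.1) (M₁.inv_mem hy), hx'⟩
  have := mul_mem (inv_mem h2) (mul_mem hY (h1 hx))
  simpa [mul_assoc] using this

theorem fix (H : Hyp M₁ M₂ Q₁ Q₁' n n₁) {Y : Subgroup G} (h1 : Y ≤ M₁ ⊓ M₂) (hn : M₁ ⊓ M₂ ≤ 𝒩(Y)) {g : G}
    (hg : g ∈ M₁) (hg' : g ∉ M₂) (hY : cj g Y ≤ M₂) : Y ≤ cor M₁ M₂ := by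
  refine le_cor' (h1.trans inf_le_left) fun y hy => ?_
  by_cases e : y ∈ M₂
  · exact cj_le_of_mem (h1.trans inf_le_right) e
  obtain ⟨x, hx, hx'⟩ := H.tt g hg y hy hg' e
  have : y = (g * x * y⁻¹)⁻¹ * g * x := by group
  rw [this, cj_mul, cj_mul, cj_eq (hn hx)]
  exact cj_le_of_mem hY (inv_mem hx')

variable [Finite G] (h : Pair M₁ M₂) (H₁ : Hyp M₁ M₂ Q₁ Q₁' n n₁) (H₂ : Hyp M₂ M₁ Q₂ Q₂' n n₂)

include H₁ h in
theorem fitting_eq_bot : fittingOf (M₁ ⊓ M₂) = ⊥ :=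
  h.fitting_inf_eq_bot (H₁.top'.solv (SubnIn.of_le_normalizer (fittingOf_le _) (le_normalizer_fittingOf _))
    (by have := fittingOf_isNilpotent (M₁ ⊓ M₂); infer_instance))

include H₁ H₂ in
theorem cj_cor_eq (hb : cor₂ M₁ M₂ = ⊥) {g : G} (hg : cj g M₁ = M₂) : cj g (cor M₁ M₂) = cor M₂ M₁ := by
  have h1 : M₂ ≤ 𝒩(cj g (cor M₁ M₂)) := by rw [← cj_norm, ← hg]; exact cj_mono g (le_norm_cor _ _)
  have h2 : cj g (cor M₁ M₂) ≤ M₂ := hg ▸ cj_mono g (cor_le_left _ _)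
  have hK : cor M₁ M₂ ≤ M₂ ⊓ M₁ := le_inf (cor_le _ _) (cor_le_left _ _)
  have h3 : cj g (cor M₁ M₂) ≤ cor M₂ M₁ := by
    by_contra hh
    obtain ⟨Z, hZ, hZ1, hZ2⟩ := H₂.top.exists_big h2 (H₂.top.sub _ (SubnIn.of_le_normalizer h2 h1) hh)
    rw [le_cj_iff] at hZ
    have h4 : cj g⁻¹ Z ≤ cor₂ M₁ M₂ := le_cor' (hZ.trans (cor_le_left _ _)) fun y hy =>
      ((hZ2.conj _).conj y).le ((cj_le_of_le hZ (le_norm_cor _ _ hy)).trans hK)
        (inf_le_left.trans (le_norm_cor _ _)) H₂.small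
    rw [hb, le_bot_iff, cj_eq_bot] at h4
    exact hZ1 h4
  refine le_antisymm h3 ?_
  rw [le_cj_iff]
  have hg' : cj g⁻¹ M₂ = M₁ := by rw [← hg, cj_inv_cj]
  by_contra hh
  have h4 : cj g⁻¹ (cor M₂ M₁) ≤ M₁ := (cj_mono _ (cor_le_left _ _)).trans hg'.le
  have h5 : M₁ ≤ 𝒩(cj g⁻¹ (cor M₂ M₁)) := by
    rw [← cj_norm]; exact hg'.ge.trans (cj_mono _ (le_norm_cor _ _))
  have h6 := H₁.top.com.trans ((H₁.top.sub _ (SubnIn.of_le_normalizer h4 h5) hh).trans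
    (sup_le le_rfl (cj_le_iff.mp h3)))
  rw [← cj_le_iff, cj_commutator, hg] at h6
  exact H₂.top.nab ((commutator_mono H₂.top.le₂ H₂.top.le₂).trans h6)

include H₁ H₂ h in
theorem exists_cj : ∃ g, cj g M₁ = M₂ ∧ cj g (cor M₁ M₂) = cor M₂ M₁ := by
  obtain ⟨g, hg⟩ := h.conj
  rcases h.cor₂_eq_bot (H₁.fitting_eq_bot h) with e | e
  · exact ⟨g, hg, H₁.cj_cor_eq H₂ e hg⟩
  · refine ⟨g, hg, ?_⟩
    rw [← H₂.cj_cor_eq H₁ e (g := g⁻¹) (by rw [← hg, cj_inv_cj]), cj_cj_inv]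

include H₁ H₂ h in
theorem not_le (hK : cor M₁ M₂ ≠ ⊥) : ¬ cor M₁ M₂ ≤ cor M₂ M₁ := fun hh => by
  obtain ⟨g, -, hg⟩ := H₁.exists_cj h H₂
  have e := eq_of_le_of_card_ge hh (by rw [← hg, card_cj])
  exact hK (h.eq_bot (cor_le_left _ _) (le_norm_cor _ _) (e ▸ le_norm_cor M₂ M₁))

include H₁ H₂ h in
theorem ne_bot' (hK : cor M₁ M₂ ≠ ⊥) : cor M₂ M₁ ≠ ⊥ := by
  obtain ⟨g, -, hg⟩ := H₁.exists_cj h H₂
  rwa [← hg, Ne, cj_eq_bot]

omit [Finite G] in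
include H₂ in
theorem norm_comp {W : Subgroup G} (hW : IsCompIn W (cor M₁ M₂)) (hn : ¬ W ≤ cor M₂ M₁) : M₁ ⊓ M₂ ≤ 𝒩(W) := by
  have hs : SubnIn (cor M₁ M₂) (M₂ ⊓ M₁) := inf_comm M₁ M₂ ▸ subnIn_cor_inf M₁ M₂
  intro x hx
  have h1 : IsCompIn (cj x W) (cor M₁ M₂) := hW.conj_smul_of_mem_normalizer (le_norm_cor _ _ hx.1)
  rcases h1.eq_or_commutator_eq_bot hW with e | e
  · exact cj_eq_iff_mem.mp e
  · rcases H₂.top'.le_or_le (h1.1.trans hs) (hW.1.trans hs) (e.le.trans bot_le) with e' | e'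
    · exact absurd ((cj_le_iff.mp e').trans (cj_eq (inv_mem (le_norm_cor _ _ hx.2))).le) hn
    · exact absurd e' hn

omit [Finite G] in
theorem exists_cj_not_le (hb : cor₂ M₁ M₂ = ⊥) {W : Subgroup G} (hW : IsCompIn W (cor M₁ M₂)) :
    ∃ g ∈ M₁, ¬ cj g W ≤ cor M₂ M₁ := by
  by_contra hh
  push Not at hh
  exact hW.ne_bot (le_bot_iff.mp (hb ▸ le_cor' (hW.le.trans (cor_le_left _ _)) hh))

omit [Finite G] in
include H₂ in
theorem le_norm_comp (hb : cor₂ M₁ M₂ = ⊥) {W : Subgroup G} (hW : IsCompIn W (cor M₁ M₂)) :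
    cor M₁ M₂ ≤ 𝒩(W) := by
  obtain ⟨g, hg, hg'⟩ := exists_cj_not_le hb hW
  have h1 := H₂.norm_comp (hW.conj_smul_of_mem_normalizer (le_norm_cor _ _ hg)) hg'
  have h2 : cj g (cor M₁ M₂) ≤ 𝒩(cj g W) := by
    rw [cj_eq (le_norm_cor _ _ hg)]; exact (le_inf (cor_le_left _ _) (cor_le _ _)).trans h1
  rwa [← cj_norm, cj_le_cj] at h2

include H₁ H₂ h in
theorem inf_eq_bot_aux (hK : cor M₁ M₂ ≠ ⊥) (hb : cor₂ M₁ M₂ = ⊥) : cor M₁ M₂ ⊓ cor M₂ M₁ = ⊥ := by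
  by_contra hX
  have hD₁ : cor M₁ M₂ ≤ M₁ ⊓ M₂ := le_inf (cor_le_left _ _) (cor_le _ _)
  have hD₂ : cor M₂ M₁ ≤ M₁ ⊓ M₂ := le_inf (cor_le _ _) (cor_le_left _ _)
  have hn : M₁ ⊓ M₂ ≤ 𝒩(cor M₁ M₂ ⊓ cor M₂ M₁) :=
    le_norm_inf (inf_le_left.trans (le_norm_cor _ _)) (inf_le_right.trans (le_norm_cor _ _))
  obtain ⟨W, hW⟩ : ∃ W, IsCompIn W (cor M₁ M₂ ⊓ cor M₂ M₁) := by
    by_contra hh
    push Not at hh
    have h1 := fittingOf_mono_of_subnIn (SubnIn.of_le_normalizer (inf_le_left.trans hD₁) hn)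
    rw [H₁.fitting_eq_bot h, le_bot_iff] at h1
    have h2 : fstarOf (cor M₁ M₂ ⊓ cor M₂ M₁) = ⊥ := by
      rw [fstarOf_eq, subgroupLayer_eq_bot_iff.mpr hh, h1, bot_sup_eq]
    have h3 := fstar_eq_bot_iff.mp ((map_eq_bot_iff_of_injective _ (subtype_injective _)).mp h2)
    exact hX (eq_bot_of_subsingleton _)
  have hW₁ := hW.trans (SubnIn.of_le_normalizer inf_le_left (hD₁.trans hn))
  have hW₂ := hW.trans (SubnIn.of_le_normalizer inf_le_right (hD₂.trans hn))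
  have h1 : cor M₂ M₁ ≤ 𝒩(W) := by
    obtain ⟨g, -, hg⟩ := H₁.exists_cj h H₂
    have h2 : IsCompIn (cj g⁻¹ W) (cj g⁻¹ (cor M₂ M₁)) := hW₂.conj_smul g⁻¹
    rw [← hg, cj_inv_cj] at h2
    have h3 := H₂.le_norm_comp hb h2
    rwa [← cj_norm, ← cj_le_iff, hg] at h3
  obtain ⟨g, hg, hg'⟩ := exists_cj_not_le hb hW₁
  have h2 := H₂.norm_comp (hW₁.conj_smul_of_mem_normalizer (le_norm_cor _ _ hg)) hg'
  have h3 : g ∉ M₂ := fun e => hg' (cj_le_of_le hW₂.le (le_norm_cor _ _ e))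
  have h4 : cj g (cor M₂ M₁) ≤ M₂ := fun x hx => by
    by_contra hh
    have h5 : x ∈ M₁ := cj_le_of_mem (cor_le _ _) hg hx
    have h6 : x ∈ 𝒩(cj g W) := by rw [← cj_norm]; exact cj_mono g h1 hx
    have h7 := cj_eq (H₁.max h2 h5 hh h6 (inv_mem hg))
    change cj g⁻¹ (cj g W) = cj g W at h7
    rw [cj_inv_cj] at h7
    exact hg' (h7 ▸ hW₂.le)
  exact H₂.not_le h.symm H₁ (H₁.ne_bot' h H₂ hK)
    (H₁.fix hD₂ (inf_le_right.trans (le_norm_cor _ _)) hg h3 h4)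

include H₁ H₂ h in
theorem inf_eq_bot (hK : cor M₁ M₂ ≠ ⊥) : cor M₁ M₂ ⊓ cor M₂ M₁ = ⊥ := by
  rcases h.cor₂_eq_bot (H₁.fitting_eq_bot h) with e | e
  · exact H₁.inf_eq_bot_aux h H₂ hK e
  · rw [inf_comm]; exact H₂.inf_eq_bot_aux h.symm H₁ (H₁.ne_bot' h H₂ hK) e

include H₁ H₂ h in
/-- The structure of the centraliser of the kernel. -/
theorem cent (hK : cor M₁ M₂ ≠ ⊥) : (M₁ ⊓ 𝒞(cor M₁ M₂)) ⊓ cor M₁ M₂ = ⊥ ∧
    (M₁ ⊓ 𝒞(cor M₁ M₂)) ⊓ M₂ = cor M₂ M₁ ∧ M₁ ≤ (M₁ ⊓ 𝒞(cor M₁ M₂)) ⊔ M₁ ⊓ M₂ ∧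
    Q₁ ≤ (M₁ ⊓ 𝒞(cor M₁ M₂)) ⊔ cor M₁ M₂ ∧ Q₂' ≤ cor M₁ M₂ ⊔ cor M₂ M₁ := by
  have hX := H₁.inf_eq_bot h H₂ hK
  have hD₁ : cor M₁ M₂ ≤ M₂ ⊓ M₁ := le_inf (cor_le _ _) (cor_le_left _ _)
  have hs : SubnIn (cor M₁ M₂) (M₂ ⊓ M₁) := inf_comm M₁ M₂ ▸ subnIn_cor_inf M₁ M₂
  have hn : M₁ ≤ 𝒩(M₁ ⊓ 𝒞(cor M₁ M₂)) := le_norm_inf le_normalizer (le_norm_cent (le_norm_cor _ _))
  have h1 : cor M₂ M₁ ≤ M₁ ⊓ 𝒞(cor M₁ M₂) := le_inf (cor_le _ _) (by
    rw [← commutator_eq_bot_iff', ← le_bot_iff, ← hX]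
    exact le_inf (commutator_le_of_le_norm ((cor_le _ _).trans (le_norm_cor _ _)))
      (commutator_le_of_le_norm' ((cor_le _ _).trans (le_norm_cor _ _))))
  have h2 := H₁.not_le h H₂ hK
  have h3 := H₂.not_le h.symm H₁ (H₁.ne_bot' h H₂ hK)
  have h4 : ∀ Y : Subgroup G, Y ≤ (M₁ ⊓ 𝒞(cor M₁ M₂)) ⊓ M₂ → M₂ ⊓ M₁ ≤ 𝒩(Y) → Y ≤ cor M₂ M₁ := fun Y hY hY' =>
    (H₂.top'.le_or_le hs (SubnIn.of_le_normalizer (le_inf (hY.trans inf_le_right)
      (hY.trans (inf_le_left.trans inf_le_left))) hY') ((commutator_eq_bot_iff'.mpr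
        (hY.trans (inf_le_left.trans inf_le_right))).le.trans bot_le)).resolve_left h2
  have h5 : ¬ M₁ ⊓ 𝒞(cor M₁ M₂) ≤ cor M₁ M₂ := fun e => h3 (h1.trans e)
  refine ⟨le_bot_iff.mp (hX ▸ le_inf inf_le_right (h4 _ (inf_le_inf_left _ (cor_le _ _))
    (inf_le_right.trans (le_norm_inf hn (le_norm_cor _ _))))), le_antisymm (h4 _ le_rfl (le_norm_inf
      (inf_le_right.trans hn) (inf_le_left.trans le_normalizer))) (le_inf h1 (cor_le_left _ _)), ?_,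
    H₁.top.sub _ (SubnIn.of_le_normalizer inf_le_left hn) h5, H₂.top'.sub _ hs h2⟩
  obtain ⟨c, hc, hc'⟩ := SetLike.not_le_iff_exists.mp fun e => h5 (le_cor inf_le_left e hn)
  exact H₁.max le_sup_right hc.1 hc' (mem_sup_left hc)

end Hyp

end CL.Knapp
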