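/-
Knapp's theorem (helper99), part B: the permutation side.
-/
import Cfsg.Agent.Perm.KnappA

set_option autoImplicit false
open Cfsg Subgroup CL.Even CL.Grp CL.Loc CL.TW MulAction Equiv
open scoped commutatorElement

namespace CL.Knapp

section Final

variable {α β M : Type*} [Fintype α] [DecidableEq α] [Fintype β] [DecidableEq β] [Group M]

theorem mem_of_sign {R : Subgroup (Perm α × Perm β)} (hR : (alternatingGroup α).prod (alternatingGroup β) ≤ R)
    {r x : Perm α × Perm β} (hr : r ∈ R) (h1 : Perm.sign r.1 = Perm.sign x.1) (h2 : Perm.sign r.2 = Perm.sign x.2) :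
    x ∈ R := by
  have : r⁻¹ * x ∈ R := hR ⟨by simp [Perm.mem_alternatingGroup, h1], by simp [Perm.mem_alternatingGroup, h2]⟩
  simpa using mul_mem hr this

theorem cases_of_alt_le {R : Subgroup (Perm α × Perm β)} (hR : (alternatingGroup α).prod (alternatingGroup β) ≤ R)
    (h3 : (∀ r ∈ R, Perm.sign r.1 = 1) → ∀ r ∈ R, Perm.sign r.2 = 1) :
    R = (alternatingGroup α).prod (alternatingGroup β) ∨ ((∃ r ∈ R, Perm.sign r.1 = -1) ∧ (R = ⊤ ∨
      R = (⊤ : Subgroup (Perm α)).prod (alternatingGroup β) ∨ R = ((Perm.sign.comp (MonoidHom.fst (Perm α) (Perm β))) *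
        (Perm.sign.comp (MonoidHom.snd (Perm α) (Perm β)))).ker)) := by
  by_cases h1 : ∀ r ∈ R, Perm.sign r.1 = 1
  · exact Or.inl (le_antisymm (fun r hr => ⟨h1 r hr, h3 h1 r hr⟩) hR)
  push Not at h1
  obtain ⟨r, hr, hr1⟩ := h1
  replace hr1 := (Int.units_eq_one_or _).resolve_left hr1
  refine Or.inr ⟨⟨r, hr, hr1⟩, ?_⟩
  have h0 : ∀ x : Perm α × Perm β, Perm.sign x.1 = 1 → Perm.sign x.2 = 1 → x ∈ R := fun x h h' => hR ⟨h, h'⟩
  by_cases h2 : ∃ s ∈ R, Perm.sign s.1 = 1 ∧ Perm.sign s.2 = -1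
  · obtain ⟨s, hs, hs1, hs2⟩ := h2
    refine Or.inl (eq_top_iff.mpr fun x _ => ?_)
    rcases Int.units_eq_one_or (Perm.sign x.1) with e | e <;> rcases Int.units_eq_one_or (Perm.sign x.2) with e' | e'
    · exact h0 x e e'
    · exact mem_of_sign hR hs (by rw [hs1, e]) (by rw [hs2, e'])
    · rcases Int.units_eq_one_or (Perm.sign r.2) with f | f
      · exact mem_of_sign hR hr (by rw [hr1, e]) (by rw [f, e'])
      · exact mem_of_sign hR (mul_mem hr hs) (by simp [hr1, hs1, e]) (by simp [f, hs2, e'])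
    · rcases Int.units_eq_one_or (Perm.sign r.2) with f | f
      · exact mem_of_sign hR (mul_mem hr hs) (by simp [hr1, hs1, e]) (by simp [f, hs2, e'])
      · exact mem_of_sign hR hr (by rw [hr1, e]) (by rw [f, e'])
  push Not at h2
  replace h2 : ∀ s ∈ R, Perm.sign s.1 = 1 → Perm.sign s.2 = 1 := fun s hs h =>
    (Int.units_eq_one_or _).resolve_right (h2 s hs h)
  have h4 : ∀ s ∈ R, Perm.sign s.1 = -1 → Perm.sign s.2 = Perm.sign r.2 := fun s hs h => by
    have := h2 _ (mul_mem hs (inv_mem hr)) (by simp [h, hr1])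
    simpa [mul_eq_one_iff_eq_inv] using this
  right
  rcases Int.units_eq_one_or (Perm.sign r.2) with f | f
  · refine Or.inl (le_antisymm (fun s hs => mem_prod.mpr ⟨mem_top _, ?_⟩) fun x hx => ?_)
    · rcases Int.units_eq_one_or (Perm.sign s.1) with e | e
      · exact h2 s hs e
      · exact (h4 s hs e).trans f
    · rcases Int.units_eq_one_or (Perm.sign x.1) with e | e
      · exact h0 x e hx.2
      · exact mem_of_sign hR hr (by rw [hr1, e]) (f.trans (Eq.symm hx.2))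
  · refine Or.inr (le_antisymm (fun s hs => ?_) fun x hx => ?_)
    · change Perm.sign s.1 * Perm.sign s.2 = 1
      rcases Int.units_eq_one_or (Perm.sign s.1) with e | e
      · rw [h2 s hs e, e, one_mul]
      · rw [h4 s hs e, e, f]; rfl
    · change Perm.sign x.1 * Perm.sign x.2 = 1 at hx
      rcases Int.units_eq_one_or (Perm.sign x.1) with e | e
      · exact h0 x e (by simpa [e] using hx)
      · refine mem_of_sign hR hr (by rw [hr1, e]) ?_
        rw [e] at hx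
        rw [f, ← neg_eq_iff_eq_neg.mp (by simpa using hx)]

theorem final (φ : M →* Perm α) (χ : M →* Perm β) (hinj : φ.ker ⊓ χ.ker = ⊥)
    (h1 : alternatingGroup α ≤ χ.ker.map φ) (h2 : alternatingGroup β ≤ φ.ker.map χ)
    (h3 : φ.range ≤ alternatingGroup α → χ.range ≤ alternatingGroup β) :
    (φ.range = alternatingGroup α ∧ Nonempty (M ≃* alternatingGroup α × alternatingGroup β)) ∨
    (φ.range = ⊤ ∧ (Nonempty (M ≃* Perm α × Perm β) ∨ Nonempty (M ≃* Perm α × alternatingGroup β) ∨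
      Nonempty (M ≃* ((Perm.sign.comp (MonoidHom.fst (Perm α) (Perm β))) *
        (Perm.sign.comp (MonoidHom.snd (Perm α) (Perm β)))).ker))) := by
  have hi : Function.Injective (φ.prod χ) := by rw [← MonoidHom.ker_eq_bot_iff, MonoidHom.ker_prod, hinj]
  have e := MonoidHom.ofInjective hi
  have hR : (alternatingGroup α).prod (alternatingGroup β) ≤ (φ.prod χ).range := by
    rintro ⟨σ, τ⟩ ⟨hσ, hτ⟩
    obtain ⟨c, hc, rfl⟩ := h1 hσ
    obtain ⟨k, hk, rfl⟩ := h2 hτ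
    refine ⟨c * k, ?_⟩
    rw [SetLike.mem_coe, MonoidHom.mem_ker] at hc hk
    simp [hc, hk]
  have hA : alternatingGroup α ≤ φ.range := h1.trans (map_le_range _ _)
  rcases cases_of_alt_le hR (fun h => by
    rintro _ ⟨x, rfl⟩
    exact h3 (by rintro _ ⟨y, rfl⟩; exact h _ ⟨y, rfl⟩) ⟨x, rfl⟩) with h | ⟨⟨_, ⟨r, rfl⟩, hr⟩, h⟩
  · refine Or.inl ⟨le_antisymm ?_ hA, ⟨(e.trans (MulEquiv.subgroupCongr h)).trans (prodEquiv _ _)⟩⟩
    rintro _ ⟨x, rfl⟩
    exact (h.le ⟨x, rfl⟩).1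
  · refine Or.inr ⟨eq_top_iff.mpr fun σ _ => ?_, ?_⟩
    · rcases Int.units_eq_one_or (Perm.sign σ) with f | f
      · exact hA f
      · have : (φ r)⁻¹ * σ ∈ φ.range := hA (by
          change Perm.sign (φ r) = -1 at hr
          simp [Perm.mem_alternatingGroup, hr, f])
        simpa using mul_mem (⟨r, rfl⟩ : φ r ∈ φ.range) this
    · rcases h with h | h | h
      · exact Or.inl ⟨(e.trans (MulEquiv.subgroupCongr h)).trans topEquiv⟩
      · exact Or.inr (Or.inl ⟨((e.trans (MulEquiv.subgroupCongr h)).trans (prodEquiv _ _)).trans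
          (MulEquiv.prodCongr topEquiv (MulEquiv.refl _))⟩)
      · exact Or.inr (Or.inr ⟨e.trans (MulEquiv.subgroupCongr h)⟩)

end Final

variable {G : Type*} [Group G]

/-- Abstract form of the conclusion. -/
theorem Hyp.main [Finite G] {M₁ M₂ Q₂ : Subgroup G} {n n₁ n₂ : ℕ} {α β : Type*} [Fintype α] [DecidableEq α]
    [Fintype β] [DecidableEq β] (h : Pair M₁ M₂) (φ : M₁ →* Perm α) (ψ : ↥(M₂ ⊓ M₁) →* Perm β) {Q₁' : Subgroup G}
    (H₁ : Hyp M₁ M₂ (((alternatingGroup α).comap φ).map M₁.subtype) Q₁' n n₁)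
    (H₂ : Hyp M₂ M₁ Q₂ (((alternatingGroup β).comap ψ).map (M₂ ⊓ M₁).subtype) n n₂)
    (hφ : φ.ker = (cor M₁ M₂).subgroupOf M₁) (hψ : ψ.ker = (cor M₂ M₁).subgroupOf _)
    (hA : alternatingGroup α ≤ φ.range) (hB : alternatingGroup β ≤ ψ.range)
    (h3 : φ.range ≤ alternatingGroup α → ψ.range ≤ alternatingGroup β) (hK : cor M₁ M₂ ≠ ⊥) :
    ∃ χ : M₁ →* Perm β, φ.ker ⊓ χ.ker = ⊥ ∧ alternatingGroup α ≤ χ.ker.map φ ∧
      alternatingGroup β ≤ φ.ker.map χ ∧ (φ.range ≤ alternatingGroup α → χ.range ≤ alternatingGroup β) := by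
  obtain ⟨c1, c2, c3, c4, c5⟩ := H₁.cent h H₂ hK
  set C := M₁ ⊓ 𝒞(cor M₁ M₂) with hC
  have hn : M₁ ≤ 𝒩(C) := le_norm_inf le_normalizer (le_norm_cent (le_norm_cor _ _))
  have : (C.subgroupOf M₁).Normal := normal_subgroupOf_of_le_normalizer hn
  let f : ↥(M₂ ⊓ M₁) →* M₁ ⧸ C.subgroupOf M₁ := (QuotientGroup.mk' _).comp (inclusion inf_le_right)
  have hdec : ∀ m : M₁, ∃ x : ↥(M₂ ⊓ M₁), f x = QuotientGroup.mk' _ m := fun m => by
    obtain ⟨c, hc, x, hx, e⟩ := (mem_sup_nl (inf_le_left.trans hn)).mp (c3 m.2)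
    refine ⟨⟨x, hx.2, hx.1⟩, ?_⟩
    have : m = ⟨c, hc.1⟩ * ⟨x, hx.1⟩ := Subtype.ext e.symm
    have h1 : QuotientGroup.mk' (C.subgroupOf M₁) ⟨c, hc.1⟩ = 1 := (QuotientGroup.eq_one_iff _).mpr hc
    rw [this, map_mul, h1, one_mul]; rfl
  have hf : Function.Surjective f := fun q => by
    obtain ⟨m, rfl⟩ := QuotientGroup.mk'_surjective _ q
    exact hdec m
  have hker : f.ker = ψ.ker := by
    ext x
    rw [hψ, MonoidHom.mem_ker, mem_subgroupOf, ← c2]
    exact (QuotientGroup.eq_one_iff _).trans ⟨fun e => ⟨e, x.2.1⟩, fun e => e.1⟩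
  let χ' := f.liftOfSurjective hf ⟨ψ, hker.le⟩
  have hχ : ∀ x, χ' (f x) = ψ x := fun x => MonoidHom.liftOfRightInverse_comp_apply _ _ _ _ x
  have hkχ : (χ'.comp (QuotientGroup.mk' _)).ker = C.subgroupOf M₁ := by
    ext m
    obtain ⟨x, hx⟩ := hdec m
    rw [MonoidHom.mem_ker, MonoidHom.comp_apply, ← hx, hχ, ← MonoidHom.mem_ker, ← hker, MonoidHom.mem_ker, hx]
    exact QuotientGroup.eq_one_iff _
  refine ⟨χ'.comp (QuotientGroup.mk' _), ?_, fun σ hσ => ?_, fun τ hτ => ?_, fun e => ?_⟩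
  · rw [hkχ, hφ, eq_bot_iff]
    exact fun x hx => mem_bot.mpr (Subtype.ext (mem_bot.mp (c1.le ⟨hx.2, hx.1⟩)))
  · obtain ⟨m, rfl⟩ := hA hσ
    obtain ⟨c, hc, k, hk, e⟩ := (mem_sup_nr (inf_le_left.trans (le_norm_cor _ _))).mp (c4 ⟨m, hσ, rfl⟩)
    refine ⟨⟨c, hc.1⟩, by rw [hkχ]; exact hc, ?_⟩
    have h1 : m = ⟨c, hc.1⟩ * ⟨k, cor_le_left _ _ hk⟩ := Subtype.ext e.symm
    have h2 : φ ⟨k, cor_le_left _ _ hk⟩ = 1 := by rw [← MonoidHom.mem_ker, hφ]; exact hk
    rw [h1, map_mul, h2, mul_one]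
  · obtain ⟨m, rfl⟩ := hB hτ
    obtain ⟨c, hc, k, hk, e⟩ := (mem_sup_nr ((cor_le _ _).trans (le_norm_cor _ _))).mp (c5 ⟨m, hτ, rfl⟩)
    refine ⟨⟨c, cor_le_left _ _ hc⟩, by rw [hφ]; exact hc, ?_⟩
    have h1 : m = ⟨c, cor_le _ _ hc, cor_le_left _ _ hc⟩ * ⟨k, cor_le_left _ _ hk, cor_le _ _ hk⟩ :=
      Subtype.ext e.symm
    have h2 : ψ ⟨k, cor_le_left _ _ hk, cor_le _ _ hk⟩ = 1 := by rw [← MonoidHom.mem_ker, hψ]; exact hk
    rw [h1, map_mul, h2, mul_one, ← hχ]; rfl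
  · rintro _ ⟨m, rfl⟩
    obtain ⟨x, hx⟩ := hdec m
    rw [MonoidHom.comp_apply, ← hx, hχ]
    exact h3 e ⟨x, rfl⟩

section Action

variable {Ω : Type*} [MulAction G Ω] [Finite G] [Finite Ω]

theorem exists_homs {a b : Ω} {d : ℕ} (hd : Nat.card (orbit (stabilizer G a) b) = d) (h6 : 6 ≤ d)
    (halt : (toPermHom (stabilizer G a) (orbit (stabilizer G a) b)).range.index ≤ 2) :
    ∃ (φ : stabilizer G a →* Perm (Fin d)) (ψ : ↥(stabilizer G a ⊓ stabilizer G b) →* Perm (Fin (d - 1))),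
      φ.ker = (cor (stabilizer G a) (stabilizer G b)).subgroupOf _ ∧
      ψ.ker = (cor (stabilizer G a) (stabilizer G b)).subgroupOf _ ∧
      alternatingGroup _ ≤ φ.range ∧ alternatingGroup _ ≤ ψ.range ∧
      (∀ x, Perm.sign (ψ x) = Perm.sign (φ (inclusion inf_le_left x))) ∧
      φ.range.index = (toPermHom (stabilizer G a) (orbit (stabilizer G a) b)).range.index ∧
      ∀ g ∈ stabilizer G a, ∀ g' ∈ stabilizer G a, g ∉ stabilizer G b → g' ∉ stabilizer G b →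
        ∃ x ∈ stabilizer G a ⊓ stabilizer G b, g * x * g'⁻¹ ∈ stabilizer G b := by
  classical
  have := Fintype.ofFinite (orbit (stabilizer G a) b)
  set φ₀ := toPermHom (stabilizer G a) (orbit (stabilizer G a) b) with hφ₀
  have hA := Perm.alternatingGroup_le_of_index_le_two halt
  let b₀ : orbit (stabilizer G a) b := ⟨b, mem_orbit_self b⟩
  have hfix : ∀ m : stabilizer G a, φ₀ m b₀ = b₀ ↔ (m : G) ∈ stabilizer G b := fun m => Subtype.ext_iff
  have hp : ∀ (x : ↥(stabilizer G a ⊓ stabilizer G b)) (y : orbit (stabilizer G a) b),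
      φ₀ (inclusion inf_le_left x) y ≠ b₀ ↔ y ≠ b₀ := fun x y => by
    conv_lhs => rw [← (hfix (inclusion inf_le_left x)).mpr x.2.2]
    exact (φ₀ _).injective.ne_iff
  let ψ₀ : ↥(stabilizer G a ⊓ stabilizer G b) →* Perm {y // y ≠ b₀} :=
    { toFun := fun x => (φ₀ (inclusion inf_le_left x)).subtypePerm (hp x)
      map_one' := by ext y; simp
      map_mul' := fun x y => Equiv.ext fun z => Subtype.ext (by
        change φ₀ (inclusion inf_le_left (x * y)) z = φ₀ (inclusion inf_le_left x) (φ₀ (inclusion inf_le_left y) z)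
        rw [map_mul, map_mul]; rfl) }
  have hs : ∀ x, Perm.sign (ψ₀ x) = Perm.sign (φ₀ (inclusion inf_le_left x)) := fun x =>
    Perm.sign_subtypePerm _ (hp x) fun y hy e => hy (by rw [e]; exact (hfix _).mpr x.2.2)
  have hB : alternatingGroup _ ≤ ψ₀.range := fun σ hσ => by
    obtain ⟨m, hm⟩ := hA (show Perm.ofSubtype σ ∈ alternatingGroup _ by
      rw [Perm.mem_alternatingGroup, Perm.sign_ofSubtype]; exact hσ)
    have h1 : (m : G) ∈ stabilizer G b := (hfix m).mp (by rw [hm]; exact Perm.ofSubtype_apply_of_not_mem σ (by simp))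
    refine ⟨⟨m, m.2, h1⟩, Equiv.ext fun y => Subtype.ext ?_⟩
    change φ₀ m y = σ y
    rw [hm, Perm.ofSubtype_apply_coe]
  have hker : ψ₀.ker = (cor (stabilizer G a) (stabilizer G b)).subgroupOf _ := by
    ext x
    have h1 : inclusion inf_le_left x ∈ φ₀.ker ↔ x ∈ (cor (stabilizer G a) (stabilizer G b)).subgroupOf _ := by
      rw [hφ₀, ker_eq_cor]; rfl
    rw [← h1, MonoidHom.mem_ker, MonoidHom.mem_ker]
    refine ⟨fun e => Equiv.ext fun y => ?_, fun e => Equiv.ext fun y => Subtype.ext ?_⟩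
    · by_cases hy : y = b₀
      · rw [hy]; exact (hfix _).mpr x.2.2
      · exact congrArg Subtype.val (Equiv.ext_iff.mp e ⟨y, hy⟩)
    · exact Equiv.ext_iff.mp e y
  have hc : Nat.card {y // y ≠ b₀} = d - 1 := by
    rw [Nat.card_eq_fintype_card, Fintype.card_subtype_compl, ← Nat.card_eq_fintype_card, hd]; simp
  let e₁ := (Finite.equivFinOfCardEq hd).permCongrHom
  let e₂ := (Finite.equivFinOfCardEq hc).permCongrHom
  have halt' : ∀ {γ δ N : Type _} [Fintype γ] [DecidableEq γ] [Fintype δ] [DecidableEq δ] [Group N] (e : γ ≃ δ)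
      (f : N →* Perm γ), alternatingGroup γ ≤ f.range →
      alternatingGroup δ ≤ (e.permCongrHom.toMonoidHom.comp f).range := fun e f hf σ hσ => by
    obtain ⟨m, hm⟩ := hf (show e.symm.permCongr σ ∈ alternatingGroup _ by
      rw [Perm.mem_alternatingGroup, Perm.sign_permCongr]; exact hσ)
    exact ⟨m, by ext y; simp [hm]⟩
  refine ⟨e₁.toMonoidHom.comp φ₀, e₂.toMonoidHom.comp ψ₀, ?_, ?_, halt' _ _ hA, halt' _ _ hB, fun x => ?_, ?_,
    fun g hg g' hg' h1 h2 => ?_⟩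
  · rw [← ker_eq_cor]; exact MonoidHom.ker_comp_of_injective _ _ e₁.injective
  · rw [← hker]; exact MonoidHom.ker_comp_of_injective _ _ e₂.injective
  · exact (Perm.sign_permCongr _ _).trans ((hs x).trans (Perm.sign_permCongr _ _).symm)
  · rw [MonoidHom.range_comp]; exact index_map_equiv _ e₁
  · have h3 : ∀ g (hg : g ∈ stabilizer G a), g ∉ stabilizer G b → φ₀ ⟨g, hg⟩⁻¹ b₀ ≠ b₀ := fun g hg h e =>
      h (inv_mem_iff.mp ((hfix _).mp e))
    have := alternatingGroup.isPretransitive_of_three_le_card {y // y ≠ b₀} (by omega)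
    obtain ⟨σ, hσ⟩ := exists_smul_eq (alternatingGroup {y // y ≠ b₀}) (⟨_, h3 g' hg' h2⟩ : {y // y ≠ b₀})
      ⟨_, h3 g hg h1⟩
    obtain ⟨x, hx⟩ := hB σ.2
    refine ⟨x, x.2, ?_⟩
    have h4 : ((ψ₀ x ⟨_, h3 g' hg' h2⟩ : orbit (stabilizer G a) b) : Ω) = g⁻¹ • b := by
      rw [hx]; exact congrArg (fun y : {y // y ≠ b₀} => ((y : orbit (stabilizer G a) b) : Ω)) hσ
    change (x : G) • g'⁻¹ • b = g⁻¹ • b at h4
    rw [mem_stabilizer_iff, mul_smul, mul_smul, h4, smul_inv_smul]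

theorem hyp_of {a b : Ω} {d : ℕ} (hd : Nat.card (orbit (stabilizer G a) b) = d) (h6 : 6 ≤ d)
    {φ : stabilizer G a →* Perm (Fin d)} {ψ : ↥(stabilizer G a ⊓ stabilizer G b) →* Perm (Fin (d - 1))}
    (hφ : φ.ker = (cor (stabilizer G a) (stabilizer G b)).subgroupOf _)
    (hψ : ψ.ker = (cor (stabilizer G a) (stabilizer G b)).subgroupOf _)
    (hA : alternatingGroup _ ≤ φ.range) (hB : alternatingGroup _ ≤ ψ.range)
    (tt : ∀ g ∈ stabilizer G a, ∀ g' ∈ stabilizer G a, g ∉ stabilizer G b → g' ∉ stabilizer G b →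
        ∃ x ∈ stabilizer G a ⊓ stabilizer G b, g * x * g'⁻¹ ∈ stabilizer G b) :
    Hyp (stabilizer G a) (stabilizer G b) (((alternatingGroup _).comap φ).map (stabilizer G a).subtype)
      (((alternatingGroup _).comap ψ).map (stabilizer G a ⊓ stabilizer G b).subtype)
      (Nat.card (alternatingGroup (Fin d))) (Nat.card (alternatingGroup (Fin (d - 1)))) := by
  refine ⟨top_of_hom (by simp; omega) φ (cor_le_left _ _) hφ hA, top_of_hom (by simp; omega) ψ
    (le_inf (cor_le_left _ _) (cor_le _ _)) hψ hB, tt, ?_⟩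
  have h1 := Nat.le_of_dvd (Nat.factorial_pos _) (relIndex_cor_inf_dvd (stabilizer G a) (stabilizer G b))
  rw [relIndex_stabilizer, hd] at h1
  have : Nontrivial (Fin d) := Fin.nontrivial_iff_two_le.mpr (by omega)
  have h2 := two_mul_nat_card_alternatingGroup (α := Fin d)
  obtain ⟨k, rfl⟩ : ∃ k, d = k + 1 := ⟨d - 1, by omega⟩
  rw [Nat.card_perm, Nat.card_fin, Nat.factorial_succ] at h2
  have h3 := Nat.factorial_pos k
  rw [Nat.add_sub_cancel] at h1
  nlinarith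

end Action

end CL.Knapp
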