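/-
Two involutions of a finite set with equally many fixed points have a common neighbour in the graph of the odd products
(helper29, for S3265).
-/
import Cfsg.Agent.Inv.Dihedral

set_option autoImplicit false

open Function Equiv Finset

namespace CL.OddProd

variable {α : Type*} [DecidableEq α] {S T : Finset α} {x y z w : α → α}

/-- no function that is even for one of `x`, `z` and odd for the other -/
def Gd (S : Finset α) (x z : α → α) : Prop := ∀ (ε : ℤ) (u : α → ℤ), ε = 1 ∨ ε = -1 →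
  (∀ p ∈ S, u (x p) = ε * u p) → (∀ p ∈ S, u (z p) = -ε * u p) → ∀ p ∈ S, u p = 0

def fx (S : Finset α) (f : α → α) : ℕ := (S.filter fun p => f p = p).card

def cj (a b : α) (f : α → α) : α → α := fun p => swap a b (f (swap a b p))

def gl (T : Finset α) (w z : α → α) : α → α := fun p => if p ∈ T then w p else z p

structure D (S : Finset α) (x y : α → α) : Prop where
  ix : Involutive x
  iy : Involutive y
  mx : ∀ p ∈ S, x p ∈ S
  my : ∀ p ∈ S, y p ∈ S
  fx : fx S x = fx S y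

structure Z (S : Finset α) (z : α → α) : Prop where
  inv : Involutive z
  out : ∀ p ∉ S, z p = p

def Sol (S : Finset α) (x y : α → α) : Prop := ∃ z, Z S z ∧ Gd S x z ∧ Gd S y z

def C4 (x y : α → α) (a : α) : Prop := x a ≠ a ∧ y a ≠ a ∧ x a ≠ y a ∧ x (y a) = y (x a)

def T4 (x y : α → α) (a : α) : Finset α := {a, x a, y a, x (y a)}

def Exc (S : Finset α) (x y : α → α) : Prop := ∃ a ∈ S, C4 x y a ∧ S ⊆ T4 x y a

theorem D.symm (h : D S x y) : D S y x := ⟨h.iy, h.ix, h.my, h.mx, h.fx.symm⟩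

theorem swap_mem {a b : α} (ha : a ∈ S) (hb : b ∈ S) (p : α) : swap a b p ∈ S ↔ p ∈ S := by
  rw [swap_apply_def]; split_ifs with h1 h2 <;> simp [*]

theorem cj_inv {a b : α} (h : Involutive x) : Involutive (cj a b x) := fun p => by simp [cj, h _]

theorem D.cj (h : D S x y) {a b : α} (ha : a ∈ S) (hb : b ∈ S) : D S x (cj a b y) := by
  refine ⟨h.ix, cj_inv h.iy, h.mx, fun p hp => (swap_mem ha hb _).2 (h.my _ ((swap_mem ha hb _).2 hp)),
    h.fx.trans (card_bijective _ (swap a b).bijective fun p => ?_)⟩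
  rw [mem_filter, mem_filter, swap_mem ha hb, OddProd.cj, swap_apply_self, EmbeddingLike.apply_eq_iff_eq]

omit [DecidableEq α] in
theorem not_mem (h : Involutive x) (hT : ∀ p ∈ T, x p ∈ T) {p : α} (hp : p ∉ T) : x p ∉ T :=
  fun e => hp (h p ▸ hT _ e)

theorem D.sdiff (h : D S x y) (hT : T ⊆ S) (h1 : ∀ p ∈ T, x p ∈ T) (h2 : ∀ p ∈ T, y p ∈ T)
    (h3 : ∀ p ∈ T, x p = p ↔ y p = p) : D (S \ T) x y := by
  have key : ∀ f : α → α, OddProd.fx (S \ T) f + OddProd.fx T f = OddProd.fx S f := fun f => by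
    unfold OddProd.fx
    rw [← card_union_of_disjoint (disjoint_filter_filter sdiff_disjoint), ← filter_union, sdiff_union_of_subset hT]
  refine ⟨h.ix, h.iy, fun p hp => mem_sdiff.2 ⟨h.mx p (mem_sdiff.1 hp).1, not_mem h.ix h1 (mem_sdiff.1 hp).2⟩,
    fun p hp => mem_sdiff.2 ⟨h.my p (mem_sdiff.1 hp).1, not_mem h.iy h2 (mem_sdiff.1 hp).2⟩, ?_⟩
  have := key x
  have := key y
  have := h.fx
  have : OddProd.fx T x = OddProd.fx T y := congrArg card (filter_congr h3)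
  omega

theorem Z.mem (h : Z S z) {p : α} (hp : p ∈ S) : z p ∈ S := by
  by_contra e
  exact e ((h.inv.injective (h.out _ e)).symm ▸ hp)

theorem Z.gl (h : Z (S \ T) z) (hT : T ⊆ S) (hw : Involutive w) (h1 : ∀ p ∈ T, w p ∈ T) : Z S (gl T w z) := by
  refine ⟨fun p => ?_, fun p hp => ?_⟩
  · by_cases e : p ∈ T
    · simp [OddProd.gl, e, h1 p e, hw p]
    · have := not_mem h.inv (fun q hq => (h.out q fun e => (mem_sdiff.1 e).2 hq).symm ▸ hq) e
      simp [OddProd.gl, e, this, h.inv p]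
  · simp [OddProd.gl, mt (@hT p) hp, h.out p fun e => hp (mem_sdiff.1 e).1]

theorem Z.cj (h : Z S z) {a b : α} (ha : a ∈ S) (hb : b ∈ S) : Z S (cj a b z) :=
  ⟨cj_inv h.inv, fun p hp => by rw [OddProd.cj, h.out _ (mt (swap_mem ha hb _).1 hp), swap_apply_self]⟩

theorem Z.of (h : Involutive y) (hm : ∀ p ∈ S, y p ∈ S) : Z S (OddProd.gl S y id) :=
  Z.gl (T := S) ⟨fun _ => rfl, fun _ _ => rfl⟩ Subset.rfl h hm

variable {ε : ℤ} {u : α → ℤ}

theorem gl1 (h : ∀ p ∈ S, u (gl T w z p) = ε * u p) (hT : T ⊆ S) : ∀ p ∈ T, u (w p) = ε * u p :=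
  fun p hp => by simpa [gl, hp] using h p (hT hp)

theorem gl2 (h : ∀ p ∈ S, u (gl T w z p) = ε * u p) : ∀ p ∈ S \ T, u (z p) = ε * u p :=
  fun p hp => by simpa [gl, (mem_sdiff.1 hp).2] using h p (mem_sdiff.1 hp).1

theorem cj1 {a b : α} (h : ∀ p ∈ S, u (cj a b z p) = ε * u p) (ha : a ∈ S) (hb : b ∈ S) :
    ∃ v : α → ℤ, (∀ p, v p = u (swap a b p)) ∧ ∀ p ∈ S, v (z p) = ε * v p :=
  ⟨_, fun _ => rfl, fun p hp => by simpa [cj] using h _ ((swap_mem ha hb p).2 hp)⟩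

theorem sd (h : ∀ p ∈ S, u (x p) = ε * u p) : ∀ p ∈ S \ T, u (x p) = ε * u p := fun p hp => h p (mem_sdiff.1 hp).1

theorem split (h1 : ∀ p ∈ S \ T, u p = 0) (h2 : ∀ p ∈ T, u p = 0) : ∀ p ∈ S, u p = 0 := fun p hp => by
  by_cases e : p ∈ T
  exacts [h2 p e, h1 p (mem_sdiff.2 ⟨hp, e⟩)]

theorem Gd.gl (h : Gd (S \ T) y z) (hT : T ⊆ S) (e : ∀ p ∈ T, w p = y p) : Gd S y (gl T w z) :=
  fun ε u hε h1 h2 => split (h ε u hε (sd h1) (gl2 h2)) fun p hp => by
    have := gl1 h2 hT p hp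
    rw [e p hp, h1 p (hT hp)] at this
    rcases hε with rfl | rfl <;> omega

/-- removing two path ends -/
theorem Gd.ends {a c : α} (hx : Involutive x) (ha : a ∈ S) (hc : c ∈ S) (xa : x a ≠ a) (xc : x c = c)
    (hm : ∀ p ∈ S, x p ∈ S) (h : Gd (S \ {a, c}) (cj (x a) c x) z) : Gd S x (OddProd.gl {a, c} (swap a c) z) := by
  intro ε u hε h1 h2
  have hT : ({a, c} : Finset α) ⊆ S := by simp [insert_subset_iff, ha, hc]
  have e1 := gl1 h2 hT a (by simp)
  have e2 := h1 a ha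
  have e3 := h1 c hc
  rw [swap_apply_left] at e1
  rw [xc] at e3
  have bc : x a ≠ c := fun e => xa (by rw [hx.injective (e.trans xc.symm), xc])
  have key := h ε u hε (fun p hp => by
    simp only [mem_sdiff, mem_insert, mem_singleton, not_or] at hp
    by_cases e : p = x a
    · rw [e, cj, swap_apply_left, xc, swap_apply_right]; rcases hε with rfl | rfl <;> omega
    · rw [cj, swap_apply_of_ne_of_ne e hp.2.2, swap_apply_of_ne_of_ne (hx.injective.ne hp.2.1)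
        (xc ▸ hx.injective.ne hp.2.2), h1 p hp.1]) (gl2 h2)
  have := key (x a) (by simp [hm a ha, xa, bc])
  refine split key fun p hp => ?_
  simp only [mem_insert, mem_singleton] at hp
  rcases hε with rfl | rfl <;> rcases hp with rfl | rfl <;> omega

omit [DecidableEq α] in
theorem C4.symm {a : α} (h : C4 x y a) : C4 y x a := ⟨h.2.1, h.1, h.2.2.1.symm, h.2.2.2.symm⟩

theorem C4.tt {a : α} (h : C4 x y a) : T4 y x a = T4 x y a := by rw [T4, T4, h.2.2.2, insert_comm (y a)]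

theorem C4.nx {a : α} (h : C4 x y a) (hx : Involutive x) :
    C4 x y (x a) ∧ T4 x y (x a) = T4 x y a := by
  obtain ⟨h1, h2, h3, h4⟩ := h
  refine ⟨⟨by rw [hx]; exact h1.symm, by rw [← h4]; exact hx.injective.ne h2, ?_, by rw [← h4, hx, hx]⟩, ?_⟩
  · rw [hx, ← h4]; exact fun e => h3 (by rw [e, hx, ← e])
  · rw [T4, T4, ← h4, hx, hx, insert_comm, pair_comm]

theorem C4.rebase {a p : α} (h : C4 x y a) (hx : Involutive x) (hy : Involutive y) (hp : p ∈ T4 x y a) :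
    C4 x y p ∧ T4 x y p = T4 x y a := by
  have hya : C4 x y (y a) ∧ T4 x y (y a) = T4 x y a :=
    ⟨(h.symm.nx hy).1.symm, by rw [(h.symm.nx hy).1.tt, (h.symm.nx hy).2, h.tt]⟩
  simp only [T4, mem_insert, mem_singleton] at hp
  rcases hp with rfl | rfl | rfl | rfl
  exacts [⟨h, rfl⟩, h.nx hx, hya, ⟨(hya.1.nx hx).1, (hya.1.nx hx).2.trans hya.2⟩]

theorem C4.mx {a : α} (h : C4 x y a) (hx : Involutive x) (hy : Involutive y) : ∀ p ∈ T4 x y a, x p ∈ T4 x y a :=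
  fun p hp => (h.rebase hx hy hp).2 ▸ by simp [T4]

theorem C4.my {a : α} (h : C4 x y a) (hx : Involutive x) (hy : Involutive y) : ∀ p ∈ T4 x y a, y p ∈ T4 x y a :=
  fun p hp => (h.rebase hx hy hp).2 ▸ by simp [T4]

theorem D.sub (h : D S x y) {a : α} (ha : a ∈ S) : T4 x y a ⊆ S := by
  simp [OddProd.T4, insert_subset_iff, ha, h.mx a ha, h.my a ha, h.mx _ (h.my a ha)]

theorem D.sdiff4 (h : D S x y) {a : α} (ha : a ∈ S) (c : C4 x y a) : D (S \ OddProd.T4 x y a) x y :=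
  h.sdiff (h.sub ha) (c.mx h.ix h.iy) (c.my h.ix h.iy) fun _ hp =>
    iff_of_false (c.rebase h.ix h.iy hp).1.1 (c.rebase h.ix h.iy hp).1.2.1

theorem mem_T4 {a p : α} : p ∈ T4 x y a ↔ p = a ∨ p = x a ∨ p = y a ∨ p = x (y a) := by simp [T4]

theorem C4.ne {a : α} (h : C4 x y a) (hx : Involutive x) (hy : Involutive y) :
    a ≠ y a ∧ x a ≠ y a ∧ x (y a) ≠ y a ∧ a ≠ x a ∧ x (y a) ≠ x a ∧ a ≠ x (y a) :=
  ⟨h.2.1.symm, h.2.2.1, (h.symm.nx hy).1.2.1, h.1.symm, hx.injective.ne h.2.1,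
    fun e => h.2.2.1 (by rw [← hx (y a), ← e])⟩

/-- inserting a `4`-cycle -/
theorem Gd.ins {a q : α} (d : D S x y) (ha : a ∈ S) (c : C4 x y a) (hq : q ∈ S \ T4 x y a)
    (e : ∀ p ∈ T4 x y a, w p = x (y p)) (h : Gd (S \ T4 x y a) x z) {b : α} (hb : b = x a ∨ b = y a) :
    Gd S x (cj b q (OddProd.gl (T4 x y a) w z)) := by
  intro ε u hε h1 h2
  have hT := d.sub ha
  have bT : b ∈ T4 x y a := by rcases hb with rfl | rfl <;> simp [mem_T4]
  obtain ⟨v, hv, h3⟩ := cj1 h2 (hT bT) (mem_sdiff.1 hq).1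
  have nq : ∀ p ∈ T4 x y a, p ≠ q := fun p hp e => (mem_sdiff.1 hq).2 (e ▸ hp)
  have q1 := nq a (by simp [mem_T4])
  have q2 := nq (x a) (by simp [mem_T4])
  have q3 := nq (y a) (by simp [mem_T4])
  have q4 := nq (x (y a)) (by simp [mem_T4])
  have e1 := gl1 h3 hT a (by simp [mem_T4])
  have e2 := gl1 h3 hT (y a) (by simp [mem_T4])
  have e3 := h1 a ha
  have e4 := h1 _ (d.my a ha)
  obtain ⟨n1, n2, n3, n4, n5, n6⟩ := c.ne d.ix d.iy
  rw [e _ (by simp [mem_T4]), hv, hv] at e1 e2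
  rw [d.iy] at e2
  have e5 : u b = u q ∧ (u q = 0 → ∀ p ∈ T4 x y a, u p = 0) := by
    simp only [mem_T4]
    rcases hb with rfl | rfl <;> simp only [swap_apply_left, swap_apply_of_ne_of_ne, ne_eq, not_false_eq_true,
      n2.symm, *] at e1 e2 <;> rcases hε with rfl | rfl <;>
      exact ⟨by omega, fun _ p hp => by rcases hp with rfl | rfl | rfl | rfl <;> omega⟩
  simp only [hv, apply_swap_eq_self e5.1] at h3
  have key := h ε u hε (sd h1) (gl2 h3)
  exact split key (e5.2 (key q hq))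

theorem solIns {a : α} (d : D S x y) (ha : a ∈ S) (c : C4 x y a) {q : α} (hq : q ∈ S \ T4 x y a)
    (h : Sol (S \ T4 x y a) x y) : Sol S x y := by
  obtain ⟨z, h1, h2, h3⟩ := h
  have hT := d.sub ha
  have e : ∀ p ∈ T4 x y a, x (y p) = y (x p) := fun p hp => (c.rebase d.ix d.iy hp).1.2.2.2
  have mw : ∀ p ∈ T4 x y a, x (y p) ∈ T4 x y a := fun p hp => c.mx d.ix d.iy _ (c.my d.ix d.iy p hp)
  let w := gl (T4 x y a) (fun p => x (y p)) id
  have w1 : ∀ p ∈ T4 x y a, w p = x (y p) := fun p hp => if_pos hp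
  have w2 : Involutive w := fun p => by
    by_cases hp : p ∈ T4 x y a
    · rw [w1 p hp, w1 _ (mw p hp), e p hp, d.iy, d.ix]
    · simp [w, gl, hp]
  refine ⟨cj (y a) q (gl (T4 x y a) w z), (h1.gl hT w2 fun p hp => w1 p hp ▸ mw p hp).cj (d.my a ha)
    (mem_sdiff.1 hq).1, Gd.ins d ha c hq w1 h2 (.inr rfl), ?_⟩
  rw [← c.tt] at hq h3 w1 e ⊢
  exact Gd.ins d.symm ha c.symm hq (fun p hp => (w1 p hp).trans (e p hp)) h3 (.inl rfl)

theorem two {a b : α} (d : D S x y) (ha : a ∈ S) (c : C4 x y a) (hb : b ∈ S \ T4 x y a) (c' : C4 x y b) :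
    ∃ z, Z S z ∧ ∀ (ε : ℤ) (u : α → ℤ), (∀ p ∈ S, u (z p) = ε * u p) →
      u (x a) = ε * u a ∧ u (x (y a)) = ε * u b ∧ u (y b) = ε * u (y a) ∧ u (x (y b)) = ε * u (x b) := by
  have hT := d.sub ha
  have d' := d.sdiff4 ha c
  refine ⟨cj (y a) b (gl (T4 x y a) x (gl (S \ T4 x y a) y id)),
    ((Z.of d.iy d'.my).gl hT d.ix (c.mx d.ix d.iy)).cj (d.my a ha) (mem_sdiff.1 hb).1, fun ε u h => ?_⟩
  obtain ⟨v, hv, h3⟩ := cj1 h (d.my a ha) (mem_sdiff.1 hb).1
  have nq : ∀ p ∈ T4 x y a, ∀ q ∈ S \ T4 x y a, p ≠ q := fun p hp q hq e => (mem_sdiff.1 hq).2 (e ▸ hp)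
  obtain ⟨n1, n2, n3, -⟩ := c.ne d.ix d.iy
  obtain ⟨m1, -, -, m4, -, m6⟩ := c'.ne d.ix d.iy
  have ya : y a ∈ T4 x y a := by simp [mem_T4]
  have e1 := gl1 h3 hT a (by simp [mem_T4])
  have e2 := gl1 h3 hT _ ya
  have e3 := gl1 (gl2 h3) Subset.rfl b hb
  have e4 := gl1 (gl2 h3) Subset.rfl _ (d'.mx b hb)
  rw [hv, hv] at e1 e2 e3 e4
  rw [swap_apply_of_ne_of_ne n2 (nq _ (by simp [mem_T4]) b hb),
    swap_apply_of_ne_of_ne n1 (nq _ (by simp [mem_T4]) b hb)] at e1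
  rw [swap_apply_of_ne_of_ne n3 (nq _ (by simp [mem_T4]) b hb), swap_apply_left] at e2
  rw [swap_apply_of_ne_of_ne (nq _ ya _ (d'.my b hb)).symm m1.symm, swap_apply_right] at e3
  rw [← c'.2.2.2, swap_apply_of_ne_of_ne (nq _ ya _ (d'.mx _ (d'.my b hb))).symm m6.symm,
    swap_apply_of_ne_of_ne (nq _ ya _ (d'.mx b hb)).symm m4.symm] at e4
  exact ⟨e1, e2, e3, e4⟩

theorem zero8 {a b : α} (hs : S \ T4 x y a ⊆ T4 x y b) (h : (u a = 0 ∧ u (x a) = 0 ∧ u (y a) = 0 ∧ u (x (y a)) = 0) ∧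
    u b = 0 ∧ u (x b) = 0 ∧ u (y b) = 0 ∧ u (x (y b)) = 0) : ∀ p ∈ S, u p = 0 :=
  split (T := T4 x y a) (fun p hp => by rcases mem_T4.1 (hs hp) with rfl | rfl | rfl | rfl <;> simp only [h])
    fun p hp => by rcases mem_T4.1 hp with rfl | rfl | rfl | rfl <;> simp only [h]

theorem solTwo {a b : α} (d : D S x y) (ha : a ∈ S) (c : C4 x y a) (hb : b ∈ S \ T4 x y a) (c' : C4 x y b)
    (hs : S \ T4 x y a ⊆ T4 x y b) : ∃ z, Z S z ∧ Gd S x z ∧ Gd S y z ∧ ∀ (ε : ℤ) (u : α → ℤ),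
      (∀ p ∈ S, u (z p) = ε * u p) →
      u (x a) = ε * u a ∧ u (x (y a)) = ε * u b ∧ u (y b) = ε * u (y a) ∧ u (x (y b)) = ε * u (x b) := by
  obtain ⟨z, h1, h2⟩ := two d ha c hb c'
  have hb' := (mem_sdiff.1 hb).1
  refine ⟨z, h1, fun ε u hε h3 h4 => zero8 hs ?_, fun ε u hε h3 h4 => zero8 hs ?_, h2⟩
  · have := h2 _ u h4
    have := h3 a ha
    have := h3 _ (d.my a ha)
    have := h3 b hb'
    have := h3 _ (d.my b hb')
    rcases hε with rfl | rfl <;> omega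
  · have := h2 _ u h4
    have := h3 a ha
    have := c.2.2.2 ▸ h3 _ (d.mx a ha)
    have := h3 b hb'
    have := c'.2.2.2 ▸ h3 _ (d.mx b hb')
    rcases hε with rfl | rfl <;> omega

theorem solCon {a : α} (d : D S x y) (ha : a ∈ S) (c : ¬ C4 x y a) (h : ∀ p ∈ S, x p ≠ p ∧ y p ≠ p ∧ x p ≠ y p)
    (ih : ∀ T ⊂ S, ∀ x y, D T x y → ¬ Exc T x y → Sol T x y) : Sol S x y := by
  have m2 := d.mx a ha
  have m3 := d.my _ m2
  have m4 := d.mx _ m3
  have m5 := d.my _ m4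
  have n21 := (h a ha).1
  have n32 := (h _ m2).2.1
  have n31 : y (x a) ≠ a := fun e => (h _ m2).2.2 (by rw [e, d.ix])
  have n43 := (h _ m3).1
  have n41 : x (y (x a)) ≠ a := fun e => n32 (by rw [← d.ix (y (x a)), e])
  have n54 := (h _ m4).2.1
  have n53 := d.iy.injective.ne (d.ix.injective.ne n31)
  have n52 : y (x (y (x a))) ≠ x a := fun e => n43 (by rw [← d.iy (x (y (x a))), e])
  have n51 : y (x (y (x a))) ≠ a := fun e => c ⟨n21, (h a ha).2.1, (h a ha).2.2, by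
    rw [← d.ix (y (x a)), ← d.iy (x (y (x a))), e]⟩
  have d' := d.cj ha m5
  have y1 : cj a (y (x (y (x a)))) y a = x (y (x a)) := by
    rw [cj, swap_apply_left, d.iy, swap_apply_of_ne_of_ne n41 n54.symm]
  have y2 : cj a (y (x (y (x a)))) y (x a) = y (x a) := by
    rw [cj, swap_apply_of_ne_of_ne n21 n52.symm, swap_apply_of_ne_of_ne n31 n53.symm]
  have y5 : cj a (y (x (y (x a)))) y (y (x (y (x a)))) = y a := by
    rw [cj, swap_apply_right, swap_apply_of_ne_of_ne (h a ha).2.1 (d.iy.injective.ne n41.symm)]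
  have yo : ∀ u : α → ℤ, ∀ ε, u a = u (y (x (y (x a)))) → (∀ p ∈ S, u (y p) = ε * u p) →
      ∀ p ∈ S, u (cj a (y (x (y (x a)))) y p) = ε * u p := fun u ε e h1 p hp => by
    rw [cj, apply_swap_eq_self e, h1 _ ((swap_mem ha m5 p).2 hp), apply_swap_eq_self e]
  have yo' : ∀ p, p ≠ a → p ≠ y (x (y (x a))) → p ≠ y a → p ≠ x (y (x a)) → cj a (y (x (y (x a)))) y p = y p :=
    fun p e1 e2 e3 e4 => by
      rw [cj, swap_apply_of_ne_of_ne e1 e2, swap_apply_of_ne_of_ne (fun e => e3 (by rw [← e, d.iy]))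
        (d.iy.injective.ne e4)]
  generalize cj a (y (x (y (x a)))) y = y' at d' y1 y2 y5 yo yo'
  have c' : C4 x y' a := ⟨n21, y1 ▸ n41, y1 ▸ (d.ix.injective.ne n31).symm, by rw [y1, y2, d.ix]⟩
  have hT := d'.sub ha
  have d'' := d'.sdiff4 ha c'
  have t5 : y (x (y (x a))) ∈ S \ T4 x y' a := by simp [mem_T4, d.ix (y (x a)), *]
  by_cases E : Exc (S \ T4 x y' a) x y'
  · obtain ⟨b, -, c1, hs⟩ := E
    obtain ⟨c2, e⟩ := c1.rebase d.ix d'.iy (hs t5)
    obtain ⟨c3, e'⟩ := c'.rebase d.ix d'.iy (p := y (x a)) (by simp [mem_T4, y1, d.ix (y (x a))])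
    rw [← e, ← e', ← c2.tt, ← c3.tt] at hs
    rw [← e', ← c3.tt] at t5 d''
    obtain ⟨z, h1, -, h2, h3⟩ := solTwo d'.symm m3 c3.symm t5 c2.symm hs
    refine ⟨z, h1, h2, fun ε u hε h4 h5 => zero8 hs ?_⟩
    have y3 : y' (y (x a)) = x a := by rw [← y2, d'.iy]
    have y4 : y' (x (y (x a))) = a := by rw [← y1, d'.iy]
    have t6 := (mem_sdiff.1 (d''.mx _ t5)).2
    simp only [mem_T4, not_or, y3, y4] at t6
    have y6 := yo' _ t6.2.2.2 c2.1 (y5 ▸ c2.2.2.1) t6.2.2.1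
    have := h3 _ u h5
    have := h4 a ha
    have := h4 _ m2
    have := h4 _ m4
    have := h4 _ (d.mx _ m5)
    simp only [y3, y4, y5, y6] at *
    rcases hε with rfl | rfl <;> omega
  · obtain ⟨z, h1, h2, h3⟩ := ih _ (sdiff_ssubset hT ⟨a, by simp [mem_T4]⟩) x y' d'' E
    refine ⟨gl (T4 x y' a) x z, h1.gl hT d.ix (c'.mx d.ix d'.iy), h2.gl hT fun _ _ => rfl, fun ε u hε h4 h5 => ?_⟩
    have e1 := gl1 h5 hT a (by simp [mem_T4])
    have e2 := gl1 h5 hT (y (x a)) (by simp [mem_T4, y1, d.ix (y (x a))])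
    have e3 := h4 _ m2
    have e4 := h4 _ m4
    have key := h3 ε u hε (sd (yo u ε (by rcases hε with rfl | rfl <;> omega) h4)) (gl2 h5)
    have := key _ t5
    refine split key fun p hp => ?_
    rw [mem_T4, y1, d.ix] at hp
    rcases hε with rfl | rfl <;> rcases hp with rfl | rfl | rfl | rfl <;> omega

theorem D.fix (d : D S x y) (h : ∀ a ∈ S, y a = a → x a = a) : ∀ a ∈ S, x a = a ↔ y a = a := fun a ha => by
  have := eq_of_subset_of_card_le (s := S.filter fun p => y p = p) (t := S.filter fun p => x p = p)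
    (fun p hp => mem_filter.2 ⟨(mem_filter.1 hp).1, h p (mem_filter.1 hp).1 (mem_filter.1 hp).2⟩) d.fx.le
  simpa [ha] using (Finset.ext_iff.1 this a).symm

theorem main (S : Finset α) : ∀ x y, D S x y → ¬ Exc S x y → Sol S x y := by
  induction S using Finset.strongInduction with | _ S ih => ?_
  intro x y d E
  by_cases h1 : ∀ a ∈ S, x a = a ↔ y a = a
  swap
  · have h2 := mt d.fix h1
    have h3 := mt d.symm.fix fun e => h1 fun a ha => (e a ha).symm
    push Not at h2 h3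
    obtain ⟨a, ha, ya, xa⟩ := h2
    obtain ⟨c, hc, xc, yc⟩ := h3
    have ac : a ≠ c := fun e => xa (e ▸ xc)
    have bc : x a ≠ c := fun e => ac (d.ix.injective (e.trans xc.symm))
    have d' := ((d.cj (d.my c hc) ha).symm.cj (d.mx a ha) hc).symm
    have e1 : cj (x a) c x a = c := by rw [cj, swap_apply_of_ne_of_ne xa.symm ac, swap_apply_left]
    have e2 : cj (y c) a y c = a := by rw [cj, swap_apply_of_ne_of_ne yc.symm ac.symm, swap_apply_left]
    have e3 : cj (x a) c x c = a := by simpa only [e1] using d'.ix a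
    have e4 : cj (y c) a y a = c := by simpa only [e2] using d'.iy c
    have hT : ({a, c} : Finset α) ⊆ S := by simp [insert_subset_iff, ha, hc]
    obtain ⟨z, z1, z2, z3⟩ := ih _ (sdiff_ssubset hT ⟨a, by simp⟩) _ _
      (d'.sdiff hT (by simp [e1, e3]) (by simp [e2, e4]) (by simp [e1, e2, e3, e4])) fun ⟨b, _, c1, hs⟩ =>
        (c1.rebase d'.ix d'.iy (@hs (x a) (by simp [d.mx a ha, xa, bc]))).1.1
          (by rw [cj, swap_apply_left, xc, swap_apply_right])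
    refine ⟨gl {a, c} (swap a c) z, z1.gl hT (swap_apply_self _ _) (by simp), z2.ends d.ix ha hc xa xc d.mx, ?_⟩
    rw [pair_comm] at z3 ⊢
    rw [swap_comm]
    exact z3.ends d.iy hc ha yc ya d.my
  by_cases h2 : ∃ a ∈ S, C4 x y a
  · obtain ⟨a, ha, c⟩ := h2
    by_cases E' : Exc (S \ T4 x y a) x y
    · obtain ⟨b, hb, c', hs⟩ := E'
      obtain ⟨z, z1, z2, z3, -⟩ := solTwo d ha c hb c' hs
      exact ⟨z, z1, z2, z3⟩
    · obtain ⟨q, hq⟩ := sdiff_nonempty.2 fun e => E ⟨a, ha, c, e⟩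
      exact solIns d ha c hq (ih _ (sdiff_ssubset (d.sub ha) ⟨a, by simp [mem_T4]⟩) x y (d.sdiff4 ha c) E')
  by_cases h3 : ∃ a ∈ S, x a = y a
  · obtain ⟨a, ha, e⟩ := h3
    have hT : ({a, x a} : Finset α) ⊆ S := by simp [insert_subset_iff, ha, d.mx a ha]
    have e' : ∀ p ∈ ({a, x a} : Finset α), x p = y p := by
      simp only [mem_insert, mem_singleton, forall_eq_or_imp, forall_eq]
      exact ⟨e, by rw [d.ix, e, d.iy]⟩
    have mx : ∀ p ∈ ({a, x a} : Finset α), x p ∈ ({a, x a} : Finset α) := by simp [d.ix a]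
    obtain ⟨z, z1, z2, z3⟩ := ih _ (sdiff_ssubset hT ⟨a, by simp⟩) _ _
      (d.sdiff hT mx (fun p hp => e' p hp ▸ mx p hp) fun p hp => h1 p (hT hp))
      fun ⟨b, hb, c1, _⟩ => h2 ⟨b, (mem_sdiff.1 hb).1, c1⟩
    exact ⟨gl {a, x a} x z, z1.gl hT d.ix mx, z2.gl hT fun _ _ => rfl, z3.gl hT e'⟩
  rcases S.eq_empty_or_nonempty with rfl | ⟨a, ha⟩
  · exact ⟨id, ⟨fun _ => rfl, fun _ _ => rfl⟩, by simp [Gd], by simp [Gd]⟩
  refine solCon d ha (fun c => h2 ⟨a, ha, c⟩) (fun p hp => ?_) ih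
  have := h1 p hp
  have : x p ≠ y p := fun e => h3 ⟨p, hp, e⟩
  exact ⟨fun e => this (e.trans ((h1 p hp).1 e).symm), fun e => this (((h1 p hp).2 e).trans e.symm), this⟩

theorem odd_of [Fintype α] {x z : Perm α} (hx : Involutive x) (hz : Involutive z) (h : Gd univ x z) :
    Odd (orderOf (x * z)) := by
  by_contra ho
  obtain ⟨m, hm⟩ := Nat.not_odd_iff_even.1 ho
  have h0 := orderOf_pos (x * z)
  obtain ⟨p, hp⟩ : ∃ p, ((x * z) ^ m) p ≠ p := by
    by_contra! e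
    exact pow_ne_one_of_lt_orderOf (x := x * z) (n := m) (by omega) (by omega) (Equiv.ext e)
  have h1 := pow_orderOf_eq_one (x * z)
  rw [hm] at h0 h1
  let φ : α → ℤ := fun q => ∑ i ∈ range (m + m), if ((x * z) ^ i) q = p then (-1) ^ i else 0
  have h2 : ∀ q, φ (x (z q)) = -φ q := fun q => by
    have := (sum_range_succ (fun i => if ((x * z) ^ i) q = p then (-1 : ℤ) ^ i else 0) (m + m)).symm.trans
      (sum_range_succ' _ _)
    simp only [h1, pow_zero, Even.neg_one_pow ⟨m, rfl⟩, add_left_inj, pow_succ, Perm.mul_apply] at this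
    simp only [φ, this, ← sum_neg_distrib]
    exact sum_congr rfl fun i _ => by split_ifs <;> simp
  have h3 : ∀ ε : ℤ, ε = 1 ∨ ε = -1 → φ p + ε * φ (x p) = 0 := fun ε hε =>
    h ε (fun q => φ q + ε * φ (x q)) hε (fun q _ => by rw [hx]; rcases hε with rfl | rfl <;> ring)
      (fun q _ => by
        have := h2 (z q)
        rw [hz] at this
        rw [h2, this]; rcases hε with rfl | rfl <;> ring) p (mem_univ p)
  have h4 : 0 < φ p := sum_pos' (fun i _ => by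
    split_ifs with e
    · refine (Even.neg_one_pow (Nat.not_odd_iff_even.1 fun hi => hp ?_)).ge.trans' zero_le_one
      have e1 : IsPeriodicPt (x * z) i p := e
      have e2 : IsPeriodicPt (x * z) (m + m) p := congrArg (fun f : Perm α => f p) h1
      exact (e1.gcd e2).trans_dvd ((Nat.Coprime.dvd_mul_left (Nat.coprime_two_right.2
        (hi.of_dvd_nat (Nat.gcd_dvd_left _ _)))).1 (two_mul m ▸ Nat.gcd_dvd_right _ _))
    · rfl) ⟨0, mem_range.2 h0, by simp⟩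
  have := h3 1 (.inl rfl)
  have := h3 (-1) (.inr rfl)
  omega

theorem exists_mid [Fintype α] (h5 : 5 ≤ Fintype.card α) {x y : Perm α} (hx : x * x = 1) (hc : IsConj x y) :
    ∃ z : Perm α, z * z = 1 ∧ Odd (orderOf (x * z)) ∧ Odd (orderOf (y * z)) := by
  obtain ⟨g, rfl⟩ := isConj_iff.1 hc
  have ix : Involutive x := fun p => congrArg (fun f : Perm α => f p) hx
  have iy : Involutive ⇑(g * x * g⁻¹) := fun p => by simp [ix _]
  obtain ⟨z, h1, h2, h3⟩ := main univ x (g * x * g⁻¹ :) ⟨ix, iy, by simp, by simp,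
    card_bijective _ g.bijective fun p => by rw [mem_filter, mem_filter]; simp⟩ fun ⟨a, _, _, h⟩ => by
      have := (card_le_card h).trans card_le_four
      rw [card_univ] at this
      omega
  exact ⟨h1.inv.toPerm z, Equiv.ext h1.inv, odd_of ix h1.inv h2, odd_of iy h1.inv h3⟩

end CL.OddProd
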