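/-
Simple collineation groups fixing an oval of a projective plane of odd order: definitions, the steps as
propositions, basic lemmas on ovals and homologies, and the assembly.
-/
import Cfsg.Agent.Perm.PlaneSub
import Cfsg.Agent.Even.Amb
import Cfsg.Agent.Transfer.Basic
import Cfsg.Agent.Inv.BF3

set_option autoImplicit false
set_option linter.unusedSectionVars false

namespace CL.Perm.Ov

open MulAction Cfsg Subgroup CL.Even CL.Grp

universe u v w

/-! ### The group-theoretic shadow -/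

/-- The properties of the set `H` of involutory homologies. -/
structure Ty (G : Type u) [Group G] (H : G → Prop) : Prop where
  ord : ∀ {t}, H t → orderOf t = 2
  conj : ∀ {t} (g : G), H t → H (g * t * g⁻¹)
  mul : ∀ {x y}, H x → H y → x ≠ y → x * y = y * x → H (x * y)
  four : ∀ {x y}, orderOf x = 2 → orderOf y = 2 → x ≠ y → x * y = y * x → H x ∨ H y ∨ H (x * y)
  cent : ∀ {x y} (C : Subgroup G), H x → H y → x ≠ y → x * y = y * x → IsPGroup 2 C →
    (∀ c ∈ C, c * x = x * c ∧ c * y = y * c) →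
    ∃ W ≤ C, IsCyclic W ∧ (∀ w ∈ W, ¬ H w) ∧ Nat.card C ≤ 4 * Nat.card W
  half : (∃ b, orderOf b = 2 ∧ ¬ H b) → ∀ S : Subgroup G, IsPGroup 2 S →
    ∃ S₀ ≤ S, Nat.card S ≤ 2 * Nat.card S₀ ∧ ∀ x ∈ S₀, ∀ y ∈ S₀, H x → H y → x = y
  star : ∀ {k s x y}, (orderOf k).Prime → Odd (orderOf k) → H s → H (s * k) → H x → H y → x ≠ y →
    x * y = y * x → k * x = x * k → k * y = y * k → False
  star2 : ∀ {k s t g}, (orderOf k).Prime → Odd (orderOf k) → H s → H (s * k) → H t → t * s = s * t →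
    t * k = k * t → g * k = k * g → g * t = t * g

/-- The homologies of the Sylow 2-subgroup `S` are `z` and the elements of `h A`. -/
structure Dh {G : Type u} [Group G] (H : G → Prop) (S A : Subgroup G) (z h : G) : Prop where
  syl : IsSylowIn 2 S ⊤
  hz : H z
  zS : z ∈ S
  zc : z ∈ 𝒞(S)
  hh : H h
  hS : h ∈ S
  cnj : IsConj z h
  le : A ≤ S
  cyc : IsCyclic A
  zA : z ∈ A
  hA : h ∉ A
  inv : ∀ a ∈ A, H (h * a)
  all : ∀ x ∈ S, H x → x = z ∨ ∃ a ∈ A, x = h * a
  norm : S ≤ 𝒩(A)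

/-- The last configuration. -/
structure Dh2 {G : Type u} [Group G] (H : G → Prop) (S A W : Subgroup G) (z h u β : G) : Prop
    extends Dh H S A z h where
  Wle : W ≤ S
  Wcyc : IsCyclic W
  WH : ∀ w ∈ W, ¬ H w
  Wh : ∀ w ∈ W, w * h = h * w
  Cc : ∀ c ∈ S, c * h = h * c → ∃ w ∈ W, c = w ∨ c = z * w ∨ c = h * w ∨ c = h * z * w
  uS : u ∈ S
  ugen : ∀ a ∈ A, a ∈ zpowers (h * (u * h * u⁻¹))
  big : 4 ≤ Nat.card A
  bS : β ∈ S
  bo : orderOf β = 2
  bH : ¬ H β
  bh : β * h = h * β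
  bA : β ∈ 𝒞(A)
  bu : u * β * u⁻¹ = β * z
  sq : ∀ c ∈ S, c * h = h * c → orderOf (c * c) = 2 → c * c = β

def StepD : Prop := ∀ (G : Type u) [Group G] [Finite G] [IsSimpleGroup G] (H : G → Prop), ¬ IsMulCommutative G →
  Ty G H → (∃ b, orderOf b = 2 ∧ ¬ H b) → ∃ (S A : Subgroup G) (z h : G), Dh H S A z h

def StepE1 : Prop := ∀ (G : Type u) [Group G] [Finite G] [IsSimpleGroup G] (H : G → Prop) (S A : Subgroup G)
  (z h : G), ¬ IsMulCommutative G → Ty G H → (∃ b, orderOf b = 2 ∧ ¬ H b) → Dh H S A z h →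
  ∃ (W : Subgroup G) (u β : G), Dh2 H S A W z h u β

def StepE2 : Prop := ∀ (G : Type u) [Group G] [Finite G] [IsSimpleGroup G] (H : G → Prop) (S A W : Subgroup G)
  (z h u β : G), ¬ IsMulCommutative G → Ty G H → ¬ Dh2 H S A W z h u β

def Sift : Prop := ∀ (G : Type u) [Group G] [Finite G] [IsSimpleGroup G] (H : G → Prop), ¬ IsMulCommutative G →
  Ty G H → (∀ b, orderOf b = 2 → H b) → ∃ (F : Type) (_ : Field F) (_ : Fintype F), Odd (Fintype.card F) ∧
    Nonempty (G ≃* Matrix.ProjectiveSpecialLinearGroup (Fin 2) F)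

/-- Thompson transfer with a cyclic quotient: `S = ⟨w⟩ N`, `N` normal in `S`. -/
theorem cyc_transfer {G : Type u} [Group G] [Finite G] [IsSimpleGroup G] (hG : ¬ IsMulCommutative G)
    {S N : Subgroup G} (hS : IsSylowIn 2 S ⊤) (hn : S ≤ 𝒩(N)) {w : G} (hw : w ∈ S)
    (hgen : ∀ s ∈ S, ∃ i : ℤ, (w ^ i)⁻¹ * s ∈ N) {b : G} (hb : orderOf b = 2) : ∃ g : G, g * b * g⁻¹ ∈ N := by
  have : Fact (Nat.Prime 2) := ⟨Nat.prime_two⟩
  by_contra hcon
  push Not at hcon
  have hN : (N.subgroupOf S).Normal := (normal_subgroupOf_iff_le_normalizer_inf).2 (by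
    intro s hs
    refine mem_normalizer_fintype fun x hx => ⟨?_, S.mul_mem (S.mul_mem hs hx.2) (S.inv_mem hs)⟩
    exact (mem_normalizer_iff.1 (hn hs) x).1 hx.1)
  let ϕ := QuotientGroup.mk' (N.subgroupOf S)
  have hcyc : IsCyclic (S ⧸ N.subgroupOf S) := ⟨⟨ϕ ⟨w, hw⟩, fun q => by
    obtain ⟨s, rfl⟩ := QuotientGroup.mk'_surjective _ q
    obtain ⟨i, hi⟩ := hgen s s.2
    exact ⟨i, by simp only [← map_zpow]; exact QuotientGroup.eq.2 hi⟩⟩⟩
  let := hcyc.commGroup
  have b2 : b ^ 2 = 1 := hb ▸ pow_orderOf_eq_one b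
  obtain ⟨g, -, hg⟩ := hS.exists_conj_le (isPGroup_zpowers_of_mul_self (g := b) (by rw [← pow_two, b2])) le_top
  have hϕ : ∀ (g : G) (h : g⁻¹ * b * g ∈ S), orderOf (ϕ ⟨_, h⟩) = 2 := fun g h =>
    orderOf_eq_prime (by
      rw [← map_pow, show (⟨_, h⟩ : S) ^ 2 = 1 from Subtype.ext (by
        change (g⁻¹ * b * g) ^ 2 = 1
        calc _ = g⁻¹ * b ^ 2 * g := by rw [pow_two, pow_two]; group
          _ = 1 := by rw [b2]; group), map_one])
      fun e => hcon g⁻¹ (by simpa using mem_subgroupOf.1 ((QuotientGroup.eq_one_iff _).1 e))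
  have h0 : g⁻¹⁻¹ * b * g⁻¹ ∈ S := by simpa using hg (conj_mem_conj_smul g (mem_zpowers b))
  have ha := hϕ _ h0
  have h1 := CL.Transfer.transfer_eq_pow_of_conj ϕ b (ϕ ⟨_, h0⟩) fun k x hx => by
    have a2 : ϕ ⟨_, h0⟩ ^ 2 = 1 := ha ▸ pow_orderOf_eq_one _
    rcases Nat.even_or_odd' k with ⟨j, rfl | rfl⟩
    · have e : x⁻¹ * b ^ (2 * j) * x = 1 := by rw [pow_mul, b2, one_pow, mul_one, inv_mul_cancel]
      rw [show (⟨_, hx⟩ : S) = 1 from Subtype.ext e, map_one, pow_mul, a2, one_pow]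
    · have e : x⁻¹ * b ^ (2 * j + 1) * x = x⁻¹ * b * x := by rw [pow_succ, pow_mul, b2, one_pow, one_mul]
      have hy : x⁻¹ * b * x ∈ S := e ▸ hx
      rw [show (⟨_, hx⟩ : S) = ⟨_, hy⟩ from Subtype.ext e, pow_succ (ϕ _), pow_mul (ϕ _), a2, one_pow, one_mul]
      exact CL.Inv.eq_of_invol_of_isCyclic (hϕ _ _) ha
  have h2 : (MonoidHom.transfer ϕ).ker = ⊤ := by
    refine (IsSimpleGroup.eq_bot_or_eq_top_of_normal _ inferInstance).resolve_left fun h => hG ?_
    refine ⟨⟨fun a b => (MonoidHom.ker_eq_bot_iff _).mp h ?_⟩⟩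
    rw [map_mul, map_mul, mul_comm]
  have h4 := orderOf_dvd_of_pow_eq_one (h1.symm.trans (h2.ge (mem_top b)))
  rw [ha] at h4
  exact hS.not_dvd (by rwa [relIndex_top_right])

/-! ### Ovals -/

variable {G : Type u} {P : Type v} {L : Type w} [Group G] [MulAction G P] [MulAction G L]

/-- `O` is an oval of the plane `D` of odd order. -/
structure Oval (D : Pl G P L) (O : Set P) : Prop where
  odd : Odd D.n
  card : O.ncard = D.n + 1
  arc : ∀ {l p q r}, p ∈ O → q ∈ O → r ∈ O → D.I p l → D.I q l → D.I r l → p = q ∨ p = r ∨ q = r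

/-- `g` maps `O` into `O` -/
def Inv (O : Set P) (g : G) : Prop := ∀ p ∈ O, g • p ∈ O

/-- `t` is an involution with an axis -/
def Hm (D : Pl G P L) (t : G) : Prop := orderOf t = 2 ∧ ∃ a, D.Ax t a

/-- `l` meets `O` in `p` only -/
def Tan (D : Pl G P L) (O : Set P) (p : P) (l : L) : Prop := D.I p l ∧ ∀ q ∈ O, D.I q l → q = p

/-- a four-group of Baer involutions -/
def Four0 : Prop := ∀ (G : Type u) (P : Type v) (L : Type w) [Group G] [MulAction G P] [MulAction G L]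
  (D : Pl G P L) (O : Set P) (x y : G), Oval D O → Inv O x → Inv O y → orderOf x = 2 → orderOf y = 2 → x ≠ y →
  x * y = y * x → (∃ p ∈ O, x • p = p) → (∃ p ∈ O, y • p = p) → (∃ p ∈ O, (x * y) • p = p) →
  Hm D x ∨ Hm D y ∨ Hm D (x * y)

/-- a 2-group fixing three points of the oval is cyclic -/
def PlCyc : Prop := ∀ (G : Type u) (P : Type v) (L : Type w) [Group G] [MulAction G P] [MulAction G L]
  (D : Pl G P L) (O : Set P) (W : Subgroup G) (p q r : P), Oval D O → (∀ g ∈ W, Inv O g) → IsPGroup 2 W →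
  p ∈ O → q ∈ O → r ∈ O → p ≠ q → p ≠ r → q ≠ r → Fx W p → Fx W q → Fx W r → IsCyclic W

/-- the geometric step -/
def Geo : Prop := ∀ (G : Type u) (P : Type v) (L : Type w) [Group G] [MulAction G P] [MulAction G L]
  (D : Pl G P L) (O : Set P), Oval D O → (∀ g : G, Inv O g) → _root_.commutator G = ⊤ → Ty G (Hm D)

namespace Oval

variable {D : Pl G P L} {O : Set P} (h : Oval D O) {g t s : G} {p q c c' : P} {l k a a' : L}
include h

theorem three_le : 3 ≤ D.n := by have := D.two_le; obtain ⟨k, hk⟩ := h.odd; omega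

theorem fin : O.Finite := by have := D.finP; exact Set.toFinite O

/-- each point of the oval lies on exactly one tangent -/
theorem existsUnique_tan (hp : p ∈ O) : ∃! l, Tan D O p l := by
  classical
  have := D.finP
  have := D.finL
  let f : P → L := fun q => (D.join p q).choose
  have hf : ∀ q, D.I p (f q) ∧ D.I q (f q) := fun q => (D.join p q).choose_spec
  have hinj : Set.InjOn f (O \ {p}) := fun q hq r hr e =>
    ((h.arc hp hq.1 hr.1 (hf q).1 (hf q).2 (e ▸ (hf r).2)).resolve_left (Ne.symm hq.2)).resolve_left (Ne.symm hr.2)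
  have h1 : (f '' (O \ {p})).ncard = D.n := by
    rw [hinj.ncard_image, Set.ncard_sdiff_singleton_of_mem hp, h.card, Nat.add_sub_cancel]
  have h2 : {l | Tan D O p l} = {l | D.I p l} \ f '' (O \ {p}) := by
    ext l
    refine ⟨fun hl => ⟨hl.1, ?_⟩, fun hl => ⟨hl.1, fun q hq hql => by_contra fun e => hl.2 ⟨q, ⟨hq, e⟩, ?_⟩⟩⟩
    · rintro ⟨q, hq, rfl⟩
      exact hq.2 (hl.2 q hq.1 (hf q).2)
    · exact Pl.line_eq (hf q).1 (hf q).2 hl.1 hql (Ne.symm e)
  have h3 : {l | Tan D O p l}.ncard = 1 := by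
    rw [h2, Set.ncard_sdiff (by rintro _ ⟨q, -, rfl⟩; exact (hf q).1), D.cardL, h1]; omega
  obtain ⟨l, hl⟩ := Set.ncard_eq_one.1 h3
  exact ⟨l, (hl.ge rfl : l ∈ {l | Tan D O p l}), fun k hk => hl.le hk⟩

theorem inv_inv (hg : Inv O g) : Inv O g⁻¹ := fun p hp => by
  obtain ⟨q, hq, e⟩ := (h.fin.injOn_iff_bijOn_of_mapsTo (f := fun p => g • p) hg).1
    (MulAction.injective g).injOn |>.surjOn hp
  rw [← e]; simpa using hq

theorem tan_smul (hg : Inv O g) (hl : Tan D O p l) : Tan D O (g • p) (g • l) :=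
  ⟨(D.smul g p l).2 hl.1, fun q hq hql => by
    rw [← hl.2 _ (h.inv_inv hg q hq) (by rwa [← D.smul g, smul_inv_smul]), smul_inv_smul]⟩

theorem tan_fix (hg : Inv O g) (hp : p ∈ O) (hl : Tan D O p l) (e : g • p = p) : g • l = l :=
  (h.existsUnique_tan hp).unique (e ▸ h.tan_smul hg hl :) hl

/-- a point of the oval on a fixed line is fixed or mapped to the second point of the line -/
theorem sq_fix (hg : Inv O g) (hp : p ∈ O) (hl : D.I p l) (e : g • l = l) : g • g • p = p := by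
  rcases h.arc hp (hg p hp) (hg _ (hg p hp)) hl ((Pl.I_smul e).2 hl) ((Pl.I_smul e).2 ((Pl.I_smul e).2 hl))
    with e | e | e
  · rw [← e, ← e]
  · exact e.symm
  · rw [← MulAction.injective g e, ← MulAction.injective g e]

/-- a fixed line through a fixed point of the oval: its second point is fixed -/
theorem fix_of_fix (hg : Inv O g) (hp : p ∈ O) (hq : q ∈ O) (h1 : D.I p l) (h2 : D.I q l) (e : g • l = l)
    (e' : g • p = p) : g • q = q := by
  rcases h.arc hp hq (hg q hq) h1 h2 ((Pl.I_smul e).2 h2) with e | e | e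
  · rw [← e, e']
  · rw [← MulAction.injective g (e'.trans e), e']
  · exact e.symm

/-- the action on the oval is faithful -/
theorem eq_one (hg : ∀ p ∈ O, g • p = p) : g = 1 := by
  have hi : Inv O g := fun p hp => (hg p hp).symm ▸ hp
  have key : ∀ p ∈ O, ∀ l, D.I p l → g • l = l := fun p hp l hl => by
    by_cases e : ∀ q ∈ O, D.I q l → q = p
    · exact h.tan_fix hi hp ⟨hl, e⟩ (hg p hp)
    · push Not at e
      obtain ⟨q, hq, h1, h2⟩ := e
      exact Pl.fix_line h1 hl h2 (hg q hq) (hg p hp)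
  obtain ⟨p, hp, q, hq, hpq⟩ := (Set.one_lt_ncard h.fin).1 (by rw [h.card]; have := D.two_le; omega)
  exact Pl.two_centres (D := D) (key p hp) (key q hq) hpq

theorem centre_notMem (hg : Inv O g) (h1 : g ≠ 1) (hc : D.Ce g c) : c ∉ O := fun e => h1 (h.eq_one fun p hp => by
  obtain ⟨l, h2, h3⟩ := D.join c p
  exact h.fix_of_fix hg e hp h2 h3 (hc l h2) hc.fix)

/-- an involutory perspectivity is a homology -/
theorem centre_off (ho : orderOf t = 2) (ha : D.Ax t a) (hc : D.Ce t c) : ¬ D.I c a := fun e => by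
  have t1 : t ≠ 1 := by rintro rfl; simp at ho
  have tt : t * t = 1 := by rw [← pow_two, ← ho, pow_orderOf_eq_one]
  have := D.finP
  obtain ⟨l, h1, h2, -⟩ := D.exists_ne₂' c a a
  obtain ⟨X, hX, h3⟩ := exists_fixed_of_mul_self tt ({X | D.I X l} \ {c}) (Set.toFinite _)
    (fun X hX => ⟨(Pl.I_smul (hc l h1)).2 hX.1, fun e => hX.2 (MulAction.injective t (e.trans hc.fix.symm))⟩)
    (by rw [D.ncard_sdiff h1]; exact h.odd)
  exact hX.2 ((Pl.fix_cases ha hc t1 h3).elim (fun e' => Pl.point_eq hX.1 e' h1 e h2) id)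

/-- the fixed points on the oval of a perspectivity lie on the axis -/
theorem mem_ax (ht : Inv O t) (t1 : t ≠ 1) (ha : D.Ax t a) (hp : p ∈ O) (e : t • p = p) : D.I p a := by
  obtain ⟨c, hc⟩ := ha.exists_ce
  exact (Pl.fix_cases ha hc t1 e).resolve_right fun e' => h.centre_notMem ht t1 hc (e' ▸ hp)

/-- homologies with the same centre are equal -/
theorem eq_of_centre (hs : Inv O s) (ht : Inv O t) (os : orderOf s = 2) (ot : orderOf t = 2) (cs : D.Ce s c)
    (ct : D.Ce t c) : s = t := by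
  have key : ∀ {s t : G}, Inv O s → Inv O t → orderOf s = 2 → D.Ce s c → D.Ce t c → ∀ p ∈ O, s • p = p →
      t • p = p := fun {s t} hs ht os cs ct p hp e => by
    have s1 : s ≠ 1 := by rintro rfl; simp at os
    obtain ⟨a, ha⟩ := cs.exists_ax
    obtain ⟨l, h1, h2⟩ := D.join c p
    by_contra e'
    have h3 := (Pl.I_smul (ct l h1)).2 h2
    exact h.centre_off os ha cs (Pl.line_eq h2 h3 (h.mem_ax hs s1 ha hp e) (h.mem_ax hs s1 ha (ht p hp)
      (h.fix_of_fix hs hp (ht p hp) h2 h3 (cs l h1) e)) (Ne.symm e') ▸ h1)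
  refine (inv_mul_eq_one.1 (h.eq_one fun p hp => inv_smul_eq_iff.2 ?_ |> (mul_smul s⁻¹ t p).trans))
  obtain ⟨l, h1, h2⟩ := D.join c p
  rcases h.arc hp (hs p hp) (ht p hp) h2 ((Pl.I_smul (cs l h1)).2 h2) ((Pl.I_smul (ct l h1)).2 h2) with e | e | e
  · rw [← e, key hs ht os cs ct p hp e.symm]
  · rw [← e, key ht hs ot ct cs p hp e.symm]
  · exact e.symm

/-- a collineation commutes with a homology whose centre it fixes -/
theorem comm_of_fix (hg : Inv O g) (ht : Inv O t) (ot : orderOf t = 2) (ct : D.Ce t c) (e : g • c = c) :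
    g * t = t * g := by
  have := h.eq_of_centre (s := g * t * g⁻¹) (fun p hp => by
    rw [mul_smul, mul_smul]; exact hg _ (ht _ (h.inv_inv hg p hp))) ht
    (by rw [← ot, ← MulAut.conj_apply, MulEquiv.orderOf_eq]) ot (e ▸ ct.conj g :) ct
  rw [mul_inv_eq_iff_eq_mul.1 this]

/-- homologies with the same axis are equal -/
theorem eq_of_axis (hs : Inv O s) (ht : Inv O t) (os : orderOf s = 2) (ot : orderOf t = 2) (as : D.Ax s a)
    (at' : D.Ax t a) : s = t := by
  have ss : s * s = 1 := by rw [← pow_two, ← os, pow_orderOf_eq_one]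
  have tt : t * t = 1 := by rw [← pow_two, ← ot, pow_orderOf_eq_one]
  have t1 : t ≠ 1 := by rintro rfl; simp at ot
  obtain ⟨c, hc⟩ := (as.mul at').exists_ce
  have hi : Inv O (s * t) := fun p hp => by rw [mul_smul]; exact hs _ (ht p hp)
  have h1 : s * t * (s * t) = 1 := h.eq_one fun p hp => by
    obtain ⟨l, h1, h2⟩ := D.join c p
    rw [mul_smul]; exact h.sq_fix hi hp h2 (hc l h1)
  have h2 : t * s * t⁻¹ = s := by
    rw [inv_eq_of_mul_eq_one_right tt]
    calc t * s * t = s * s * (t * s * t) := by rw [ss, one_mul]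
      _ = s * (s * t * (s * t)) := by group
      _ = s := by rw [h1, mul_one]
  obtain ⟨c1, h3⟩ := as.exists_ce
  obtain ⟨c2, h4⟩ := at'.exists_ce
  have h5 : t • c1 = c1 := by_contra fun e => by
    have := Pl.two_centres (h2 ▸ h3.conj t :) h3 e
    rw [this] at os; simp at os
  exact h.eq_of_centre hs ht os ot
    (((Pl.fix_cases at' h4 t1 h5).resolve_left (h.centre_off os as h3)) ▸ h3) h4

/-- a group fixing three points of the oval is planar -/
theorem planar {U : Subgroup G} (hU : ∀ g ∈ U, Inv O g) {r : P} (hp : p ∈ O) (hq : q ∈ O) (hr : r ∈ O)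
    (pq : p ≠ q) (pr : p ≠ r) (qr : q ≠ r) (fp : Fx U p) (fq : Fx U q) (fr : Fx U r) : D.Planar U := by
  obtain ⟨l, hl, -⟩ := h.existsUnique_tan hp
  obtain ⟨k, hk, -⟩ := h.existsUnique_tan hq
  obtain ⟨R, h1, h2⟩ := D.meet l k
  have lk : l ≠ k := fun e => pq (hk.2 p hp (e ▸ hl.1))
  have fR : Fx U R := Pl.fx_point h1 h2 lk (fun g hg => h.tan_fix (hU g hg) hp hl (fp g hg))
    fun g hg => h.tan_fix (hU g hg) hq hk (fq g hg)
  have RO : R ∉ O := fun e => pq ((hl.2 R e h1).symm.trans (hk.2 R e h2))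
  have n1 : ∀ a, D.I R a → D.I p a → ∀ x ∈ O, x ≠ p → ¬ D.I x a := fun a h3 h4 x hx xp e =>
    xp (hl.2 x hx (Pl.line_eq h3 h4 h1 hl.1 (fun e => RO (e ▸ hp)) ▸ e))
  have n2 : ∀ a, D.I R a → D.I q a → ∀ x ∈ O, x ≠ q → ¬ D.I x a := fun a h3 h4 x hx xp e =>
    xp (hk.2 x hx (Pl.line_eq h3 h4 h2 hk.1 (fun e => RO (e ▸ hq)) ▸ e))
  intro a c
  by_contra hcon
  push Not at hcon
  have two : ∀ {x y : P}, Fx U x → Fx U y → x ≠ y → D.I x a ∨ D.I y a := fun {x y} fx fy xy =>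
    by_contra fun e => xy ((hcon x fx fun e' => e (Or.inl e')).trans (hcon y fy fun e' => e (Or.inr e')).symm)
  have Rp : R ≠ p := fun e => RO (e ▸ hp)
  have Rq : R ≠ q := fun e => RO (e ▸ hq)
  have Rr : R ≠ r := fun e => RO (e ▸ hr)
  by_cases e1 : D.I p a <;> by_cases e2 : D.I q a
  · have e3 : ¬ D.I r a := fun e => by rcases h.arc hp hq hr e1 e2 e with e | e | e <;> contradiction
    exact n1 a ((two fR fr Rr).resolve_right e3) e1 q hq pq.symm e2
  · exact n1 a ((two fR fq Rq).resolve_right e2) e1 r hr pr.symm ((two fq fr qr).resolve_left e2)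
  · exact n2 a ((two fR fp Rp).resolve_right e1) e2 r hr qr.symm ((two fp fr pr).resolve_left e1)
  · exact (two fp fq pq).elim e1 e2

/-- the order of the fixed subplane is one less than the number of fixed points on the oval -/
theorem ncard_fix {U : Subgroup G} (hU : ∀ g ∈ U, Inv O g) {m : ℕ} (hm : D.IsOrd U m) (hp : p ∈ O)
    (fp : Fx U p) : {q | q ∈ O ∧ Fx U q}.ncard = m + 1 := by
  classical
  have := D.finP
  obtain ⟨l, hl, hu⟩ := h.existsUnique_tan hp
  rw [← hm.ncard_lns (k := l) (fun g hg => h.tan_fix (hU g hg) hp hl (fp g hg)) fp hl.1,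
    ← Set.ncard_sdiff_singleton_add_one (s := {q | q ∈ O ∧ Fx U q}) (a := p) ⟨hp, fp⟩]
  congr 1
  refine Set.ncard_congr (fun q _ => (D.join p q).choose) (fun q hq => ?_) (fun q r hq hr e => ?_) fun j hj => ?_
  · obtain ⟨h1, h2⟩ := (D.join p q).choose_spec
    exact ⟨Pl.fx_line h1 h2 (Ne.symm hq.2) fp hq.1.2, h1, fun e => hq.2 (hl.2 q hq.1.1 (e ▸ h2))⟩
  · obtain ⟨h1, h2⟩ := (D.join p q).choose_spec
    obtain ⟨-, h3⟩ := (D.join p r).choose_spec
    exact ((h.arc hp hq.1.1 hr.1.1 h1 h2 ((show (D.join p q).choose = _ from e) ▸ h3)).resolve_left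
      (Ne.symm hq.2)).resolve_left (Ne.symm hr.2)
  · by_cases e : ∀ q ∈ O, D.I q j → q = p
    · exact absurd (hu j ⟨hj.2.1, e⟩) hj.2.2
    push Not at e
    obtain ⟨q, hq, h1, h2⟩ := e
    obtain ⟨h3, h4⟩ := (D.join p q).choose_spec
    exact ⟨q, ⟨⟨hq, fun g hg => h.fix_of_fix (hU g hg) hp hq hj.2.1 h1 (hj.1 g hg) (fp g hg)⟩, h2⟩,
      Pl.line_eq h3 h4 hj.2.1 h1 (Ne.symm h2)⟩

/-- an involution that is not a homology is a Baer involution -/
theorem baer (ho : orderOf t = 2) (ht : ¬ Hm D t) : ∃ m, D.IsOrd (zpowers t) m ∧ D.n = m ^ 2 := by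
  have tt : t * t = 1 := by rw [← pow_two, ← ho, pow_orderOf_eq_one]
  have hp : D.Planar (zpowers t) := fun a c => by_contra fun e => ht ⟨ho, a, Pl.ax_of_fix_subset (c := c)
    h.three_le tt fun X hX => by_contra fun e' => e ⟨X, (zpowers_le (H := stabilizer G X)).2 hX, not_or.1 e'⟩⟩
  obtain ⟨m, hm⟩ := hp.exists_isOrd
  obtain ⟨n, hn⟩ := D.planar_bot.exists_isOrd
  refine ⟨m, hm, hn.eq_of_bot.trans ((hn.baer (g := t) (fun a ha => by simp [mem_bot.1 ha]) (tt ▸ one_mem _)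
    (by rwa [bot_sup_eq])).resolve_left fun e => ?_)⟩
  have := D.faith' t fun j => e.2 j (fx_bot j)
  rw [this] at ho; simp at ho

end Oval

/-- assembly -/
theorem main_of (hG : Geo.{u, v, w}) (hD : StepD.{u}) (h1 : StepE1.{u}) (h2 : StepE2.{u}) (hS : Sift.{u})
    [IsSimpleGroup G] (hn : ¬ IsMulCommutative G) (D : Pl G P L) {O : Set P} (h : Oval D O) (hi : ∀ g : G, Inv O g) :
    ∃ (F : Type) (_ : Field F) (_ : Fintype F), Odd (Fintype.card F) ∧
      Nonempty (G ≃* Matrix.ProjectiveSpecialLinearGroup (Fin 2) F) := by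
  have := D.finG
  have hT := hG G P L D O h hi ((IsSimpleGroup.eq_bot_or_eq_top_of_normal _ inferInstance).resolve_left fun e =>
    hn ⟨⟨fun a b => commutatorElement_eq_one_iff_mul_comm.1
      (mem_bot.1 (e ▸ commutator_mem_commutator (mem_top a) (mem_top b)))⟩⟩)
  refine hS G _ hn hT fun b hb => by_contra fun e => ?_
  obtain ⟨S, A, z, k, h3⟩ := hD G _ hn hT ⟨b, hb, e⟩
  obtain ⟨W, u, β, h4⟩ := h1 G _ S A z k hn hT ⟨b, hb, e⟩ h3
  exact h2 G _ S A W z k u β hn hT h4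

end CL.Perm.Ov
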