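/-
Ovals: restriction to a fixed subplane; the plane of a Mathlib projective plane; parity.
-/
import Cfsg.Agent.Perm.OvDefs
import Cfsg.Agent.Fgs.FixCount

set_option autoImplicit false
set_option linter.unusedSectionVars false

namespace CL.Perm.Ov

open MulAction Cfsg Subgroup CL.Even CL.Grp

universe u v w

variable {G : Type u} {P : Type v} {L : Type w} [Group G] [MulAction G P] [MulAction G L]

/-- an element normalising `U` acts on the fixed structure of `U` -/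
theorem exists_res (D : Pl G P L) {U : Subgroup G} {g : G} (hg : g ∈ 𝒩(U)) :
    ∃ σ : collGroup (D.subI U), (∀ Y : {X : P // Fx U X}, (σ • Y).1 = g • Y.1) ∧
      ∀ l : {l : L // Fx U l}, (σ • l).1 = g • l.1 := by
  have h1 : ∀ a ∈ U, g⁻¹ * a * g ∈ U := fun a ha => by
    simpa using (mem_normalizer_iff.1 (inv_mem hg) a).1 ha
  have h2 : ∀ a ∈ U, g⁻¹⁻¹ * a * g⁻¹ ∈ U := fun a ha => by
    simpa using (mem_normalizer_iff.1 hg a).1 ha
  exact ⟨⟨(⟨fun X => ⟨g • X.1, X.2.smul h1⟩, fun X => ⟨g⁻¹ • X.1, X.2.smul h2⟩,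
      fun X => Subtype.ext (inv_smul_smul _ _), fun X => Subtype.ext (smul_inv_smul _ _)⟩,
    ⟨fun X => ⟨g • X.1, X.2.smul h1⟩, fun X => ⟨g⁻¹ • X.1, X.2.smul h2⟩,
      fun X => Subtype.ext (inv_smul_smul _ _), fun X => Subtype.ext (smul_inv_smul _ _)⟩),
    fun p l => D.smul g p.1 l.1⟩, fun _ => rfl, fun _ => rfl⟩

namespace Oval

variable {D : Pl G P L} {O : Set P} (h : Oval D O) {g t s : G} {p q c : P} {l a : L}
include h

/-- the fixed points of `U` on the oval form an oval of the fixed subplane -/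
theorem sub {U : Subgroup G} (hU : ∀ g ∈ U, Inv O g) {m : ℕ} (hm : D.IsOrd U m) (ho : Odd m) (hp : p ∈ O)
    (fp : Fx U p) : ∃ D₀ : Pl (collGroup (D.subI U)) {X : P // Fx U X} {l : L // Fx U l},
      D₀.I = D.subI U ∧ D₀.n = m ∧ Oval D₀ {X | X.1 ∈ O} := by
  have h1 := h.ncard_fix hU hm hp fp
  obtain ⟨D₀, h0, rfl⟩ := hm
  refine ⟨D₀, h0, rfl, ho, ?_, fun {l p q r} hp hq hr h2 h3 h4 => ?_⟩
  · rw [← h1, ← Set.ncard_image_of_injective _ Subtype.val_injective]
    congr 1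
    ext X
    exact ⟨by rintro ⟨X, h, rfl⟩; exact ⟨h, X.2⟩, fun h => ⟨⟨X, h.2⟩, h.1, rfl⟩⟩
  · rw [h0] at h2 h3 h4
    exact (h.arc hp hq hr h2 h3 h4).imp Subtype.ext (Or.imp Subtype.ext Subtype.ext)

/-- a line meets the oval in at most two points -/
theorem ncard_le_two (l : L) : {p | p ∈ O ∧ D.I p l}.ncard ≤ 2 := by
  have := D.finP
  by_contra e
  obtain ⟨p, q, r, hp, hq, hr, pq, pr, qr⟩ := (Set.two_lt_ncard_iff (Set.toFinite _)).1 (not_le.1 e)
  rcases h.arc hp.1 hq.1 hr.1 hp.2 hq.2 hr.2 with e | e | e <;> contradiction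

/-- parity: in a perfect group an involution fixes `n + 1` points of the oval modulo `4` -/
theorem fix_mod (hi : ∀ g : G, Inv O g) (hG : _root_.commutator G = ⊤) (ht : t ^ 2 = 1) :
    {p | p ∈ O ∧ t • p = p}.ncard % 4 = (D.n + 1) % 4 := by
  have := D.finP
  let Ω : SubMulAction G P := ⟨O, fun g p hp => hi g p hp⟩
  have h1 := CL.Fgs.four_dvd_card_sub_ncard_fixedBy (Ω := Ω) hG ht
  have h2 : Nat.card Ω = D.n + 1 := h.card
  have h3 : (fixedBy Ω t).ncard = {p | p ∈ O ∧ t • p = p}.ncard := by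
    rw [← Set.ncard_image_of_injective _ Subtype.val_injective]
    congr 1
    ext X
    exact ⟨by rintro ⟨X, h, rfl⟩; exact ⟨X.2, congrArg Subtype.val h⟩, fun h => ⟨⟨X, h.1⟩, Subtype.ext h.2, rfl⟩⟩
  have h4 : (fixedBy Ω t).ncard ≤ Nat.card Ω := Set.ncard_le_card _
  omega

end Oval

open Configuration in
/-- the plane attached to a Mathlib projective plane with a faithful collineation group -/
theorem exists_pl [Membership P L] [Fintype P] [Fintype L] [ProjectivePlane P L] [FaithfulSMul G P]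
    (hcoll : ∀ (g : G) (p : P) (l : L), g • p ∈ g • l ↔ p ∈ l) :
    ∃ D : Pl G P L, (∀ p l, D.I p l ↔ p ∈ l) ∧ D.n = ProjectivePlane.order P L := by
  obtain ⟨D, hD⟩ := Pl.exists_of_plane (fun (p : P) (l : L) => p ∈ l) fun _ _ => Iff.rfl
  have hn : D.n = ProjectivePlane.order P L := by
    obtain ⟨l⟩ := D.neL
    have h1 := D.cardP l
    rw [hD] at h1
    exact Nat.succ_injective (h1.symm.trans (ProjectivePlane.pointCount_eq P l))
  have hf : ∀ g : G, (∀ p : P, g • p = p) → g = 1 := fun g hg =>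
    FaithfulSMul.eq_of_smul_eq_smul (α := P) fun p => by rw [hg, one_smul]
  refine ⟨⟨D.I, D.n, by rw [hD]; exact hcoll, hf, fun g hg => hf g fun p => ?_, D.join, D.meet, D.uniq, D.two_le,
    D.cardP, D.cardL, D.cardPts, D.cardLns⟩, fun p l => by simp only [hD], hn⟩
  obtain ⟨l⟩ := D.neL
  obtain ⟨k, h1, -⟩ := D.exists_ne₂' p l l
  obtain ⟨j, h2, h3, -⟩ := D.exists_ne₂' p k k
  have h4 : ∀ i, D.I p i → D.I (g • p) i := fun i hi => by
    rw [hD] at hi ⊢
    have := (hcoll g p i).2 hi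
    rwa [hg] at this
  exact Pl.point_eq (h4 j h2) (h4 k h1) h2 h1 h3

open Configuration in
/-- the final statement from the steps -/
theorem final_of (hG' : Geo.{u, v, w}) (hD : StepD.{u}) (h1 : StepE1.{u}) (h2 : StepE2.{u}) (hS : Sift.{u})
    [Membership P L] [Fintype P] [Fintype L] [ProjectivePlane P L] (hodd : Odd (ProjectivePlane.order P L))
    [FaithfulSMul G P] (hcoll : ∀ (g : G) (p : P) (l : L), g • p ∈ g • l ↔ p ∈ l)
    [IsSimpleGroup G] (hG : ¬ IsMulCommutative G)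
    (O : Finset P) (hcard : O.card = ProjectivePlane.order P L + 1)
    (harc : ∀ l : L, ∀ p ∈ O, ∀ q ∈ O, ∀ r ∈ O, p ∈ l → q ∈ l → r ∈ l → p = q ∨ p = r ∨ q = r)
    (hinv : ∀ g : G, ∀ p ∈ O, g • p ∈ O) :
    ∃ (F : Type) (_ : Field F) (_ : Fintype F), Odd (Fintype.card F) ∧
      Nonempty (G ≃* Matrix.ProjectiveSpecialLinearGroup (Fin 2) F) := by
  obtain ⟨D, hI, hn⟩ := exists_pl hcoll
  exact main_of hG' hD h1 h2 hS hG D (O := (O : Set P)) ⟨hn ▸ hodd, by rw [Set.ncard_coe_finset, hcard, hn],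
    fun {l p q r} hp hq hr a b c => harc l p hp q hq r hr ((hI _ _).1 a) ((hI _ _).1 b) ((hI _ _).1 c)⟩ hinv

end CL.Perm.Ov
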