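/-
Project OV: the homologies in a Sylow 2-subgroup have dihedral shape (helper38).
-/
import Cfsg.Agent.Perm.OvSub
import Cfsg.Agent.C2Low.Basic
import Cfsg.Agent.Cls.SL2Quat

set_option autoImplicit false

namespace CL.Perm.Ov

open MulAction Cfsg Subgroup CL.Even CL.Grp

universe u

variable {G : Type u} [Group G] {H : G → Prop} {S S₀ : Subgroup G} {z h a b c : G}

theorem d_inv (hS : IsPGroup 2 S) (ha : a ∈ S) (h1 : a ≠ 1) : ∃ k : ℤ, orderOf (a ^ k) = 2 := by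
  obtain ⟨n, hn⟩ := hS ⟨a, ha⟩
  replace hn : a ^ 2 ^ n = 1 := congrArg Subtype.val hn
  induction n with
  | zero => exact absurd (by simpa using hn) h1
  | succ n ih =>
    by_cases e : a ^ 2 ^ n = 1
    · exact ih e
    · exact ⟨(2 ^ n : ℕ), by rw [zpow_natCast]; exact orderOf_eq_prime (by rw [← pow_mul, ← pow_succ, hn]) e⟩

theorem Ty.sq (T : Ty G H) (hh : H h) : h * h = 1 := by rw [← pow_two, ← T.ord hh, pow_orderOf_eq_one]

theorem Ty.ne (T : Ty G H) (hh : H h) : h ≠ 1 := fun e => by simpa [e] using T.ord hh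

/-- `C = V W` -/
theorem Ty.d_cent [Finite G] (T : Ty G H) {x y : G} (C : Subgroup G) (hx : H x) (hy : H y) (xy : x ≠ y)
    (hc : x * y = y * x) (hC : IsPGroup 2 C) (h : ∀ c ∈ C, c * x = x * c ∧ c * y = y * c) (xC : x ∈ C) (yC : y ∈ C) :
    ∃ W : Subgroup G, (∀ w ∈ W, ¬ H w) ∧ ∀ c ∈ C, c * c ∈ W := by
  obtain ⟨W, hW, -, h1, h2⟩ := T.cent C hx hy xy hc hC h
  have p : SL2.CPair x y := ⟨T.sq hx, T.sq hy, hc.symm, T.ne hx, T.ne hy, xy⟩
  have hV : closure {x, y} ≤ C := (closure_le _).2 (by rintro _ (rfl | rfl) <;> assumption)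
  let f : (closure {x, y} : Subgroup G) × W → C := fun q => ⟨q.1 * q.2, C.mul_mem (hV q.1.2) (hW q.2.2)⟩
  have hf : Function.Injective f := by
    rintro ⟨v, w⟩ ⟨v', w'⟩ e
    have e : (v : G) * w = v' * w' := congrArg Subtype.val e
    have e1 : (v' : G)⁻¹ * v = w' * (w : G)⁻¹ := by rw [inv_mul_eq_iff_eq_mul, ← mul_assoc, ← e, mul_inv_cancel_right]
    have m : (v' : G)⁻¹ * v ∈ W := e1 ▸ W.mul_mem w'.2 (W.inv_mem w.2)
    have e2 : (v' : G)⁻¹ * v = 1 := by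
      rcases p.mem_closure.1 (mul_mem (inv_mem v'.2) v.2) with k | k | k | k
      · exact k
      · exact absurd hx (h1 _ (k ▸ m))
      · exact absurd hy (h1 _ (k ▸ m))
      · exact absurd (T.mul hx hy xy hc) (h1 _ (k ▸ m))
    exact Prod.ext (Subtype.ext (inv_mul_eq_one.1 e2).symm) (Subtype.ext (mul_inv_eq_one.1 (e1 ▸ e2)).symm)
  refine ⟨W, h1, fun c hc' => ?_⟩
  obtain ⟨⟨v, w⟩, e⟩ := (hf.bijective_of_nat_card_le (by rwa [Nat.card_prod, p.isKleinFour.card_four])).2 ⟨c, hc'⟩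
  have e : (v : G) * w = c := congrArg Subtype.val e
  have k1 : (w : G) * v = v * w := by
    obtain ⟨k1, k2⟩ := h w (hW w.2)
    rcases p.mem_closure.1 v.2 with k | k | k | k <;> rw [k]
    · rw [mul_one, one_mul]
    · exact k1
    · exact k2
    · rw [← mul_assoc, k1, mul_assoc, k2, mul_assoc]
  have k2 : (v : G) * v = 1 := congrArg Subtype.val (p.isKleinFour.mul_self v)
  rw [← e, mul_assoc, ← mul_assoc (w : G), k1, ← mul_assoc, ← mul_assoc, k2, one_mul]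
  exact W.mul_mem w.2 w.2

/-- the homology `z` in the subgroup `S₀` of index at most two -/
structure DB (H : G → Prop) (S S₀ : Subgroup G) (z : G) : Prop where
  ty : Ty G H
  pg : IsPGroup 2 S
  le : S₀ ≤ S
  two : ∀ x ∈ S, ∀ y ∈ S, x ∉ S₀ → y ∉ S₀ → x * y ∈ S₀
  hz : H z
  z0 : z ∈ S₀
  uniq : ∀ x ∈ S₀, H x → x = z

/-- `h` and `h a` are homologies in `S` other than `z` -/
structure DK (H : G → Prop) (S : Subgroup G) (z h a : G) : Prop where
  hS : h ∈ S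
  hh : H h
  hz : h ≠ z
  aS : a ∈ S
  ha : H (h * a)
  az : h * a ≠ z

namespace DB

variable (B : DB H S S₀ z)
include B

theorem zc {s : G} (hs : s ∈ S) : s * z = z * s := by
  refine mul_inv_eq_iff_eq_mul.1 (B.uniq _ ?_ (B.ty.conj s B.hz))
  by_cases e : s ∈ S₀
  · exact mul_mem (mul_mem e B.z0) (inv_mem e)
  · exact B.two _ (mul_mem hs (B.le B.z0)) _ (inv_mem hs) (by rwa [S₀.mul_mem_cancel_right B.z0]) (by rwa [inv_mem_iff])

theorem mem (k : DK H S z h a) : a ∈ S₀ := by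
  have := B.two h k.hS _ (mul_mem k.hS k.aS) (fun e => k.hz (B.uniq _ e k.hh)) fun e => k.az (B.uniq _ e k.ha)
  rwa [← mul_assoc, B.ty.sq k.hh, one_mul] at this

theorem inv (k : DK H S z h a) (n : ℤ) : (a ^ n)⁻¹ * h = h * a ^ n := by
  have e : h * a * h⁻¹ = a⁻¹ := by
    rw [inv_eq_of_mul_eq_one_right (B.ty.sq k.hh)]
    exact eq_inv_of_mul_eq_one_left (by rw [mul_assoc, B.ty.sq k.ha])
  rw [← inv_zpow, ← e, conj_zpow, inv_mul_cancel_right]

theorem pow (k : DK H S z h a) (n : ℤ) : DK H S z h (a ^ n) := by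
  refine ⟨k.hS, k.hh, k.hz, zpow_mem k.aS n, ?_, fun e => k.hz (B.uniq _ ?_ k.hh)⟩
  · rcases Int.even_or_odd' n with ⟨j, rfl | rfl⟩
    · have := B.ty.conj (a ^ j)⁻¹ k.hh
      rwa [B.inv k, inv_inv, mul_assoc, ← zpow_add, ← two_mul] at this
    · have := B.ty.conj (a ^ j)⁻¹ k.ha
      rwa [← mul_assoc, B.inv k, inv_inv, mul_assoc, mul_assoc, ← mul_assoc _ a, ← zpow_add_one, ← zpow_add,
        show j + 1 + j = 2 * j + 1 by ring] at this
  · rw [eq_mul_inv_of_mul_eq e]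
    exact mul_mem B.z0 (inv_mem (zpow_mem (B.mem k) n))

theorem z_mem (k : DK H S z h a) (h1 : a ≠ 1) : z ∈ zpowers a := by
  obtain ⟨n, hn⟩ := d_inv B.pg k.aS h1
  have e : a ^ n * a ^ n = 1 := by rw [← pow_two, ← hn, pow_orderOf_eq_one]
  have := B.ty.mul k.hh (B.pow k n).ha (fun e => by simp [left_eq_mul.1 e] at hn)
    (by rw [mul_assoc, ← B.inv k, inv_eq_of_mul_eq_one_right e])
  rw [← mul_assoc, B.ty.sq k.hh, one_mul] at this
  exact ⟨n, B.uniq _ (zpow_mem (B.mem k) n) this⟩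

variable [Finite G]

theorem eq_z (hS : h ∈ S) (hh : H h) (hz : h ≠ z) (hc : c ∈ S) (e : c * h = h * c) (hm : z ∈ zpowers c) : c = z := by
  obtain ⟨W, h1, h2⟩ := B.ty.d_cent (S ⊓ centralizer {h}) hh B.hz hz (B.zc hS) (B.pg.to_inf_left)
    (fun c hc => ⟨mem_centralizer_singleton_iff.1 hc.2, B.zc hc.1⟩) ⟨hS, mem_centralizer_singleton_iff.2 rfl⟩
    ⟨B.le B.z0, mem_centralizer_singleton_iff.2 (B.zc hS).symm⟩
  have oz : orderOf (⟨z, hm⟩ : zpowers c) = 2 := (orderOf_mk _ _).trans (B.ty.ord B.hz)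
  by_cases k : c * c = 1
  · refine congrArg Subtype.val (CL.Inv.eq_of_invol_of_isCyclic (a := (⟨c, mem_zpowers c⟩ : zpowers c)) ?_ oz)
    refine (orderOf_mk _ _).trans (orderOf_eq_prime (by rw [pow_two, k]) ?_)
    rintro rfl
    exact B.ty.ne B.hz (by simpa using hm)
  · obtain ⟨n, hn⟩ := d_inv B.pg (mul_mem hc hc) k
    have : (c * c) ^ n = z := congrArg Subtype.val (CL.Inv.eq_of_invol_of_isCyclic
      (a := (⟨_, zpow_mem (mul_mem (mem_zpowers c) (mem_zpowers c)) n⟩ : zpowers c)) ((orderOf_mk _ _).trans hn) oz)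
    exact absurd B.hz (h1 _ (this ▸ zpow_mem (h2 c ⟨hc, mem_centralizer_singleton_iff.2 e⟩) n))

theorem step (ka : DK H S z h a) (kb : DK H S z h b) (e : a ^ (2 : ℤ) ∈ zpowers (b ^ (2 : ℤ))) :
    a ∈ zpowers b ∨ b ∈ zpowers a := by
  obtain ⟨j, hj⟩ := mem_zpowers_iff.1 e
  have kc := B.pow kb j
  have h2 : b ^ j * b ^ j = a * a := by rw [← zpow_two, ← zpow_two, ← hj, ← zpow_mul, ← zpow_mul, mul_comm]
  have ia : a⁻¹ * h = h * a := by simpa using B.inv ka 1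
  have hh := B.ty.sq ka.hh
  by_cases h1 : b = 1
  · exact Or.inr (h1 ▸ one_mem _)
  left
  by_cases h3 : a⁻¹ * b ^ j = 1
  · exact ⟨j, (inv_mul_eq_one.1 h3).symm⟩
  have k : DK H S z (h * a) (a⁻¹ * b ^ j) := ⟨mul_mem ka.hS ka.aS, ka.ha, ka.az, mul_mem (inv_mem ka.aS) kc.aS,
    by rw [mul_assoc, mul_inv_cancel_left]; exact kc.ha, by rw [mul_assoc, mul_inv_cancel_left]; exact kc.az⟩
  have := B.eq_z ka.hS ka.hh ka.hz k.aS (by
    have ib : b ^ j * h = h * (b ^ j)⁻¹ := by rw [eq_mul_inv_iff_mul_eq, mul_assoc, ← B.inv kb, mul_inv_cancel_left]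
    rw [mul_assoc, ib, ← mul_assoc, ia, mul_assoc, mul_right_inj, mul_inv_eq_iff_eq_mul, mul_assoc, h2,
      inv_mul_cancel_left]) (B.z_mem k h3)
  rw [show a = b ^ j * z⁻¹ by rw [← this]; group]
  exact mul_mem (zpow_mem (mem_zpowers b) j) (inv_mem (B.z_mem kb h1))

theorem total (ka : DK H S z h a) (kb : DK H S z h b) : a ∈ zpowers b ∨ b ∈ zpowers a := by
  obtain ⟨n, hn⟩ := B.pg ⟨a, ka.aS⟩
  replace hn : a ^ 2 ^ n = 1 := congrArg Subtype.val hn
  induction n generalizing a b with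
  | zero => exact Or.inl (by rw [show a = 1 by simpa using hn]; exact one_mem _)
  | succ n ih =>
    exact (ih (B.pow ka 2) (B.pow kb 2) (by rw [zpow_two, ← pow_two, ← pow_mul, ← pow_succ', hn])).elim (B.step ka kb)
      fun e => (B.step kb ka e).symm

theorem dh (hS : IsSylowIn 2 S ⊤) (hs : h ∈ S) (hc : IsConj z h) (hz : h ≠ z) : ∃ A, Dh H S A z h := by
  have hh : H h := by obtain ⟨g, rfl⟩ := isConj_iff.1 hc; exact B.ty.conj g B.hz
  have h2 := B.ty.sq hh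
  have key : ∀ x ∈ S, H x → x ≠ z → DK H S z h (h * x) := fun x hx k1 k2 =>
    ⟨hs, hh, hz, mul_mem hs hx, by rwa [← mul_assoc, h2, one_mul], by rwa [← mul_assoc, h2, one_mul]⟩
  obtain ⟨a, ka, hm⟩ := Set.exists_max_image {a | DK H S z h a} orderOf (Set.toFinite _) ⟨_, key h hs hh hz⟩
  have all : ∀ b, DK H S z h b → b ∈ zpowers a := fun b kb => (B.total kb ka).elim id fun e => by
    rw [eq_of_le_of_card_ge (zpowers_le.2 e) (by rw [Nat.card_zpowers, Nat.card_zpowers]; exact hm b kb)]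
    exact mem_zpowers b
  have cn : ∀ s ∈ S, ∀ x ∈ S, H x → x ≠ z → h * (s * x * s⁻¹) ∈ zpowers a := fun s hs x hx k1 k2 =>
    all _ (key _ (mul_mem (mul_mem hs hx) (inv_mem hs)) (B.ty.conj s k1) fun e => k2 (by
      rw [mul_inv_eq_iff_eq_mul, ← B.zc hs] at e; exact mul_left_cancel e))
  refine ⟨zpowers a, hS, B.hz, B.le B.z0, fun s hs => B.zc hs, hh, hs, hc, zpowers_le.2 ka.aS, inferInstance,
    all z ⟨hs, hh, hz, B.le B.z0, B.ty.mul hh B.hz hz (B.zc hs), fun e => B.ty.ne hh (mul_eq_right.1 e)⟩,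
    fun e => hz (B.uniq _ (zpowers_le.2 (B.mem ka) e) hh), ?_, fun x hx k => or_iff_not_imp_left.2 fun e =>
      ⟨_, all _ (key x hx k e), by rw [← mul_assoc, h2, one_mul]⟩, fun s hs' => mem_normalizer_fintype ?_⟩
  · rintro _ ⟨n, rfl⟩
    exact (B.pow ka n).ha
  · rintro _ ⟨n, rfl⟩
    have := mul_mem (inv_mem (cn s hs' h hs hh hz)) (cn s hs' _ (mul_mem hs ka.aS) ka.ha ka.az)
    rw [show (h * (s * h * s⁻¹))⁻¹ * (h * (s * (h * a) * s⁻¹)) = s * a * s⁻¹ by group] at this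
    show s * a ^ n * s⁻¹ ∈ _
    rw [← conj_zpow]
    exact zpow_mem this n

end DB

theorem stepD : StepD.{u} := by
  intro G _ _ _ H hG T hb
  obtain ⟨t, ht⟩ : ∃ t, H t := by
    obtain ⟨x, y, k1, k2, k3, k4, k5, k6⟩ := C2Low.hasFour_of_simple hG
    rcases T.four (orderOf_eq_prime (by rw [pow_two, k4]) k1) (orderOf_eq_prime (by rw [pow_two, k5]) k2) k3 k6
      with k | k | k <;> exact ⟨_, k⟩
  obtain ⟨g, hc, hne⟩ : ∃ g : G, Commute t (g * t * g⁻¹) ∧ g * t * g⁻¹ ≠ t := by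
    by_contra! e
    exact C2Low.not_isolated_of_simple hG t ⟨T.ord ht, e⟩
  have ht' := T.conj g ht
  have p : SL2.CPair t (g * t * g⁻¹) := ⟨T.sq ht, T.sq ht', hc.eq.symm, T.ne ht, T.ne ht', hne.symm⟩
  obtain ⟨S, hS, hle⟩ := exists_isSylowIn_ge (p := 2) (H := ⊤) (IsPGroup.of_card (n := 2) p.isKleinFour.card_four) le_top
  obtain ⟨S₀, h1, h2, h3⟩ := T.half hb S hS.isPGroup
  have two : ∀ x ∈ S, ∀ y ∈ S, x ∉ S₀ → y ∉ S₀ → x * y ∈ S₀ := fun x hx y hy k1 k2 => by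
    have e := (S₀.subgroupOf S).index_mul_card
    rw [Nat.card_congr (subgroupOfEquivOfLe h1).toEquiv] at e
    have e1 : (S₀.subgroupOf S).index ≤ 2 := Nat.le_of_mul_le_mul_right (e ▸ h2) Nat.card_pos
    have e2 : (S₀.subgroupOf S).index ≠ 1 := fun k => k1 (subgroupOf_eq_top.1 (index_eq_one.1 k) hx)
    have e3 := (S₀.subgroupOf S).index_ne_zero_of_finite
    exact (mul_mem_iff_of_index_two (H := S₀.subgroupOf S) (by omega) (a := ⟨x, hx⟩) (b := ⟨y, hy⟩)).2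
      (iff_of_false k1 k2)
  obtain ⟨z, hz, z0⟩ : ∃ z, H z ∧ z ∈ S₀ := by
    by_contra! e
    exact e _ (T.mul ht ht' hne.symm hc) (two _ (hle (p.mem_closure.2 (by simp))) _ (hle (p.mem_closure.2 (by simp)))
      (e _ ht) (e _ ht'))
  have B : DB H S S₀ z := ⟨T, hS.isPGroup, h1, two, hz, z0, fun x hx k => h3 x hx z z0 k hz⟩
  obtain ⟨P, rfl⟩ := isSylowIn_top_iff.1 hS
  obtain ⟨c, k1, k2⟩ : ∃ c : G, c * z * c⁻¹ ∈ (P : Subgroup G) ∧ c * z * c⁻¹ ≠ z := by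
    by_contra! e
    exact C2Low.not_isolated_of_simple hG z (C2Low.isolated_of_sylow P (T.ord hz) (fun s hs => B.zc hs) e)
  obtain ⟨A, hA⟩ := B.dh hS k1 (isConj_iff.2 ⟨c, rfl⟩) k2
  exact ⟨_, A, z, _, hA⟩

end CL.Perm.Ov
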