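/-
Ovals: the final transfer argument.
-/
import Cfsg.Agent.Perm.OvDefs

set_option autoImplicit false
set_option linter.unusedSectionVars false

namespace CL.Perm.Ov

open Cfsg Subgroup CL.Even CL.Grp

universe u

theorem e2_lev {j : ℕ} {b e : ℤ} (hb : Odd b) (he : 2 ^ (j + 2) ∣ e - 1) (n : ℕ) :
    ∃ i : ℕ, 2 ^ (j + 2 + n) ∣ e - (1 + 2 ^ (j + 2) * b) ^ i := by
  have h1 : ∀ n, ∃ c : ℤ, Odd c ∧ (1 + 2 ^ (j + 2) * b) ^ 2 ^ n = 1 + 2 ^ (j + 2 + n) * c := fun n => by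
    induction n with
    | zero => exact ⟨b, hb, by simp⟩
    | succ n ih =>
      obtain ⟨c, h1, h2⟩ := ih
      exact ⟨c + 2 * (2 ^ (j + n) * c ^ 2), h1.add_even (even_two_mul _), by rw [pow_succ 2 n, pow_mul, h2]; ring⟩
  induction n with
  | zero => exact ⟨0, by simpa using he⟩
  | succ n ih =>
    obtain ⟨i, d, hd⟩ := ih
    rcases Int.even_or_odd d with ⟨d, rfl⟩ | h2
    · exact ⟨i, d, by rw [hd]; ring⟩
    · obtain ⟨c, h3, h4⟩ := h1 n
      have h5 : Odd (1 + 2 ^ (j + 2) * b) := odd_one.add_even ⟨2 ^ (j + 1) * b, by ring⟩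
      obtain ⟨k, hk⟩ := h2.sub_odd ((h5.pow (n := i)).mul h3)
      exact ⟨i + 2 ^ n, k, by rw [pow_add, h4]; linear_combination hd + 2 ^ (j + 2 + n) * hk⟩

theorem e2_cmp (d : ℕ) : ∀ {j : ℕ} {e f : ℤ}, 2 ^ (j + 2) ∣ e - 1 → 2 ^ (j + 2) ∣ f - 1 →
    (∃ i : ℕ, 2 ^ (j + 2 + d) ∣ e - f ^ i) ∨ ∃ i : ℕ, 2 ^ (j + 2 + d) ∣ f - e ^ i := by
  induction d with
  | zero => exact fun he _ => Or.inl ⟨0, by simpa using he⟩
  | succ d ih =>
    rintro j e f ⟨b, hb⟩ ⟨c, hc⟩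
    rcases Int.even_or_odd c with ⟨c, rfl⟩ | h1
    · rcases Int.even_or_odd b with ⟨b, rfl⟩ | h2
      · rw [show j + 2 + (d + 1) = j + 1 + 2 + d by ring]
        exact ih ⟨b, by rw [hb]; ring⟩ ⟨c, by rw [hc]; ring⟩
      · exact Or.inr (eq_add_of_sub_eq' hb ▸ e2_lev h2 ⟨_, hc⟩ _)
    · exact Or.inl (eq_add_of_sub_eq' hc ▸ e2_lev h1 ⟨_, hb⟩ _)

variable {G : Type u} [Group G] [Finite G]

theorem e2_mem {V : Subgroup G} {t x : G} (hn : t ∈ 𝒩(V)) (h2 : t * t ∈ V) (hx : x ∈ zpowers t ⊔ V) :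
    x ∈ V ∨ ∃ v ∈ V, x = t * v := by
  obtain ⟨_, ⟨n, rfl⟩, v, hv, rfl⟩ := (mem_sup_nr (zpowers_le.2 hn)).1 hx
  rcases Int.even_or_odd' n with ⟨k, rfl | rfl⟩
  · exact .inl (mul_mem (by dsimp only; rw [zpow_mul, zpow_two]; exact zpow_mem h2 k) hv)
  · exact .inr ⟨(t * t) ^ k * v, mul_mem (zpow_mem h2 k) hv, by
      dsimp only; rw [add_comm, zpow_one_add, zpow_mul, zpow_two, mul_assoc]⟩

theorem e2_uniq {A : Subgroup G} (hA : IsCyclic A) {x y : G} (hx : x ∈ A) (hy : y ∈ A) (x2 : orderOf x = 2)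
    (y2 : orderOf y = 2) : x = y :=
  congrArg Subtype.val (CL.Inv.eq_of_invol_of_isCyclic (a := (⟨x, hx⟩ : A)) (b := ⟨y, hy⟩)
    ((orderOf_coe _).symm.trans x2) ((orderOf_coe _).symm.trans y2))

theorem e2_ord {x : G} (h : x * x = 1) (h1 : x ≠ 1) : orderOf x = 2 := orderOf_eq_prime ((pow_two x).trans h) h1

theorem e2_sq {x : G} (h : orderOf x = 2) : x * x = 1 := by rw [← pow_two, ← h, pow_orderOf_eq_one]

theorem e2_pow {S : Subgroup G} (hS : IsPGroup 2 S) {x : G} (hx : x ∈ S) (h1 : x ≠ 1) : ∃ j : ℕ, orderOf (x ^ j) = 2 := by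
  obtain ⟨k, hk⟩ := isPGroup_iff_forall.mp hS x hx
  refine ⟨orderOf x / 2, orderOf_pow_orderOf_div (orderOf_pos x).ne' ?_⟩
  obtain ⟨j, -, e⟩ := (Nat.dvd_prime_pow Nat.prime_two).1 (orderOf_dvd_of_pow_eq_one hk)
  exact e ▸ dvd_pow_self 2 fun h => h1 (orderOf_eq_one_iff.mp (by rw [e, h, pow_zero]))

theorem e2_conj {s a : G} {e : ℤ} (h : s * a * s⁻¹ = a ^ e) (i : ℕ) : s ^ i * a * (s ^ i)⁻¹ = a ^ e ^ i := by
  induction i with
  | zero => simp
  | succ i ih =>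
    rw [pow_succ', show s * s ^ i * a * (s * s ^ i)⁻¹ = s * (s ^ i * a * (s ^ i)⁻¹) * s⁻¹ by group, ih, ← conj_zpow, h,
      ← zpow_mul, pow_succ']

/-- The configuration with a generator of `A`. -/
structure E2 (H : G → Prop) (S W : Subgroup G) (z h u β a : G) (n : ℕ) : Prop
    extends Dh2 H S (zpowers a) W z h u β where
  ty : Ty G H
  ua : u * h * u⁻¹ = h * a
  oa : orderOf a = 2 ^ (n + 2)

theorem Dh.e2_conj {H : G → Prop} {S A : Subgroup G} {z h s : G} (d : Dh H S A z h) (T : Ty G H) (hs : s ∈ S) :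
    ∃ a ∈ A, s * h * s⁻¹ = h * a :=
  (d.all _ (mul_mem (mul_mem hs d.hS) (inv_mem hs)) (T.conj s d.hh)).resolve_left fun e => d.hA (by
    rw [show h = s⁻¹ * (s * h * s⁻¹) * s by group, e, mul_assoc, ← d.zc s hs, inv_mul_cancel_left]; exact d.zA)

namespace E2

variable {H : G → Prop} {S W : Subgroup G} {z h u β a : G} {n : ℕ} (d : E2 H S W z h u β a n)
include d

theorem h2 : h * h = 1 := e2_sq (d.ty.ord d.hh)

theorem z2 : z * z = 1 := e2_sq (d.ty.ord d.hz)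

theorem z1 : z ≠ 1 := fun e => by simpa [e] using d.ty.ord d.hz

theorem b2 : β * β = 1 := e2_sq d.bo

theorem aS : a ∈ S := d.le (mem_zpowers a)

theorem zs {s : G} (hs : s ∈ S) : Commute s z := d.zc s hs

theorem ba {b : G} (hb : b ∈ zpowers a) : Commute b β := d.bA b hb

theorem hinv {b : G} (hb : b ∈ zpowers a) : h * b * h⁻¹ = b⁻¹ := by
  rw [inv_eq_of_mul_eq_one_right d.h2, eq_inv_iff_mul_eq_one, mul_assoc]
  exact e2_sq (d.ty.ord (d.inv b hb))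

theorem hb {b : G} (hb : b ∈ zpowers a) : b * h = h * b⁻¹ := by
  rw [← d.hinv hb, ← mul_assoc, ← mul_assoc, d.h2, one_mul, inv_eq_of_mul_eq_one_right d.h2]

theorem four {j : ℤ} (e : a ^ j = 1) : 4 ∣ j :=
  Dvd.dvd.trans ⟨2 ^ n, by push_cast; ring⟩ (d.oa ▸ orderOf_dvd_iff_zpow_eq_one.mpr e)

theorem invol {b : G} (hb : b ∈ zpowers a) (h2 : b * b = 1) : b = 1 ∨ b = z :=
  or_iff_not_imp_left.mpr fun e => e2_uniq d.cyc hb d.zA (e2_ord h2 e) (d.ty.ord d.hz)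

theorem notH {x : G} (hx : x ∈ S) (h1 : H x) (h2 : Commute x a) : x = z :=
  (d.all x hx h1).resolve_right fun ⟨b, ⟨k, hk⟩, e⟩ => by
    have h3 : Commute h a := by
      have := h2.mul_left (hk ▸ ((Commute.refl a).zpow_left k).inv_left : Commute b⁻¹ a)
      rwa [e, mul_inv_cancel_right] at this
    have h4 := d.hinv (mem_zpowers a)
    rw [h3.eq, mul_inv_cancel_right, eq_inv_iff_mul_eq_one, ← zpow_two] at h4
    exact absurd (d.four h4) (by decide)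

theorem act {s : G} (hs : s ∈ S) : ∃ e : ℤ, Odd e ∧ s * a * s⁻¹ = a ^ e := by
  obtain ⟨e, he⟩ := conj_mem (d.norm hs) (mem_zpowers a)
  refine ⟨e, Int.not_even_iff_odd.mp fun ⟨k, hk⟩ => ?_, he.symm⟩
  have h1 : (s * a * s⁻¹) ^ 2 ^ (n + 1) = 1 := by
    rw [← he, ← zpow_natCast, ← zpow_mul, ← orderOf_dvd_iff_zpow_eq_one, d.oa, hk]
    exact ⟨k, by push_cast; ring⟩
  rw [conj_pow, conj_eq_one_iff, ← orderOf_dvd_iff_pow_eq_one, d.oa, Nat.pow_dvd_pow_iff_le_right one_lt_two] at h1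
  omega

theorem act4 {s : G} (hs : s ∈ S) : ∃ v e, (v = s ∨ v = s * h) ∧ 2 ^ (0 + 2) ∣ e - 1 ∧ v * a * v⁻¹ = a ^ (e : ℤ) := by
  obtain ⟨_, ⟨e, rfl⟩, he⟩ := d.act hs
  rcases Int.even_or_odd' e with ⟨e, rfl | rfl⟩
  · exact ⟨s, _, Or.inl rfl, ⟨e, by ring⟩, he⟩
  · exact ⟨s * h, -(2 * (2 * e + 1) + 1), Or.inr rfl, ⟨-(e + 1), by ring⟩, by
      rw [zpow_neg, ← he, conj_inv, ← d.hinv (mem_zpowers a)]; group⟩

theorem ab {c c' : G} (hc : c ∈ S) (h1 : c * h = h * c) (hc' : c' ∈ S) (h2 : c' * h = h * c') : Commute c c' := by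
  have k : ∀ x ∈ S, Commute x h → (∀ w ∈ W, Commute x w) → ∀ c ∈ S, c * h = h * c → Commute x c := fun x hx e1 e2 c hc e => by
    obtain ⟨w, hw, rfl | rfl | rfl | rfl⟩ := d.Cc c hc e
    exacts [e2 _ hw, (d.zs hx).mul_right (e2 w hw), e1.mul_right (e2 w hw), (e1.mul_right (d.zs hx)).mul_right (e2 w hw)]
  have := d.Wcyc
  refine k c hc h1 (fun w hw => (k w (d.Wle hw) (d.Wh w hw) (fun w' hw' => ?_) c hc h1).symm) c' hc' h2
  exact congrArg Subtype.val (IsCyclic.isMulCommutative.1.1 (⟨w, hw⟩ : W) ⟨w', hw'⟩)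

theorem bz : β * z ≠ β := fun e => d.z1 (mul_eq_left.mp e)

theorem even {s : G} {j : ℤ} (hs : s ∈ S) (e : s * h * s⁻¹ = h * a ^ (2 * j)) :
    ∃ c ∈ S, c * h = h * c ∧ s = a ^ (-j) * c :=
  ⟨a ^ j * s, mul_mem (zpow_mem d.aS j) hs, by
    rw [mul_assoc, mul_inv_eq_iff_eq_mul.mp e, ← mul_assoc, ← mul_assoc, d.hb (zpow_mem_zpowers a j)]; group, by group⟩

theorem par {s : G} (hs : s ∈ S) : (Commute s β ∧ ∃ j : ℤ, s * h * s⁻¹ = h * a ^ (2 * j)) ∨
    (s * β * s⁻¹ = β * z ∧ ∃ j : ℤ, s * h * s⁻¹ = h * a ^ (2 * j + 1)) := by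
  have k : ∀ s ∈ S, ∀ j : ℤ, s * h * s⁻¹ = h * a ^ (2 * j) → Commute s β := fun s hs j e => by
    obtain ⟨c, h1, h2, rfl⟩ := d.even hs e
    exact (d.ba (zpow_mem_zpowers a _)).mul_left (d.ab h1 h2 d.bS d.bh)
  obtain ⟨_, ⟨j, rfl⟩, e⟩ := d.toDh.e2_conj d.ty hs
  rcases Int.even_or_odd' j with ⟨j, rfl | rfl⟩
  · exact Or.inl ⟨k s hs j e, j, e⟩
  · obtain ⟨f, -, hf⟩ := d.act (inv_mem d.uS)
    have h1 := k _ (mul_mem (inv_mem d.uS) hs) (f * j) (by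
      rw [show u⁻¹ * s * h * (u⁻¹ * s)⁻¹ = u⁻¹ * (s * h * s⁻¹) * u⁻¹⁻¹ by group, e]
      simp only
      rw [add_comm, zpow_one_add, ← mul_assoc h, ← d.ua, mul_left_comm, zpow_mul a f, ← hf, conj_zpow]
      group)
    exact Or.inr ⟨by rw [← d.bu, show s * β * s⁻¹ = u * (u⁻¹ * s * β) * s⁻¹ by group, h1.eq]; group, j, e⟩

theorem out {s : G} (hs : s ∈ S) (h1 : ¬ Commute s β) :
    s * β * s⁻¹ = β * z ∧ ∃ j : ℤ, s * h * s⁻¹ = h * a ^ (2 * j + 1) := (d.par hs).resolve_left fun e => h1 e.1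

theorem inn {s : G} (hs : s ∈ S) (h1 : Commute s β) : ∃ j : ℤ, ∃ c ∈ S, c * h = h * c ∧ s = a ^ j * c :=
  (d.par hs).elim (fun ⟨_, _, e⟩ => ⟨_, d.even hs e⟩) fun e => (d.bz (by rw [← e.1, h1.eq, mul_inv_cancel_right])).elim

theorem mul_out {s t : G} (hs : s ∈ S) (ht : t ∈ S) (h1 : ¬ Commute s β) (h2 : ¬ Commute t β) : Commute (s * t) β :=
  mul_inv_eq_iff_eq_mul.mp (by
    rw [show s * t * β * (s * t)⁻¹ = s * (t * β * t⁻¹) * s⁻¹ by group, (d.out ht h2).1, ← conj_mul, (d.out hs h1).1,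
      (d.zs hs).eq, mul_inv_cancel_right, mul_assoc, d.z2, mul_one])

theorem uout : ¬ Commute u β := fun e => d.bz (by rw [← d.bu, e.eq, mul_inv_cancel_right])

/-- elements of `C_S(β)` centralising `A` -/
theorem cen {s : G} (hs : s ∈ S) (h1 : Commute s β) (h2 : Commute s a) : s ∈ zpowers a ∨ β * s ∈ zpowers a := by
  obtain ⟨j, c, hc, h3, rfl⟩ := d.inn hs h1
  have h4 : Commute c a := by simpa using ((Commute.refl a).zpow_left j).inv_left.mul_left h2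
  have h5 : c * c = 1 := by
    by_contra h5
    obtain ⟨i, hi⟩ := e2_pow d.syl.isPGroup (mul_mem hc hc) h5
    rw [(Commute.refl c).mul_pow] at hi
    have h6 := d.sq _ (pow_mem hc i) (Commute.pow_left h3 i) hi
    obtain ⟨_, ⟨k, rfl⟩, e⟩ := d.toDh.e2_conj d.ty (inv_mem d.uS)
    have h7 : Commute (c ^ i) (u⁻¹ * h * u⁻¹⁻¹) := e ▸ (Commute.mul_right h3 (h4.zpow_right k)).pow_left i
    have h8 : u * c ^ i * u⁻¹ * (u * c ^ i * u⁻¹) = β * z := by rw [conj_mul, h6, d.bu]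
    refine d.bz (h8 ▸ d.sq _ (mul_mem (mul_mem d.uS (pow_mem hc i)) (inv_mem d.uS)) ?_ ?_)
    · rw [show u * c ^ i * u⁻¹ * h = u * (c ^ i * (u⁻¹ * h * u⁻¹⁻¹)) * u⁻¹ by group, h7.eq]; group
    · rw [h8, ← d.bu, ← d.bo, ← MulAut.conj_apply, MulEquiv.orderOf_eq]
  have h6 := d.ab hc h3 d.bS d.bh
  have h7 := zpow_mem_zpowers a j
  rw [← mul_assoc, ← (d.ba h7).eq, mul_assoc, mul_mem_cancel_left h7, mul_mem_cancel_left h7, ← h6.eq]
  by_cases e1 : c = 1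
  · exact Or.inl (e1 ▸ one_mem _)
  by_cases e2 : c = β
  · exact Or.inr (by rw [e2, d.b2]; exact one_mem _)
  rcases d.ty.four (e2_ord h5 e1) d.bo e2 h6 with e | e | e
  · exact Or.inl (d.notH hc e h4 ▸ d.zA)
  · exact (d.bH e).elim
  · exact Or.inr (d.notH (mul_mem hc d.bS) e (h4.mul_left (d.ba (mem_zpowers a)).symm) ▸ d.zA)

theorem gen {K : Subgroup G} (ha : a ∈ K) (hh : h ∈ K) (hW : W ≤ K) {v : G} (hv : v ∈ S) (hK : v ∈ K)
    (h1 : ¬ Commute v β) : S ≤ K := by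
  have hz := zpowers_le.mpr ha d.zA
  have k : ∀ s ∈ S, Commute s β → s ∈ K := fun s hs h2 => by
    obtain ⟨j, c, hc, h3, rfl⟩ := d.inn hs h2
    refine mul_mem (zpow_mem ha j) ?_
    obtain ⟨w, hw, rfl | rfl | rfl | rfl⟩ := d.Cc c hc h3
    exacts [hW hw, mul_mem hz (hW hw), mul_mem hh (hW hw), mul_mem (mul_mem hh hz) (hW hw)]
  intro s hs
  by_cases h2 : Commute s β
  · exact k s hs h2
  · exact (mul_mem_cancel_left hK).mp (k _ (mul_mem hv hs) (d.mul_out hv hs h1 h2))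

theorem memD {x : G} (hx : x ∈ zpowers h ⊔ zpowers a) : x ∈ zpowers a ∨ ∃ b ∈ zpowers a, x = h * b :=
  e2_mem (d.norm d.hS) (d.h2 ▸ one_mem _) hx

theorem normD : S ≤ 𝒩(zpowers h ⊔ zpowers a) := fun s hs => mem_normalizer_fintype fun x hx => by
  obtain ⟨c, hc, e⟩ := d.toDh.e2_conj d.ty hs
  rcases d.memD hx with hx | ⟨b, hb, rfl⟩
  · exact mem_sup_right (conj_mem (d.norm hs) hx)
  · rw [← conj_mul, e]
    exact mul_mem (mul_mem_sup (mem_zpowers h) hc) (mem_sup_right (conj_mem (d.norm hs) hb))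

theorem invD {x : G} (hx : x ∈ zpowers h ⊔ zpowers a) (h2 : orderOf x = 2) : H x := by
  rcases d.memD hx with hx | ⟨b, hb, rfl⟩
  · exact e2_uniq d.cyc hx d.zA h2 (d.ty.ord d.hz) ▸ d.hz
  · exact d.inv b hb

theorem tr [IsSimpleGroup G] (hG : ¬ IsMulCommutative G) {N : Subgroup G} (hN : S ≤ 𝒩(N)) {x : G} (hx : x ∈ S)
    (h1 : S ≤ zpowers x ⊔ N) (h2 : ∀ y ∈ N, orderOf y = 2 → H y) : False := by
  obtain ⟨g, hg⟩ := cyc_transfer hG d.syl hN hx (fun s hs => by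
    obtain ⟨_, ⟨i, rfl⟩, y, hy, rfl⟩ := (mem_sup_nr (zpowers_le.mpr (hN hx))).mp (h1 hs)
    exact ⟨i, by rwa [inv_mul_cancel_left]⟩) d.bo
  simpa [mul_assoc, d.bH] using d.ty.conj g⁻¹ (h2 _ hg (by rw [← d.bo, ← MulAut.conj_apply, MulEquiv.orderOf_eq]))

theorem exists_out [IsSimpleGroup G] (hG : ¬ IsMulCommutative G) : ∃ v ∈ S, ¬ Commute v β ∧ Commute v a := by
  obtain ⟨v, e, h1, h2, h3⟩ := d.act4 d.uS
  have hv : v ∈ S := by rcases h1 with rfl | rfl; exacts [d.uS, mul_mem d.uS d.hS]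
  have vb : ¬ Commute v β := fun h4 => d.uout (by
    rcases h1 with rfl | rfl
    · exact h4
    · simpa using h4.mul_left (Commute.symm d.bh).inv_left)
  obtain ⟨w, hw⟩ := (Subgroup.isCyclic_iff_exists_zpowers_eq_top W).mp d.Wcyc
  have wW : w ∈ W := hw ▸ mem_zpowers w
  obtain ⟨x, f, h4, h5, h6⟩ := d.act4 (d.Wle wW)
  have hx : x ∈ S := by rcases h4 with rfl | rfl; exacts [d.Wle wW, mul_mem (d.Wle wW) d.hS]
  have wb := d.ab (d.Wle wW) (d.Wh w wW) d.bS d.bh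
  have xb : Commute x β := by rcases h4 with rfl | rfl; exacts [wb, wb.mul_left (Commute.symm d.bh)]
  have k : ∀ {v x : G} {e f : ℤ} {i : ℕ}, v * a * v⁻¹ = a ^ e → x * a * x⁻¹ = a ^ f → 2 ^ (0 + 2 + n) ∣ e - f ^ i →
      Commute ((x ^ i)⁻¹ * v) a := fun {v x e f i} h1 h2 h3 => by
    have h4 : a ^ e = a ^ f ^ i := zpow_eq_zpow_iff_modEq.mpr (Int.modEq_iff_dvd.mpr (by
      rw [d.oa, ← neg_sub, dvd_neg, add_comm n]; exact_mod_cast h3))
    rw [← h1, ← e2_conj h2] at h4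
    exact mul_inv_eq_iff_eq_mul.mp (by
      rw [show (x ^ i)⁻¹ * v * a * ((x ^ i)⁻¹ * v)⁻¹ = (x ^ i)⁻¹ * (v * a * v⁻¹) * x ^ i by group, h4]; group)
  rcases e2_cmp n h2 h5 with ⟨i, hi⟩ | ⟨i, hi⟩
  · exact ⟨_, mul_mem (inv_mem (pow_mem hx i)) hv, fun h7 => vb (by simpa using (xb.pow_left i).mul_left h7), k h3 h6 hi⟩
  have h7 := k h6 h3 hi
  have h8 := mul_mem (inv_mem (pow_mem hv i)) hx
  by_contra! h9
  have h10 := d.cen h8 (by_contra fun h10 => h9 _ h8 h10 h7) h7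
  have aK : zpowers a ≤ zpowers v ⊔ (zpowers h ⊔ zpowers a) := le_sup_right.trans le_sup_right
  have hK : h ∈ zpowers v ⊔ (zpowers h ⊔ zpowers a) := mem_sup_right (mem_sup_left (mem_zpowers h))
  have vK : v ∈ zpowers v ⊔ (zpowers h ⊔ zpowers a) := mem_sup_left (mem_zpowers v)
  have bK : β ∉ zpowers v ⊔ (zpowers h ⊔ zpowers a) := fun bK => by
    have h11 : x ∈ zpowers v ⊔ (zpowers h ⊔ zpowers a) := (mul_mem_cancel_left (inv_mem (pow_mem vK i))).mp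
      (h10.elim (aK ·) fun e => (mul_mem_cancel_left bK).mp (aK e))
    refine d.tr hG d.normD hv (d.gen (aK (mem_zpowers a)) hK (hw ▸ zpowers_le.mpr ?_) hv vK vb) fun _ => d.invD
    rcases h4 with rfl | rfl
    exacts [h11, (mul_mem_cancel_right hK).mp h11]
  generalize zpowers v ⊔ (zpowers h ⊔ zpowers a) = K at aK hK vK bK
  have zK := aK d.zA
  have k2 : ∀ c ∈ S, c * h = h * c → ∃ w ∈ W, (c ∈ K ↔ w ∈ K) ∧ c * c = w * w ∧
      (w = 1 → c = 1 ∨ c = z ∨ c = h ∨ c = h * z) := fun c hc e => by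
    obtain ⟨w, hw, h1⟩ := d.Cc c hc e
    have h2 : ∀ x ∈ K, x * x = 1 → Commute x w → (x * w ∈ K ↔ w ∈ K) ∧ x * w * (x * w) = w * w := fun x e1 e2 e3 =>
      ⟨mul_mem_cancel_left e1, by rw [← pow_two, e3.mul_pow, pow_two, pow_two, e2, one_mul]⟩
    have h3 := (d.zs (d.Wle hw)).symm
    have h4 : Commute h w := (d.Wh w hw).symm
    refine ⟨w, hw, and_assoc.mp ⟨?_, fun e => by simpa [e] using h1⟩⟩
    rcases h1 with rfl | rfl | rfl | rfl
    exacts [⟨Iff.rfl, rfl⟩, h2 z zK d.z2 h3, h2 h hK d.h2 h4, h2 _ (mul_mem hK zK) (by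
      rw [← pow_two, (d.zs d.hS).mul_pow, pow_two, pow_two, d.h2, d.z2, one_mul]) (h4.mul_left h3)]
  obtain ⟨j, c, hc, h11, h12⟩ := d.inn (mul_mem hv hv) (d.mul_out hv hv vb vb)
  obtain ⟨y, hy, h13, -, h14⟩ := k2 c hc h11
  obtain ⟨y', hy', h15, h16, h17⟩ := k2 β d.bS d.bh
  have hzH : H (h * z) := d.inv z d.zA
  have y1 : y = 1 := by_contra fun y1 => by
    obtain ⟨l, hl⟩ := e2_pow d.syl.isPGroup (d.Wle hy) y1
    refine bK (h15.mpr (e2_uniq d.Wcyc (pow_mem hy l) hy' hl (e2_ord (h16 ▸ d.b2) fun e => ?_) ▸ pow_mem (h13.mp ?_) l))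
    · rcases h17 e with e | e | e | e
      exacts [by simpa [e] using d.bo, d.bH (e ▸ d.hz), d.bH (e ▸ d.hh), d.bH (e ▸ hzH)]
    · exact (mul_mem_cancel_left (zpow_mem (aK (mem_zpowers a)) j)).mp (h12 ▸ mul_mem vK vK)
  have h18 := e2_conj h3 2
  obtain ⟨e, rfl⟩ : ∃ k, e = 4 * k + 1 := h2.imp fun k hk => by rw [← sub_eq_iff_eq_add, hk]; norm_num
  have h19 : ∀ c, c * a * c⁻¹ = a⁻¹ → v * v ≠ a ^ j * c := fun c e1 e2 => by
    rw [pow_two, e2, show a ^ j * c * a * (a ^ j * c)⁻¹ = a ^ j * (c * a * c⁻¹) * (a ^ j)⁻¹ by group, e1,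
      show a ^ j * a⁻¹ * (a ^ j)⁻¹ = a ^ (-1 : ℤ) by group, ← mul_inv_eq_one, ← zpow_sub] at h18
    have := d.four h18
    rw [show -1 - (4 * e + 1) ^ 2 = 4 * (-4 * e ^ 2 - 2 * e) - 2 by ring] at this
    omega
  obtain ⟨l, hl⟩ : v * v ∈ zpowers a := by
    rcases h14 y1 with rfl | rfl | rfl | rfl
    · exact h12 ▸ mul_mem (zpow_mem_zpowers a j) (one_mem _)
    · exact h12 ▸ mul_mem (zpow_mem_zpowers a j) d.zA
    · exact (h19 _ (d.hinv (mem_zpowers a)) h12).elim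
    · exact (h19 _ (by rw [← d.hinv (mem_zpowers a), mul_assoc h, ← (d.zs d.aS).eq]; group) h12).elim
  obtain ⟨-, m, hm⟩ := d.out hv vb
  have h20 : v * v * h * (v * v)⁻¹ = h * a ^ ((2 * m + 1) * (4 * e + 2)) := by
    rw [show v * v * h * (v * v)⁻¹ = v * (v * h * v⁻¹) * v⁻¹ by group, hm, ← conj_mul, hm, ← conj_zpow, h3]; group
  simp only at hl
  rw [← hl, d.hb (zpow_mem_zpowers a l), mul_assoc, mul_right_inj, ← zpow_neg, ← zpow_add, ← mul_inv_eq_one,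
    ← zpow_sub] at h20
  have h21 := d.four h20
  rw [show -l + -l - (2 * m + 1) * (4 * e + 2) = 4 * (-(2 * m * e) - m - e) - 2 * (l + 1) by ring] at h21
  have h22 : Commute v (a ^ l) := hl ▸ (Commute.refl v).mul_right (Commute.refl v)
  obtain ⟨p, hp⟩ : a ∈ zpowers (a ^ l) := mem_zpowers_zpow_iff.mpr (by
    rw [d.oa, ← Int.isCoprime_iff_gcd_eq_one]
    push_cast
    exact (Int.isCoprime_two_right.mpr (by rw [Int.odd_iff]; omega)).pow_right)
  exact h9 v hv vb (hp ▸ h22.zpow_right p)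

theorem fin [IsSimpleGroup G] (hG : ¬ IsMulCommutative G) {v : G} (hv : v ∈ S) (vb : ¬ Commute v β) (va : Commute v a)
    (h1 : v * v ∈ zpowers a) (h2 : v * h * (v * h) = z) : False := by
  have vA : ∀ b ∈ zpowers a, Commute v b := fun b ⟨k, hk⟩ => hk ▸ va.zpow_right k
  have k : ∀ x ∈ zpowers h ⊔ zpowers a, v * x * (v * x) ≠ 1 := fun x hx e => by
    rcases d.memD hx with hx | ⟨b, hb, rfl⟩
    · have h3 : Commute (v * x) a := va.mul_left (by obtain ⟨k, rfl⟩ := hx; exact (Commute.refl a).zpow_left k)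
      obtain ⟨-, m, hm⟩ := d.out (mul_mem hv (d.le hx)) fun e => vb (by simpa using e.mul_left (d.ba hx).inv_left)
      generalize v * x = y at *
      have h4 : y * y * h * (y * y)⁻¹ = h * a ^ (2 * (2 * m + 1)) := by
        rw [show y * y * h * (y * y)⁻¹ = y * (y * h * y⁻¹) * y⁻¹ by group, hm, ← conj_mul, hm, (h3.zpow_right _).eq]; group
      rw [e, one_mul, inv_one, mul_one, left_eq_mul] at h4
      have := d.four h4
      omega
    · rw [show v * (h * b) * (v * (h * b)) = v * h * (b * v) * h * b by group, ← (vA b hb).eq, mul_assoc _ _ h,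
        mul_assoc v b, d.hb hb, ← mul_assoc v, ← mul_assoc, inv_mul_cancel_right, h2] at e
      exact d.z1 e
  have hD := d.normD hv
  have h3 : v * v ∈ zpowers h ⊔ zpowers a := mem_sup_right h1
  have aK : zpowers a ≤ zpowers v ⊔ (zpowers h ⊔ zpowers a) := le_sup_right.trans le_sup_right
  have hK : h ∈ zpowers v ⊔ (zpowers h ⊔ zpowers a) := mem_sup_right (mem_sup_left (mem_zpowers h))
  have vK : v ∈ zpowers v ⊔ (zpowers h ⊔ zpowers a) := mem_sup_left (mem_zpowers v)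
  obtain ⟨w, hw⟩ := (Subgroup.isCyclic_iff_exists_zpowers_eq_top W).mp d.Wcyc
  have wS := d.Wle (hw ▸ mem_zpowers w)
  have wb := d.ab wS (d.Wh w (hw ▸ mem_zpowers w)) d.bS d.bh
  have h4 := mul_mem (mul_mem wS hv) (inv_mem wS)
  have h5 : w * v * w⁻¹ ∈ zpowers v ⊔ (zpowers h ⊔ zpowers a) := by
    rcases d.cen (mul_mem (inv_mem hv) h4) (d.mul_out (inv_mem hv) h4 (by simpa using vb) fun e => vb (by
      simpa [mul_assoc] using (wb.inv_left.mul_left e).mul_left wb)) (va.inv_left.mul_left (by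
        have := (vA _ (conj_mem' (d.norm wS) (mem_zpowers a))).eq
        rw [commute_iff_eq, show w * v * w⁻¹ * a = w * (v * (w⁻¹ * a * w)) * w⁻¹ by group, this]; group)) with e | e
    · exact (mul_mem_cancel_left (inv_mem vK)).mp (aK e)
    · generalize hb : β * (v⁻¹ * (w * v * w⁻¹)) = b at e
      refine (k _ (conj_mem' (d.normD wS) (mul_mem (mem_sup_right (inv_mem e)) (mem_sup_left (mem_zpowers h)))) ?_).elim
      rw [show v * (w⁻¹ * (b⁻¹ * h) * w) = w⁻¹ * (v * β⁻¹ * h) * w⁻¹⁻¹ by rw [← hb]; group, conj_mul, conj_eq_one_iff,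
        inv_eq_of_mul_eq_one_right d.b2, show v * β * h * (v * β * h) = v * β * v⁻¹ * (v * h * v) * (β * h) by group,
        (d.out hv vb).1, d.bh, ← mul_assoc, mul_assoc _ _ h, mul_assoc (v * h), h2, mul_assoc β, d.z2, mul_one, d.b2]
  have h6 : S ≤ 𝒩(zpowers v ⊔ (zpowers h ⊔ zpowers a)) := d.gen (le_normalizer (aK (mem_zpowers a))) (le_normalizer hK)
    (hw ▸ zpowers_le.mpr (mem_normalizer_fintype fun x hx => by
      rcases e2_mem hD h3 hx with hx | ⟨y, hy, rfl⟩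
      · exact mem_sup_right (conj_mem (d.normD wS) hx)
      · rw [← conj_mul]
        exact mul_mem h5 (mem_sup_right (conj_mem (d.normD wS) hy)))) hv (le_normalizer vK) vb
  refine d.tr hG h6 wS (d.gen (mem_sup_right (aK (mem_zpowers a))) (mem_sup_right hK) (hw ▸ le_sup_left) hv
    (mem_sup_right vK) vb) fun y hy y2 => ?_
  rcases e2_mem hD h3 hy with hy | ⟨x, hx, rfl⟩
  · exact d.invD hy y2
  · exact (k x hx (e2_sq y2)).elim

theorem false [IsSimpleGroup G] (hG : ¬ IsMulCommutative G) : False := by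
  obtain ⟨v, hv, vb, va⟩ := d.exists_out hG
  have vA : ∀ b ∈ zpowers a, Commute v b := fun b ⟨k, hk⟩ => hk ▸ va.zpow_right k
  have h1 : v * v ∈ zpowers a := (d.cen (mul_mem hv hv) (d.mul_out hv hv vb vb) (va.mul_left va)).resolve_right fun e =>
    vb (by simpa [mul_assoc] using (vA _ e).mul_right ((Commute.refl v).mul_right (Commute.refl v)).inv_right)
  obtain ⟨h2, m, hm⟩ := d.out hv vb
  have h3 : v * h * (v * h) ∈ zpowers a := by
    have := conj_mem (d.norm d.hS) (mul_mem (zpow_mem_zpowers a (2 * m + 1)) h1)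
    rwa [inv_eq_of_mul_eq_one_right d.h2, ← mul_assoc h, ← hm, show v * h * v⁻¹ * (v * v) * h = v * h * (v * h) by group]
      at this
  have h4 : v * h * (v * h) * (v * h * (v * h)) = 1 := by
    have h4 := d.hinv h3
    have h5 : Commute h (v * h * (v * h)) := by
      simpa using (vA _ h3).inv_left.mul_left ((Commute.refl (v * h)).mul_right (Commute.refl (v * h)))
    rwa [h5.eq, mul_inv_cancel_right, eq_inv_iff_mul_eq_one] at h4
  rcases d.invol h3 h4 with e | e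
  · refine d.fin hG (mul_mem hv d.bS) (fun e => vb (by simpa using e.mul_left (Commute.refl β).inv_left))
      (va.mul_left (d.ba (mem_zpowers a)).symm) ?_ ?_
    · rw [show v * β * (v * β) = v * β * v⁻¹ * (v * v * β) by group, h2, (d.ba h1).eq, ← (d.zs d.bS).eq.symm, mul_assoc z,
        ← mul_assoc β, d.b2, one_mul]
      exact mul_mem d.zA h1
    · rw [show v * β * h * (v * β * h) = v * β * v⁻¹ * (v * h * v) * (β * h) by group, h2, d.bh, ← mul_assoc,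
        mul_assoc _ _ h, mul_assoc (v * h), e, mul_one, (d.zs d.bS).eq, mul_assoc, d.b2, mul_one]
  · exact d.fin hG hv vb va h1 e

end E2

theorem stepE2 : StepE2.{u} := fun G _ _ _ H S A W z h u β hG T d => by
  obtain ⟨a, ha, e⟩ := d.toDh.e2_conj T d.uS
  obtain rfl : zpowers a = A := (zpowers_le.mpr ha).antisymm fun b hb => by
    have := d.ugen b hb
    rwa [e, ← mul_assoc, e2_sq (T.ord d.hh), one_mul] at this
  obtain ⟨k, hk⟩ := (d.syl.isPGroup.to_le d.le).exists_card_eq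
  have h1 := d.big
  rw [hk] at h1
  obtain ⟨n, rfl⟩ : ∃ n, k = n + 2 := ⟨k - 2, by
    have : 2 ≤ k := (Nat.pow_le_pow_iff_right one_lt_two).mp (show 2 ^ 2 ≤ 2 ^ k from h1)
    omega⟩
  exact E2.false ⟨d, T, e, (Nat.card_zpowers a).symm.trans hk⟩ hG

end CL.Perm.Ov
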