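/-
Ovals: four-groups of Baer involutions and 2-groups fixing three points of the oval.
-/
import Cfsg.Agent.Perm.OvSub
import Cfsg.Agent.Grp.PGroupCyc

set_option autoImplicit false
set_option linter.unusedSectionVars false

namespace CL.Perm.Ov

open MulAction Cfsg Subgroup CL.Even CL.Grp

universe u v w

variable {G : Type u} {P : Type v} {L : Type w} [Group G] [MulAction G P] [MulAction G L]

theorem fo_fx {X : Type*} [MulAction G X] {t : G} {p : X} : Fx (zpowers t) p ↔ t • p = p :=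
  ⟨fun h => h t (mem_zpowers t), fun h => (zpowers_le (H := stabilizer G p)).2 h⟩

theorem fo_sq {t : G} (ho : orderOf t = 2) : t * t = 1 := by rw [← pow_two, ← ho, pow_orderOf_eq_one]

theorem fo_ne {t : G} (ho : orderOf t = 2) : t ≠ 1 := by rintro rfl; simp at ho

theorem fo_ord {t : G} (tt : t * t = 1) (t1 : t ≠ 1) : orderOf t = 2 :=
  haveI : Fact (Nat.Prime 2) := ⟨Nat.prime_two⟩
  orderOf_eq_prime (by rw [pow_two, tt]) t1

theorem fo_norm {g t : G} (h : g * t = t * g) : g ∈ 𝒩(zpowers t) := by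
  have : ∀ a ∈ zpowers t, g * a * g⁻¹ = a := fun a ha => by
    obtain ⟨i, rfl⟩ := mem_zpowers_iff.1 ha
    rw [((show Commute g t from h).zpow_right i).eq, mul_inv_cancel_right]
  refine mem_normalizer_iff.2 fun a => ⟨fun ha => by rwa [this a ha], fun ha => ?_⟩
  have h1 := this _ ha
  have h2 : g * a * g⁻¹ = a := by
    have h3 : g * (g * a * g⁻¹) = g * a := by rw [mul_inv_eq_iff_eq_mul.1 h1, inv_mul_cancel_right]
    exact mul_left_cancel h3
  rwa [h2] at ha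

/-- points covered by lines carrying at most `k` of them -/
theorem fo_cover (D : Pl G P L) {A : Set P} {B : Set L} (k : ℕ) (hB : ∀ X ∈ A, ∃ l ∈ B, D.I X l)
    (hk : ∀ l ∈ B, {X | X ∈ A ∧ D.I X l}.ncard ≤ k) : A.ncard ≤ k * B.ncard := by
  classical
  have := D.finP
  have := D.finL
  have := D.neL
  choose! f hf using hB
  rw [Set.ncard_eq_toFinset_card A, Set.ncard_eq_toFinset_card B]
  refine Finset.card_le_mul_card_image_of_maps_to (f := f) (fun X hX => ?_) k fun l hl => ?_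
  · simpa using (hf X (by simpa using hX)).1
  · refine le_trans ?_ (hk l (by simpa using hl))
    rw [← Set.ncard_coe_finset]
    refine Set.ncard_le_ncard (fun X hX => ?_) (Set.toFinite _)
    have h1 : X ∈ A ∧ f X = l := by simpa using hX
    exact ⟨h1.1, h1.2 ▸ (hf X h1.1).2⟩

namespace Oval

variable {D : Pl G P L} {O : Set P} (h : Oval D O) {g t s x y : G} {p q c : P} {l a : L}
include h

theorem fo_inv (ht : Inv O t) : ∀ g ∈ zpowers t, Inv O g := by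
  intro g hg
  have := D.finG
  obtain ⟨k, rfl⟩ := mem_powers_iff_mem_zpowers.2 hg
  clear hg
  induction k with
  | zero => exact fun p hp => by simpa using hp
  | succ k ih =>
    intro p hp
    simp only [pow_succ, mul_smul]
    exact ih _ (ht p hp)

theorem fo_baer (ht : Inv O t) (ho : orderOf t = 2) (hn : ¬ Hm D t) (hp : ∃ p ∈ O, t • p = p) :
    ∃ m, D.IsOrd (zpowers t) m ∧ D.n = m ^ 2 ∧ Odd m ∧ {q | q ∈ O ∧ t • q = q}.ncard = m + 1 := by
  obtain ⟨m, h1, h2⟩ := h.baer ho hn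
  obtain ⟨p, hp, e⟩ := hp
  refine ⟨m, h1, h2, (Nat.odd_pow_iff two_ne_zero).1 (h2 ▸ h.odd), ?_⟩
  simpa only [fo_fx] using h.ncard_fix (h.fo_inv ht) h1 hp (fo_fx.2 e)

theorem fo_move (ho : orderOf t = 2) : ∃ X ∈ O, t • X ≠ X ∧ ∃ l, D.I X l ∧ D.I (t • X) l ∧ t • l = l := by
  obtain ⟨X, hX, e⟩ : ∃ X ∈ O, t • X ≠ X := by
    by_contra hc
    push Not at hc
    exact fo_ne ho (h.eq_one hc)
  obtain ⟨l, h1, h2⟩ := D.join X (t • X)
  exact ⟨X, hX, e, l, h1, h2, Pl.fix_join (fo_sq ho) h1 h2 e⟩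

/-- an involution fixes few lines -/
theorem fo_upper (ho : orderOf s = 2) : 2 * {l : L | s • l = l}.ncard < 3 * D.n + 2 := by
  have := D.finL
  have h3 := h.three_le
  by_cases hs : Hm D s
  · obtain ⟨a, ha⟩ := hs.2
    obtain ⟨c, hc⟩ := ha.exists_ce
    have h1 : {l : L | s • l = l} ⊆ insert a {l | D.I c l} := fun l hl =>
      (Pl.fix_cases' ha hc (fo_ne ho) hl).symm
    have h2 := (Set.ncard_le_ncard h1 (Set.toFinite _)).trans (Set.ncard_insert_le _ _)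
    rw [D.cardL] at h2
    omega
  · obtain ⟨k, ⟨D₁, -, hk⟩, hn⟩ := h.baer ho hs
    have h1 : {l : L | s • l = l}.ncard = k ^ 2 + k + 1 := by
      rw [← hk, ← D₁.cardLns, ← Nat.card_coe_set_eq]
      exact Nat.card_congr (Equiv.subtypeEquivRight fun l => fo_fx.symm)
    have h2 := D₁.two_le
    obtain ⟨j, hj⟩ := (Nat.odd_pow_iff two_ne_zero).1 (hn ▸ h.odd)
    have h4 : 3 ≤ k := by omega
    rw [h1, hn]
    nlinarith

/-- a four-group with three involutions fixing `m + 1` points of the oval fixes many lines -/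
theorem fo_lower (hx : Inv O x) (hy : Inv O y) (xx : x * x = 1) (yy : y * y = 1) (xy : x * y = y * x) {m : ℕ}
    (h1 : {q | q ∈ O ∧ x • q = q}.ncard = m + 1) (h2 : {q | q ∈ O ∧ y • q = q}.ncard = m + 1)
    (h3 : {q | q ∈ O ∧ (x * y) • q = q}.ncard = m + 1) :
    3 * m + 2 ≤ 2 * {l : L | x • l = l ∧ y • l = l}.ncard := by
  have := D.finP
  have := D.finL
  let F : Set P := {q | q ∈ O ∧ x • q = q ∧ y • q = q}
  let B : Set P := {q | q ∈ O ∧ x • q = q} ∪ {q | q ∈ O ∧ y • q = q} ∪ {q | q ∈ O ∧ (x * y) • q = q}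
  let S : Set L := {l | (x • l = l ∧ y • l = l) ∧ ∃ p ∈ O, ∃ q ∈ O, p ≠ q ∧ D.I p l ∧ D.I q l}
  let T : Set L := {l | (x • l = l ∧ y • l = l) ∧ ∃ p ∈ O, Tan D O p l}
  have BO : B ⊆ O := by rintro q ((h | h) | h) <;> exact h.1
  have hB : B.ncard + 2 * F.ncard = 3 * (m + 1) := by
    have e1 := Set.ncard_union_add_ncard_inter {q | q ∈ O ∧ x • q = q} {q | q ∈ O ∧ y • q = q}
    have e2 := Set.ncard_union_add_ncard_inter ({q | q ∈ O ∧ x • q = q} ∪ {q | q ∈ O ∧ y • q = q})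
      {q | q ∈ O ∧ (x * y) • q = q}
    have e3 : {q | q ∈ O ∧ x • q = q} ∩ {q | q ∈ O ∧ y • q = q} = F :=
      Set.ext fun q => ⟨fun h => ⟨h.1.1, h.1.2, h.2.2⟩, fun h => ⟨⟨h.1, h.2.1⟩, h.1, h.2.2⟩⟩
    have e4 : ({q | q ∈ O ∧ x • q = q} ∪ {q | q ∈ O ∧ y • q = q}) ∩ {q | q ∈ O ∧ (x * y) • q = q} = F := by
      refine Set.ext fun q => ⟨?_, fun h => ⟨Or.inl ⟨h.1, h.2.1⟩, h.1, by rw [mul_smul, h.2.2, h.2.1]⟩⟩
      rintro ⟨h | h, h'⟩
      · exact ⟨h.1, h.2, by have := h'.2; rwa [xy, mul_smul, h.2] at this⟩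
      · exact ⟨h.1, by have := h'.2; rwa [mul_smul, h.2] at this, h.2⟩
    rw [e3, h1, h2] at e1
    rw [e4, h3] at e2
    simp only [B]
    omega
  have hT : F.ncard ≤ 1 * T.ncard := by
    refine fo_cover D 1 (fun X hX => ?_) fun l hl => ?_
    · obtain ⟨l, hl, -⟩ := h.existsUnique_tan hX.1
      exact ⟨l, ⟨⟨h.tan_fix hx hX.1 hl hX.2.1, h.tan_fix hy hX.1 hl hX.2.2⟩, X, hX.1, hl⟩, hl.1⟩
    · obtain ⟨p, -, hp⟩ := hl.2
      exact (Set.ncard_le_one (Set.toFinite _)).2 fun a ha b hb =>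
        (hp.2 a ha.1.1 ha.2).trans (hp.2 b hb.1.1 hb.2).symm
  have hS : ∀ A ⊆ O, (∀ X ∈ A, ∃ l ∈ S, D.I X l) → A.ncard ≤ 2 * S.ncard := fun A hA hc =>
    fo_cover D 2 hc fun l _ => le_trans (Set.ncard_le_ncard (t := {p | p ∈ O ∧ D.I p l})
      (fun X hX => ⟨hA hX.1, hX.2⟩) (Set.toFinite _)) (h.ncard_le_two l)
  have key : ∀ {b c : G} {X : P}, Inv O c → c * c = 1 → b * c = c * b → X ∈ O → b • X = X → c • X ≠ X →
      ∃ l, (b • l = l ∧ c • l = l) ∧ (∃ p ∈ O, ∃ q ∈ O, p ≠ q ∧ D.I p l ∧ D.I q l) ∧ D.I X l :=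
    fun {b c X} hc cc bc hX e1 e2 => by
      obtain ⟨l, k1, k2⟩ := D.join X (c • X)
      exact ⟨l, ⟨Pl.fix_line k1 k2 e2.symm e1 (by rw [← mul_smul, bc, mul_smul, e1]), Pl.fix_join cc k1 k2 e2⟩,
        ⟨X, hX, _, hc X hX, e2.symm, k1, k2⟩, k1⟩
  have hA : ∀ X ∈ B \ F, ∃ l ∈ S, D.I X l := by
    rintro X ⟨(hX | hX) | hX, hF⟩
    · obtain ⟨l, k1, k2, k3⟩ := key hy yy xy hX.1 hX.2 fun e => hF ⟨hX.1, hX.2, e⟩
      exact ⟨l, ⟨k1, k2⟩, k3⟩
    · obtain ⟨l, k1, k2, k3⟩ := key hx xx xy.symm hX.1 hX.2 fun e => hF ⟨hX.1, e, hX.2⟩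
      exact ⟨l, ⟨k1.symm, k2⟩, k3⟩
    · obtain ⟨l, k1, k2, k3⟩ := key hy yy (b := x * y) (by rw [← mul_assoc y, ← xy]) hX.1 hX.2 fun e =>
        hF ⟨hX.1, by have := hX.2; rwa [mul_smul, e] at this, e⟩
      exact ⟨l, ⟨⟨by have := k1.1; rwa [mul_smul, k1.2] at this, k1.2⟩, k2⟩, k3⟩
  have hST : S.ncard + T.ncard ≤ {l : L | x • l = l ∧ y • l = l}.ncard := by
    rw [← Set.ncard_union_eq (Set.disjoint_left.2 ?_)]
    · exact Set.ncard_le_ncard (by rintro l (h | h) <;> exact h.1) (Set.toFinite _)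
    · rintro l ⟨-, p, hp, q, hq, pq, k1, k2⟩ ⟨-, r, -, hr⟩
      exact pq ((hr.2 p hp k1).trans (hr.2 q hq k2).symm)
  by_cases hF : F.ncard ≤ 1
  · have e1 := hS (B \ F) (fun X hX => BO hX.1) hA
    have e2 := Set.ncard_le_ncard_sdiff_add_ncard B F
    omega
  · have e1 := hS B BO fun X hX => by
      by_cases e : X ∈ F
      · obtain ⟨Y, hY, e'⟩ := Set.exists_ne_of_one_lt_ncard (not_le.1 hF) X
        obtain ⟨l, k1, k2⟩ := D.join Y X
        exact ⟨l, ⟨⟨Pl.fix_line k1 k2 e' hY.2.1 e.2.1, Pl.fix_line k1 k2 e' hY.2.2 e.2.2⟩, Y, hY.1, X, e.1, e',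
          k1, k2⟩, k2⟩
      · exact hA X ⟨hX, e⟩
    omega

end Oval

theorem four0 : Four0.{u, v, w} := by
  intro G P L _ _ _ D O x y h hx hy ox oy hne xy px py pz
  by_contra hcon
  simp only [not_or] at hcon
  have := D.finP
  have xx := fo_sq ox
  have yy := fo_sq oy
  have hz : Inv O (x * y) := fun p hp => by rw [mul_smul]; exact hx _ (hy p hp)
  have oz : orderOf (x * y) = 2 := fo_ord
    (by rw [mul_assoc, ← mul_assoc y, ← xy, mul_assoc, yy, mul_one, xx])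
    fun e => hne (by rw [← mul_one x, ← yy, ← mul_assoc, e, one_mul])
  obtain ⟨m, k1, n1, mo, c1⟩ := h.fo_baer hx ox hcon.1 px
  obtain ⟨m2, -, n2, -, c2⟩ := h.fo_baer hy oy hcon.2.1 py
  obtain ⟨m3, -, n3, -, c3⟩ := h.fo_baer hz oz hcon.2.2 pz
  obtain rfl : m = m2 := Nat.pow_left_injective two_ne_zero (n1.symm.trans n2)
  obtain rfl : m = m3 := Nat.pow_left_injective two_ne_zero (n1.symm.trans n3)
  have low := h.fo_lower hx hy xx yy xy c1 c2 c3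
  obtain ⟨p, hp, e⟩ := px
  obtain ⟨D₀, h0, hm, h₀⟩ := h.sub (h.fo_inv hx) k1 mo hp (fo_fx.2 e)
  obtain ⟨σ, s1, s2⟩ := exists_res D (fo_norm xy.symm)
  by_cases hσ : σ = 1
  · obtain ⟨X, hX, e1, l, l1, l2, l3⟩ := h.fo_move ox
    have f1 : ∀ q, x • q = q → y • q = q := fun q hq => by rw [← s1 ⟨q, fo_fx.2 hq⟩, hσ, one_smul]
    have l4 : y • l = l := by rw [← s2 ⟨l, fo_fx.2 l3⟩, hσ, one_smul]
    have e2 : {q | q ∈ O ∧ x • q = q} = {q | q ∈ O ∧ y • q = q} :=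
      Set.eq_of_subset_of_ncard_le (fun q hq => ⟨hq.1, f1 q hq.2⟩) (by rw [c1, c2])
    have e3 : {q | q ∈ O ∧ x • q = q} = {q | q ∈ O ∧ (x * y) • q = q} :=
      Set.eq_of_subset_of_ncard_le (fun q hq => ⟨hq.1, by rw [mul_smul, f1 q hq.2, hq.2]⟩) (by rw [c1, c3])
    rcases h.arc hX (hx X hX) (hy X hX) l1 l2 ((Pl.I_smul l4).2 l1) with e | e | e
    · exact e1 e.symm
    · exact e1 (e2.ge ⟨hX, e.symm⟩).2
    · exact e1 (e3.ge ⟨hX, by rw [mul_smul, ← e, ← mul_smul, xx, one_smul]⟩).2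
  · have hs : σ * σ = 1 := D₀.faith _ fun Y => Subtype.ext (by rw [mul_smul, s1, s1, ← mul_smul, yy, one_smul])
    have up := h₀.fo_upper (fo_ord hs hσ)
    have e1 : {l : L | x • l = l ∧ y • l = l}.ncard = {l : {l : L // Fx (zpowers x) l} | σ • l = l}.ncard := by
      rw [← Set.ncard_image_of_injective _ Subtype.val_injective]
      congr 1
      ext l
      exact ⟨fun hl => ⟨⟨l, fo_fx.2 hl.1⟩, Subtype.ext ((s2 _).trans hl.2), rfl⟩,
        by rintro ⟨l, hl, rfl⟩; exact ⟨fo_fx.1 l.2, (s2 l).symm.trans (congrArg Subtype.val hl)⟩⟩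
    omega

/-- an involution fixing three points of the oval is not a homology -/
theorem fo_not_hm {D : Pl G P L} {O : Set P} (h : Oval D O) {t : G} (ht : Inv O t) {p q r : P} (hp : p ∈ O)
    (hq : q ∈ O) (hr : r ∈ O) (pq : p ≠ q) (pr : p ≠ r) (qr : q ≠ r) (fp : t • p = p) (fq : t • q = q)
    (fr : t • r = r) : ¬ Hm D t := by
  rintro ⟨ho, a, ha⟩
  rcases h.arc hp hq hr (h.mem_ax ht (fo_ne ho) ha hp fp) (h.mem_ax ht (fo_ne ho) ha hq fq)
    (h.mem_ax ht (fo_ne ho) ha hr fr) with e | e | e <;> contradiction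

/-- no four-group fixes three points of the oval -/
theorem fo_no_four {D : Pl G P L} {O : Set P} (h : Oval D O) {x y : G} (hx : Inv O x) (hy : Inv O y)
    (ox : orderOf x = 2) (oy : orderOf y = 2) (hne : x ≠ y) (xy : x * y = y * x) {p q r : P} (hp : p ∈ O)
    (hq : q ∈ O) (hr : r ∈ O) (pq : p ≠ q) (pr : p ≠ r) (qr : q ≠ r) (fx : x • p = p ∧ x • q = q ∧ x • r = r)
    (fy : y • p = p ∧ y • q = q ∧ y • r = r) : False := by
  have f : ∀ X : P, x • X = X → y • X = X → (x * y) • X = X := fun X a b => by rw [mul_smul, b, a]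
  rcases four0 G P L D O x y h hx hy ox oy hne xy ⟨p, hp, fx.1⟩ ⟨p, hp, fy.1⟩ ⟨p, hp, f p fx.1 fy.1⟩ with e | e | e
  · exact fo_not_hm h hx hp hq hr pq pr qr fx.1 fx.2.1 fx.2.2 e
  · exact fo_not_hm h hy hp hq hr pq pr qr fy.1 fy.2.1 fy.2.2 e
  · exact fo_not_hm h (fun X hX => by rw [mul_smul]; exact hx _ (hy X hX)) hp hq hr pq pr qr (f p fx.1 fy.1)
      (f q fx.2.1 fy.2.1) (f r fx.2.2 fy.2.2) e

/-- no quaternion group fixes three points of the oval -/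
theorem fo_no_quat {D : Pl G P L} {O : Set P} (h : Oval D O) {i j β : G} (hi : Inv O i) (hj : Inv O j)
    (oβ : orderOf β = 2) (ii : i * i = β) (jj : j * j = β) (ij : i * j * (i * j) = β) {p q r : P} (hp : p ∈ O)
    (hq : q ∈ O) (hr : r ∈ O) (pq : p ≠ q) (pr : p ≠ r) (qr : q ≠ r) (fi : i • p = p ∧ i • q = q ∧ i • r = r)
    (fj : j • p = p ∧ j • q = q ∧ j • r = r) : False := by
  have hβ : Inv O β := fun X hX => by rw [← ii, mul_smul]; exact hi _ (hi X hX)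
  have f : ∀ X : P, i • X = X → β • X = X := fun X a => by rw [← ii, mul_smul, a, a]
  obtain ⟨m, k1, -, mo, -⟩ := h.fo_baer hβ oβ
    (fo_not_hm h hβ hp hq hr pq pr qr (f p fi.1) (f q fi.2.1) (f r fi.2.2)) ⟨p, hp, f p fi.1⟩
  obtain ⟨D₀, h0, hm, h₀⟩ := h.sub (h.fo_inv hβ) k1 mo hp (fo_fx.2 (f p fi.1))
  obtain ⟨σ, s1, s2⟩ := exists_res D (fo_norm (g := i) (t := β) (by rw [← ii, mul_assoc]))
  obtain ⟨τ, t1, t2⟩ := exists_res D (fo_norm (g := j) (t := β) (by rw [← jj, mul_assoc]))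
  have key : ∀ (g : G) (ρ : collGroup (D.subI (zpowers β))), Inv O g → g * g = β →
      (∀ Y : {X : P // Fx (zpowers β) X}, (ρ • Y).1 = g • Y.1) →
      (∀ l : {l : L // Fx (zpowers β) l}, (ρ • l).1 = g • l.1) → ρ * ρ = 1 ∧ ρ ≠ 1 := fun g ρ hg gg r1 r2 => by
    refine ⟨D₀.faith _ fun Y => Subtype.ext (by rw [mul_smul, r1, r1, ← mul_smul, gg, fo_fx.1 Y.2]), fun e => ?_⟩
    obtain ⟨X, hX, e1, l, l1, -, l3⟩ := h.fo_move oβ
    refine e1 ?_
    rw [← gg, mul_smul]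
    exact h.sq_fix hg hX l1 (by rw [← r2 ⟨l, fo_fx.2 l3⟩, e, one_smul])
  obtain ⟨a1, a2⟩ := key i σ hi ii s1 s2
  obtain ⟨b1, b2⟩ := key j τ hj jj t1 t2
  obtain ⟨c1, c2⟩ := key (i * j) (σ * τ) (fun X hX => by rw [mul_smul]; exact hi _ (hj X hX)) ij
    (fun Y => by rw [mul_smul, s1, t1, mul_smul]) fun l => by rw [mul_smul, s2, t2, mul_smul]
  refine fo_no_four h₀ (x := σ) (y := τ) (fun X hX => show (σ • X).1 ∈ O from s1 X ▸ hi _ hX)
    (fun X hX => show (τ • X).1 ∈ O from t1 X ▸ hj _ hX) (fo_ord a1 a2) (fo_ord b1 b2)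
    (fun e => c2 (by rw [← e, a1])) ?_ (p := ⟨p, fo_fx.2 (f p fi.1)⟩) (q := ⟨q, fo_fx.2 (f q fi.2.1)⟩)
    (r := ⟨r, fo_fx.2 (f r fi.2.2)⟩) hp hq hr (fun e => pq (congrArg Subtype.val e))
    (fun e => pr (congrArg Subtype.val e)) (fun e => qr (congrArg Subtype.val e))
    ⟨Subtype.ext ((s1 _).trans fi.1), Subtype.ext ((s1 _).trans fi.2.1), Subtype.ext ((s1 _).trans fi.2.2)⟩
    ⟨Subtype.ext ((t1 _).trans fj.1), Subtype.ext ((t1 _).trans fj.2.1), Subtype.ext ((t1 _).trans fj.2.2)⟩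
  rw [← inv_eq_of_mul_eq_one_right c1, mul_inv_rev, inv_eq_of_mul_eq_one_right a1, inv_eq_of_mul_eq_one_right b1]

theorem plCyc : PlCyc.{u, v, w} := by
  intro G P L _ _ _ D O W p q r h hW hP hp hq hr pq pr qr fp fq fr
  have := D.finG
  have : Fact (Nat.Prime 2) := ⟨Nat.prime_two⟩
  have f : ∀ g : W, (g : G) • p = p ∧ (g : G) • q = q ∧ (g : G) • r = r := fun g =>
    ⟨fp g g.2, fq g g.2, fr g g.2⟩
  refine (isCyclic_or_quaternion_of_forall_ea hP fun E hE hc => ?_).resolve_right ?_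
  · obtain ⟨x, hx, y, hy, x1, y1, xy⟩ : ∃ x ∈ E, ∃ y ∈ E, x ≠ 1 ∧ y ≠ 1 ∧ x ≠ y := by
      obtain ⟨a, b, c, ha, hb, hc, ab, ac, bc⟩ := (Set.two_lt_ncard_iff (s := (E : Set W)) (Set.toFinite _)).1
        (by rw [← Nat.card_coe_set_eq]; change 2 < Nat.card E; omega)
      by_cases e1 : a = 1
      · exact ⟨b, hb, c, hc, fun e => ab (e1.trans e.symm), fun e => ac (e1.trans e.symm), bc⟩
      by_cases e2 : b = 1
      · exact ⟨a, ha, c, hc, e1, fun e => bc (e2.trans e.symm), ac⟩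
      · exact ⟨a, ha, b, hb, e1, e2, ab⟩
    exact fo_no_four h (hW x x.2) (hW y y.2) (by rw [orderOf_coe, CL.Loc.ea_orderOf hE hx x1])
      (by rw [orderOf_coe, CL.Loc.ea_orderOf hE hy y1]) (fun e => xy (Subtype.ext e))
      (congrArg Subtype.val (CL.Loc.ea_mul_comm hE hx hy)) hp hq hr pq pr qr (f x) (f y)
  · rintro ⟨-, n, a, b, hb, h1, h2⟩
    obtain ⟨k, rfl⟩ : ∃ k, n = k + 2 := ⟨n - 2, by have := hb.two_le; omega⟩
    have h3 := hb.orderOf_z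
    rw [show k + 2 - 1 = k + 1 from rfl] at h1 h3
    have h4 : a ^ 2 ^ k * a ^ 2 ^ k = a ^ 2 ^ (k + 1) := by rw [← pow_add, ← mul_two, ← pow_succ]
    have h5 : b * a ^ 2 ^ k * b⁻¹ = (a ^ 2 ^ k)⁻¹ := by rw [← conj_pow, h2, inv_pow]
    have h6 : b * a ^ 2 ^ k * (b * a ^ 2 ^ k) = a ^ 2 ^ (k + 1) := by
      calc _ = b * a ^ 2 ^ k * b⁻¹ * b ^ 2 * a ^ 2 ^ k := by rw [pow_two b]; group
        _ = _ := by rw [h5, h1, ← h4]; group
    exact fo_no_quat h (i := b) (j := (a ^ 2 ^ k : W)) (β := (a ^ 2 ^ (k + 1) : W)) (hW _ b.2) (hW _ (a ^ 2 ^ k).2)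
      (by rw [orderOf_coe, h3]) (congrArg Subtype.val ((pow_two b).symm.trans h1)) (congrArg Subtype.val h4)
      (congrArg Subtype.val h6) hp hq hr pq pr qr (f _) (f _)

end CL.Perm.Ov
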