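/-
Ovals: the properties of the involutory homologies of a perfect collineation group fixing an oval.
-/
import Cfsg.Agent.Perm.OvSub
import Cfsg.Agent.Perm.PlaneOW
import Cfsg.Agent.Perm.Homog1
import Cfsg.Agent.Loc.KConn

set_option autoImplicit false
set_option linter.unusedSectionVars false

namespace CL.Perm.Ov

open MulAction Cfsg Subgroup CL.Even CL.Grp

universe u v w

variable {G : Type u} {P : Type v} {L : Type w} [Group G] [MulAction G P] [MulAction G L]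

theorem geo_small [Finite G] {S : Subgroup G} (hS : IsPGroup 2 S) (T : Set P) (hT : T.Finite)
    (hi : ∀ g ∈ S, ∀ x ∈ T, g • x ∈ T) (h4 : ¬ 4 ∣ T.ncard) : ∃ x ∈ T, (stabilizer G x).relIndex S ≤ 2 := by
  by_contra! H
  refine h4 (dvd_ncard_of_dvd_orbits (K := S) 4 T hT (fun y hy _ ⟨g, e⟩ => e ▸ hi g g.2 y hy) fun y hy => ?_)
  obtain ⟨k, hk⟩ := hS.index (stabilizer S y)
  have h1 : 2 < 2 ^ k := hk ▸ H y hy
  rw [← index_stabilizer, hk]
  exact pow_dvd_pow 2 (show 2 ≤ k from (Nat.pow_lt_pow_iff_right (n := 1) one_lt_two).1 h1)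

theorem geo_card [Finite G] {C A : Subgroup G} {m : ℕ} (h : A.relIndex C ≤ m) :
    Nat.card C ≤ m * Nat.card (A ⊓ C : Subgroup G) := by
  rw [card_eq_relIndex_mul_card (inf_le_right : A ⊓ C ≤ C), inf_relIndex_right]
  exact Nat.mul_le_mul_right _ h

/-- `t` is an involution with axis `a` and centre `c` -/
structure Ho (D : Pl G P L) (t : G) (a : L) (c : P) : Prop where
  ord : orderOf t = 2
  ax : D.Ax t a
  ce : D.Ce t c

variable {D : Pl G P L} {O : Set P} {g k s t t' x y : G} {p c c' X : P} {a a' : L}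

theorem Hm.ho (h : Hm D t) : ∃ a c, Ho D t a c :=
  let ⟨h1, a, h2⟩ := h
  let ⟨c, h3⟩ := h2.exists_ce
  ⟨a, c, h1, h2, h3⟩

theorem Ho.ne (h : Ho D t a c) : t ≠ 1 := fun e => by simpa [e] using h.ord

theorem Ho.sq (h : Ho D t a c) : t ^ 2 = 1 := h.ord ▸ pow_orderOf_eq_one t

theorem Ho.cases (h : Ho D t a c) (e : t • X = X) : D.I X a ∨ X = c := Pl.fix_cases h.ax h.ce h.ne e

theorem Ho.conj (h : Ho D t a c) (g : G) : Ho D (g * t * g⁻¹) (g • a) (g • c) :=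
  ⟨by rw [← h.ord, ← MulAut.conj_apply, MulEquiv.orderOf_eq], h.ax.conj g, h.ce.conj g⟩

theorem Ho.fix_c (h : Ho D t a c) (e : g * t = t * g) : g • c = c := by_contra fun e' =>
  h.ne (Pl.two_centres (mul_inv_eq_iff_eq_mul.2 e ▸ h.ce.conj g :) h.ce e')

theorem Ho.fix_a (h : Ho D t a c) (e : g * t = t * g) : g • a = a := by_contra fun e' =>
  h.ne (Pl.two_axes (mul_inv_eq_iff_eq_mul.2 e ▸ h.ax.conj g :) h.ax e')

theorem geo_ord (hx : orderOf x = 2) (hy : orderOf y = 2) (h : x ≠ y) (e : x * y = y * x) : orderOf (x * y) = 2 := by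
  have h1 : x ^ 2 = 1 := hx ▸ pow_orderOf_eq_one x
  have h2 : y ^ 2 = 1 := hy ▸ pow_orderOf_eq_one y
  exact orderOf_eq_prime (by rw [Commute.mul_pow e, h1, h2, mul_one]) fun e' =>
    h ((eq_inv_of_mul_eq_one_left e').trans (inv_eq_of_mul_eq_one_right (by rwa [← sq])))

section
variable (h : Oval D O) (hi : ∀ g : G, Inv O g)
include h hi

theorem Ho.ne_c (h1 : Ho D t a c) (h2 : Ho D t' a' c') (e : t ≠ t') : c ≠ c' := fun e' =>
  e (h.eq_of_centre (hi _) (hi _) h1.ord h2.ord h1.ce (e' ▸ h2.ce))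

theorem Ho.ne_a (h1 : Ho D t a c) (h2 : Ho D t' a' c') (e : t ≠ t') : a ≠ a' := fun e' =>
  e (h.eq_of_axis (hi _) (hi _) h1.ord h2.ord h1.ax (e' ▸ h2.ax))

theorem Ho.inc (h1 : Ho D t a c) (h2 : Ho D t' a' c') (e : t ≠ t') (hc : t * t' = t' * t) : D.I c a' :=
  (h2.cases (h1.fix_c hc.symm)).resolve_right (h1.ne_c h hi h2 e)

theorem Ho.mem (h1 : Ho D t a c) (hp : p ∈ O) : t • p = p ↔ D.I p a := ⟨h.mem_ax (hi t) h1.ne h1.ax hp, h1.ax p⟩

theorem geo_mul (hx : Hm D x) (hy : Hm D y) (e : x ≠ y) (hc : x * y = y * x) : Hm D (x * y) := by_contra fun H => by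
  obtain ⟨a, c, h1⟩ := hx.ho
  obtain ⟨a', c', h2⟩ := hy.ho
  obtain ⟨m, h3, h4⟩ := h.baer (geo_ord h1.ord h2.ord e hc) H
  have h5 := h3.ncard_pts (k := a) (F := c')
    ((zpowers_le (H := stabilizer G a)).2 (h1.fix_a (by rw [mul_assoc, ← hc])))
    ((zpowers_le (H := stabilizer G c')).2 (h2.fix_c (by rw [← mul_assoc, ← hc]))) (h2.inc h hi h1 e.symm hc.symm)
  have k : ∀ X, Fx (zpowers (x * y)) X ∧ D.I X a ∧ X ≠ c' → D.I X a' := fun X hX => (h2.cases (by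
    have := hX.1 _ (mem_zpowers _)
    rwa [hc, mul_smul, h1.ax X hX.2.1] at this)).resolve_right hX.2.2
  have := D.finP
  have h6 : m ≤ 1 := h5 ▸ (Set.ncard_le_one (Set.toFinite _)).2 fun X hX Y hY =>
    Pl.point_eq hX.2.1 (k X hX) hY.2.1 (k Y hY) (h1.ne_a h hi h2 e)
  have := h.three_le
  nlinarith

/-- the fixed points of `k = s · s k` -/
theorem geo_fix (h1 : Ho D s a c) (h2 : Ho D (s * k) a' c') (k1 : k ≠ 1) : ∃ l A, D.I c l ∧ D.I c' l ∧ D.I A a ∧ D.I A a' ∧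
    ∀ X, k • X = X → D.I X l ∨ X = A := by
  have e : s ≠ s * k := fun e => k1 (left_eq_mul.1 e)
  obtain ⟨l, l1, l2⟩ := D.join c c'
  obtain ⟨A, a1, a2⟩ := D.meet a a'
  refine ⟨l, A, l1, l2, a1, a2, fun X hX => ?_⟩
  have h3 : (s * k) • X = s • X := by rw [mul_smul, hX]
  by_cases h4 : s • X = X
  · rcases h1.cases h4 with e1 | rfl
    · rcases h2.cases (h3.trans h4) with e2 | rfl
      exacts [Or.inr (Pl.point_eq e1 e2 a1 a2 (h1.ne_a h hi h2 e)), Or.inl l2]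
    · exact Or.inl l1
  · obtain ⟨m, m1, m2⟩ := D.join c X
    obtain ⟨m', m3, m4⟩ := D.join c' X
    obtain rfl := Pl.line_eq ((Pl.I_smul (h1.ce m m1)).2 m2) m2 (h3 ▸ (Pl.I_smul (h2.ce m' m3)).2 m4) m4 h4
    exact Or.inl (Pl.line_eq m1 m3 l1 l2 (h1.ne_c h hi h2 e) ▸ m2)

variable (hG : _root_.commutator G = ⊤)
include hG

theorem geo_mod {b : G} (hb : orderOf b = 2) (H : ¬ Hm D b) : D.n % 4 = 1 := by
  obtain ⟨m, -, h4⟩ := h.baer hb H
  obtain ⟨j, rfl⟩ := (Nat.odd_pow_iff two_ne_zero).1 (h4 ▸ h.odd)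
  rw [h4, show (2 * j + 1) ^ 2 = 1 + 4 * (j * j + j) by ring, Nat.add_mul_mod_self_left]

theorem geo_exists {b : G} (hb : orderOf b = 2) (H : ¬ Hm D b) : ∃ p ∈ O, b • p = p := by
  have h1 := h.fix_mod hi hG (hb ▸ pow_orderOf_eq_one b)
  have h2 := geo_mod h hi hG hb H
  exact Set.nonempty_of_ncard_ne_zero (s := {p | p ∈ O ∧ b • p = p}) (by omega)

theorem Ho.ncard (h1 : Ho D t a c) : {p | p ∈ O ∧ D.I p a}.ncard % 4 = (D.n + 1) % 4 := by
  rw [← h.fix_mod hi hG h1.sq]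
  exact congrArg (Set.ncard · % 4) (Set.ext fun p => and_congr_right fun hp => (h1.mem h hi hp).symm)

theorem Ho.two (h1 : Ho D t a c) (hn : D.n % 4 = 1) : {p | p ∈ O ∧ D.I p a}.ncard = 2 := by
  have := h1.ncard h hi hG
  have := h.ncard_le_two a
  omega

theorem geo_star (hp : (orderOf k).Prime) (ho : Odd (orderOf k)) (h1 : Ho D t a c) (h2 : Ho D t' a' c') (e : t ≠ t')
    (hc : t * t' = t' * t) (k1 : k * t = t * k) (k2 : k * t' = t' * k) (hk : ∀ X, k • X = X → D.I X a ∨ X = c) :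
    False := by
  have := D.finP
  have := Fact.mk hp
  have aa := h1.ne_a h hi h2 e
  have hr : k ^ orderOf k ^ 1 = 1 := by rw [pow_one, pow_orderOf_eq_one]
  obtain ⟨B, b1, b2⟩ := D.meet a a'
  have h3 := ncard_modEq_ncard_fixed_elt hr {X | D.I X a'} (Set.toFinite _) fun X hX => (Pl.I_smul (h2.fix_a k2)).2 hX
  rw [D.cardP, show {X | X ∈ {X | D.I X a'} ∧ k • X = X} = {B, c} from Set.ext fun X =>
    ⟨fun hX => (hk X hX.2).imp_left fun e => Pl.point_eq e hX.1 b1 b2 aa, by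
      rintro (rfl | rfl)
      exacts [⟨b2, Pl.fix_point b1 b2 aa (h1.fix_a k1) (h2.fix_a k2)⟩, ⟨h1.inc h hi h2 e hc, h1.fix_c k1⟩]⟩,
    Set.ncard_pair (a := B) (b := c) fun e => h.centre_off h1.ord h1.ax h1.ce (e ▸ b1)] at h3
  have h4 := ncard_modEq_ncard_fixed_elt hr O h.fin (hi k)
  rw [h.card] at h4
  have h5 : ∀ p ∈ O, k • p = p → D.I p a := fun p hp e =>
    (hk p e).resolve_right fun e' => h.centre_notMem (hi t) h1.ne h1.ce (e' ▸ hp)
  obtain ⟨p, p1, p2⟩ := Set.nonempty_of_ncard_ne_zero (s := {p | p ∈ O ∧ k • p = p}) fun e => by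
    have := (Nat.prime_dvd_prime_iff_eq hp Nat.prime_two).1 (Nat.modEq_zero_iff_dvd.1 (h3.symm.trans (e ▸ h4)))
    rw [this] at ho
    exact absurd ho (by decide)
  have h6 : D.n % 4 = 1 := by
    have := h1.ncard h hi hG
    have := h.ncard_le_two a
    have := Set.ncard_ne_zero_of_mem (s := {p | p ∈ O ∧ D.I p a}) ⟨p1, h5 p p1 p2⟩
    obtain ⟨j, hj⟩ := h.odd
    omega
  obtain ⟨q, q', hq, e'⟩ := Set.ncard_eq_two.1 (h2.two h hi hG h6)
  have h7 : ∀ r ∈ ({q, q'} : Set P), D.I r a ∧ D.I r a' := fun r hr => by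
    obtain ⟨j, hj⟩ := ho
    have h8 : k ^ 2 ∈ stabilizer G r := by
      rw [mem_stabilizer_iff, sq, mul_smul]; exact h.sq_fix (hi k) (e'.ge hr).1 (e'.ge hr).2 (h2.fix_a k2)
    refine ⟨h5 r (e'.ge hr).1 ((mul_mem_cancel_left (pow_mem h8 j)).1 ?_), (e'.ge hr).2⟩
    rw [← pow_mul, ← pow_succ, ← hj, pow_orderOf_eq_one]; exact one_mem _
  exact aa (Pl.line_eq (h7 q (by simp)).1 (h7 q' (by simp)).1 (h7 q (by simp)).2 (h7 q' (by simp)).2 hq)

theorem geo_cent (hP : PlCyc.{u, v, w}) (C : Subgroup G) (hx : Hm D x) (hy : Hm D y) (e : x ≠ y) (hc : x * y = y * x)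
    (hC : IsPGroup 2 C) (H : ∀ c ∈ C, c * x = x * c ∧ c * y = y * c) :
    ∃ W ≤ C, IsCyclic W ∧ (∀ w ∈ W, ¬ Hm D w) ∧ Nat.card C ≤ 4 * Nat.card W := by
  have := D.finP
  have := D.finG
  obtain ⟨a3, c3, h3⟩ := (geo_mul h hi hx hy e hc).ho
  obtain ⟨a1, c1, h1⟩ := hx.ho
  obtain ⟨a2, c2, h2⟩ := hy.ho
  have e13 : x ≠ x * y := fun e => h2.ne (left_eq_mul.1 e)
  have e23 : y ≠ x * y := fun e => h1.ne (right_eq_mul.1 e)
  have m13 : x * (x * y) = x * y * x := by rw [mul_assoc, ← hc]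
  have m23 : y * (x * y) = x * y * y := by rw [← mul_assoc, ← hc]
  have i12 := h1.inc h hi h2 e hc
  have i21 := h2.inc h hi h1 e.symm hc.symm
  have i31 := h3.inc h hi h1 e13.symm m13.symm
  have i32 := h3.inc h hi h2 e23.symm m23.symm
  have i23 := h2.inc h hi h3 e23 m23
  have a12 := h1.ne_a h hi h2 e
  have key : ∀ T₁ T₂ : Set P, (∀ g ∈ C, ∀ x ∈ T₁, g • x ∈ T₁) → (∀ g ∈ C, ∀ x ∈ T₂, g • x ∈ T₂) → ¬ 4 ∣ T₁.ncard →
      ¬ 4 ∣ T₂.ncard → ∃ p ∈ T₁, ∃ q ∈ T₂,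
        Nat.card C ≤ 4 * Nat.card (stabilizer G p ⊓ stabilizer G q ⊓ C : Subgroup G) := fun T₁ T₂ t1 t2 t3 t4 =>
    let ⟨p, p1, p2⟩ := geo_small hC T₁ (Set.toFinite _) t1 t3
    let ⟨q, q1, q2⟩ := geo_small hC T₂ (Set.toFinite _) t2 t4
    ⟨p, p1, q, q1, geo_card (relIndex_inf_le.trans (Nat.mul_le_mul p2 q2))⟩
  by_cases hn : D.n % 4 = 1
  · obtain ⟨p, p1, q, q1, h4⟩ := key {p | p ∈ O ∧ D.I p a1} {p | p ∈ O ∧ D.I p a2}
      (fun g hg p hp => ⟨hi g p hp.1, (Pl.I_smul (h1.fix_a (H g hg).1)).2 hp.2⟩)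
      (fun g hg p hp => ⟨hi g p hp.1, (Pl.I_smul (h2.fix_a (H g hg).2)).2 hp.2⟩)
      (by rw [h1.two h hi hG hn]; decide) (by rw [h2.two h hi hG hn]; decide)
    obtain ⟨r, r1, r2⟩ := Set.exists_ne_of_one_lt_ncard (s := {p | p ∈ O ∧ D.I p a1}) (by rw [h1.two h hi hG hn]; decide) p
    have h5 : ¬ D.I q a1 := fun e => h.centre_notMem (hi _) h3.ne h3.ce (Pl.point_eq e q1.2 i31 i32 a12 ▸ q1.1)
    have h6 : Fx (stabilizer G p ⊓ stabilizer G q ⊓ C) r := fun g hg =>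
      h.fix_of_fix (hi g) p1.1 r1.1 p1.2 r1.2 (h1.fix_a (H g hg.2).1) hg.1.1
    have pq : p ≠ q := fun e => h5 (e ▸ p1.2)
    have qr : q ≠ r := fun e => h5 (e ▸ r1.2)
    refine ⟨stabilizer G p ⊓ stabilizer G q ⊓ C, inf_le_right, hP G P L D O _ p q r h (fun g _ => hi g) (hC.to_le inf_le_right) p1.1 q1.1 r1.1 pq r2.symm qr
      (fun g hg => hg.1.1) (fun g hg => hg.1.2) h6, fun w hw h7 => ?_, h4⟩
    obtain ⟨a, c, h8⟩ := h7.ho
    rcases h.arc p1.1 q1.1 r1.1 ((h8.mem h hi p1.1).1 hw.1.1) ((h8.mem h hi q1.1).1 hw.1.2)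
      ((h8.mem h hi r1.1).1 (h6 w hw)) with e | e | e
    exacts [pq e, r2 e.symm, qr e]
  · have H3 : ∀ g ∈ C, g • c3 = c3 := fun g hg => h3.fix_c (by rw [← mul_assoc, (H g hg).1, mul_assoc, (H g hg).2, mul_assoc])
    have k1 : ∀ {a c}, D.I c a → D.I c3 a → c ≠ c3 → ¬ 4 ∣ ({X | D.I X a} \ {c, c3}).ncard := fun {a c} b1 b2 b3 => by
      rw [Set.ncard_sdiff (by rintro _ (rfl | rfl); exacts [b1, b2]), D.cardP, Set.ncard_pair b3]
      obtain ⟨j, hj⟩ := h.odd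
      omega
    have k2 : ∀ {a c}, (∀ g ∈ C, g • a = a ∧ g • c = c) → ∀ g ∈ C, ∀ X ∈ {X | D.I X a} \ {c, c3},
        g • X ∈ {X | D.I X a} \ {c, c3} := fun b g hg X hX => ⟨(Pl.I_smul (b g hg).1).2 hX.1, fun e => hX.2 (e.imp
          (fun e => MulAction.injective g (e.trans (b g hg).2.symm))
          fun e => MulAction.injective g (e.trans (H3 g hg).symm))⟩
    obtain ⟨p, p1, q, q1, h4⟩ := key ({X | D.I X a1} \ {c2, c3}) ({X | D.I X a2} \ {c1, c3})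
      (k2 fun g hg => ⟨h1.fix_a (H g hg).1, h2.fix_c (H g hg).2⟩) (k2 fun g hg => ⟨h2.fix_a (H g hg).2, h1.fix_c (H g hg).1⟩)
      (k1 i21 i31 (h2.ne_c h hi h3 e23)) (k1 i12 i32 (h1.ne_c h hi h3 e13))
    have h5 : ∀ w ∈ stabilizer G p ⊓ stabilizer G q ⊓ C, ¬ Hm D w := fun w hw h6 => by
      obtain ⟨a, c, h7⟩ := h6.ho
      have h8 : ∀ {t a c'}, Ho D t a c' → c = c' → w = t := fun b e => by_contra fun e' => h7.ne_c h hi b e' e
      rcases h1.cases (h7.fix_c (H w hw.2).1.symm) with b1 | b1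
      · rcases h2.cases (h7.fix_c (H w hw.2).2.symm) with b2 | b2
        · refine p1.2 ((h3.cases (h8 h3 (Pl.point_eq b1 b2 i31 i32 a12) ▸ hw.1.1)).imp_left fun e => ?_)
          exact Pl.point_eq p1.1 e i21 i23 (h1.ne_a h hi h3 e13)
        · exact p1.2 ((h2.cases (h8 h2 b2 ▸ hw.1.1)).symm.imp_right fun e => Pl.point_eq p1.1 e i31 i32 a12)
      · exact q1.2 ((h1.cases (h8 h1 b1 ▸ hw.1.2)).symm.imp_right fun e => Pl.point_eq e q1.1 i31 i32 a12)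
    refine ⟨_, inf_le_right, ?_, h5, h4⟩
    by_contra h6
    obtain ⟨w, hw, ho, -⟩ := CL.Loc.exists_central_order_p (hC.to_le inf_le_right) fun e => h6 (e ▸ inferInstance)
    exact hn (geo_mod h hi hG ho (h5 w hw))

end

theorem geo (h4 : Four0.{u, v, w}) (hP : PlCyc.{u, v, w}) : Geo.{u, v, w} := by
  intro G P L _ _ _ D O h hi hG
  have := D.finG
  refine ⟨fun ht => ht.1, fun g ht => let ⟨_, _, h1⟩ := ht.ho; ⟨(h1.conj g).ord, _, (h1.conj g).ax⟩, geo_mul h hi,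
    fun {x y} hx hy e hc => by_contra fun H => H ?_, geo_cent h hi hG hP, fun ⟨b, b1, b2⟩ S hS => ?_,
    fun {k s x y} hp ho hs hk hx hy e hc k1 k2 => ?_, fun {k s t g} hp ho hs hk ht c1 c2 c3 => ?_⟩
  · simp only [not_or] at H
    exact h4 G P L D O x y h (hi x) (hi y) hx hy e hc (geo_exists h hi hG hx H.1) (geo_exists h hi hG hy H.2.1)
      (geo_exists h hi hG (geo_ord hx hy e hc) H.2.2)
  · have hn := geo_mod h hi hG b1 b2
    obtain ⟨p, p1, p2⟩ := geo_small hS O h.fin (fun g _ => hi g) (by rw [h.card]; omega)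
    obtain ⟨q, q1, q2⟩ := exists_fixed_of_not_dvd_ncard Nat.prime_two (hS.to_le (inf_le_right : stabilizer G p ⊓ S ≤ S))
      (O \ {p}) h.fin.sdiff (fun g hg x hx => ⟨hi g x hx.1, fun e => hx.2 (MulAction.injective g (e.trans hg.1.symm))⟩)
      (by rw [Set.ncard_sdiff_singleton_of_mem p1, h.card]; omega)
    refine ⟨_, inf_le_right, geo_card p2, fun x hx y hy h1 h2 => by_contra fun e => ?_⟩
    obtain ⟨a, c, h1⟩ := h1.ho
    obtain ⟨a', c', h2⟩ := h2.ho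
    exact h1.ne_a h hi h2 e (Pl.line_eq ((h1.mem h hi q1.1).1 (q2 x hx)) ((h1.mem h hi p1).1 hx.1)
      ((h2.mem h hi q1.1).1 (q2 y hy)) ((h2.mem h hi p1).1 hy.1) q1.2)
  · obtain ⟨a, c, h1⟩ := hs.ho
    obtain ⟨a', c', h2⟩ := hk.ho
    obtain ⟨l, A, -, -, -, -, hK⟩ := geo_fix h hi h1 h2 fun e => by simp [e, Nat.not_prime_one] at hp
    obtain ⟨a3, c3, t3⟩ := (geo_mul h hi hx hy e hc).ho
    obtain ⟨a1, c1, t1⟩ := hx.ho
    obtain ⟨a2, c2, t2⟩ := hy.ho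
    have e13 : x ≠ x * y := fun e => t2.ne (left_eq_mul.1 e)
    have e23 : y ≠ x * y := fun e => t1.ne (right_eq_mul.1 e)
    have m13 : x * (x * y) = x * y * x := by rw [mul_assoc, ← hc]
    have m23 : y * (x * y) = x * y * y := by rw [← mul_assoc, ← hc]
    have k3 : k * (x * y) = x * y * k := by rw [← mul_assoc, k1, mul_assoc, k2, mul_assoc]
    have key : ∀ {x y w a1 a2 a3 c1 c2 c3}, Ho D x a1 c1 → Ho D y a2 c2 → Ho D w a3 c3 → x ≠ y → x ≠ w → y ≠ w →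
        x * y = y * x → x * w = w * x → k * x = x * k → k * y = y * k → k * w = w * k → D.I c2 l → D.I c3 l → False :=
      fun t1 t2 t3 e12 e13 e23 m12 m13 k1 k2 k3 i2 i3 => by
        obtain rfl := Pl.line_eq i2 i3 (t2.inc h hi t1 e12.symm m12.symm) (t3.inc h hi t1 e13.symm m13.symm)
          (t2.ne_c h hi t3 e23)
        obtain rfl := (hK _ (t1.fix_c k1)).resolve_left (h.centre_off t1.ord t1.ax t1.ce)
        exact geo_star h hi hG hp ho t1 t2 e12 m12 k1 k2 hK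
    rcases hK _ (t1.fix_c k1) with b1 | rfl
    · rcases hK _ (t2.fix_c k2) with b2 | rfl
      · exact key t3 t1 t2 e13.symm e23.symm e m13.symm m23.symm k3 k1 k2 b1 b2
      · exact key t2 t1 t3 e.symm e23 e13 hc.symm m23 k2 k1 k3 b1
          ((hK _ (t3.fix_c k3)).resolve_right (t2.ne_c h hi t3 e23).symm)
    · exact key t1 t2 t3 e e13 e23 hc m13 k1 k2 k3 ((hK _ (t2.fix_c k2)).resolve_right (t1.ne_c h hi t2 e).symm)
        ((hK _ (t3.fix_c k3)).resolve_right (t1.ne_c h hi t3 e13).symm)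
  · obtain ⟨a, c, h1⟩ := hs.ho
    obtain ⟨a', c', h2⟩ := hk.ho
    obtain ⟨b, d, h3⟩ := ht.ho
    have k1 : k ≠ 1 := fun e => by simp [e, Nat.not_prime_one] at hp
    obtain ⟨l, A, l1, l2, l3, l4, hK⟩ := geo_fix h hi h1 h2 k1
    have h5 : s * k ≠ k * s := fun e => by
      have := h2.sq
      rw [Commute.mul_pow e, h1.sq, one_mul] at this
      rw [orderOf_eq_prime this k1] at ho
      exact absurd ho (by decide)
    have e1 : t ≠ s := fun e => h5 (e ▸ c2)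
    have e2 : t ≠ s * k := fun e => h5 (mul_right_cancel (b := k) (by rw [← e, mul_assoc, ← e, c2]))
    have e3 : s ≠ s * k := fun e => k1 (left_eq_mul.1 e)
    have c4 : t * (s * k) = s * k * t := by rw [← mul_assoc, c1, mul_assoc, c2, mul_assoc]
    obtain rfl := Pl.line_eq l1 l2 (h1.inc h hi h3 e1.symm c1.symm) (h2.inc h hi h3 e2.symm c4.symm) (h1.ne_c h hi h2 e3)
    obtain rfl := Pl.point_eq l3 l4 (h3.inc h hi h1 e1 c1) (h3.inc h hi h2 e2 c4) (h1.ne_a h hi h2 e3)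
    have c5 : k * (g * t * g⁻¹) = g * t * g⁻¹ * k := ((Commute.mul_left c3 c2).mul_left (Commute.inv_left c3)).symm
    refine h.comm_of_fix (hi g) (hi t) h3.ord h3.ce ((hK _ ((h3.conj g).fix_c c5)).resolve_left fun e => ?_)
    exact geo_star h hi hG hp ho h3 (h3.conj g) (fun e' => h.centre_off h3.ord h3.ax h3.ce (by_contra fun e'' =>
      h3.ne (Pl.two_centres h3.ce (e' ▸ (h3.conj g).ce) fun e3 => e'' (e3 ▸ e))))
      (h.comm_of_fix (hi t) (hi _) (h3.conj g).ord (h3.conj g).ce (h3.ax _ e)) c2.symm c5 hK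

end CL.Perm.Ov
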