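/-
Project PW (S5767, helper86): maximality of wreath products in product action.  Definitions and basic calculus.
-/
import Cfsg.Agent.Perm.JordanSets2
import Cfsg.Agent.Perm.Bochert

set_option autoImplicit false
set_option linter.unusedSectionVars false

namespace CL.PW

open Equiv Equiv.Perm Function CL.Perm

variable {ι : Type} [Fintype ι] [DecidableEq ι] {m : ℕ}

/-- the base group -/
def bs : (ι → Perm (Fin m)) →* Perm (ι → Fin m) where
  toFun τ := Equiv.piCongrRight τ
  map_one' := rfl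
  map_mul' _ _ := rfl

/-- the top group -/
def tp : Perm ι →* Perm (ι → Fin m) where
  toFun π := ⟨fun f i => f (π.symm i), fun f i => f (π i), fun f => by simp, fun f => by simp⟩
  map_one' := rfl
  map_mul' _ _ := rfl

/-- permutations of the coordinate `i` -/
def co (i : ι) : Perm (Fin m) →* Perm (ι → Fin m) := bs.comp (MonoidHom.mulSingle (fun _ => Perm (Fin m)) i)

@[simp] theorem bs_app (τ : ι → Perm (Fin m)) (f : ι → Fin m) (i : ι) : bs τ f i = τ i (f i) := rfl
@[simp] theorem tp_app (π : Perm ι) (f : ι → Fin m) (i : ι) : tp π f i = f (π.symm i) := rfl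
theorem co_eq (i : ι) (τ : Perm (Fin m)) : co i τ = bs (Pi.mulSingle i τ) := rfl
@[simp] theorem co_same (i : ι) (τ : Perm (Fin m)) (f : ι → Fin m) : co i τ f i = τ (f i) := by simp [co_eq]
theorem co_ne {i j : ι} (h : j ≠ i) (τ : Perm (Fin m)) (f : ι → Fin m) : co i τ f j = f j := by simp [co_eq, h]
theorem co_app (i : ι) (τ : Perm (Fin m)) (f : ι → Fin m) : co i τ f = update f i (τ (f i)) :=
  funext fun j => by by_cases h : j = i <;> simp [h, co_ne]
theorem co_fix {i : ι} {τ : Perm (Fin m)} {f : ι → Fin m} : co i τ f = f ↔ τ (f i) = f i := by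
  rw [co_app, update_eq_self_iff]
theorem bs_inj : Injective (bs : (ι → Perm (Fin m)) → _) := fun _ _ h =>
  funext fun i => Equiv.ext fun a => congrFun (Equiv.ext_iff.1 h fun _ => a) i
theorem co_inj (i : ι) : Injective (co i : Perm (Fin m) → _) := fun _ _ h => Pi.mulSingle_injective i (bs_inj h)
theorem co_comm {i j : ι} (h : i ≠ j) (σ τ : Perm (Fin m)) : Commute (co i σ) (co j τ) :=
  (Pi.mulSingle_commute (f := fun _ : ι => Perm (Fin m)) h σ τ).map bs

/-- the wreath product in product action -/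
def W (ι : Type) [Fintype ι] [DecidableEq ι] (m : ℕ) : Subgroup (Perm (ι → Fin m)) where
  carrier := {σ | ∃ π τ, σ = bs τ * tp π}
  one_mem' := ⟨1, 1, rfl⟩
  mul_mem' := by
    rintro _ _ ⟨π, τ, rfl⟩ ⟨π', τ', rfl⟩
    exact ⟨π * π', fun i => τ i * τ' (π.symm i), Equiv.ext fun _ => rfl⟩
  inv_mem' := by
    rintro _ ⟨π, τ, rfl⟩
    exact ⟨π⁻¹, fun i => (τ (π i))⁻¹, inv_eq_of_mul_eq_one_right (Equiv.ext fun f => funext fun i => by
      simp only [Perm.mul_apply, bs_app, tp_app, Perm.inv_def, apply_symm_apply, symm_symm, Perm.one_apply])⟩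

theorem mem_W {σ : Perm (ι → Fin m)} : σ ∈ W ι m ↔ ∃ π τ, σ = bs τ * tp π := Iff.rfl
theorem mem_W' {σ : Perm (ι → Fin m)} :
    σ ∈ W ι m ↔ ∃ (π : Perm ι) (τ : ι → Perm (Fin m)), ∀ f i, σ f i = τ i (f (π.symm i)) :=
  ⟨fun ⟨π, τ, e⟩ => ⟨π, τ, fun _ _ => e ▸ rfl⟩, fun ⟨π, τ, e⟩ => ⟨π, τ, Equiv.ext fun f => funext (e f)⟩⟩
theorem bs_mem (τ : ι → Perm (Fin m)) : bs τ ∈ W ι m := ⟨1, τ, rfl⟩
theorem tp_mem (π : Perm ι) : tp π ∈ W ι m := ⟨π, 1, rfl⟩
theorem co_mem (i : ι) (τ : Perm (Fin m)) : co i τ ∈ W ι m := bs_mem _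
theorem wr_app (τ : ι → Perm (Fin m)) (π : Perm ι) (f : ι → Fin m) (i : ι) :
    (bs τ * tp π : Perm (ι → Fin m)) f (π i) = τ (π i) (f i) := by simp

theorem wr_conj (τ : ι → Perm (Fin m)) (π : Perm ι) (i : ι) (x : Perm (Fin m)) :
    bs τ * tp π * co i x * (bs τ * tp π)⁻¹ = co (π i) (τ (π i) * x * (τ (π i))⁻¹) := by
  rw [mul_inv_eq_iff_eq_mul]
  ext f j
  obtain ⟨j, rfl⟩ := π.surjective j
  by_cases h : j = i
  · simp only [h, Perm.mul_apply, co_same, bs_app, tp_app, symm_apply_apply, Perm.inv_def]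
  · simp only [Perm.mul_apply, co_ne h, co_ne (π.injective.ne h), bs_app, tp_app, symm_apply_apply]

/-- a permutation each of whose coordinates depends on one coordinate only lies in `W` -/
theorem mem_W_of_dep (hm : 2 ≤ m) {h : Perm (ι → Fin m)}
    (hd : ∀ j, ∃ i, ∀ f f' : ι → Fin m, f i = f' i → h f j = h f' j) : h ∈ W ι m := by
  choose ρ hρ using hd
  have : Nontrivial (Fin m) := Fin.nontrivial_iff_two_le.2 hm
  have hs : Surjective ρ := fun i => by
    by_contra! k
    obtain ⟨a, b, n⟩ := exists_pair_ne (Fin m)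
    have := h.injective (funext fun j => hρ j (fun _ => a) (update (fun _ => a) i b) (by simp [k j]))
    exact n (by simpa using congrFun this i)
  have ht : ∀ j, Surjective fun a => h (fun _ => a) j := fun j b =>
    ⟨h.symm (fun _ => b) (ρ j), (hρ j (fun _ => h.symm (fun _ => b) (ρ j)) (h.symm fun _ => b) rfl).trans (by simp)⟩
  exact mem_W'.2 ⟨(Equiv.ofBijective ρ hs.bijective_of_finite).symm,
    fun j => Equiv.ofBijective _ (ht j).bijective_of_finite, fun f j => hρ j _ _ rfl⟩

/-! ### splitting off one coordinate -/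

/-- the lines in direction `i` -/
abbrev Ln (i : ι) (m : ℕ) : Type := {j // j ≠ i} → Fin m

/-- the line through a point -/
def res (i : ι) (f : ι → Fin m) : Ln i m := fun j => f j

/-- the point with coordinate `a` on the line `l` -/
def pt (i : ι) (a : Fin m) (l : Ln i m) : ι → Fin m := (funSplitAt i (Fin m)).symm (a, l)

@[simp] theorem pt_same (i : ι) (a : Fin m) (l : Ln i m) : pt i a l i = a := by simp [pt]
@[simp] theorem res_pt (i : ι) (a : Fin m) (l : Ln i m) : res i (pt i a l) = l :=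
  funext fun j => by simp [pt, res, j.2]
theorem pt_ne {i j : ι} (h : j ≠ i) (a : Fin m) (l : Ln i m) : pt i a l j = l ⟨j, h⟩ := congrFun (res_pt i a l) ⟨j, h⟩
theorem ext_res {i : ι} {f g : ι → Fin m} (h1 : f i = g i) (h2 : res i f = res i g) : f = g :=
  funext fun j => if h : j = i then h ▸ h1 else congrFun h2 ⟨j, h⟩
@[simp] theorem pt_res (i : ι) (f : ι → Fin m) : pt i (f i) (res i f) = f := ext_res (pt_same ..) (res_pt ..)
theorem res_eq_iff {i : ι} {f g : ι → Fin m} : res i f = res i g ↔ ∀ j, j ≠ i → f j = g j :=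
  ⟨fun h j n => congrFun h ⟨j, n⟩, fun h => funext fun j => h j j.2⟩
@[simp] theorem res_co (i : ι) (τ : Perm (Fin m)) (f : ι → Fin m) : res i (co i τ f) = res i f :=
  res_eq_iff.2 fun _ h => co_ne h τ f
theorem co_pt (i : ι) (τ : Perm (Fin m)) (a : Fin m) (l : Ln i m) : co i τ (pt i a l) = pt i (τ a) l :=
  ext_res (i := i) (by simp) (by simp)

/-- a permutation of the lines -/
def lift (i : ι) : Perm (Ln i m) →* Perm (ι → Fin m) where
  toFun σ := (funSplitAt i (Fin m)).symm.permCongr (prodCongrRight fun _ => σ)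
  map_one' := by ext1 f; exact (funSplitAt i (Fin m)).symm_apply_apply f
  map_mul' σ τ := by ext1 f; simp [prodCongrRight_apply]

theorem lift_pt (i : ι) (σ : Perm (Ln i m)) (a : Fin m) (l : Ln i m) : lift i σ (pt i a l) = pt i a (σ l) := by
  simp [lift, pt]
theorem lift_app (i : ι) (σ : Perm (Ln i m)) (f : ι → Fin m) : lift i σ f = pt i (f i) (σ (res i f)) := by
  rw [← lift_pt, pt_res]
@[simp] theorem lift_same (i : ι) (σ : Perm (Ln i m)) (f : ι → Fin m) : lift i σ f i = f i := by simp [lift_app]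
@[simp] theorem res_lift (i : ι) (σ : Perm (Ln i m)) (f : ι → Fin m) : res i (lift i σ f) = σ (res i f) := by
  simp [lift_app]
theorem co_lift (i : ι) (τ : Perm (Fin m)) (σ : Perm (Ln i m)) : Commute (co i τ) (lift i σ) :=
  Equiv.ext fun f => ext_res (i := i) (by simp) (by simp)

theorem lift_mem (hm : 2 ≤ m) (i : ι) {σ : Perm (Ln i m)} (h : σ ∈ W {j // j ≠ i} m) : lift i σ ∈ W ι m := by
  obtain ⟨π, τ, e⟩ := mem_W'.1 h
  refine mem_W_of_dep hm fun j => ?_
  by_cases n : j = i
  · exact ⟨i, fun f f' k => by simpa [n] using k⟩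
  · exact ⟨π.symm ⟨j, n⟩, fun f f' k => by rw [lift_app, lift_app, pt_ne n, pt_ne n, e, e]; exact congrArg _ k⟩

theorem card_Ln (i : ι) : Fintype.card (Ln i m) = m ^ (Fintype.card ι - 1) := by simp

theorem sign_lift (i : ι) (σ : Perm (Ln i m)) : sign (lift i σ) = sign σ ^ m := by
  simp [lift, sign_prodCongrRight]

theorem sign_co (i : ι) (τ : Perm (Fin m)) : sign (co i τ) = sign τ ^ m ^ (Fintype.card ι - 1) := by
  have : co i τ = (funSplitAt i (Fin m)).symm.permCongr (prodCongrLeft fun _ => τ) := Equiv.ext fun f => by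
    conv_lhs => rw [← pt_res i f, co_pt]
    rfl
  simp [this, sign_prodCongrLeft]

theorem card_slab (i : ι) (A : Finset (Fin m)) :
    (Finset.univ.filter fun f : ι → Fin m => f i ∈ A).card = A.card * m ^ (Fintype.card ι - 1) := by
  rw [← card_Ln i, ← Finset.card_univ, ← Finset.card_product]
  exact Finset.card_nbij' (fun f => (f i, res i f)) (fun p => pt i p.1 p.2) (fun f => by simp) (fun p => by simp)
    (fun f _ => by simp) fun p _ => by simp

theorem card_diag {i j : ι} (h : i ≠ j) (τ : Fin m → Fin m) :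
    (Finset.univ.filter fun f : ι → Fin m => f j = τ (f i)).card = m ^ (Fintype.card ι - 1) := by
  rw [← card_Ln j, ← Finset.card_univ]
  exact Finset.card_nbij' (res j) (fun l => pt j (τ (l ⟨i, h⟩)) l) (fun f => by simp) (fun p => by simp [pt_ne h])
    (fun f hf => ext_res (i := j) ((pt_same ..).trans (Finset.mem_filter.1 hf).2.symm) (by simp)) fun p _ => by simp

theorem support_co (i : ι) (τ : Perm (Fin m)) : (co i τ).support = Finset.univ.filter fun f => f i ∈ τ.support := by
  ext f; simp [co_fix]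

theorem card_Om [Nonempty ι] : Fintype.card (ι → Fin m) = m * m ^ (Fintype.card ι - 1) := by
  rw [← pow_succ', Nat.sub_add_cancel Fintype.card_pos]; simp

/-! ### overgroups -/

/-- `H` contains the even part of `W` and induces all transpositions of coordinates -/
structure Ov (H : Subgroup (Perm (ι → Fin m))) : Prop where
  ev : ∀ σ ∈ W ι m, sign σ = 1 → σ ∈ H
  sw : ∀ i j, ∃ τ, bs τ * tp (swap i j) ∈ H

/-- a candidate counterexample -/
structure Cx (H : Subgroup (Perm (ι → Fin m))) : Prop extends Ov H where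
  five : 5 ≤ m
  nt : Nontrivial ι
  nA : ¬ alternatingGroup (ι → Fin m) ≤ H

theorem ov_of_le {H : Subgroup (Perm (ι → Fin m))} (h : W ι m ≤ H) : Ov H :=
  ⟨fun _ k _ => h k, fun _ _ => ⟨1, h ⟨_, 1, rfl⟩⟩⟩

/-- a three-cycle through three given points -/
def c3 (a b c : Fin m) : Perm (Fin m) := swap a c * swap a b

theorem sign_c3 {a b c : Fin m} (h1 : a ≠ b) (h2 : a ≠ c) : sign (c3 a b c) = 1 := by simp [c3, h1, h2]
theorem c3_three {a b c : Fin m} (h1 : a ≠ b) (h2 : a ≠ c) (h3 : b ≠ c) : (c3 a b c).IsThreeCycle :=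
  isThreeCycle_swap_mul_swap_same h2 h1 h3.symm
theorem c3_a {a b c : Fin m} (h1 : a ≠ b) (h3 : b ≠ c) : c3 a b c a = b := by
  simp [c3, swap_apply_of_ne_of_ne h1.symm h3]
theorem c3_b (a b c : Fin m) : c3 a b c b = c := by simp [c3]
theorem c3_c {a b c : Fin m} (h2 : a ≠ c) (h3 : b ≠ c) : c3 a b c c = a := by
  simp [c3, swap_apply_of_ne_of_ne h2.symm h3.symm]
theorem c3_ne {a b c d : Fin m} (h1 : d ≠ a) (h2 : d ≠ b) (h3 : d ≠ c) : c3 a b c d = d := by
  simp [c3, swap_apply_of_ne_of_ne, h1, h2, h3]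
theorem support_c3 {a b c : Fin m} (h1 : a ≠ b) (h2 : a ≠ c) (h3 : b ≠ c) : (c3 a b c).support = {a, b, c} := by
  ext d
  simp only [Perm.mem_support, Finset.mem_insert, Finset.mem_singleton]
  refine ⟨fun k => by_contra fun n => k (by push Not at n; exact c3_ne n.1 n.2.1 n.2.2), ?_⟩
  rintro (rfl | rfl | rfl)
  exacts [by rw [c3_a h1 h3]; exact h1.symm, by rw [c3_b]; exact h3.symm, by rw [c3_c h2 h3]; exact h2]

theorem exists_notMem {s : Finset (Fin m)} (h : s.card < m) : ∃ a, a ∉ s := by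
  simpa using Finset.exists_mem_notMem_of_card_lt_card (s := s) (t := Finset.univ) (by simpa using h)

/-- an even permutation that fixes `s` pointwise and maps `a` to `b` -/
theorem exists_even {s : Finset (Fin m)} (h : s.card + 3 ≤ m) {a b : Fin m} (ha : a ∉ s) (hb : b ∉ s) :
    ∃ τ : Perm (Fin m), sign τ = 1 ∧ τ a = b ∧ ∀ d ∈ s, τ d = d := by
  by_cases n : a = b
  · exact ⟨1, by simp, n, fun _ _ => rfl⟩
  obtain ⟨c, hc⟩ := exists_notMem (s := insert a (insert b s))
    (by have := Finset.card_insert_le a (insert b s); have := Finset.card_insert_le b s; omega)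
  simp only [Finset.mem_insert, not_or] at hc
  exact ⟨c3 a b c, sign_c3 n (Ne.symm hc.1), c3_a n (Ne.symm hc.2.1), fun d hd =>
    c3_ne (fun e => ha (e ▸ hd)) (fun e => hb (e ▸ hd)) fun e => hc.2.2 (e ▸ hd)⟩

namespace Ov

variable {H : Subgroup (Perm (ι → Fin m))} (h : Ov H)
include h

theorem co {τ : Perm (Fin m)} (i : ι) (e : sign τ = 1) : co i τ ∈ H := h.ev _ (co_mem i τ) (by simp [sign_co, e])

/-- every invariant equivalence relation is trivial -/
theorem rel (hm : 4 ≤ m) {R : (ι → Fin m) → (ι → Fin m) → Prop} (hR : Equivalence R)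
    (hi : ∀ g ∈ H, ∀ a b, R a b → R (g a) (g b)) : (∀ a b, R a b → a = b) ∨ ∀ a b, R a b := by
  refine or_iff_not_imp_left.2 fun n => ?_
  push Not at n
  obtain ⟨a, b, r, n⟩ := n
  obtain ⟨i, n⟩ := ne_iff.1 n
  have k1 : ∀ c, R b (update b i c) := fun c => by
    by_cases e : c = a i
    · obtain ⟨d, hd⟩ := exists_notMem (s := {a i, b i}) (by have := Finset.card_le_two (a := a i) (b := b i); omega)
      simp only [Finset.mem_insert, Finset.mem_singleton, not_or] at hd
      obtain ⟨τ, t1, t2, t3⟩ := exists_even (s := {a i}) (by simp; omega) (a := b i) (b := d) (by simpa using n.symm)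
        (by simpa using hd.1)
      obtain ⟨σ, s1, s2, s3⟩ := exists_even (s := {b i}) (by simp; omega) (a := d) (b := a i) (by simpa using hd.2)
        (by simpa using n)
      have k := hi _ (h.co i t1) _ _ r
      rw [co_fix.2 (t3 _ (by simp))] at k
      have k' := hi _ (h.co i s1) _ _ (hR.trans (hR.symm r) k)
      rwa [co_fix.2 (s3 _ (by simp)), co_app, co_same, t2, s2, co_app, update_idem, ← e] at k'
    · obtain ⟨τ, t1, t2, t3⟩ := exists_even (s := {a i}) (by simp; omega) (a := b i) (b := c) (by simpa using n.symm)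
        (by simpa using e)
      have k := hi _ (h.co i t1) _ _ r
      rw [co_fix.2 (t3 _ (by simp)), co_app, t2] at k
      exact hR.trans (hR.symm r) k
  have k2 : ∀ (s : Finset ι) (f g : ι → Fin m), (∀ j ∉ s, f j = g j) → ∃ t ∈ H, t f = g ∧
      ∀ j ∉ s, ∀ x : Perm (Fin m), Commute t (PW.co j x) := fun s => by
    induction s using Finset.induction_on with
    | empty => exact fun f g k => ⟨1, one_mem _, funext fun j => k j (by simp), fun _ _ _ => Commute.one_left _⟩
    | insert j s hj ih =>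
      intro f g k
      obtain ⟨τ, t1, t2, -⟩ := exists_even (s := ∅) (by simp; omega) (a := f j) (b := g j) (by simp) (by simp)
      obtain ⟨t, ht, e, c⟩ := ih (PW.co j τ f) g fun l hl => by
        by_cases e : l = j
        · simp [e, t2]
        · rw [co_ne e]; exact k l (by simp [e, hl])
      exact ⟨t * PW.co j τ, mul_mem ht (h.co j t1), e, fun l hl x =>
        (c l (fun e => hl (by simp [e])) x).mul_left (co_comm (fun e => hl (by simp [e])) _ _)⟩
  have k3 : ∀ f c, R f (update f i c) := fun f c => by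
    obtain ⟨t, ht, e, c'⟩ := k2 (Finset.univ.erase i) b (update f i (b i)) (by simp)
    have k : ∀ c, R (update f i (b i)) (update f i c) := fun c => by
      have := hi t ht _ _ (k1 c)
      rwa [e, show update b i c = PW.co i (swap (b i) c) b by simp [co_app], ← Perm.mul_apply,
        (c' i (by simp) _).eq, Perm.mul_apply, e, co_app, update_idem, update_self, swap_apply_left] at this
    simpa using hR.trans (hR.symm (k (f i))) (k c)
  have k4 : ∀ j f c, R f (update f j c) := fun j f c => by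
    obtain ⟨τ, w⟩ := h.sw i j
    obtain ⟨f, rfl⟩ := (bs τ * tp (swap i j)).surjective f
    have := hi _ w _ _ (k3 f ((τ j)⁻¹ c))
    convert this using 1
    ext1 l
    by_cases e : l = j
    · simp [e]
    · simp [e, update_apply, swap_apply_eq_iff]
  intro f g
  suffices ∀ (s : Finset ι) (f : ι → Fin m), (∀ j ∉ s, f j = g j) → R f g from this Finset.univ f (by simp)
  intro s
  induction s using Finset.induction_on with
  | empty => exact fun f k => (funext fun j => k j (by simp) : f = g) ▸ hR.refl g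
  | insert j s hj ih =>
    refine fun f k => hR.trans (k4 j f (g j)) (ih _ fun l hl => ?_)
    by_cases e : l = j
    · simp [e]
    · rw [update_of_ne e]; exact k l (by simp [e, hl])

theorem trans (hm : 4 ≤ m) (a b : ι → Fin m) : ∃ g ∈ H, g a = b := by
  rcases h.rel hm (R := fun a b => ∃ g ∈ H, g a = b) ⟨fun a => ⟨1, one_mem _, rfl⟩,
    fun ⟨g, hg, e⟩ => ⟨g⁻¹, inv_mem hg, by simp [← e]⟩, fun ⟨g, hg, e⟩ ⟨k, hk, e'⟩ => ⟨k * g, mul_mem hk hg, by simp [e, e']⟩⟩
    (fun g hg a b ⟨k, hk, e⟩ => ⟨g * k * g⁻¹, mul_mem (mul_mem hg hk) (inv_mem hg), by simp [e]⟩) with k | k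
  · refine ⟨1, one_mem _, funext fun i => ?_⟩
    obtain ⟨τ, t1, t2, -⟩ := exists_even (s := ∅) (by simp; omega) (a := a i) (b := b i) (by simp) (by simp)
    rw [← t2, ← co_same, ← k _ _ ⟨_, h.co i t1, rfl⟩]; rfl
  · exact k a b

theorem prim (hm : 4 ≤ m) : MulAction.IsPreprimitive H (ι → Fin m) := by
  have : MulAction.IsPretransitive H (ι → Fin m) := ⟨fun a b => by
    obtain ⟨g, hg, e⟩ := h.trans hm a b
    exact ⟨⟨g, hg⟩, e⟩⟩
  refine ⟨fun {B} hB => ?_⟩
  rcases h.rel hm (R := fun a b => ∀ g : H, g • a ∈ B ↔ g • b ∈ B) ⟨fun _ _ => Iff.rfl, fun k g => (k g).symm,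
    fun k k' g => (k g).trans (k' g)⟩ (fun g hg a b k x => k (x * ⟨g, hg⟩)) with k | k
  · exact .inl fun a ha b hb => k a b fun g => ⟨fun e => hB.smul_eq_of_mem ha e ▸ Set.smul_mem_smul_set hb,
      fun e => hB.smul_eq_of_mem hb e ▸ Set.smul_mem_smul_set ha⟩
  · exact B.eq_empty_or_nonempty.imp (fun e => by rw [e]; exact Set.subsingleton_empty) fun ⟨a, ha⟩ =>
      Set.eq_univ_of_forall fun b => by simpa using (k a b 1).1 (by simpa using ha)

end Ov

namespace Cx

variable {H : Subgroup (Perm (ι → Fin m))} (h : Cx H)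
include h

theorem prim : MulAction.IsPreprimitive H (ι → Fin m) := h.toOv.prim (by have := h.five; omega)

theorem two_le : 2 ≤ Fintype.card ι := have := h.nt; Fintype.one_lt_card

/-- every element of the wreath product on the lines is induced by `H` -/
theorem lift (i : ι) {σ : Perm (Ln i m)} (hσ : σ ∈ W {j // j ≠ i} m) {p q : Fin m} (n : p ≠ q) :
    ∃ τ, (τ = 1 ∨ τ = swap p q) ∧ co i τ * lift i σ ∈ H := by
  have h5 := h.five
  have k := lift_mem (by omega) i hσ
  rcases Int.units_eq_one_or (sign (PW.lift i σ)) with e | e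
  · exact ⟨1, .inl rfl, by simpa using h.ev _ k e⟩
  refine ⟨_, .inr rfl, h.ev _ (mul_mem (co_mem ..) k) ?_⟩
  have o : Odd m := Nat.not_even_iff_odd.1 fun o => by
    rw [sign_lift, Int.units_pow_eq_pow_mod_two, Nat.even_iff.1 o, pow_zero] at e
    exact absurd e (by decide)
  rw [map_mul, e, sign_co, sign_swap n, o.pow.neg_one_pow]; rfl

/-- an equivalence relation on the lines that is invariant under the wreath product is trivial -/
theorem rel_ln (i : ι) {R : Ln i m → Ln i m → Prop} (hR : Equivalence R)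
    (hi : ∀ σ ∈ W {j // j ≠ i} m, ∀ a b, R a b → R (σ a) (σ b)) : (∀ a b, R a b → a = b) ∨ ∀ a b, R a b :=
  (ov_of_le le_rfl).rel (by have := h.five; omega) hR hi

theorem not_three {g : Perm (ι → Fin m)} (hg : g ∈ H) (h1 : g ≠ 1) : 3 < g.support.card :=
  not_le.1 fun k => h.nA (alternatingGroup_le_of_card_support_le_three h.prim hg h1 k)

end Cx

end CL.PW
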