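/-
Project PW (S5767, helper86; proof by helper58): the dichotomy lemma and the statements of the blocks.
-/
import Cfsg.Agent.Perm.PW0

set_option autoImplicit false
set_option linter.unusedSectionVars false

namespace CL.PW

open Equiv Equiv.Perm Function CL.Perm

variable {ι : Type} [Fintype ι] [DecidableEq ι] {m : ℕ}

theorem lift_co {i j : ι} (n : j ≠ i) (τ : Perm (Fin m)) : lift i (co (⟨j, n⟩ : {j // j ≠ i}) τ) = co j τ := by
  refine Equiv.ext fun f => ext_res (i := i) (by rw [lift_same, co_ne n.symm]) (funext fun l => ?_)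
  rw [res_lift]
  by_cases e : l = ⟨j, n⟩
  · subst e; simp [res]
  · rw [co_ne e]; exact (co_ne (fun k => e (Subtype.ext k)) τ f).symm

/-- the elements of `H` that act on the lines only form an overgroup one dimension lower -/
theorem Ov.comap_lift {H : Subgroup (Perm (ι → Fin m))} (h : Ov H) (hm : 2 ≤ m) (i : ι) : Ov (H.comap (lift i)) := by
  have ev : ∀ σ ∈ W {j // j ≠ i} m, sign σ ^ m = 1 → σ ∈ H.comap (lift i) := fun σ k e =>
    h.ev _ (lift_mem hm i k) (by rw [sign_lift, e])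
  refine ⟨fun σ k e => ev σ k (by simp [e]), fun j l => ?_⟩
  rcases Int.units_eq_one_or (sign (tp (swap j l) : Perm (Ln i m)) ^ m) with e | e
  · exact ⟨1, ev _ ⟨_, 1, rfl⟩ (by simpa using e)⟩
  have o : Odd m := Nat.not_even_iff_odd.1 fun o => by
    rw [Int.units_pow_eq_pow_mod_two, Nat.even_iff.1 o, pow_zero] at e
    exact absurd e (by decide)
  have : Nontrivial (Fin m) := Fin.nontrivial_iff_two_le.2 hm
  obtain ⟨p, q, n⟩ := exists_pair_ne (Fin m)
  refine ⟨Pi.mulSingle j (swap p q), ev _ ⟨_, _, rfl⟩ ?_⟩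
  rw [← co_eq, map_mul, mul_pow, e, sign_co, sign_swap n, o.pow.neg_one_pow, o.neg_one_pow]; rfl

/-- DL: a relation invariant under the lifted elements that joins two lines contains a whole hyperplane -/
theorem Ov.dl {H : Subgroup (Perm (ι → Fin m))} (h : Ov H) (hm : 4 ≤ m) (i : ι)
    {R : (ι → Fin m) → (ι → Fin m) → Prop} (hR : Equivalence R)
    (hi : ∀ σ, lift i σ ∈ H → ∀ a b, R a b → R (lift i σ a) (lift i σ b)) {x y : ι → Fin m} (r : R x y)
    (n : res i x ≠ res i y) (z : ι → Fin m) (hz : z i = y i) : R y z := by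
  obtain ⟨⟨j, hj⟩, n⟩ := ne_iff.1 n
  change x j ≠ y j at n
  obtain ⟨c, hc⟩ := exists_notMem (s := {x j, y j}) (by have := Finset.card_le_two (a := x j) (b := y j); omega)
  simp only [Finset.mem_insert, Finset.mem_singleton, not_or] at hc
  obtain ⟨τ, t1, t2, t3⟩ := exists_even (s := {x j}) (by simp; omega) (a := y j) (b := c) (by simpa using n.symm)
    (by simpa using hc.1)
  have k := hi (PW.co ⟨j, hj⟩ τ) (by rw [lift_co]; exact h.co j t1) _ _ r
  rw [lift_co, co_fix.2 (t3 _ (by simp))] at k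
  rcases (h.comap_lift (by omega) i).rel hm (R := fun a b => R (pt i (y i) a) (pt i (y i) b))
    ⟨fun _ => hR.refl _, hR.symm, hR.trans⟩ (fun σ hσ a b k => by simpa only [lift_pt] using hi σ hσ _ _ k) with e | e
  · have := e (res i y) (res i (PW.co j τ y)) (by
      rw [pt_res, ← co_ne hj.symm τ y, pt_res]; exact hR.trans (hR.symm r) k)
    exact absurd ((congrFun this ⟨j, hj⟩).trans ((co_same j τ y).trans t2)).symm hc.2
  · simpa only [pt_res, ← hz] using (by simpa only [pt_res] using e (res i y) (res i z) : R y (pt i (y i) (res i z)))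

/-- the pointwise stabiliser of the complement of a slab is transitive on the slab or keeps the lines -/
theorem Ov.dl' {H : Subgroup (Perm (ι → Fin m))} (h : Ov H) (hm : 4 ≤ m) (i : ι) {T : Finset (Fin m)}
    (hT : 3 ≤ T.card ∨ T.card ≤ 1) :
    JC H {f : ι → Fin m | f i ∉ T} ∨ ∀ g ∈ H, (∀ f, f i ∉ T → g f = f) → ∀ f, res i (g f) = res i f := by
  refine or_iff_not_imp_right.2 fun n => ?_
  push Not at n
  obtain ⟨g, hg, k, x, n⟩ := n
  let R : (ι → Fin m) → (ι → Fin m) → Prop := fun a b => ∃ g ∈ H, (∀ f, f i ∉ T → g f = f) ∧ g a = b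
  have hR : Equivalence R := ⟨fun a => ⟨1, one_mem _, fun _ _ => rfl, rfl⟩,
    fun ⟨g, hg, k, e⟩ => ⟨g⁻¹, inv_mem hg, fun f hf => by rw [Perm.inv_eq_iff_eq, k f hf], by simp [← e]⟩,
    fun ⟨g, hg, k, e⟩ ⟨g', hg', k', e'⟩ => ⟨g' * g, mul_mem hg' hg, fun f hf => by simp [k f hf, k' f hf], by simp [e, e']⟩⟩
  have d := h.dl hm i hR (fun σ hσ a b ⟨g, hg, k, e⟩ => ⟨lift i σ * g * (lift i σ)⁻¹,
    mul_mem (mul_mem hσ hg) (inv_mem hσ), fun f hf => by
      rw [Perm.mul_apply, Perm.mul_apply, k _ (by rwa [← map_inv, lift_same])]; simp, by simp [e]⟩)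
    (x := x) (y := g x) ⟨g, hg, k, rfl⟩ n.symm
  have hx : g x i ∈ T := by_contra fun e => n (by rw [g.injective (k _ e)])
  have d' : ∀ a : ι → Fin m, a i ∈ T → R (g x) a := fun a ha => by
    obtain ⟨τ, t1, t2, t3⟩ : ∃ τ : Perm (Fin m), sign τ = 1 ∧ τ (g x i) = a i ∧ ∀ d ∈ Tᶜ, τ d = d := by
      rcases hT with hT | hT
      · exact exists_even (by have := Finset.card_compl T; have := Finset.card_le_univ T; simp at *; omega)
          (by simpa using hx) (by simpa using ha)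
      · exact ⟨1, by simp, Finset.card_le_one.1 hT _ hx _ ha, fun _ _ => rfl⟩
    exact hR.trans (d (update a i (g x i)) (by simp)) ⟨PW.co i τ, h.co i t1, fun f hf => co_fix.2 (t3 _ (by simpa using hf)),
      by simp [co_app, t2]⟩
  intro a b ha hb
  obtain ⟨g, hg, k, e⟩ := hR.trans (hR.symm (d' a (by simpa using ha))) (d' b (by simpa using hb))
  exact ⟨⟨g, hg⟩, k, e⟩

/-- case NT: the pointwise stabiliser of the complement of a slab of width three keeps the lines -/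
def NT (H : Subgroup (Perm (ι → Fin m))) : Prop :=
  ∀ (i : ι) (S : Finset (Fin m)), S.card = 3 → ∀ g ∈ H, (∀ f, f i ∉ S → g f = f) → ∀ f, res i (g f) = res i f

/-- the other case: all slabs of width three are Jordan sets -/
def J3 (H : Subgroup (Perm (ι → Fin m))) : Prop :=
  ∀ (i : ι) (S : Finset (Fin m)), S.card = 3 → JC H {f : ι → Fin m | f i ∉ S}

/-- the pointwise stabiliser of a hyperplane is diagonal -/
def UD (H : Subgroup (Perm (ι → Fin m))) : Prop :=
  ∀ (i : ι) (a : Fin m), ∀ g ∈ H, (∀ f, f i = a → g f = f) → ∃ τ, g = co i τ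

/-- the hyperplane `f i = a` is a block of the pointwise stabiliser of the complement of the slab `T` -/
def BK (H : Subgroup (Perm (ι → Fin m))) (i : ι) (T : Finset (Fin m)) (a : Fin m) : Prop :=
  ∀ g ∈ H, (∀ f, f i ∉ T → g f = f) → ∀ x y, x i = a → y i = a → g x i = a → g y i = a

theorem Cx.nt_or_j3 {H : Subgroup (Perm (ι → Fin m))} (h : Cx H) : NT H ∨ J3 H := by
  have h5 := h.five
  refine or_iff_not_imp_left.2 fun n j S' hS' => ?_
  obtain ⟨i, S, hS, k⟩ : ∃ (i : ι) (S : Finset (Fin m)), S.card = 3 ∧ JC H {f : ι → Fin m | f i ∉ S} := by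
    by_contra! k
    exact n fun i S hS => (h.toOv.dl' (by omega) i (.inl hS.ge)).resolve_left (k i S hS)
  obtain ⟨τ, w⟩ := h.sw i j
  obtain ⟨σ, s1, s2⟩ : ∃ σ : Perm (Fin m), sign σ = 1 ∧ ∀ a, σ (τ j a) ∈ S' ↔ a ∈ S := by
    obtain ⟨σ, e⟩ := Equiv.Perm.exists_map_finset_eq (S.map (τ j).toEmbedding) S' (by simp [hS, hS'])
    have e' : ∀ a, σ (τ j a) ∈ S' ↔ a ∈ S := fun a => by simp [← e]
    rcases Int.units_eq_one_or (sign σ) with s | s
    · exact ⟨σ, s, e'⟩
    obtain ⟨p, hp, q, hq, n⟩ := Finset.one_lt_card.1 (by omega : 1 < S'.card)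
    refine ⟨swap p q * σ, by simp [s, n], fun a => ?_⟩
    rw [← e', Perm.mul_apply, swap_apply_def]
    split_ifs with h1 h2 <;> simp [*]
  convert k.smul (⟨_, mul_mem (h.toOv.co j s1) w⟩ : H) using 1
  ext f
  obtain ⟨f, rfl⟩ := (co j σ * (bs τ * tp (swap i j))).surjective f
  refine Iff.trans ?_ Set.smul_mem_smul_set_iff.symm
  simp [s2]

/-! ### the blocks -/

/-- Lagrange lemma -/
def Lg : Prop := ∀ (ι : Type) [Fintype ι] [DecidableEq ι] (m : ℕ), 5 ≤ m →
  ∀ (R : Subgroup (Perm (ι → Fin m))) (j : ι) (z : ι → Fin m),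
    (∀ τ : Perm (Fin m), sign τ = 1 → ∀ r ∈ R, co j τ * r * (co j τ)⁻¹ ∈ R) →
    (∀ r ∈ R, ∀ r' ∈ R, r (r' z) j = r' (r z) j) → ∀ r ∈ R, r z j = z j

/-- in case NT the pointwise stabiliser of a hyperplane is diagonal -/
def GS : Prop := ∀ (ι : Type) [Fintype ι] [DecidableEq ι] (m : ℕ) (H : Subgroup (Perm (ι → Fin m))),
  Cx H → NT H → UD H

/-- Steiner systems from Jordan complements, with the bound of Tits -/
def ST : Prop := ∀ (Ω : Type) [Fintype Ω] [DecidableEq Ω] (G : Subgroup (Perm Ω)) (X U : Set Ω) (p : Ω),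
  JC G (∅ : Set Ω) → JC G X → p ∉ X → JC G (insert p X) → JC G U → X.ncard < U.ncard →
    2 * U.ncard ≤ Fintype.card Ω → ∃ s, X.ncard ≤ s ∧ s ≤ U.ncard ∧ MulAction.IsMultiplyPretransitive G Ω (s + 1) ∧
      ((s + 2) * (U.ncard - s) ≤ Fintype.card Ω ∨ 2 * (s + 2) ≤ U.ncard)

/-- Jordan case, a hyperplane is a block -/
def NA : Prop := ∀ (ι : Type) [Fintype ι] [DecidableEq ι] (m : ℕ) (H : Subgroup (Perm (ι → Fin m))),
  Cx H → J3 H → ∀ i T a, T.card = 4 → a ∈ T → ¬ BK H i T a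

/-- Jordan case, a hyperplane is not a block -/
def NB : Prop := ∀ (ι : Type) [Fintype ι] [DecidableEq ι] (m : ℕ) (H : Subgroup (Perm (ι → Fin m))),
  Cx H → J3 H → ∀ i T a, T.card = 4 → a ∈ T → BK H i T a

/-- `u` acts as `v` on the fibres of `κ` and fixes the fixed fibres pointwise -/
def Dg {Ω : Type} (κ : Ω → Fin m) (u : Perm Ω) (v : Perm (Fin m)) : Prop :=
  (∀ x, κ (u x) = v (κ x)) ∧ ∀ x, v (κ x) = κ x → u x = x

/-- an invariant family of coordinate functions -/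
structure Fam {Ω : Type} [Fintype Ω] [DecidableEq Ω] (H : Subgroup (Perm Ω)) (F : Set (Ω → Fin m)) (N : ℕ) :
    Prop where
  five : 5 ≤ m
  pos : 0 < N
  card : ∀ κ ∈ F, ∀ a, (Finset.univ.filter fun x => κ x = a).card = N
  smul : ∀ κ ∈ F, ∀ h ∈ H, (fun x => κ (h x)) ∈ F
  ex : ∀ κ ∈ F, ∀ v : Perm (Fin m), v.IsThreeCycle → ∃ u ∈ H, Dg κ u v
  ud : ∀ κ ∈ F, ∀ a, ∀ g ∈ H, (∀ x, κ x = a → g x = x) → ∃ v, Dg κ g v

/-- endgame: two coordinate functions have the same fibres or the three-cycles of the first fix the second -/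
def EG : Prop := ∀ (Ω : Type) [Fintype Ω] [DecidableEq Ω] (m : ℕ) (H : Subgroup (Perm Ω)) (F : Set (Ω → Fin m))
  (N : ℕ), Fam H F N → ∀ κ ∈ F, ∀ κ' ∈ F, (∀ x y, κ x = κ y → κ' x = κ' y) ∨
    ∀ u ∈ H, ∀ v : Perm (Fin m), v.IsThreeCycle → Dg κ u v → ∀ x, κ' (u x) = κ' x

end CL.PW
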