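/-
Project PW (S5767): the Lagrange lemma, and the groups `D H i T` supported on a slab.
-/
import Cfsg.Agent.Perm.PW0

set_option autoImplicit false
set_option linter.unusedSectionVars false

namespace CL.PW

open Equiv Equiv.Perm Function Finset

variable {ι : Type} [Fintype ι] [DecidableEq ι] {m : ℕ}

namespace Lag

open scoped Classical

variable (R : Subgroup (Perm (ι → Fin m))) (j : ι)

/-- the number of elements of `R` that give the point `w` the coordinate `c` -/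
noncomputable def n (w : ι → Fin m) (c : Fin m) : ℕ := (univ.filter fun r : Perm (ι → Fin m) => r ∈ R ∧ r w j = c).card

variable {R j}

theorem n_le (hm : 5 ≤ m) (hn : ∀ σ : Perm (Fin m), sign σ = 1 → ∀ r ∈ R, co j σ * r * (co j σ)⁻¹ ∈ R)
    {w : ι → Fin m} {c d : Fin m} (hc : c ≠ w j) (hd : d ≠ w j) : n R j w c ≤ n R j w d := by
  obtain ⟨σ, s1, s2, s3⟩ := exists_even (s := {w j}) (by simp; omega) (a := c) (b := d) (by simpa using hc)
    (by simpa using hd)
  have e : (co j σ)⁻¹ w = w := by rw [Perm.inv_eq_iff_eq, co_fix.2 (s3 _ (by simp))]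
  refine card_le_card_of_injOn (fun r => co j σ * r * (co j σ)⁻¹) (fun r hr => ?_) fun r _ s _ k => by simpa using k
  simp only [coe_filter, mem_univ, true_and, Set.mem_ofPred_eq] at hr ⊢
  exact ⟨hn σ s1 r hr.1, by rw [Perm.mul_apply, Perm.mul_apply, e, co_same, hr.2, s2]⟩

theorem n_shift {s : Perm (ι → Fin m)} (hs : s ∈ R) (w : ι → Fin m) (c : Fin m) : n R j (s w) c = n R j w c :=
  card_nbij' (fun r => r * s) (fun r => r * s⁻¹)
    (fun r hr => by
      simp only [coe_filter, mem_univ, true_and, Set.mem_ofPred_eq] at hr ⊢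
      exact ⟨mul_mem hr.1 hs, hr.2⟩)
    (fun r hr => by
      simp only [coe_filter, mem_univ, true_and, Set.mem_ofPred_eq] at hr ⊢
      exact ⟨mul_mem hr.1 (inv_mem hs), by simpa using hr.2⟩)
    (fun r _ => by simp) fun r _ => by simp

theorem exists_sub (hn : ∀ σ : Perm (Fin m), sign σ = 1 → ∀ r ∈ R, co j σ * r * (co j σ)⁻¹ ∈ R) {z : ι → Fin m}
    (hc : ∀ r ∈ R, ∀ s ∈ R, r (s z) j = s (r z) j) {S : Finset (Fin m)} (h3 : 3 ≤ S.card) (hz : z j ∉ S) :
    ∃ U : Subgroup (Perm (ι → Fin m)), ∀ r, r ∈ U ↔ r ∈ R ∧ r z j ∉ S := by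
  let M : Submonoid (Perm (ι → Fin m)) :=
    { carrier := {r | r ∈ R ∧ r z j ∉ S}
      one_mem' := ⟨one_mem _, hz⟩
      mul_mem' := fun {r s} hr hs => ⟨mul_mem hr.1 hs.1, fun k => by
        obtain ⟨b, hb, hb'⟩ := exists_mem_ne (s := S) (by omega) ((r * s) z j)
        have hS : Sᶜ.card + 3 ≤ m := by
          have := card_add_card_compl S
          rw [Fintype.card_fin] at this
          omega
        obtain ⟨σ, s1, s2, s3⟩ := exists_even hS (a := (r * s) z j) (b := b) (by simpa using k) (by simpa using hb)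
        have f : ∀ w : ι → Fin m, w j ∉ S → (co j σ)⁻¹ w = w := fun w hw => by
          rw [Perm.inv_eq_iff_eq, co_fix.2 (s3 _ (by simpa using hw))]
        have e1 := hc _ (hn σ s1 r hr.1) s hs.1
        rw [Perm.mul_apply, Perm.mul_apply, f _ hs.2, co_same, Perm.mul_apply, Perm.mul_apply, f _ hz,
          co_fix.2 (s3 _ (by simpa using hr.2)), ← hc r hr.1 s hs.1] at e1
        exact hb' (s2.symm.trans e1)⟩ }
  have inv : ∀ r ∈ M, r⁻¹ ∈ M := fun r hr =>
    Submonoid.powers_le.2 hr (mem_powers_iff_mem_zpowers.2 (inv_mem (Subgroup.mem_zpowers r)))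
  exact ⟨{ M with inv_mem' := fun {r} hr => inv r hr }, fun _ => Iff.rfl⟩

theorem card_sub {z : ι → Fin m} {f : ℕ} (hf : ∀ c, n R j z c = f) (S : Finset (Fin m))
    {U : Subgroup (Perm (ι → Fin m))} (hU : ∀ r, r ∈ U ↔ r ∈ R ∧ r z j ∉ S) : Nat.card U = (m - S.card) * f := by
  have e : Nat.card U = (univ.filter fun r : Perm (ι → Fin m) => r ∈ U).card := by
    rw [Nat.card_eq_fintype_card, Fintype.card_subtype]
  rw [e, card_eq_sum_card_fiberwise (f := fun r : Perm (ι → Fin m) => r z j) (t := Sᶜ)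
    (fun r hr => by simpa using ((hU r).1 (by simpa using hr)).2), sum_congr rfl (g := fun _ => f), sum_const,
    card_compl, Fintype.card_fin, smul_eq_mul]
  intro c hc
  rw [← hf c, n, filter_filter]
  congr 1
  ext r
  simp only [mem_filter, mem_univ, true_and, hU]
  exact ⟨fun k => ⟨k.1.1, k.2⟩, fun k => ⟨⟨k.1, k.2 ▸ mem_compl.1 hc⟩, k.2⟩⟩

end Lag

/-- The Lagrange lemma: a group normalised by the even permutations of the coordinate `j` whose elements commute at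
`z` in the coordinate `j` keeps the coordinate `j` of `z`. -/
theorem lagr (hm : 5 ≤ m) {R : Subgroup (Perm (ι → Fin m))} {j : ι}
    (hn : ∀ σ : Perm (Fin m), sign σ = 1 → ∀ r ∈ R, co j σ * r * (co j σ)⁻¹ ∈ R) {z : ι → Fin m}
    (hc : ∀ r ∈ R, ∀ s ∈ R, r (s z) j = s (r z) j) {r : Perm (ι → Fin m)} (hr : r ∈ R) : r z j = z j := by
  classical
  by_contra k
  have q : ∀ w c d, c ≠ w j → d ≠ w j → Lag.n R j w c = Lag.n R j w d := fun w c d h1 h2 =>
    le_antisymm (Lag.n_le hm hn h1 h2) (Lag.n_le hm hn h2 h1)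
  have hf : ∀ c, Lag.n R j z c = Lag.n R j z (r z j) := fun c => by
    by_cases e : c = z j
    · obtain ⟨d, hd⟩ := exists_notMem (s := {z j, r z j}) (by have := card_le_two (a := z j) (b := r z j); omega)
      simp only [mem_insert, mem_singleton, not_or] at hd
      rw [← Lag.n_shift hr, q _ c d (e ▸ Ne.symm k) hd.2, Lag.n_shift hr, q _ _ _ hd.1 k]
    · exact q _ _ _ e k
  have pos : 0 < Lag.n R j z (r z j) := card_pos.2 ⟨r, by simp [hr]⟩
  obtain ⟨S, s1, s2⟩ := exists_subset_card_eq (s := {z j}ᶜ) (n := 4) (by simp [card_compl]; omega)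
  obtain ⟨T, t1, t2⟩ := exists_subset_card_eq (s := S) (n := 3) (by omega)
  have hz : z j ∉ S := fun e => by simpa using s1 e
  obtain ⟨U, hU⟩ := Lag.exists_sub hn hc (by omega) hz
  obtain ⟨V, hV⟩ := Lag.exists_sub hn hc (S := T) (by omega) fun e => hz (t1 e)
  have d1 := Subgroup.card_dvd_of_le (show U ≤ V from fun x hx =>
    (hV x).2 ⟨((hU x).1 hx).1, fun e => ((hU x).1 hx).2 (t1 e)⟩)
  have d2 := Subgroup.card_dvd_of_le (show V ≤ R from fun x hx => ((hV x).1 hx).1)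
  rw [Lag.card_sub hf S hU, Lag.card_sub hf T hV, s2, t2] at d1
  rw [Lag.card_sub hf T hV, Lag.card_sub hf ∅ (U := R) (by simp), t2] at d2
  have d3 := Nat.dvd_of_mul_dvd_mul_right pos d1
  have d4 := Nat.dvd_of_mul_dvd_mul_right pos d2
  obtain ⟨a, rfl⟩ : ∃ a, m = a + 4 := ⟨m - 4, by omega⟩
  have d5 : a ∣ 1 := (Nat.dvd_add_right (dvd_refl a)).1 (by simpa using d3)
  rw [Nat.dvd_one.1 d5] at d4
  simp at d4

/-- the elements of `H` supported on the slab `f i ∈ T` -/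
def D (H : Subgroup (Perm (ι → Fin m))) (i : ι) (T : Finset (Fin m)) : Subgroup (Perm (ι → Fin m)) where
  carrier := {g | g ∈ H ∧ ∀ f, f i ∉ T → g f = f}
  one_mem' := ⟨H.one_mem, fun _ _ => rfl⟩
  mul_mem' := fun ha hb => ⟨H.mul_mem ha.1 hb.1, fun f hf => by rw [Perm.mul_apply, hb.2 f hf, ha.2 f hf]⟩
  inv_mem' := fun ha => ⟨H.inv_mem ha.1, fun f hf => by rw [Perm.inv_eq_iff_eq, ha.2 f hf]⟩

variable {H : Subgroup (Perm (ι → Fin m))}

theorem mem_D {i : ι} {T : Finset (Fin m)} {g : Perm (ι → Fin m)} :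
    g ∈ D H i T ↔ g ∈ H ∧ ∀ f, f i ∉ T → g f = f := Iff.rfl

theorem D_slab {i : ι} {T : Finset (Fin m)} {g : Perm (ι → Fin m)} (hg : g ∈ D H i T) {f : ι → Fin m}
    (hf : f i ∈ T) : g f i ∈ T := by
  by_contra h
  have := g.injective (hg.2 _ h)
  exact h (this.symm ▸ hf)

theorem D_mono (i : ι) {T U : Finset (Fin m)} (h : T ⊆ U) : D H i T ≤ D H i U :=
  fun _ hg => ⟨hg.1, fun f hf => hg.2 f fun e => hf (h e)⟩

theorem Ov.co_mem_D (h : Ov H) {i : ι} {T : Finset (Fin m)} {σ : Perm (Fin m)} (h1 : sign σ = 1)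
    (h2 : ∀ x, x ∉ T → σ x = x) : PW.co i σ ∈ D H i T :=
  ⟨h.co i h1, fun _ hf => co_fix.2 (h2 _ hf)⟩

/-- conjugation by an element of `H` that maps the slab `U` into the slab `T` (in the direction `i'`) -/
theorem conj_mem_D {i i' : ι} {T U : Finset (Fin m)} {g d : Perm (ι → Fin m)} (hg : g ∈ H)
    (hk : ∀ f, f i ∈ U → g f i' ∈ T) (hd : d ∈ D H i U) : g * d * g⁻¹ ∈ D H i' T :=
  ⟨H.mul_mem (H.mul_mem hg hd.1) (H.inv_mem hg), fun f hf => by
    rw [Perm.mul_apply, Perm.mul_apply, hd.2 _ fun e => hf (by simpa using hk _ e)]; simp⟩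

/-- an even permutation supported on `T` that maps `a` to `b` -/
theorem exists_even_on {T : Finset (Fin m)} (h : 3 ≤ T.card) {a b : Fin m} (ha : a ∈ T) (hb : b ∈ T) :
    ∃ τ : Perm (Fin m), sign τ = 1 ∧ τ a = b ∧ ∀ d, d ∉ T → τ d = d := by
  have hS : Tᶜ.card + 3 ≤ m := by
    have := card_add_card_compl T
    rw [Fintype.card_fin] at this
    omega
  obtain ⟨σ, s1, s2, s3⟩ := exists_even hS (a := a) (b := b) (by simpa using ha) (by simpa using hb)
  exact ⟨σ, s1, s2, fun d hd => s3 d (by simpa using hd)⟩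

/-- `D H i T` is transitive on its slab or keeps every line in the direction `i`. -/
theorem Cx.dich (h : Cx H) (i : ι) {T : Finset (Fin m)} (hT : 3 ≤ T.card ∨ T.card = 1) :
    (∀ x y : ι → Fin m, x i ∈ T → y i ∈ T → ∃ g ∈ D H i T, g x = y) ∨ ∀ g ∈ D H i T, ∀ f, res i (g f) = res i f := by
  have h5 := h.five
  have seg : ∀ a ∈ T, ∀ b ∈ T, ∀ l, ∃ g ∈ D H i T, g (pt i a l) = pt i b l := fun a ha b hb l => by
    rcases hT with hT | hT
    · obtain ⟨σ, s1, s2, s3⟩ := exists_even_on hT ha hb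
      exact ⟨_, h.toOv.co_mem_D s1 s3, by rw [co_pt, s2]⟩
    · exact ⟨1, one_mem _, by rw [card_le_one.1 hT.le a ha b hb]; rfl⟩
  obtain ⟨p, q, pq, hpq⟩ : ∃ p q : Fin m, p ≠ q ∧ ∀ a ∈ T, swap p q a ∈ T := by
    rcases hT with hT | hT
    · obtain ⟨p, hp, q, hq, n⟩ := one_lt_card.1 (show 1 < T.card by omega)
      exact ⟨p, q, n, fun a ha => by rw [swap_apply_def]; split_ifs <;> assumption⟩
    · obtain ⟨p, hp, q, hq, n⟩ := one_lt_card.1 (show 1 < Tᶜ.card by rw [card_compl, Fintype.card_fin]; omega)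
      exact ⟨p, q, n, fun a ha => by
        rwa [swap_apply_of_ne_of_ne (fun e : a = p => mem_compl.1 hp (e ▸ ha))
          (fun e : a = q => mem_compl.1 hq (e ▸ ha))]⟩
  obtain ⟨a, ha⟩ : T.Nonempty := card_pos.1 (by omega)
  have mv : ∀ b ∈ T, ∀ c ∈ T, ∀ l l', (∃ g ∈ D H i T, g (pt i b l) = pt i c l') →
      ∀ b' ∈ T, ∀ c' ∈ T, ∃ g ∈ D H i T, g (pt i b' l) = pt i c' l' := by
    rintro b hb c hc l l' ⟨g, hg, e⟩ b' hb' c' hc'
    obtain ⟨u, hu, e1⟩ := seg b' hb' b hb l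
    obtain ⟨v, hv, e2⟩ := seg c hc c' hc' l'
    exact ⟨v * g * u, mul_mem (mul_mem hv hg) hu, by rw [Perm.mul_apply, Perm.mul_apply, e1, e, e2]⟩
  rcases h.rel_ln i (R := fun l l' => ∃ g ∈ D H i T, g (pt i a l) = pt i a l')
    ⟨fun _ => ⟨1, one_mem _, rfl⟩, fun ⟨g, hg, e⟩ => ⟨g⁻¹, inv_mem hg, by simp [← e]⟩,
      fun ⟨g, hg, e⟩ ⟨k, hk, e'⟩ => ⟨k * g, mul_mem hk hg, by simp [e, e']⟩⟩
    (fun σ hσ l l' ⟨g, hg, e⟩ => by
      obtain ⟨τ, t1, t2⟩ := h.lift i hσ pq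
      have t3 : ∀ b ∈ T, τ b ∈ T := by rcases t1 with rfl | rfl; exacts [fun _ k => k, hpq]
      refine mv (τ a) (t3 a ha) (τ a) (t3 a ha) _ _ ⟨_, conj_mem_D t2 (fun f hf => by simpa using t3 _ hf) hg, ?_⟩ a ha a ha
      rw [← co_pt, ← lift_pt, ← Perm.mul_apply (co i τ), Perm.mul_apply, Perm.mul_apply, Perm.inv_def, symm_apply_apply, e,
        Perm.mul_apply, lift_pt, co_pt]) with k | k
  · refine .inr fun g hg f => ?_
    by_cases e : f i ∈ T
    · exact (k _ _ (mv _ e _ (D_slab hg e) _ _ ⟨g, hg, by simp⟩ a ha a ha)).symm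
    · rw [hg.2 f e]
  · exact .inl fun x y hx hy => by simpa using mv a ha a ha _ _ (k (res i x) (res i y)) _ hx _ hy

end CL.PW
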