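/-
Project PW (S5767, helper86; proof by helper58): the endgame for an invariant family of coordinate functions.
-/
import Cfsg.Agent.Perm.PW1

set_option autoImplicit false
set_option linter.unusedSectionVars false

namespace CL.PW

open Equiv Equiv.Perm Function Finset

variable {Ω : Type} [Fintype Ω] [DecidableEq Ω] {m : ℕ}

/-- the fibres of `κ` lie in fibres of `κ'` -/
def Sm (κ κ' : Ω → Fin m) : Prop := ∀ x y, κ x = κ y → κ' x = κ' y

theorem ex3 (hm : 5 ≤ m) {p p' q r : Fin m} (h : q ≠ p) (h' : q ≠ p') (k : r ≠ p) (k' : r ≠ p') (n : q ≠ r) :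
    ∃ v : Perm (Fin m), v.IsThreeCycle ∧ v q = r ∧ v p = p ∧ v p' = p' := by
  obtain ⟨s, hs⟩ := exists_notMem (s := {p, p', q, r}) (by have := card_le_four (a := p) (b := p') (c := q) (d := r); omega)
  simp only [mem_insert, mem_singleton, not_or] at hs
  exact ⟨c3 q r s, c3_three n (Ne.symm hs.2.2.1) (Ne.symm hs.2.2.2), c3_a n (Ne.symm hs.2.2.2),
    c3_ne h.symm k.symm (Ne.symm hs.1), c3_ne h'.symm k'.symm (Ne.symm hs.2.1)⟩

theorem ex3' (hm : 5 ≤ m) {p p' q : Fin m} (h : q ≠ p) (h' : q ≠ p') :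
    ∃ v : Perm (Fin m), v.IsThreeCycle ∧ v q ≠ q ∧ v p = p ∧ v p' = p' := by
  obtain ⟨r, hr⟩ := exists_notMem (s := {p, p', q}) (by have := card_le_three (a := p) (b := p') (c := q); omega)
  simp only [mem_insert, mem_singleton, not_or] at hr
  obtain ⟨v, a, b, c⟩ := ex3 hm h h' hr.1 hr.2.1 (Ne.symm hr.2.2)
  exact ⟨v, a, b ▸ hr.2.2, c⟩

theorem ex_fix (hm : 4 ≤ m) {v : Perm (Fin m)} (hv : v.IsThreeCycle) : ∃ a, v a = a := by
  obtain ⟨a, ha⟩ := exists_notMem (s := v.support) (by rw [hv.card_support]; omega)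
  exact ⟨a, by simpa using ha⟩

theorem Dg.fix {κ : Ω → Fin m} {u : Perm Ω} {v : Perm (Fin m)} (d : Dg κ u v) (x : Ω) : u x = x ↔ v (κ x) = κ x :=
  ⟨fun e => by rw [← d.1, e], d.2 x⟩

namespace Fam

variable {H : Subgroup (Perm Ω)} {F : Set (Ω → Fin m)} {N : ℕ} (h : Fam H F N) {κ κ' : Ω → Fin m}
include h

theorem surj (hκ : κ ∈ F) (a : Fin m) : ∃ x, κ x = a := by
  obtain ⟨x, hx⟩ := card_pos.1 ((h.card κ hκ a).symm ▸ h.pos)
  exact ⟨x, (mem_filter.1 hx).2⟩

theorem card_mem (hκ : κ ∈ F) (A : Finset (Fin m)) : (univ.filter fun x => κ x ∈ A).card = A.card * N := by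
  rw [card_eq_sum_card_fiberwise (f := κ) (t := A) (fun x hx => by simpa using hx), ← smul_eq_mul, ← sum_const]
  refine sum_congr rfl fun a ha => (congrArg _ ?_).trans (h.card κ hκ a)
  ext x
  simp only [mem_filter, mem_univ, true_and, and_iff_right_iff_imp]
  exact fun e => e ▸ ha

theorem eq_one (hκ : κ ∈ F) {g : Perm Ω} (hg : g ∈ H) {a : Fin m} (k : ∀ x, κ x = a → g x = x)
    (k' : ∀ x, κ (g x) = κ x) : g = 1 := by
  obtain ⟨v, d⟩ := h.ud κ hκ a g hg k
  exact Equiv.ext fun x => d.2 x ((d.1 x).symm.trans (k' x))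

/-- a common fibre determines the partition -/
theorem uu (hκ : κ ∈ F) (hκ' : κ' ∈ F) {a a' : Fin m} (k : ∀ x, κ x = a → κ' x = a') : Sm κ κ' ∧ Sm κ' κ := by
  have key : ∀ {κ κ' : Ω → Fin m} {a a' : Fin m}, κ ∈ F → κ' ∈ F → (∀ x, κ x = a ↔ κ' x = a') → Sm κ κ' := by
    intro κ κ' a a' hκ hκ' k x y e
    by_contra n
    by_cases ha : κ x = a
    · exact n (((k x).1 ha).trans ((k y).1 (e ▸ ha)).symm)
    obtain ⟨v, v3, v1, v2, v4⟩ := ex3' h.five (p := κ' x) (p' := a') (q := κ' y) (Ne.symm n)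
      fun e' => ha (e ▸ (k y).2 e')
    obtain ⟨u, hu, d⟩ := h.ex κ' hκ' v v3
    obtain ⟨w, d'⟩ := h.ud κ hκ a u hu fun z hz => d.2 z (by rw [(k z).1 hz, v4])
    exact v1 ((d.fix y).1 (d'.2 y (e ▸ (d'.fix x).1 (d.2 x v2))))
  have e : (univ.filter fun x => κ x = a) = univ.filter fun x => κ' x = a' :=
    eq_of_subset_of_card_le (fun x => by simpa using k x) (by rw [h.card κ hκ, h.card κ' hκ'])
  have e' : ∀ x, κ x = a ↔ κ' x = a' := fun x => by simpa using Finset.ext_iff.1 e x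
  exact ⟨key hκ hκ' e', key hκ' hκ fun x => (e' x).symm⟩

theorem symm (hκ : κ ∈ F) (hκ' : κ' ∈ F) (s : Sm κ κ') : Sm κ' κ := by
  obtain ⟨x, -⟩ := h.surj hκ ⟨0, by have := h.five; omega⟩
  exact (h.uu hκ hκ' (a := κ x) (a' := κ' x) fun y => s y x).2

/-- F2 -/
theorem f2 (hκ : κ ∈ F) (hκ' : κ' ∈ F) {u : Perm Ω} (hu : u ∈ H) {v : Perm (Fin m)} (v3 : v.IsThreeCycle)
    (d : Dg κ u v) (s : Sm κ' fun x => κ' (u x)) :
    (∀ x, κ' (u x) = κ' x) ∨ ∃ w : Perm (Fin m), w.IsThreeCycle ∧ Dg κ' u w := by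
  have h5 := h.five
  refine or_iff_not_imp_left.2 fun n => ?_
  obtain ⟨x, n⟩ := not_forall.1 n
  obtain ⟨a, ha⟩ := ex_fix (by omega) v3
  have u3 : ∀ x, u (u (u x)) = x := fun x => Equiv.ext_iff.1 (h.eq_one hκ (mul_mem hu (mul_mem hu hu)) (a := a)
    (fun z hz => by simp only [Perm.mul_apply, d.2 z (by rw [hz, ha])]) fun z => by
      have := Equiv.ext_iff.1 (v3.orderOf ▸ pow_orderOf_eq_one v) (κ z)
      simpa [d.1, pow_succ] using this) x
  have n1 : κ' (u x) ≠ κ' (u (u x)) := fun e => n (by have := s _ _ e; simp only [u3] at this; exact e.trans this)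
  have n2 : κ' x ≠ κ' (u (u x)) := fun e => n (by simpa only [u3] using s _ _ e)
  have c : ({κ' x, κ' (u x), κ' (u (u x))} : Finset _).card = 3 := card_eq_three.2 ⟨_, _, _, Ne.symm n, n2, n1, rfl⟩
  have e : (univ.filter fun y => κ' y ∈ ({κ' x, κ' (u x), κ' (u (u x))} : Finset _)) =
      univ.filter fun y => κ y ∈ v.support := by
    refine eq_of_subset_of_card_le (fun y hy => ?_) (by rw [h.card_mem hκ, h.card_mem hκ', c, v3.card_support])
    simp only [mem_filter, mem_univ, true_and, mem_insert, mem_singleton, Perm.mem_support, Ne, ← d.fix] at hy ⊢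
    intro e
    rcases hy with k | k | k <;> have k' := s _ _ k <;> simp only [e, u3] at k'
    exacts [n (k'.symm.trans k), n1 (k.symm.trans k'), n2 (k'.symm.trans k)]
  have e' : ∀ y, κ' y ∈ ({κ' x, κ' (u x), κ' (u (u x))} : Finset _) ↔ u y ≠ y := fun y => by
    simpa only [mem_filter, mem_univ, true_and, Perm.mem_support, Ne, ← d.fix] using Finset.ext_iff.1 e y
  obtain ⟨b, hb⟩ := exists_notMem (s := {κ' x, κ' (u x), κ' (u (u x))}) (by omega)
  obtain ⟨w, d'⟩ := h.ud κ' hκ' b u hu fun z hz => not_not.1 fun k => hb (hz ▸ (e' z).2 k)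
  refine ⟨w, card_support_eq_three_iff.1 (c ▸ congrArg _ (Finset.ext fun b => ?_)), d'⟩
  obtain ⟨y, rfl⟩ := h.surj hκ' b
  rw [e', Perm.mem_support, Ne, Ne, d'.fix]

theorem cen (hκ : κ ∈ F) {u w : Perm Ω} (hu : u ∈ H) (hw : w ∈ H) {v : Perm (Fin m)} (v3 : v.IsThreeCycle)
    (d : Dg κ w v) (k : ∀ x, κ (u x) = κ x) (x : Ω) : u (w x) = w (u x) := by
  obtain ⟨a, ha⟩ := ex_fix (by have := h.five; omega) v3
  have := h.eq_one hκ (mul_mem (inv_mem (mul_mem hw hu)) (mul_mem hu hw)) (a := a) (fun z hz => by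
    simp only [Perm.mul_apply, Perm.inv_eq_iff_eq, d.2 z (by rw [hz, ha]), d.2 (u z) (by rw [k, hz, ha])]) fun z => by
      refine v.injective ?_
      rw [← k, ← d.1, ← Perm.mul_apply w u, Perm.mul_apply _ (u * w), ← Perm.mul_apply (w * u), mul_inv_cancel,
        Perm.one_apply, Perm.mul_apply, k, d.1]
  exact Equiv.ext_iff.1 (inv_mul_eq_one.1 this).symm x

/-- two three-cycles that overlap in two points -/
theorem two (hκ : κ ∈ F) (hκ' : κ' ∈ F) {u u' : Perm Ω} (hu : u ∈ H) (hu' : u' ∈ H) {v v' w : Perm (Fin m)}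
    (v3 : v.IsThreeCycle) (v3' : v'.IsThreeCycle) (w3 : w.IsThreeCycle) (d : Dg κ u v) (d' : Dg κ u' v')
    (dw : Dg κ' u w) {e : Fin m} (he : ∀ c, v' c ≠ c ∧ v c = c ↔ c = e) (s : Sm κ' fun x => κ' (u' x)) : Sm κ κ' := by
  rcases h.f2 hκ hκ' hu' v3' d' s with k | ⟨w', -, dw'⟩
  · obtain ⟨x, rfl⟩ := h.surj hκ e
    obtain ⟨e1, e2⟩ := (he _).2 rfl
    have := h.cen hκ' hu' hu w3 dw k x
    rw [d.2 x e2, eq_comm, d.fix, d'.1] at this
    exact absurd ((he _).1 ⟨v'.injective.ne e1, this⟩) e1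
  have c : (v.support \ v'.support).card = 1 := by
    rw [card_sdiff_comm (v3.card_support.trans v3'.card_support.symm)]
    exact card_eq_one.2 ⟨e, Finset.ext fun c => by simpa using he c⟩
  obtain ⟨b, hb⟩ := card_eq_one.1 c
  have hb' : ∀ y, u y ≠ y ∧ u' y = y ↔ κ y = b := fun y => by
    simpa [d.fix, d'.fix] using Finset.ext_iff.1 hb (κ y)
  obtain ⟨x, hx⟩ := h.surj hκ b
  refine (h.uu hκ' hκ (a := κ' x) (a' := b) fun y hy => (hb' y).1 ?_).2
  simpa only [Ne, dw.fix, dw'.fix, hy] using (hb' x).2 hx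

/-- the overlap lemma with a new point `e` -/
theorem two' (hκ : κ ∈ F) (hκ' : κ' ∈ F) {u : Perm Ω} (hu : u ∈ H) {v w : Perm (Fin m)} (v3 : v.IsThreeCycle)
    (w3 : w.IsThreeCycle) (d : Dg κ u v) (dw : Dg κ' u w) {b e : Fin m} (hb : v b ≠ b) (he : v e = e) {u' : Perm Ω}
    (hu' : u' ∈ H) (d' : Dg κ u' (c3 b e (v b))) (s : Sm κ' fun x => κ' (u' x)) : Sm κ κ' := by
  have n1 : b ≠ e := fun k => hb (k ▸ he)
  have n2 : e ≠ v b := fun k => n1 (v.injective (k.symm.trans he.symm))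
  refine h.two hκ hκ' hu hu' v3 (c3_three n1 hb.symm n2) w3 d d' dw (e := e) (fun c => ?_) s
  rw [← Perm.mem_support, support_c3 n1 hb.symm n2]
  simp only [mem_insert, mem_singleton]
  exact ⟨by rintro ⟨rfl | rfl | rfl, k⟩; exacts [absurd k hb, rfl, absurd (v.injective k) hb],
    fun k => ⟨.inr (.inl k), k ▸ he⟩⟩

section
variable {ρ : ℕ} (hρ : ∀ κ ∈ F, ∀ κ' ∈ F, ¬ Sm κ κ' → ∀ a b, (univ.filter fun x => κ x = a ∧ κ' x = b).card ≤ ρ)
  (hκ : κ ∈ F) (hκ' : κ' ∈ F) {c c' : Fin m} (hc : ρ ≤ (univ.filter fun x => κ x = c ∧ κ' x = c').card)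
  {x : Ω} (hx : κ x ≠ c) (hx' : κ' x = c')
include hρ hκ hκ' hc hx hx'

theorem xp1 {u : Perm Ω} (hu : u ∈ H) {v : Perm (Fin m)} (d : Dg κ u v) (v1 : v c = c) (v2 : v (κ x) = κ x) :
    Sm κ' fun x => κ' (u x) := by
  by_contra n
  refine (hρ _ hκ' _ (h.smul _ hκ' u hu) n c' c').not_gt (hc.trans_lt (card_lt_card ⟨fun y hy => ?_, fun k => ?_⟩))
  · simp only [mem_filter, mem_univ, true_and] at hy ⊢
    exact ⟨hy.2, by rw [d.2 y (by rw [hy.1, v1]), hy.2]⟩
  · exact hx (mem_filter.1 (k (mem_filter.2 ⟨mem_univ x, hx', by rw [d.2 x v2, hx']⟩))).2.1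

theorem xp2 (h2 : 2 * N ≤ m * ρ) : ∃ u ∈ H, ∃ v w : Perm (Fin m), v.IsThreeCycle ∧ w.IsThreeCycle ∧ Dg κ u v ∧
    Dg κ' u w ∧ v c = c ∧ v (κ x) = κ x := by
  by_contra n
  have k : ∀ b, ρ + 1 ≤ ((univ.filter fun y => κ y ∈ ({c, κ x} : Finset _)).filter fun y => κ' y = b).card := by
    have k0 : ρ + 1 ≤ ((univ.filter fun y => κ y ∈ ({c, κ x} : Finset _)).filter fun y => κ' y = c').card :=
      hc.trans_lt (card_lt_card ⟨fun y => by simp +contextual, fun k => hx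
        (mem_filter.1 (k (mem_filter.2 ⟨mem_filter.2 ⟨mem_univ x, by simp⟩, hx'⟩))).2.1⟩)
    intro b
    by_cases e : c' = b
    · exact e ▸ k0
    obtain ⟨p, hp⟩ := exists_notMem (s := {c', b}) (by have := card_le_two (a := c') (b := b); have := h.five; omega)
    simp only [mem_insert, mem_singleton, not_or] at hp
    obtain ⟨t, t3, t1, -⟩ := ex3 h.five (Ne.symm hp.1) (Ne.symm hp.1) (Ne.symm hp.2) (Ne.symm hp.2) e
    obtain ⟨w, hw, dw⟩ := h.ex κ' hκ' t t3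
    refine k0.trans (card_le_card_of_injOn w (fun y hy => ?_) w.injective.injOn)
    simp only [coe_filter, mem_filter, mem_univ, true_and, Set.mem_ofPred_eq, mem_insert, mem_singleton] at hy ⊢
    refine ⟨by_contra fun e => ?_, by rw [dw.1, hy.2, t1]⟩
    obtain ⟨v, v3, v0, v1, v2⟩ := ex3' h.five (not_or.1 e).1 (not_or.1 e).2
    obtain ⟨u, hu, d⟩ := h.ex κ hκ v v3
    rcases h.f2 hκ hκ' hu v3 d (h.xp1 hρ hκ hκ' hc hx hx' hu d v1 v2) with k | ⟨w', w3, d'⟩
    · refine v0 ((d.fix _).1 ((h.cen hκ' hu hw t3 dw k y).trans (congrArg _ (d.2 y ?_))))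
      rcases hy.1 with k | k <;> rwa [k]
    · exact n ⟨u, hu, v, w', v3, w3, d, d', v1, v2⟩
  have e := h.card_mem hκ {c, κ x}
  rw [card_pair hx.symm, card_eq_sum_card_fiberwise (f := κ') (t := univ) fun _ _ => by simp] at e
  have := card_nsmul_le_sum univ _ _ fun b _ => k b
  simp only [e, card_univ, Fintype.card_fin, smul_eq_mul, mul_add] at this
  have := h.five
  omega

end

/-- every three-cycle stabilises every partition of the family -/
theorem stab (hκ : κ ∈ F) (hκ' : κ' ∈ F) {u : Perm Ω} (hu : u ∈ H) {v : Perm (Fin m)} (v3 : v.IsThreeCycle)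
    (d : Dg κ u v) : Sm κ' fun x => κ' (u x) := by
  classical
  by_contra n
  have h5 := h.five
  let P : ℕ → Prop := fun r => ∃ κ ∈ F, ∃ κ' ∈ F, ¬ Sm κ κ' ∧ ∃ a b, r ≤ (univ.filter fun x => κ x = a ∧ κ' x = b).card
  have hρ : ∀ κ ∈ F, ∀ κ' ∈ F, ¬ Sm κ κ' → ∀ a b, (univ.filter fun x => κ x = a ∧ κ' x = b).card ≤
      Nat.findGreatest P (Fintype.card Ω) := fun κ hκ κ' hκ' n a b =>
    Nat.le_findGreatest (card_le_univ _) ⟨κ, hκ, κ', hκ', n, a, b, le_rfl⟩
  have hP : P (Nat.findGreatest P (Fintype.card Ω)) := Nat.findGreatest_spec (Nat.zero_le _)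
    ⟨_, hκ', _, h.smul _ hκ' u hu, n, ⟨0, by omega⟩, ⟨0, by omega⟩, Nat.zero_le _⟩
  generalize Nat.findGreatest P (Fintype.card Ω) = ρ at hρ hP
  have h2 : 2 * N ≤ m * ρ := by
    have e := h.card_mem hκ v.supportᶜ
    rw [card_compl, v3.card_support, Fintype.card_fin,
      card_eq_sum_card_fiberwise (f := κ') (t := univ) fun _ _ => by simp] at e
    have := sum_le_card_nsmul univ _ ρ fun b _ => (card_le_card (s := (univ.filter fun y => κ y ∈ v.supportᶜ).filter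
      fun y => κ' y = b) fun y hy => by
        simp only [mem_filter, mem_univ, true_and, mem_compl, Perm.notMem_support] at hy ⊢
        exact ⟨hy.2, by rw [d.2 y hy.1, hy.2]⟩).trans (hρ _ hκ' _ (h.smul _ hκ' u hu) n b b)
    simp only [e, card_univ, Fintype.card_fin, smul_eq_mul] at this
    exact (Nat.mul_le_mul_right N (by omega)).trans this
  clear n d v3 hu hκ hκ' u v
  obtain ⟨κ, hκ, κ', hκ', n, c, c', hc⟩ := hP
  have ex : ∀ {κ κ' : Ω → Fin m}, κ ∈ F → κ' ∈ F → ¬ Sm κ κ' → ∀ c c', ∃ x, κ x ≠ c ∧ κ' x = c' :=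
    fun hκ hκ' n c c' => by
      by_contra! k
      exact n (h.uu hκ' hκ (a := c') (a' := c) fun y hy => by_contra fun e => k y e hy).2
  obtain ⟨x, hx, hx'⟩ := ex hκ hκ' n c c'
  obtain ⟨u, hu, v, w, v3, w3, d, dw, v1, v2⟩ := h.xp2 hρ hκ hκ' hc hx hx' h2
  obtain ⟨b, hb⟩ := card_pos.1 (v3.card_support ▸ by omega : 0 < v.support.card)
  rw [Perm.mem_support] at hb
  have fx : ∀ {e a}, v a = a → a ≠ e → c3 b e (v b) a = a := fun {e a} k n =>
    c3_ne (fun e => hb (e ▸ k)) n fun e => hb (v.injective (e ▸ k))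
  have c3' : ∀ {e}, v e = e → (c3 b e (v b)).IsThreeCycle := fun {e} k =>
    c3_three (fun e => hb (e ▸ k)) hb.symm fun e => hb (v.injective (e ▸ k))
  by_cases h6 : 6 ≤ m
  · obtain ⟨e, he⟩ := exists_notMem (s := insert c (insert (κ x) v.support)) (by
      have := card_insert_le c (insert (κ x) v.support); have := card_insert_le (κ x) v.support
      have := v3.card_support; omega)
    simp only [mem_insert, not_or, Perm.notMem_support] at he
    obtain ⟨u', hu', d'⟩ := h.ex κ hκ _ (c3' he.2.2)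
    exact n (h.two' hκ hκ' hu v3 w3 d dw hb he.2.2 hu' d'
      (h.xp1 hρ hκ hκ' hc hx hx' hu' d' (fx v1 (Ne.symm he.1)) (fx v2 (Ne.symm he.2.1))))
  have fix2 : ∀ {s : Perm (Fin m)}, s.IsThreeCycle → ∀ {p q}, s p = p → s q = q → p ≠ q → ∀ r, s r = r → r = p ∨ r = q :=
    fun {s} s3 p q hp hq n r hr => by
      have : ({p, q} : Finset _) = s.supportᶜ := eq_of_subset_of_card_le (by simp [insert_subset_iff, hp, hq])
        (by rw [card_compl, s3.card_support, card_pair n, Fintype.card_fin]; omega)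
      simpa [hr] using Finset.ext_iff.1 this r
  obtain ⟨u', hu', d'⟩ := h.ex κ hκ _ (c3' v2)
  have n' : ¬ Sm κ' fun x => κ' (u' x) := fun s => n (h.two' hκ hκ' hu v3 w3 d dw hb v2 hu' d' s)
  have hκ'' := h.smul _ hκ' u' hu'
  have hc' : ρ ≤ (univ.filter fun x => κ' x = c' ∧ κ' (u' x) = c').card := hc.trans (card_le_card fun y hy => by
    simp only [mem_filter, mem_univ, true_and] at hy ⊢
    exact ⟨hy.2, by rw [d'.2 y (by rw [hy.1, fx v1 hx.symm]), hy.2]⟩)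
  obtain ⟨x', hy, hy'⟩ := ex hκ' hκ'' n' c' c'
  obtain ⟨t, -, s, s', s3, s3', ds, ds', s1, -⟩ := h.xp2 hρ hκ' hκ'' hc' hy hy' h2
  have s1' : s' c' = c' := by
    obtain ⟨z, hz⟩ := card_pos.1 (lt_of_lt_of_le (Nat.pos_of_ne_zero fun e => by
      have := h.pos; rw [e] at h2; omega) hc')
    rw [← (mem_filter.1 hz).2.2]
    exact (ds'.fix z).1 (ds.2 z (by rw [(mem_filter.1 hz).2.1, s1]))
  have w1 : w c' = c' := hx' ▸ (dw.fix x).1 (d.2 x v2)
  have nb : b ≠ κ x := fun e => hb (e ▸ v2)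
  have nb' : κ x ≠ v b := fun e => hb (v.injective (e ▸ v2))
  obtain ⟨y, rfl⟩ := u'.surjective x
  have yb : κ y = b := (c3 b (κ (u' y)) (v b)).injective (by rw [← d'.1, c3_a nb nb'])
  have e1 : u y = u' (u' y) := by
    obtain ⟨r, dr⟩ := h.ud κ hκ c _ (mul_mem (inv_mem hu) (mul_mem hu' hu')) fun z hz => by
      simp only [Perm.mul_apply, Perm.inv_eq_iff_eq, d'.2 z (by rw [hz, fx v1 hx.symm]), d.2 z (by rw [hz, v1])]
    have : κ ((u⁻¹ * (u' * u')) y) = κ y := v.injective (by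
      rw [← d.1, ← Perm.mul_apply, mul_inv_cancel_left, Perm.mul_apply, d'.1, c3_b, yb])
    exact (Perm.inv_eq_iff_eq.1 (dr.2 y ((dr.1 y).symm.trans this))).symm
  have wy : w (κ' y) ≠ κ' y := fun e => hb (yb ▸ (d.fix y).1 (dw.2 y e))
  have z1 : κ' y ≠ c' := fun e => wy (by rw [e, w1])
  have z2 : w (κ' y) ≠ c' := fun e => z1 (w.injective (e.trans w1.symm))
  have f1 := fix2 s3 s1 ((ds.fix y).1 (ds'.2 y (by simp only [hx', s1']))) z1.symm
  have f2 := fix2 s3' s1' (q := w (κ' y)) (by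
    simpa only [← e1, dw.1] using (ds'.fix _).1 (ds.2 (u' y) (by rw [hx', s1]))) z2.symm
  have vv : v (v (v b)) = b := by
    have := Equiv.ext_iff.1 (v3.orderOf ▸ pow_orderOf_eq_one v) b
    simpa [pow_succ] using this
  have u3 : ∀ z, κ z = v (v b) → u' z = z := fun z hz => d'.2 z (hz ▸ c3_ne (fun e => hb (by rw [← e, vv]; exact e.symm))
    (fun e => nb (by rw [← vv, e, v2])) (v.injective.ne hb))
  refine n (h.uu hκ' hκ (a := κ' y) (a' := b) fun z hz => ?_).2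
  have mz : κ z ∈ v.support := Perm.mem_support.2 fun e => wy (hz ▸ (dw.fix z).1 (d.2 z e))
  have sv : ({b, v b, v (v b)} : Finset _) = v.support := eq_of_subset_of_card_le
    (by simp [insert_subset_iff, hb]) (by
      rw [v3.card_support, card_eq_three.2 ⟨_, _, _, hb.symm, fun e => hb (by rw [e, vv]; exact e), (v.injective.ne hb).symm, rfl⟩])
  rw [← sv, mem_insert, mem_insert, mem_singleton] at mz
  rcases mz with k | k | k
  · exact k
  · have k1 := u3 (u z) (by rw [d.1, k])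
    have k2 := (ds.fix _).1 (ds'.2 (u z) (by
      simpa only [k1, dw.1, hz, ← e1] using (ds'.fix _).1 (ds.2 (u' y) (by rw [hx', s1]))))
    rw [dw.1, hz] at k2
    exact ((f1 _ k2).elim z2 wy).elim
  · have k2 := (ds'.fix _).1 (ds.2 z (hz ▸ (ds.fix y).1 (ds'.2 y (by simp only [hx', s1']))))
    simp only [u3 z k, hz] at k2
    exact ((f2 _ k2).elim z1 wy.symm).elim

end Fam

theorem eg : EG := fun _ _ _ _ _ _ _ h κ hκ κ' hκ' => by
  refine or_iff_not_imp_right.2 fun n => ?_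
  push Not at n
  obtain ⟨u, hu, v, v3, d, x, n⟩ := n
  obtain ⟨w, w3, dw⟩ := (h.f2 hκ hκ' hu v3 d (h.stab hκ hκ' hu v3 d)).resolve_left fun k => n (k x)
  obtain ⟨b, hb⟩ := card_pos.1 (v3.card_support ▸ by omega : 0 < v.support.card)
  rw [Perm.mem_support] at hb
  obtain ⟨e, he⟩ := ex_fix (by have := h.five; omega) v3
  have c3' := c3_three (fun k : b = e => hb (k ▸ he)) hb.symm fun k => hb (v.injective (k ▸ he))
  obtain ⟨u', hu', d'⟩ := h.ex κ hκ _ c3'
  exact h.two' hκ hκ' hu v3 w3 d dw hb he hu' d' (h.stab hκ hκ' hu' c3' d')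

end CL.PW
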