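/-
Project PW (S5767): the Jordan case, a hyperplane is not a block.
-/
import Cfsg.Agent.Perm.PW1

set_option autoImplicit false
set_option linter.unusedSectionVars false

namespace CL.PW

open Equiv Equiv.Perm Function CL.Perm

variable {ι : Type} [Fintype ι] [DecidableEq ι] {m : ℕ} {H : Subgroup (Perm (ι → Fin m))}

namespace NAx

/-- the elements fixing the complement of the slab `S` pointwise and the hyperplane `a` setwise -/
def R (H : Subgroup (Perm (ι → Fin m))) (i : ι) (S : Finset (Fin m)) (a : Fin m) : Subgroup (Perm (ι → Fin m)) where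
  carrier := {g | g ∈ H ∧ (∀ f, f i ∉ S → g f = f) ∧ ∀ x, g x i = a ↔ x i = a}
  one_mem' := ⟨one_mem _, fun _ _ => rfl, fun _ => Iff.rfl⟩
  mul_mem' := fun {g k} hg hk => ⟨mul_mem hg.1 hk.1, fun f hf => by rw [Perm.mul_apply, hk.2.1 f hf, hg.2.1 f hf],
    fun x => (hg.2.2 _).trans (hk.2.2 x)⟩
  inv_mem' := fun {g} hg => ⟨inv_mem hg.1, fun f hf => by rw [Perm.inv_eq_iff_eq, hg.2.1 f hf],
    fun x => by simpa using (hg.2.2 (g⁻¹ x)).symm⟩

theorem cut (h : Ov H) {i : ι} {S : Finset (Fin m)} {a d e : Fin m} (ha : a ∈ S) (hd : d ∉ S) (he : e ∉ S) (n : d ≠ e)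
    {r : Perm (ι → Fin m)} (hr : r ∈ R H i S a) : ∃ g ∈ H, (∀ x, x i = a → g x = r x) ∧ (∀ x, g x i = a ↔ x i = a) ∧
      ∀ x, x i ≠ a → x i ≠ e → g x = x := by
  have da : d ≠ a := fun k => hd (k ▸ ha)
  have ea : e ≠ a := fun k => he (k ▸ ha)
  have hr' := inv_mem hr
  set y := co i (c3 d e a) with hy
  have yH : y ∈ H := h.co i (sign_c3 n da)
  have app : ∀ x, r⁻¹ (y (r x)) = y (r x) → (y⁻¹ * r⁻¹ * y * r) x = r x := fun x k => by
    rw [Perm.mul_apply, Perm.mul_apply, Perm.mul_apply, k]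
    simp
  have k1 : ∀ x, x i = a → (y⁻¹ * r⁻¹ * y * r) x = r x := fun x k =>
    app x (hr'.2.1 _ (by rwa [hy, co_same, (hr.2.2 x).2 k, c3_c da ea]))
  have k3 : ∀ x, x i ≠ a → x i ≠ e → (y⁻¹ * r⁻¹ * y * r) x = x := fun x n1 n2 => by
    by_cases k : x i = d
    · have := hr.2.1 x (k ▸ hd)
      rw [app x (hr'.2.1 _ (by rwa [hy, co_same, this, k, c3_a n ea])), this]
    · have f : ∀ c ∉ S, x i ≠ c → r x i ≠ c := fun c hc n3 k' => n3 (r.injective (hr.2.1 _ (k' ▸ hc)) ▸ k')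
      have y1 : y (r x) = r x := co_fix.2 (c3_ne (f d hd k) (f e he n2) (mt (hr.2.2 x).1 n1))
      have y2 : y x = x := co_fix.2 (c3_ne k n2 n1)
      simp only [Perm.mul_apply, y1, Perm.inv_def, symm_apply_apply, symm_apply_eq, y2]
  refine ⟨_, mul_mem (mul_mem (mul_mem (inv_mem yH) hr'.1) yH) hr.1, k1, fun x => ⟨fun k => by_contra fun n1 => ?_,
    fun k => by rw [k1 x k, (hr.2.2 x).2 k]⟩, k3⟩
  by_cases n2 : x i = e
  · have k4 : y ((y⁻¹ * r⁻¹ * y * r) x) i = a := by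
      simp only [Perm.mul_apply, Perm.inv_def, apply_symm_apply]
      refine (hr'.2.2 _).2 ?_
      rw [hr.2.1 x (n2 ▸ he), hy, co_same, n2, c3_b]
    rw [hy, co_same, ← hy, k, c3_c da ea] at k4
    exact da k4
  · exact n1 (k3 x n1 n2 ▸ k)

end NAx

theorem na (hL : Lg) : NA := by
  intro ι _ _ m H h hJ i T a hT ha hB
  have h5 := h.five
  have := h.nt
  obtain ⟨d, hdT, da⟩ := Finset.exists_mem_ne (by omega : 1 < T.card) a
  obtain ⟨e, heT⟩ := exists_notMem (s := T) (by omega)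
  have hS : (T.erase d).card = 3 := by rw [Finset.card_erase_of_mem hdT, hT]
  have aS : a ∈ T.erase d := Finset.mem_erase.2 ⟨da.symm, ha⟩
  have dS : d ∉ T.erase d := Finset.notMem_erase d T
  have eS : e ∉ T.erase d := fun k => heT (Finset.mem_of_mem_erase k)
  have de : d ≠ e := fun k => heT (k ▸ hdT)
  have ea : e ≠ a := fun k => heT (k ▸ ha)
  have tr : ∀ x y : ι → Fin m, x i = a → y i = a → ∃ r ∈ NAx.R H i (T.erase d) a, r x = y := fun x y hx hy => by
    obtain ⟨⟨g, hg⟩, k, e⟩ := hJ i _ hS x y (by simpa [hx] using aS) (by simpa [hy] using aS)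
    change g x = y at e
    have k' : ∀ f, f i ∉ T → g f = f := fun f hf => k f fun n => hf (Finset.mem_of_mem_erase n)
    refine ⟨g, ⟨hg, k, fun w => ⟨fun hw => ?_, fun hw => hB g hg k' x w hx hw (e ▸ hy)⟩⟩, e⟩
    simpa using hB g⁻¹ (inv_mem hg) (fun f hf => by rw [Perm.inv_eq_iff_eq, k' f hf]) y (g w) hy hw (by simpa [← e] using hx)
  obtain ⟨j, ji⟩ := exists_ne i
  obtain ⟨r, hr, r', hr', n⟩ : ∃ r ∈ NAx.R H i (T.erase d) a, ∃ r' ∈ NAx.R H i (T.erase d) a,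
      r (r' fun _ => a) j ≠ r' (r fun _ => a) j := by
    by_contra! k
    obtain ⟨r, hr, e⟩ := tr (fun _ => a) (update (fun _ => a) j d) rfl (by simp [ji.symm])
    refine da (Eq.trans (by simp [e]) (hL ι m h5 (NAx.R H i (T.erase d) a) j (fun _ => a) (fun τ t r hr => ⟨mul_mem (mul_mem (h.toOv.co j t) hr.1)
      (inv_mem (h.toOv.co j t)), fun f hf => ?_, fun x => ?_⟩) k r hr))
    · rw [Perm.mul_apply, Perm.mul_apply, hr.2.1 _ (by rwa [← map_inv, co_ne ji.symm])]; simp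
    · rw [Perm.mul_apply, Perm.mul_apply, co_ne ji.symm, hr.2.2, ← map_inv, co_ne ji.symm]
  obtain ⟨g, gH, g1, g2, g3⟩ := NAx.cut h.toOv aS dS eS de hr
  obtain ⟨k, kH, k1, k2, k3⟩ := NAx.cut h.toOv aS eS dS de.symm hr'
  have w : ∀ x : ι → Fin m, x i ∉ ({a} : Finset (Fin m)) → ((k * g)⁻¹ * (g * k)) x = x := fun x hx => by
    rw [Finset.mem_singleton] at hx
    rw [Perm.mul_apply, Perm.inv_eq_iff_eq, Perm.mul_apply, Perm.mul_apply]
    by_cases n1 : x i = e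
    · rw [k3 x hx (n1 ▸ de.symm), k3 _ (mt (g2 x).1 hx) fun n2 =>
        de (n2.symm.trans ((g.injective (g3 _ (n2 ▸ da) (n2 ▸ de))).symm ▸ n1))]
    · rw [g3 x hx n1, g3 _ (mt (k2 x).1 hx) fun n2 => n1 (k.injective (k3 _ (n2 ▸ ea) (n2 ▸ de.symm)) ▸ n2)]
  rcases h.toOv.dl' (by omega) i (T := {a}) (.inr (by simp)) with c | c
  · refine h.nA (_root_.IsMultiplyPretransitive.alternatingGroup_le (α := ι → Fin m) H ?_)
    have c1 : {f : ι → Fin m | f i ∉ ({a} : Finset (Fin m))}.ncard = (m - 1) * m ^ (Fintype.card ι - 1) := by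
      have := card_slab i ({a}ᶜ : Finset (Fin m))
      rw [Finset.card_compl, Finset.card_singleton, Fintype.card_fin] at this
      rw [← this, ← Set.ncard_coe_finset]
      congr 1
      ext f; simp
    have c2 : m ≤ m ^ (Fintype.card ι - 1) := Nat.le_self_pow (by have := h.two_le; omega) m
    obtain ⟨l, rfl⟩ : ∃ l, m = l + 1 := ⟨m - 1, by omega⟩
    refine c.marggraff h.prim ?_ ?_ <;> rw [c1, Nat.card_eq_fintype_card, card_Om, Nat.add_sub_cancel] <;> nlinarith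
  · have e1 := c _ (mul_mem (inv_mem (mul_mem kH gH)) (mul_mem gH kH)) w fun _ => a
    have e2 : ((k * g)⁻¹ * (g * k)) (fun _ => a) i = a := by
      rw [← g2, ← k2, ← Perm.mul_apply, ← Perm.mul_apply, mul_inv_cancel_left, Perm.mul_apply, g2, k2]
    have e3 := ext_res e2 e1
    rw [Perm.mul_apply, Perm.inv_eq_iff_eq, Perm.mul_apply, Perm.mul_apply, k1 _ rfl, g1 (fun _ => a) rfl,
      g1 _ ((hr'.2.2 _).2 rfl), k1 _ ((hr.2.2 _).2 rfl)] at e3
    exact n (congrFun e3 j)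

end CL.PW
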