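/-
Project PW (S5767): the Jordan case in which a hyperplane is not a block.
-/
import Cfsg.Agent.Perm.PW1

set_option autoImplicit false
set_option linter.unusedSectionVars false

namespace CL.PW

open Equiv Equiv.Perm Function CL.Perm
open scoped Pointwise

variable {ι : Type} [Fintype ι] [DecidableEq ι] {m : ℕ}

theorem ncard_slab (i : ι) (S : Finset (Fin m)) :
    {f : ι → Fin m | f i ∉ S}.ncard = (m - S.card) * m ^ (Fintype.card ι - 1) := by
  rw [show m - S.card = Sᶜ.card by simp [Finset.card_compl], ← card_slab i, ← Set.ncard_coe_finset]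
  congr 1
  ext f; simp

/-- if the hyperplane is not a block then its points are separated -/
theorem Ov.sep {H : Subgroup (Perm (ι → Fin m))} (h : Ov H) (hm : 4 ≤ m) {i : ι} {T : Finset (Fin m)} {a : Fin m}
    (hZ : JC H {f : ι → Fin m | f i ∉ T}) (ha : a ∈ T) (hn : ¬ BK H i T a) {x y : ι → Fin m} (hx : x i = a)
    (ne : x ≠ y) : ∃ g ∈ H, (∀ f, f i ∉ T → g f = f) ∧ g x i = a ∧ g y i ≠ a := by
  by_contra! k
  have hy : y i = a := k 1 (one_mem _) (fun _ _ => rfl) hx
  obtain ⟨⟨t, ht⟩, t1, t2⟩ := hZ x y (by simpa [hx] using ha) (by simpa [hy] using ha)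
  let A : (ι → Fin m) → Set (Perm (ι → Fin m)) := fun x => {g | g ∈ H ∧ (∀ f, f i ∉ T → g f = f) ∧ g x i = a}
  have e : A x = A y := Set.eq_of_subset_of_ncard_le (fun g hg => ⟨hg.1, hg.2.1, k g hg.1 hg.2.1 hg.2.2⟩)
    (Set.ncard_le_ncard_of_injOn (· * t) (fun g hg => ⟨mul_mem hg.1 ht, fun f hf => (congrArg g (t1 f hf)).trans
      (hg.2.1 f hf), (congrFun (congrArg g t2) i).trans hg.2.2⟩) (mul_left_injective t).injOn)
  have d := h.dl hm i (R := fun x y => A x = A y) ⟨fun _ => rfl, Eq.symm, Eq.trans⟩ (fun σ hσ b c r => by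
    have q : ∀ {b c}, A b = A c → A (lift i σ b) ⊆ A (lift i σ c) := fun r g hg => ⟨hg.1, hg.2.1, by
      have := (r.le (⟨mul_mem (mul_mem (inv_mem hσ) hg.1) hσ, fun f hf => by
        rw [Perm.mul_apply, Perm.mul_apply, hg.2.1 _ (by rwa [lift_same])]; simp, by
        rw [Perm.mul_apply, Perm.mul_apply, ← map_inv, lift_same]; exact hg.2.2⟩ :
          (lift i σ)⁻¹ * g * lift i σ ∈ A _)).2.2
      rwa [Perm.mul_apply, Perm.mul_apply, ← map_inv, lift_same] at this⟩
    exact (q r).antisymm (q r.symm)) e fun r => ne (ext_res (hx.trans hy.symm) r)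
  exact hn fun g hg g1 b c hb hc g2 =>
    (((d b (hb.trans hy.symm)).symm.trans (d c (hc.trans hy.symm))).le (⟨hg, g1, g2⟩ : g ∈ A b)).2.2

theorem nb (hS : ST) : NB := by
  intro ι _ _ m H h j3 i T a hT ha
  by_contra hn
  have h5 := h.five
  have := h.nt
  have hN : m ≤ m ^ (Fintype.card ι - 1) := Nat.le_self_pow (by have := h.two_le; omega) m
  have n1 := card_Om (ι := ι) (m := m)
  have n2 := ncard_slab i T
  have n3 := ncard_slab i (T.erase a)
  have c3' : ∀ a ∈ T, (T.erase a).card = 3 := fun a ha => by rw [Finset.card_erase_of_mem ha, hT]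
  obtain ⟨b, c, d, bc, bd, cd, e⟩ := Finset.card_eq_three.1 (c3' a ha)
  have n4 : (co i (c3 b c d)).support.card = 3 * m ^ (Fintype.card ι - 1) := by
    rw [support_co, support_c3 bc bd cd, card_slab, ← e, c3' a ha]
  rw [hT] at n2
  rw [c3' a ha] at n3
  generalize m ^ (Fintype.card ι - 1) = N at hN n1 n2 n3 n4
  obtain ⟨k, rfl⟩ : ∃ k, m = k + 4 := ⟨m - 4, by omega⟩
  rw [Nat.add_sub_cancel] at n2
  rw [show k + 4 - 3 = k + 1 by omega] at n3
  have jU := j3 i _ (c3' a ha)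
  have h6 : k ≤ 2 := by
    by_contra h7
    exact h.nA (IsMultiplyPretransitive.alternatingGroup_le _ H (JC.marggraff h.prim jU
      (by rw [n3, Nat.card_eq_fintype_card, n1]; nlinarith) (by rw [n3, Nat.card_eq_fintype_card, n1]; nlinarith)))
  have hb := Finset.mem_erase.1 (e.ge (by simp) : b ∈ T.erase a)
  have hc := Finset.mem_erase.1 (e.ge (by simp) : c ∈ T.erase a)
  have jZ : JC H {f : ι → Fin (k + 4) | f i ∉ T} := by
    convert jU.inter (j3 i _ (c3' b hb.2)) (c := fun _ => c) (by simp [hc]) (by simp [hc, bc.symm]) using 1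
    ext f
    by_cases e : f i = a <;> simp [e, ha, hb.1.symm]
    tauto
  obtain ⟨p, hp⟩ : ∃ p : ι → Fin (k + 4), p i = a := ⟨fun _ => a, rfl⟩
  have sub : insert p {f : ι → Fin (k + 4) | f i ∉ T} ⊆ {f | f i ∉ T.erase a} := by
    rintro f (rfl | hf)
    exacts [by simp [hp], fun k => hf (Finset.mem_of_mem_erase k)]
  obtain ⟨C, ⟨jC, c1, c2⟩, hC⟩ := Set.exists_min_image {C | JC H C ∧ insert p {f : ι → Fin (k + 4) | f i ∉ T} ⊆ C ∧
    C ⊆ {f | f i ∉ T.erase a}} Set.ncard (Set.toFinite _) ⟨_, jU, sub, le_rfl⟩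
  have jP : JC H (insert p {f : ι → Fin (k + 4) | f i ∉ T}) := by
    refine c1.antisymm (fun y hy => by_contra fun hy' => ?_) ▸ jC
    obtain ⟨g, hg, g1, g2, g3⟩ := h.toOv.sep (by omega) jZ ha hn hp fun e => hy' (.inl e.symm)
    have s1 : insert p {f : ι → Fin (k + 4) | f i ∉ T} ⊆ C ∩ (⟨g, hg⟩ : H)⁻¹ • {f | f i ∉ T.erase a} :=
      Set.subset_inter c1 (by
        rintro f (rfl | hf) <;> rw [Set.mem_inv_smul_set_iff]
        exacts [fun k => (Finset.mem_erase.1 k).1 g2, fun k => hf (g1 f hf ▸ Finset.mem_of_mem_erase k)])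
    refine (hC _ ⟨jC.inter_of_card (jU.smul _) ?_, s1, Set.inter_subset_left.trans c2⟩).not_gt
      (Set.ncard_lt_ncard ⟨Set.inter_subset_left, fun k => hy' (.inr fun k' => ?_)⟩)
    · have := Set.ncard_le_ncard c2
      have := (Set.ncard_pos (Set.toFinite _)).2 ⟨p, s1 (.inl rfl)⟩
      rw [Set.ncard_smul_set, n3, Nat.card_eq_fintype_card, n1] at *
      nlinarith
    · have k1 : g y i ∉ T := fun k2 => Set.mem_inv_smul_set_iff.1 (k hy).2 (Finset.mem_erase.2 ⟨g3, k2⟩)
      exact k1 ((g.injective (g1 _ k1)).symm ▸ k')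
  obtain ⟨s, s1, s2, s3, s4⟩ := hS _ H _ _ p (fun a b _ _ => let ⟨g, hg, e⟩ := h.toOv.trans (by omega) a b
    ⟨⟨g, hg⟩, by simp, e⟩) jZ (by simpa [hp] using ha) jP jU (by rw [n2, n3]; nlinarith) (by rw [n3, n1]; nlinarith)
  rw [n2] at s1
  rw [n3] at s2 s4
  rw [n1] at s4
  have s5 : 3 * N < 2 * s := by
    obtain rfl | rfl : k = 1 ∨ k = 2 := by omega
    · by_contra s5
      obtain ⟨y, hy⟩ : ∃ y, (1 + 1) * N - s = y + 3 := ⟨(1 + 1) * N - s - 3, by omega⟩
      obtain ⟨x, rfl⟩ : ∃ x, s = N + x := ⟨s - N, by omega⟩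
      rw [hy] at s4
      obtain rfl : N = x + y + 3 := by omega
      rcases s4 with s4 | s4
      · nlinarith
      · omega
    · omega
  exact h.nA (Cfsg.Agent.S0711.result H (k := s + 1) (by omega) (by rw [n1]; nlinarith) s3 _
    (h.toOv.co i (sign_c3 bc bd)) (fun e => (c3_three bc bd cd).ne_one (co_inj i (e.trans (map_one _).symm)))
    (by omega)).2

end CL.PW
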