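/-
Project PW (S5767): Steiner systems from Jordan complements, with the bound of Tits.
-/
import Cfsg.Agent.Perm.PW1

set_option autoImplicit false

namespace CL.PW

open Equiv CL.Perm Finset MulAction
open scoped Pointwise

namespace STx

variable {Ω : Type} [DecidableEq Ω]

/-- The bound of Tits for a Steiner system given by a closure operator on the `k`-sets. -/
theorem tits {cl : Finset Ω → Finset Ω} {k c : ℕ} (hE : ∀ A, #A = k → A ⊆ cl A) (hC : ∀ A, #A = k → #(cl A) = c)
    (hS : ∀ A A', #A = k → #A' = k → A' ⊆ cl A → cl A' = cl A) {V T : Finset Ω}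
    (hV : ∀ A ⊆ V, #A = k → cl A ⊆ V) (hT : #T = k) (hTV : T ⊆ V) {q : Ω} (hq : q ∈ V) (hq' : q ∉ cl T) :
    c + 1 + k * (c - k) ≤ #V := by
  have hqT : q ∉ T := fun e => hq' (hE T hT e)
  have h1 : ∀ t ∈ T, ∀ z, z ∉ T.erase t → #(insert z (T.erase t)) = k := fun t ht z hz => by
    rw [card_insert_of_notMem hz, card_erase_add_one ht, hT]
  have h2 : ∀ t ∈ T, #(insert q (T.erase t)) = k := fun t ht => h1 t ht q fun e => hqT (mem_of_mem_erase e)
  have h3 : ∀ t ∈ T, cl (insert q (T.erase t)) ≠ cl T := fun t ht e =>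
    hq' (e ▸ hE _ (h2 t ht) (mem_insert_self _ _))
  have h4 : Disjoint (insert q (cl T)) (T.biUnion fun t => cl (insert q (T.erase t)) \ insert q (T.erase t)) := by
    rw [disjoint_biUnion_right]
    refine fun t ht => disjoint_right.2 fun z hz hz' => ?_
    obtain ⟨z1, z2⟩ := mem_sdiff.1 hz
    have z3 := h1 t ht z fun e => z2 (mem_insert_of_mem e)
    rcases mem_insert.1 hz' with rfl | z4
    · exact z2 (mem_insert_self _ _)
    · exact h3 t ht ((hS _ _ (h2 t ht) z3 (insert_subset z1 ((subset_insert _ _).trans (hE _ (h2 t ht))))).symm.trans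
        (hS _ _ hT z3 (insert_subset z4 ((erase_subset _ _).trans (hE T hT)))))
  have h5 : (T : Set Ω).PairwiseDisjoint fun t => cl (insert q (T.erase t)) \ insert q (T.erase t) :=
    fun t ht t' ht' n => disjoint_left.2 fun z hz hz' => by
      obtain ⟨z1, z2⟩ := mem_sdiff.1 hz
      have s1 : insert q ((T.erase t).erase t') ⊆ insert q (T.erase t) := insert_subset_insert _ (erase_subset _ _)
      have s2 : insert q ((T.erase t).erase t') ⊆ insert q (T.erase t') :=
        insert_subset_insert _ (erase_subset_erase _ (erase_subset _ _))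
      have z3 : #(insert z (insert q ((T.erase t).erase t'))) = k := by
        rw [card_insert_of_notMem fun e => z2 (s1 e), card_insert_of_notMem fun e =>
          hqT (mem_of_mem_erase (mem_of_mem_erase e)), card_erase_add_one (mem_erase.2 ⟨n.symm, ht'⟩),
          card_erase_add_one ht, hT]
      have e := (hS _ _ (h2 t ht) z3 (insert_subset z1 (s1.trans (hE _ (h2 t ht))))).symm.trans
        (hS _ _ (h2 t' ht') z3 (insert_subset (mem_sdiff.1 hz').1 (s2.trans (hE _ (h2 t' ht')))))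
      refine h3 t ht (hS _ _ (h2 t ht) hT fun x hx => ?_).symm
      by_cases hx' : x = t
      · exact e ▸ hE _ (h2 t' ht') (mem_insert_of_mem (mem_erase.2 ⟨hx' ▸ n, hx⟩))
      · exact hE _ (h2 t ht) (mem_insert_of_mem (mem_erase.2 ⟨hx', hx⟩))
  have h6 := card_le_card (union_subset (insert_subset hq (hV T hTV hT)) (biUnion_subset.2 fun t ht =>
    (sdiff_subset (t := insert q (T.erase t))).trans
      (hV _ (insert_subset hq ((erase_subset _ _).trans hTV)) (h2 t ht))))
  rwa [card_union_of_disjoint h4, card_insert_of_notMem hq', hC T hT, card_biUnion h5,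
    sum_congr rfl fun t ht => by rw [card_sdiff_of_subset (hE _ (h2 t ht)), hC _ (h2 t ht), h2 t ht], sum_const, hT,
    smul_eq_mul] at h6

variable {G : Type*} [Group G] [MulAction G Ω]

theorem conj {k : ℕ} (h : IsMultiplyPretransitive G Ω k) {A B : Finset Ω} (hA : #A = k) (hB : #B = k) :
    ∃ g : G, g • A = B := by
  obtain ⟨g, hg⟩ := (Set.powersetCard.isPretransitive_of_isMultiplyPretransitive G h).exists_smul_eq
    (⟨A, hA⟩ : Set.powersetCard Ω k) ⟨B, hB⟩
  exact ⟨g, congrArg Subtype.val hg⟩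

theorem jc_smul {A : Finset Ω} (h : JC G (A : Set Ω)) (g : G) : JC G ((g • A : Finset Ω) : Set Ω) := by
  rw [coe_smul_finset]; exact h.smul g

theorem main [Fintype Ω] {X U : Finset Ω} {p : Ω} (h0 : JC G (∅ : Set Ω)) (hX : JC G (X : Set Ω)) (hp : p ∉ X)
    (hX' : JC G ((insert p X : Finset Ω) : Set Ω)) (hU : JC G (U : Set Ω)) (h1 : #X < #U)
    (h2 : 2 * #U ≤ Fintype.card Ω) : ∃ s, #X ≤ s ∧ s ≤ #U ∧ IsMultiplyPretransitive G Ω (s + 1) ∧
      ((s + 2) * (#U - s) ≤ Fintype.card Ω ∨ 2 * (s + 2) ≤ #U) := by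
  classical
  set s := Nat.findGreatest (fun s => ∀ A : Finset Ω, #A ≤ s → JC G (A : Set Ω)) #U
  have s1 : s ≤ #U := Nat.findGreatest_le _
  have s2 : ∀ A : Finset Ω, #A ≤ s → JC G (A : Set Ω) :=
    Nat.findGreatest_spec (P := fun s => ∀ A : Finset Ω, #A ≤ s → JC G (A : Set Ω)) (Nat.zero_le _) fun A hA => by
      rwa [card_eq_zero.1 (Nat.le_zero.1 hA), coe_empty]
  have tr : ∀ i ≤ s + 1, IsMultiplyPretransitive G Ω i := fun i => by
    induction i with
    | zero => exact fun _ => is_zero_pretransitive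
    | succ i ih =>
      intro hi
      obtain ⟨t, -, ht⟩ := exists_subset_card_eq (s := U) (n := i) (by omega)
      exact (s2 t (by omega)).succ (ih (by omega)) (by rw [Set.ncard_coe_finset, ht])
  have tr := tr _ le_rfl
  rcases s1.eq_or_lt with e | s3
  · exact ⟨s, by omega, s1, tr, .inl (by rw [e, Nat.sub_self]; exact Nat.zero_le _)⟩
  have s4 : ∀ A : Finset Ω, #A = s + 1 → ¬ JC G (A : Set Ω) := fun A hA hJ =>
    Nat.findGreatest_is_greatest (P := fun s => ∀ A : Finset Ω, #A ≤ s → JC G (A : Set Ω)) (Nat.lt_succ_self s) s3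
      fun B hB => hB.eq_or_lt.elim (fun e => by obtain ⟨g, rfl⟩ := conj tr hA e; exact jc_smul hJ g)
        fun e => s2 B (Nat.lt_succ_iff.1 e)
  obtain ⟨T, hTU, hT⟩ := exists_subset_card_eq (s := U) (n := s + 1) s3
  have ex : ∀ A : Finset Ω, ∃ C : Finset Ω, #A = s + 1 → (A ⊆ C ∧ #C ≤ #U ∧ JC G (C : Set Ω)) ∧
      ∀ C', A ⊆ C' → #C' ≤ #U → JC G (C' : Set Ω) → C ⊆ C' := fun A => by
    by_cases hA : #A = s + 1
    · obtain ⟨g, rfl⟩ := conj tr hT hA
      obtain ⟨C, hC, hm⟩ := exists_minimal_of_wellFoundedLT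
        (fun C : Finset Ω => g • T ⊆ C ∧ #C ≤ #U ∧ JC G (C : Set Ω))
        ⟨g • U, smul_finset_subset_smul_finset hTU, (card_smul_finset _ _).le, jc_smul hU g⟩
      refine ⟨C, fun _ => ⟨hC, fun C' a b c => (hm ⟨subset_inter hC.1 a, (card_le_card inter_subset_left).trans hC.2.1,
        ?_⟩ inter_subset_left).trans inter_subset_right⟩⟩
      have := card_le_card (subset_inter hC.1 a)
      rw [coe_inter]
      refine hC.2.2.inter_of_card c ?_
      rw [← coe_inter, Set.ncard_coe_finset, Set.ncard_coe_finset, Set.ncard_coe_finset, Nat.card_eq_fintype_card]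
      omega
    · exact ⟨∅, fun e => absurd e hA⟩
  choose cl hcl using ex
  have hE : ∀ A, #A = s + 1 → A ⊆ cl A := fun A hA => (hcl A hA).1.1
  have c1 : ∀ A B, #A = s + 1 → #B = s + 1 → #(cl B) ≤ #(cl A) := fun A B hA hB => by
    obtain ⟨g, rfl⟩ := conj tr hA hB
    exact (card_le_card ((hcl _ hB).2 (g • cl A) (smul_finset_subset_smul_finset (hE A hA))
      ((card_smul_finset _ _).trans_le (hcl A hA).1.2.1) (jc_smul (hcl A hA).1.2.2 g))).trans (card_smul_finset _ _).le
  have hC : ∀ A, #A = s + 1 → #(cl A) = #(cl T) := fun A hA => le_antisymm (c1 _ _ hT hA) (c1 _ _ hA hT)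
  have hS : ∀ A A', #A = s + 1 → #A' = s + 1 → A' ⊆ cl A → cl A' = cl A := fun A A' hA hA' h =>
    eq_of_subset_of_card_le ((hcl A' hA').2 _ h (hcl A hA).1.2.1 (hcl A hA).1.2.2) (c1 _ _ hA' hA)
  have c2 : ∀ A, #A = s + 1 → A ⊂ cl A := fun A hA =>
    ⟨hE A hA, fun e => s4 A hA ((subset_antisymm e (hE A hA)) ▸ (hcl A hA).1.2.2)⟩
  have c3 := card_lt_card (c2 T hT)
  have c4 := (hcl T hT).2 U hTU le_rfl hU
  refine ⟨s, le_of_not_gt fun hs => ?_, s1, tr, ?_⟩
  · obtain ⟨S, hSX, hS0⟩ := exists_subset_card_eq hs.le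
    have a1 : #(insert p S) = s + 1 := by rw [card_insert_of_notMem fun e => hp (hSX e), hS0]
    obtain ⟨r, r1, r2⟩ := exists_of_ssubset (c2 _ a1)
    have r3 := (hcl _ a1).2 _ (insert_subset_insert p hSX) (by rw [card_insert_of_notMem hp]; omega) hX' r1
    have a2 : #(insert r S) = s + 1 := by rw [card_insert_of_notMem fun e => r2 (mem_insert_of_mem e), hS0]
    have r4 := (hcl _ a2).2 X (insert_subset ((mem_insert.1 r3).resolve_left fun e => r2 (e ▸ mem_insert_self _ _))
      hSX) h1.le hX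
    rw [hS _ _ a1 a2 (insert_subset r1 ((subset_insert _ _).trans (hE _ a1)))] at r4
    exact hp (r4 (hE _ a1 (mem_insert_self _ _)))
  · obtain ⟨d, hd⟩ : ∃ d, #(cl T) = s + 2 + d := ⟨#(cl T) - (s + 2), by omega⟩
    rcases c4.eq_or_ssubset with e | e
    · obtain ⟨q, -, hq⟩ := exists_mem_notMem_of_card_lt_card (s := cl T) (t := univ) (by rw [card_univ, e]; omega)
      have := tits hE hC hS (fun _ _ _ => subset_univ _) hT (subset_univ _) (mem_univ q) hq
      rw [card_univ, hd, show s + 2 + d - (s + 1) = d + 1 by omega] at this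
      rw [← e, hd, show s + 2 + d - s = d + 2 by omega]
      exact .inl (by linarith)
    · obtain ⟨q, q1, q2⟩ := exists_of_ssubset e
      have := tits hE hC hS (fun A a b => (hcl A b).2 U a le_rfl hU) hT hTU q1 q2
      rw [hd, show s + 2 + d - (s + 1) = d + 1 by omega] at this
      exact .inr (by nlinarith)

end STx

theorem st : ST := by
  intro Ω _ _ G X U p h0 hX hp hX' hU h1 h2
  obtain ⟨X, rfl⟩ := X.toFinite.exists_finset_coe
  obtain ⟨U, rfl⟩ := U.toFinite.exists_finset_coe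
  simp only [Set.ncard_coe_finset] at h1 h2 ⊢
  exact STx.main h0 hX hp (by rwa [coe_insert]) hU h1 h2

end CL.PW
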