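/-
Project PW (S5767, helper86): overgroups of the wreath product in product action, assembly.
-/
import Cfsg.Agent.Perm.PWeg
import Cfsg.Agent.Perm.PWna
import Cfsg.Agent.Perm.PWnb
import Cfsg.Agent.Perm.PWst
import Cfsg.Agent.Perm.PWL

set_option autoImplicit false
set_option linter.unusedSectionVars false

namespace CL.PW

open Equiv Equiv.Perm Function Finset

variable {ι : Type} [Fintype ι] [DecidableEq ι] {m : ℕ}

theorem dg_conj (g : Perm (ι → Fin m)) (j : ι) (v : Perm (Fin m)) : Dg (fun f => g f j) (g⁻¹ * co j v * g) v :=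
  ⟨fun x => by simp, fun x e => by rw [Perm.mul_apply, Perm.mul_apply, co_fix.2 e]; simp⟩

theorem Cx.fam {H : Subgroup (Perm (ι → Fin m))} (h : Cx H) (u : UD H) :
    Fam H {κ | ∃ g ∈ H, ∃ j, κ = fun f => g f j} (m ^ (Fintype.card ι - 1)) where
  five := h.five
  pos := pow_pos (by have := h.five; omega) _
  card := by
    rintro _ ⟨g, -, j, rfl⟩ a
    refine Eq.trans (card_bijective g g.bijective fun x => by simp) ((card_slab j {a}).trans (by simp))
  smul := by
    rintro _ ⟨g, hg, j, rfl⟩ k hk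
    exact ⟨g * k, mul_mem hg hk, j, rfl⟩
  ex := by
    rintro _ ⟨g, hg, j, rfl⟩ v v3
    exact ⟨_, mul_mem (mul_mem (inv_mem hg) (h.toOv.co j v3.sign)) hg, dg_conj g j v⟩
  ud := by
    rintro _ ⟨g, hg, j, rfl⟩ a k hk e
    obtain ⟨τ, t⟩ := u j a _ (mul_mem (mul_mem hg hk) (inv_mem hg)) fun f hf => by
      rw [Perm.mul_apply, Perm.mul_apply, e _ (by simpa using hf)]; simp
    exact ⟨τ, by convert dg_conj g j τ; rw [← t]; group⟩

theorem Cx.le_W {H : Subgroup (Perm (ι → Fin m))} (h : Cx H) (u : UD H) : H ≤ W ι m := fun g hg => by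
  have h5 := h.five
  refine mem_W_of_dep (by omega) fun j => by_contra fun n => ?_
  have k : ∀ i x c, g (update x i c) j = g x j := fun i x c => by
    by_cases e : x i = c
    · simp [← e]
    obtain ⟨p, hp⟩ := exists_notMem (s := {x i, c}) (by have := card_le_two (a := x i) (b := c); omega)
    simp only [mem_insert, mem_singleton, not_or] at hp
    obtain ⟨t, t3, t1, -⟩ := ex3 h5 (Ne.symm hp.1) (Ne.symm hp.1) (Ne.symm hp.2) (Ne.symm hp.2) e
    have := (eg _ _ _ _ _ (h.fam u) _ ⟨1, one_mem _, i, rfl⟩ _ ⟨g, hg, j, rfl⟩).resolve_left (fun k => n ⟨i, k⟩) _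
      (h.toOv.co i t3.sign) t t3 (by simpa using dg_conj 1 i t) x
    simpa only [co_app, t1] using this
  have k' : ∀ (y : ι → Fin m) (s : Finset ι) (x : ι → Fin m), (∀ l ∉ s, x l = y l) → g x j = g y j := fun y s => by
    induction s using Finset.induction_on with
    | empty => exact fun x e => by rw [(funext fun l => e l (by simp) : x = y)]
    | insert l s _ ih =>
      refine fun x e => (k l x (y l)).symm.trans (ih _ fun l' hl => ?_)
      by_cases e' : l' = l
      · simp [e']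
      · rw [update_of_ne e']; exact e l' (by simp [e', hl])
  have := k' (g.symm fun _ => ⟨0, by omega⟩) univ (g.symm fun _ => ⟨1, by omega⟩) (by simp)
  simp at this

theorem main (hG : GS) (hm : 5 ≤ m) [Nontrivial ι] {H : Subgroup (Perm (ι → Fin m))} (h : Ov H) :
    H ≤ W ι m ∨ alternatingGroup (ι → Fin m) ≤ H := by
  refine or_iff_not_imp_right.2 fun n => ?_
  have c : Cx H := ⟨h, hm, ‹_›, n⟩
  refine c.le_W (hG _ _ _ c (c.nt_or_j3.resolve_right fun j => ?_))
  obtain ⟨T, -, hT⟩ := exists_subset_card_eq (s := (univ : Finset (Fin m))) (n := 4) (by simp; omega)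
  obtain ⟨a, ha⟩ := card_pos.1 (by omega : 0 < T.card)
  obtain ⟨i⟩ : Nonempty ι := inferInstance
  exact na (fun _ _ _ _ hm _ _ _ hn hc _ hr => lagr hm hn hc hr) _ _ _ c j i T a hT ha (nb st _ _ _ c j i T a hT ha)

theorem not_alt_le (hm : 5 ≤ m) [Nontrivial ι] : ¬ alternatingGroup (ι → Fin m) ≤ W ι m := fun h => by
  have n : ∀ {a b : Fin m}, a ≠ b → (fun _ : ι => a) ≠ fun _ => b := fun n e => n (congrFun e (Classical.arbitrary ι))
  let a : Fin m := ⟨0, by omega⟩
  let b : Fin m := ⟨1, by omega⟩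
  let c : Fin m := ⟨2, by omega⟩
  let d : Fin m := ⟨3, by omega⟩
  obtain ⟨π, τ, e⟩ := mem_W'.1 (h (isThreeCycle_swap_mul_swap_same (n (a := a) (b := c) (by simp [a, c]))
    (n (a := a) (b := b) (by simp [a, b])) (n (a := c) (b := b) (by simp [c, b]))).mem_alternatingGroup)
  obtain ⟨j⟩ : Nonempty ι := inferInstance
  obtain ⟨l, hl⟩ := exists_ne (π.symm j)
  have k : ∀ x : Fin m, x ≠ d → update (fun _ : ι => a) l d ≠ fun _ => x := fun x n e => n (by simpa using (congrFun e l).symm)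
  have e1 := e (fun _ => a) j
  have e2 := e (update (fun _ => a) l d) j
  rw [Perm.mul_apply, swap_apply_left, swap_apply_of_ne_of_ne (n (by simp [a, b])) (n (by simp [b, c]))] at e1
  rw [Perm.mul_apply, swap_apply_of_ne_of_ne (k _ (by simp [a, d])) (k _ (by simp [b, d])),
    swap_apply_of_ne_of_ne (k _ (by simp [a, d])) (k _ (by simp [c, d])), update_of_ne hl.symm, ← e1, update_apply] at e2
  split_ifs at e2 <;> simp [a, b, d] at e2

/-- an even element of `W` that swaps two coordinates -/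
theorem exists_sw (hm : 2 ≤ m) (hk : ¬ (Fintype.card ι = 2 ∧ m % 4 = 2)) (i j : ι) :
    ∃ τ : ι → Perm (Fin m), sign (bs τ * tp (swap i j)) = 1 := by
  rcases Int.units_eq_one_or (sign (tp (swap i j) : Perm (ι → Fin m))) with e | e
  · exact ⟨1, by simpa using e⟩
  rcases Nat.even_or_odd m with o | o
  · exfalso
    have n : i ≠ j := fun k => by rw [k, swap_self] at e; exact absurd (e.symm.trans (sign_refl)) (by decide)
    have h2 : 2 ≤ Fintype.card ι := Fintype.one_lt_card_iff.2 ⟨i, j, n⟩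
    have : Nonempty ι := ⟨i⟩
    have c : Fintype.card (fixedPoints (tp (swap i j) : Perm (ι → Fin m))) = m ^ (Fintype.card ι - 1) := by
      rw [← card_diag n id, ← Fintype.card_subtype]
      refine Fintype.card_congr (Equiv.subtypeEquivRight fun f => ⟨fun k => by simpa using congrFun k i, fun k => ?_⟩)
      ext1 l
      simp only [tp_app, symm_swap, swap_apply_def]
      split_ifs with h1 h2 <;> simp_all
    rw [sign_of_pow_two_eq_one (by rw [← map_pow, sq, swap_mul_self, map_one]), c, card_Om, ← Nat.sub_one_mul] at e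
    obtain ⟨r, hr⟩ : 4 ∣ m ^ (Fintype.card ι - 1) := by
      by_cases k : Fintype.card ι = 2
      · rw [k, pow_one]; have := Nat.even_iff.1 o; omega
      · exact (pow_dvd_pow_of_dvd o.two_dvd 2).trans (pow_dvd_pow m (by omega))
    rw [hr, show (m - 1) * (4 * r) / 2 = 2 * ((m - 1) * r) by
      rw [show (m - 1) * (4 * r) = 2 * ((m - 1) * r) * 2 by ring, Nat.mul_div_cancel _ two_pos], pow_mul] at e
    simp at e
  have : Nontrivial (Fin m) := Fin.nontrivial_iff_two_le.2 hm
  obtain ⟨p, q, n⟩ := exists_pair_ne (Fin m)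
  exact ⟨Pi.mulSingle i (swap p q), by rw [← co_eq, map_mul, e, sign_co, sign_swap n, o.pow.neg_one_pow]; rfl⟩

theorem coatom_alt (hG : GS) (hm : 5 ≤ m) [Nontrivial ι] (hk : ¬ (Fintype.card ι = 2 ∧ m % 4 = 2)) :
    IsCoatom ((W ι m).subgroupOf (alternatingGroup (ι → Fin m))) := by
  refine ⟨fun e => not_alt_le hm (Subgroup.subgroupOf_eq_top.1 e), fun K hK => ?_⟩
  have ev : ∀ σ ∈ W ι m, sign σ = 1 → σ ∈ K.map (alternatingGroup _).subtype := fun σ k e =>
    ⟨⟨σ, e⟩, hK.le k, rfl⟩
  rcases main hG hm ⟨ev, fun i j => (exists_sw (by omega) hk i j).imp fun τ => ev _ ⟨_, _, rfl⟩⟩ with k | k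
  · exact absurd (fun σ hσ => k ⟨σ, hσ, rfl⟩) hK.not_ge
  · refine top_le_iff.1 fun σ _ => ?_
    obtain ⟨σ', h', e⟩ := k σ.2
    exact (Subtype.ext e : σ' = σ) ▸ h'

theorem coatom_sym (hG : GS) (hm : 5 ≤ m) [Nontrivial ι] {σ : Perm (ι → Fin m)} (hσ : σ ∈ W ι m) (e : sign σ = -1) :
    IsCoatom (W ι m) := by
  refine ⟨fun e => not_alt_le (ι := ι) hm (e ▸ le_top), fun K hK => top_le_iff.1 fun g _ => ?_⟩
  have k := (main hG hm (ov_of_le hK.le)).resolve_left hK.not_ge
  rcases Int.units_eq_one_or (sign g) with s | s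
  · exact k s
  · exact (K.mul_mem_cancel_right (hK.le hσ)).1 (k (by simp [mem_alternatingGroup, s, e]))

end CL.PW
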