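/-
Project PW (S5767; proof by helper58): the growth step; pointwise stabilisers of hyperplanes are diagonal.
-/
import Cfsg.Agent.Perm.PW1
import Cfsg.Agent.Perm.PWL
import Cfsg.Agent.Grp.SylowIn

set_option autoImplicit false
set_option linter.unusedSectionVars false

namespace CL.PW

open Equiv Equiv.Perm Function Finset CL.Perm CL.Grp
open scoped Pointwise

theorem lg : Lg := fun _ _ _ _ hm _ _ _ hn hc _ hr => lagr hm hn hc hr

variable {ι : Type} [Fintype ι] [DecidableEq ι] {m : ℕ} {H : Subgroup (Perm (ι → Fin m))}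

namespace Gs

theorem ap_inv {α : Type} (g : Perm α) (x : α) : g (g⁻¹ x) = x := by simp
theorem inv_ap {α : Type} (g : Perm α) (x : α) : g⁻¹ (g x) = x := by simp

theorem rel_of_steps (r : (ι → Fin m) → (ι → Fin m) → Prop) (hr : ∀ x, r x x)
    (ht : ∀ x y z, r x y → r y z → r x z) (s : Finset ι) (hs : ∀ l ∈ s, ∀ x a, r x (update x l a)) :
    ∀ x y, (∀ l, l ∉ s → x l = y l) → r x y := by
  induction s using Finset.induction_on with
  | empty => intro x y h; rw [show x = y from funext fun l => h l (by simp)]; exact hr y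
  | insert j s hj ih =>
    intro x y h
    refine ht _ _ _ (hs j (mem_insert_self _ _) x (y j)) (ih (fun l hl => hs l (mem_insert_of_mem hl)) _ _ ?_)
    intro l hl
    by_cases e : l = j
    · subst e; simp
    · rw [update_of_ne e]; exact h l (by simp [e, hl])

/-- an element that keeps all lines in the direction `i` is a permutation of the coordinate `i` -/
theorem diag (h : Cx H) (hN : NT H) {i : ι} {e : Perm (ι → Fin m)} (he : e ∈ H) (k : ∀ f, res i (e f) = res i f) :
    ∃ τ, e = co i τ := by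
  have h5 := h.five
  have k' : ∀ f j, j ≠ i → e f j = f j := fun f => res_eq_iff.1 (k f)
  have ki : ∀ f j, j ≠ i → e⁻¹ f j = f j := fun f j n => by rw [← k' (e⁻¹ f) j n]; simp
  have step : ∀ j, j ≠ i → ∀ x a, e x i = e (update x j a) i := fun j n x a => by
    by_cases q : x j = a
    · rw [← q, update_eq_self]
    obtain ⟨c, hc⟩ := exists_notMem (s := {x j, a}) (by have := card_le_two (a := x j) (b := a); omega)
    simp only [mem_insert, mem_singleton, not_or] at hc
    have s := sign_c3 q (Ne.symm hc.1)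
    have w := hN j {x j, a, c} (by rw [← support_c3 q (Ne.symm hc.1) (Ne.symm hc.2), (c3_three q (Ne.symm hc.1)
      (Ne.symm hc.2)).card_support]) (e * co j (c3 (x j) a c) * e⁻¹ * (co j (c3 (x j) a c))⁻¹)
      (mul_mem (mul_mem (mul_mem he (h.toOv.co j s)) (inv_mem he)) (inv_mem (h.toOv.co j s))) (fun f hf => by
        simp only [mem_insert, mem_singleton, not_or] at hf
        have f1 : ∀ g : ι → Fin m, g j = f j → co j (c3 (x j) a c) g = g := fun g hg =>
          co_fix.2 (by rw [hg, c3_ne hf.1 hf.2.1 hf.2.2])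
        have f2 : (co j (c3 (x j) a c))⁻¹ f = f := by rw [Perm.inv_eq_iff_eq, f1 f rfl]
        rw [Perm.mul_apply, Perm.mul_apply, Perm.mul_apply, f2, f1 _ (ki f j n)]; simp) (co j (c3 (x j) a c) (e x))
    have := res_eq_iff.1 w i n.symm
    rw [co_ne n.symm] at this
    rw [← this, show update x j a = co j (c3 (x j) a c) x by rw [co_app, c3_a q (Ne.symm hc.2)]]
    simp
  have dep : ∀ x y : ι → Fin m, x i = y i → e x i = e y i := fun x y q =>
    rel_of_steps (fun x y => e x i = e y i) (fun _ => rfl) (fun _ _ _ => Eq.trans) (univ.erase i)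
      (fun l hl => step l (ne_of_mem_erase hl)) x y fun l hl => by
        obtain rfl : l = i := by simpa using hl
        exact q
  have inj : Injective fun a => e (fun _ => a) i := fun a b q => by
    have : e (fun _ => a) = e (update (fun _ => a) i b) := ext_res (i := i) (q.trans (dep _ _ (by simp)))
      (by rw [k, k]; exact res_eq_iff.2 fun j n => by simp [n])
    simpa using congrFun (e.injective this) i
  exact ⟨Equiv.ofBijective _ inj.bijective_of_finite, Equiv.ext fun f => ext_res (i := i)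
    (by rw [co_same]; exact dep _ _ rfl) (by rw [k, res_co])⟩

/-- the stabiliser of the hyperplane `f i = c` in `D H i (insert c T)` -/
def N1 (H : Subgroup (Perm (ι → Fin m))) (i : ι) (T : Finset (Fin m)) (c : Fin m) : Subgroup (Perm (ι → Fin m)) where
  carrier := {n | n ∈ D H i (insert c T) ∧ ∀ f, n f i = c ↔ f i = c}
  one_mem' := ⟨one_mem _, fun _ => Iff.rfl⟩
  mul_mem' := fun ha hb => ⟨mul_mem ha.1 hb.1, fun f => (ha.2 _).trans (hb.2 f)⟩
  inv_mem' := fun {n} ha => ⟨inv_mem ha.1, fun f => by simpa using (ha.2 (n⁻¹ f)).symm⟩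

variable {i : ι} {T : Finset (Fin m)} {c c' : Fin m}

theorem N1_slab (hc : c ∉ T) {n : Perm (ι → Fin m)} (hn : n ∈ N1 H i T c) {f : ι → Fin m} (hf : f i ∈ T) :
    n f i ∈ T :=
  (mem_insert.1 (D_slab hn.1 (mem_insert_of_mem hf))).resolve_left fun e => hc ((hn.2 f).1 e ▸ hf)

theorem N1_conj (hc : c ∉ T) {n d : Perm (ι → Fin m)} (hn : n ∈ N1 H i T c) (hd : d ∈ D H i T) :
    n * d * n⁻¹ ∈ D H i T := conj_mem_D hn.1.1 (fun _ => N1_slab hc hn) hd

theorem D_le_N1 (hc : c ∉ T) : D H i T ≤ N1 H i T c := fun d hd => ⟨D_mono i (subset_insert c T) hd, fun f => by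
  by_cases e : f i ∈ T
  · exact iff_of_false (fun k => hc (k ▸ D_slab hd e)) fun k => hc (k ▸ e)
  · rw [hd.2 f e]⟩

theorem N1_co (h : Cx H) {j : ι} (n : j ≠ i) {σ : Perm (Fin m)} (s : sign σ = 1) {r : Perm (ι → Fin m)}
    (hr : r ∈ N1 H i T c) : co j σ * r * (co j σ)⁻¹ ∈ N1 H i T c :=
  ⟨conj_mem_D (h.toOv.co j s) (fun f hf => by rwa [co_ne n.symm]) hr.1, fun f => by
    rw [Perm.mul_apply, Perm.mul_apply, co_ne n.symm, hr.2, ← map_inv, co_ne n.symm]⟩

/-- the claim of the growth step for at least four layers -/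
theorem four (h : Cx H) (hN : NT H) (hT : 4 ≤ T.card) (hc : c ∉ T) (hc' : c' ∉ T) (cc : c' ≠ c)
    (dg : ∀ g ∈ D H i T, ∃ τ, g = co i τ) {n : Perm (ι → Fin m)} (hn : n ∈ N1 H i T c) {f : ι → Fin m}
    (hf : f i = c) : n f = f := by
  obtain ⟨a, ha⟩ : T.Nonempty := card_pos.1 (by omega)
  have lay : ∀ x y : ι → Fin m, x i = a → y i = a → n x i = n y i := fun x y hx hy => by
    by_contra q
    have x1 := N1_slab hc hn (hx ▸ ha : x i ∈ T)
    have y1 := N1_slab hc hn (hy ▸ ha : y i ∈ T)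
    have c3 : 3 ≤ (T.erase (n x i)).card := by rw [card_erase_of_mem x1]; omega
    obtain ⟨b, hb, hb'⟩ := exists_mem_ne (s := T.erase (n x i)) (by omega) (n y i)
    obtain ⟨σ, s1, s2, s3⟩ := exists_even_on c3 (mem_erase.2 ⟨Ne.symm q, y1⟩) hb
    obtain ⟨τ, e⟩ := dg _ (N1_conj hc (inv_mem hn)
      (h.toOv.co_mem_D (i := i) s1 fun d hd => s3 d fun k => hd (mem_of_mem_erase k)))
    have e1 : co i τ x = x := by
      rw [← e, inv_inv, Perm.mul_apply, Perm.mul_apply, co_fix.2 (s3 _ (by simp))]; simp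
    have e2 : co i τ y = y := co_fix.2 (by rw [hy, ← hx]; exact co_fix.1 e1)
    rw [← e, inv_inv, Perm.mul_apply, Perm.mul_apply, Perm.inv_eq_iff_eq] at e2
    exact hb' (s2.symm.trans (co_fix.1 e2))
  obtain ⟨σ, s1, s2, s3⟩ := exists_even_on (by omega) (N1_slab hc hn (f := fun _ => a) ha) ha
  have n1 := mul_mem (D_le_N1 hc (h.toOv.co_mem_D (i := i) s1 s3)) hn
  have ca : c ≠ a := fun e => hc (e ▸ ha)
  have ca' : c' ≠ a := fun e => hc' (e ▸ ha)
  have fx : ∀ x : ι → Fin m, x i = c' → (co i σ * n) x = x := fun x hx => n1.1.2 x (by simp [hx, cc, hc'])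
  have w := conj_mem_D (i' := i) (T := {c', c, a}) n1.1.1 (fun x hx => by
      simp only [mem_insert, mem_singleton] at hx ⊢
      rcases hx with hx | hx | hx
      · exact .inl (by rw [fx x hx, hx])
      · exact .inr (.inl ((n1.2 x).2 hx))
      · exact .inr (.inr (by rw [Perm.mul_apply, co_same, lay x (fun _ => a) hx rfl, s2])))
    (h.toOv.co_mem_D (i := i) (T := {c', c, a}) (sign_c3 cc ca') fun d hd => by
      simp only [mem_insert, mem_singleton, not_or] at hd
      exact c3_ne hd.1 hd.2.1 hd.2.2)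
  have r := hN i _ (by rw [← support_c3 cc ca' ca, (c3_three cc ca' ca).card_support]) _ w.1 w.2 (pt i c' (res i f))
  have e : (co i σ * n)⁻¹ (pt i c' (res i f)) = pt i c' (res i f) := by rw [Perm.inv_eq_iff_eq, fx _ (pt_same ..)]
  rw [Perm.mul_apply, Perm.mul_apply (co i σ * n), e, co_pt, c3_a cc ca, ← hf, pt_res, Perm.mul_apply, res_co,
    res_pt] at r
  exact ext_res (((hn.2 f).2 hf).trans hf.symm) r

theorem c3_or_inv {a b d : Fin m} (ab : a ≠ b) (ad : a ≠ d) (bd : b ≠ d) {τ : Perm (Fin m)}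
    (h1 : ∀ x, x ∉ ({a, b, d} : Finset (Fin m)) → τ x = x) (h2 : ∀ x ∈ ({a, b, d} : Finset (Fin m)), τ x ≠ x) :
    τ = c3 a b d ∨ τ = (c3 a b d)⁻¹ := by
  have mem : ∀ x ∈ ({a, b, d} : Finset (Fin m)), τ x = a ∨ τ x = b ∨ τ x = d := fun x hx => by
    by_contra k
    exact h2 x hx (τ.injective (h1 _ (by simpa using k)))
  have inj : ∀ x y, τ x = τ y → x = y := fun _ _ e => τ.injective e
  have ha := mem a (by simp)
  have hb := mem b (by simp)
  have hd := mem d (by simp)
  have ka := h2 a (by simp)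
  have kb := h2 b (by simp)
  have kd := h2 d (by simp)
  have iab := inj a b
  have iad := inj a d
  have ibd := inj b d
  have ex : ∀ ρ : Perm (Fin m), τ a = ρ a → τ b = ρ b → τ d = ρ d → (∀ x, x ≠ a → x ≠ b → x ≠ d → ρ x = x) → τ = ρ :=
    fun ρ e1 e2 e3 e4 => Equiv.ext fun x => by
      by_cases q : x ∈ ({a, b, d} : Finset (Fin m))
      · simp only [mem_insert, mem_singleton] at q
        rcases q with rfl | rfl | rfl <;> assumption
      · rw [h1 x q]
        simp only [mem_insert, mem_singleton, not_or] at q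
        exact (e4 x q.1 q.2.1 q.2.2).symm
  by_cases q : τ a = b
  · exact .inl (ex _ (by rw [c3_a ab bd, q]) (by rw [c3_b]; grind) (by rw [c3_c ad bd]; grind) fun x => c3_ne)
  · refine .inr (ex _ ?_ ?_ ?_ fun x x1 x2 x3 => by rw [Perm.inv_eq_iff_eq, c3_ne x1 x2 x3])
    · rw [Perm.eq_inv_iff_eq, show τ a = d by grind, c3_c ad bd]
    · rw [Perm.eq_inv_iff_eq, show τ b = a by grind, c3_a ab bd]
    · rw [Perm.eq_inv_iff_eq, show τ d = b by grind, c3_b]

/-- for three layers the stabiliser keeps the lines inside the slab -/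
theorem three_res (h : Cx H) (hT : T.card = 3) (hc : c ∉ T) (hc' : c' ∉ T) (cc : c' ≠ c)
    (dg : ∀ g ∈ D H i T, ∃ τ, g = co i τ) {n : Perm (ι → Fin m)} (hn : n ∈ N1 H i T c) {z : ι → Fin m}
    (hz : z i ∈ T) : res i (n z) = res i z := by
  have F1 : ∀ n ∈ N1 H i T c, ∀ x y : ι → Fin m, x i ∈ T → y i ∈ T → res i x = res i y →
      res i (n x) = res i (n y) := fun n hn x y hx hy e => by
    obtain ⟨σ, s1, s2, s3⟩ := exists_even_on hT.ge hx hy
    obtain ⟨τ, q⟩ := dg _ (N1_conj hc hn (h.toOv.co_mem_D (i := i) s1 s3))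
    rw [← res_co i τ, ← q, show y = co i σ x from ext_res (i := i) (by simp [s2]) (by simp [e])]
    simp
  obtain ⟨p, hp, q, hq, pq⟩ := one_lt_card.1 (show 1 < T.card by omega)
  have sT : ∀ a ∈ T, swap c c' a = a := fun a ha =>
    swap_apply_of_ne_of_ne (fun e : a = c => hc (e ▸ ha)) fun e : a = c' => hc' (e ▸ ha)
  have sT' : ∀ a, a ∉ T → swap p q a = a := fun a ha =>
    swap_apply_of_ne_of_ne (fun e : a = p => ha (e ▸ hp)) fun e : a = q => ha (e ▸ hq)
  have sp : ∀ a ∈ T, swap p q a ∈ T := fun a ha => by rw [swap_apply_def]; split_ifs <;> assumption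
  obtain ⟨ω, w0, w1, w2, w3, w4, w5⟩ : ∃ ω : Perm (Fin m), sign ω = 1 ∧ (∀ a ∈ T, ω a ∈ T) ∧ (∀ a ∈ T, ω⁻¹ a ∈ T) ∧
      ω c = c' ∧ ω⁻¹ c' = c ∧ ∀ a ∈ insert c T, ω a ∈ insert c' T := by
    have e : (swap p q * swap c c') c = c' := by simp [sT' c' hc']
    have e1 : ∀ a ∈ T, (swap p q * swap c c') a ∈ T := fun a ha => by rw [Perm.mul_apply, sT a ha]; exact sp a ha
    refine ⟨swap p q * swap c c', by simp [pq, cc.symm], e1, fun a ha => ?_, e, by rw [Perm.inv_eq_iff_eq, e],
      fun a ha => ?_⟩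
    · rw [mul_inv_rev, swap_inv, swap_inv, Perm.mul_apply, sT _ (sp a ha)]; exact sp a ha
    · rcases mem_insert.1 ha with rfl | ha
      exacts [by simp only [e, mem_insert_self], mem_insert_of_mem (e1 a ha)]
  refine res_eq_iff.2 fun j n => lagr h.five (R := N1 H i T c) (fun σ s r => N1_co h n s) (fun r hr s hs => ?_) hn
  obtain ⟨s', es⟩ : ∃ s', s' = co i ω * s * (co i ω)⁻¹ := ⟨_, rfl⟩
  have m1 : s' ∈ D H i (insert c' T) := es ▸ conj_mem_D (h.toOv.co i w0) (fun f hf => by simpa using w5 _ hf) hs.1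
  have m2 : ∀ f, f i = c' → s'⁻¹ f i = c' := fun f hf => by
    rw [es, mul_inv_rev, mul_inv_rev, inv_inv, Perm.mul_apply, Perm.mul_apply, co_same,
      ((inv_mem hs).2 _).2 (by rw [← map_inv, co_same, hf, w4]), w3]
  have F2 : ∀ x : ι → Fin m, x i ∈ T → res i (s' x) = res i (s x) ∧ s' x i ∈ T := fun x hx => by
    have x1 : (co i ω)⁻¹ x i ∈ T := by rw [← map_inv, co_same]; exact w2 _ hx
    rw [es, Perm.mul_apply, Perm.mul_apply, res_co, co_same]
    exact ⟨F1 s hs _ _ x1 hx (by rw [← map_inv, res_co]), w1 _ (N1_slab hc hs x1)⟩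
  obtain ⟨τ, e⟩ := dg (r * s' * r⁻¹ * s'⁻¹) ⟨mul_mem (mul_mem (mul_mem hr.1.1 m1.1) (inv_mem hr.1.1)) (inv_mem m1.1),
    fun f hf => by
      simp only [Perm.mul_apply]
      by_cases e : f i = c'
      · have e1 := m2 f e
        rw [(inv_mem hr.1).2 (s'⁻¹ f) (by simp [e1, cc, hc']), ap_inv, hr.1.2 f (by simp [e, cc, hc'])]
      · rw [(inv_mem m1).2 f (by simp [e, hf]), m1.2 (r⁻¹ f), ap_inv]
        by_cases e' : f i = c
        · simp [((inv_mem hr).2 f).2 e', cc.symm, hc]
        · rw [(inv_mem hr.1).2 f (by simp [e', hf])]; simp [e, hf]⟩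
  have e3 : res i (r (s' z)) = res i (s' (r z)) := by
    rw [← res_co i τ (s' (r z)), ← e]; simp
  rw [F1 r hr _ _ (F2 z hz).2 (N1_slab hc hs hz) (F2 z hz).1, (F2 _ (N1_slab hc hr hz)).1] at e3
  exact res_eq_iff.1 e3 j n

/-- the claim of the growth step for three layers -/
theorem three (h : Cx H) (hN : NT H) (hT : T.card = 3) (hc : c ∉ T) (hc' : c' ∉ T) (cc : c' ≠ c)
    (dg : ∀ g ∈ D H i T, ∃ τ, g = co i τ) {n : Perm (ι → Fin m)} (hn : n ∈ N1 H i T c) {f : ι → Fin m}
    (hf : f i = c) : n f = f := by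
  obtain ⟨a, b, d, ab, ad, bd, rfl⟩ := card_eq_three.1 hT
  obtain ⟨y, ey⟩ : ∃ y : Perm (ι → Fin m), y = co i (c3 a b d) := ⟨_, rfl⟩
  have sup := support_c3 ab ad bd
  have hy : y ∈ D H i {a, b, d} := ey ▸ h.toOv.co_mem_D (sign_c3 ab ad) fun x hx => by rwa [← sup, Perm.notMem_support] at hx
  have fin : ∀ R : Subgroup (Perm (ι → Fin m)), R ≤ N1 H i {a, b, d} c →
      (∀ j, j ≠ i → ∀ σ : Perm (Fin m), sign σ = 1 → ∀ r ∈ R, co j σ * r * (co j σ)⁻¹ ∈ R) →
      (∀ r ∈ R, ∀ s ∈ R, ∀ z, z i = c → r (s z) = s (r z)) → ∀ r ∈ R, ∀ z, z i = c → r z = z :=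
    fun R le hR cm r hr z hz => ext_res (i := i) ((((le hr).2 z).2 hz).trans hz.symm) (res_eq_iff.2 fun j n =>
      lagr h.five (hR j n) (fun r hr s hs => by rw [cm r hr s hs z hz]) hr)
  have pw : ∀ r ∈ N1 H i {a, b, d} c, ∀ x : ι → Fin m, x i ∈ ({a, b, d} : Finset (Fin m)) → ∃ k : ℕ, r x = (y ^ k) x :=
    fun r hr x hx => by
      obtain ⟨k, e⟩ := (c3_three ab ad bd).isCycle.exists_pow_eq (Perm.mem_support.1 (sup ▸ hx))
        (Perm.mem_support.1 (sup ▸ N1_slab hc hr hx))
      exact ⟨k, ext_res (i := i) (by rw [ey, ← map_pow, co_same, e])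
        (by rw [ey, ← map_pow, res_co, three_res h hT hc hc' cc dg hr hx])⟩
  have cen := fin (N1 H i {a, b, d} c ⊓ Subgroup.centralizer {y}) inf_le_left
    (fun j n σ s r hr => by
      have k : co j σ ∈ Subgroup.centralizer {y} := by
        rw [Subgroup.mem_centralizer_singleton_iff, ey]; exact co_comm n _ _
      rw [Subgroup.mem_inf] at hr ⊢
      exact ⟨N1_co h n s hr.1, mul_mem (mul_mem k hr.2) (inv_mem k)⟩)
    (fun r hr s hs z hz => by
      rw [Subgroup.mem_inf] at hr hs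
      have cr : Commute r y := Subgroup.mem_centralizer_singleton_iff.1 hr.2
      have cs : Commute s y := Subgroup.mem_centralizer_singleton_iff.1 hs.2
      have m1 := mul_mem (inv_mem (mul_mem hs.1 hr.1)) (mul_mem hr.1 hs.1)
      have w := hN i {c, a, b} (card_eq_three.2 ⟨c, a, b, fun e => hc (by simp [e]), fun e => hc (by simp [e]), ab, rfl⟩)
        _ m1.1.1 (fun x hx => by
          by_cases e : x i ∈ ({a, b, d} : Finset (Fin m))
          · obtain ⟨k, e1⟩ := pw r hr.1 x e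
            obtain ⟨l, e2⟩ := pw s hs.1 x e
            rw [Perm.mul_apply, Perm.inv_eq_iff_eq, Perm.mul_apply, Perm.mul_apply]
            conv_lhs => rw [e2, ← Perm.mul_apply, (cr.pow_right l).eq, Perm.mul_apply, e1, ← Perm.mul_apply, ← pow_add]
            conv_rhs => rw [e1, ← Perm.mul_apply, (cs.pow_right k).eq, Perm.mul_apply, e2, ← Perm.mul_apply, ← pow_add]
            rw [add_comm]
          · exact m1.1.2 x (by simp only [mem_insert, not_or] at hx e ⊢; exact ⟨hx.1, e⟩)) z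
      have := ext_res (((m1.2 z).2 hz).trans hz.symm) w
      rwa [Perm.mul_apply, Perm.inv_eq_iff_eq] at this)
  have pm : ∀ r ∈ N1 H i {a, b, d} c, MulAut.conj r y = y ∨ MulAut.conj r y = y⁻¹ := fun r hr => by
    have m1 := N1_conj hc hr hy
    obtain ⟨τ, e⟩ := dg _ m1
    rw [MulAut.conj_apply, e, ey, ← map_inv]
    refine (c3_or_inv ab ad bd (fun x hx => ?_) fun x hx k => ?_).imp (congrArg _) (congrArg _)
    · exact co_fix.1 (e ▸ m1.2 (fun _ => x) hx)
    · have k1 : (r * y * r⁻¹) (fun _ => x) = fun _ => x := e ▸ co_fix.2 k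
      rw [Perm.mul_apply, Perm.mul_apply, ← Perm.eq_inv_iff_eq, ey, co_fix, ← Perm.notMem_support, sup] at k1
      exact k1 (N1_slab hc (inv_mem hr) hx)
  refine fin _ le_rfl (fun j n σ s r => N1_co h n s) (fun r hr s hs z hz => ?_) n hn f hf
  have k : MulAut.conj (r * s) y = MulAut.conj (s * r) y := by
    rw [map_mul, map_mul, MulAut.mul_apply, MulAut.mul_apply]
    rcases pm r hr with e | e <;> rcases pm s hs with e' | e' <;> simp only [e, e', map_inv, inv_inv]
  have := cen ((s * r)⁻¹ * (r * s)) (Subgroup.mem_inf.2 ⟨mul_mem (inv_mem (mul_mem hs hr)) (mul_mem hr hs), by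
    rw [MulAut.conj_apply, MulAut.conj_apply] at k
    rw [Subgroup.mem_centralizer_singleton_iff, mul_assoc, mul_inv_eq_iff_eq_mul.1 k]; group⟩) z hz
  rwa [Perm.mul_apply, Perm.inv_eq_iff_eq] at this

/-- Witt's lemma: the larger slab is not a Jordan set -/
theorem witt (h : Cx H) (hT : 3 ≤ T.card) (hc : c ∉ T) (dg : ∀ g ∈ D H i T, ∃ τ, g = co i τ)
    (hn : N1 H i T c ≤ D H i T) : ¬ ∀ x y : ι → Fin m, x i ∈ insert c T → y i ∈ insert c T →
      ∃ g ∈ D H i (insert c T), g x = y := fun tr => by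
  have h5 := h.five
  obtain ⟨p, pp, hp⟩ := Nat.exists_prime_and_dvd (show T.card ≠ 1 by omega)
  have := Fact.mk pp
  obtain ⟨Q, hQ⟩ := exists_isSylowIn p (D H i T)
  have fx : ∀ x : ι → Fin m, (∀ q ∈ Q, q x = x) ↔ x i ∉ T := fun x => ⟨fun k hx => by
    have e : MulAction.orbit (D H i T) x = (fun b => pt i b (res i x)) '' (T : Set (Fin m)) := by
      ext y
      constructor
      · rintro ⟨g, rfl⟩
        obtain ⟨τ, e⟩ := dg g g.2
        exact ⟨_, D_slab g.2 hx, ext_res (i := i) (pt_same ..) (by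
          rw [res_pt]; change _ = res i ((g : Perm (ι → Fin m)) x); rw [e, res_co])⟩
      · rintro ⟨b, hb, rfl⟩
        obtain ⟨σ, s1, s2, s3⟩ := exists_even_on hT hx hb
        exact ⟨⟨_, h.toOv.co_mem_D s1 s3⟩, ext_res (i := i) ((co_same i σ x).trans (by simp [s2]))
          ((res_co i σ x).trans (by simp))⟩
    have e1 := MulAction.index_stabilizer (D H i T) x
    rw [e, Set.ncard_image_of_injective _ fun a b q => by simpa using congrFun q i, Set.ncard_coe_finset] at e1
    exact hQ.not_dvd ((e1 ▸ hp).trans (Subgroup.index_dvd_of_le (H := Q.subgroupOf (D H i T)) fun q hq => k _ hq)),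
    fun k q hq => (hQ.le hq).2 x k⟩
  have nm : ∀ g ∈ D H i (insert c T), g ∈ Subgroup.normalizer (Q : Set (Perm (ι → Fin m))) → g ∈ D H i T :=
    fun g hg k => hn ⟨hg, fun f => by
      have key : ∀ g ∈ D H i (insert c T), g ∈ Subgroup.normalizer (Q : Set (Perm (ι → Fin m))) →
          ∀ f, f i = c → g f i = c := fun g hg k f hf =>
        (mem_insert.1 (D_slab hg (by simp [hf]))).resolve_right ((fx _).1 fun q hq => by
          have := (fx f).2 (hf ▸ hc) _ ((Subgroup.mem_normalizer_iff.1 (inv_mem k) q).1 hq)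
          rwa [inv_inv, Perm.mul_apply, Perm.mul_apply, Perm.inv_eq_iff_eq] at this)
      exact ⟨fun e => by simpa using key _ (inv_mem hg) (inv_mem k) _ e, key g hg k f⟩⟩
  have le := D_mono (H := H) i (subset_insert c T)
  have hQ1 : IsSylowIn p Q (D H i (insert c T)) := isSylowIn_of_maximal (hQ.le.trans le) hQ.isPGroup
    fun U hU h1 h2 => by_contra fun k => by
      have lt := lt_inf_normalizer_of_isPGroup hU (lt_of_le_of_ne h1 (Ne.symm k))
      exact lt.ne' (hQ.eq_of_le (hU.to_le inf_le_left) lt.le fun g hg => nm g (h2 hg.1) hg.2)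
  have := h.nt
  obtain ⟨j, hj⟩ := exists_ne i
  obtain ⟨b, hb⟩ := exists_notMem (s := {c}) (by simp; omega)
  obtain ⟨g, hg, e⟩ := tr (update (fun _ => c) j b) (fun _ => c) (by simp [hj.symm]) (by simp)
  have y1 : update (fun _ => c) j b i ∉ T := by simpa [hj.symm] using hc
  have s1 : IsSylowIn p Q (D H i (insert c T) ⊓ MulAction.stabilizer _ (fun _ => c : ι → Fin m)) :=
    hQ1.of_le (le_inf hQ1.le fun q hq => (fx _).2 hc q hq) inf_le_left
  have s2 : IsSylowIn p (MulAut.conj g • Q) (D H i (insert c T) ⊓ MulAction.stabilizer _ (fun _ => c : ι → Fin m)) :=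
    (hQ1.conj_smul_of_mem hg).of_le (le_inf (hQ1.conj_smul_of_mem hg).le ((conj_smul_le_iff _ _ _).2 fun q hq => by
      change (g * q * g⁻¹) _ = _
      rw [← e, Perm.mul_apply, Perm.mul_apply, inv_ap, (fx _).2 y1 q hq])) inf_le_left
  obtain ⟨u, hu, e1⟩ := s2.exists_conj_eq s1
  rw [conj_smul_conj_smul, conj_smul_eq_self_iff] at e1
  have e2 := (nm _ (mul_mem hu.1 hg) e1).2 _ y1
  rw [Perm.mul_apply, e, show u (fun _ => c) = fun _ => c from hu.2] at e2
  exact hb (by simpa using (congrFun e2 j).symm)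

theorem grow (h : Cx H) (hN : NT H) (i : ι) (k : ℕ) : ∀ T : Finset (Fin m), T.card = k + 3 → T.card < m →
    ∀ g ∈ D H i T, ∃ τ, g = co i τ := by
  induction k with
  | zero => exact fun T hT _ g hg => diag h hN hg.1 (hN i T hT g hg.1 hg.2)
  | succ k ih =>
    intro U hU lt g hg
    obtain ⟨c, T, hc, rfl, hT⟩ := card_eq_succ.1 (show U.card = k + 3 + 1 from hU)
    obtain ⟨c', hc'⟩ := exists_notMem lt
    simp only [mem_insert, not_or] at hc'
    have dg := ih T hT (by omega)
    have hn : N1 H i T c ≤ D H i T := fun n hn => ⟨hn.1.1, fun f hf => by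
      by_cases e : f i = c
      · rcases Nat.eq_zero_or_pos k with rfl | hk
        exacts [three h hN hT hc hc'.2 hc'.1 dg hn e, four h hN (by omega) hc hc'.2 hc'.1 dg hn e]
      · exact hn.1.2 f (by simp [e, hf])⟩
    exact diag h hN hg.1 (((h.dich i (.inl (by omega))).resolve_left (witt h (by omega) hc dg hn)) g hg)

end Gs

theorem gs : GS := fun _ _ _ m _ h hN i a g hg k => by
  have h5 := h.five
  have e : ({a}ᶜ : Finset (Fin m)).card = m - 1 := by simp [card_compl]
  exact Gs.grow h hN i (m - 4) {a}ᶜ (by omega) (by omega) g ⟨hg, fun f hf => k f (by simpa using hf)⟩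

end CL.PW
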