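import Cfsg.Agent.Grp.SylowIn

/-! A non-abelian finite simple group `T` has no group of automorphisms and anti-automorphisms,
containing the inner automorphisms, in which the stabiliser of every `t ≠ 1` is maximal. -/

set_option autoImplicit false

open MulAction CL.Grp
open scoped Pointwise

namespace CL.Perm

/-- The centre of a non-abelian `p`-group has index at least `p ^ 2`. -/
theorem sq_mul_card_center_le {P : Type*} [Group P] [Finite P] {p : ℕ} [hp : Fact p.Prime]
    (hP : IsPGroup p P) (hn : ¬ IsMulCommutative P) :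
    p ^ 2 * Nat.card (Subgroup.center P) ≤ Nat.card P := by
  rw [← Subgroup.index_mul_card (Subgroup.center P)]
  refine Nat.mul_le_mul_right _ ?_
  obtain ⟨k, hk⟩ := IsPGroup.iff_card.1 (hP.to_quotient (Subgroup.center P))
  rw [Subgroup.index, hk]
  refine Nat.pow_le_pow_right hp.out.pos ?_
  by_contra hlt
  have : IsCyclic (P ⧸ Subgroup.center P) := by
    refine isCyclic_of_card_dvd_prime (p := p) ?_
    rw [hk]
    exact (pow_dvd_pow p (by omega : k ≤ 1)).trans (pow_one p).dvd
  exact hn (isMulCommutative_of_isCyclic_quotient_center_self P)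

/-- A finite group is not covered by the centres of non-abelian Sylow subgroups that are the
centralisers of their non-identity central elements. -/
theorem false_of_forall_centralizer_sylow {T : Type*} [Group T] [Finite T] [Nontrivial T]
    (h : ∀ t : T, t ≠ 1 → (orderOf t).Prime ∧ ¬ IsMulCommutative (Subgroup.centralizer {t}) ∧
      ∃ P : Sylow (orderOf t) T, (P : Subgroup T) = Subgroup.centralizer {t}) : False := by
  classical
  have := Fintype.ofFinite T
  have hN : 1 < Fintype.card T := Fintype.one_lt_card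
  have key : ∀ n : ℕ, 1 < n →
      n ^ 2 * (Finset.univ.filter fun t : T => orderOf t = n).card < Fintype.card T := by
    intro n hn
    rcases (Finset.univ.filter fun t : T => orderOf t = n).eq_empty_or_nonempty with h0 | ⟨t, ht⟩
    · rw [h0]; simp; omega
    obtain rfl : orderOf t = n := (Finset.mem_filter.1 ht).2
    obtain ⟨hp, hnc, P, hP⟩ := h t (orderOf_eq_one_iff.not.1 hn.ne')
    have := Fact.mk hp
    let f : (T ⧸ (P : Subgroup T)) × Subgroup.center P → T := fun x => x.1.out * x.2 * x.1.out⁻¹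
    have hsub : (insert 1 (Finset.univ.filter fun s : T => orderOf s = orderOf t) : Finset T) ⊆
        (Set.toFinite (Set.range f)).toFinset := by
      intro s hs
      rw [Set.Finite.mem_toFinset]
      rcases Finset.mem_insert.1 hs with rfl | hs
      · exact ⟨(QuotientGroup.mk 1, 1), by simp [f]⟩
      have hst := (Finset.mem_filter.1 hs).2
      obtain ⟨-, -, Q, hQ⟩ := h s (orderOf_eq_one_iff.not.1 (hst ▸ hn.ne'))
      revert Q
      rw [hst]
      intro Q hQ
      obtain ⟨g, rfl⟩ := exists_smul_eq T P Q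
      obtain ⟨q, hq⟩ := QuotientGroup.mk_out_eq_mul (P : Subgroup T) g
      have hc : ∀ x ∈ (P : Subgroup T), x * (g⁻¹ * s * g) = (g⁻¹ * s * g) * x := by
        intro x hx
        have h1 : g * x * g⁻¹ ∈ Subgroup.centralizer {s} := by
          rw [← hQ]
          exact conj_mem_conj_smul g hx
        rw [Subgroup.mem_centralizer_singleton_iff] at h1
        calc x * (g⁻¹ * s * g) = g⁻¹ * (g * x * g⁻¹ * s) * g := by group
          _ = _ := by rw [h1]; group
      have hm : g⁻¹ * s * g ∈ (P : Subgroup T) := by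
        have h1 : s ∈ ((g • P : Sylow _ T) : Subgroup T) :=
          hQ ▸ Subgroup.mem_centralizer_singleton_iff.2 rfl
        exact (mem_sylow_smul_iff g s P).1 h1
      refine ⟨(QuotientGroup.mk g, ⟨⟨_, hm⟩, Subgroup.mem_center_iff.2 fun x =>
        Subtype.ext (hc x x.2)⟩), ?_⟩
      change (QuotientGroup.mk g : T ⧸ (P : Subgroup T)).out * (g⁻¹ * s * g) *
        (QuotientGroup.mk g : T ⧸ (P : Subgroup T)).out⁻¹ = s
      rw [hq, mul_assoc g, hc q q.2]
      group
    have h1 := Finset.card_le_card hsub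
    rw [Finset.card_insert_of_notMem (by simpa using hn.ne), ← Set.ncard_eq_toFinset_card] at h1
    have h2 : (Set.range f).ncard ≤ (P : Subgroup T).index * Nat.card (Subgroup.center P) := by
      rw [← Set.image_univ, Subgroup.index, ← Nat.card_prod, ← Set.ncard_univ]
      exact Set.ncard_image_le
    have h3 := sq_mul_card_center_le P.2 (hP ▸ hnc)
    have h4 := (P : Subgroup T).index_mul_card
    rw [Nat.card_eq_fintype_card (α := T)] at h4
    have h5 : 0 < orderOf t ^ 2 := pow_pos hp.pos 2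
    calc _ < orderOf t ^ 2 * ((P : Subgroup T).index * Nat.card (Subgroup.center P)) :=
          Nat.mul_lt_mul_of_pos_left (by omega) h5
      _ = (P : Subgroup T).index * (orderOf t ^ 2 * Nat.card (Subgroup.center P)) := by ring
      _ ≤ _ := h4 ▸ Nat.mul_le_mul_left _ h3
  have hsum : (Finset.univ.erase (1 : T)).card = ∑ n ∈ Finset.Ioc 1 (Fintype.card T),
      (Finset.univ.filter fun t : T => orderOf t = n).card := by
    rw [Finset.card_eq_sum_card_fiberwise (f := orderOf) (t := Finset.Ioc 1 (Fintype.card T))]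
    · refine Finset.sum_congr rfl fun n hn => congrArg _ (Finset.ext fun t => ?_)
      simp only [Finset.mem_filter, Finset.mem_erase, Finset.mem_univ, and_true, true_and,
        and_iff_right_iff_imp]
      rintro rfl rfl
      simp at hn
    · intro t ht
      exact Finset.mem_coe.2 (Finset.mem_Ioc.2 ⟨(h t (Finset.mem_erase.1 ht).1).1.one_lt,
        orderOf_le_card_univ⟩)
  rw [Finset.card_erase_of_mem (Finset.mem_univ _), Finset.card_univ] at hsum
  have hN' : (0 : ℝ) < Fintype.card T := by exact_mod_cast (by omega)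
  have h1 : ((Fintype.card T - 1 : ℕ) : ℝ) <
      ∑ n ∈ Finset.Ioc 1 (Fintype.card T), Fintype.card T * ((n : ℝ) ^ 2)⁻¹ := by
    rw [hsum, Nat.cast_sum]
    refine Finset.sum_lt_sum_of_nonempty ⟨_, Finset.mem_Ioc.2 ⟨hN, le_rfl⟩⟩ fun n hn => ?_
    have h2 := (Finset.mem_Ioc.1 hn).1
    have h3 : (0 : ℝ) < (n : ℝ) ^ 2 := by
      have : (0 : ℝ) < n := by exact_mod_cast (by omega)
      positivity
    rw [lt_mul_inv_iff₀ h3, mul_comm]
    exact_mod_cast key n h2
  rw [← Finset.mul_sum, Nat.cast_sub hN.le] at h1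
  have h2 := mul_le_mul_of_nonneg_left (sum_Ioc_inv_sq_le_sub (α := ℝ) one_ne_zero hN.le) hN'.le
  rw [mul_sub, mul_inv_cancel₀ hN'.ne'] at h2
  simp only [Nat.cast_one, inv_one, mul_one] at h1 h2
  exact absurd (h1.trans_le h2) (lt_irrefl _)

/-- The hypotheses: `H` acts on `T` by automorphisms and anti-automorphisms, induces all inner
automorphisms, and the stabilisers of non-identity elements are maximal. -/
structure AntiMax (H T : Type*) [Group H] [Group T] [MulAction H T] : Prop where
  anti : ∀ h : H, (∀ x y : T, h • (x * y) = h • x * h • y) ∨ ∀ x y : T, h • (x * y) = h • y * h • x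
  inner : ∀ x : T, ∃ h : H, ∀ t : T, h • t = x * t * x⁻¹
  max : ∀ t : T, t ≠ 1 → ∀ X : Subgroup H, stabilizer H t ≤ X → X = stabilizer H t ∨ X = ⊤

namespace AntiMax

variable {H T : Type*} [Group H] [Group T] [MulAction H T]

theorem smul_mul (A : AntiMax H T) (h : H) {x y : T} (hxy : Commute x y) :
    h • (x * y) = h • x * h • y := by
  rcases A.anti h with e | e
  · exact e x y
  · rw [hxy.eq, e]

theorem commute_smul (A : AntiMax H T) (h : H) {x y : T} (hxy : Commute x y) :
    Commute (h • x) (h • y) := by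
  rw [Commute, SemiconjBy, ← A.smul_mul h hxy, ← A.smul_mul h hxy.symm, hxy.eq]

theorem smul_one' (A : AntiMax H T) (h : H) : h • (1 : T) = 1 := by
  have h1 := A.smul_mul h (Commute.refl (1 : T))
  rw [mul_one] at h1
  exact left_eq_mul.1 h1

theorem smul_pow' (A : AntiMax H T) (h : H) (x : T) (n : ℕ) : h • x ^ n = (h • x) ^ n := by
  induction n with
  | zero => rw [pow_zero, pow_zero, A.smul_one']
  | succ n ih => rw [pow_succ, pow_succ, A.smul_mul h (Commute.pow_self x n), ih]

theorem smul_inv' (A : AntiMax H T) (h : H) (x : T) : h • x⁻¹ = (h • x)⁻¹ :=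
  eq_inv_of_mul_eq_one_left (by
    rw [← A.smul_mul h (Commute.refl x).inv_left, inv_mul_cancel, A.smul_one'])

theorem commute_of_le (A : AntiMax H T) {s t x : T} (hst : stabilizer H t ≤ stabilizer H s)
    (hx : Commute x t) : Commute x s := by
  obtain ⟨h, hh⟩ := A.inner x
  have h1 : h • s = s := hst (show h • t = t by rw [hh, hx.eq, mul_inv_cancel_right])
  rw [hh] at h1
  exact mul_inv_eq_iff_eq_mul.1 h1

/-- The elements fixed by the stabiliser of `t`. -/
def fixSub (A : AntiMax H T) (t : T) : Subgroup T where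
  carrier := {s | stabilizer H t ≤ stabilizer H s}
  one_mem' := fun h _ => A.smul_one' h
  mul_mem' := fun {a b} ha hb h hh => by
    have h1 : Commute a b := A.commute_of_le hb (A.commute_of_le ha (Commute.refl t)).symm
    rw [mem_stabilizer_iff, A.smul_mul h h1, ha hh, hb hh]
  inv_mem' := fun {a} ha h hh => by rw [mem_stabilizer_iff, A.smul_inv', ha hh]

theorem mem_fixSub (A : AntiMax H T) {s t : T} :
    s ∈ A.fixSub t ↔ stabilizer H t ≤ stabilizer H s := Iff.rfl

theorem self_mem (A : AntiMax H T) (t : T) : t ∈ A.fixSub t := A.mem_fixSub.2 le_rfl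

variable [IsSimpleGroup T]

theorem normalizer_le (A : AntiMax H T) {t : T} (ht : t ≠ 1) {P : Subgroup T} (h0 : P ≠ ⊥)
    (h1 : P ≠ ⊤) (hP : ∀ h : H, h • t = t → ∀ s ∈ P, h • s ∈ P) :
    Subgroup.normalizer (P : Set T) ≤ Subgroup.centralizer {t} := by
  have hle : stabilizer H t ≤ stabilizer H (P : Set T) := by
    intro h hh
    rw [mem_stabilizer_iff]
    ext s
    rw [Set.mem_smul_set_iff_inv_smul_mem]
    exact ⟨fun hs => by simpa using hP h hh _ hs, hP _ (inv_mem hh) s⟩
  rcases A.max t ht _ hle with e | e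
  · intro x hx
    obtain ⟨h, hh⟩ := A.inner x
    have h2 : h ∈ stabilizer H (P : Set T) := by
      rw [mem_stabilizer_iff]
      ext s
      rw [Set.mem_smul_set_iff_inv_smul_mem, SetLike.mem_coe, Subgroup.mem_normalizer_iff.1 hx, ← hh,
        smul_inv_smul, SetLike.mem_coe]
    rw [e, mem_stabilizer_iff, hh] at h2
    exact Subgroup.mem_centralizer_singleton_iff.2 (mul_inv_eq_iff_eq_mul.1 h2)
  · have hn : P.Normal := ⟨fun s hs x => by
      obtain ⟨h, hh⟩ := A.inner x
      have h2 : h • (P : Set T) = P := mem_stabilizer_iff.1 (e ▸ Subgroup.mem_top h)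
      rw [← hh, ← SetLike.mem_coe, ← h2]
      exact Set.smul_mem_smul_set hs⟩
    exact (hn.eq_bot_or_eq_top.elim h0 h1).elim

theorem centralizer_ne_top (hT : ¬ IsMulCommutative T) {t : T} (ht : t ≠ 1) :
    Subgroup.centralizer {t} ≠ ⊤ := by
  intro h
  have h1 : t ∈ Subgroup.center T := Subgroup.mem_center_iff.2 fun x =>
    Subgroup.mem_centralizer_singleton_iff.1 (h ▸ Subgroup.mem_top x)
  rcases (inferInstance : (Subgroup.center T).Normal).eq_bot_or_eq_top with e | e
  · exact ht (Subgroup.mem_bot.1 (e ▸ h1))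
  · exact hT ⟨⟨fun a b => Subgroup.mem_center_iff.1 (e ▸ Subgroup.mem_top b) a⟩⟩

theorem stabilizer_eq (A : AntiMax H T) (hT : ¬ IsMulCommutative T) {s t : T} (ht : t ≠ 1)
    (hs : s ≠ 1) (hst : s ∈ A.fixSub t) : stabilizer H s = stabilizer H t := by
  refine (A.max t ht _ hst).resolve_right fun e => centralizer_ne_top hT hs (eq_top_iff.2 ?_)
  intro x _
  obtain ⟨h, hh⟩ := A.inner x
  have h1 : h • s = s := mem_stabilizer_iff.1 (e ▸ Subgroup.mem_top h)
  rw [hh] at h1
  exact Subgroup.mem_centralizer_singleton_iff.2 (mul_inv_eq_iff_eq_mul.1 h1)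

theorem pow_orderOf_eq_one (A : AntiMax H T) (hT : ¬ IsMulCommutative T) {s u : T} (hs : s ≠ 1)
    (hc : Commute u s) (hu : u ∉ A.fixSub s) : s ^ orderOf u = 1 := by
  by_contra hw
  have hus : u * s ≠ 1 := fun e => hu (by
    rw [eq_inv_of_mul_eq_one_left e]; exact inv_mem (A.self_mem s))
  have h1 : (u * s) ^ orderOf u = s ^ orderOf u := by
    rw [hc.mul_pow, _root_.pow_orderOf_eq_one, one_mul]
  have h2 := A.stabilizer_eq hT hs hw (pow_mem (A.self_mem s) _)
  have h3 := A.stabilizer_eq hT hus hw (h1 ▸ pow_mem (A.self_mem (u * s)) _)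
  have h4 : u * s ∈ A.fixSub s := (h2.symm.trans h3).le
  exact hu ((mul_mem_cancel_right (A.self_mem s)).1 h4)

theorem orderOf_eq (A : AntiMax H T) (hT : ¬ IsMulCommutative T) {s u : T} (hs : s ≠ 1)
    (hc : Commute u s) (hu : u ∉ A.fixSub s) : orderOf u = orderOf s := by
  have hu1 : u ≠ 1 := fun e => hu (e ▸ one_mem _)
  exact Nat.dvd_antisymm
    (orderOf_dvd_of_pow_eq_one (A.pow_orderOf_eq_one hT hu1 hc.symm fun h =>
      hu (A.stabilizer_eq hT hu1 hs h).le))
    (orderOf_dvd_of_pow_eq_one (A.pow_orderOf_eq_one hT hs hc hu))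

variable [Finite T]

open scoped IsMulCommutative in
theorem not_comm (A : AntiMax H T) (hT : ¬ IsMulCommutative T) {t : T} (ht : t ≠ 1) :
    ¬ IsMulCommutative (Subgroup.centralizer ({t} : Set T)) := by
  intro hc
  obtain ⟨p, hp, hd⟩ := Nat.exists_prime_and_dvd (orderOf_eq_one_iff.not.2 ht)
  have := Fact.mk hp
  have hcc : ∀ a ∈ Subgroup.centralizer ({t} : Set T), ∀ b ∈ Subgroup.centralizer ({t} : Set T),
      Commute a b := fun a ha b hb => setLike_mul_comm (s := Subgroup.centralizer {t}) ha hb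
  let P : Subgroup T :=
    { carrier := {x | x ∈ Subgroup.centralizer ({t} : Set T) ∧ ∃ k, x ^ p ^ k = 1}
      one_mem' := ⟨one_mem _, 0, one_pow _⟩
      mul_mem' := by
        rintro a b ⟨ha, k, hk⟩ ⟨hb, l, hl⟩
        refine ⟨mul_mem ha hb, k + l, ?_⟩
        rw [(hcc a ha b hb).mul_pow, pow_add, pow_mul, hk, mul_comm (p ^ k), pow_mul, hl]
        simp
      inv_mem' := by
        rintro a ⟨ha, k, hk⟩
        exact ⟨inv_mem ha, k, by rw [inv_pow, hk, inv_one]⟩ }
  have hPp : IsPGroup p P := fun x => let ⟨k, hk⟩ := x.2.2; ⟨k, Subtype.ext hk⟩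
  have ho := orderOf_pow_orderOf_div (orderOf_pos t).ne' hd
  have h0 : P ≠ ⊥ := fun e => by
    have h1 : t ^ (orderOf t / p) ∈ P :=
      ⟨pow_mem (Subgroup.mem_centralizer_singleton_iff.2 rfl) _, 1, by
        rw [pow_one, ← orderOf_dvd_iff_pow_eq_one, ho]⟩
    rw [e, Subgroup.mem_bot, ← orderOf_eq_one_iff, ho] at h1
    exact hp.ne_one h1
  have h1 : P ≠ ⊤ := fun e =>
    centralizer_ne_top hT ht (eq_top_iff.2 fun x _ => (e ▸ Subgroup.mem_top x : x ∈ P).1)
  have hN := A.normalizer_le ht h0 h1 (by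
    rintro h hh s ⟨hs, k, hk⟩
    refine ⟨Subgroup.mem_centralizer_singleton_iff.2 ?_, k, by rw [← A.smul_pow', hk, A.smul_one']⟩
    have h2 := A.commute_smul h (Subgroup.mem_centralizer_singleton_iff.1 hs : Commute s t)
    rwa [hh] at h2)
  obtain ⟨Q, hQ⟩ := hPp.exists_le_sylow
  have hPQ : (Q : Subgroup T) = P := by
    by_contra hne
    refine (lt_inf_normalizer_of_isPGroup Q.2 (lt_of_le_of_ne hQ (Ne.symm hne))).not_ge ?_
    rintro x ⟨hx, hx'⟩
    obtain ⟨k, hk⟩ := Q.2 ⟨x, hx⟩
    exact ⟨hN hx', k, congrArg Subtype.val hk⟩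
  have hQC : Subgroup.normalizer (Q : Set T) ≤ Subgroup.centralizer (Q : Set T) := by
    rw [← Q.coe_coe, hPQ]
    exact fun x hx s hs => (hcc s hs.1 x (hN hx)).eq
  have hK := MonoidHom.ker_transferSylow_isComplement' Q hQC
  rcases (MonoidHom.normal_ker (MonoidHom.transferSylow Q hQC)).eq_bot_or_eq_top with e | e
  · have h2 := hK.sup_eq_top
    rw [e, bot_sup_eq, hPQ] at h2
    exact h1 h2
  · have h2 := hK.disjoint
    rw [e, top_disjoint, hPQ] at h2
    exact h0 h2

theorem false (A : AntiMax H T) (hT : ¬ IsMulCommutative T) : False := by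
  refine false_of_forall_centralizer_sylow (T := T) fun t ht => ?_
  have hnc := A.not_comm hT ht
  obtain ⟨u, hu, hut⟩ : ∃ u, Commute u t ∧ u ∉ A.fixSub t := by
    by_contra hcon
    push Not at hcon
    refine hnc ⟨⟨fun a b => Subtype.ext ?_⟩⟩
    exact (A.commute_of_le (hcon b (Subgroup.mem_centralizer_singleton_iff.1 b.2))
      (Subgroup.mem_centralizer_singleton_iff.1 a.2)).eq
  have hall : ∀ v, Commute v t → v ≠ 1 → orderOf v = orderOf t := by
    intro v hv hv1
    by_cases hvt : v ∈ A.fixSub t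
    · rw [← A.orderOf_eq hT ht hu hut]
      refine (A.orderOf_eq hT hv1 (A.commute_of_le hvt hu) fun h => hut ?_).symm
      rwa [mem_fixSub, A.stabilizer_eq hT ht hv1 hvt] at h
    · exact A.orderOf_eq hT ht hv hvt
  obtain ⟨p, hp, hd⟩ := Nat.exists_prime_and_dvd (orderOf_eq_one_iff.not.2 ht)
  have ho := orderOf_pow_orderOf_div (orderOf_pos t).ne' hd
  have hpt : (orderOf t).Prime := by
    rwa [← hall _ (Commute.pow_self t _) (orderOf_eq_one_iff.not.1 (ho ▸ hp.ne_one)), ho]
  have := Fact.mk hpt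
  have hP : IsPGroup (orderOf t) (Subgroup.centralizer ({t} : Set T)) := fun x => ⟨1, by
    by_cases hx : (x : T) = 1
    · rw [show x = 1 from Subtype.ext hx, one_pow]
    · rw [pow_one, ← hall x (Subgroup.mem_centralizer_singleton_iff.1 x.2) hx, Subgroup.orderOf_coe,
        _root_.pow_orderOf_eq_one]⟩
  have hN := A.normalizer_le ht (P := Subgroup.centralizer {t})
    (fun e => ht (Subgroup.mem_bot.1 (e ▸ Subgroup.mem_centralizer_singleton_iff.2 rfl)))
    (centralizer_ne_top hT ht) fun h hh s hs => Subgroup.mem_centralizer_singleton_iff.2 (by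
      have h2 := A.commute_smul h (Subgroup.mem_centralizer_singleton_iff.1 hs : Commute s t)
      rwa [hh] at h2)
  obtain ⟨Q, hQ⟩ := hP.exists_le_sylow
  refine ⟨hpt, hnc, Q, ?_⟩
  by_contra hne
  exact (lt_inf_normalizer_of_isPGroup Q.2 (lt_of_le_of_ne hQ (Ne.symm hne))).not_ge
    (inf_le_right.trans hN)

end AntiMax

end CL.Perm
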