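import Cfsg.Agent.Perm.PrimBasic

/-!
Generously transitive actions: every permutation of a `(k+1)`-set is induced by the group.
-/

set_option autoImplicit false

open MulAction

namespace CL.Perm

variable {G α : Type*} [Group G] [MulAction G α]

/-- Generous `k`-transitivity in the form used below: a permutation of `α` that maps a `(k+1)`-set
into itself agrees on it with a group element. -/
def IsGenerous (G α : Type*) [Group G] [MulAction G α] (k : ℕ) : Prop :=
  ∀ s : Finset α, s.card = k + 1 → ∀ τ : Equiv.Perm α, (∀ x ∈ s, τ x ∈ s) →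
    ∃ g : G, ∀ x ∈ s, g • x = τ x

theorem isGenerous_of_perm_subtype {α : Type*} (G : Subgroup (Equiv.Perm α)) {k : ℕ}
    (hgen : ∀ s : Finset α, s.card = k + 1 → ∀ σ : Equiv.Perm ↥s, ∃ g ∈ G,
      ∀ x : ↥s, g (x : α) = σ x) : IsGenerous G α k := by
  intro s hs τ hτ
  obtain ⟨g, hg, h⟩ := hgen s hs (τ.subtypePermOfFintype (p := fun x => x ∈ s) hτ)
  exact ⟨⟨g, hg⟩, fun x hx => h ⟨x, hx⟩⟩

/-- It is enough to induce the transpositions of each `(k+1)`-set. -/
theorem isGenerous_of_swap [DecidableEq α] {k : ℕ}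
    (h : ∀ s : Finset α, s.card = k + 1 → ∀ u ∈ s, ∀ v ∈ s, u ≠ v →
      ∃ g : G, ∀ x ∈ s, g • x = Equiv.swap u v x) : IsGenerous G α k := by
  intro s hs τ hτ
  have key : ∀ σ : Equiv.Perm s, ∃ g : G, ∀ x : s, g • (x : α) = σ x := by
    intro σ
    induction σ using Equiv.Perm.swap_induction_on with
    | one => exact ⟨1, fun x => one_smul _ _⟩
    | swap_mul f u v huv ih =>
      obtain ⟨g, hg⟩ := ih
      obtain ⟨g', hg'⟩ := h s hs u u.2 v v.2 (fun e => huv (Subtype.ext e))
      refine ⟨g' * g, fun x => ?_⟩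
      rw [mul_smul, hg, hg' _ (f x).2, Equiv.Perm.mul_apply,
        Subtype.val_injective.swap_apply]
  obtain ⟨g, hg⟩ := key (τ.subtypePermOfFintype (p := fun x => x ∈ s) hτ)
  exact ⟨g, fun x hx => hg ⟨x, hx⟩⟩

theorem IsGenerous.isMultiplyPretransitive [Finite α] {k : ℕ} (h : IsGenerous G α k)
    (hk : k < Nat.card α) : IsMultiplyPretransitive G α k := by
  classical
  have := Fintype.ofFinite α
  rw [Nat.card_eq_fintype_card] at hk
  apply isMultiplyPretransitive_of_forall_finset
  intro s hs τ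
  induction τ using Equiv.Perm.swap_induction_on' generalizing s with
  | one => exact ⟨1, fun x _ => one_smul _ _⟩
  | mul_swap f u v huv ih =>
    have h1 : ∃ g : G, ∀ x ∈ s, g • x = Equiv.swap u v x := by
      by_cases huv' : u ∉ s ∧ v ∉ s
      · refine ⟨1, fun x hx => ?_⟩
        rw [one_smul, Equiv.swap_apply_of_ne_of_ne]
        · rintro rfl; exact huv'.1 hx
        · rintro rfl; exact huv'.2 hx
      · have hc : (insert u (insert v s)).card ≤ k + 1 := by
          by_cases hu : u ∈ s
          · rw [Finset.insert_eq_of_mem (Finset.mem_insert_of_mem hu)]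
            exact (Finset.card_insert_le _ _).trans (by omega)
          · have hv : v ∈ s := by tauto
            rw [Finset.insert_eq_of_mem hv]
            exact (Finset.card_insert_le _ _).trans (by omega)
        obtain ⟨t, ht, -, htc⟩ := Finset.exists_subsuperset_card_eq (n := k + 1)
          (Finset.subset_univ (insert u (insert v s))) hc (by rw [Finset.card_univ]; omega)
        obtain ⟨g, hg⟩ := h t htc (Equiv.swap u v) (by
          intro x hx
          rw [Equiv.swap_apply_def]
          split_ifs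
          · exact ht (by simp)
          · exact ht (by simp)
          · exact hx)
        exact ⟨g, fun x hx => hg x (ht (by simp [hx]))⟩
    obtain ⟨g, hg⟩ := h1
    obtain ⟨g', hg'⟩ := ih (s.image (Equiv.swap u v))
      (by rw [Finset.card_image_of_injective _ (Equiv.injective _), hs])
    refine ⟨g' * g, fun x hx => ?_⟩
    rw [mul_smul, hg x hx, hg' _ (Finset.mem_image_of_mem _ hx), Equiv.Perm.mul_apply]

/-- In a generously `k`-transitive action, an element mapping a `k`-set into itself can be corrected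
to fix it pointwise without changing the image of a given outside point. -/
theorem IsGenerous.exists_fixing {k : ℕ} (h : IsGenerous G α k) (s : Finset α) (hs : s.card = k)
    {a : α} (ha : a ∉ s) (g : G) (hg : ∀ x ∈ s, g⁻¹ • x ∈ s) :
    ∃ g' : G, (∀ x ∈ s, g' • x = x) ∧ g' • a = g • a := by
  classical
  let τ : Equiv.Perm α := Equiv.swap (g⁻¹ • a) a * MulAction.toPerm g⁻¹
  have hτa : τ a = a := by simp [τ]
  have hτ : ∀ x ∈ s, τ x = g⁻¹ • x := by
    intro x hx
    simp only [τ, Equiv.Perm.mul_apply, MulAction.toPerm_apply]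
    apply Equiv.swap_apply_of_ne_of_ne
    · intro e
      rw [smul_left_cancel_iff] at e
      exact ha (e ▸ hx)
    · intro e
      exact ha (e ▸ hg x hx)
  obtain ⟨u, hu⟩ := h (insert a s) (by rw [Finset.card_insert_of_notMem ha, hs]) τ (by
    intro x hx
    rcases Finset.mem_insert.1 hx with rfl | hx
    · rw [hτa]; exact hx
    · rw [hτ x hx]; exact Finset.mem_insert_of_mem (hg x hx))
  refine ⟨g * u, fun x hx => ?_, ?_⟩
  · rw [mul_smul, hu x (Finset.mem_insert_of_mem hx), hτ x hx, smul_inv_smul]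
  · rw [mul_smul, hu a (Finset.mem_insert_self _ _), hτa]

/-- In a `k`-transitive action the pointwise stabilisers of `k`-sets have the same order. -/
theorem card_fixingSubgroup_eq [Finite G] [Finite α] {k : ℕ}
    (hG : IsMultiplyPretransitive G α k) {s t : Set α} (hs : s.ncard = k) (ht : t.ncard = k) :
    Nat.card (fixingSubgroup G s) = Nat.card (fixingSubgroup G t) := by
  have h1 := hG.index_of_fixingSubgroup_mul hs
  have h2 := hG.index_of_fixingSubgroup_mul ht
  have h3 := Nat.eq_of_mul_eq_mul_right (Nat.factorial_pos _) (h1.trans h2.symm)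
  have h4 := (fixingSubgroup G s).index_mul_card
  have h5 := (fixingSubgroup G t).index_mul_card
  rw [h3] at h4
  exact Nat.eq_of_mul_eq_mul_left (Nat.pos_of_ne_zero Subgroup.index_ne_zero_of_finite)
    (h4.trans h5.symm)

/-- Neumann: in a generously `k`-transitive action, for a prime `p ≤ k`, the pointwise stabiliser of a
`k`-set has at most `p - 1` orbits of length prime to `p` outside the set. -/
theorem IsGenerous.exists_dvd_card_orbit [Finite G] [Finite α] {k : ℕ} (h : IsGenerous G α k)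
    (hk : k < Nat.card α) {p : ℕ} (hp : p.Prime) (hpk : p ≤ k) (Γ : Finset α) (hΓ : Γ.card = k)
    (f : Fin p → α) (hf : ∀ i, f i ∉ Γ)
    (hdist : ∀ i j, i ≠ j → f j ∉ orbit (fixingSubgroup G (Γ : Set α)) (f i)) :
    ∃ i, p ∣ Nat.card (orbit (fixingSubgroup G (Γ : Set α)) (f i)) := by
  classical
  by_contra hcon
  push Not at hcon
  have : Fact p.Prime := ⟨hp⟩
  have hG := h.isMultiplyPretransitive hk
  obtain ⟨Δ, hΔΓ, hΔ⟩ := Finset.exists_subset_card_eq (s := Γ) (n := p) (by omega)
  obtain ⟨d, hd⟩ : Δ.Nonempty := Finset.card_pos.1 (hΔ ▸ hp.pos)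
  set K := fixingSubgroup G (Γ : Set α) with hK
  have memK : ∀ g : G, g ∈ K ↔ ∀ x ∈ Γ, g • x = x := fun g => mem_fixingSubgroup_iff G
  let L : Subgroup G :=
    { carrier := {g | (∀ x ∈ Γ \ Δ, g • x = x) ∧ ∀ x, g • x ∈ Δ ↔ x ∈ Δ}
      one_mem' := ⟨fun x _ => one_smul _ _, fun x => by rw [one_smul]⟩
      mul_mem' := by
        rintro u v ⟨hu, hu'⟩ ⟨hv, hv'⟩
        exact ⟨fun x hx => by rw [mul_smul, hv x hx, hu x hx], fun x => by rw [mul_smul, hu', hv']⟩
      inv_mem' := by
        rintro u ⟨hu, hu'⟩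
        exact ⟨fun x hx => by rw [inv_smul_eq_iff, hu x hx],
          fun x => by rw [← hu' (u⁻¹ • x), smul_inv_smul]⟩ }
  have hmaps : ∀ g : G, (∀ x ∈ Δ, g • x ∈ Δ) → ∀ x, g • x ∈ Δ ↔ x ∈ Δ := by
    intro g hg x
    refine ⟨fun hx => ?_, hg x⟩
    simpa using Equiv.Perm.perm_symm_on_of_perm_on_finset (f := MulAction.toPerm g) hg hx
  have hKL : K ≤ L := by
    intro g hg
    rw [memK] at hg
    exact ⟨fun x hx => hg x (Finset.mem_sdiff.1 hx).1,
      hmaps g fun x hx => by rw [hg x (hΔΓ hx)]; exact hx⟩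
  have hLΓ : ∀ g ∈ L, ∀ x ∈ Γ, g • x ∈ Γ := by
    intro g hg x hx
    by_cases hxΔ : x ∈ Δ
    · exact hΔΓ ((hg.2 x).2 hxΔ)
    · rw [hg.1 x (Finset.mem_sdiff.2 ⟨hx, hxΔ⟩)]; exact hx
  have horb : orbit L d = (Δ : Set α) := by
    ext y
    constructor
    · rintro ⟨g, rfl⟩
      exact (g.2.2 d).2 hd
    · intro hy
      obtain ⟨g, hg⟩ := exists_smul_eq_on_of_card_eq hG Γ hΓ (Equiv.swap d y)
      refine ⟨⟨g, fun x hx => ?_, hmaps g fun x hx => ?_⟩, ?_⟩
      · rw [Finset.mem_sdiff] at hx
        rw [hg x hx.1, Equiv.swap_apply_of_ne_of_ne]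
        · rintro rfl; exact hx.2 hd
        · rintro rfl; exact hx.2 hy
      · rw [hg x (hΔΓ hx), Equiv.swap_apply_def]
        split_ifs
        · exact hy
        · exact hd
        · exact hx
      · change g • d = y
        rw [hg d (hΔΓ hd), Equiv.swap_apply_left]
  have hidx : p ∣ (K.subgroupOf L).index := by
    have h1 : (stabilizer L d).index = p := by
      rw [index_stabilizer, horb, Set.ncard_coe_finset, hΔ]
    rw [← h1]
    apply Subgroup.index_dvd_of_le
    intro g hg
    exact (memK g).1 hg d (hΔΓ hd)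
  set v := (Nat.card K).factorization p with hv
  have hdvd : p ^ (v + 1) ∣ Nat.card L := by
    rw [← (K.subgroupOf L).card_mul_index, pow_succ,
      Nat.card_congr (Subgroup.subgroupOfEquivOfLe hKL).toEquiv]
    exact mul_dvd_mul (Nat.ordProj_dvd _ _) hidx
  obtain ⟨P, hP⟩ := Sylow.exists_subgroup_card_pow_prime p hdvd
  have hPp : IsPGroup p P := IsPGroup.of_card hP
  have horb2 : ∀ i, orbit L (f i) = orbit K (f i) := by
    intro i
    ext y
    constructor
    · rintro ⟨g, rfl⟩
      obtain ⟨g', hg', hg''⟩ := h.exists_fixing Γ hΓ (hf i) (g : G) (hLΓ _ (L.inv_mem g.2))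
      exact ⟨⟨g', (memK g').2 hg'⟩, hg''⟩
    · rintro ⟨g, rfl⟩
      exact ⟨⟨g, hKL g.2⟩, rfl⟩
  have hfix : ∀ i, ∃ a ∈ orbit K (f i), ∀ g : P, ((g : L) : G) • a = a := by
    intro i
    obtain ⟨a, ha⟩ := hPp.nonempty_fixed_point_of_prime_not_dvd_card (orbit L (f i))
      (by rw [horb2]; exact hcon i)
    exact ⟨a, horb2 i ▸ a.2, fun g => congrArg Subtype.val (ha g)⟩
  choose a ha hfixa using hfix
  have hainj : Function.Injective a := by
    intro i j hij
    by_contra hne
    apply hdist i j hne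
    have h1 := ha j
    rw [← hij] at h1
    rw [← orbit_eq_iff.2 (ha i), orbit_eq_iff.2 h1]
    exact mem_orbit_self _
  have haΓ : ∀ i, a i ∉ Γ := by
    intro i hi
    obtain ⟨g, hg⟩ := ha i
    apply hf i
    have h1 : (g : G) • f i = a i := hg
    rw [← (memK g).1 g.2 _ hi, smul_left_cancel_iff] at h1
    rwa [h1]
  let Γ' : Finset α := (Γ \ Δ) ∪ Finset.univ.image a
  have hΓ' : Γ'.card = k := by
    rw [Finset.card_union_of_disjoint, Finset.card_sdiff_of_subset hΔΓ,
      Finset.card_image_of_injective _ hainj, Finset.card_univ, Fintype.card_fin, hΔ, hΓ]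
    · omega
    · rw [Finset.disjoint_left]
      intro x hx hx'
      obtain ⟨i, -, rfl⟩ := Finset.mem_image.1 hx'
      exact haΓ i (Finset.mem_sdiff.1 hx).1
  have hle : P.map L.subtype ≤ fixingSubgroup G (Γ' : Set α) := by
    rintro _ ⟨g, hg, rfl⟩
    rw [mem_fixingSubgroup_iff]
    intro x hx
    rcases Finset.mem_union.1 hx with hx | hx
    · exact g.2.1 x hx
    · obtain ⟨i, -, rfl⟩ := Finset.mem_image.1 hx
      exact hfixa i ⟨g, hg⟩
  have h1 := Subgroup.card_dvd_of_le hle
  rw [Subgroup.card_map_of_injective L.subtype_injective, hP,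
    card_fixingSubgroup_eq hG (t := (Γ : Set α)) (by rw [Set.ncard_coe_finset, hΓ'])
      (by rw [Set.ncard_coe_finset, hΓ])] at h1
  exact Nat.pow_succ_factorization_not_dvd Nat.card_pos.ne' hp h1

end CL.Perm
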