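/-
Rank three extensions of Frobenius groups (S2207), part b: the configuration and its parameters.
-/
import Cfsg.Agent.Perm.Rk3a

set_option autoImplicit false

namespace CL.Rk3

open MulAction

/-- A primitive rank three group preserving the graph `adj`, the stabiliser of a point `a` being a Frobenius
group on the neighbours of `a` with kernel `K a`. -/
structure Cfg (G X : Type*) [Group G] [MulAction G X] where
  adj : X → X → Prop
  K : X → Subgroup G
  symm : ∀ {a b}, adj a b → adj b a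
  irr : ∀ a, ¬ adj a a
  smul : ∀ (g : G) {a b}, adj a b → adj (g • a) (g • b)
  tr1 : ∀ {a b a' b'}, adj a b → adj a' b' → ∃ g : G, g • a = a' ∧ g • b = b'
  tr2 : ∀ {a c a' c'}, a ≠ c ∧ ¬ adj a c → a' ≠ c' ∧ ¬ adj a' c' → ∃ g : G, g • a = a' ∧ g • c = c'
  frob : ∀ {a b b'} {g : G}, adj a b → adj a b' → b ≠ b' → g • a = a → g • b = b → g • b' = b' → g = 1
  two : ∀ {a b}, adj a b → ∃ b', adj a b' ∧ b' ≠ b
  ntriv : ∀ {a b}, adj a b → ∃ g : G, g ≠ 1 ∧ g • a = a ∧ g • b = b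
  max : ∀ a : X, IsCoatom (stabilizer G a)
  memK : ∀ {a g}, g ∈ K a ↔ g • a = a ∧ (g = 1 ∨ ∀ b, adj a b → g • b ≠ b)
  trK : ∀ {a b b'}, adj a b → adj a b' → ∃ g ∈ K a, g • b = b'
  nilp : ∀ a, Group.IsNilpotent (K a)
  trans : ∀ a a' : X, ∃ g : G, g • a = a'
  a₀ : X
  b₀ : X
  c₀ : X
  hb₀ : adj a₀ b₀
  hc₀ : a₀ ≠ c₀ ∧ ¬ adj a₀ c₀

variable {G X : Type*} [Group G] [MulAction G X]

theorem ncard_smul (g : G) (S T : Set X) (h : ∀ p, p ∈ S ↔ g • p ∈ T) : S.ncard = T.ncard :=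
  Set.ncard_congr (fun p _ => g • p) (fun p hp => (h p).1 hp) (fun _ _ _ _ e => smul_left_cancel g e)
    fun q hq => ⟨g⁻¹ • q, (h _).2 (by simpa using hq), smul_inv_smul g q⟩

theorem ncard_conj (g : G) (S T : Set G) (h : ∀ s, s ∈ S ↔ g * s * g⁻¹ ∈ T) : S.ncard = T.ncard :=
  Set.ncard_congr (fun s _ => g * s * g⁻¹) (fun p hp => (h p).1 hp) (fun _ _ _ _ e => by simpa using e)
    fun q hq => ⟨g⁻¹ * q * g, (h _).2 (by simpa [mul_assoc] using hq), by group⟩

theorem conj_smul_iff (g s : G) (p q : X) : (g * s * g⁻¹) • g • p = g • q ↔ s • p = q := by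
  simp [mul_smul]

/-- Two point stabiliser. -/
def St (G : Type*) {X : Type*} [Group G] [MulAction G X] (a b : X) : Subgroup G where
  carrier := {g | g • a = a ∧ g • b = b}
  mul_mem' := fun {g g'} h h' => ⟨by rw [mul_smul, h'.1, h.1], by rw [mul_smul, h'.2, h.2]⟩
  one_mem' := ⟨one_smul _ _, one_smul _ _⟩
  inv_mem' := fun {g} h => ⟨by rw [inv_smul_eq_iff, h.1], by rw [inv_smul_eq_iff, h.2]⟩

theorem mem_St {a b : X} {g : G} : g ∈ St G a b ↔ g • a = a ∧ g • b = b := Iff.rfl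

theorem card_eq_ncard (H : Subgroup G) : Nat.card H = {g | g ∈ H}.ncard := rfl

theorem card_St (g : G) (a b : X) : Nat.card (St G (g • a) (g • b)) = Nat.card (St G a b) :=
  (ncard_conj g {s | s ∈ St G a b} {s | s ∈ St G (g • a) (g • b)} fun s => by
    simp only [Set.mem_setOf_eq, mem_St, conj_smul_iff]).symm

/-- Fibres of the orbit map. -/
theorem ncard_fibre (H : Subgroup G) {p q : X} {g : G} (hg : g ∈ H) (e : g • p = q) :
    {s | s ∈ H ∧ s • p = q}.ncard = {s | s ∈ H ∧ s • p = p}.ncard := by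
  symm
  exact Set.ncard_congr (fun s _ => g * s) (fun s hs => ⟨mul_mem hg hs.1, by rw [mul_smul, hs.2, e]⟩)
    (fun _ _ _ _ e => mul_left_cancel e)
    fun s hs => ⟨g⁻¹ * s, ⟨mul_mem (inv_mem hg) hs.1, by rw [mul_smul, hs.2, ← e, inv_smul_smul]⟩, by group⟩

theorem card_of_trans [Finite G] [Finite X] (H : Subgroup G) (S : Set X) (c : ℕ) {p : X}
    (h1 : ∀ g ∈ H, g • p ∈ S) (h2 : ∀ q ∈ S, ∃ g ∈ H, g • p = q) (h3 : {s | s ∈ H ∧ s • p = p}.ncard = c) :
    Nat.card H = S.ncard * c := by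
  have := dc_mul {g | g ∈ H} S (fun g q => g • p = q) 1 c
    (fun g hg => by
      rw [Set.ncard_eq_one]
      exact ⟨g • p, Set.eq_singleton_iff_unique_mem.2 ⟨⟨h1 g hg, rfl⟩, fun q hq => hq.2.symm⟩⟩)
    (fun q hq => by
      obtain ⟨g, hg, e⟩ := h2 q hq
      exact (ncard_fibre H hg e).trans h3)
  rwa [mul_one] at this

namespace Cfg

variable (C : Cfg G X)

/-- Distinct and not adjacent. -/
def far (a c : X) : Prop := a ≠ c ∧ ¬ C.adj a c

noncomputable def k : ℕ := {p | C.adj C.a₀ p}.ncard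
noncomputable def l : ℕ := {p | C.far C.a₀ p}.ncard
noncomputable def h : ℕ := Nat.card (St G C.a₀ C.b₀)
noncomputable def x : ℕ := Nat.card (St G C.a₀ C.c₀)
noncomputable def lam : ℕ := {r | C.adj C.a₀ r ∧ C.adj C.b₀ r}.ncard
noncomputable def mu : ℕ := {r | C.adj C.a₀ r ∧ C.adj C.c₀ r}.ncard

variable {C}

theorem adj_iff (g : G) {a b : X} : C.adj (g • a) (g • b) ↔ C.adj a b :=
  ⟨fun h => by simpa using C.smul g⁻¹ h, C.smul g⟩

theorem far_iff (g : G) {a b : X} : C.far (g • a) (g • b) ↔ C.far a b := by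
  simp only [far, adj_iff, ne_eq, smul_left_cancel_iff]

theorem far.symm {a c : X} (h : C.far a c) : C.far c a := ⟨h.1.symm, fun h' => h.2 (C.symm h')⟩

theorem far.smul {a c : X} (h : C.far a c) {g : G} (hg : g • a = a) : C.far a (g • c) := by
  rw [← far_iff g, hg] at h; exact h

theorem adj_smul {a b : X} (h : C.adj a b) {g : G} (hg : g • a = a) : C.adj a (g • b) := by
  rw [← adj_iff g, hg] at h; exact h

theorem adj_ne {a b : X} (h : C.adj a b) : a ≠ b := fun e => C.irr a (e ▸ h)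

theorem tri (a p : X) : p = a ∨ C.adj a p ∨ C.far a p := by
  by_cases h : a = p
  · exact Or.inl h.symm
  · by_cases h' : C.adj a p
    · exact Or.inr (Or.inl h')
    · exact Or.inr (Or.inr ⟨h, h'⟩)

theorem exa (a : X) : ∃ b, C.adj a b := by
  obtain ⟨g, rfl⟩ := C.trans C.a₀ a
  exact ⟨_, C.smul g C.hb₀⟩

theorem exf (a : X) : ∃ c, C.far a c := by
  obtain ⟨g, rfl⟩ := C.trans C.a₀ a
  exact ⟨_, (far_iff g).2 C.hc₀⟩

theorem hk (a : X) : {p | C.adj a p}.ncard = C.k := by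
  obtain ⟨g, rfl⟩ := C.trans C.a₀ a
  exact (ncard_smul g _ _ fun p => (adj_iff g).symm).symm

theorem hl (a : X) : {p | C.far a p}.ncard = C.l := by
  obtain ⟨g, rfl⟩ := C.trans C.a₀ a
  exact (ncard_smul g _ _ fun p => (far_iff g).symm).symm

theorem hh {a b : X} (h : C.adj a b) : Nat.card (St G a b) = C.h := by
  obtain ⟨g, rfl, rfl⟩ := C.tr1 C.hb₀ h
  exact card_St g _ _

theorem hx {a c : X} (h : C.far a c) : Nat.card (St G a c) = C.x := by
  obtain ⟨g, rfl, rfl⟩ := C.tr2 C.hc₀ h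
  exact card_St g _ _

theorem hlam {a b : X} (h : C.adj a b) : {r | C.adj a r ∧ C.adj b r}.ncard = C.lam := by
  obtain ⟨g, rfl, rfl⟩ := C.tr1 C.hb₀ h
  exact (ncard_smul g _ _ fun p => by simp only [Set.mem_setOf_eq, adj_iff]).symm

theorem hmu {a c : X} (h : C.far a c) : {r | C.adj a r ∧ C.adj c r}.ncard = C.mu := by
  obtain ⟨g, rfl, rfl⟩ := C.tr2 C.hc₀ h
  exact (ncard_smul g _ _ fun p => by simp only [Set.mem_setOf_eq, adj_iff]).symm

theorem K_fix {a : X} {g : G} (h : g ∈ C.K a) : g • a = a := (C.memK.1 h).1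

theorem K_adj {a b : X} {g : G} (h : g ∈ C.K a) (hb : C.adj a b) (e : g • b = b) : g = 1 :=
  (C.memK.1 h).2.resolve_right fun h' => h' b hb e

theorem K_far {a c : X} {g : G} (h : g ∈ C.K a) (h1 : g ≠ 1) (hc : c ≠ a) (e : g • c = c) : C.far a c :=
  ⟨hc.symm, fun hb => h1 (K_adj h hb e)⟩

theorem conjK (g : G) {a : X} {s : G} : g * s * g⁻¹ ∈ C.K (g • a) ↔ s ∈ C.K a := by
  rw [C.memK, C.memK, conj_smul_iff]
  refine and_congr Iff.rfl (or_congr (by simp [mul_inv_eq_iff_eq_mul]) ⟨fun h b hb e => ?_, fun h b hb e => ?_⟩)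
  · exact h _ (C.smul g hb) ((conj_smul_iff g s b b).2 e)
  · rw [← smul_inv_smul g b] at hb e
    exact h _ ((adj_iff g).1 hb) ((conj_smul_iff g s _ _).1 e)

theorem conjK' {a : X} {g s : G} (hg : g • a = a) (hs : s ∈ C.K a) : g * s * g⁻¹ ∈ C.K a := by
  have := (conjK g).2 hs
  rwa [hg] at this

theorem exists_fix {a : X} {g : G} (hg : g • a = a) (h : g ∉ C.K a) : ∃ b, C.adj a b ∧ g • b = b := by
  by_contra hc
  exact h (C.memK.2 ⟨hg, Or.inr fun b hb e => hc ⟨b, hb, e⟩⟩)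

theorem fix_uniq {a b b' : X} {g : G} (h1 : g ≠ 1) (hb : C.adj a b) (hb' : C.adj a b') (ha : g • a = a)
    (e : g • b = b) (e' : g • b' = b') : b = b' := by
  by_contra hc
  exact h1 (C.frob hb hb' hc ha e e')

theorem common {a c w : X} {g : G} (hac : a ≠ c) (h1 : C.adj a w) (h2 : C.adj c w) (ha : g • a = a)
    (hc : g • c = c) (hw : g • w = w) : g = 1 := C.frob (C.symm h1) (C.symm h2) hac hw ha hc

theorem cent {a : X} {s g : G} (hs : s ∈ C.K a) (h1 : s ≠ 1) (hg : g • a = a) (hc : g * s = s * g) :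
    g ∈ C.K a := by
  by_contra h
  obtain ⟨b, hb, e⟩ := exists_fix hg h
  have h2 : g ≠ 1 := fun e => h (e ▸ one_mem _)
  exact h1 (K_adj hs hb (fix_uniq h2 (adj_smul hb (K_fix hs)) hb hg (by rw [← mul_smul, hc, mul_smul, e]) e))

variable [Finite G]

theorem univ_of_inv (C : Cfg G X) (S : Set X) (a : X) (h1 : ∀ g : G, g • a = a → ∀ s ∈ S, g • s ∈ S) {g₀ : G}
    (h2 : g₀ • a ≠ a) (h3 : ∀ s ∈ S, g₀ • s ∈ S) {s₀ : X} (hs : s₀ ∈ S) (p : X) : p ∈ S := by
  let T : Subgroup G :=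
    { carrier := {g | ∀ s ∈ S, g • s ∈ S}
      mul_mem' := fun {g g'} hg hg' s hs => by rw [mul_smul]; exact hg _ (hg' s hs)
      one_mem' := fun s hs => by rwa [one_smul]
      inv_mem' := fun {g} hg s hs => by
        have key : ∀ n : ℕ, (g ^ n) • s ∈ S := fun n => by
          induction n with
          | zero => simpa using hs
          | succ n ih => rw [pow_succ', mul_smul]; exact hg _ ih
        have : g⁻¹ = g ^ (orderOf g - 1) := by
          rw [inv_eq_iff_mul_eq_one, ← pow_succ', Nat.sub_add_cancel (orderOf_pos g), pow_orderOf_eq_one]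
        rw [this]; exact key _ }
  have hT : T = ⊤ := (C.max a).2 T (lt_of_le_of_ne (fun g hg => h1 g hg) fun e => h2 (by
    have : g₀ ∈ T := h3
    rw [← e] at this
    exact this))
  obtain ⟨g, rfl⟩ := C.trans s₀ p
  have : g ∈ T := hT ▸ Subgroup.mem_top g
  exact this _ hs

theorem exists_move (C : Cfg G X) {a c : X} (hac : a ≠ c) : ∃ g : G, g • c = c ∧ g • a ≠ a := by
  by_contra hc
  push Not at hc
  rcases C.tri c a with h | h | h
  · exact hac h
  · obtain ⟨b, hb, hba⟩ := C.two h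
    obtain ⟨g, h1, h2⟩ := C.tr1 h hb
    exact hba (h2 ▸ hc g h1)
  · obtain ⟨g, h1, h2⟩ := C.tr2 h h.symm
    obtain ⟨b, hb⟩ := C.exa c
    have := C.univ_of_inv {c, a} c (by
      rintro g hg s (rfl | rfl)
      exacts [Or.inl hg, Or.inr (hc g hg)]) (g₀ := g) (h1 ▸ hac) (by
      rintro s (rfl | rfl)
      exacts [Or.inr h1, Or.inl h2]) (Or.inl rfl) b
    rcases this with rfl | rfl
    exacts [C.irr _ hb, h.2 hb]

variable [Finite X]

theorem exists_far_of_far {a c : X} (h : C.far a c) : ∃ p, C.adj c p ∧ C.far a p := by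
  by_contra hc
  push Not at hc
  have h1 : {p | C.adj c p} ⊆ {p | C.adj a p} := fun p hp =>
    ((C.tri a p).resolve_left fun e => h.symm.2 (e ▸ hp)).resolve_right (hc p hp)
  have h2 := Set.eq_of_subset_of_ncard_le h1 (by rw [hk, hk])
  obtain ⟨g, hg, hga⟩ := C.exists_move h.1
  obtain ⟨b, hb⟩ := C.exa a
  exact C.irr a (C.univ_of_inv {p | C.adj a p} a (fun g hg s hs => adj_smul hs hg) hga
    (fun s hs => by rw [← h2] at hs ⊢; exact adj_smul hs hg) hb a)

theorem exists_far_of_adj {a b : X} (h : C.adj a b) : ∃ p, C.adj b p ∧ C.far a p := by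
  by_contra hc
  push Not at hc
  have h1 : insert b {p | C.adj b p} ⊆ insert a {p | C.adj a p} := by
    rintro p (rfl | hp)
    · exact Or.inr h
    · rcases C.tri a p with e | e | e
      exacts [Or.inl e, Or.inr e, (hc p hp e).elim]
  have h2 := Set.eq_of_subset_of_ncard_le h1 (by
    rw [Set.ncard_insert_of_notMem (s := {p | C.adj a p}) (C.irr a),
      Set.ncard_insert_of_notMem (s := {p | C.adj b p}) (C.irr b), hk, hk])
  obtain ⟨g, hg, hga⟩ := C.exists_move (adj_ne h)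
  obtain ⟨c, hc⟩ := C.exf a
  have key : ∀ {a : X} {g : G}, g • a = a → ∀ s ∈ insert a {p | C.adj a p}, g • s ∈ insert a {p | C.adj a p} := by
    rintro a g hg s (rfl | hs)
    exacts [Or.inl hg, Or.inr (adj_smul hs hg)]
  rcases C.univ_of_inv _ a (fun g hg => key hg) hga (by rw [← h2]; exact key hg) (Or.inl rfl) c with e | e
  exacts [hc.1 e.symm, hc.2 e]

theorem card_K (a : X) : Nat.card (C.K a) = C.k := by
  obtain ⟨b, hb⟩ := C.exa a
  rw [card_of_trans (C.K a) {p | C.adj a p} 1 (fun g hg => adj_smul hb (K_fix hg)) (fun q hq => C.trK hb hq) (by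
    rw [Set.ncard_eq_one]
    exact ⟨1, Set.eq_singleton_iff_unique_mem.2 ⟨⟨one_mem _, one_smul _ _⟩, fun g hg => K_adj hg.1 hb hg.2⟩⟩),
    hk, mul_one]

theorem card_M (a : X) : Nat.card (stabilizer G a) = C.k * C.h := by
  obtain ⟨b, hb⟩ := C.exa a
  rw [card_of_trans (stabilizer G a) {p | C.adj a p} C.h (fun g hg => adj_smul hb hg)
    (fun q hq => C.tr1 hb hq) (hh hb), hk]

theorem kh_eq : C.k * C.h = C.l * C.x := by
  obtain ⟨c, hc⟩ := C.exf C.a₀
  rw [← card_M C.a₀, card_of_trans (stabilizer G C.a₀) {p | C.far C.a₀ p} C.x (fun g hg => hc.smul hg)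
    (fun q hq => C.tr2 hc hq) (hx hc), hl]

theorem card_G : Nat.card G = Nat.card X * (C.k * C.h) := by
  rw [← Subgroup.card_top, card_of_trans (⊤ : Subgroup G) (Set.univ : Set X) (C.k * C.h) (p := C.a₀)
    (fun _ _ => trivial) (fun q _ => by simpa using C.trans C.a₀ q) (by
      rw [← card_M C.a₀]; simp only [Subgroup.mem_top, true_and]; rfl), Set.ncard_univ]

theorem sum_three [Fintype X] (a : X) (F : X → ℕ) (c₁ c₂ : ℕ) (h1 : ∀ b, C.adj a b → F b = c₁)
    (h2 : ∀ c, C.far a c → F c = c₂) : ∑ p, F p = F a + C.k * c₁ + C.l * c₂ := by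
  classical
  have e : ∀ p, F p = (if p = a then F a else 0) + (if C.adj a p then F p else 0) +
      (if C.far a p then F p else 0) := fun p => by
    rcases C.tri a p with h | h | h
    · subst h; simp [C.irr, far]
    · simp [h, (adj_ne h).symm, far]
    · simp [h, h.1.symm, h.2]
  rw [Finset.sum_congr rfl fun p _ => e p, Finset.sum_add_distrib, Finset.sum_add_distrib,
    sum_on {p | C.adj a p} (fun p => if C.adj a p then F p else 0) c₁ (fun b hb => if_neg hb)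
      (fun b hb => (if_pos hb).trans (h1 b hb)),
    sum_on {p | C.far a p} (fun p => if C.far a p then F p else 0) c₂ (fun b hb => if_neg hb)
      (fun b hb => (if_pos hb).trans (h2 b hb)), hk, hl]
  simp

theorem card_X : Nat.card X = 1 + C.k + C.l := by
  have := Fintype.ofFinite X
  have h := C.sum_three C.a₀ (fun _ => 1) 1 1 (fun _ _ => rfl) (fun _ _ => rfl)
  simpa using h

theorem two_le_h : 2 ≤ C.h := by
  obtain ⟨g, h1, h2⟩ := C.ntriv C.hb₀
  have : Nontrivial (St G C.a₀ C.b₀) := ⟨⟨⟨g, h2⟩, 1, fun e => h1 (congrArg Subtype.val e)⟩⟩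
  exact Finite.one_lt_card

theorem x_pos : 0 < C.x := Nat.card_pos

theorem l_pos : 0 < C.l := (Set.ncard_pos (Set.toFinite _)).2 ⟨_, C.hc₀⟩

theorem x_dvd_mu : C.x ∣ C.mu :=
  card_dvd_smul (St G C.a₀ C.c₀) _ (fun g hg s hs => ⟨adj_smul hs.1 hg.1, adj_smul hs.2 hg.2⟩)
    fun s hs g hg e => common C.hc₀.1 hs.1 hs.2 hg.1 hg.2 e

theorem h_dvd_lam : C.h ∣ C.lam :=
  card_dvd_smul (St G C.a₀ C.b₀) _ (fun g hg s hs => ⟨adj_smul hs.1 hg.1, adj_smul hs.2 hg.2⟩)
    fun s hs g hg e => common (adj_ne C.hb₀) hs.1 hs.2 hg.1 hg.2 e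

theorem split_far {a c : X} (h : C.far a c) : C.mu + {p | C.adj c p ∧ C.far a p}.ncard = C.k := by
  rw [← hmu h, ← hk c, ← Set.ncard_union_eq (Set.disjoint_left.2 fun p h1 h2 => h2.2.2 h1.1)]
  congr 1
  ext p
  refine ⟨fun h => h.elim And.right And.left, fun hp => ?_⟩
  rcases C.tri a p with e | e | e
  exacts [(h.symm.2 (e ▸ hp)).elim, Or.inl ⟨e, hp⟩, Or.inr ⟨hp, e⟩]

theorem split_adj {a b : X} (h : C.adj a b) : 1 + C.lam + {p | C.adj b p ∧ C.far a p}.ncard = C.k := by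
  rw [← hlam h, ← hk b, add_assoc, ← Set.ncard_union_eq (Set.disjoint_left.2 fun p h1 h2 => h2.2.2 h1.1),
    add_comm, ← Set.ncard_insert_of_notMem (a := a) (by
      rintro (h1 | h1)
      exacts [C.irr a h1.1, h1.2.1 rfl])]
  congr 1
  ext p
  refine ⟨?_, fun hp => ?_⟩
  · rintro (rfl | h1 | h1)
    exacts [C.symm h, h1.2, h1.1]
  · rcases C.tri a p with e | e | e
    exacts [Or.inl e, Or.inr (Or.inl ⟨e, hp⟩), Or.inr (Or.inr ⟨hp, e⟩)]

theorem mu_lt : C.mu < C.k := by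
  obtain ⟨p, hp⟩ := C.exists_far_of_far C.hc₀
  have h1 := C.split_far C.hc₀
  have h2 : 0 < {p | C.adj C.c₀ p ∧ C.far C.a₀ p}.ncard := (Set.ncard_pos (Set.toFinite _)).2 ⟨p, hp⟩
  omega

theorem exists_uv : ∃ u v, 1 ≤ u ∧ C.lam = C.h * v ∧ C.k = 1 + C.h * (u + v) ∧ C.l * C.mu = C.k * (C.h * u) := by
  obtain ⟨v, hv⟩ := C.h_dvd_lam
  obtain ⟨u, hu⟩ : C.h ∣ {p | C.adj C.b₀ p ∧ C.far C.a₀ p}.ncard :=
    card_dvd_smul (St G C.a₀ C.b₀) _ (fun g hg s hs => ⟨adj_smul hs.1 hg.2, hs.2.smul hg.1⟩)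
      fun s hs g hg e => C.frob (C.symm C.hb₀) hs.1 hs.2.1 hg.2 hg.1 e
  obtain ⟨p, hp⟩ := C.exists_far_of_adj C.hb₀
  have h2 : 0 < {p | C.adj C.b₀ p ∧ C.far C.a₀ p}.ncard := (Set.ncard_pos (Set.toFinite _)).2 ⟨p, hp⟩
  have h1 := C.split_adj C.hb₀
  refine ⟨u, v, Nat.pos_of_ne_zero (by rintro rfl; omega), hv, by rw [← h1, hu, hv]; ring, ?_⟩
  rw [← hl C.a₀, ← hk C.a₀]
  refine dc_mul _ _ (fun c b => C.adj c b) _ _ (fun c hc => hmu hc) fun b hb => ?_
  have h3 := C.split_adj hb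
  have h4 : {c | c ∈ {p | C.far C.a₀ p} ∧ C.adj c b} = {p | C.adj b p ∧ C.far C.a₀ p} :=
    Set.ext fun p => ⟨fun h => ⟨C.symm h.2, h.1⟩, fun h => ⟨h.2, C.symm h.1⟩⟩
  rw [h4]
  omega

theorem coprime_kh : C.k.Coprime C.h := by
  obtain ⟨u, v, -, -, h, -⟩ := C.exists_uv
  rw [h, Nat.coprime_add_mul_left_left]
  exact Nat.coprime_one_left _

theorem memK_iff {a : X} {g : G} (hg : g • a = a) : g ∈ C.K a ↔ g ^ C.k = 1 := by
  refine ⟨fun h => ?_, fun h => ?_⟩
  · rw [← orderOf_dvd_iff_pow_eq_one, ← card_K a]; exact (C.K a).orderOf_dvd_natCard h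
  · by_contra hc
    obtain ⟨b, hb, e⟩ := exists_fix hg hc
    have h1 : orderOf g ∣ C.h := hh hb ▸ (St G a b).orderOf_dvd_natCard ⟨hg, e⟩
    have h2 := Nat.eq_one_of_dvd_coprimes C.coprime_kh (orderOf_dvd_of_pow_eq_one h) h1
    exact hc (orderOf_eq_one_iff.1 h2 ▸ one_mem _)

theorem K_swap {a c : X} {g : G} (h : g ∈ C.K a) (hc : g • c = c) : g ∈ C.K c :=
  (memK_iff hc).2 ((memK_iff (K_fix h)).1 h)

theorem exists_far_move {a : X} {g : G} (h : g ∈ C.K a) (h1 : g ≠ 1) : ∃ c, C.far a c ∧ g • c ≠ c := by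
  by_contra hc
  push Not at hc
  obtain ⟨c, hac⟩ := C.exf a
  obtain ⟨p, hp, hp'⟩ := C.exists_far_of_far hac
  exact h1 (K_adj (K_swap h (hc c hac)) hp (hc p hp'))

/-- The trace lemma for the whole graph. -/
theorem trace_all : ∃ m₁ m₂ : ℕ, m₁ + m₂ = C.k + C.l ∧
    ((m₁ = m₂ ∧ ((C.mu - C.lam) * (C.k + C.l) - 2 * C.k : ℤ) = 0) ∨
      ∃ δ : ℕ, (δ * δ : ℤ) = (C.mu - C.lam) * (C.mu - C.lam) + 4 * (C.k - C.mu) ∧
        ((C.mu - C.lam) * (C.k + C.l) - 2 * C.k : ℤ) = δ * (m₁ - m₂)) := by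
  have := Fintype.ofFinite X
  obtain ⟨m₁, m₂, -, -, h1, h2⟩ := trace_srg C.adj (fun _ _ => C.symm) C.irr (fun g _ _ => C.smul g) C.k C.lam C.mu hk
    (fun _ _ => hlam) (fun _ _ h h' => hmu ⟨h, h'⟩) C.mu_lt (⊥ : Subgroup G) C.a₀ C.b₀ C.c₀
    (fun g hg => by rw [Subgroup.mem_bot.1 hg, one_smul]) C.hb₀ C.hc₀.1 C.hc₀.2 (1 + C.k + C.l) 0
    (by
      have : ∀ p : X, {g : G | g ∈ (⊥ : Subgroup G) ∧ g • p = p} = {1} := fun p =>
        Set.eq_singleton_iff_unique_mem.2 ⟨⟨one_mem _, one_smul _ _⟩, fun g hg => hg.1⟩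
      simp only [this]
      simp [← C.card_X])
    (by
      have : ∀ p : X, {g : G | g ∈ (⊥ : Subgroup G) ∧ C.adj p (g • p)} = ∅ := fun p =>
        Set.eq_empty_iff_forall_notMem.2 fun g hg => C.irr p (by
          have := hg.2
          rwa [Subgroup.mem_bot.1 hg.1, one_smul] at this)
      simp only [this]
      simp)
  refine ⟨m₁, m₂, by omega, ?_⟩
  have e : (2 * (0 : ℕ) + (C.mu - C.lam) * (1 + C.k + C.l : ℕ) - (2 * C.k + (C.mu - C.lam)) : ℤ) =
      (C.mu - C.lam) * (C.k + C.l) - 2 * C.k := by push_cast; ring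
  rwa [e] at h2

end Cfg

end CL.Rk3
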