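/-
Rank three extensions of Frobenius groups (S2207), part c: kernel of even order, first case.
-/
import Cfsg.Agent.Perm.Rk3b
import Cfsg.Agent.Grp.PGroupBasic

set_option autoImplicit false

namespace CL.Rk3

open MulAction Subgroup

variable {G X : Type*} [Group G] [MulAction G X]

theorem dih_swap {t t' : G} (ht : t * t = 1) (ht' : t' * t' = 1) (j : ℕ) :
    (t * t') ^ j * t = t * ((t * t') ^ j)⁻¹ := by
  have h1 : t⁻¹ = t := inv_eq_of_mul_eq_one_right ht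
  have h2 : t'⁻¹ = t' := inv_eq_of_mul_eq_one_right ht'
  induction j with
  | zero => simp
  | succ j ih => rw [pow_succ', mul_assoc, ih, ← pow_succ', pow_succ, mul_inv_rev, mul_inv_rev, h1, h2]; group

theorem dih_conj {t t' : G} (ht : t * t = 1) (ht' : t' * t' = 1) (r : ℕ) :
    ∃ g : G, (t * t') ^ r * t = g * t * g⁻¹ ∨ (t * t') ^ r * t = g * t' * g⁻¹ := by
  obtain ⟨j, rfl | rfl⟩ := Nat.even_or_odd' r
  · exact ⟨(t * t') ^ j, Or.inl (by
      rw [two_mul, pow_add, mul_assoc, mul_assoc ((t * t') ^ j) t, ← dih_swap ht ht' j])⟩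
  · refine ⟨(t * t') ^ j * t, Or.inr ?_⟩
    rw [two_mul, add_assoc, add_comm j 1, ← add_assoc, pow_add, mul_assoc, pow_succ, mul_inv_rev,
      inv_eq_of_mul_eq_one_right ht, ← dih_swap ht ht' j]
    simp only [mul_assoc]

namespace Cfg

variable (C : Cfg G X)

/-- The involutions in the centre of the kernel. -/
def Z (a : X) : Subgroup G where
  carrier := {z | z ∈ C.K a ∧ z * z = 1 ∧ ∀ g ∈ C.K a, g * z = z * g}
  mul_mem' := fun {z w} hz hw => ⟨mul_mem hz.1 hw.1, by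
    rw [mul_assoc, ← mul_assoc w, hz.2.2 w hw.1, mul_assoc, hw.2.1, mul_one, hz.2.1], fun g hg => by
    rw [← mul_assoc, hz.2.2 g hg, mul_assoc, hw.2.2 g hg, mul_assoc]⟩
  one_mem' := ⟨one_mem _, mul_one 1, fun g _ => by simp⟩
  inv_mem' := fun {z} hz => by rwa [inv_eq_of_mul_eq_one_right hz.2.1]

variable {C}

theorem Z_fix {a : X} {z : G} (h : z ∈ C.Z a) : z • a = a := K_fix h.1

theorem Z_comm {a : X} {z w : G} (h : z ∈ C.Z a) (hw : w ∈ C.Z a) : w * z = z * w := h.2.2 w hw.1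

theorem conjZ (g : G) {a : X} {s : G} (h : s ∈ C.Z a) : g * s * g⁻¹ ∈ C.Z (g • a) := by
  refine ⟨(conjK g).2 h.1, by rw [conj_mul, h.2.1]; group, fun w hw => ?_⟩
  have h1 : g⁻¹ * w * g ∈ C.K a := by
    have := (conjK g⁻¹).2 hw
    rwa [inv_inv, inv_smul_smul] at this
  have h2 := congrArg (fun y => g * y * g⁻¹) (h.2.2 _ h1)
  simpa [mul_assoc] using h2

theorem conjZ' {a : X} {g s : G} (hg : g • a = a) (h : s ∈ C.Z a) : g * s * g⁻¹ ∈ C.Z a := by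
  have := conjZ g h
  rwa [hg] at this

theorem pgroup_of_sq {Q : Subgroup G} (h : ∀ z ∈ Q, z * z = 1) : IsPGroup 2 Q :=
  fun z => ⟨1, Subtype.ext (by simpa [pow_two] using h z z.2)⟩

theorem Z_pgroup (a : X) : IsPGroup 2 (C.Z a) := pgroup_of_sq fun _ h => h.2.1

variable [Finite G] [Finite X]

theorem Z_ne (h2 : Even C.k) (a : X) : ∃ z ∈ C.Z a, z ≠ 1 := by
  have := C.nilp a
  have : Fact (Nat.Prime 2) := ⟨Nat.prime_two⟩
  obtain ⟨P⟩ : Nonempty (Sylow 2 (C.K a)) := inferInstance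
  have hP : (P : Subgroup (C.K a)).Normal :=
    Sylow.normal_of_normalizerCondition (normalizerCondition_of_isNilpotent (G := C.K a)) P
  have h1 : (P : Subgroup (C.K a)) ≠ ⊥ := P.ne_bot_of_dvd_card (by rw [card_K]; exact h2.two_dvd)
  have h3 := CL.Grp.inf_center_ne_bot h1
  have h4 : IsPGroup 2 ((P : Subgroup (C.K a)) ⊓ center (C.K a) : Subgroup (C.K a)) := P.isPGroup'.to_inf_left
  obtain ⟨n, hn⟩ := IsPGroup.iff_card.1 h4
  obtain ⟨z, hz⟩ := exists_prime_orderOf_dvd_card' (G := ((P : Subgroup (C.K a)) ⊓ center (C.K a) : Subgroup (C.K a)))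
    2 (by
      rw [hn]
      refine dvd_pow_self 2 fun h => h3 ?_
      rw [h, pow_zero] at hn
      exact eq_bot_of_card_eq _ hn)
  rw [← Subgroup.orderOf_coe, ← Subgroup.orderOf_coe] at hz
  refine ⟨z.1.1, ⟨z.1.2, by rw [← pow_two, ← orderOf_dvd_iff_pow_eq_one, hz], fun g hg => ?_⟩, fun e => ?_⟩
  · exact congrArg Subtype.val (mem_center_iff.1 z.2.2 ⟨g, hg⟩)
  · rw [e, orderOf_one] at hz
    omega

theorem Z_far (h2 : Even C.k) {a c : X} (h : C.far a c) : ∃ z ∈ C.Z a, z • c ≠ c := by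
  obtain ⟨z, hz, h1⟩ := Z_ne h2 a
  obtain ⟨c', hc', h3⟩ := exists_far_move hz.1 h1
  obtain ⟨g, hg, e⟩ := C.tr2 hc' h
  exact ⟨_, conjZ' hg hz, by rw [← e]; exact fun h => h3 ((conj_smul_iff g z _ _).1 h)⟩

theorem Z_fix_eq (h2 : Even C.k) {c p : X} (h : ∀ z ∈ C.Z c, z • p = p) : p = c := by
  rcases C.tri c p with e | e | e
  · exact e
  · obtain ⟨z, hz, h1⟩ := Z_ne h2 c
    exact (h1 (K_adj hz.1 e (h z hz))).elim
  · obtain ⟨z, hz, h1⟩ := Z_far h2 e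
    exact (h1 (h z hz)).elim

theorem odd_h (h2 : Even C.k) : Odd C.h := by
  by_contra h
  have := Nat.eq_one_of_dvd_coprimes C.coprime_kh h2.two_dvd (Nat.not_odd_iff_even.1 h).two_dvd
  omega

theorem odd_n (h2 : Even C.k) : Odd (Nat.card X) := by
  have h1 : Even C.l := by
    by_contra h
    obtain ⟨c, hc, h3⟩ := exists_fixed (C.Z C.a₀) (Z_pgroup _) {p | C.far C.a₀ p}
      (fun g hg s hs => hs.smul (Z_fix hg)) (Nat.not_even_iff_odd.1 h)
    exact hc.1 (Z_fix_eq h2 h3).symm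
  rw [C.card_X, add_assoc]
  exact (h2.add h1).one_add

theorem exists_orb (h2 : Even C.k) {a : X} {L Q : Subgroup G} (hL : C.K a ≤ L) (hQ : Q ≤ L) (hp : IsPGroup 2 Q) :
    ∃ g ∈ L, ∀ q ∈ Q, q • g • a = g • a := by
  have h1 := card_of_trans L {p | ∃ g ∈ L, g • a = p} (Nat.card (L ⊓ stabilizer G a : Subgroup G)) (p := a)
    (fun g hg => ⟨g, hg, rfl⟩) (fun q hq => hq) rfl
  obtain ⟨m, hm⟩ : C.k ∣ Nat.card (L ⊓ stabilizer G a : Subgroup G) :=
    card_K (C := C) a ▸ card_dvd_of_le fun g hg => ⟨hL hg, K_fix hg⟩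
  have h3 := card_subgroup_dvd_card L
  rw [h1, hm, C.card_G, mul_left_comm, mul_left_comm (Nat.card X)] at h3
  have h4 := (Nat.dvd_of_mul_dvd_mul_left (lt_of_le_of_lt (Nat.zero_le _) C.mu_lt) h3)
  obtain ⟨s, ⟨g, hg, rfl⟩, hs⟩ := exists_fixed Q hp {p | ∃ g ∈ L, g • a = p}
    (by rintro q hq _ ⟨g, hg, rfl⟩; exact ⟨q * g, mul_mem (hQ hq) hg, mul_smul _ _ _⟩)
    (((odd_n h2).mul (odd_h h2)).of_dvd_nat ((Dvd.intro _ rfl).trans h4))
  exact ⟨g, hg, hs⟩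

theorem exists_orbZ (h2 : Even C.k) {a c : X} {L : Subgroup G} (hL : C.K a ≤ L) (hQ : C.Z c ≤ L) :
    ∃ g ∈ L, g • a = c := by
  obtain ⟨g, hg, h⟩ := exists_orb h2 hL hQ (Z_pgroup c)
  exact ⟨g, hg, Z_fix_eq h2 h⟩

theorem exists_comm (h2 : Even C.k) {a c : X} {z : G} (hz : z ∈ C.Z a) (hc : z • c = c) :
    ∃ g : G, z * g = g * z ∧ g • a = c := by
  obtain ⟨g, hg, e⟩ := exists_orbZ h2 (a := a) (c := c) (L := centralizer {z})
    (fun g hg => mem_centralizer_singleton_iff.2 (hz.2.2 g hg))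
    (fun g hg => mem_centralizer_singleton_iff.2 (hg.2.2 z (K_swap hz.1 hc)).symm)
  exact ⟨g, (mem_centralizer_singleton_iff.1 hg).symm, e⟩

theorem Z_swap (h2 : Even C.k) {a c : X} {z : G} (hz : z ∈ C.Z a) (hc : z • c = c) : z ∈ C.Z c := by
  obtain ⟨g, hg, rfl⟩ := exists_comm h2 hz hc
  have := conjZ g hz
  rwa [← hg, mul_inv_cancel_right] at this

theorem h_dvd_Z (a : X) (S : Set G) (h1 : ∀ s ∈ S, s ∈ C.K a ∧ s ≠ 1)
    (h3 : ∀ g : G, g • a = a → ∀ s ∈ S, g * s * g⁻¹ ∈ S) : C.h ∣ S.ncard := by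
  obtain ⟨b, hb⟩ := C.exa a
  exact hh hb ▸ card_dvd_conj (St G a b) S (fun g hg => h3 g hg.1)
    fun s hs g hg e => K_adj (cent (h1 s hs).1 (h1 s hs).2 hg.1 e) hb hg.2

theorem h_le_Z (h2 : Even C.k) (a : X) : C.h ≤ {z | z ∈ C.Z a ∧ z ≠ 1}.ncard :=
  Nat.le_of_dvd ((Set.ncard_pos (Set.toFinite _)).2 (Z_ne h2 a)) (h_dvd_Z a _ (fun s hs => ⟨hs.1.1, hs.2⟩)
    fun g hg s hs => ⟨conjZ' hg hs.1, fun e => hs.2 (by simpa [mul_inv_eq_iff_eq_mul] using e)⟩)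

section Iso

variable (hI : ∀ {a c : X} {z : G}, z ∈ C.Z a → z ≠ 1 → z • c = c → c = a)
include hI

omit [Finite X] in
theorem iso_odd {a c : X} {t t' : G} (ht : t ∈ C.Z a) (h1 : t ≠ 1) (ht' : t' ∈ C.Z c) (h1' : t' ≠ 1) (hac : a ≠ c) :
    Odd (orderOf (t * t')) := by
  by_contra ho
  obtain ⟨r, hr⟩ := Nat.not_odd_iff_even.1 ho
  have h0 := orderOf_pos (t * t')
  have h3 : (t * t') ^ r ≠ 1 := pow_ne_one_of_lt_orderOf (by omega) (by omega)
  have h4 : ((t * t') ^ r)⁻¹ = (t * t') ^ r := by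
    rw [inv_eq_iff_mul_eq_one, ← pow_add, ← hr, pow_orderOf_eq_one]
  have h5 : (t * t') ^ r * t = t * (t * t') ^ r := by rw [dih_swap ht.2.1 ht'.2.1, h4]
  have h6 : (t * t') ^ r * t' = t' * (t * t') ^ r := by
    apply mul_left_cancel (a := t)
    rw [← mul_assoc, ← h5, mul_assoc, ← pow_succ, ← mul_assoc, ← pow_succ']
  have h7 : (t * t') ^ r • a = a := hI ht h1 (by rw [← mul_smul, ← h5, mul_smul, Z_fix ht])
  have h8 : (t * t') ^ r • c = c := hI ht' h1' (by rw [← mul_smul, ← h6, mul_smul, Z_fix ht'])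
  have h9 : ∃ e, (t * t') ^ r * t ∈ C.Z e ∧ (t * t') ^ r * t ≠ 1 := by
    obtain ⟨g, e | e⟩ := dih_conj ht.2.1 ht'.2.1 r
    · exact ⟨_, e ▸ conjZ g ht, fun h => h1 (by simpa [e, mul_inv_eq_iff_eq_mul] using h)⟩
    · exact ⟨_, e ▸ conjZ g ht', fun h => h1' (by simpa [e, mul_inv_eq_iff_eq_mul] using h)⟩
  obtain ⟨e, he, he1⟩ := h9
  obtain rfl : a = e := hI he he1 (by rw [mul_smul, Z_fix ht, h7])
  exact hac (hI ((mul_mem_cancel_right ht).1 he) h3 h8).symm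

omit [Finite X] in
theorem iso_swap {a c : X} {t t' : G} (ht : t ∈ C.Z a) (h1 : t ≠ 1) (ht' : t' ∈ C.Z c) (h1' : t' ≠ 1) (hac : a ≠ c) :
    ∃ s : G, (∃ e, s ∈ C.Z e) ∧ s * t * s⁻¹ = t' ∧ s • a = c ∧
      ∀ y : G, y * t = t * y → y * t' = t' * y → y * s = s * y := by
  obtain ⟨j, hj⟩ := iso_odd hI ht h1 ht' h1' hac
  have h3 : (t * t') ^ j * t * t * ((t * t') ^ j * t)⁻¹ = t' := by
    have h4 : (t * t') ^ j * (t * t') ^ j * (t * t') = 1 := by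
      rw [← pow_add, ← pow_succ, ← two_mul, ← hj, pow_orderOf_eq_one]
    rw [mul_inv_rev, ← mul_assoc, mul_inv_cancel_right, mul_assoc, ← dih_swap ht.2.1 ht'.2.1, ← mul_assoc]
    exact (eq_inv_of_mul_eq_one_left (by rw [mul_assoc, h4])).trans (inv_eq_of_mul_eq_one_right ht'.2.1)
  refine ⟨(t * t') ^ j * t, ?_, h3, ?_, fun y hy hy' => ?_⟩
  · obtain ⟨g, e | e⟩ := dih_conj ht.2.1 ht'.2.1 j
    exacts [⟨_, e ▸ conjZ g ht⟩, ⟨_, e ▸ conjZ g ht'⟩]
  · exact hI ht' h1' (Z_fix (h3 ▸ conjZ _ ht))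
  · exact (((Commute.mul_right hy hy').pow_right j).mul_right hy : Commute y _)

theorem iso_false (h2 : Even C.k) : False := by
  obtain ⟨a, c, hc⟩ : ∃ a c, C.far a c := ⟨_, _, C.hc₀⟩
  obtain ⟨t, ht, h1⟩ := Z_ne h2 a
  choose! σ hσ using fun t' (h : t' ∈ C.Z c ∧ t' ≠ 1) => iso_swap hI ht h1 h.1 h.2 hc.1
  set S := {z | z ∈ C.Z c ∧ z ≠ 1} with hS
  have hinj : ∀ u ∈ S, ∀ v ∈ S, σ u = σ v → u = v := fun u hu v hv e => by
    rw [← (hσ u hu).2.1, e, (hσ v hv).2.1]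
  have hsq : ∀ u ∈ S, σ u * σ u = 1 := fun u hu => by
    obtain ⟨e, he⟩ := (hσ u hu).1
    exact he.2.1
  have hback : ∀ u ∈ S, σ u • c = a := fun u hu => by
    rw [← (hσ u hu).2.2.1, ← mul_smul, hsq u hu, one_smul]
  have hSt : ∀ u ∈ S, ∀ v ∈ S, σ u * σ v ∈ St G a c := fun u hu v hv =>
    ⟨by rw [mul_smul, (hσ v hv).2.2.1, hback u hu],
      by rw [mul_smul, hback v hv, (hσ u hu).2.2.1]⟩
  have hne : ∀ u ∈ S, σ u ≠ 1 := fun u hu e => hc.1 (by rw [← (hσ u hu).2.2.1, e, one_smul])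
  have hodd : ∀ u ∈ S, ∀ v ∈ S, σ u * σ v = σ v * σ u → u = v := fun u hu v hv e => by
    obtain ⟨e₁, he₁⟩ := (hσ u hu).1
    obtain ⟨e₂, he₂⟩ := (hσ v hv).1
    by_contra huv
    have h3 : σ u * σ v ≠ 1 := fun h => huv (hinj u hu v hv (by
      rw [← inv_eq_of_mul_eq_one_right h, inv_eq_of_mul_eq_one_right (hsq u hu)]))
    by_cases h : e₁ = e₂
    · subst h
      have h4 := hI (mul_mem he₁ he₂) h3 (hSt u hu v hv).1
      exact hc.1 (by rw [← (hσ u hu).2.2.1, h4, Z_fix he₁])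
    · have h4 := iso_odd hI he₁ (hne u hu) he₂ (hne v hv) h
      rw [orderOf_eq_prime (p := 2) (by
        rw [pow_two, mul_assoc, ← mul_assoc (σ v), ← e, mul_assoc, hsq v hv, mul_one, hsq u hu]) h3] at h4
      exact absurd h4 (by decide)
  have h3 : 3 ≤ C.h := by
    have := C.two_le_h
    obtain ⟨m, hm⟩ := odd_h h2
    omega
  have h4 : C.h ≤ S.ncard := h_le_Z h2 c
  obtain ⟨u, hu, v, hv, huv⟩ := (Set.one_lt_ncard (s := S)).1 (by omega)
  have hY : ∀ y ∈ C.K a, y • c = c → y = 1 := fun y hy hyc => by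
    by_contra hy1
    have h5 : ∀ w ∈ C.K a, w • c = c → ∀ u ∈ S, w * σ u = σ u * w := fun w hw hwc u hu =>
      (hσ u hu).2.2.2 w (ht.2.2 w hw) (hu.1.2.2 w (K_swap hw hwc))
    have h6 : σ u * σ v ∈ C.K a := cent hy hy1 (hSt u hu v hv).1 (by
      rw [mul_assoc, ← h5 y hy hyc v hv, ← mul_assoc, ← h5 y hy hyc u hu, mul_assoc])
    have h7 := h5 _ h6 (hSt u hu v hv).2 u hu
    rw [mul_assoc] at h7
    exact huv (hodd u hu v hv (mul_left_cancel h7).symm)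
  have h5 : C.k * C.x ≤ C.k * C.h := by
    have := ncard_mul_le (C.K a) (St G a c) {g | g ∈ stabilizer G a}
      (eq_bot_iff.2 fun g hg => hY g hg.1 hg.2.2) (fun g hg g' hg' => (stabilizer G a).mul_mem (K_fix hg) hg'.1)
    rwa [card_K, hx hc, ← card_eq_ncard, card_M (C := C)] at this
  have h6 : C.x ≤ C.h := Nat.le_of_mul_le_mul_left h5 (lt_of_le_of_lt (Nat.zero_le _) C.mu_lt)
  have h7 : (fun w => σ u * σ w) '' S = {g | g ∈ St G a c} :=
    Set.eq_of_subset_of_ncard_le (by rintro _ ⟨w, hw, rfl⟩; exact hSt u hu w hw) (by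
      rw [Set.InjOn.ncard_image fun w hw w' hw' e => hinj w hw w' hw' (mul_left_cancel e), ← card_eq_ncard, hx hc]
      omega)
  have h8 : C.h ≤ C.x := by
    rw [← hx hc, card_eq_ncard, ← h7,
      Set.InjOn.ncard_image fun w hw w' hw' e => hinj w hw w' hw' (mul_left_cancel e)]
    exact h4
  have hinv : ∀ g ∈ St G a c, σ u * g * σ u = g⁻¹ := fun g hg => by
    obtain ⟨w, hw, rfl⟩ : g ∈ (fun w => σ u * σ w) '' S := h7 ▸ hg
    rw [← mul_assoc, hsq u hu, one_mul, mul_inv_rev, inv_eq_of_mul_eq_one_right (hsq u hu),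
      inv_eq_of_mul_eq_one_right (hsq w hw)]
  have hab : ∀ g ∈ St G a c, ∀ g' ∈ St G a c, g * g' = g' * g := fun g hg g' hg' => by
    apply inv_injective
    rw [← hinv _ (mul_mem hg hg'), mul_inv_rev, ← hinv g hg, ← hinv g' hg']
    simp only [mul_assoc]
    rw [← mul_assoc (σ u) (σ u), hsq u hu, one_mul]
  have : Nontrivial (St G a c) := Finite.one_lt_card_iff_nontrivial.1 (by rw [hx hc]; omega)
  obtain ⟨⟨g, hg⟩, hg1⟩ := exists_ne (1 : St G a c)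
  have hg1' : g ≠ 1 := fun e => hg1 (Subtype.ext e)
  obtain ⟨b, hb, hgb⟩ := exists_fix (C := C) hg.1 fun h => hg1' (hY g h hg.2)
  obtain ⟨d, hd, hgd⟩ := exists_fix (C := C) hg.2 fun h => hg1' (hY g (K_swap h hg.1) hg.2)
  have hle : ∀ {p q : X}, C.adj p q → (∀ w ∈ St G a c, w • p = p) → g • q = q → ∀ w ∈ St G a c, w • q = q :=
    fun hpq hp hq w hw => fix_uniq hg1' (adj_smul hpq (hp w hw)) hpq (hp g hg)
      (by rw [← mul_smul, hab g hg w hw, mul_smul, hq]) hq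
  have hb' := hle hb (fun w hw => hw.1) hgb
  have hd' := hle hd (fun w hw => hw.2) hgd
  have had : C.far a d := ⟨fun e => hc.symm.2 (e ▸ hd), fun h => hg1' (common hc.1 h hd hg.1 hg.2 hgd)⟩
  obtain ⟨m, hm, hmc⟩ := C.tr2 hc had
  have h9 : m⁻¹ * g * m ∈ St G a c := by
    refine ⟨?_, ?_⟩
    · rw [mul_smul, mul_smul, hm, hg.1, inv_smul_eq_iff, hm]
    · rw [mul_smul, mul_smul, hmc, hgd, inv_smul_eq_iff, hmc]
  have h10 : m • b = b := fix_uniq hg1' (adj_smul hb hm) hb hg.1 (by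
    have := hb' _ h9
    rwa [mul_smul, mul_smul, inv_smul_eq_iff] at this) hgb
  have h11 : St G a c = St G a b := eq_of_le_of_card_ge (fun w hw => ⟨hw.1, hb' w hw⟩) (by rw [hh hb, hx hc]; exact h8)
  have h12 : m ∈ St G a c := h11 ▸ ⟨hm, h10⟩
  exact adj_ne hd (by rw [← hmc, h12.2])

end Iso

end Cfg

end CL.Rk3
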