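/-
Rank three extensions of Frobenius groups (S2207), part d: the kernel has odd order.
-/
import Cfsg.Agent.Perm.Rk3c
import Cfsg.Agent.Inv.ZStar
import Cfsg.Agent.S0058

set_option autoImplicit false

namespace CL.Rk3

open MulAction Subgroup

variable {G X : Type*} [Group G] [MulAction G X]

theorem eq_one_of_odd {U : Subgroup G} (hU : Odd (Nat.card U)) {u : G} (hu : u ∈ U) (h : u * u = 1) : u = 1 := by
  have h1 := CL.Inv.odd_orderOf_of_mem_odd hU hu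
  have h2 : orderOf u ∣ 2 := orderOf_dvd_of_pow_eq_one (by rwa [pow_two])
  rcases (Nat.dvd_prime Nat.prime_two).1 h2 with h3 | h3
  · exact orderOf_eq_one_iff.1 h3
  · rw [h3] at h1; exact absurd h1 (by decide)

/-- The four-group generated by two commuting involutions. -/
def four (s t : G) (hs : s * s = 1) (ht : t * t = 1) (h : t * s = s * t) : Subgroup G where
  carrier := {w | w = 1 ∨ w = s ∨ w = t ∨ w = s * t}
  mul_mem' := by
    have h1 : ∀ w, s * (s * w) = w := fun w => by rw [← mul_assoc, hs, one_mul]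
    have h2 : ∀ w, t * (s * w) = s * (t * w) := fun w => by rw [← mul_assoc, h, mul_assoc]
    rintro _ _ (rfl | rfl | rfl | rfl) (rfl | rfl | rfl | rfl) <;> simp [mul_assoc, hs, ht, h, h1, h2]
  one_mem' := Or.inl rfl
  inv_mem' := by
    have h1 := inv_eq_of_mul_eq_one_right hs
    have h2 := inv_eq_of_mul_eq_one_right ht
    rintro _ (rfl | rfl | rfl | rfl) <;> simp [h1, h2, h]

namespace Cfg

variable (C : Cfg G X)

def D (a c : X) : Subgroup G where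
  carrier := {z | z ∈ C.Z a ∧ z • c = c}
  mul_mem' := fun {g g'} h h' => ⟨mul_mem h.1 h'.1, by rw [mul_smul, h'.2, h.2]⟩
  one_mem' := ⟨one_mem _, one_smul _ _⟩
  inv_mem' := fun {g} h => ⟨inv_mem h.1, by rw [inv_smul_eq_iff, h.2]⟩

variable {C}

theorem card_D {a c a' c' : X} (h : C.far a c) (h' : C.far a' c') : Nat.card (C.D a c) = Nat.card (C.D a' c') := by
  obtain ⟨g, rfl, rfl⟩ := C.tr2 h h'
  refine ncard_conj g {s | s ∈ C.D a c} {s | s ∈ C.D (g • a) (g • c)} fun s =>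
    ⟨fun hs => ⟨conjZ g hs.1, (conj_smul_iff g s _ _).2 hs.2⟩, fun hs => ⟨?_, (conj_smul_iff g s _ _).1 hs.2⟩⟩
  simpa [mul_assoc] using conjZ g⁻¹ hs.1

variable [Finite G] [Finite X] (h2 : Even C.k)
include h2

theorem isolated {a : X} {z t g : G} (hz : z ∈ C.Z a) (h1 : z ≠ 1) (ht : t ∈ C.Z a) (hg : g * z = z * g)
    (hc : g * t * g⁻¹ * t = t * (g * t * g⁻¹)) : g * t * g⁻¹ = t := by
  have hz' : ∀ {w : G}, w * z = z * w → z ∈ C.Z (w • a) := fun {w} hw => by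
    have := conjZ w hz
    rwa [hw, mul_inv_cancel_right] at this
  obtain ⟨m, hm, hm'⟩ := exists_orb h2 (a := a) (L := centralizer {z} ⊓ centralizer {t}) (Q := zpowers (g * t * g⁻¹))
    (fun w hw => ⟨mem_centralizer_singleton_iff.2 (hz.2.2 w hw), mem_centralizer_singleton_iff.2 (ht.2.2 w hw)⟩)
    (zpowers_le.2 ⟨mem_centralizer_singleton_iff.2 (Z_comm (hz' hg) (conjZ g ht)),
      mem_centralizer_singleton_iff.2 hc⟩)
    ((Z_pgroup (g • a)).to_le (zpowers_le.2 (conjZ g ht)))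
  have hm1 := mem_centralizer_singleton_iff.1 hm.1
  have hm2 := mem_centralizer_singleton_iff.1 hm.2
  have h3 : (m⁻¹ * g) * z = z * (m⁻¹ * g) := (Commute.mul_left (Commute.inv_left hm1) hg : Commute _ z)
  have h4 : (m⁻¹ * g) * t * (m⁻¹ * g)⁻¹ ∈ C.Z a := Z_swap h2 (conjZ _ ht) (by
    have := hm' _ (mem_zpowers _)
    simp only [mul_smul, mul_inv_rev, inv_inv] at this ⊢
    rw [this, inv_smul_smul])
  obtain ⟨w, hw, e⟩ := exists_orbZ h2 (a := (m⁻¹ * g) • a) (c := a)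
    (L := centralizer {z} ⊓ centralizer {(m⁻¹ * g) * t * (m⁻¹ * g)⁻¹})
    (fun w hw => ⟨mem_centralizer_singleton_iff.2 ((hz' h3).2.2 w hw),
      mem_centralizer_singleton_iff.2 ((conjZ _ ht).2.2 w hw)⟩)
    (fun w hw => ⟨mem_centralizer_singleton_iff.2 (Z_comm hz hw), mem_centralizer_singleton_iff.2 (Z_comm h4 hw)⟩)
  have h5 := ht.2.2 _ (cent hz.1 h1 (by rwa [mul_smul])
    (Commute.mul_left (mem_centralizer_singleton_iff.1 hw.1) h3 : Commute (w * (m⁻¹ * g)) z))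
  have h6 := mem_centralizer_singleton_iff.1 hw.2
  have h7 : (m⁻¹ * g) * t * (m⁻¹ * g)⁻¹ = t := by
    apply mul_right_cancel (b := w)
    rw [← h6, ← mul_assoc, ← mul_assoc, h5]
    group
  calc g * t * g⁻¹ = m * ((m⁻¹ * g) * t * (m⁻¹ * g)⁻¹) * m⁻¹ := by group
    _ = t := by rw [h7, hm2, mul_inv_cancel_right]

theorem exists_U {a : X} {z : G} (hz : z ∈ C.Z a) (h1 : z ≠ 1) : ∃ U : Subgroup G, Odd (Nat.card U) ∧
    (∀ u ∈ U, u * z = z * u) ∧ (∀ t ∈ C.Z a, ∀ u ∈ U, t * u * t⁻¹ ∈ U) ∧ (∀ c, z • c = c → ∃ u ∈ U, u • a = c) ∧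
    ∀ u ∈ U, ∀ t ∈ C.Z a, t • u • a = u • a → t * u = u * t := by
  let L := centralizer ({z} : Set G)
  let U := (Cfsg.oddCore L).map L.subtype
  have hodd : Odd (Nat.card U) := by rw [card_subtype]; exact CL.Inv.odd_card_oddCore
  have hn : ∀ g : G, g * z = z * g → ∀ u ∈ U, g * u * g⁻¹ ∈ U := by
    rintro g hg _ ⟨u, hu, rfl⟩
    exact ⟨_, Normal.conj_mem inferInstance u hu ⟨g, mem_centralizer_singleton_iff.2 hg⟩, rfl⟩
  have hc : ∀ t ∈ C.Z a, ∀ g : G, g * z = z * g → t * g * t⁻¹ * g⁻¹ ∈ U := fun t ht g hg => by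
    by_cases h : t = 1
    · simp [h]
    · refine ⟨_, CL.Inv.zstar_mem_oddCore (z := (⟨t, mem_centralizer_singleton_iff.2 (Z_comm hz ht)⟩ : L))
        ⟨?_, fun w hw => Subtype.ext (isolated h2 hz h1 ht (mem_centralizer_singleton_iff.1 w.2)
          (congrArg Subtype.val hw.eq).symm)⟩ ⟨g, mem_centralizer_singleton_iff.2 hg⟩, rfl⟩
      rw [← Subgroup.orderOf_coe]
      exact orderOf_eq_prime (by rw [pow_two]; exact ht.2.1) h
  refine ⟨U, hodd, by rintro _ ⟨u, -, rfl⟩; exact mem_centralizer_singleton_iff.1 u.2,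
    fun t ht => hn t (Z_comm hz ht), fun c hzc => ?_, fun u hu t ht e => ?_⟩
  · let L' : Subgroup G :=
      { carrier := {g | g * z = z * g ∧ ∃ u ∈ U, g • a = u • a}
        mul_mem' := fun {g g'} ⟨h, u, hu, e⟩ ⟨h', u', hu', e'⟩ => ⟨(Commute.mul_left h h' : Commute _ z),
          g * u' * g⁻¹ * u, mul_mem (hn g h u' hu') hu, by rw [mul_smul, e', mul_smul, ← e]; simp [mul_smul]⟩
        one_mem' := ⟨by simp, 1, one_mem _, rfl⟩
        inv_mem' := fun {g} ⟨h, u, hu, e⟩ => ⟨(Commute.inv_left h : Commute _ z), g⁻¹ * u⁻¹ * g⁻¹⁻¹,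
          hn _ (Commute.inv_left h : Commute _ z) _ (inv_mem hu), by simp [mul_smul, e]⟩ }
    obtain ⟨g, hg, rfl⟩ := exists_comm h2 hz hzc
    obtain ⟨w, ⟨-, u, hu, e⟩, e'⟩ := exists_orbZ h2 (a := a) (c := g • a) (L := L')
      (fun w hw => ⟨hz.2.2 w hw, 1, one_mem _, by rw [K_fix hw, one_smul]⟩) (fun w hw => by
        have h3 : g⁻¹ * w⁻¹ * g ∈ C.Z a := by simpa using conjZ g⁻¹ (inv_mem hw)
        have h4 := hn _ (Z_comm hz (inv_mem h3)) _ (hc _ h3 g hg.symm)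
        refine ⟨Z_comm (Z_swap h2 hz hzc) hw, _, h4, ?_⟩
        have h5 : (g⁻¹ * w⁻¹ * g)⁻¹ * (g⁻¹ * w⁻¹ * g * g * (g⁻¹ * w⁻¹ * g)⁻¹ * g⁻¹) * (g⁻¹ * w⁻¹ * g)⁻¹⁻¹ =
            w * (g⁻¹ * w⁻¹ * g) := by group
        rw [h5, mul_smul, Z_fix h3])
    exact ⟨u, hu, e ▸ e'⟩
  · have h3 : u⁻¹ * t * u⁻¹⁻¹ ∈ C.Z a := Z_swap h2 (conjZ _ ht) (by
      rw [inv_inv, mul_smul, mul_smul, e, inv_smul_smul])
    have h4 : t⁻¹ * (u⁻¹ * t * u⁻¹⁻¹) = 1 := eq_one_of_odd hodd (by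
      have := mul_mem (hn _ (Z_comm hz (inv_mem ht)) _ (inv_mem hu)) hu
      simpa [mul_assoc] using this) (mul_mem (inv_mem ht) h3).2.1
    rw [inv_mul_eq_one, inv_inv, mul_assoc, eq_inv_mul_iff_mul_eq] at h4
    exact h4.symm

theorem hyper {a c : X} {z s t : G} (hc : C.far a c) (hz : z ∈ C.D a c) (h1 : z ≠ 1) (hs : s ∈ C.Z a)
    (ht : t ∈ C.Z a) (hs' : s ∉ C.D a c) (ht' : t ∉ C.D a c) : s * t ∈ C.D a c := by
  by_contra hst
  obtain ⟨U, hodd, hU1, hU2, hU3, hU4⟩ := exists_U h2 hz.1 h1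
  obtain ⟨u, hu, rfl⟩ := hU3 c hz.2
  let A := four s t hs.2.1 ht.2.1 (Z_comm hs ht)
  have hA : A ≤ C.Z a := by
    rintro _ (rfl | rfl | rfl | rfl)
    exacts [one_mem _, hs, ht, mul_mem hs ht]
  have : IsMulCommutative A := ⟨⟨fun v w => Subtype.ext (Z_comm (hA w.2) (hA v.2))⟩⟩
  have key := Cfsg.Agent.S0058.result A (U ⊓ centralizer (C.D a (u • a))) (fun hcyc => by
      obtain ⟨g, hg⟩ := hcyc.exists_generator
      have h3 : ∀ w : A, w = 1 ∨ w = g := fun w => by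
        obtain ⟨n, rfl⟩ := hg w
        have h4 : g ^ (2 : ℤ) = 1 := by rw [zpow_two]; exact Subtype.ext (hA g.2).2.1
        obtain ⟨j, rfl | rfl⟩ := Int.even_or_odd' n
        · left; simp [zpow_mul, h4]
        · right; simp [zpow_add, zpow_mul, h4]
      rcases h3 ⟨s, Or.inr (Or.inl rfl)⟩ with e | e
      · exact hs' (by rw [show s = 1 from congrArg Subtype.val e]; exact one_mem _)
      · rcases h3 ⟨t, Or.inr (Or.inr (Or.inl rfl))⟩ with e' | e'
        · exact ht' (by rw [show t = 1 from congrArg Subtype.val e']; exact one_mem _)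
        · have h5 : t = s := congrArg Subtype.val (e'.trans e.symm)
          exact hst (by rw [h5, hs.2.1]; exact one_mem _))
    (fun w hw => mem_normalizer_fintype fun v hv => ⟨hU2 w (hA hw) v hv.1, fun b hb => by
      have h3 : b * w = w * b := Z_comm (hA hw) hb.1
      have h4 : b * v = v * b := hv.2 b hb
      exact ((Commute.mul_right h3 h4).mul_right (Commute.inv_right h3) : Commute b _)⟩)
    (by
      obtain ⟨n, hn⟩ := IsPGroup.iff_card.1 ((Z_pgroup a).to_le hA)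
      rw [hn]
      exact Nat.Coprime.pow_left _ (Nat.coprime_two_left.2 (hodd.of_dvd_nat (card_dvd_of_le inf_le_left))))
  have h6 : U ⊓ centralizer (C.D a (u • a)) ≤ stabilizer G a := by
    rw [← key]
    refine iSup₂_le fun w hw v hv => ?_
    by_contra hva
    have hfix : ∀ b ∈ C.Z a, b * v = v * b → b • v • a = v • a := fun b hb e => by
      rw [← mul_smul, e, mul_smul, Z_fix hb]
    have h7 : C.D a (u • a) = C.D a (v • a) := eq_of_le_of_card_ge (fun b hb => ⟨hb.1, hfix b hb.1 (hv.1.2 b hb)⟩)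
      (card_D (K_far hz.1.1 h1 hva (hfix z hz.1 (hU1 v hv.1.1).symm)) hc).le
    have h8 : w ∈ C.D a (u • a) := h7 ▸ ⟨hA hw.1, hfix w (hA hw.1) (mem_centralizer_singleton_iff.1 hv.2).symm⟩
    rcases hw.1 with rfl | rfl | rfl | rfl
    exacts [hw.2 rfl, hs' h8, ht' h8, hst h8]
  exact hc.1 (h6 ⟨hu, fun b hb => hU4 u hu b hb.1 hb.2⟩).symm

theorem D_eq {a c c' : X} {z : G} (hc : C.far a c) (hc' : C.far a c') (hz : z ∈ C.D a c) (hz' : z ∈ C.D a c')
    (h1 : z ≠ 1) : C.D a c ≤ C.D a c' := by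
  intro b hb
  by_contra hb'
  obtain ⟨b', hb1, hb2⟩ : ∃ b' ∈ C.D a c', b' ∉ C.D a c := by
    by_contra h
    push Not at h
    exact hb' (eq_of_le_of_card_ge h (card_D hc hc').le ▸ hb)
  obtain ⟨U, hodd, hU1, hU2, hU3, hU4⟩ := exists_U h2 hz.1 h1
  have aux : ∀ {p : X} {s t : G}, z • p = p → s ∈ C.D a p → t ∈ C.Z a → t ∉ C.D a p →
      ∃ v ∈ U, v ≠ 1 ∧ s * v = v * s ∧ t * v = v⁻¹ * t := fun {p s t} hp hs ht ht' => by
    obtain ⟨u, hu, rfl⟩ := hU3 p hp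
    have h3 := hU4 u hu s hs.1 hs.2
    have h4 := Z_comm ht hs.1
    refine ⟨u⁻¹ * (t * u * t⁻¹), mul_mem (inv_mem hu) (hU2 t ht u hu), fun e => ht' ⟨ht, ?_⟩,
      ((Commute.inv_right h3).mul_right ((Commute.mul_right h4 h3).mul_right (Commute.inv_right h4)) :
        Commute s _), ?_⟩
    · rw [inv_mul_eq_one, eq_mul_inv_iff_mul_eq] at e
      rw [← mul_smul, ← e, mul_smul, Z_fix ht]
    · have h5 : ∀ w, t * (t * w) = w := fun w => by rw [← mul_assoc, ht.2.1, one_mul]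
      simp [inv_eq_of_mul_eq_one_right ht.2.1, mul_assoc, h5]
  obtain ⟨v, hv, hv1, hv2, hv3⟩ := aux hz.2 hb hb1.1 hb2
  obtain ⟨w, hw, hw1, hw2, hw3⟩ := aux hz'.2 hb1 hb.1 hb'
  have hvw := mul_mem hv hw
  have h3 : ¬ b • (v * w) • a = (v * w) • a := fun e => by
    have := hU4 _ hvw b hb.1 e
    rw [← mul_assoc, hv2, mul_assoc, hw3, mul_assoc, mul_left_cancel_iff, mul_right_cancel_iff] at this
    exact hw1 (eq_one_of_odd hodd hw (mul_eq_one_iff_inv_eq.2 this))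
  have h4 : ¬ b' • (v * w) • a = (v * w) • a := fun e => by
    have := hU4 _ hvw b' hb1.1 e
    rw [← mul_assoc, hv3, mul_assoc, hw2, mul_assoc, mul_right_cancel_iff] at this
    exact hv1 (eq_one_of_odd hodd hv (mul_eq_one_iff_inv_eq.2 this))
  have h5 : z • (v * w) • a = (v * w) • a := by rw [← mul_smul, ← hU1 _ hvw, mul_smul, Z_fix hz.1]
  have h6 := hyper h2 (K_far hz.1.1 h1 (fun e => h3 (by rw [e, Z_fix hb.1])) h5) ⟨hz.1, h5⟩ h1 hb.1 hb1.1
    (fun h => h3 h.2) (fun h => h4 h.2)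
  have h7 := hU4 _ hvw _ h6.1 h6.2
  have h8 : b * v⁻¹ = v⁻¹ * b := (Commute.inv_right hv2 : Commute b _)
  have h9 : v⁻¹ * w⁻¹ = v * w := by
    apply mul_right_cancel (b := b * b')
    rw [← h7, mul_assoc b, ← mul_assoc b', hv3, mul_assoc v⁻¹ b', hw2, ← mul_assoc b, h8, mul_assoc v⁻¹ b,
      ← mul_assoc b, hw3]
    simp only [mul_assoc]
  have h10 : w * w = (v * v)⁻¹ := by
    refine eq_inv_of_mul_eq_one_right ?_
    calc v * v * (w * w) = v * (v * w) * w := by simp only [mul_assoc]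
      _ = 1 := by rw [← h9]; group
  have h11 : b * (w * w) = (w * w) * b := by
    rw [h10]; exact ((Commute.mul_right hv2 hv2).inv_right : Commute b _)
  rw [← mul_assoc, hw3, mul_assoc, hw3, ← mul_assoc, mul_right_cancel_iff] at h11
  exact hw1 (eq_one_of_odd hodd hw (eq_one_of_odd hodd (mul_mem hw hw) (by
    nth_rewrite 1 [← h11]; group)))

theorem k_even_false : False := by
  by_cases hI : ∀ {a c : X} {z : G}, z ∈ C.Z a → z ≠ 1 → z • c = c → c = a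
  · exact iso_false hI h2
  push Not at hI
  obtain ⟨a₁, c₁, z₁, hz₁, h1, hc₁, hne⟩ := hI
  have hD : ∀ {a c : X}, C.far a c → ∃ z ∈ C.D a c, z ≠ 1 := fun {a c} h => by
    have h3 : Nontrivial (C.D a₁ c₁) := ⟨⟨⟨z₁, hz₁, hc₁⟩, 1, fun e => h1 (congrArg Subtype.val e)⟩⟩
    have h4 : Nontrivial (C.D a c) := Finite.one_lt_card_iff_nontrivial.1
      (card_D (K_far hz₁.1 h1 hne hc₁) h ▸ Finite.one_lt_card)
    obtain ⟨z, hz⟩ := exists_ne (1 : C.D a c)
    exact ⟨z, z.2, fun e => hz (Subtype.ext e)⟩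
  have hU : ∀ {a c : X} {z w : G}, C.far a c → z ∈ C.D a c → z ≠ 1 → w ∈ C.D a c → w ≠ 1 → w = z :=
    fun {a c z w} hc hz hz1 hw hw1 => by
    obtain ⟨c', hc', h3⟩ := exists_far_move hz.1.1 hz1
    obtain ⟨z', hz', hz1'⟩ := hD hc'
    have h4 : ∀ y ∈ C.D a c, y ∈ C.D a c' → y = 1 := fun y hy hy' => by
      by_contra h
      exact h3 (D_eq h2 hc hc' hy hy' h hz).2
    have h5 := h4 _ (mul_mem hw hz) (hyper h2 hc' hz' hz1' hw.1 hz.1 (fun h => hw1 (h4 w hw h))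
      fun h => hz1 (h4 z hz h))
    rw [eq_inv_of_mul_eq_one_left h5, inv_eq_of_mul_eq_one_right hz.1.2.1]
  have hZ : ∀ a : X, {z | z ∈ C.Z a ∧ z ≠ 1}.ncard ≤ 3 := fun a => by
    obtain ⟨c, hc⟩ := C.exf a
    obtain ⟨z, hz, hz1⟩ := hD hc
    obtain ⟨z', hz', h3⟩ := Z_far h2 hc
    refine le_trans (Set.ncard_le_ncard (t := {z, z', z * z'}) fun t ht => ?_) (Set.ncard_insert_le _ _ |>.trans
      (Nat.succ_le_succ ((Set.ncard_insert_le _ _).trans (by simp))))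
    by_cases h : t ∈ C.D a c
    · exact Or.inl (hU hc hz hz1 h ht.2)
    · have h4 := hyper h2 hc hz hz1 ht.1 hz' h fun h => h3 h.2
      by_cases h5 : t * z' = 1
      · exact Or.inr (Or.inl (by rw [eq_inv_of_mul_eq_one_left h5, inv_eq_of_mul_eq_one_right hz'.2.1]))
      · exact Or.inr (Or.inr (by rw [← hU hc hz hz1 h4 h5, mul_assoc, hz'.2.1, mul_one]; rfl))
  have hh3 : C.h = 3 := by
    have := C.two_le_h
    have h3 := (h_le_Z h2 a₁).trans (hZ a₁)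
    obtain ⟨m, hm⟩ := odd_h h2
    omega
  have hZ3 : ∀ a : X, {z | z ∈ C.Z a ∧ z ≠ 1}.ncard = 3 := fun a => le_antisymm (hZ a) (hh3 ▸ h_le_Z h2 a)
  have hP : ∀ {p p' c : X} {z : G}, p ≠ p' → z ∈ C.Z p → z ≠ 1 → z • p' = p' → C.far p c → C.far p' c → z • c = c :=
    fun {p p' c z} hpp hz hz1 hp' hc hc' => by
    obtain ⟨s, hs, hs1⟩ := hD hc
    obtain ⟨t, ht, ht1⟩ := hD hc'
    by_cases hst : s = t
    · subst hst
      rw [hU (K_far hz.1 hz1 hpp.symm hp') ⟨hs.1, Z_fix ht.1⟩ hs1 ⟨hz, hp'⟩ hz1]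
      exact hs.2
    have hs' := Z_swap h2 hs.1 hs.2
    have ht' := Z_swap h2 ht.1 ht.2
    have h3 : {s, t, s * t} = {z | z ∈ C.Z c ∧ z ≠ 1} := Set.eq_of_subset_of_ncard_le (by
        rintro _ (rfl | rfl | rfl)
        exacts [⟨hs', hs1⟩, ⟨ht', ht1⟩, ⟨mul_mem hs' ht', fun e => hst (by
          rw [eq_inv_of_mul_eq_one_left e, inv_eq_of_mul_eq_one_right ht'.2.1])⟩])
      (by rw [hZ3, Set.ncard_eq_three.2 ⟨s, t, s * t, hst, by simpa using ht1, by simpa using hs1, rfl⟩])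
    have h4 := Z_comm hz hs.1
    have h5 := Z_comm (Z_swap h2 hz hp') ht.1
    refine Z_fix_eq h2 fun w hw => ?_
    have h6 : w * z = z * w := by
      by_cases h : w = 1
      · simp [h]
      · have : w ∈ ({s, t, s * t} : Set G) := h3 ▸ ⟨hw, h⟩
        rcases this with rfl | rfl | rfl
        exacts [h4, h5, (Commute.mul_left h4 h5 : Commute _ z)]
    rw [← mul_smul, h6, mul_smul, Z_fix hw]
  obtain ⟨a, b, hb⟩ : ∃ a b, C.adj a b := ⟨_, _, C.hb₀⟩
  obtain ⟨c, hc⟩ := C.exf a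
  obtain ⟨z, hz, hz1⟩ := hD hc
  obtain ⟨u, v, -, hlam, hk, hlm⟩ := C.exists_uv
  have e1 := C.split_adj hb
  have e2 := C.split_far hc
  have e3 : C.l ≤ {p | C.adj b p ∧ C.far a p}.ncard + 3 := by
    choose! ζ hζ using fun p (h : C.far a p) => hD h
    have h3 : {p | C.far a p ∧ ¬ C.adj b p}.ncard ≤ 3 := by
      rw [← hZ3 a]
      refine Set.ncard_le_ncard_of_injOn ζ (fun p hp => ⟨(hζ p hp.1).1.1, (hζ p hp.1).2⟩) fun p hp p' hp' e => ?_
      by_contra h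
      have h4 : ∀ {q}, C.far a q → ¬ C.adj b q → C.far q b := fun h h' =>
        ⟨fun e => h.2 (e ▸ hb), fun h'' => h' (C.symm h'')⟩
      exact (hζ p hp.1).2 (K_adj (hζ p hp.1).1.1.1 hb (hP h (Z_swap h2 (hζ p hp.1).1.1 (hζ p hp.1).1.2)
        (hζ p hp.1).2 (e ▸ (hζ p' hp'.1).1.2) (h4 hp.1 hp.2) (h4 hp'.1 hp'.2)))
    refine le_trans ?_ ((Set.ncard_union_le _ _).trans (Nat.add_le_add_left h3 _))
    rw [← hl a]
    exact Set.ncard_le_ncard fun p hp => (em (C.adj b p)).imp (fun h => ⟨h, hp⟩) fun h => ⟨hp, h⟩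
  have e4 : {p | C.adj c p ∧ C.far a p}.ncard + {p | C.far a p ∧ z • p = p}.ncard = C.l := by
    rw [← hl a, ← Set.ncard_union_eq (Set.disjoint_left.2 fun p h h' =>
      hz1 (K_adj (K_swap hz.1.1 hz.2) h.1 h'.2))]
    congr 1
    ext p
    refine ⟨fun h => h.elim And.right And.left, fun hp => ?_⟩
    rcases C.tri c p with e | e | e
    · exact Or.inr ⟨hp, e ▸ hz.2⟩
    · exact Or.inl ⟨e, hp⟩
    · obtain ⟨w, hw, hw1⟩ := hD hp
      exact Or.inr ⟨hp, hU hc hz hz1 ⟨hw.1, hP hp.1 hw.1 hw1 hw.2 hc e.symm⟩ hw1 ▸ hw.2⟩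
  have e5 : C.l * 1 = 3 * {p | C.far a p ∧ z • p = p}.ncard := by
    have h3 : {w | ∃ m : G, m • a = a ∧ w = m * z * m⁻¹} ⊆ {z | z ∈ C.Z a ∧ z ≠ 1} := by
      rintro _ ⟨m, hm, rfl⟩
      exact ⟨conjZ' hm hz.1, fun e => hz1 (by simpa [mul_inv_eq_iff_eq_mul] using e)⟩
    have h4 := Set.eq_of_subset_of_ncard_le h3 (by
      rw [hZ3, ← hh3]
      refine Nat.le_of_dvd ((Set.ncard_pos (Set.toFinite _)).2 ⟨z, 1, one_smul _ _, by simp⟩)
        (h_dvd_Z a _ (fun s hs => ⟨(h3 hs).1.1, (h3 hs).2⟩) ?_)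
      rintro g hg _ ⟨m, hm, rfl⟩
      exact ⟨g * m, by rw [mul_smul, hm, hg], by group⟩)
    rw [← hl a, ← hZ3 a]
    refine dc_mul _ _ (fun p w => w • p = p) _ _ (fun p hp => ?_) fun w hw => ?_
    · obtain ⟨w, hw, hw1⟩ := hD hp
      rw [Set.ncard_eq_one]
      exact ⟨w, Set.eq_singleton_iff_unique_mem.2 ⟨⟨⟨hw.1, hw1⟩, hw.2⟩,
        fun y hy => hU hp hw hw1 ⟨hy.1.1, hy.2⟩ hy.1.2⟩⟩
    · rw [← h4] at hw
      obtain ⟨m, hm, rfl⟩ := hw
      refine (ncard_smul m _ _ fun p => ?_).symm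
      simp only [Set.mem_setOf_eq, conj_smul_iff]
      rw [← far_iff m, hm]
  have e6 := C.kh_eq
  have e7 := C.mu_lt
  have e8 := C.l_pos
  generalize {p | C.far a p ∧ z • p = p}.ncard = m at *
  generalize {p | C.adj c p ∧ C.far a p}.ncard = r at *
  generalize {p | C.adj b p ∧ C.far a p}.ncard = r' at *
  rw [hh3] at hlam hk hlm e6
  have e9 : C.mu = u * C.x := Nat.eq_of_mul_eq_mul_left e8 (by rw [hlm]; nlinarith)
  have e10 : C.k = m * C.x := by nlinarith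
  have e11 : u < m := by
    by_contra h
    nlinarith [Nat.mul_le_mul_right C.x (not_lt.1 h)]
  obtain rfl : m = u + 1 := by omega
  have e12 : C.x = 2 * (u + 1) := by nlinarith
  rw [e10, e12] at hk
  have : ((u + 1) * (2 * (u + 1))) % 3 = 1 := by omega
  have h3 : u % 3 = 0 ∨ u % 3 = 1 ∨ u % 3 = 2 := by omega
  rcases h3 with h | h | h <;> simp [Nat.mul_mod, Nat.add_mod, h] at this

end Cfg

end CL.Rk3
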