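/-
Rank three extensions of Frobenius groups (S2207), part e: complement of even order, kernels not TI.
-/
import Cfsg.Agent.Perm.Rk3d

set_option autoImplicit false

namespace CL.Rk3

open MulAction Subgroup

variable {G X : Type*} [Group G] [MulAction G X]

/-- The involutions fixing `a`. -/
def Inv (G : Type*) {X : Type*} [Group G] [MulAction G X] (a : X) : Set G := {s | s * s = 1 ∧ s ≠ 1 ∧ s • a = a}

theorem conj_Inv (g : G) {a : X} {s : G} (h : s ∈ Inv G a) : g * s * g⁻¹ ∈ Inv G (g • a) :=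
  ⟨by rw [conj_mul, h.1]; group, fun e => h.2.1 (by simpa [mul_inv_eq_iff_eq_mul] using e),
    (conj_smul_iff g s _ _).2 h.2.2⟩

theorem ncard_swap_le [Finite G] (T : Set G) (a p : X) (h : ∀ s ∈ T, s * s = 1 ∧ s • a = p) :
    T.ncard ≤ Nat.card (St G a p) := by
  rcases T.eq_empty_or_nonempty with rfl | ⟨s, hs⟩
  · simp
  have key : ∀ s ∈ T, s • p = a := fun s hs => by rw [← (h s hs).2, ← mul_smul, (h s hs).1, one_smul]
  exact Set.ncard_le_ncard_of_injOn (t := {g | g ∈ St G a p}) (fun w => s * w)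
    (fun w hw => ⟨by rw [mul_smul, (h w hw).2, key s hs], by rw [mul_smul, key w hw, (h s hs).2]⟩)
    fun _ _ _ _ e => mul_left_cancel e

theorem exists_inv_of_even [Finite G] {a p : X} (h : Even (Nat.card (St G a p))) : ∃ s ∈ Inv G a, s • p = p := by
  have : Fact (Nat.Prime 2) := ⟨Nat.prime_two⟩
  obtain ⟨s, hs⟩ := exists_prime_orderOf_dvd_card' 2 h.two_dvd
  rw [← Subgroup.orderOf_coe] at hs
  exact ⟨s, ⟨by rw [← pow_two, ← orderOf_dvd_iff_pow_eq_one, hs], fun e => by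
    rw [e, orderOf_one] at hs; omega, s.2.1⟩, s.2.2⟩

namespace Cfg

variable (C : Cfg G X)

def Y (a c : X) : Subgroup G where
  carrier := {z | z ∈ C.K a ∧ z • c = c}
  mul_mem' := fun {g g'} h h' => ⟨mul_mem h.1 h'.1, by rw [mul_smul, h'.2, h.2]⟩
  one_mem' := ⟨one_mem _, one_smul _ _⟩
  inv_mem' := fun {g} h => ⟨inv_mem h.1, by rw [inv_smul_eq_iff, h.2]⟩

noncomputable def y : ℕ := Nat.card (C.Y C.a₀ C.c₀)

variable {C}

theorem hy {a c : X} (h : C.far a c) : Nat.card (C.Y a c) = C.y := by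
  obtain ⟨g, rfl, rfl⟩ := C.tr2 C.hc₀ h
  exact (ncard_conj g {s | s ∈ C.Y _ _} {s | s ∈ C.Y _ _} fun s =>
    and_congr (conjK g).symm (conj_smul_iff g s _ _).symm).symm

variable [Finite G] [Finite X]

theorem mu_pos : 0 < C.mu := by
  obtain ⟨u, v, h1, -, -, h⟩ := C.exists_uv
  have := C.two_le_h
  have := C.mu_lt
  by_contra h0
  rw [show C.mu = 0 by omega, mul_zero] at h
  exact absurd h.symm (Nat.mul_pos (by omega) (Nat.mul_pos (by omega) h1)).ne'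

theorem x_lt : C.x < C.k := (Nat.le_of_dvd C.mu_pos C.x_dvd_mu).trans_lt C.mu_lt

theorem exists_K_ne (a : X) : ∃ g ∈ C.K a, g ≠ 1 := by
  obtain ⟨b, hb⟩ := C.exa a
  obtain ⟨b', hb', h⟩ := C.two hb
  obtain ⟨g, hg, e⟩ := C.trK hb hb'
  exact ⟨g, hg, fun h1 => h (by rw [← e, h1, one_smul])⟩

variable (h2 : Even C.h)
include h2

theorem odd_k : Odd C.k := by
  by_contra h
  have := Nat.eq_one_of_dvd_coprimes C.coprime_kh (Nat.not_odd_iff_even.1 h).two_dvd h2.two_dvd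
  omega

theorem inv_notK {a : X} {s : G} (hs : s ∈ Inv G a) : s ∉ C.K a :=
  fun h => hs.2.1 (eq_one_of_odd (by rw [card_K]; exact odd_k h2) h hs.1)

theorem inv_inverts {a : X} {s g : G} (hs : s ∈ Inv G a) (hg : g ∈ C.K a) : s * g = g⁻¹ * s := by
  obtain ⟨w, hw⟩ := Finite.surjective_of_injective
    (f := fun w : C.K a => (⟨w⁻¹ * (s * w * s⁻¹), mul_mem (inv_mem w.2) (conjK' hs.2.2 w.2)⟩ : C.K a))
    (fun w w' e => by
      have e1 : (w : G)⁻¹ * (s * w * s⁻¹) = (w' : G)⁻¹ * (s * w' * s⁻¹) := congrArg Subtype.val e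
      by_contra h
      refine inv_notK h2 hs (cent (mul_mem w'.2 (inv_mem w.2)) (fun h1 => h (Subtype.ext (mul_inv_eq_one.1 h1).symm))
        hs.2.2 ?_)
      calc s * (w' * (w : G)⁻¹) = w' * ((w' : G)⁻¹ * (s * w' * s⁻¹)) * s * (w : G)⁻¹ := by group
        _ = w' * (w : G)⁻¹ * s := by rw [← e1]; group) ⟨g, hg⟩
  have e : (w : G)⁻¹ * (s * w * s⁻¹) = g := congrArg Subtype.val hw
  have h1 : ∀ v, s * (s * v) = v := fun v => by rw [← mul_assoc, hs.1, one_mul]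
  rw [← e]
  simp [inv_eq_of_mul_eq_one_right hs.1, mul_assoc, hs.1]

theorem exists_inv {a b : X} (hb : C.adj a b) : ∃ s ∈ Inv G a, s • b = b := exists_inv_of_even (hh hb ▸ h2)

theorem K_comm {a : X} {g g' : G} (hg : g ∈ C.K a) (hg' : g' ∈ C.K a) : g * g' = g' * g := by
  obtain ⟨b, hb⟩ := C.exa a
  obtain ⟨s, hs, -⟩ := exists_inv h2 hb
  have h1 := inv_inverts h2 hs (mul_mem hg hg')
  rw [← mul_assoc, inv_inverts h2 hs hg, mul_assoc, inv_inverts h2 hs hg', ← mul_assoc, mul_right_cancel_iff,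
    ← mul_inv_rev, inv_inj] at h1
  exact h1.symm

theorem inv_mul_inv {a : X} {s t : G} (hs : s ∈ Inv G a) (ht : t ∈ Inv G a) : s * t ∈ C.K a := by
  obtain ⟨g, hg, h1⟩ := C.exists_K_ne a
  exact cent hg h1 (by rw [mul_smul, ht.2.2, hs.2.2]) (by
    rw [mul_assoc, inv_inverts h2 ht hg, ← mul_assoc, inv_inverts h2 hs (inv_mem hg), inv_inv, mul_assoc])

theorem K_mul_inv {a : X} {s g : G} (hs : s ∈ Inv G a) (hg : g ∈ C.K a) : g * s ∈ Inv G a :=
  ⟨by rw [mul_assoc, ← mul_assoc s, inv_inverts h2 hs hg, mul_assoc, hs.1]; simp,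
    fun e => inv_notK h2 hs (by rw [← inv_eq_of_mul_eq_one_right e]; exact inv_mem hg),
    by rw [mul_smul, hs.2.2, K_fix hg]⟩

theorem inv_conj {a : X} {s t : G} (hs : s ∈ Inv G a) (ht : t ∈ Inv G a) : ∃ w ∈ C.K a, w * s * w⁻¹ = t := by
  obtain ⟨b, hb, e⟩ := exists_fix hs.2.2 (inv_notK h2 hs)
  obtain ⟨b', hb', e'⟩ := exists_fix ht.2.2 (inv_notK h2 ht)
  obtain ⟨w, hw, rfl⟩ := C.trK hb hb'
  have h1 := conj_Inv w hs
  rw [K_fix hw] at h1
  refine ⟨w, hw, ?_⟩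
  rw [← inv_eq_of_mul_eq_one_right ht.1]
  exact eq_inv_of_mul_eq_one_left (K_adj (inv_mul_inv h2 h1 ht) hb' (by
    rw [mul_smul, e']; exact (conj_smul_iff w s _ _).2 e))

theorem ncard_Inv {a p : X} {s : G} (hs : s ∈ Inv G a) (hp : s • p = p) (R : X → Prop) :
    {t | t ∈ Inv G a ∧ R (t • p)}.ncard = {g | g ∈ C.K a ∧ R (g • p)}.ncard := by
  symm
  exact Set.ncard_congr (fun g _ => g * s) (fun g hg => ⟨K_mul_inv h2 hs hg.1, by rw [mul_smul, hp]; exact hg.2⟩)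
    (fun _ _ _ _ e => mul_right_cancel e) fun t ht => ⟨t * s, ⟨inv_mul_inv h2 ht.1 hs, by
      rw [mul_smul, hp]; exact ht.2⟩, by rw [mul_assoc, hs.1, mul_one]⟩

theorem card_Inv (a : X) : (Inv G a).ncard = C.k := by
  obtain ⟨b, hb⟩ := C.exa a
  obtain ⟨s, hs, e⟩ := exists_inv h2 hb
  have := ncard_Inv h2 hs e fun _ => True
  simp only [and_true] at this
  exact this.trans (card_K a)

/-- The basic count of involutions fixing a point of `L`. -/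
theorem count_T [Fintype X] [DecidableEq X] (L : Set X) (a : X) (ha : a ∈ L) (F : ℕ)
    (h : ∀ p ∈ L, ∀ s ∈ Inv G p, {q | q ∈ L ∧ s • q = q}.ncard = F) :
    (C.k + ∑ p, if p = a then 0 else {s | (∃ q ∈ L, s ∈ Inv G q) ∧ s • a = p}.ncard) * F = L.ncard * C.k := by
  have h1 := dc_mul {s | ∃ q ∈ L, s ∈ Inv G q} L (fun s q => s • q = q) F C.k
    (fun s ⟨p, hp, hs⟩ => h p hp s hs) fun q hq => by
      rw [← card_Inv h2 q]
      congr 1
      exact Set.ext fun s => ⟨fun ⟨⟨_, _, h⟩, e⟩ => ⟨h.1, h.2.1, e⟩, fun h => ⟨⟨q, hq, h⟩, h.2.2⟩⟩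
  rw [← h1, ncard_fib _ (fun s : G => s • a), ← Finset.add_sum_erase _ _ (Finset.mem_univ a),
    ← Finset.add_sum_erase _ _ (Finset.mem_univ a), if_pos rfl, zero_add]
  congr 2
  · rw [← card_Inv h2 a]
    congr 1
    exact Set.ext fun s => ⟨fun h => ⟨⟨a, ha, h⟩, h.2.2⟩, fun ⟨⟨_, _, h⟩, e⟩ => ⟨h.1, h.2.1, e⟩⟩
  · exact Finset.sum_congr rfl fun p hp => if_neg (Finset.ne_of_mem_erase hp)

section Y

variable {a c : X} {U : Subgroup G} (hU : U ≤ C.Y a c) (hU1 : U ≠ ⊥) (hc : C.far a c)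
include hU

theorem L_K {p : X} (hp : ∀ g ∈ U, g • p = p) {g : G} (hg : g ∈ U) : g ∈ C.K p := K_swap (hU hg).1 (hp g hg)

theorem L_inv {p q : X} (hp : ∀ g ∈ U, g • p = p) (hq : ∀ g ∈ U, g • q = q) {s : G} (hs : s ∈ Inv G p) :
    ∀ g ∈ U, g • s • q = s • q := fun g hg => by
  rw [← mul_smul, ← inv_inv g, ← inv_inverts h2 hs (L_K h2 hU hp (inv_mem hg)), mul_smul, hq _ (inv_mem hg)]

theorem L_smul {p q : X} (hp : ∀ g ∈ U, g • p = p) (hq : ∀ g ∈ U, g • q = q) {w : G} (hw : w ∈ C.K p) :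
    ∀ g ∈ U, g • w • q = w • q := fun g hg => by
  rw [← mul_smul, K_comm h2 (L_K h2 hU hp hg) hw, mul_smul, hq g hg]

include hU1

theorem L_far {p q : X} (hp : ∀ g ∈ U, g • p = p) (hq : ∀ g ∈ U, g • q = q) (h : q ≠ p) : C.far p q := by
  obtain ⟨⟨g, hg⟩, h1⟩ := ne_bot_iff_exists_ne_one.1 hU1
  exact K_far (L_K h2 hU hp hg) (fun e => h1 (Subtype.ext e)) h (hq g hg)

include hc

theorem even_x : Even C.x := by
  classical
  have := Fintype.ofFinite X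
  by_contra hx2
  have ha : ∀ g ∈ U, g • a = a := fun g hg => K_fix (hU hg).1
  have h1 := count_T h2 {p | ∀ g ∈ U, g • p = p} a ha 1 fun p hp s hs => by
    rw [Set.ncard_eq_one]
    refine ⟨p, Set.eq_singleton_iff_unique_mem.2 ⟨⟨hp, hs.2.2⟩, fun q hq => ?_⟩⟩
    by_contra h
    exact hs.2.1 (eq_one_of_odd (U := St G p q) (by
      rw [hx (L_far h2 hU hU1 hp hq.1 h)]; exact Nat.not_even_iff_odd.1 hx2) ⟨hs.2.2, hq.2⟩ hs.1)
  have h3 := sum_le_on ({p | ∀ g ∈ U, g • p = p} \ {a}) (fun p => if p = a then 0 else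
    {s | (∃ q ∈ {p | ∀ g ∈ U, g • p = p}, s ∈ Inv G q) ∧ s • a = p}.ncard) C.x (fun p hp => by
      split_ifs with h
      · rfl
      · rw [Set.ncard_eq_zero, Set.eq_empty_iff_forall_notMem]
        rintro s ⟨⟨q, hq, hs⟩, rfl⟩
        exact hp ⟨L_inv h2 hU hq ha hs, h⟩) fun p hp => by
      rw [if_neg (show ¬ p = a from hp.2), ← hx (L_far h2 hU hU1 ha hp.1 hp.2)]
      exact ncard_swap_le _ _ _ fun s ⟨⟨_, _, hs⟩, e⟩ => ⟨hs.1, e⟩
  have h4 := Set.ncard_diff_singleton_add_one (s := {p | ∀ g ∈ U, g • p = p}) ha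
  have h5 : 0 < ({p | ∀ g ∈ U, g • p = p} \ {a}).ncard :=
    (Set.ncard_pos (Set.toFinite _)).2 ⟨c, fun g hg => (hU hg).2, hc.1.symm⟩
  have h6 := C.x_lt
  nlinarith

theorem L_card : ∃ f, 1 ≤ f ∧ C.k = (f + 2) * C.y ∧ {p | C.far a p ∧ ∀ g ∈ U, g • p = p}.ncard = (f + 2) * f := by
  classical
  have := Fintype.ofFinite X
  have hx2 := even_x h2 hU hU1 hc
  have ha : ∀ g ∈ U, g • a = a := fun g hg => K_fix (hU hg).1
  have hk0 : 0 < C.k := lt_of_le_of_lt (Nat.zero_le _) C.mu_lt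
  have hy0 : 0 < C.y := Nat.card_pos
  set L := {p : X | ∀ g ∈ U, g • p = p} with hL
  have h4 : ∀ p ∈ L, (L \ {p}).ncard + 1 = L.ncard := fun p hp => Set.ncard_diff_singleton_add_one hp
  have h1 : ∀ p ∈ L, ∀ s ∈ Inv G p, C.k * {q | q ∈ L \ {p} ∧ s • q = q}.ncard = (L \ {a}).ncard * C.y :=
    fun p hp s hs => by
    rw [← card_Inv h2 p, show (L \ {a}).ncard = (L \ {p}).ncard by have := h4 a ha; have := h4 p hp; omega]
    refine dc_mul _ _ (fun s q => s • q = q) _ _ (fun t ht => ?_) fun q hq => ?_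
    · obtain ⟨w, hw, rfl⟩ := inv_conj h2 hs ht
      refine (ncard_smul w {q | q ∈ L \ {p} ∧ s • q = q} {q | q ∈ L \ {p} ∧ (w * s * w⁻¹) • q = q} fun q =>
        and_congr (and_congr ⟨fun h => L_smul h2 hU hp h hw, fun h => ?_⟩ ?_) (conj_smul_iff w s _ _).symm).symm
      · have h9 := L_smul h2 hU hp h (inv_mem hw)
        rwa [inv_smul_smul] at h9
      · simp only [Set.mem_singleton_iff]
        rw [← smul_left_cancel_iff w, K_fix hw]
    · have h5 := L_far h2 hU hU1 hp hq.1 hq.2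
      obtain ⟨t, ht, e⟩ := exists_inv_of_even (hx h5 ▸ hx2)
      exact (ncard_Inv h2 ht e fun r => r = q).trans (hy h5)
  obtain ⟨s₀, hs₀, -⟩ := exists_inv_of_even (hx hc ▸ hx2)
  obtain ⟨f, hf⟩ : ∃ f, C.k * f = (L \ {a}).ncard * C.y := ⟨_, h1 a ha s₀ hs₀⟩
  have h3 := count_T h2 L a ha (f + 1) fun p hp s hs => by
    rw [← Nat.eq_of_mul_eq_mul_left hk0 ((h1 p hp s hs).trans hf.symm),
      ← Set.ncard_insert_of_notMem (a := p) (fun h => h.1.2 rfl)]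
    congr 1
    ext q
    refine ⟨fun h => (em (q = p)).imp id fun e => ⟨⟨h.1, e⟩, h.2⟩, ?_⟩
    rintro (rfl | h)
    exacts [⟨hp, hs.2.2⟩, ⟨h.1.1, h.2⟩]
  set R := {p | p ≠ a ∧ ∃ s, (∃ q ∈ L, s ∈ Inv G q) ∧ s • a = p} with hR
  have hRL : R ⊆ L \ {a} := by
    rintro _ ⟨h, s, ⟨q, hq, hs⟩, rfl⟩
    exact ⟨L_inv h2 hU hq ha hs, h⟩
  rw [sum_on R _ C.y (fun p hp => by
      split_ifs with h
      · rfl
      · rw [Set.ncard_eq_zero, Set.eq_empty_iff_forall_notMem]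
        exact fun s hs => hp ⟨h, s, hs⟩) (by
      rintro _ ⟨h, s, ⟨q, hq, hs⟩, rfl⟩
      have h5 := L_far h2 hU hU1 ha (L_inv h2 hU hq ha hs) h
      have h6 := L_far h2 hU hU1 hq ha fun e => h (by rw [e, hs.2.2])
      obtain ⟨t, ht, e⟩ := exists_inv_of_even (hx h6 ▸ hx2)
      have h7 : C.Y a q = C.Y a (s • a) := eq_of_le_of_card_ge (fun g hg => ⟨hg.1, by
        rw [← e, ← mul_smul s, ← mul_smul, K_comm h2 (K_swap hg.1 hg.2) (inv_mul_inv h2 hs ht), mul_smul,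
          K_fix hg.1]⟩) (by rw [hy h5, hy h6.symm])
      rw [if_neg h, ← hy h5]
      symm
      refine Set.ncard_congr (fun g _ => g * s) (fun g hg => ?_) (fun _ _ _ _ e => mul_right_cancel e)
        fun t' ⟨⟨q', hq', ht'⟩, e'⟩ => ⟨t' * s, ⟨?_, ?_⟩, by rw [mul_assoc, hs.1, mul_one]⟩
      · have h8 : g ∈ C.Y a q := h7 ▸ hg
        exact ⟨⟨q, hq, K_mul_inv h2 hs (K_swap h8.1 h8.2)⟩, by rw [mul_smul, hg.2]⟩
      · obtain ⟨⟨g, hg⟩, h1⟩ := ne_bot_iff_exists_ne_one.1 hU1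
        refine cent (hU hg).1 (fun e => h1 (Subtype.ext e)) ?_ ?_
        · rw [mul_smul, ← e', ← mul_smul, ht'.1, one_smul]
        · rw [mul_assoc, inv_inverts h2 hs (L_K h2 hU hq hg), ← mul_assoc,
            inv_inverts h2 ht' (L_K h2 hU hq' (inv_mem hg)), inv_inv, mul_assoc]
      · rw [mul_smul, ← mul_smul s, hs.1, one_smul, e'])] at h3
  obtain ⟨w, hw⟩ : C.k ∣ C.y * R.ncard := by
    rw [← card_K (C := C) a]
    refine card_dvd_mul (fun (g : G) (p : X) => g • p) (one_smul G) (fun g g' s => mul_smul g g' s) _ _ _ ?_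
      fun p hp => hy (L_far h2 hU hU1 ha (hRL hp).1 hp.1)
    rintro g hg _ ⟨h, s, ⟨q, hq, hs⟩, rfl⟩
    refine ⟨fun e => h (smul_left_cancel g (e.trans (K_fix hg).symm)), g * s * g⁻¹,
      ⟨g • q, L_smul h2 hU ha hq hg, conj_Inv g hs⟩, ?_⟩
    rw [mul_smul, mul_smul, K_fix (inv_mem hg)]
  obtain ⟨m, hm⟩ : C.y ∣ C.k := hy hc ▸ card_K (C := C) a ▸ card_dvd_of_le fun g hg => hg.1
  have h5 : 0 < (L \ {a}).ncard := (Set.ncard_pos (Set.toFinite _)).2 ⟨c, fun g hg => (hU hg).2, hc.1.symm⟩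
  have h6 : {p | C.far a p ∧ ∀ g ∈ U, g • p = p} = L \ {a} :=
    Set.ext fun p => ⟨fun h => ⟨h.2, h.1.1.symm⟩, fun h => ⟨L_far h2 hU hU1 ha h.1 h.2, h.1⟩⟩
  have h7 := Set.ncard_le_ncard hRL
  have h8 : m ≠ 1 := by
    rintro rfl
    have h9 : C.Y a c = C.K a := eq_of_le_of_card_ge (fun g hg => hg.1) (by rw [hy hc, card_K, hm, mul_one])
    obtain ⟨g, hg, h1⟩ := C.exists_K_ne a
    obtain ⟨c', hc', e⟩ := exists_far_move hg h1
    have h10 : C.Y a c' = C.K a := eq_of_le_of_card_ge (fun g hg => hg.1) (by rw [hy hc', card_K, hm, mul_one])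
    exact e (h10 ▸ hg : g ∈ C.Y a c').2
  rw [h6, ← h4 a ha] at *
  generalize (L \ {a}).ncard = n at *
  have e1 : n = m * f := Nat.eq_of_mul_eq_mul_right hy0 (by rw [← hf, hm]; ring)
  have e2 : (1 + w) * (f + 1) = n + 1 := Nat.eq_of_mul_eq_mul_right hk0 (by rw [← h3, mul_comm R.ncard, hw]; ring)
  have e3 : w ≤ f := Nat.le_of_mul_le_mul_left (by rw [← hw, hf, mul_comm]; exact Nat.mul_le_mul_right _ h7) hk0
  have e4 : 0 < f := Nat.pos_of_ne_zero (by rintro rfl; omega)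
  have e5 : f ∣ w := (Nat.dvd_add_right (Dvd.intro (1 + w) rfl)).1 ⟨m, by nlinarith⟩
  have e6 : w = f := le_antisymm e3 (Nat.le_of_dvd (Nat.pos_of_ne_zero (by
    rintro rfl
    exact h8 (Nat.eq_of_mul_eq_mul_right e4 (by omega)))) e5)
  have e7 : m = f + 2 := Nat.eq_of_mul_eq_mul_right e4 (by nlinarith)
  exact ⟨f, e4, by rw [hm, e7, mul_comm], by rw [e1, e7]⟩

end Y

theorem case_Y (hy1 : C.y ≠ 1) : Nat.card X = 16 ∧ Nat.card G = 576 := by
  obtain ⟨a, c, hc⟩ : ∃ a c, C.far a c := ⟨_, _, C.hc₀⟩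
  have hy0 : 0 < C.y := Nat.card_pos
  have hne : C.Y a c ≠ ⊥ := fun e => hy1 (by rw [← hy hc, e, card_bot])
  obtain ⟨f, hf, hk, h1⟩ := L_card h2 le_rfl hne hc
  have h3 : ∀ {g p}, g ∈ C.K a → g ≠ 1 → C.far a p → g • p = p → {q | C.far a q ∧ g • q = q}.ncard = (f + 2) * f :=
    fun {g p} hg hg1 hp e => by
    obtain ⟨f', -, hk', h4⟩ := L_card h2 (U := zpowers g) (zpowers_le.2 ⟨hg, e⟩) (by simpa using hg1) hp
    obtain rfl : f' = f := by
      have := Nat.eq_of_mul_eq_mul_right hy0 (hk.symm.trans hk')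
      omega
    rw [← h4]
    congr 1
    exact Set.ext fun q => and_congr Iff.rfl ⟨fun h w hw => (zpowers_le (H := stabilizer G q)).2 h hw,
      fun h => h g (mem_zpowers g)⟩
  have h4 : C.y * C.y ≤ C.k := by
    obtain ⟨⟨g, hg⟩, hg1⟩ := ne_bot_iff_exists_ne_one.1 hne
    obtain ⟨c', hc', e⟩ := exists_far_move hg.1 fun e => hg1 (Subtype.ext e)
    have := ncard_mul_le (C.Y a c) (C.Y a c') {g | g ∈ C.K a} (eq_bot_iff.2 fun w hw => by
      by_contra h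
      have h5 := Set.eq_of_subset_of_ncard_le (s := {p | C.far a p ∧ ∀ g ∈ C.Y a c, g • p = p})
        (t := {q | C.far a q ∧ w • q = q}) (fun p hp => ⟨hp.1, hp.2 w hw.1⟩) (by rw [h1, h3 hw.1.1 h hc hw.1.2])
      have h6 : c' ∈ {p | C.far a p ∧ ∀ g ∈ C.Y a c, g • p = p} := h5 ▸ ⟨hc', hw.2.2⟩
      exact e (h6.2 g hg)) fun g hg g' hg' => (C.K a).mul_mem hg.1 hg'.1
    rwa [hy hc, hy hc', ← card_eq_ncard, card_K] at this
  obtain ⟨r, hr⟩ := h_dvd_Z (C := C) a {g | (g ∈ C.K a ∧ g ≠ 1) ∧ ∃ p, C.far a p ∧ g • p = p} (fun s hs => hs.1) (by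
    rintro g hg s ⟨hs, p, hp, e⟩
    exact ⟨⟨conjK' hg hs.1, fun e => hs.2 (by simpa [mul_inv_eq_iff_eq_mul] using e)⟩, g • p, hp.smul hg,
      (conj_smul_iff g s _ _).2 e⟩)
  obtain ⟨y', hy'⟩ : ∃ y', C.y = y' + 1 := ⟨C.y - 1, by omega⟩
  have h5 := dc_mul {g | (g ∈ C.K a ∧ g ≠ 1) ∧ ∃ p, C.far a p ∧ g • p = p} {p | C.far a p} (fun g p => g • p = p)
    ((f + 2) * f) y' (fun g ⟨hg, p, hp, e⟩ => h3 hg.1 hg.2 hp e) fun p hp => by
      have h6 := Set.ncard_diff_singleton_add_one (s := {g | g ∈ C.Y a p}) (a := 1) (C.Y a p).one_mem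
      rw [← card_eq_ncard, hy hp, hy', Nat.add_right_cancel_iff] at h6
      rw [← h6]
      congr 1
      exact Set.ext fun g => ⟨fun h => ⟨⟨h.1.1.1, h.2⟩, h.1.1.2⟩, fun h => ⟨⟨⟨h.1.1, h.2⟩, p, hp, h.1.2⟩, h.1.2⟩⟩
  rw [hr, hl] at h5
  obtain ⟨m, hm⟩ : C.y ∣ C.x := hy hc ▸ hx hc ▸ card_dvd_of_le fun g hg => ⟨K_fix hg.1, hg.2⟩
  have h6 : Even m := by
    have h7 := even_x h2 le_rfl hne hc
    rw [hm, Nat.even_mul] at h7
    exact h7.resolve_left (Nat.not_even_iff_odd.2 ((odd_k h2).of_dvd_nat ⟨f + 2, by rw [hk, mul_comm]⟩))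
  obtain ⟨m, rfl⟩ := h6
  have e1 := C.kh_eq
  have e2 := C.two_le_h
  have e3 := C.x_pos
  have e4 : C.l * (m + m) = (f + 2) * C.h := Nat.eq_of_mul_eq_mul_right hy0 (by rw [hk, hm] at e1; nlinarith)
  have e5 : r * f * (m + m) = y' := Nat.eq_of_mul_eq_mul_left (show 0 < (f + 2) * C.h by positivity) (by
    calc _ = C.h * r * ((f + 2) * f) * (m + m) := by ring
      _ = _ := by rw [h5, ← e4]; ring)
  have e6 : C.y ≤ f + 2 := Nat.le_of_mul_le_mul_right (hk ▸ h4) hy0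
  have e7 : 0 < m := Nat.pos_of_ne_zero (by rintro rfl; omega)
  have e8 : 0 < r := Nat.pos_of_ne_zero (by rintro rfl; omega)
  have e9 : f * 2 ≤ y' := by
    rw [← e5, mul_right_comm, mul_comm f]
    exact Nat.mul_le_mul_right _ (by nlinarith)
  obtain rfl : f = 1 := by omega
  obtain rfl : y' = 2 := by omega
  obtain rfl : m = 1 := by nlinarith
  have e10 : C.mu = 6 := by
    obtain ⟨j, hj⟩ := C.x_dvd_mu
    have := C.mu_lt
    have := C.mu_pos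
    rw [show C.x = 6 by rw [hm, hy']] at hj
    omega
  obtain ⟨u, v, hu, hlam, hk', hlm⟩ := C.exists_uv
  have e11 : C.k = 9 := by omega
  obtain rfl : u = 1 := by nlinarith
  have e12 : C.lam + C.h = 8 := by nlinarith
  obtain ⟨m₁, m₂, -, h7⟩ := C.trace_all
  have e13 : C.h ∣ 8 := ⟨1 + v, by nlinarith⟩
  have e14 : C.h ≤ 8 := by omega
  have e15 : ∀ δ : ℕ, (δ * δ : ℤ) ≠ 12 ∧ (δ * δ : ℤ) ≠ 48 := fun δ => by
    rcases le_or_gt δ 7 with h | h
    · interval_cases δ <;> norm_num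
    · constructor <;> nlinarith
  rw [C.card_G, C.card_X]
  rw [e10, e11] at h7
  have e16 : C.h = 2 ∨ C.h = 4 ∨ C.h = 8 := by
    generalize C.h = h at *
    interval_cases h <;> omega
  rcases e16 with hh | hh | hh
  · rw [show C.lam = 6 by omega, show C.l = 3 by omega] at h7
    rcases h7 with ⟨-, h7⟩ | ⟨δ, h7, -⟩
    · norm_num at h7
    · exact ((e15 δ).1 (by rw [h7]; norm_num)).elim
  · rw [e11, hh, show C.l = 6 by omega]
    exact ⟨rfl, rfl⟩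
  · rw [show C.lam = 0 by omega, show C.l = 12 by omega] at h7
    rcases h7 with ⟨-, h7⟩ | ⟨δ, h7, -⟩
    · norm_num at h7
    · exact ((e15 δ).2 (by rw [h7]; norm_num)).elim

end Cfg

end CL.Rk3
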