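/-
Rank three extensions of Frobenius groups (S2207), part f: complement of even order, kernels TI.
-/
import Cfsg.Agent.Perm.Rk3e

set_option autoImplicit false

namespace CL.Rk3

open MulAction Subgroup

variable {G X : Type*} [Group G]

theorem eq_of_half [Finite G] {A B : Subgroup G} (h : A ≤ B) (h2 : Nat.card B < 2 * Nat.card A) : A = B := by
  obtain ⟨m, hm⟩ := card_dvd_of_le h
  have h0 : 0 < Nat.card B := Nat.card_pos
  have h1 : m < 2 := lt_of_mul_lt_mul_left (a := Nat.card A) (by rw [← hm, mul_comm]; exact h2) (Nat.zero_le _)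
  obtain rfl : m = 1 := by
    rcases m with _ | m
    · omega
    · omega
  exact eq_of_le_of_card_ge h (by omega)

theorem inv_all [Finite G] (B : Subgroup G) (s : G) (I : Set G) (hI : ∀ w ∈ I, w ∈ B ∧ s * w = w⁻¹ * s)
    (h : 3 * Nat.card B < 4 * I.ncard ∨ (Nat.card B < 2 * I.ncard ∧ ∀ a ∈ B, ∀ b ∈ B, a * b = b * a)) :
    ∀ w ∈ B, s * w = w⁻¹ * s := by
  set J := {w | w ∈ B ∧ s * w = w⁻¹ * s} with hJ
  have h1 : I.ncard ≤ J.ncard := Set.ncard_le_ncard hI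
  have h2 : ∀ a ∈ J, ∀ b ∈ B, b * a = a * b := by
    rcases h with h | h
    · intro a ha
      have h3 : ({b | a * b ∈ J} ∪ J).ncard ≤ Nat.card B :=
        Set.ncard_le_ncard (t := {g | g ∈ B}) (by
          rintro b (hb | hb)
          exacts [(B.mul_mem_cancel_left ha.1).1 hb.1, hb.1])
      have h4 : {b | a * b ∈ J}.ncard = J.ncard := Set.ncard_congr (fun b _ => a * b) (fun _ hb => hb)
        (fun _ _ _ _ e => mul_left_cancel e) fun b hb => ⟨a⁻¹ * b, by simpa using hb, by group⟩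
      have h5 := Set.ncard_union_add_ncard_inter {b | a * b ∈ J} J
      have h6 : ({b | a * b ∈ J} ∩ J).ncard ≤ Nat.card (B ⊓ centralizer {a} : Subgroup G) :=
        Set.ncard_le_ncard (t := {g | g ∈ B ⊓ centralizer {a}}) fun b hb => ⟨hb.2.1, by
          have e := hb.1.2
          rw [← mul_assoc, ha.2, mul_assoc, hb.2.2, ← mul_assoc, mul_right_cancel_iff, ← mul_inv_rev, inv_inj] at e
          exact mem_centralizer_singleton_iff.2 e⟩
      have h7 := eq_of_half (inf_le_left (a := B) (b := centralizer {a})) (by omega)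
      exact fun b hb => mem_centralizer_singleton_iff.1 (h7.ge hb).2
    · exact fun a ha b hb => h.2 b hb a ha.1
  let A : Subgroup G :=
    { carrier := J
      mul_mem' := fun {a b} ha hb => ⟨mul_mem ha.1 hb.1, by
        rw [← mul_assoc, ha.2, mul_assoc, hb.2, ← mul_assoc, ← mul_inv_rev, h2 a ha b hb.1]⟩
      one_mem' := ⟨one_mem _, by simp⟩
      inv_mem' := fun {a} ha => ⟨inv_mem ha.1, by
        rw [inv_inv, mul_inv_eq_iff_eq_mul, mul_assoc, ha.2, mul_inv_cancel_left]⟩ }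
  have h3 : A = B := eq_of_half (fun g hg => hg.1) (by
    have : Nat.card A = J.ncard := rfl
    omega)
  exact fun w hw => (h3.ge hw).2

theorem ar_odd {x m₁ m₂ δ : ℕ} (hm : m₁ + m₂ = (1 + 2 * x) + (1 + 2 * x) * 2)
    (h1 : (δ * δ : ℤ) = (x - (0 : ℕ)) * (x - (0 : ℕ)) + 4 * ((1 + 2 * x : ℕ) - x))
    (h2 : ((x - (0 : ℕ)) * ((1 + 2 * x : ℕ) + ((1 + 2 * x) * 2 : ℕ)) - 2 * (1 + 2 * x : ℕ) : ℤ) = δ * (m₁ - m₂)) :
    x + 2 ∣ 24 := by
  obtain rfl : δ = x + 2 := by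
    have : δ * δ = (x + 2) * (x + 2) := by zify; rw [h1]; push_cast; ring
    exact Nat.mul_self_inj.1 this
  have : ((x + 2 : ℕ) : ℤ) ∣ (24 : ℕ) := ⟨m₁ - m₂ - 6 * x + 13, by push_cast at h2 ⊢; linear_combination h2⟩
  exact_mod_cast this

theorem ar_11 {x E δ : ℕ} (hx : 0 < x) (hE : 0 < E) (h : δ * δ = E * E * (2 * x) * (2 * x) + (8 * E + 4) * (2 * x) + 4) :
    False := by
  obtain ⟨d, rfl⟩ : Even δ := by
    have : Even (δ * δ) := ⟨E * E * x * (2 * x) + (8 * E + 4) * x + 2, by rw [h]; ring⟩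
    simpa [Nat.even_mul] using this
  have h1 : d * d = E * x * (E * x) + (4 * (E * x) + 2 * x) + 1 := by nlinarith
  have h2 : x ≤ E * x := Nat.le_mul_of_pos_left _ hE
  generalize E * x = z at *
  rcases lt_trichotomy d (z + 2) with h3 | rfl | h3
  · have : d * d ≤ (z + 1) * (z + 1) := Nat.mul_self_le_mul_self (by omega)
    nlinarith
  · have : 2 * x = 3 := by nlinarith
    omega
  · have : (z + 3) * (z + 3) ≤ d * d := Nat.mul_self_le_mul_self (by omega)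
    nlinarith

theorem ar_20 {x E j j₂ δ : ℕ} (x2 : 2 ≤ x) (e2 : 1 ≤ E) (E4 : (3 + E) * j₂ + x * j = x * (2 * (E + 2))) (h2 : j₂ ≤ x)
    (hδ : δ * δ = 4 * (x * x) + 8 * (E * x) + 4)
    (h7 : (2 * ((E + 1) * x * j) + 2 * x * (E + 2) - 2 - 4 * ((E + 1) * x) : ℤ) ≤ δ * E) : False := by
  have h4 : (3 + E) * j₂ ≤ (3 + E) * x := Nat.mul_le_mul_left _ h2
  have h8 : E + 1 ≤ j := Nat.le_of_mul_le_mul_left (c := x) (by nlinarith) (by omega)
  have h9 : δ ≤ 2 * (x + E) := Nat.mul_self_le_mul_self_iff.1 (by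
    have : 1 ≤ E * E := Nat.mul_pos e2 e2
    nlinarith)
  have h10 : δ * E ≤ 2 * (x + E) * E := Nat.mul_le_mul_right _ h9
  have h11 : (E + 1) * x * (E + 1) ≤ (E + 1) * x * j := Nat.mul_le_mul_left _ h8
  have h12 : E * E * 2 ≤ E * E * x := Nat.mul_le_mul_left _ x2
  zify at h10 h11 h12 x2
  nlinarith

theorem ar_5 {x δ m : ℕ} (x2 : 2 ≤ x) (h1 : 1 ≤ m) (h2 : m ≤ 6) (h10 : δ * δ = x * x + 4 * (5 * x) + 4)
    (hN : (7 * x - 2 : ℤ) = δ * (2 * m - 7)) : False := by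
  have h16 : ((7 * x - 2) * (7 * x - 2) : ℤ) = (x * x + 20 * x + 4) * ((2 * m - 7) * (2 * m - 7)) := by
    zify at h10
    rw [hN]
    linear_combination (2 * m - 7) * (2 * m - 7) * h10
  rcases le_or_gt x 5 with h | h
  · interval_cases x <;> interval_cases m <;> norm_num at h16
  · rcases le_or_gt x 22 with h' | h' <;> interval_cases m <;> norm_num at h16 <;> nlinarith

theorem ar_10 {x E j j₁ j₂ m₁ m₂ δ : ℕ} (hx : Even x) (x2 : 2 ≤ x) (he : Odd E) (E2 : (3 + E) * j₁ = (E + 1) * x * j)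
    (E4 : (3 + E) * j₂ + x * j = x * (E + 2)) (h2 : j₂ ≤ x) (hm1 : 1 ≤ m₁) (hm2 : 1 ≤ m₂) (hm : m₁ + m₂ = E + 2)
    (h10 : δ * δ = x * x + 4 * (E * x) + 4) (hN : (2 * ((E + 1) * x * j) - E * x - 2 : ℤ) = δ * (m₁ - m₂))
    (hg : 3 * x < 4 * j₂ ∨ (x = 4 ∧ j₂ = 3) → x ∣ 2 * j₂) (h24 : E = 1 → x + 2 ∣ 24) : E = 1 ∧ x = 2 := by
  have h7 : (δ * (m₁ - m₂) : ℤ) ≤ δ * E := mul_le_mul_of_nonneg_left (by omega) (by positivity)
  have h8 : ((3 + E : ℕ) : ℤ) ∣ (2 * x : ℕ) :=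
    ⟨2 * x - 2 * j₂ - x * j + j₁, by zify at E2 E4; push_cast; linear_combination 2 * E4 - E2⟩
  have h9 := Nat.le_of_dvd (by omega) (Int.natCast_dvd_natCast.1 h8)
  have h11 : (δ : ℤ) ≤ 3 * x - 2 := by
    have : (3 + E) * x ≤ 2 * x * x := Nat.mul_le_mul_right _ h9
    zify at this h10
    exact (mul_self_le_mul_self_iff (by positivity) (by omega)).2 (by nlinarith)
  have h12 : j ≤ 1 := by
    by_contra h
    have h13 : (E + 1) * x * 2 ≤ (E + 1) * x * j := Nat.mul_le_mul_left _ (by omega)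
    have h14 : (δ : ℤ) * E ≤ (3 * x - 2) * E := mul_le_mul_of_nonneg_right h11 (by positivity)
    zify at h13 x2
    nlinarith
  have h13 : 4 * j₂ ≤ 3 * x := by
    by_contra h
    obtain ⟨m, hm⟩ := hg (Or.inl (by omega))
    have h14 : 1 < m := lt_of_mul_lt_mul_left (a := x) (by omega) (by omega)
    have : x * 2 ≤ x * m := Nat.mul_le_mul_left _ h14
    obtain rfl : j₂ = x := by omega
    nlinarith
  have h14 := Nat.mul_le_mul_left (3 + E) h13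
  obtain ⟨r, hr⟩ := he
  clear h7 h8 h11
  interval_cases j
  · exfalso
    have h15 : E ≤ 1 := Nat.le_of_mul_le_mul_left (c := x) (by nlinarith) (by omega)
    obtain rfl : E = 1 := by omega
    have h16 := h24 rfl
    have h17 := Nat.le_of_dvd (by norm_num) h16
    have h18 : x = 4 := by
      have : x ≤ 22 := by omega
      interval_cases x <;> omega
    have := hg (Or.inr (by omega))
    rw [h18, show j₂ = 3 by omega] at this
    exact absurd this (by norm_num)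
  have h15 : E ≤ 5 := Nat.le_of_mul_le_mul_left (c := x) (by nlinarith) (by omega)
  rcases (by omega : E = 1 ∨ E = 3 ∨ E = 5) with rfl | rfl | rfl
  · obtain rfl : δ = x + 2 := Nat.mul_self_inj.1 (by rw [h10]; ring)
    refine ⟨rfl, ?_⟩
    rcases (by omega : (m₁ = 1 ∧ m₂ = 2) ∨ (m₁ = 2 ∧ m₂ = 1)) with ⟨rfl, rfl⟩ | ⟨rfl, rfl⟩ <;> push_cast at hN <;> omega
  · obtain ⟨y, rfl⟩ := hx
    exact (ar_11 (x := y) (E := 1) (δ := δ) (by omega) (by omega) (by rw [h10]; ring)).elim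
  · exact (ar_5 (m := m₁) x2 hm1 (by omega) h10 (by
      rw [show (2 * m₁ - 7 : ℤ) = m₁ - m₂ by omega, ← hN]; push_cast; ring)).elim

theorem ar_main {x e u v j j₁ j₂ m₁ m₂ δ : ℕ} (hx : Even x) (hx0 : 0 < x) (he : Even e) (he0 : 0 < e) (hu : 1 ≤ u)
    (E1 : (1 + j₁ + e * j₂) * (2 + e * 1) = 1 + (1 + e * x * (u + v)) + (1 + e * x * (u + v)) * e)
    (E2 : (2 + e) * j₁ = e * x * v + e * (x * j)) (h1 : j₁ ≤ e * x) (h2 : j₂ ≤ x) (hm1 : 1 ≤ m₁) (hm2 : 1 ≤ m₂)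
    (hm : m₁ + m₂ = e + 1)
    (hδ : (δ * δ : ℤ) = (x * u - e * x * v) * (x * u - e * x * v) + 4 * (1 + e * x * (u + v) - x * u))
    (hN : (2 * (e * x * v + e * (x * j)) + (x * u - e * x * v) * (e + 1) - 2 * (1 + e * x * (u + v)) : ℤ) =
      δ * (m₁ - m₂))
    (hg : 3 * x < 4 * j₂ ∨ (x = 4 ∧ j₂ = 3) → x ∣ 2 * j₂) (h24 : e = 2 → u = 1 → v = 0 → x + 2 ∣ 24) :
    e = 2 ∧ u = 1 ∧ v = 0 ∧ x = 2 := by
  have E4 : (2 + e) * j₂ + x * (v + j) = x * ((u + v) * (e + 1)) :=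
    Nat.eq_of_mul_eq_mul_left he0 (by zify at E1 E2 ⊢; linear_combination E1 - E2)
  have e2 : 2 ≤ e := by obtain ⟨r, rfl⟩ := he; omega
  have x2 : 2 ≤ x := by obtain ⟨r, rfl⟩ := hx; omega
  have h3 : x * (v + j) ≤ (2 + e) * x := Nat.le_of_mul_le_mul_left (by
    have := Nat.mul_le_mul_left (2 + e) h1
    nlinarith) he0
  have h4 : (2 + e) * j₂ ≤ (2 + e) * x := Nat.mul_le_mul_left _ h2
  have h5 : (u + v) * (e + 1) ≤ 2 * (2 + e) := Nat.le_of_mul_le_mul_left (by nlinarith) hx0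
  have h6 : u + v ≤ 2 := by nlinarith
  obtain ⟨E, rfl⟩ : ∃ E, e = E + 1 := ⟨e - 1, by omega⟩
  push_cast at hδ hN
  rcases (by omega : (u = 2 ∧ v = 0) ∨ (u = 1 ∧ v = 1) ∨ (u = 1 ∧ v = 0)) with ⟨rfl, rfl⟩ | ⟨rfl, rfl⟩ | ⟨rfl, rfl⟩
  · have h7 : (δ * (m₁ - m₂) : ℤ) ≤ δ * E := mul_le_mul_of_nonneg_left (by omega) (by positivity)
    exact (ar_20 (E := E) (j := j) (δ := δ) x2 (by omega) (by linear_combination E4) h2
      (by zify; rw [hδ]; push_cast; ring) (by push_cast at hN; linarith)).elim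
  · obtain ⟨y, rfl⟩ := hx
    exact (ar_11 (x := y) (E := E) (δ := δ) (by omega) (by omega) (by zify; rw [hδ]; push_cast; ring)).elim
  · have := ar_10 (E := E) (j := j) (j₁ := j₁) (δ := δ) hx x2 (by simpa [parity_simps] using he)
      (by linear_combination E2) (by linear_combination E4) h2 hm1 hm2 hm (by zify; rw [hδ]; push_cast; ring)
      (by rw [← hN]; push_cast; ring) hg fun h => h24 (by omega) rfl rfl
    omega

variable [MulAction G X]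

namespace Cfg

variable (C : Cfg G X)

/-- Number of involutions with a fixed point mapping `a` to `p`. -/
noncomputable def jj (G : Type*) {X : Type*} [Group G] [MulAction G X] (a p : X) : ℕ :=
  {s : G | (∃ q ∈ (Set.univ : Set X), s ∈ Inv G q) ∧ s • a = p}.ncard

noncomputable def beta : ℕ := {g | g ∈ C.K C.a₀ ∧ C.adj C.c₀ (g • C.c₀)}.ncard

variable {C}

theorem jj_smul (g : G) (a p : X) : jj G (g • a) (g • p) = jj G a p :=
  (ncard_conj g _ _ fun s => and_congr ⟨fun ⟨q, _, h⟩ => ⟨_, trivial, conj_Inv g h⟩, fun ⟨q, _, h⟩ =>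
    ⟨_, trivial, by simpa [mul_assoc] using conj_Inv g⁻¹ h⟩⟩ (conj_smul_iff g s _ _).symm).symm

theorem hj1 {a b : X} (h : C.adj a b) : jj G a b = jj G C.a₀ C.b₀ := by
  obtain ⟨g, rfl, rfl⟩ := C.tr1 C.hb₀ h
  exact jj_smul g _ _

theorem hj2 {a b : X} (h : C.far a b) : jj G a b = jj G C.a₀ C.c₀ := by
  obtain ⟨g, rfl, rfl⟩ := C.tr2 C.hc₀ h
  exact jj_smul g _ _

theorem hbeta {a c : X} (h : C.far a c) : {g | g ∈ C.K a ∧ C.adj c (g • c)}.ncard = C.beta := by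
  obtain ⟨g, rfl, rfl⟩ := C.tr2 C.hc₀ h
  exact (ncard_conj g _ _ fun s => and_congr (conjK g).symm (by
    rw [mul_smul, mul_smul, inv_smul_smul, adj_iff])).symm

variable [Finite G] [Finite X]

theorem jj_le (a p : X) : jj G a p ≤ Nat.card (St G a p) := ncard_swap_le _ _ _ fun _ ⟨⟨_, _, h⟩, e⟩ => ⟨h.1, e⟩

theorem K_lam {a b : X} (h : C.adj a b) : {g | g ∈ C.K a ∧ C.adj b (g • b)}.ncard = C.lam := by
  rw [← hlam h]
  refine Set.ncard_congr (fun g _ => g • b) (fun g hg => ⟨adj_smul h (K_fix hg.1), hg.2⟩) (fun g g' hg hg' e => ?_)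
    fun r hr => ?_
  · exact (inv_mul_eq_one.1 (K_adj (mul_mem (inv_mem hg'.1) hg.1) h (by rw [mul_smul, e, inv_smul_smul]))).symm
  · obtain ⟨g, hg, rfl⟩ := C.trK h hr.1
    exact ⟨g, ⟨hg, hr.2⟩, rfl⟩

variable (h2 : Even C.h) (hy1 : C.y = 1)
include hy1

theorem Y_one {a c : X} {g : G} (hc : C.far a c) (hg : g ∈ C.K a) (e : g • c = c) : g = 1 :=
  mem_bot.1 ((card_eq_one.1 ((hy hc).trans hy1)).le (⟨hg, e⟩ : g ∈ C.Y a c))

theorem exists_e : ∃ e, 0 < e ∧ C.l = C.k * e ∧ C.h = e * C.x := by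
  obtain ⟨e, he⟩ : C.k ∣ C.l := by
    rw [← card_K (C := C) C.a₀]
    exact card_dvd_smul _ _ (fun g hg s hs => hs.smul (K_fix hg)) fun s hs g hg e => Y_one hy1 hs hg e
  have := C.l_pos
  have h1 := C.kh_eq
  rw [he, mul_assoc] at h1
  exact ⟨e, Nat.pos_of_ne_zero (by rintro rfl; omega), he,
    Nat.eq_of_mul_eq_mul_left (lt_of_le_of_lt (Nat.zero_le _) C.mu_lt) h1⟩

theorem x_dvd_beta : C.x ∣ C.beta :=
  card_dvd_conj (St G C.a₀ C.c₀) _ (fun g hg s hs => ⟨conjK' hg.1 hs.1, by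
      rw [mul_smul, mul_smul, (inv_mem hg).2]; exact adj_smul hs.2 hg.2⟩)
    fun s hs g hg e => Y_one hy1 C.hc₀ (cent hs.1 (fun e => C.irr C.c₀ (by simpa [e] using hs.2)) hg.1 e) hg.2

theorem trace_K {e : ℕ} (he : C.l = C.k * e) (h : Even e) : ∃ m₁ m₂ δ : ℕ, 1 ≤ m₁ ∧ 1 ≤ m₂ ∧ m₁ + m₂ = e + 1 ∧
    (δ * δ : ℤ) = (C.mu - C.lam) * (C.mu - C.lam) + 4 * (C.k - C.mu) ∧
    (2 * (C.lam + e * C.beta) + (C.mu - C.lam) * (e + 1) - 2 * C.k : ℤ) = δ * (m₁ - m₂) := by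
  classical
  have := Fintype.ofFinite X
  have h0 : ∀ p : X, (∀ g ∈ C.K C.a₀, g • p = p → g = 1) → {g | g ∈ C.K C.a₀ ∧ g • p = p}.ncard = 1 := fun p hp =>
    Set.ncard_eq_one.2 ⟨1, Set.eq_singleton_iff_unique_mem.2 ⟨⟨one_mem _, one_smul _ _⟩, fun g hg => hp g hg.1 hg.2⟩⟩
  obtain ⟨m₁, m₂, h1, h3, h4, h5⟩ := trace_srg C.adj (fun _ _ => C.symm) C.irr (fun g _ _ => C.smul g) C.k C.lam C.mu hk
    (fun _ _ => hlam) (fun _ _ h h' => hmu ⟨h, h'⟩) C.mu_lt (C.K C.a₀) C.a₀ C.b₀ C.c₀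
    (fun g hg => K_fix hg) C.hb₀ C.hc₀.1 C.hc₀.2 (e + 2) (C.lam + e * C.beta)
    (by
      rw [C.sum_three C.a₀ _ 1 1 (fun b hb => h0 b fun g hg => K_adj hg hb) fun c hc => h0 c fun g => Y_one hy1 hc,
        show {g | g ∈ C.K C.a₀ ∧ g • C.a₀ = C.a₀} = {g | g ∈ C.K C.a₀} from
          Set.ext fun g => ⟨And.left, fun h => ⟨h, K_fix h⟩⟩, ← card_eq_ncard, card_K, he]
      ring)
    (by
      rw [C.sum_three C.a₀ _ _ _ (fun b => K_lam) fun c => hbeta,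
        show {g | g ∈ C.K C.a₀ ∧ C.adj C.a₀ (g • C.a₀)} = ∅ from
          Set.eq_empty_iff_forall_notMem.2 fun g h => C.irr C.a₀ (by simpa only [K_fix h.1] using h.2), card_K, he,
        Set.ncard_empty]
      ring)
  obtain ⟨r, rfl⟩ := h
  obtain ⟨δ, h6, h7⟩ := h5.resolve_left fun h => by omega
  exact ⟨m₁, m₂, δ, h1, h3, by omega, h6, by rw [← h7]; push_cast; ring⟩

include h2

theorem inv_uniq {a c : X} {s t : G} (hc : C.far a c) (hs : s ∈ Inv G a) (ht : t ∈ Inv G a) (e : s • c = c)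
    (e' : t • c = c) : s = t := by
  rw [← inv_eq_of_mul_eq_one_right ht.1]
  exact eq_inv_of_mul_eq_one_left (Y_one hy1 hc (inv_mul_inv h2 hs ht) (by rw [mul_smul, e', e]))

omit hy1 in
theorem fix_card {e i : ℕ} (he : C.l = C.k * e) (hi : ∀ a c : X, C.far a c → {s | s ∈ Inv G a ∧ s • c = c}.ncard = i)
    {p : X} {s : G} (hs : s ∈ Inv G p) : {q | q ∈ (Set.univ : Set X) ∧ s • q = q}.ncard = 2 + e * i := by
  have h1 := dc_mul (Inv G p) {q | C.far p q} (fun s q => s • q = q) {q | C.far p q ∧ s • q = q}.ncard i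
    (fun t ht => by
      obtain ⟨w, hw, rfl⟩ := inv_conj h2 hs ht
      refine (ncard_smul w {q | C.far p q ∧ s • q = q} {q | C.far p q ∧ (w * s * w⁻¹) • q = q} fun q =>
        and_congr ?_ (conj_smul_iff w s _ _).symm).symm
      rw [← far_iff w, K_fix hw]) (hi p)
  rw [card_Inv h2, hl, he, mul_assoc] at h1
  obtain ⟨b, hb, eb⟩ := exists_fix hs.2.2 (inv_notK h2 hs)
  rw [← Nat.eq_of_mul_eq_mul_left (lt_of_le_of_lt (Nat.zero_le _) C.mu_lt) h1,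
    show {q | q ∈ (Set.univ : Set X) ∧ s • q = q} = insert p (insert b {q | C.far p q ∧ s • q = q}) from ?_,
    Set.ncard_insert_of_notMem, Set.ncard_insert_of_notMem]
  · ring
  · exact fun h => h.1.2 hb
  · rintro (h | h)
    exacts [adj_ne hb h, h.1.1 rfl]
  · ext q
    refine ⟨fun h => ?_, ?_⟩
    · rcases C.tri p q with e | e | e
      exacts [Or.inl e, Or.inr (Or.inl (fix_uniq hs.2.1 e hb hs.2.2 h.2 eb)), Or.inr (Or.inr ⟨e, h.2⟩)]
    · rintro (rfl | rfl | h)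
      exacts [⟨trivial, hs.2.2⟩, ⟨trivial, eb⟩, ⟨trivial, h.2⟩]

omit hy1 in
theorem count_n {e f : ℕ} (he : C.l = C.k * e)
    (hf : ∀ p : X, ∀ s ∈ Inv G p, {q | q ∈ (Set.univ : Set X) ∧ s • q = q}.ncard = f) :
    (1 + jj G C.a₀ C.b₀ + e * jj G C.a₀ C.c₀) * f = 1 + C.k + C.k * e := by
  classical
  have := Fintype.ofFinite X
  have h1 := count_T h2 Set.univ C.a₀ trivial f fun p _ => hf p
  change (C.k + ∑ p, if p = C.a₀ then 0 else jj G C.a₀ p) * f = _ at h1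
  rw [C.sum_three C.a₀ (fun p => if p = C.a₀ then 0 else jj G C.a₀ p) (jj G C.a₀ C.b₀) (jj G C.a₀ C.c₀) (fun b hb => (if_neg (adj_ne hb).symm).trans (hj1 hb))
    (fun c hc => (if_neg hc.1.symm).trans (hj2 hc)), if_pos rfl, Set.ncard_univ, C.card_X, he] at h1
  exact Nat.eq_of_mul_eq_mul_right (lt_of_le_of_lt (Nat.zero_le _) C.mu_lt) (by rw [← h1]; ring)

theorem case_odd (hx2 : Odd C.x) : Nat.card X = 10 ∧ Nat.card G = 60 := by
  obtain ⟨e, he0, he, hh'⟩ := exists_e hy1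
  have h1 := count_n h2 he fun p s hs => fix_card h2 (i := 0) he (fun a c hc => by
    rw [Set.ncard_eq_zero, Set.eq_empty_iff_forall_notMem]
    exact fun s hs => hs.1.2.1 (eq_one_of_odd (U := St G a c) (hx hc ▸ hx2) ⟨hs.1.2.2, hs.2⟩ hs.1.1)) hs
  have h3 : _ ≤ C.h := jj_le C.a₀ C.b₀
  have h4 : e * _ ≤ e * C.x := Nat.mul_le_mul_left e (jj_le C.a₀ C.c₀)
  obtain ⟨u, v, hu, hlam, hk', hlm⟩ := C.exists_uv
  obtain ⟨r, rfl⟩ : Even e := (Nat.even_mul.1 (hh' ▸ h2)).resolve_right (Nat.not_even_iff_odd.2 hx2)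
  have h5 : C.h * ((u + v) * (1 + (r + r))) < C.h * 4 := by
    rw [← hh', hk'] at *
    nlinarith
  have h6 := lt_of_mul_lt_mul_left h5 (Nat.zero_le _)
  obtain rfl : r = 1 := by nlinarith
  obtain rfl : u = 1 := by omega
  obtain rfl : v = 0 := by omega
  have e1 : C.k = 1 + 2 * C.x := by omega
  have e2 : C.mu = C.x := Nat.eq_of_mul_eq_mul_left C.l_pos (by rw [hlm, mul_one, C.kh_eq])
  obtain ⟨m₁, m₂, h7, h8⟩ := C.trace_all
  rw [he, e1] at h7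
  obtain ⟨δ, h8, h9⟩ := h8.resolve_left fun h => by omega
  rw [e2, show C.lam = 0 by omega, e1] at h8
  rw [e2, show C.lam = 0 by omega, he, e1] at h9
  have h10 := ar_odd h7 h8 h9
  have h11 := Nat.le_of_dvd (by norm_num) h10
  have h12 : C.x = 1 := by
    generalize C.x = x at *
    obtain ⟨y, rfl⟩ := hx2
    have : y ≤ 10 := by omega
    interval_cases y <;> omega
  rw [C.card_G, C.card_X, he, hh', e1, h12]
  exact ⟨rfl, rfl⟩

variable (hx2 : Even C.x)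
include hx2

theorem one_inv (a c : X) (hc : C.far a c) : {s | s ∈ Inv G a ∧ s • c = c}.ncard = 1 := by
  obtain ⟨s, hs, e⟩ := exists_inv_of_even (hx hc ▸ hx2)
  exact Set.ncard_eq_one.2 ⟨s, Set.eq_singleton_iff_unique_mem.2 ⟨⟨hs, e⟩, fun t ht =>
    inv_uniq h2 hy1 hc ht.1 hs ht.2 e⟩⟩

theorem even_e {e : ℕ} (he : C.l = C.k * e) : Even e := by
  obtain ⟨s, hs, -⟩ := exists_inv h2 C.hb₀
  choose! σ hσ hσ' using fun (p : X) (hp : s • p = p) => exists_fix hp (inv_notK h2 ⟨hs.1, hs.2.1, hp⟩)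
  have := even_ncard {q | q ∈ (Set.univ : Set X) ∧ s • q = q} σ (fun p hp => ⟨trivial, hσ' p hp.2⟩)
    (fun p hp => fix_uniq hs.2.1 (hσ _ (hσ' p hp.2)) (C.symm (hσ p hp.2)) (hσ' p hp.2) (hσ' _ (hσ' p hp.2)) hp.2)
    fun p hp e => adj_ne (hσ p hp.2) e.symm
  rw [fix_card h2 he (one_inv h2 hy1 hx2) hs, mul_one, Nat.even_add] at this
  exact this.1 even_two

theorem count_alpha {e : ℕ} (he : C.l = C.k * e) : (2 + e) * jj G C.a₀ C.b₀ = C.lam + e * C.beta := by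
  have := Fintype.ofFinite X
  have hk0 : 0 < C.k := lt_of_le_of_lt (Nat.zero_le _) C.mu_lt
  have h1 : ∀ a, ∀ s ∈ Inv G a, {p | p ∈ (Set.univ : Set X) ∧ C.adj p (s • p)}.ncard = C.lam + e * C.beta :=
    fun a s hs => by
    have h3 := dc_sum (Inv G a) (fun s p => p ∈ (Set.univ : Set X) ∧ C.adj p (s • p)) _ fun t ht => by
      obtain ⟨w, hw, rfl⟩ := inv_conj h2 hs ht
      exact (ncard_smul w {p | p ∈ (Set.univ : Set X) ∧ C.adj p (s • p)} _ fun q => by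
        simp only [Set.mem_setOf_eq, Set.mem_univ, mul_smul, inv_smul_smul, adj_iff]).symm
    simp only [Set.mem_univ, true_and] at h3 ⊢
    rw [C.sum_three a _ C.lam C.beta (fun b hb => by
        obtain ⟨t, ht, e⟩ := exists_inv h2 hb
        exact (ncard_Inv h2 ht e (C.adj b)).trans (K_lam hb)) (fun c hc => by
        obtain ⟨t, ht, e⟩ := exists_inv_of_even (hx hc ▸ hx2)
        exact (ncard_Inv h2 ht e (C.adj c)).trans (hbeta hc)),
      show {s | s ∈ Inv G a ∧ C.adj a (s • a)} = ∅ from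
        Set.eq_empty_iff_forall_notMem.2 fun g h => C.irr a (by simpa only [h.1.2.2] using h.2), card_Inv h2, he,
      Set.ncard_empty] at h3
    exact Nat.eq_of_mul_eq_mul_left hk0 (by rw [h3]; ring)
  have h3 := dc_mul {s | ∃ q ∈ (Set.univ : Set X), s ∈ Inv G q} Set.univ (fun s p => C.adj p (s • p)) _
    (C.k * jj G C.a₀ C.b₀) (fun s ⟨a, _, hs⟩ => h1 a s hs) fun p _ => by
      rw [← hk p, ← dc_mul {s | (∃ q ∈ (Set.univ : Set X), s ∈ Inv G q) ∧ C.adj p (s • p)} {q | C.adj p q} (fun s q => s • p = q) 1 _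
        (fun s hs => Set.ncard_eq_one.2 ⟨s • p, Set.eq_singleton_iff_unique_mem.2 ⟨⟨hs.2, rfl⟩, fun q hq => hq.2.symm⟩⟩)
        fun q hq => ?_, mul_one]
      · rfl
      · rw [← hj1 hq]
        congr 1
        exact Set.ext fun s => ⟨fun h => ⟨h.1.1, h.2⟩, fun h => ⟨⟨h.1, h.2 ▸ hq⟩, h.2⟩⟩
  have h4 := dc_mul {s | ∃ q ∈ (Set.univ : Set X), s ∈ Inv G q} Set.univ (fun s q => s • q = q) _ C.k
    (fun s ⟨p, _, hs⟩ => fix_card h2 he (one_inv h2 hy1 hx2) hs) fun q _ => by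
      rw [← card_Inv h2 q]
      congr 1
      exact Set.ext fun s => ⟨fun ⟨⟨_, _, h⟩, e⟩ => ⟨h.1, h.2.1, e⟩, fun h => ⟨⟨q, trivial, h⟩, h.2.2⟩⟩
  have h5 : 0 < (Set.univ : Set X).ncard * C.k :=
    Nat.mul_pos ((Set.ncard_pos (Set.toFinite _)).2 ⟨C.a₀, trivial⟩) hk0
  refine Nat.eq_of_mul_eq_mul_left h5 ?_
  calc _ = (2 + e * 1) * ((Set.univ : Set X).ncard * (C.k * jj G C.a₀ C.b₀)) := by ring
    _ = _ := by rw [← h3, ← h4]; ring

theorem x_dvd_j (h : 3 * C.x < 4 * jj G C.a₀ C.c₀ ∨ (C.x = 4 ∧ jj G C.a₀ C.c₀ = 3)) : C.x ∣ 2 * jj G C.a₀ C.c₀ := by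
  have key : ∀ s : G, s * s = 1 → s • C.a₀ = C.c₀ → s • C.c₀ = C.a₀ := fun s h1 h3 => by
    rw [← h3, ← mul_smul, h1, one_smul]
  refine card_dvd_conj_mul (St G C.a₀ C.c₀) 2 _ ?_ ?_
  · rintro g hg s ⟨⟨q, -, hs⟩, e⟩
    exact ⟨⟨_, trivial, conj_Inv g hs⟩, by rw [mul_smul, mul_smul, (inv_mem hg).1, e, hg.2]⟩
  rintro s ⟨⟨q, -, hs⟩, e⟩
  have h1 := inv_all (St G C.a₀ C.c₀) s
    ((· * s) '' {s : G | (∃ q ∈ (Set.univ : Set X), s ∈ Inv G q) ∧ s • C.a₀ = C.c₀}) (by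
      rintro _ ⟨t, ⟨⟨q, -, ht⟩, e'⟩, rfl⟩
      refine ⟨⟨by rw [mul_smul, e, key t ht.1 e'], by rw [mul_smul, key s hs.1 e, e']⟩, ?_⟩
      rw [mul_inv_rev, inv_eq_of_mul_eq_one_right hs.1, inv_eq_of_mul_eq_one_right ht.1, mul_assoc]) (by
      rw [Set.ncard_image_of_injective _ (mul_left_injective s)]
      refine h.imp id fun h => ⟨by change C.x < 2 * jj G C.a₀ C.c₀; omega, fun a ha b hb => ?_⟩
      have : Fact (Nat.Prime 2) := ⟨Nat.prime_two⟩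
      have := IsPGroup.isMulCommutative_of_card_eq_prime_sq (G := St G C.a₀ C.c₀) (p := 2) h.1
      exact congrArg Subtype.val (mul_comm' (⟨a, ha⟩ : St G C.a₀ C.c₀) ⟨b, hb⟩))
  obtain ⟨t, ht, e'⟩ := exists_inv_of_even (hx C.hc₀ ▸ hx2)
  rw [Set.ncard_eq_two]
  refine ⟨1, t, ht.2.1.symm, Set.ext fun g => ⟨fun hg => ?_, ?_⟩⟩
  · refine (em (g = 1)).imp id fun h0 => inv_uniq h2 hy1 C.hc₀ ⟨?_, h0, hg.1.1⟩ ht hg.1.2 e'
    exact mul_eq_one_iff_eq_inv.2 (mul_right_cancel (hg.2.trans (h1 g hg.1)))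
  · rintro (rfl | rfl)
    · exact ⟨one_mem _, by simp⟩
    · exact ⟨⟨ht.2.2, e'⟩, by rw [h1 _ ⟨ht.2.2, e'⟩, inv_eq_of_mul_eq_one_right ht.1]⟩

theorem case_even : Nat.card X = 16 ∧ Nat.card G = 320 := by
  obtain ⟨e, he0, he, hh'⟩ := exists_e hy1
  obtain ⟨u, v, hu, hlam, hk', hlm⟩ := C.exists_uv
  obtain ⟨j, hj⟩ := x_dvd_beta hy1
  have h0 := even_e h2 hy1 hx2 he
  have h1 := count_n h2 he fun p s hs => fix_card h2 he (one_inv h2 hy1 hx2) hs
  have h3 := count_alpha h2 hy1 hx2 he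
  have h4 : _ ≤ C.h := jj_le C.a₀ C.b₀
  have e2 : C.mu = C.x * u := Nat.eq_of_mul_eq_mul_left C.l_pos (by rw [hlm, ← mul_assoc, C.kh_eq, mul_assoc])
  obtain ⟨m₁, m₂, δ, h5, h6, h7, h8, h9⟩ := trace_K hy1 he h0
  rw [hh'] at hlam hk' h4
  rw [hk'] at h1
  rw [hlam, hj] at h3
  rw [e2, hlam, hk'] at h8
  rw [e2, hlam, hk', hj] at h9
  obtain ⟨rfl, rfl, rfl, h10⟩ := ar_main hx2 C.x_pos h0 he0 hu h1 h3 h4 (jj_le C.a₀ C.c₀) h5 h6 h7
    (by exact_mod_cast h8) (by exact_mod_cast h9) (x_dvd_j h2 hy1 hx2) (by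
      rintro rfl rfl rfl
      have e1 : C.k = 1 + 2 * C.x := by omega
      obtain ⟨m₁, m₂, h7, h8⟩ := C.trace_all
      rw [he, e1] at h7
      obtain ⟨δ, h8, h9⟩ := h8.resolve_left fun h => by omega
      rw [e2, mul_one, show C.lam = 0 by omega, e1] at h8
      rw [e2, mul_one, show C.lam = 0 by omega, he, e1] at h9
      exact ar_odd h7 h8 h9)
  rw [C.card_G, C.card_X, he, hh', hk', h10]
  exact ⟨rfl, rfl⟩

omit hy1 hx2 in
theorem h_even : (Nat.card X = 10 ∧ Nat.card G = 60) ∨ (Nat.card X = 16 ∧ (Nat.card G = 320 ∨ Nat.card G = 576)) := by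
  by_cases h : C.y = 1
  · rcases Nat.even_or_odd C.x with h' | h'
    · exact Or.inr ((case_even h2 h h').imp id Or.inl)
    · exact Or.inl (case_odd h2 h h')
  · exact Or.inr ((case_Y h2 h).imp id Or.inr)

end Cfg

end CL.Rk3
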