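/-
A bounded presentation of `SU₃(q)`, part 1: two relations of the form `w u w ∈ B w B` imply all of them.
-/
import Cfsg.Agent.Chev.U3Card
import Cfsg.Agent.Known.PresBP

set_option autoImplicit false

namespace CL.Chev.U3

variable {G J F : Type*} [Group G] [Group J] [Field F]

theorem UF.exists_decomp (S : UF F) {θ : F} (hθ : S.σ θ ≠ θ) (x : F) :
    ∃ s r, S.σ s = s ∧ S.σ r = r ∧ x = s * θ + r := by
  have h1 : θ - S.σ θ ≠ 0 := sub_ne_zero.2 hθ.symm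
  have h2 : S.σ θ - θ ≠ 0 := sub_ne_zero.2 hθ
  have h3 : S.σ ((x - S.σ x) / (θ - S.σ θ)) = (x - S.σ x) / (θ - S.σ θ) := by
    rw [map_div₀, map_sub, map_sub, S.σσ, S.σσ]; field_simp; ring
  refine ⟨_, x - (x - S.σ x) / (θ - S.σ θ) * θ, h3, ?_, by ring⟩
  rw [map_sub, map_mul, h3]; field_simp; ring

theorem UF.exists_smul_b (S : UF F) {t : F} (h : S.σ t = t) (h0 : t ≠ 0) : ∃ c : Fˣ, c * S.σ c = t := by
  obtain ⟨c, hc⟩ := S.bar.exists_norm_eq h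
  exact ⟨Units.mk0 c (by rintro rfl; simp [h0.symm] at hc), hc⟩

theorem Model.bruhat_unique (M : Model G F) (hD : Function.Injective M.D) {u v u' v' : M.Q} {c c' : Fˣ}
    (h : M.T u * M.D c * M.w * M.T v = M.T u' * M.D c' * M.w * M.T v') : u = u' ∧ c = c' ∧ v = v' := by
  obtain rfl : u = u' := by simpa [mul_smul] using congrArg (· • M.inf) h
  simp only [mul_assoc, mul_right_inj] at h
  have h1 := congrArg (fun g => M.w * g⁻¹) h
  simp only [mul_inv_rev, ← map_inv, M.w_inv, ← mul_assoc] at h1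
  have h2 := congrArg (· • M.inf) (show M.T v⁻¹ * M.w * M.D c⁻¹ = M.T v'⁻¹ * M.w * M.D c'⁻¹ by
    simpa [mul_assoc] using h1)
  obtain rfl : v = v' := by simpa [mul_smul, ← map_inv] using h2
  exact ⟨rfl, hD (by simpa using h), rfl⟩

/-- a group that covers the unitary group and satisfies the relations of the Borel subgroup and of the monomial subgroup -/
structure Cov (M : Model G F) (J : Type*) [Group J] where
  τ : M.Q →* J
  δ : Fˣ →* J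
  ω : J
  ρ : J →* G
  ρτ : ∀ u, ρ (τ u) = M.T u
  ρδ : ∀ c, ρ (δ c) = M.D c
  ρω : ρ ω = M.w
  δτ : ∀ c u, δ c * τ u = τ (c • u) * δ c
  ωω : ω * ω = 1
  ωδ : ∀ c, ω * δ c = δ (Units.map M.σ c)⁻¹ * ω

namespace Cov

variable {M : Model G F} (A : Cov M J)

/-- the big cell -/
def DB (j : J) : Prop := ∃ u c v, j = A.τ u * A.δ c * A.ω * A.τ v

/-- the relation for `u` holds -/
def W (u : M.Q) : Prop := A.DB (A.ω * A.τ u * A.ω)

variable {A} {j : J} {u v : M.Q}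

theorem DB.τ_mul (h : A.DB j) (x : M.Q) : A.DB (A.τ x * j) :=
  let ⟨u, c, v, e⟩ := h
  ⟨x * u, c, v, by rw [e, map_mul]; group⟩

theorem DB.mul_τ (h : A.DB j) (x : M.Q) : A.DB (j * A.τ x) :=
  let ⟨u, c, v, e⟩ := h
  ⟨u, c, v * x, by rw [e, map_mul]; group⟩

theorem DB.δ_mul (h : A.DB j) (x : Fˣ) : A.DB (A.δ x * j) :=
  let ⟨u, c, v, e⟩ := h
  ⟨x • u, x * c, v, by rw [e, map_mul, ← mul_assoc, ← mul_assoc, ← mul_assoc, A.δτ]; group⟩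

theorem DB.mul_δ (h : A.DB j) (x : Fˣ) : A.DB (j * A.δ x) :=
  let ⟨u, c, v, e⟩ := h
  ⟨u, c * (Units.map M.σ x)⁻¹, x⁻¹ • v, by
    rw [e, map_mul, mul_assoc _ _ (A.δ x), ← smul_inv_smul x v, ← A.δτ, inv_smul_smul, ← mul_assoc, mul_assoc _ A.ω, A.ωδ]
    group⟩

theorem db_ω : A.DB A.ω := ⟨1, 1, 1, by simp⟩

theorem DB.inv (h : A.DB j) : A.DB j⁻¹ := by
  obtain ⟨u, c, v, rfl⟩ := h
  simpa [mul_assoc, inv_eq_of_mul_eq_one_left A.ωω] using (((db_ω (A := A)).τ_mul v⁻¹).mul_δ c⁻¹).mul_τ u⁻¹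

theorem DB.smul_ne (h : A.DB j) : A.ρ j • M.inf ≠ M.inf := by
  obtain ⟨u, c, v, rfl⟩ := h
  simp [A.ρτ, A.ρδ, A.ρω, mul_smul]

theorem W.ne_one (h : A.W u) : u ≠ 1 := by
  rintro rfl
  exact h.smul_ne (by simp [A.ρω])

theorem W.inv (h : A.W u) : A.W u⁻¹ := by
  simpa [W, mul_assoc, inv_eq_of_mul_eq_one_left A.ωω] using DB.inv h

theorem W.smul (h : A.W u) (c : Fˣ) : A.W (c • u) := by
  have e : A.ω * A.δ (Units.map M.σ c) = A.δ c⁻¹ * A.ω := by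
    rw [A.ωδ]; congr 3; ext; simp
  have := (DB.δ_mul h (Units.map M.σ c)⁻¹).mul_δ (Units.map M.σ c)
  rwa [← mul_assoc, ← mul_assoc, ← A.ωδ, mul_assoc _ A.ω, e, mul_assoc A.ω, A.δτ, map_inv, ← mul_assoc, ← mul_assoc,
    mul_inv_cancel_right] at this

variable (hD : Function.Injective M.D)
include hD

theorem W.exact (h : A.W u) : ∃ c, A.ω * A.τ u * A.ω = A.τ u.wAct * A.δ c * A.ω * A.τ (u⁻¹.wAct)⁻¹ := by
  obtain ⟨x, c, y, e⟩ := id h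
  have := congrArg A.ρ e
  simp only [map_mul, A.ρτ, A.ρδ, A.ρω, M.w_T_w h.ne_one] at this
  obtain ⟨rfl, -, rfl⟩ := M.bruhat_unique hD this
  exact ⟨c, e⟩

theorem W.wAct (h : A.W u) : A.W (u.wAct)⁻¹ := by
  obtain ⟨c, e⟩ := h.inv.exact hD
  have := ((db_ω (A := A).mul_τ u⁻¹).τ_mul (u⁻¹.wAct)⁻¹).δ_mul c⁻¹
  rw [inv_inv] at e
  have e' : A.ω * A.τ u⁻¹ = A.τ u⁻¹.wAct * A.δ c * (A.ω * A.τ (u.wAct)⁻¹ * A.ω) := by
    rw [← mul_assoc, ← mul_assoc, ← e, mul_assoc, A.ωω, mul_one]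
  rwa [e', map_inv, map_inv, mul_assoc (A.τ _), inv_mul_cancel_left, inv_mul_cancel_left] at this

theorem W.mul (hu : A.W u) (hv : A.W v) (h : A.W ((u⁻¹.wAct)⁻¹ * v.wAct)) : A.W (u * v) := by
  obtain ⟨c, e⟩ := hu.exact hD
  obtain ⟨d, e'⟩ := hv.exact hD
  have := (((DB.δ_mul h c).τ_mul u.wAct).mul_δ (Units.map M.σ d)⁻¹).mul_τ (v⁻¹.wAct)⁻¹
  refine (congrArg A.DB ?_).mpr this
  calc A.ω * A.τ (u * v) * A.ω = A.ω * A.τ u * A.ω * (A.ω * A.τ v * A.ω) := by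
        rw [map_mul, show A.ω * A.τ u * A.ω * (A.ω * A.τ v * A.ω) = A.ω * A.τ u * (A.ω * A.ω) * A.τ v * A.ω by group, A.ωω]
        group
    _ = A.τ u.wAct * (A.δ c * (A.ω * A.τ ((u⁻¹.wAct)⁻¹ * v.wAct))) * (A.ω * (A.ω * A.δ d * A.ω)) * A.τ (v⁻¹.wAct)⁻¹ := by
        rw [e, e', map_mul, ← mul_assoc A.ω (_ * _), ← mul_assoc A.ω A.ω, A.ωω]; group
    _ = _ := by rw [A.ωδ, mul_assoc _ A.ω A.ω, A.ωω]; group

theorem w_all {ζ : F} (hζ : ∀ t : F, t ≠ 0 → ∃ k : ℕ, ζ ^ k = t) {z : M.Q} (hz : z.a = 0) (hu : u.b = ζ * z.b)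
    (h1 : A.W z) (h2 : A.W u) (hv : v ≠ 1) : A.W v := by
  have e0 := UF.Q.b_ne_zero h1.ne_one
  have e1 := UF.Q.σ_b_of_a hz
  have z0 : ζ ≠ 0 := left_ne_zero_of_mul (hu ▸ UF.Q.b_ne_zero h2.ne_one)
  have z1 : M.σ ζ ≠ ζ := fun e => by
    obtain ⟨x, hx⟩ := M.bar.exists_ne
    obtain ⟨k, rfl⟩ := hζ x (by rintro rfl; simp at hx)
    exact hx (by rw [map_pow, e])
  have z2 := M.toUF.σ_ne_zero z0
  have sc : ∀ {b : F}, (∀ x : M.Q, x.b = b → A.W x) → ∀ x : M.Q, ∀ t, M.σ t = t → t ≠ 0 → x.b = t * b → A.W x :=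
    fun H x t ht t0 e => by
      obtain ⟨c, hc⟩ := M.toUF.exists_smul_b ht t0
      rw [← smul_inv_smul c x]
      refine (H _ ?_).smul c
      apply mul_left_cancel₀ t0
      rw [← e, ← hc, ← UF.Q.smul_b, smul_inv_smul]
  have p0 := sc (b := z.b) fun x e => by
    have := x.h
    rw [e, e1, add_neg_cancel, zero_add, mul_eq_zero, M.toUF.σ_eq_zero, or_self] at this
    rwa [UF.Q.ext (this.trans hz.symm) e]
  have st : ∀ x : M.Q, x.b = ζ * z.b → A.W x → ∃ y : M.Q, y.b = ζ * z.b ∧ y.a = ζ / M.σ ζ * x.a ∧ A.W y := fun x e h =>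
    ⟨_, by simp [e, e1]; field_simp, by simp [e, e1]; field_simp,
      (h.wAct hD).smul (Units.mk0 (-M.σ x.b) (neg_ne_zero.2 (M.toUF.σ_ne_zero (UF.Q.b_ne_zero h.ne_one))))⟩
  have st' : ∀ k : ℕ, ∃ y : M.Q, y.b = ζ * z.b ∧ y.a = (ζ / M.σ ζ) ^ k * u.a ∧ A.W y := fun k => by
    induction k with
    | zero => exact ⟨u, hu, by simp, h2⟩
    | succ k ih =>
      obtain ⟨y, a1, a2, a3⟩ := ih
      obtain ⟨x, b1, b2, b3⟩ := st y a1 a3
      exact ⟨x, b1, by rw [b2, a2]; ring, b3⟩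
  have p1 := sc (b := ζ * z.b) fun x e => by
    have a0 : u.a ≠ 0 := fun h => z1 (mul_right_cancel₀ e0 (by
      have := UF.Q.σ_b_of_a h
      rw [hu, map_mul, e1] at this
      linear_combination -this))
    have a1 := M.toUF.σ_ne_zero a0
    obtain ⟨y, y0, hy⟩ := M.bar.exists_div_bar_eq (x := x.a / u.a) (by
      rw [map_div₀, div_mul_div_comm, div_eq_one_iff_eq (mul_ne_zero a0 a1)]
      linear_combination x.h - u.h + (hu - e) + M.σ.congr_arg (hu.trans e.symm))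
    obtain ⟨k, rfl⟩ := hζ y y0
    obtain ⟨y, b1, b2, b3⟩ := st' k
    rwa [UF.Q.ext (x := x) (y := y) (by
      rw [b2, div_pow, ← map_pow, (div_eq_iff (M.toUF.σ_ne_zero y0)).2 hy, div_mul_cancel₀ _ a0]) (e.trans b1.symm)]
  obtain ⟨k, hk⟩ := hζ (v.b / z.b) (div_ne_zero (UF.Q.b_ne_zero hv) e0)
  refine (?_ : ∀ k : ℕ, ∀ x : M.Q, ∀ t, M.σ t = t → t ≠ 0 → x.b = t * (ζ ^ k * z.b) → A.W x) k v 1 (map_one _) one_ne_zero
    (by rw [hk]; field_simp)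
  intro k
  induction k with
  | zero => simpa using p0
  | succ k ih =>
    refine sc fun x e => ?_
    obtain ⟨s, r, hs, hr, e2⟩ := M.toUF.exists_decomp z1 (ζ ^ (k + 1))
    rw [e2] at e
    by_cases s0 : s = 0
    · exact p0 x r hr (by rintro rfl; exact pow_ne_zero (k + 1) z0 (by rw [e2, s0]; simp)) (by simpa [s0] using e)
    by_cases r0 : r = 0
    · exact p1 x s hs s0 (by rw [e, r0]; ring)
    let y := UF.Q.z (r * z.b) (by rw [map_mul, hr, e1, mul_neg])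
    have a1 : (x * y⁻¹).b = s * (ζ * z.b) := by simp [y, e, hr, e1]; ring
    rw [← inv_mul_cancel_right x y]
    refine (p1 _ s hs s0 a1).mul hD (p0 y r hr r0 rfl) (ih _ (s * r * z.b ^ 2)⁻¹ (by simp [hs, hr, e1])
      (by simp [s0, r0, e0]) ?_)
    generalize x * y⁻¹ = x' at a1
    simp only [y, UF.Q.mul_b, UF.Q.inv_b, UF.Q.wAct_b, UF.Q.wAct_a, map_inv₀, UF.σσ, a1, UF.Q.z_a, UF.Q.z_b]
    field_simp
    linear_combination -e2

theorem eq_one_of_w (h : ∀ v, v ≠ 1 → A.W v) {L : Subgroup J}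
    (hL : L ≤ Subgroup.closure (Set.range A.τ ∪ Set.range A.δ ∪ {A.ω})) (hj : j ∈ L) (h1 : A.ρ j = 1) : j = 1 := by
  have key : ∀ j ∈ Subgroup.closure (Set.range A.τ ∪ Set.range A.δ ∪ {A.ω}), (∃ u c, j = A.τ u * A.δ c) ∨ A.DB j := by
    have a1 : ∀ x j, ((∃ u c, j = A.τ u * A.δ c) ∨ A.DB j) → (∃ u c, A.τ x * j = A.τ u * A.δ c) ∨ A.DB (A.τ x * j) := by
      rintro x _ (⟨u, c, rfl⟩ | h)
      exacts [Or.inl ⟨x * u, c, by rw [map_mul, mul_assoc]⟩, Or.inr (h.τ_mul x)]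
    have a2 : ∀ x j, ((∃ u c, j = A.τ u * A.δ c) ∨ A.DB j) → (∃ u c, A.δ x * j = A.τ u * A.δ c) ∨ A.DB (A.δ x * j) := by
      rintro x _ (⟨u, c, rfl⟩ | h)
      exacts [Or.inl ⟨x • u, x * c, by rw [map_mul, ← mul_assoc, A.δτ, mul_assoc]⟩, Or.inr (h.δ_mul x)]
    have a3 : ∀ j, ((∃ u c, j = A.τ u * A.δ c) ∨ A.DB j) → (∃ u c, A.ω * j = A.τ u * A.δ c) ∨ A.DB (A.ω * j) := by
      rintro _ (⟨u, c, rfl⟩ | ⟨u, c, v, rfl⟩)
      · exact Or.inr (by simpa [mul_assoc] using (db_ω.mul_τ u).mul_δ c)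
      have e : A.ω * (A.τ u * A.δ c * A.ω * A.τ v) = A.ω * A.τ u * A.ω * A.δ (Units.map M.σ c)⁻¹ * A.τ v := by
        rw [mul_assoc (A.ω * A.τ u), A.ωδ, show (Units.map (M.σ : F →* F) (Units.map (M.σ : F →* F) c)⁻¹)⁻¹ = c by ext; simp]
        group
      rw [e]
      by_cases hu : u = 1
      · exact Or.inl ⟨_, _, Eq.trans (by rw [hu, map_one, mul_one, A.ωω, one_mul]) (A.δτ (Units.map M.σ c)⁻¹ v)⟩
      · exact Or.inr ((DB.mul_δ (h u hu) _).mul_τ v)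
    intro j hj
    induction hj using Subgroup.closure_induction_left with
    | one => exact Or.inl ⟨1, 1, by simp⟩
    | mul_left x hx y _ ih =>
      rcases hx with (⟨x, rfl⟩ | ⟨x, rfl⟩) | rfl
      exacts [a1 _ _ ih, a2 _ _ ih, a3 _ ih]
    | inv_mul_cancel x hx y _ ih =>
      rcases hx with (⟨x, rfl⟩ | ⟨x, rfl⟩) | rfl
      exacts [map_inv A.τ x ▸ a1 _ _ ih, map_inv A.δ x ▸ a2 _ _ ih, (inv_eq_of_mul_eq_one_left A.ωω).symm ▸ a3 _ ih]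
  rcases key j (hL hj) with ⟨u, c, rfl⟩ | h
  · obtain ⟨rfl, e⟩ := M.TD_inj (u := u) (v := 1) (c := c) (d := 1) (by simpa [A.ρτ, A.ρδ] using h1)
    rw [hD e]; simp
  · exact absurd (by rw [h1, one_smul]) h.smul_ne

end Cov

end CL.Chev.U3
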