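/-
A bounded presentation of `SU₃(q)`, part 2: the Borel subgroup; the presentation.
-/
import Cfsg.Agent.Perm.SU3Pres1

set_option autoImplicit false

namespace CL.Chev.U3

open CL.Known
open scoped commutatorElement

universe u

theorem pres_of_list' {X : Type u} {G : Type*} [Group G] (π : FreeGroup X →* G) (l : List (FreeGroup X))
    (h1 : ∀ w ∈ l, π w = 1) (h2 : ∀ (J : Type u) [Group J] (φ : FreeGroup X →* J) (ρ : J →* G), (∀ w, ρ (φ w) = π w) →
      (∀ w ∈ l, φ w = 1) → π.ker ≤ φ.ker) : Pres π l.length := by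
  classical
  have h0 : Subgroup.normalClosure (l.toFinset : Set (FreeGroup X)) ≤ π.ker :=
    Subgroup.normalClosure_le_normal fun w hw => h1 w (by simpa using hw)
  refine ⟨l.toFinset, l.toFinset_card_le, le_antisymm h0 ?_⟩
  have := h2 _ (QuotientGroup.mk' (Subgroup.normalClosure (l.toFinset : Set (FreeGroup X)))) (QuotientGroup.lift _ π h0)
    (fun _ => rfl) fun w hw => (QuotientGroup.eq_one_iff w).2 (Subgroup.subset_normalClosure (by simpa using hw))
  rwa [QuotientGroup.ker_mk'] at this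

section
variable {K J : Type*} [Field K] [Group J] {x : K → J} (hx : ∀ s t, x (s + t) = x s * x t) {ν : K}
include hx

/-- the image of an additive map -/
def addRange : Subgroup J where
  carrier := Set.range x
  mul_mem' := by rintro _ _ ⟨s, rfl⟩ ⟨t, rfl⟩; exact ⟨_, hx s t⟩
  one_mem' := ⟨0, addHom_zero hx⟩
  inv_mem' := by rintro _ ⟨s, rfl⟩; exact ⟨_, addHom_neg hx s⟩

theorem commute_of_four (hν : PowGen ν) {u a b : J} (ha : ∀ t, a * x t * a⁻¹ = x (ν ^ 2 * t))
    (hb : ν ^ 2 = 1 ∨ (∀ t, b * x t * b⁻¹ = x ((1 + ν) ^ 2 * t)) ∧ ∃ t, b * u * b⁻¹ = x t * (u * (a * u * a⁻¹)))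
    (h : ∀ j < 4, Commute u (x (ν ^ j))) (t : K) : Commute u (x t) := by
  refine Subgroup.mem_centralizer_singleton_iff.1 (addHom_mem hx hν (H := Subgroup.centralizer {u}) ?_ t) |>.symm
  rintro _ ⟨j, rfl⟩
  refine Subgroup.mem_centralizer_singleton_iff.2 (Commute.symm (?_ : Commute u (x (ν ^ j))))
  induction j using Nat.strong_induction_on with
  | _ j ih =>
    rcases Nat.lt_or_ge j 4 with hj | hj
    · exact h j hj
    obtain ⟨j, rfl⟩ := Nat.exists_eq_add_of_le' hj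
    rcases hb with hb | ⟨hb, t, ht⟩
    · rw [show j + 4 = 2 + (j + 2) by ring, pow_add, hb, one_mul]
      exact ih _ (by omega)
    have a1 := (ih (j + 2) (by omega)).conj b
    have a2 := (((ih j (by omega)).mul_right (ih (j + 1) (by omega))).mul_right (ih (j + 1) (by omega))).mul_right
      (ih (j + 2) (by omega)) |>.conj a
    rw [← hx, ← hx, ← hx, ha, show ν ^ 2 * (ν ^ j + ν ^ (j + 1) + ν ^ (j + 1) + ν ^ (j + 2)) = (1 + ν) ^ 2 * ν ^ (j + 2) by ring]
      at a2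
    rw [hb, ht] at a1
    have a3 := ((addHom_commute hx t _).inv_left.mul_left a1).mul_left a2.inv_left
    rw [inv_mul_cancel_left, mul_inv_cancel_right,
      show (1 + ν) ^ 2 * ν ^ (j + 2) = ν ^ (j + 2) + ν ^ (j + 3) + ν ^ (j + 3) + ν ^ (j + 4) by ring, hx, hx, hx] at a3
    simpa only [inv_mul_cancel_left] using (((ih (j + 2) (by omega)).mul_right (ih (j + 3) (by omega))).mul_right
      (ih (j + 3) (by omega))).inv_right.mul_right a3

theorem exists_normal_form (hν : ∀ t : K, t ≠ 0 → ∃ k : ℕ, ν ^ k = t) {h a : J} (hc : Commute a h)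
    (ha : ∀ t, a * x t * a⁻¹ = x (ν * t)) {s r : K} (hs : s ≠ 0) (h2 : h * (h * x 1 * h⁻¹) * h⁻¹ = x s * (h * x r * h⁻¹))
    (hr : r ≠ 0 ∨ AddSubgroup.closure {(1 : K)} = ⊤ ∧ Commute (x 1) (h * x 1 * h⁻¹)) {n : ℕ} (hn : h ^ (n + 1) = 1)
    {g : J} (hg : g ∈ Subgroup.closure {x 1, h}) : ∃ t t', ∃ i : ℕ, g = x t * (h * x t' * h⁻¹) * h ^ i := by
  have a1 : ∀ t, h * (h * x t * h⁻¹) * h⁻¹ = x (t * s) * (h * x (t * r) * h⁻¹) := fun t => by
    by_cases h0 : t = 0
    · simp [h0, addHom_zero hx]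
    obtain ⟨k, rfl⟩ := hν t h0
    have e : ∀ y, a ^ k * (h * y * h⁻¹) * (a ^ k)⁻¹ = h * (a ^ k * y * (a ^ k)⁻¹) * h⁻¹ := fun y => by
      rw [← mul_assoc, ← mul_assoc, (hc.pow_left k).eq, mul_assoc _ h⁻¹, ← mul_inv_rev, (hc.pow_left k).eq]; group
    rw [← conj_pow_of_conj ha, ← conj_pow_of_conj ha, ← e, conj_mul, ← h2, e, e, conj_pow_of_conj ha, mul_one]
  have a2 : ∀ t t', Commute (x t) (h * x t' * h⁻¹) := fun t t' => by
    rcases hr with hr | ⟨hr, e⟩
    · have := a1 (t' / r + t / s)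
      rw [hx, ← conj_mul (b := h) (a := x _), ← conj_mul (b := h) (a := h * x _ * h⁻¹), a1, a1, add_mul, add_mul, hx, hx,
        ← conj_mul (b := h) (a := x _), div_mul_cancel₀ _ hr,
        div_mul_cancel₀ _ hs, mul_assoc, mul_assoc (x _) (x _), mul_right_inj, ← mul_assoc _ (x t), ← mul_assoc (x t),
        mul_left_inj] at this
      exact this.symm
    · have b1 := addHom_mem (x := fun t => h * x t * h⁻¹) (fun s t => by rw [hx, conj_mul]) hr
        (H := Subgroup.centralizer {x 1}) (by rintro _ rfl; exact Subgroup.mem_centralizer_singleton_iff.2 e.symm) t'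
      exact Subgroup.mem_centralizer_singleton_iff.1 (addHom_mem hx hr (H := Subgroup.centralizer {h * x t' * h⁻¹})
        (by rintro _ rfl; exact Subgroup.mem_centralizer_singleton_iff.2 (Subgroup.mem_centralizer_singleton_iff.1 b1).symm) t)
  have a3 : ∀ y g, (∃ t t', ∃ i : ℕ, g = x t * (h * x t' * h⁻¹) * h ^ i) →
      ∃ t t', ∃ i : ℕ, x y * g = x t * (h * x t' * h⁻¹) * h ^ i := by
    rintro y _ ⟨t, t', i, rfl⟩
    exact ⟨y + t, t', i, by rw [hx]; group⟩
  have a4 : ∀ (k : ℕ) g, (∃ t t', ∃ i : ℕ, g = x t * (h * x t' * h⁻¹) * h ^ i) →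
      ∃ t t', ∃ i : ℕ, h ^ k * g = x t * (h * x t' * h⁻¹) * h ^ i := fun k g hg => by
    induction k with
    | zero => simpa using hg
    | succ k ih =>
      obtain ⟨t, t', i, e⟩ := ih
      refine ⟨t' * s, t + t' * r, i + 1, ?_⟩
      rw [pow_succ', mul_assoc, e, hx, ← conj_mul (b := h) (a := x _), ← mul_assoc (x (t' * s)), (a2 (t' * s) t).eq,
        mul_assoc _ (x (t' * s)), ← a1]
      group
  induction hg using Subgroup.closure_induction_left with
  | one => exact ⟨0, 0, 0, by simp [addHom_zero hx]⟩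
  | mul_left y hy g _ ih =>
    rcases hy with rfl | rfl
    exacts [a3 _ _ ih, by simpa using a4 1 _ ih]
  | inv_mul_cancel y hy g _ ih =>
    rcases hy with rfl | rfl
    exacts [addHom_neg hx 1 ▸ a3 _ _ ih, (inv_eq_of_mul_eq_one_left ((pow_succ _ _).symm.trans hn)).symm ▸ a4 n _ ih]

end

variable {F : Type*} [Field F] {S : UF F}

theorem bp_borel {B : Type*} [Group B] (T : S.Q →* B) (D : Fˣ →* B) (hc : ∀ c u, D c * T u * (D c)⁻¹ = T (c • u))
    (hi : ∀ u c, T u * D c = 1 → u = 1 ∧ c = 1) (hs : ∀ g, ∃ u c, g = T u * D c) (hq : 3 ≤ S.q) : BP B 2 14 := by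
  classical
  have := S.finite
  obtain ⟨p, -, hp, _, -, -⟩ := S.bar.exists_prime_pow
  have := Fact.mk hp
  let K := CL.Uni.IsBar.fixedField S.σ
  have cK : Nat.card K = S.q := S.bar.card_fixedField
  have fK : ∀ t : K, S.σ t = t := fun t => t.2
  obtain ⟨ζ, z0, hζ, ho⟩ := exists_field_gen F
  have z1 := S.σ_ne_zero z0
  obtain ⟨m, hm⟩ : ∃ m, S.q = m + 1 := ⟨S.q - 1, by omega⟩
  have cF : Nat.card F - 1 = m * (m + 2) := by rw [S.card, hm]; exact Nat.sub_eq_of_eq_add (by ring)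
  have σζ : S.σ ζ = ζ ^ m * ζ := by rw [S.bar.apply, hm, pow_succ]
  rw [cF] at ho
  let c := Units.mk0 ζ z0
  let θ := S.σ ζ ^ 2 / ζ
  let ν : K := ⟨ζ * S.σ ζ, S.bar.norm_fixed ζ⟩
  have θ1 : S.σ θ ≠ θ := fun e => by
    have := Nat.le_of_dvd (by omega) (Nat.dvd_of_mul_dvd_mul_left (by omega) (ho (m * 3) (by
      simp only [θ, map_div₀, map_pow, S.σσ] at e
      rw [σζ] at e
      field_simp at e
      rw [pow_mul, ← e])))
    omega
  have θ2 : θ + S.σ θ = 0 → S.q = 5 := fun e => by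
    have h1 := Nat.dvd_of_mul_dvd_mul_left (by omega) (ho (m * 6) (by
      simp only [θ, map_div₀, map_pow, S.σσ] at e
      rw [σζ] at e
      field_simp at e
      rw [pow_mul]
      apply mul_left_cancel₀ z0
      linear_combination ((ζ ^ m) ^ 3 - 1) * e))
    have := Nat.le_of_dvd (by omega) h1
    obtain rfl | rfl | rfl : m = 2 ∨ m = 3 ∨ m = 4 := by omega
    all_goals omega
  have hν : ∀ t : K, t ≠ 0 → ∃ k : ℕ, ν ^ k = t := fun t ht => by
    obtain ⟨y, hy⟩ := S.exists_smul_b (fK t) (by simpa using ht)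
    obtain ⟨k, hk⟩ := hζ y y.ne_zero
    exact ⟨k, Subtype.ext (by simp [ν, ← hy, ← hk, mul_pow])⟩
  have ν0 : ν ≠ 0 := fun e => mul_ne_zero z0 z1 (congrArg Subtype.val e)
  have pν : PowGen ν := eq_top_iff.2 fun t _ => by
    by_cases h : t = 0
    exacts [h ▸ zero_mem _, AddSubgroup.subset_closure (hν t h)]
  obtain ⟨k, hk⟩ : ∃ k : ℕ, 1 + ν = 0 ∨ ν ^ k = 1 + ν := by
    by_cases h : 1 + ν = 0
    exacts [⟨0, Or.inl h⟩, (hν _ h).imp fun _ => Or.inr]
  have ν2 : 1 + ν = 0 → ν ^ 2 = 1 := fun h => by linear_combination (ν - 1) * h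
  have ν3 : 1 + ν = 0 → ∀ e i : ℕ, p ^ e = Nat.card K → i < e → i = 0 := fun h e i he hi => by
    have h1 := Nat.le_of_dvd (by omega) (Nat.dvd_of_mul_dvd_mul_right (by omega) (ho (2 * (m + 2)) (by
      have := congrArg Subtype.val (ν2 h)
      simp only [ν, SubmonoidClass.coe_pow, σζ, OneMemClass.coe_one] at this
      rw [← this]; ring)))
    by_contra h0
    have := (Nat.pow_le_pow_left hp.two_le 2).trans (Nat.pow_le_pow_right hp.pos (show 2 ≤ e by omega))
    omega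
  have cq : ((c ^ (m + 2) : Fˣ) : F) = ν := by simp [c, ν, σζ]; ring
  obtain ⟨u0, hu0⟩ := S.exists_Q 1
  have σε : S.σ (S.σ θ - θ) = -(S.σ θ - θ) := by rw [map_sub, S.σσ, neg_sub]
  have ε0 : S.σ θ - θ ≠ 0 := sub_ne_zero.2 θ1
  let zz : K → S.Q := fun t => UF.Q.z (t * (S.σ θ - θ)) (by rw [map_mul, fK, σε, mul_neg])
  have Ti : Function.Injective T := (injective_iff_map_eq_one T).2 fun u h => (hi u 1 (by simpa using h)).1
  have zs : ∀ y : S.Q, y.a = 0 → ∃ t, zz t = y := fun y hy =>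
    ⟨⟨y.b / (S.σ θ - θ), by
      rw [CL.Uni.IsBar.mem_fixedField, map_div₀, σε, UF.Q.σ_b_of_a hy, neg_div_neg_eq]⟩, UF.Q.ext hy.symm (by simp [zz, ε0])⟩
  have hX : ∀ s t, T (zz (s + t)) = T (zz s) * T (zz t) := fun s t => by
    rw [← map_mul]; congr 1; ext <;> simp [zz, add_mul]
  have iX : Function.Injective fun t => T (zz t) := fun s t e =>
    Subtype.ext (mul_right_cancel₀ ε0 (congrArg UF.Q.b (Ti e)))
  let Z := addRange (x := fun t => T (zz t)) hX
  have mZ : ∀ {y}, T y ∈ Z ↔ y.a = 0 := ⟨fun ⟨t, e⟩ => Ti e ▸ rfl, fun h => let ⟨t, e⟩ := zs _ h; ⟨t, congrArg T e⟩⟩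
  have : Z.Normal := ⟨by
    rintro _ ⟨t, rfl⟩ g
    obtain ⟨v, d, rfl⟩ := hs g
    rw [show T v * D d * T (zz t) * (T v * D d)⁻¹ = T (v * d • zz t * v⁻¹) by rw [map_mul, map_mul, map_inv, ← hc]; group]
    exact mZ.2 (by simp [zz])⟩
  have mk_eq : ∀ {y y'}, (QuotientGroup.mk' Z) (T y) = (QuotientGroup.mk' Z) (T y') ↔ y.a = y'.a := by
    intro y y'
    rw [QuotientGroup.mk'_apply, QuotientGroup.mk'_apply, QuotientGroup.eq, ← map_inv, ← map_mul, mZ]
    simp [neg_add_eq_zero]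
  choose yy hyy using fun t : K => S.exists_Q t
  let π : FreeGroup (Fin 2) →* B := FreeGroup.lift ![T u0, D c]
  let u : FreeGroup (Fin 2) := FreeGroup.of 0
  let h : FreeGroup (Fin 2) := FreeGroup.of 1
  have πu : π u = T u0 := by simp [π, u]
  have πh : π h = D c := by simp [π, h]
  let z := ⁅u, h * u * h⁻¹⁆
  have πz : π z = T (zz 1) := by
    simp only [z, map_commutatorElement, map_mul, map_inv, πu, πh, hc]
    rw [← map_commutatorElement]
    congr 1
    ext
    · exact UF.Q.commutator_a _ _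
    · simp [UF.Q.commutator_b, zz, hu0, c, θ]
  have hz : ∀ t, π h * T (zz t) * (π h)⁻¹ = T (zz (ν * t)) := fun t => by
    rw [πh, hc]; congr 1; ext <;> simp [zz, ν, c, mul_assoc]
  obtain ⟨e, ω, r, he, πω, πr, hJ⟩ := root_words p pν π hX iX πz hz
  let π' := (QuotientGroup.mk' Z).comp π
  have ha : ∀ (j : ℕ) y, π (h ^ (m + 2)) ^ j * T y * (π (h ^ (m + 2)) ^ j)⁻¹ = T ((c ^ (m + 2)) ^ j • y) := fun j y => by
    rw [map_pow, πh, ← map_pow, ← map_pow, hc]
  have sa : ∀ (j : ℕ) (y : S.Q), ((c ^ (m + 2)) ^ j • y).a = (ν ^ j : K) * y.a := fun j y => by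
    have : ((ν ^ j : K) : F) ≠ 0 := by simpa using pow_ne_zero j ν0
    rw [UF.Q.smul_a, Units.val_pow_eq_pow_val, cq, ← SubmonoidClass.coe_pow, fK, pow_two, mul_div_cancel_right₀ _ this]
  obtain ⟨e', ω', r', he', πω', πr', hJ'⟩ := root_words p pν π' (X := fun t => QuotientGroup.mk' Z (T (yy t)))
    (fun s t => by rw [← map_mul, ← map_mul, mk_eq]; simp [hyy])
    (fun s t e => Subtype.ext (by simpa [hyy] using mk_eq.1 e)) (wa := h ^ (m + 2)) (wu := u)
    (by rw [MonoidHom.comp_apply, πu, mk_eq]; simp [hyy, hu0]) fun t => by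
      rw [MonoidHom.comp_apply, ← map_inv, ← map_mul, ← map_mul, ← pow_one (π _), ha, mk_eq, sa]; simp [hyy]
  have cr : ∀ w, ∃ w', (π' w = 1 → π w' = 1) ∧ ∃ t, w' = w * (ω t)⁻¹ := fun w => by
    by_cases hw : π' w = 1
    · obtain ⟨t, ht⟩ := (QuotientGroup.eq_one_iff _).1 hw
      exact ⟨_, fun _ => by rw [map_mul, map_inv, πω, ← ht, mul_inv_cancel], t, rfl⟩
    · exact ⟨_, fun h => absurd h hw, 0, rfl⟩
  choose cr cr1 ct cr2 using cr
  let a := h ^ (m + 2)
  let s : K := -ν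
  let τ : K := ⟨θ + S.σ θ, S.bar.trace_fixed θ⟩
  let r1 := if 1 + ν = 0 then 1 else h ^ k * z * (h ^ k)⁻¹ * (z * (h * z * h⁻¹))⁻¹
  let r2 := if 1 + ν = 0 then 1 else a ^ k * u * (a ^ k)⁻¹ * (u * (a * u * a⁻¹))⁻¹
  have π'h : ∀ y, π' h * QuotientGroup.mk' Z (T y) * (π' h)⁻¹ = QuotientGroup.mk' Z (T (c • y)) := fun y => by
    rw [← hc, ← πh]; rfl
  have π'u : π' u = QuotientGroup.mk' Z (T u0) := congrArg _ πu
  have nf : ∀ t t' : K, ∃ y : S.Q, y.a = t + θ * t' ∧ π' (ω' t * (h * ω' t' * h⁻¹)) = QuotientGroup.mk' Z (T y) := fun t t' =>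
    ⟨yy t * c • yy t', by simp [hyy, c, θ], by simp only [map_mul, map_inv, πω', π'h]⟩
  refine ⟨π, fun g => ?_, pres_of_list' π [z ^ p, r, ⁅z, h * z * h⁻¹⁆, r1, ⁅u, ω (ν ^ 0)⁆, ⁅u, ω (ν ^ 1)⁆, ⁅u, ω (ν ^ 2)⁆,
    ⁅u, ω (ν ^ 3)⁆, cr (u ^ p), cr r', ⁅u, a * u * a⁻¹⁆, cr r2, cr (h * (h * u * h⁻¹) * h⁻¹ * (ω' s * (h * ω' τ * h⁻¹))⁻¹),
    h ^ (m * (m + 2))] ?_ ?_⟩
  · obtain ⟨y, d, rfl⟩ := hs g
    obtain ⟨t, t', h1, h2, h3⟩ := S.exists_decomp θ1 y.a
    obtain ⟨y', h4, h5⟩ := nf ⟨t', h2⟩ ⟨t, h1⟩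
    obtain ⟨j, hj⟩ := hζ d d.ne_zero
    obtain ⟨t'', h6⟩ := QuotientGroup.eq.1 (h5.trans (mk_eq.2 (show y'.a = y.a by rw [h4, h3]; ring)))
    refine ⟨ω' ⟨t', h2⟩ * (h * ω' ⟨t, h1⟩ * h⁻¹) * ω t'' * h ^ j, ?_⟩
    rw [map_mul, map_mul, πω, show T (zz t'') = _ from h6, mul_inv_cancel_left, map_pow, πh, ← map_pow, show c ^ j = d from Units.ext (by simpa [c])]
  · have cz : ∀ t, ⁅π u, π (ω t)⁆ = 1 := fun t => by
      rw [πu, πω, ← map_commutatorElement, commutatorElement_eq_one_iff_mul_comm.2 (UF.Q.comm_iff.2 (by simp [zz])), map_one]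
    simp only [List.mem_cons, List.not_mem_nil, or_false, forall_eq_or_imp, forall_eq, map_commutatorElement, cz, πr, true_and]
    refine ⟨?_, ?_, ?_, cr1 _ ?_, cr1 _ πr', ?_, cr1 _ ?_, cr1 _ ?_, ?_⟩
    · rw [map_pow, πz, ← addHom_nsmul (x := fun t => T (zz t)) hX, nsmul_one, CharP.cast_eq_zero]
      exact addHom_zero (x := fun t => T (zz t)) hX
    · rw [map_mul, map_mul, map_inv, πz, hz]
      exact (addHom_commute (x := fun t => T (zz t)) hX _ _).commutator_eq
    · simp only [r1]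
      split_ifs with h3
      · exact map_one _
      · simp only [map_mul, map_inv, map_pow, πz, conj_pow_of_conj hz, hz, mul_one, ← hX, hk.resolve_left h3, mul_inv_cancel]
    · rw [map_pow, π'u, ← map_pow, ← map_pow, ← map_one (QuotientGroup.mk' Z), ← map_one T, mk_eq, UF.Q.pow_a]
      simp
    · rw [map_mul, map_mul, map_inv, πu, ← pow_one (π a), ha, ← map_commutatorElement,
        commutatorElement_eq_one_iff_mul_comm.2 (UF.Q.comm_iff.2 (by rw [sa, hu0, map_mul, fK]; simp)), map_one]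
    · simp only [r2]
      split_ifs with h3
      · exact map_one _
      · rw [MonoidHom.comp_apply, map_mul, map_inv, map_mul, map_inv, mul_inv_eq_one, map_mul π u, map_mul π _ a⁻¹,
          map_mul π _ (a ^ k)⁻¹, map_mul π, map_mul π, map_inv, map_inv, map_pow, πu, ha, ← pow_one (π a), ha, ← map_mul, mk_eq,
          UF.Q.mul_a, sa, sa, hk.resolve_left h3]
        simp [hu0]
    · obtain ⟨y, h1, h2⟩ := nf s τ
      rw [map_mul, map_inv, h2, mul_inv_eq_one]
      simp only [map_mul, map_inv, π'u, π'h]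
      rw [mk_eq, h1]
      simp [s, τ, ν, θ, c, hu0]
      field_simp
      ring
    · rw [map_pow, πh, ← map_pow, ← cF, ← Nat.card_units, pow_card_eq_one', map_one]
  · intro J _ φ ρ hρ hφ
    simp only [List.mem_cons, List.not_mem_nil, or_false, forall_eq_or_imp, forall_eq, map_commutatorElement,
      commutatorElement_eq_one_iff_commute] at hφ
    obtain ⟨q1, q2, q3, q4, q5, q6, q7, q8, q9, q10, q11, q12, q13, q14⟩ := hφ
    obtain ⟨x1, x2, x3⟩ := hJ J φ q2 (by rwa [← map_pow]) fun i hi => by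
      by_cases h3 : 1 + ν = 0
      · simp [ν3 h3 e i he hi]
      · simp only [r1, if_neg h3, map_mul, map_inv, map_pow, mul_inv_eq_one] at q4
        exact baumslag ((Commute.refl _).pow_right k) q4 (by simpa using q3) i
    have c2 : ∀ w, φ (cr w) = 1 → φ w = φ (ω (ct w)) := fun w hw => by
      rwa [cr2, map_mul, map_inv, mul_inv_eq_one] at hw
    have x4 : ∀ (j : ℕ) t, φ a ^ j * φ (ω t) * (φ a ^ j)⁻¹ = φ (ω ((ν ^ j) ^ 2 * t)) := fun j t => by
      rw [map_pow, ← pow_mul, conj_pow_of_conj x3]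
      congr 3
      apply Subtype.ext
      have := congrArg UF.Q.b ((Ti ((conj_pow_of_conj hz ((m + 2) * j) 1).symm.trans (by rw [pow_mul, ← map_pow, ha]))))
      simp only [zz, UF.Q.z_b, UF.Q.smul_b, Units.val_pow_eq_pow_val, cq, map_pow, fK] at this
      simpa [ε0, pow_two] using this
    have x5 : ∀ t, Commute (φ u) (φ (ω t)) :=
      commute_of_four x1 pν (a := φ a) (b := φ a ^ k) (by simpa using x4 1) (by
        by_cases h3 : 1 + ν = 0
        · exact Or.inl (ν2 h3)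
        · refine Or.inr ⟨fun t => by rw [x4, hk.resolve_left h3], ?_⟩
          have := c2 _ q12
          simp only [r2, if_neg h3, map_mul, map_inv, map_pow φ a, mul_inv_eq_iff_eq_mul (b := _ * _)] at this
          exact ⟨_, this⟩) (by
        intro j hj
        interval_cases j <;> assumption)
    let N := (addRange (x := fun t => φ (ω t)) x1).comap φ
    have : N.Normal := by
      rw [← Subgroup.normalizer_eq_top_iff, eq_top_iff, ← FreeGroup.closure_range_of, Subgroup.closure_le]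
      rintro _ ⟨i, rfl⟩
      refine Subgroup.mem_normalizer_iff.2 fun w => ?_
      simp only [N, Subgroup.mem_comap, map_mul, map_inv]
      fin_cases i
      · exact exists_congr fun t => ⟨fun e => by rw [← e]; exact ((x5 t).mul_inv_cancel).symm, fun e => by
          simpa [u] using (x5 t).mul_inv_cancel.trans e⟩
      · refine ⟨fun ⟨t, e⟩ => ⟨ν * t, by rw [← e]; exact (x3 t).symm⟩, fun ⟨t, e⟩ => ⟨ν⁻¹ * t, ?_⟩⟩
        rw [← mul_inv_cancel_left₀ ν0 t] at e
        simpa [h] using (x3 _).trans e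
    let φ' := QuotientGroup.mk' N
    have c3 : ∀ w, φ (cr w) = 1 → φ' w = 1 := fun w hw => (QuotientGroup.eq_one_iff w).2 ⟨_, (c2 w hw).symm⟩
    have c4 : ∀ w, φ w = 1 → φ' w = 1 := fun w hw => (QuotientGroup.eq_one_iff w).2 (by simp [N, hw])
    obtain ⟨y1, y2, y3⟩ := hJ' _ φ' (c3 _ q10) (by rw [← map_pow]; exact c3 _ q9) fun i hi => by
      by_cases h3 : 1 + ν = 0
      · simp [ν3 h3 e' i he' hi]
      · have b1 := c3 _ q12
        have b2 := c4 ⁅u, a * u * a⁻¹⁆ (by rw [map_commutatorElement]; exact q11.commutator_eq)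
        simp only [r2, if_neg h3, map_mul, map_inv, map_pow φ' a, mul_inv_eq_one, map_commutatorElement,
          commutatorElement_eq_one_iff_commute] at b1 b2
        exact baumslag ((Commute.refl _).pow_right k) b1 b2 i
    intro w hw
    obtain ⟨n, hn⟩ : ∃ n, m * (m + 2) = n + 1 := ⟨_, (Nat.succ_pred_eq_of_pos (Nat.mul_pos (by omega) (by omega))).symm⟩
    obtain ⟨t, t', i, hi'⟩ := exists_normal_form y1 hν (h := φ' h) (by rw [map_pow]; exact Commute.pow_self _ _) y3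
      (neg_ne_zero.2 ν0) (r := τ) (by simpa [y2, mul_inv_eq_one, -mul_inv_rev] using c3 _ q13) (by
        refine or_iff_not_imp_left.2 fun h3 => ⟨?_, ?_⟩
        · have : Fact (Nat.Prime 5) := ⟨by norm_num⟩
          rw [← AddSubgroup.zmultiples_eq_closure]
          exact zmultiples_eq_top_of_prime_card (cK.trans (θ2 (congrArg Subtype.val (not_not.1 h3)))) one_ne_zero
        · have := (QuotientGroup.eq_one_iff (N := N) z).2 ⟨1, x2⟩
          rw [← QuotientGroup.mk'_apply, map_commutatorElement, commutatorElement_eq_one_iff_commute] at this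
          simpa [y2, φ'] using this) (n := n) (by rw [← map_pow, ← hn]; exact c4 _ q14) (g := φ' w) (by
        rw [y2, ← Set.image_pair, ← MonoidHom.map_closure]
        refine Subgroup.mem_map_of_mem _ (Subgroup.closure_mono ?_ (FreeGroup.closure_range_of _ ▸ Subgroup.mem_top w))
        rintro _ ⟨i, rfl⟩
        fin_cases i <;> simp [u, h])
    have lift : ∀ v, φ' v = 1 → ∃ t, φ v = φ (ω t) ∧ π v = T (zz t) := fun v hv => by
      obtain ⟨t, ht⟩ := (QuotientGroup.eq_one_iff (N := N) v).1 hv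
      exact ⟨t, ht.symm, by rw [← hρ, ← ht, hρ, πω]⟩
    obtain ⟨t1, -, b1⟩ := lift (w⁻¹ * (ω' t * (h * ω' t' * h⁻¹) * h ^ i)) (by simp [hi', -mul_inv_rev])
    obtain ⟨y, b2, b3⟩ := nf t t'
    obtain ⟨t2, b4⟩ := QuotientGroup.eq.1 b3
    rw [map_mul, map_inv, hw, inv_one, one_mul, map_mul, map_pow, πh, ← map_pow, ← mul_inv_eq_iff_eq_mul.2
      (inv_mul_eq_iff_eq_mul.1 b4.symm)] at b1
    obtain ⟨b5, b6⟩ := hi ((zz t1)⁻¹ * (y * (zz t2)⁻¹)) (c ^ i) (by
      rw [map_mul, map_mul, map_inv, map_inv, mul_assoc, b1, inv_mul_cancel])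
    have b7 : (t : F) + θ * t' = 0 := by simpa [zz, b2] using congrArg UF.Q.a b5
    obtain rfl : t' = 0 := by
      by_contra h3
      have h4 : (t' : F) ≠ 0 := by simpa using h3
      have := congrArg S.σ b7
      rw [map_add, map_mul, fK, fK, map_zero] at this
      exact θ1 (mul_right_cancel₀ h4 (by linear_combination this - b7))
    obtain rfl : t = 0 := by simpa using b7
    obtain ⟨j, rfl⟩ := ho i (by simpa [c] using congrArg Units.val b6)
    obtain ⟨t3, b8, b9⟩ := lift w (by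
      rw [hi', show φ' (ω' 0) = 1 from addHom_zero (x := fun t => φ' (ω' t)) y1, pow_mul, ← map_pow, c4 _ q14]; simp)
    rw [MonoidHom.mem_ker, b8, iX (b9.symm.trans (hw.trans (addHom_zero (x := fun t => T (zz t)) hX).symm))]
    exact addHom_zero (x := fun t => φ (ω t)) x1

theorem Model.bp {G : Type*} [Group G] (M : Model G F) (hD : Function.Injective M.D) (hq : 3 ≤ M.q) : BP G 3 18 := by
  have := M.toUF.finite
  let T := M.T.codRestrict M.B M.T_mem_B
  let D := M.D.codRestrict M.B M.D_mem_B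
  have hc : ∀ c u, D c * T u * (D c)⁻¹ = T (c • u) := fun c u => Subtype.ext (M.D_conj_T c u)
  obtain ⟨ζ, z0, hζ, -⟩ := exists_field_gen F
  obtain ⟨ε, ε0, hε⟩ := M.bar.exists_trace_zero
  obtain ⟨u, hu⟩ := M.toUF.exists_Q_b (ζ * ε)
  let c := Units.mk0 ζ z0
  let f := Monoid.Coprod.lift M.B.subtype (FreeGroup.lift fun _ : Fin 1 => M.w)
  let w : Monoid.Coprod M.B (FreeGroup (Fin 1)) := Monoid.Coprod.inr (FreeGroup.of 0)
  have fw : f w = M.w := by simp [f, w]
  have fT : ∀ v, f (Monoid.Coprod.inl (T v)) = M.T v := fun _ => rfl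
  have fD : ∀ v, f (Monoid.Coprod.inl (D v)) = M.D v := fun _ => rfl
  have ex : ∀ v : M.Q, v.b ≠ 0 → ∃ x d y, M.w * M.T v * M.w = M.T x * M.D d * M.w * M.T y := fun v hv =>
    ⟨_, _, _, M.w_T_w (by rintro rfl; exact hv rfl)⟩
  obtain ⟨x, d, y, e⟩ := ex (UF.Q.z ε hε) ε0
  obtain ⟨x', d', y', e'⟩ := ex u (hu ▸ mul_ne_zero z0 ε0)
  open Monoid.Coprod in
  refine ((bp_borel T D hc (fun u c h => ?_) (fun g => ?_) hq).coprod (BP.free 1)).of_list f (fun g => ?_)
    [w * w, w * inl (D c) * (inl (D (Units.map M.σ c)⁻¹) * w)⁻¹,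
      w * inl (T (UF.Q.z ε hε)) * w * (inl (T x) * inl (D d) * w * inl (T y))⁻¹,
      w * inl (T u) * w * (inl (T x') * inl (D d') * w * inl (T y'))⁻¹] ?_ fun J _ φ hφ g hg => ?_
  · exact (M.TD_inj (v := 1) (d := 1) (by simpa [T, D] using congrArg Subtype.val h)).imp_right fun h => hD h
  · obtain ⟨u, c, e⟩ := M.mem_B'.1 g.2
    exact ⟨u, c, Subtype.ext e⟩
  · exact M.induction (P := fun g => g ∈ f.range) (fun v => ⟨_, fT v⟩) (fun v => ⟨_, fD v⟩) ⟨_, fw⟩
      (fun _ _ => mul_mem) g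
  · simp only [List.mem_cons, List.not_mem_nil, or_false, forall_eq_or_imp, forall_eq, map_mul, map_inv f, fw, fT, fD, e, e',
      M.w_mul_D, M.w_mul_w, mul_inv_cancel, and_self]
  · simp only [List.mem_cons, List.not_mem_nil, or_false, forall_eq_or_imp, forall_eq, map_mul, map_inv φ,
      mul_inv_eq_one] at hφ
    obtain ⟨r1, r2, r3, r4⟩ := hφ
    let ψ := f.prod φ
    let A : Cov M (G × J) :=
      { τ := (ψ.comp inl).comp T
        δ := (ψ.comp inl).comp D
        ω := ψ w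
        ρ := MonoidHom.fst _ _
        ρτ := fT
        ρδ := fD
        ρω := fw
        δτ := fun c u => by simp only [MonoidHom.comp_apply, ← map_mul, ← hc, inv_mul_cancel_right]
        ωω := Prod.ext (by simp [ψ, fw]) r1
        ωδ := fun v => by
          obtain ⟨k, hk⟩ := hζ v v.ne_zero
          obtain rfl : c ^ k = v := Units.ext (by simpa [c])
          have : SemiconjBy (ψ w) (ψ (inl (D c))) (ψ (inl (D (Units.map M.σ c)⁻¹))) :=
            Prod.ext (by simpa [ψ, fw, fD] using M.w_mul_D c) r2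
          simpa only [MonoidHom.comp_apply, map_pow, ← inv_pow] using (this.pow_right k).eq }
    have := Cov.eq_one_of_w (A := A) hD (fun v hv => Cov.w_all hD hζ (z := UF.Q.z ε hε) rfl hu
      ⟨x, d, y, Prod.ext (by simpa [A, ψ, fw, fT, fD] using e) r3⟩ ⟨x', d', y', Prod.ext (by simpa [A, ψ, fw, fT, fD] using e') r4⟩
      hv) (L := ψ.range) (by
        rw [MonoidHom.range_eq_map, ← range_inl_sup_range_inr, Subgroup.map_sup, sup_le_iff]
        constructor
        · rintro _ ⟨_, ⟨g, rfl⟩, rfl⟩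
          obtain ⟨u, c, e⟩ := M.mem_B'.1 g.2
          rw [show g = T u * D c from Subtype.ext e, map_mul, map_mul]
          exact mul_mem (Subgroup.subset_closure (Or.inl (Or.inl ⟨u, rfl⟩))) (Subgroup.subset_closure (Or.inl (Or.inr ⟨c, rfl⟩)))
        · rw [MonoidHom.range_eq_map, ← FreeGroup.closure_range_of, MonoidHom.map_closure, MonoidHom.map_closure]
          refine Subgroup.closure_mono ?_
          rintro _ ⟨_, ⟨_, ⟨i, rfl⟩, rfl⟩, rfl⟩
          exact Or.inr (by rw [Subsingleton.elim i 0]; rfl)) ⟨g, rfl⟩ hg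
    exact congrArg Prod.snd this

theorem bp_SU3 [Fintype F] {q : ℕ} (hF : Fintype.card F = q ^ 2) (hq : 3 ≤ q) : BP (Cfsg.SU 3 F q) 3 18 :=
  (modelSU hF).bp ((MonoidHom.ker_eq_bot_iff _).1 (modelSU_K0 hF)) hq

theorem isCyclic_center_SU [Fintype F] {q n : ℕ} (hF : Fintype.card F = q ^ 2) (hn : 2 ≤ n) :
    IsCyclic (Subgroup.center (Cfsg.SU n F q)) :=
  haveI := isCyclic_center_SL (Fin n) F
  isCyclic_of_injective (((Cfsg.SU n F q).subtype.comp (Subgroup.center _).subtype).codRestrict (Subgroup.center _) fun A => by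
    obtain ⟨a, ha⟩ := (CL.Uni.mem_center_SU hF hn A.1).1 A.2
    exact Subgroup.mem_center_iff.2 fun g => Subtype.ext (show g.1 * A.1.1.1 = A.1.1.1 * g.1 by simp [ha]))
    fun _ _ h => Subtype.ext (Subtype.ext (Subtype.ext_iff.1 h :))

end CL.Chev.U3
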