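/-
Two generators for the special unitary groups.
-/
import Cfsg.Agent.Fus.SimpleSpU
import Cfsg.Agent.Known.Gen2SL

set_option autoImplicit false
set_option linter.unusedSectionVars false

namespace CL.Uni

open Module CL.Known

universe u v

variable {F : Type u} [Field F] {q : ℕ} {σ : F →+* F} {V : Type v} [AddCommGroup V] [Module F V]
  {B : V →ₛₗ[σ] V →ₗ[F] F} {L : Subgroup (V ≃ₗ[F] V)}

/-- `L` contains the Eichler maps with centre `r`. -/
def EichAll (B : V →ₛₗ[σ] V →ₗ[F] F) (L : Subgroup (V ≃ₗ[F] V)) (r : V) : Prop :=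
  ∀ w c g, B r w = 0 → c + σ c = B w w → IsEich B r w c g → g ∈ L

/-- `g` is an Eichler map with data `r`, `w`. -/
def IsE (B : V →ₛₗ[σ] V →ₗ[F] F) (r w : V) (g : V ≃ₗ[F] V) : Prop :=
  B r w = 0 ∧ ∃ c, c + σ c = B w w ∧ IsEich B r w c g

/-- `L` contains an Eichler map with data `r`, `w`. -/
def EichEx (B : V →ₛₗ[σ] V →ₗ[F] F) (L : Subgroup (V ≃ₗ[F] V)) (r w : V) : Prop := ∃ g ∈ L, IsE B r w g

theorem IsEich.conj_smul (h : IsHerm B q) {r w r' : V} {c a : F} {g k : V ≃ₗ[F] V} (hg : IsEich B r w c g)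
    (hw : B r w = 0) (hc : c + σ c = B w w) (hk : k ∈ UG B) (ha : a ≠ 0) (e : k r = a • r') :
    B r' (σ a • k w) = 0 ∧ c * (a * σ a) + σ (c * (a * σ a)) = B (σ a • k w) (σ a • k w) ∧
      IsEich B r' (σ a • k w) (c * (a * σ a)) (k * g * k⁻¹) := by
  refine ⟨?_, ?_, (isEich_smul h.bar_bar).1 (e ▸ hg.conj hk)⟩
  · have := hk r w
    rw [e, hw] at this
    simpa [ha] using this
  · simp only [map_mul, h.bar_bar, LinearMap.map_smulₛₗ, LinearMap.smul_apply, smul_eq_mul, hk w w, ← hc,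
      RingHom.id_apply]
    ring

theorem EichAll.conj (h : IsHerm B q) {r r' : V} (H : EichAll B L r) {k : V ≃ₗ[F] V} (hk : k ∈ UG B) (hL : k ∈ L)
    {a : F} (ha : a ≠ 0) (e : k r = a • r') : EichAll B L r' := fun w c g hw hc hg => by
  obtain ⟨a1, a2, a3⟩ := hg.conj_smul h hw hc (inv_mem hk) (inv_ne_zero ha) (r' := r) (by
    rw [LinearEquiv.coe_inv, LinearEquiv.symm_apply_eq, map_smul, e, smul_smul, inv_mul_cancel₀ ha, one_smul])
  simpa [mul_assoc] using mul_mem (mul_mem hL (H _ _ _ a1 a2 a3)) (inv_mem hL)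

theorem IsE.conj (h : IsHerm B q) {r r' w : V} {g : V ≃ₗ[F] V} (H : IsE B r w g) {k : V ≃ₗ[F] V} (hk : k ∈ UG B)
    {a : F} (ha : a ≠ 0) (e : k r = a • r') : IsE B r' (σ a • k w) (k * g * k⁻¹) :=
  let ⟨hw, _, h2, h3⟩ := H
  let ⟨a1, a2, a3⟩ := h3.conj_smul h hw h2 hk ha e
  ⟨a1, _, a2, a3⟩

theorem IsE.mul (h : IsHerm B q) {r w w' : V} {g g' : V ≃ₗ[F] V} (hr : B r r = 0) (H : IsE B r w g)
    (H' : IsE B r w' g') : IsE B r (w + w') (g * g') := by
  obtain ⟨hw, c, h2, h3⟩ := H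
  obtain ⟨hw', c', h2', h3'⟩ := H'
  refine ⟨by simp [hw, hw'], _, ?_, h3.mul h3' hr (h.flip_zero hw) hw'⟩
  simp only [map_add, LinearMap.add_apply, h.symm, ← h2, ← h2']
  ring

theorem IsE.inv (h : IsHerm B q) {r w : V} {g : V ≃ₗ[F] V} (hr : B r r = 0) (H : IsE B r w g) : IsE B r (-w) g⁻¹ := by
  obtain ⟨hw, c, h2, h3⟩ := H
  refine ⟨by simp [hw], _, ?_, h3.inv hr (h.flip_zero hw) hw⟩
  simp only [map_sub, map_neg, LinearMap.neg_apply, h.symm, neg_neg]
  linear_combination -h2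

theorem EichEx.conj (h : IsHerm B q) {r r' w : V} (H : EichEx B L r w) {k : V ≃ₗ[F] V} (hk : k ∈ UG B) (hL : k ∈ L)
    {a : F} (ha : a ≠ 0) (e : k r = a • r') : EichEx B L r' (σ a • k w) :=
  let ⟨_, h1, h2⟩ := H
  ⟨_, mul_mem (mul_mem hL h1) (inv_mem hL), h2.conj h hk ha e⟩

theorem EichEx.add (h : IsHerm B q) {r w w' : V} (hr : B r r = 0) (H : EichEx B L r w) (H' : EichEx B L r w') :
    EichEx B L r (w + w') :=
  let ⟨_, h1, h2⟩ := H
  let ⟨_, h3, h4⟩ := H'
  ⟨_, mul_mem h1 h3, h2.mul h hr h4⟩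

theorem eichEx_zero (r : V) : EichEx B L r 0 := ⟨1, one_mem _, map_zero _, 0, by simp, fun x => by simp⟩

/-- The multiples `a` with an Eichler map for `a • w`. -/
def eichSub (h : IsHerm B q) (L : Subgroup (V ≃ₗ[F] V)) {r : V} (hr : B r r = 0) (w : V) : AddSubgroup F where
  carrier := {a | EichEx B L r (a • w)}
  zero_mem' := by simpa using eichEx_zero r
  add_mem' h1 h2 := by simpa [add_smul] using EichEx.add h hr h1 h2
  neg_mem' := fun ⟨_, h1, h2⟩ => ⟨_, inv_mem h1, by simpa using h2.inv h hr⟩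

theorem eichEx_of_diag (h : IsHerm B q) {e x : V} (he : B e e = 0) {t d d' : V ≃ₗ[F] V} (ht : IsE B e x t)
    (hd : d ∈ UG B) (hd' : d' ∈ UG B) (h1 : d ∈ L) (h2 : t * d' * t⁻¹ ∈ L) (hc : Commute d d') {c c' l l' : F}
    (c0 : c ≠ 0) (c0' : c' ≠ 0) (e1 : d e = c • e) (e2 : d x = l • x) (e3 : d' e = c' • e) (e4 : d' x = l' • x)
    (hp : PowGen (σ c * l)) (n1 : σ c * l ≠ 1) (n2 : σ c' * l' ≠ 1) (a : F) : EichEx B L e (a • x) := by
  have a1 := ht.mul h he ((ht.conj h hd' c0' e3).inv h he)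
  have a2 : (σ c * l - 1) * (1 - σ c' * l') ∈ eichSub h L he x :=
    ⟨_, mul_mem (mul_mem (mul_mem h1 h2) (inv_mem h1)) (inv_mem h2), by
      convert (a1.conj h hd c0 e1).mul h he (a1.inv h he) using 1
      · simp only [map_add, map_neg, map_smul, e2, e4]; module
      · simp only [mul_inv_rev, inv_inv, mul_assoc, mul_right_inj]
        rw [← mul_assoc d⁻¹ d', hc.inv_left.eq, mul_assoc, inv_mul_cancel_left]⟩
  have a3 : ∀ i : ℕ, (σ c * l) ^ i * ((σ c * l - 1) * (1 - σ c' * l')) ∈ eichSub h L he x := fun i => by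
    induction i with
    | zero => simpa using a2
    | succ i ih =>
      have := EichEx.conj h ih hd h1 c0 e1
      rw [map_smul, e2, smul_smul, smul_smul] at this
      show EichEx _ _ _ _
      convert this using 2
      ring
  have a0 := mul_ne_zero (sub_ne_zero.2 n1) (sub_ne_zero.2 n2.symm)
  have : AddSubgroup.closure (Set.range fun i : ℕ => (σ c * l) ^ i) ≤
      (eichSub h L he x).comap (AddMonoidHom.mulRight ((σ c * l - 1) * (1 - σ c' * l'))) :=
    (AddSubgroup.closure_le _).2 (by rintro _ ⟨i, rfl⟩; exact a3 i)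
  rw [hp, top_le_iff] at this
  rw [← div_mul_cancel₀ a a0]
  exact (this ▸ AddSubgroup.mem_top _ : _ ∈ (eichSub h L he x).comap _)

variable [FiniteDimensional F V]

theorem EichAll.move (h : IsHerm B q) {r u v : V} (hr : B r r = 0) (hu : B u u = 0) (hv : B v v = 0) (h1 : B r u ≠ 0)
    (h2 : B r v ≠ 0) (H : EichAll B L r) (H' : EichAll B L u) : EichAll B L v := by
  obtain ⟨v', e1, e2, a, ha, rfl⟩ : ∃ v', B v' v' = 0 ∧ B r v' = 1 ∧ ∃ a : F, a ≠ 0 ∧ v = a • v' :=
    ⟨(B r v)⁻¹ • v, by simp [hv], by simp [h2], _, h2, by simp [h2]⟩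
  obtain ⟨u', e3, e4, b, hb, rfl⟩ : ∃ v', B v' v' = 0 ∧ B r v' = 1 ∧ ∃ a : F, a ≠ 0 ∧ u = a • v' :=
    ⟨(B r u)⁻¹ • u, by simp [hu], by simp [h1], _, h1, by simp [h1]⟩
  have a1 : B r (v' - u') = 0 := by simp [e2, e4]
  have a2 : -B v' u' + σ (-B v' u') = B (v' - u') (v' - u') := by simp [e1, e3, h.symm]; ring
  obtain ⟨g, hg, hg'⟩ := h.exists_eich hr a1 a2
  exact H'.conj h hg.1 (H _ _ _ a1 a2 hg') (div_ne_zero hb ha) (by
    rw [map_smul, hg', smul_smul, div_mul_cancel₀ _ ha]; simp [e3, e4])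

theorem SUG_le_of_eichAll (h : IsHerm B q) {e f : V} (he : B e e = 0) (hf : B f f = 0) (hef : B e f = 1)
    (H : EichAll B L e) (H' : EichAll B L f) : SUG B ≤ L := by
  have key : ∀ v, B v v = 0 → EichAll B L v := fun v hv => by
    have h0 : B e f ≠ 0 := hef ▸ one_ne_zero
    by_cases h1 : B e v = 0
    · rcases eq_or_ne v 0 with rfl | v0
      · intro w c g _ _ hg
        rw [show g = 1 from LinearEquiv.ext fun x => by simpa using hg x]
        exact one_mem _
      obtain ⟨w, a1, a2, a3⟩ := h.exists_isotropic_ne_ne (u := e) (by rintro rfl; simp at h0) v0 he (h.flip_zero h1)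
      exact (H.move h he hf a1 h0 a2 H').move h a1 he hv (h.flip_ne a2) (h.flip_ne a3) H
    · exact H.move h he hf hv h0 h1 H'
  rw [← CL.Fus.Form.Fix_empty (G := SUG B)]
  refine ((CL.Fus.Form.geo_su h).Fix_le_closure (CL.Fus.Form.geo_su h).nd_empty).trans ((Subgroup.closure_le _).2 ?_)
  rintro g ⟨-, r, -, w, -, c, a1, a2, a3, a4⟩
  exact key r a1 w c g a2 (by simpa using a3) fun x => by simpa using a4 x

theorem SUG_le_of_root (h : IsHerm B q) {e f x : V} (he : B e e = 0) (hf : B f f = 0) (hef : B e f = 1)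
    (hfx : B f x = 0) (hx : B x x = 1) (H : ∀ a : F, EichEx B L e (a • x)) {z : V ≃ₗ[F] V} (hz : z ∈ UG B)
    (hL : (∀ c g, c + σ c = B x x → IsEich B e x c g → g ∈ L) → z ∈ L) {s s' : F} (hs : s ≠ 0) (hs' : s' ≠ 0)
    (h1 : z e = s • f) (h2 : z f = s' • e)
    (h3 : ∀ S : Submodule F V, x ∈ S → (∀ v ∈ S, z v ∈ S) → ∀ w, B e w = 0 → B f w = 0 → w ∈ S) : SUG B ≤ L := by
  have t1 : ∀ c g, c + σ c = 0 → IsEich B e 0 c g → g ∈ L := fun c g hc hg => by
    obtain ⟨a, ha⟩ := h.bar.exists_sub_bar_eq (c := c) (by linear_combination hc)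
    obtain ⟨g1, b2, b1, c1, b3, b4⟩ := H 1
    obtain ⟨g2, b6, b5, c2, b7, b8⟩ := H a
    have := ((b4.mul b8 he (h.flip_zero b1) b5).mul (b4.inv he (h.flip_zero b1) b1) he
      (by simp only [map_add, LinearMap.add_apply, h.flip_zero b1, h.flip_zero b5, add_zero])
      (by rw [map_neg, b1, neg_zero])).mul (b8.inv he (h.flip_zero b5) b5) he
      (by simp only [map_add, map_neg, LinearMap.add_apply, LinearMap.neg_apply, h.flip_zero b1, h.flip_zero b5,
        add_zero, neg_zero]) (by rw [map_neg, b5, neg_zero])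
    rw [hg.unique (g' := g1 * g2 * g1⁻¹ * g2⁻¹) (by
      convert this using 1
      · abel
      · simp [hx]; linear_combination -ha)]
    exact mul_mem (mul_mem (mul_mem b2 b6) (inv_mem b2)) (inv_mem b6)
  have t2 : ∀ w, EichEx B L e w → ∀ c g, c + σ c = B w w → IsEich B e w c g → g ∈ L := by
    rintro w ⟨g', b2, b1, c', b3, b4⟩ c g hc hg
    have := t1 _ _ ?_ (by simpa using hg.mul (b4.inv he (h.flip_zero b1) b1) he (h.flip_zero b1) (by simp [b1]))
    · simpa using mul_mem this b2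
    · simp only [map_add, map_sub, map_neg, h.self_fixed]
      linear_combination hc - b3
  have hzL := hL (t2 x (by simpa using H 1))
  have t3 : ∀ c g, c + σ c = 0 → IsEich B f 0 c g → g ∈ L := fun c g hc hg => by
    obtain ⟨-, a2, a3⟩ := hg.conj_smul h (map_zero _) (by simpa using hc) hz hs' h2
    simp only [map_zero, smul_zero] at a2 a3
    simpa [mul_assoc] using mul_mem (mul_mem (inv_mem hzL) (t1 _ _ a2 a3)) hzL
  obtain ⟨c, c0, hc⟩ := h.bar.exists_trace_zero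
  obtain ⟨k1, b1, b2⟩ := h.exists_tv he hc
  obtain ⟨k2, b3, b4⟩ := h.exists_tv hf (c := -c⁻¹) (by rw [map_neg, map_inv₀, hc, inv_neg])
  have hk : k2 * k1 * z ∈ L := mul_mem (mul_mem (t3 c⁻¹ _ (by simp [hc, inv_neg]) (isEich_zero.2 b4))
    (t1 (-c) _ (by simp [hc]) (isEich_zero.2 (by rwa [neg_neg])))) hzL
  have b5 : (k2 * k1 * z) e = (s * c) • e := by
    simp only [LinearEquiv.mul_apply, h1, map_smul, b2 f, map_add, b4 f, b4 e, hf, hef, h.flip_one hef]
    match_scalars <;> field_simp; ring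
  let S : Submodule F V :=
    { carrier := {w | B f w = 0 ∧ ∀ a : F, EichEx B L e (a • w)}
      zero_mem' := ⟨map_zero _, by simpa using eichEx_zero e⟩
      add_mem' := fun a b => ⟨by simp [a.1, b.1], fun t => by simpa using (a.2 t).add h he (b.2 t)⟩
      smul_mem' := fun t w a => ⟨by simp [a.1], fun t' => by simpa [smul_smul] using a.2 (t' * t)⟩ }
  have t4 := h3 S ⟨hfx, H⟩ fun w hw => by
    have a1 : B f (z w) = 0 := by simpa [h1, hs, show B e w = 0 by simpa using (hw.2 1).choose_spec.2.1] using hz e w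
    have a2 : B e (z w) = 0 := by simpa [h2, hs', hw.1] using hz f w
    refine ⟨a1, fun a => ?_⟩
    have := (hw.2 (a / σ (s * c))).conj h (mul_mem (mul_mem b3.1 b1.1) hz) hk (mul_ne_zero hs c0) b5
    rwa [map_smul, smul_smul, mul_div_cancel₀ _ ((map_ne_zero σ).2 (mul_ne_zero hs c0)), LinearEquiv.mul_apply,
      LinearEquiv.mul_apply, b2.fix a2, b4.fix a1] at this
  have t5 : EichAll B L e := fun w c g hw hc hg => by
    obtain ⟨w', a, rfl, a1, a2⟩ : ∃ w', ∃ a : F, w = w' + a • e ∧ B e w' = 0 ∧ B f w' = 0 :=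
      ⟨w - B f w • e, B f w, by simp, by simp [hw, he], by simp [h.flip_one hef]⟩
    refine t2 w' (by simpa using (t4 w' a1 a2).2 1) _ _ ?_ (isEich_add_smul.1 hg)
    simp [a1, he, h.flip_zero a1] at hc
    simp only [map_add, map_sub, h.bar_bar]
    linear_combination hc
  exact SUG_le_of_eichAll h he hf hef t5 (t5.conj h hz hzL hs h1)

/-- A hyperbolic plane plus an orthonormal space. -/
def hypB (σ : F →+* F) (m : ℕ) : (Fin (m + 3) → F) →ₛₗ[σ] (Fin (m + 3) → F) →ₗ[F] F :=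
  (stdB σ (Fin (m + 3))).compl₂ (LinearMap.funLeft F F (Equiv.swap 0 1))

theorem hypB_apply (m : ℕ) (u v : Fin (m + 3) → F) :
    hypB σ m u v = σ (u 0) * v 1 + σ (u 1) * v 0 + ∑ i : Fin (m + 1), σ (u i.succ.succ) * v i.succ.succ := by
  simp only [hypB, LinearMap.compl₂_apply, stdB_apply, LinearMap.funLeft_apply, Fin.sum_univ_succ (n := m + 2),
    Fin.sum_univ_succ (n := m + 1), add_assoc]
  congr 2

theorem isHerm_hypB (h : IsBar σ q) (m : ℕ) : IsHerm (hypB σ m) q where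
  bar := h
  symm x y := by simp [hypB_apply, h.bar_bar, mul_comm, add_comm]
  nondeg x hx := (isHerm_stdB h _).nondeg x fun y => by
    simpa [hypB, LinearMap.funLeft, Function.comp_def] using hx (y ∘ Equiv.swap 0 1)

/-- The vector with given hyperbolic and orthonormal coordinates. -/
def hvec {m : ℕ} (a b : F) (w : Fin (m + 1) → F) : Fin (m + 3) → F := Fin.cons a (Fin.cons b w)

theorem hypB_hvec {m : ℕ} (a b a' b' : F) (w w' : Fin (m + 1) → F) :
    hypB σ m (hvec a b w) (hvec a' b' w') = σ a * b' + σ b * a' + stdB σ _ w w' := hypB_apply _ _ _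

theorem exists_hvec {m : ℕ} (v : Fin (m + 3) → F) : ∃ a b w, v = hvec a b w :=
  ⟨v 0, v 1, fun i => v i.succ.succ, funext fun i => Fin.cases rfl (fun i => Fin.cases rfl (fun _ => rfl) i) i⟩

theorem hvec_add {m : ℕ} (a b a' b' : F) (w w' : Fin (m + 1) → F) :
    hvec a b w + hvec a' b' w' = hvec (a + a') (b + b') (w + w') :=
  funext fun i => Fin.cases rfl (fun i => Fin.cases rfl (fun _ => rfl) i) i

theorem hvec_smul {m : ℕ} (a b c : F) (w : Fin (m + 1) → F) : c • hvec a b w = hvec (c * a) (c * b) (c • w) :=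
  funext fun i => Fin.cases rfl (fun i => Fin.cases rfl (fun _ => rfl) i) i

theorem hvec_zero {m : ℕ} : hvec (0 : F) 0 (0 : Fin (m + 1) → F) = 0 :=
  funext fun i => Fin.cases rfl (fun i => Fin.cases rfl (fun _ => rfl) i) i

theorem exists_hyp_diag (h : IsBar σ q) {m : ℕ} {c : F} (hc : c ≠ 0) (l : Fin (m + 1) → F) (hl : ∀ i, σ (l i) * l i = 1) :
    ∃ g ∈ UG (hypB σ m), (∀ a b w, g (hvec a b w) = hvec (c * a) ((σ c)⁻¹ * b) (l * w)) ∧
      dt g = c * (σ c)⁻¹ * ∏ i, l i := by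
  have c1 := (map_ne_zero σ).2 hc
  have e0 : ∀ a b w, Matrix.toLin' (Matrix.diagonal (hvec c (σ c)⁻¹ l)) (hvec a b w) =
      hvec (c * a) ((σ c)⁻¹ * b) (l * w) := fun a b w => funext fun i => by
    rw [Matrix.toLin'_apply, Matrix.mulVec_diagonal]
    exact Fin.cases rfl (fun i => Fin.cases rfl (fun _ => rfl) i) i
  obtain ⟨g, hg, e⟩ := (isHerm_hypB h m).exists_mem_UG (Matrix.toLin' (Matrix.diagonal (hvec c (σ c)⁻¹ l))) fun u v => by
    obtain ⟨a, b, w, rfl⟩ := exists_hvec u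
    obtain ⟨a', b', w', rfl⟩ := exists_hvec v
    simp only [e0, hypB_hvec, stdB_apply, map_mul, map_inv₀, h.bar_bar, Pi.mul_apply]
    congr 1
    · field_simp
    · exact Finset.sum_congr rfl fun i _ => by linear_combination σ (w i) * w' i * hl i
  refine ⟨g, hg, fun a b w => (LinearMap.congr_fun e _).trans (e0 a b w), ?_⟩
  rw [dt_apply, e, LinearMap.det_toLin', Matrix.det_diagonal, Fin.prod_univ_succ, Fin.prod_univ_succ, mul_assoc]
  rfl

theorem exists_hyp_cycle (h : IsBar σ q) (m : ℕ) : ∃ z ∈ SUG (hypB σ m), ∃ l : Fin (m + 1) → F, (∀ i, l i ≠ 0) ∧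
    ∀ a b w, z (hvec a b w) = hvec b a (l * fun i => w (i - 1)) := by
  have e0 : ∀ (a b : F) w, LinearMap.funLeft F F (Fin.cons 1 (Fin.cons 0 fun i : Fin (m + 1) => (i - 1).succ.succ))
      (hvec a b w) = hvec b a fun i => w (i - 1) := fun a b w =>
    funext fun i => Fin.cases rfl (fun i => Fin.cases rfl (fun _ => rfl) i) i
  obtain ⟨g, hg, e⟩ := (isHerm_hypB h m).exists_mem_UG
    (LinearMap.funLeft F F (Fin.cons 1 (Fin.cons 0 fun i : Fin (m + 1) => (i - 1).succ.succ))) fun u v => by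
      obtain ⟨a, b, w, rfl⟩ := exists_hvec u
      obtain ⟨a', b', w', rfl⟩ := exists_hvec v
      simp only [e0, hypB_hvec, stdB_apply]
      rw [add_comm (σ b * _)]
      exact congrArg _ (Equiv.sum_comp (Equiv.subRight (1 : Fin (m + 1))) fun i => σ (w i) * w' i)
  have h1 := (isHerm_hypB h m).dt_norm hg
  obtain ⟨k, hk, e', h2⟩ := exists_hyp_diag h one_ne_zero (Fin.cons (σ (dt g)) fun _ : Fin m => 1) fun i => by
    refine Fin.cases ?_ (fun i => ?_) i <;> simp [h.bar_bar, h1]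
  refine ⟨k * g, mem_SUG.2 ⟨mul_mem hk hg, ?_⟩, Fin.cons (σ (dt g)) fun _ => 1, fun i => ?_, fun a b w => ?_⟩
  · simp [h2, mul_comm, h1]
  · refine Fin.cases ?_ (fun i => ?_) i <;> simp [dt_ne_zero]
  · rw [LinearEquiv.mul_apply, show g _ = _ from (LinearMap.congr_fun e _).trans (e0 a b w), e']
    simp

theorem exists_hyp_gen (h : IsBar σ q) (m : ℕ) : ∃ z ∈ SUG (hypB σ m),
    (∀ (g : (Fin (m + 3) → F) ≃ₗ[F] (Fin (m + 3) → F)) (c d : F) (l : Fin (m + 1) → F),
      (∀ a b w, g (hvec a b w) = hvec (c * a) (d * b) (l * w)) →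
        ∀ a b w, (z * g * z⁻¹) (hvec a b w) = hvec (d * a) (c * b) ((fun i => l (i - 1)) * w)) ∧
    ∀ L : Subgroup _, (∀ a : F, EichEx (hypB σ m) L (hvec 1 0 0) (a • hvec 0 0 (Pi.single 0 1))) →
      ((∀ c g, c + σ c = 1 → IsEich (hypB σ m) (hvec 1 0 0) (hvec 0 0 (Pi.single 0 1)) c g → g ∈ L) → z ∈ L) →
        SUG (hypB σ m) ≤ L := by
  obtain ⟨z, hz, l, l0, e⟩ := exists_hyp_cycle h m
  have hx : hypB σ m (hvec 0 0 (Pi.single 0 1)) (hvec 0 0 (Pi.single 0 1)) = 1 := by simp [hypB_hvec, stdB_single_left]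
  refine ⟨z, hz, fun g c d k hg a b w => ?_, fun L H hL => SUG_le_of_root (isHerm_hypB h m) (f := hvec 0 1 0)
    (by simp [hypB_hvec]) (by simp [hypB_hvec]) (by simp [hypB_hvec]) (by simp [hypB_hvec]) hx H hz.1
    (hx.symm ▸ hL) one_ne_zero one_ne_zero ?_ ?_ fun S h1 h2 w h3 h4 => ?_⟩
  · obtain ⟨a', b', w', e'⟩ := exists_hvec (z⁻¹ (hvec a b w))
    have e2 := congrArg z e'
    rw [LinearEquiv.coe_inv, z.apply_symm_apply, e] at e2
    rw [LinearEquiv.mul_apply, LinearEquiv.mul_apply, e', hg, e, show a = b' from congrFun e2 0,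
      show b = a' from congrFun e2 1, show w = _ from funext fun i => congrFun e2 i.succ.succ]
    exact congrArg _ (funext fun i => mul_left_comm _ _ _)
  · rw [e, one_smul]; exact congrArg _ (mul_zero l)
  · rw [e, one_smul]; exact congrArg _ (mul_zero l)
  · have key : ∀ j : Fin (m + 1), hvec 0 0 (Pi.single j 1) ∈ S := fun j => by
      induction j using Fin.induction with
      | zero => exact h1
      | succ j ih =>
        convert S.smul_mem (l j.succ)⁻¹ (h2 _ ih) using 1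
        rw [e, hvec_smul, mul_zero]
        congr 1
        funext i
        by_cases hi : i = j.succ <;> simp [Pi.single_apply, sub_eq_iff_eq_add, hi, l0]
    obtain ⟨a, b, w, rfl⟩ := exists_hvec w
    obtain rfl : a = 0 := by simpa [hypB_hvec] using h4
    obtain rfl : b = 0 := by simpa [hypB_hvec] using h3
    clear h3 h4
    induction w using Pi.single_induction with
    | zero => exact hvec_zero (F := F) ▸ zero_mem _
    | add w w' ih ih' => simpa [hvec_add] using add_mem ih ih'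
    | single i c => simpa [hvec_smul, ← Pi.single_smul] using S.smul_mem c (key i)

theorem closure_eq_top_of_SUG_le {s : Set (SUG B)} (h : SUG B ≤ Subgroup.closure (Subtype.val '' s)) :
    Subgroup.closure s = ⊤ := by
  rw [← Subgroup.map_subtype_inj, MonoidHom.map_closure, ← MonoidHom.range_eq_map, Subgroup.range_subtype]
  exact le_antisymm ((Subgroup.closure_le _).2 (by rintro _ ⟨x, -, rfl⟩; exact x.2)) h

theorem exists_two_gen_of_diag (h : IsBar σ q) {m : ℕ} {c : F} (hc : c ≠ 0) (l : Fin (m + 1) → F)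
    (hl : ∀ i, σ (l i) * l i = 1) (hd : c * (σ c)⁻¹ * ∏ i, l i = 1) (hp : PowGen (σ c * l 0)) (n1 : σ c * l 0 ≠ 1)
    (n2 : c⁻¹ * l (0 - 1) ≠ 1) : ∃ a b : Cfsg.SU (m + 3) F q, Subgroup.closure {a, b} = ⊤ := by
  have H := isHerm_hypB h m
  obtain ⟨z, hz, z1, z2⟩ := exists_hyp_gen h m
  obtain ⟨d, d1, d2, d3⟩ := exists_hyp_diag h hc l hl
  obtain ⟨c0, hc0⟩ := h.exists_trace_one
  have he : hypB σ m (hvec 1 0 0) (hvec 1 0 0) = 0 := by simp [hypB_hvec]
  have hx : hypB σ m (hvec 1 0 0) (hvec 0 0 (Pi.single 0 1)) = 0 := by simp [hypB_hvec]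
  have hc1 : c0 + σ c0 = hypB σ m (hvec 0 0 (Pi.single 0 1)) (hvec 0 0 (Pi.single 0 1)) := by
    simpa [hypB_hvec, stdB_single_left]
  obtain ⟨t, t1, t2⟩ := H.exists_eich he hx hc1
  have d4 := z1 d _ _ _ d2
  have d5 := mem_SUG.2 ⟨d1, d3.trans hd⟩
  have m1 : d ∈ Subgroup.closure {d, t * z} := Subgroup.subset_closure (by simp)
  have m2 : t * z ∈ Subgroup.closure {d, t * z} := Subgroup.subset_closure (by simp)
  have e1 : ∀ k : Fin (m + 1) → F, k * Pi.single 0 1 = k 0 • Pi.single 0 1 := fun k => funext fun i => by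
    by_cases hi : i = 0 <;> simp [hi]
  obtain ⟨e⟩ := H.nonempty_suEquiv (n := m + 3) (by simp)
  refine two_gen_of_surjective e.toMonoidHom e.surjective ⟨⟨d, d5⟩, ⟨t * z, mul_mem t1 hz⟩, closure_eq_top_of_SUG_le ?_⟩
  rw [Set.image_pair]
  refine z2 _ (eichEx_of_diag H he ⟨hx, c0, hc1, t2⟩ d1 (conj_mem_SUG hz.1 d5).1 m1
    (by simpa [mul_assoc] using mul_mem (mul_mem m2 m1) (inv_mem m2)) (LinearEquiv.ext fun v => ?_) hc
    (inv_ne_zero ((map_ne_zero σ).2 hc)) (by simp [d2, hvec_smul]) (by simp [d2, hvec_smul, e1])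
    (by simp only [d4, hvec_smul, mul_zero, smul_zero]) (by simp only [d4, hvec_smul, mul_zero, e1]; rfl) hp n1
    (by rwa [map_inv₀, h.bar_bar])) fun H => by simpa using mul_mem (inv_mem (H c0 t hc0 t2)) m2
  obtain ⟨a, b, w, rfl⟩ := exists_hvec v
  rw [LinearEquiv.mul_apply, d4, d2, LinearEquiv.mul_apply, d2, d4, mul_left_comm c, mul_left_comm c, mul_left_comm l]

theorem exists_two_gen_SU [Fintype F] (hF : Fintype.card F = q ^ 2) {n : ℕ} (hn : 3 ≤ n) (h32 : n = 3 → q ≠ 2) :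
    ∃ a b : Cfsg.SU n F q, Subgroup.closure {a, b} = ⊤ := by
  have h := isBar_bar hF
  generalize bar hF = σ at h
  obtain ⟨m, rfl⟩ : ∃ m, n = m + 3 := ⟨n - 3, by omega⟩
  obtain ⟨ζ, z0, -, ho⟩ := exists_field_gen F
  have z1 := (map_ne_zero σ).2 z0
  have h2 := h.two_le
  rw [h.card] at ho
  rcases h2.eq_or_lt with rfl | h3
  · obtain ⟨m, rfl⟩ : ∃ k, m = k + 1 := ⟨m - 1, by omega⟩
    have e1 := h.apply ζ
    have e2 : ζ ^ 3 = 1 := by have := h.bar_bar ζ; rw [e1, map_pow, e1] at this; exact mul_left_cancel₀ z0 (by linear_combination this)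
    have e3 : ζ ≠ 1 := fun e => by have := ho 1 (by rw [e, one_pow]); omega
    have e4 : ζ ^ 2 * ζ ^ 2 = ζ := by linear_combination ζ * e2
    refine exists_two_gen_of_diag h z0 (Fin.cons (ζ ^ 2) (Fin.cons (ζ ^ 2) fun _ => 1)) (fun i => ?_) ?_ ?_ ?_ ?_
    · refine Fin.cases ?_ (fun i => Fin.cases ?_ (fun i => ?_) i) i <;> simp [e1] <;> linear_combination (ζ ^ 3 + 1) * e2
    · simp [Fin.prod_univ_succ, e1]; field_simp; exact e2
    · simpa [e1, e4] using powGen_pow z0 (by rwa [h.card]) one_pos (Or.inl one_le_two)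
    · simpa [e1, e4]
    · generalize (0 - 1 : Fin (m + 1 + 1)) = i
      refine Fin.cases ?_ (fun i => Fin.cases ?_ (fun i => ?_) i) i <;> simpa [sq, z0]
  · have e1 : ∀ k, 0 < k → k < q ^ 2 - 1 → ζ ^ k ≠ 1 := fun k a b e => by have := Nat.le_of_dvd a (ho k e); omega
    have e2 : (σ ζ * (σ ζ / ζ)) ^ (2 * q + 1) = ζ ^ 3 := by
      rw [pow_succ, pow_mul', ← h.apply]; simp only [map_mul, map_div₀, h.bar_bar]; field_simp
    have e3 : q + q + q ≤ q ^ 2 := by nlinarith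
    refine exists_two_gen_of_diag h z0 (Fin.cons (σ ζ / ζ) fun _ => 1) (fun i => ?_) ?_ ?_ (fun e => ?_) ?_
    · refine Fin.cases ?_ (fun i => ?_) i <;> simp [h.bar_bar, z0, z1]
    · simp [Fin.prod_univ_succ]; field_simp
    · refine eq_top_iff.2 ((powGen_pow z0 (by rwa [h.card]) three_pos (Or.inr ⟨rfl, by rw [h.card]; omega⟩)).ge.trans
        (AddSubgroup.closure_mono ?_))
      rintro _ ⟨i, rfl⟩
      exact ⟨(2 * q + 1) * i, by simp only [pow_mul, ← e2]; rfl⟩
    · exact e1 3 three_pos (by omega) (by rw [← e2, show σ ζ * (σ ζ / ζ) = 1 from e, one_pow])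
    · generalize (0 - 1 : Fin (m + 1)) = i
      refine Fin.cases (fun e => e1 (q - 2) (by omega) (by omega) ?_) (fun i e => e1 1 one_pos (by omega) (by simpa using e)) i
      rw [Fin.cons_zero, h.apply] at e
      rw [pow_sub₀ _ z0 h2, ← e]; field_simp

theorem exists_three_gen_SU (h : IsBar σ 2) : ∃ a b c : Cfsg.SU 3 F 2, Subgroup.closure {a, b, c} = ⊤ := by
  have H := isHerm_hypB h 0
  have := h.finite
  obtain ⟨z, hz, -, z2⟩ := exists_hyp_gen h 0
  obtain ⟨ζ, z0, z1, ho⟩ := exists_field_gen F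
  have he : hypB σ 0 (hvec 1 0 0) (hvec 1 0 0) = 0 := by simp [hypB_hvec]
  have key : ∀ a : F, ∃ t ∈ SUG (hypB σ 0), IsE (hypB σ 0) (hvec 1 0 0) (a • hvec 0 0 (Pi.single 0 1)) t := fun a => by
    obtain ⟨c, hc⟩ := h.exists_trace_eq (H.self_fixed (a • hvec 0 0 (Pi.single 0 1)))
    obtain ⟨t, t1, t2⟩ := H.exists_eich he (by simp [hypB_hvec]) hc
    exact ⟨t, t1, by simp [hypB_hvec], c, hc, t2⟩
  obtain ⟨t, t1, t2⟩ := key 1
  obtain ⟨u, u1, u2⟩ := key ζ
  obtain ⟨e⟩ := H.nonempty_suEquiv (n := 3) (by simp)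
  refine ⟨e ⟨t, t1⟩, e ⟨u, u1⟩, e ⟨z, hz⟩, ?_⟩
  rw [← Set.image_singleton, ← Set.image_insert_eq, ← Set.image_insert_eq]
  refine (MonoidHom.map_closure e.toMonoidHom _).symm.trans ((congrArg _ (closure_eq_top_of_SUG_le ?_)).trans
    (Subgroup.map_top_of_surjective _ e.surjective))
  rw [Set.image_insert_eq, Set.image_pair]
  refine z2 _ (fun a => ?_) fun _ => Subgroup.subset_closure (by simp)
  have a1 : 1 ∈ eichSub H (Subgroup.closure {t, u, z}) he _ := ⟨t, Subgroup.subset_closure (by simp), t2⟩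
  have a2 : ζ ∈ eichSub H (Subgroup.closure {t, u, z}) he _ := ⟨u, Subgroup.subset_closure (by simp), u2⟩
  have e2 : ζ ^ 3 = 1 := by
    have := h.bar_bar ζ
    rw [h.apply, h.apply] at this
    exact mul_left_cancel₀ z0 (by linear_combination this)
  have e3 : ζ - 1 ≠ 0 := fun e => by have := ho 1 (by linear_combination e); rw [h.card] at this; omega
  have e4 : ζ ^ 2 = -(1 + ζ) := mul_left_cancel₀ e3 (by linear_combination e2)
  show a ∈ eichSub H _ he _
  by_cases ha : a = 0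
  · rw [ha]; exact zero_mem _
  obtain ⟨k, rfl⟩ := z1 a ha
  rw [← Nat.div_add_mod k 3, pow_add, pow_mul, e2, one_pow, one_mul]
  obtain e | e | e : k % 3 = 0 ∨ k % 3 = 1 ∨ k % 3 = 2 := by omega
  · rwa [e, pow_zero]
  · rwa [e, pow_one]
  · rw [e, e4]; exact neg_mem (add_mem a1 a2)

end CL.Uni
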