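/-
Bounded presentations of `SU_n(q)`: permutation matrices and Phan systems, the case `q ≥ 3`.
-/
import Cfsg.Agent.Perm.PhanMain
import Cfsg.Agent.Perm.SU3Pres2
import Cfsg.Agent.Perm.SUGen2
import Cfsg.Agent.Known.PresSLn2
import Cfsg.Agent.Known.PresC2

set_option autoImplicit false
set_option linter.unusedSectionVars false

namespace CL.Phan

open Matrix Equiv Equiv.Perm CL.Known CL.Uni Monoid

universe u

variable {F : Type u} [Field F] [StarRing F] {q k : ℕ} {J : Type*} [Group J]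

section
variable {ι κ : Type} [Fintype ι] [DecidableEq ι] [Fintype κ] [DecidableEq κ]

/-- Permutation matrices of determinant one. -/
def pmHom (F : Type u) [Field F] [StarRing F] {H : Type*} [Group H] (a : H →* Perm ι)
    (ha : ∀ g, ((sign (a g) : ℤ) : F) = 1) : H →* SUs ι F :=
  MonoidHom.mk' (fun g => mkSU (Pm F (a g)) (Pm_iso (a g).injective) (by rw [Pm, det_permute', det_one, mul_one, ha]))
    fun g g' => Subtype.ext (show Pm F (a (g * g')) = Pm F (a g) * Pm F (a g') by rw [Pm_mul, map_mul]; rfl)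

theorem conj_emb_Pm {g : SUs κ F} {s : κ → κ} (hg : g.1 = Pm F s) {f f' : ι → κ} (hf : (Pm F f)ᴴ * Pm F f = 1)
    (hf' : (Pm F f')ᴴ * Pm F f' = 1) (e : s ∘ f = f') (u : SUs ι F) : g * emb _ hf u * g⁻¹ = emb _ hf' u := by
  rw [conj_emb, emb_congr _ hf' (by rw [hg, Pm_mul, e])]

theorem emb_Pm_eq {f : ι → κ} (hf : (Pm F f)ᴴ * Pm F f = 1) {u : SUs ι F} {c : ι → ι} (hu : u.1 = Pm F c)
    {g : SUs κ F} {c' : κ → κ} (hg : g.1 = Pm F c') (h1 : ∀ i, c' (f i) = f (c i)) (h2 : ∀ j, (∀ i, f i ≠ j) → c' j = j) :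
    emb _ hf u = g := by
  refine Subtype.ext (Matrix.ext_iff_mulVec.2 fun v => ?_)
  rw [emb_coe, hu, hg, pi_eq_sum_univ' v, mulVec_sum, mulVec_sum]
  refine Finset.sum_congr rfl fun j _ => ?_
  rw [mulVec_smul, mulVec_smul, Pm_mulVec_single]
  congr 1
  by_cases hj : ∃ i, f i = j
  · obtain ⟨i, rfl⟩ := hj
    rw [h1, ← Pm_mulVec_single (F := F) f i, embM_mulVec hf, Pm_mulVec_single, Pm_mulVec_single]
  · push Not at hj
    rw [h2 j hj, embM_fix]
    rw [Pm_star_mulVec]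
    exact funext fun i => Pi.single_eq_of_ne (hj i) _

end

/-- The permutation matrices of the alternating group. -/
def altHom (F : Type u) [Field F] [StarRing F] (n : ℕ) : alternatingGroup (Fin n) →* SUs (Fin n) F :=
  pmHom F (Subgroup.subtype _) fun g => by simp [mem_alternatingGroup.1 g.2]

/-- The cyclic permutation matrix. -/
def P3 (F : Type u) [Field F] [StarRing F] : SUs (Fin 3) F := altHom F 3 ⟨c3 0 1 2, c3_mem_alt (by decide) (by decide)⟩

theorem be_eq_conj (u : SUs (Fin 2) F) : be F 2 u = P3 F * al F 2 u * (P3 F)⁻¹ :=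
  (conj_emb_Pm (s := c3 0 1 2) rfl _ _ (by decide) u).symm

/-- Three consecutive indices. -/
def sh {j : ℕ} (hj : j ≤ k) (i : Fin 3) : Fin (k + 3) := ⟨i + j, by omega⟩

theorem sh_iso {j : ℕ} (hj : j ≤ k) : (Pm F (sh hj))ᴴ * Pm F (sh hj) = 1 :=
  Pm_iso fun a b e => Fin.ext (by simpa [sh] using e)

theorem al_sh {j : ℕ} (hj : j ≤ k) (v : SUs (Fin 3) F) :
    al F _ (emb _ (sh_iso hj) v) = emb _ (sh_iso (hj.trans k.le_succ)) v :=
  Subtype.ext (by rw [al, emb_Pm_emb]; rfl)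

theorem be_sh {j : ℕ} (hj : j ≤ k) (v : SUs (Fin 3) F) :
    be F _ (emb _ (sh_iso hj) v) = emb _ (sh_iso (Nat.succ_le_succ hj)) v :=
  Subtype.ext (by rw [be, emb_Pm_emb]; rfl)

theorem eq_top_of_sh (h : IsBar (starRingEnd F) q) : ∀ {k : ℕ} {L : Subgroup (SUs (Fin (k + 3)) F)},
    (∀ j (hj : j ≤ k) v, emb _ (sh_iso hj) v ∈ L) → L = ⊤
  | 0, _, H => eq_top_iff.2 fun v _ => io_refl v ▸ H 0 le_rfl v
  | k + 1, L, H => eq_top_of_al_be h (Or.inl (by omega))
      (fun x => (eq_top_of_sh h (L := L.comap (al F _)) fun j hj v => by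
        rw [Subgroup.mem_comap, al_sh]; exact H _ _ _).ge (Subgroup.mem_top x))
      fun x => (eq_top_of_sh h (L := L.comap (be F _)) fun j hj v => by
        rw [Subgroup.mem_comap, be_sh]; exact H _ _ _).ge (Subgroup.mem_top x)

theorem Ext.emb_sh {φ : ℕ → (SUs (Fin 3) F →* J)} : ∀ {k s : ℕ} {ψ : SUs (Fin (k + 3)) F →* J}, Ext φ k s ψ →
    ∀ j (hj : j ≤ k) v, ψ (emb _ (sh_iso hj) v) = φ (s + j) v
  | 0, s, _, h1, j, hj, v => by
    obtain rfl : j = 0 := by omega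
    exact h1.io v
  | k + 1, s, ψ, h1, j, hj, v => by
    rcases hj.eq_or_lt with rfl | hj'
    · rw [show s + (k + 1) = s + 1 + k by omega, ← h1.2.emb_sh k le_rfl v, MonoidHom.comp_apply, be_sh]
    · rw [← h1.1.emb_sh j (by omega) v, MonoidHom.comp_apply, al_sh]

theorem c3_mul_c3' {Ω : Type*} [DecidableEq Ω] {a b x y : Ω} (hab : a ≠ b) (hax : a ≠ x) (hbx : b ≠ x) (hay : a ≠ y)
    (hby : b ≠ y) (hxy : x ≠ y) : c3 a x y * c3 a b x = c3 a b y := by
  ext z
  simp only [c3, coe_mul, Function.comp_apply, swap_apply_def]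
  grind

/-- The first three indices. -/
abbrev o3 (k : ℕ) : Fin 3 → Fin (k + 3) := sh k.zero_le

theorem alt_le_of_sh {L : Subgroup (Perm (Fin (k + 3)))} (h : ∀ j (hj : j ≤ k), c3 (sh hj 0) (sh hj 1) (sh hj 2) ∈ L) :
    alternatingGroup _ ≤ L := by
  have key : ∀ j (hj : j ≤ k), c3 (o3 k 0) (o3 k 1) (sh hj 2) ∈ L ∧ c3 (o3 k 0) (sh hj 1) (sh hj 2) ∈ L := fun j => by
    induction j with
    | zero => exact fun hj => ⟨h 0 hj, h 0 hj⟩
    | succ j ih =>
      intro hj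
      obtain ⟨h1, h3⟩ := ih (by omega)
      have h2 := h _ hj
      have h4 := mul_mem (mul_mem h2 h3) (inv_mem h2)
      rw [show sh (j := j) _ 2 = sh hj 1 from Fin.ext (by simp [sh]; omega)] at h1 h4
      rw [show sh (j := j) _ 1 = sh hj 0 from Fin.ext (by simp [sh]; omega), c3_conj, c3_apply_of_ne, c3_apply_fst,
        c3_apply_snd] at h4
      · refine ⟨?_, h4⟩
        rw [← c3_mul_c3' (x := sh hj 1)]
        · exact mul_mem h4 h1
        all_goals simp [sh, Fin.ext_iff]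
        all_goals omega
      all_goals simp [sh, Fin.ext_iff]
  refine alt_le_of_c3 (a := o3 k 0) (b := o3 k 1) (by simp [sh]) fun x h0 h1 => ?_
  simp [sh, Fin.ext_iff] at h0 h1
  rw [show x = sh (show x - 2 ≤ k by omega) 2 from Fin.ext (by simp [sh]; omega)]
  exact (key _ _).1

/-- The images of `SU(3)` and of a group of permutation matrices. -/
structure Frame {H : Type*} [Group H] (a : H →* Perm (Fin (k + 3))) (α : SUs (Fin 3) F →* J) (β : H →* J)
    (σ : ℕ → H) (c : H) : Prop where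
  inj : Function.Injective a
  hσ : ∀ j (hj : j ≤ k) i, a (σ j) (o3 k i) = sh hj i
  hc : a c = c3 (o3 k 0) (o3 k 1) (o3 k 2)
  βc : β c = α (P3 F)
  fix : ∀ h, a h (o3 k 0) = o3 k 0 → a h (o3 k 1) = o3 k 1 → ∀ u, Commute (β h) (α (al F 2 u))

/-- The conjugate of `α`. -/
def cj (α : SUs (Fin 3) F →* J) (g : J) : SUs (Fin 3) F →* J := (MulAut.conj g).toMonoidHom.comp α

theorem cj_apply (α : SUs (Fin 3) F →* J) (g : J) (v) : cj α g v = g * α v * g⁻¹ := rfl

theorem cj_mul (α : SUs (Fin 3) F →* J) (g g' : J) (v) : cj α (g * g') v = g * cj α g' v * g⁻¹ := by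
  simp [cj_apply, mul_assoc]

namespace Frame

variable {H : Type*} [Group H] {a : H →* Perm (Fin (k + 3))} {α : SUs (Fin 3) F →* J} {β : H →* J} {σ : ℕ → H} {c : H}
  (S : Frame a α β σ c)
include S

theorem al_congr {g g' : H} (h0 : a g (o3 k 0) = a g' (o3 k 0)) (h1 : a g (o3 k 1) = a g' (o3 k 1)) (u) :
    cj α (β g) (al F 2 u) = cj α (β g') (al F 2 u) := by
  rw [← mul_inv_cancel_left g' g, map_mul, cj_mul, cj_apply, cj_apply,
    (S.fix _ (by simp [h0]) (by simp [h1]) u).eq, mul_inv_cancel_right]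

theorem c0 (g : H) : a (g * c) (o3 k 0) = a g (o3 k 1) := by
  rw [map_mul, S.hc, Perm.mul_apply, c3_apply_fst (by simp [sh]) (by simp [sh])]

theorem c1 (g : H) : a (g * c) (o3 k 1) = a g (o3 k 2) := by
  rw [map_mul, S.hc, Perm.mul_apply, c3_apply_snd (by simp [sh]) (by simp [sh])]

theorem be_eq (g : H) (u) : cj α (β g) (be F 2 u) = cj α (β (g * c)) (al F 2 u) := by
  rw [map_mul, cj_mul, S.βc, cj_apply, cj_apply, be_eq_conj, map_mul, map_mul, map_inv]

theorem compat {j : ℕ} (hj : j + 1 ≤ k) (u) : cj α (β (σ j)) (be F 2 u) = cj α (β (σ (j + 1))) (al F 2 u) :=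
  (S.be_eq _ u).trans (S.al_congr (by rw [S.c0, S.hσ j (by omega), S.hσ _ hj]; exact Fin.ext (by simp [sh]; omega))
    (by rw [S.c1, S.hσ j (by omega), S.hσ _ hj]; exact Fin.ext (by simp [sh]; omega)) u)

theorem map_alt {ρ : H →* SUs (Fin (k + 3)) F} (hρ : ∀ g, (ρ g).1 = Pm F (a g)) {ψ : SUs (Fin (k + 3)) F →* J}
    (hψ : Ext (fun s => cj α (β (σ s))) k 0 ψ) {g : H} (hg : a g ∈ alternatingGroup _) : ψ (ρ g) = β g := by
  have e1 : emb _ (sh_iso k.zero_le) (P3 F) = ρ c := emb_Pm_eq _ (c := c3 0 1 2) rfl (hρ c)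
    (fun i => by
      rw [S.hc]
      fin_cases i
      exacts [c3_apply_fst (by simp [sh]) (by simp [sh]), c3_apply_snd (by simp [sh]) (by simp [sh]), c3_apply_thd _ _ _])
    fun j hj => by rw [S.hc]; exact c3_apply_of_ne (hj 0).symm (hj 1).symm (hj 2).symm
  obtain ⟨g', h1, h2⟩ := alt_le_of_sh (L := ((ψ.comp ρ).eqLocus β).map a) (fun j hj => ⟨σ j * c * (σ j)⁻¹, by
    show ψ (ρ _) = _
    rw [map_mul ρ, map_mul ρ, map_inv ρ, ← e1, conj_emb_Pm (hρ _) _ (sh_iso hj) (funext (S.hσ j hj)), hψ.emb_sh, zero_add,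
      cj_apply, map_mul, map_mul, map_inv, S.βc], by
    rw [map_mul, map_mul, map_inv, S.hc, c3_conj, S.hσ j hj, S.hσ j hj, S.hσ j hj]⟩) hg
  exact S.inj h2 ▸ h1

end Frame

theorem exists_alt_four {n : ℕ} (i j : ℕ) (h1 : i + 2 ≤ j) (h2 : j + 1 < n) : ∃ w : alternatingGroup (Fin n),
    ∀ x : Fin n, ((x : ℕ) < 2 → (w.1 x : ℕ) = x + i) ∧ (2 ≤ (x : ℕ) → (x : ℕ) < 4 → (w.1 x : ℕ) + 2 = x + j) := by
  have step : ∀ s (hs : s + 2 < n), ∃ w : alternatingGroup (Fin n), ∀ x : Fin n,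
      ((x : ℕ) = s ∨ (x : ℕ) = s + 1 → (w.1 x : ℕ) = x + 1) ∧ ((x : ℕ) < s ∨ s + 2 < x → (w.1 x : ℕ) = x) := fun s hs =>
    ⟨⟨c3 ⟨s, by omega⟩ ⟨s + 1, by omega⟩ ⟨s + 2, hs⟩, c3_mem_alt (by simp) (by simp)⟩, fun x => by
      simp only [c3, coe_mul, Function.comp_apply, swap_apply_def, Fin.ext_iff]
      grind⟩
  induction i generalizing j with
  | zero =>
    induction j, h1 using Nat.le_induction with
    | base => exact ⟨1, fun x => ⟨fun _ => rfl, fun _ _ => rfl⟩⟩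
    | succ j h1 ih =>
      obtain ⟨w, hw⟩ := ih (by omega)
      obtain ⟨v, hv⟩ := step j (by omega)
      exact ⟨v * w, fun x => by have := hw x; have := hv (w.1 x); simp only [Subgroup.coe_mul, Perm.mul_apply]; omega⟩
  | succ i ih =>
    obtain ⟨w, hw⟩ := ih j (by omega) h2
    obtain ⟨v, hv⟩ := step i (by omega)
    exact ⟨v * w, fun x => by have := hw x; have := hv (w.1 x); simp only [Subgroup.coe_mul, Perm.mul_apply]; omega⟩

theorem exists_alt_sh (hk : 2 ≤ k) : ∃ σ : ℕ → alternatingGroup (Fin (k + 3)),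
    ∀ j (hj : j ≤ k) i, (σ j).1 (o3 k i) = sh hj i := by
  suffices ∀ j, ∃ w : alternatingGroup (Fin (k + 3)), ∀ (hj : j ≤ k) i, w.1 (o3 k i) = sh hj i from
    ⟨_, fun j => (this j).choose_spec⟩
  intro j
  by_cases hj : j ≤ k
  · obtain ⟨g, hg⟩ := Perm.exists_extending_pair (f := o3 k) (g := sh hj) (fun a b e => Fin.ext (by simpa [sh] using e))
      fun a b e => Fin.ext (by simpa [sh] using e)
    obtain ⟨w, e | e⟩ := exists_alt_of_perm g (p := ⟨3, by omega⟩) (q := ⟨4, by omega⟩) (by simp)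
    · exact ⟨w, fun _ i => e ▸ hg i⟩
    · refine ⟨w, fun _ i => ?_⟩
      rw [e, Perm.mul_apply, swap_apply_of_ne_of_ne, hg] <;> simp [sh, Fin.ext_iff] <;> omega
  · exact ⟨1, fun h => absurd h hj⟩

theorem two_gen_SU2 (h : IsBar (starRingEnd F) q) : ∃ a b : SUs (Fin 2) F, Subgroup.closure {a, b} = ⊤ := by
  have := h.finite
  have := Fintype.ofFinite (IsBar.fixedField (starRingEnd F))
  obtain ⟨e⟩ := nonempty_sl2_equiv h (K := IsBar.fixedField (starRingEnd F))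
    (by rw [← Nat.card_eq_fintype_card, h.card_fixedField])
  exact two_gen_of_surjective e.toMonoidHom e.surjective (exists_two_gen_SL le_rfl)

theorem two_gen_alt (Ω : Type) [Fintype Ω] [DecidableEq Ω] (h : 3 ≤ Fintype.card Ω) :
    ∃ a b : alternatingGroup Ω, Subgroup.closure {a, b} = ⊤ :=
  let ⟨_, _, _, _, _, h⟩ := pres_alt h
  ⟨_, _, h⟩

theorem hom_ext3 (h : IsBar (starRingEnd F) q) (hq : 3 ≤ q) {f g : SUs (Fin 3) F →* J}
    (h1 : ∀ u, f (al F 2 u) = g (al F 2 u)) (h2 : ∀ u, f (be F 2 u) = g (be F 2 u)) : f = g :=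
  MonoidHom.ext fun x => (eq_top_of_al_be (m := 0) h (Or.inr hq) (L := f.eqLocus g) h1 h2).ge (Subgroup.mem_top x)

namespace Frame

variable {α : SUs (Fin 3) F →* J} {β : alternatingGroup (Fin (k + 3)) →* J} {σ : ℕ → alternatingGroup (Fin (k + 3))}
  {c : alternatingGroup (Fin (k + 3))} (S : Frame (Subgroup.subtype _) α β σ c) (h : IsBar (starRingEnd F) q)
include S

theorem al_congr' {g g' : alternatingGroup (Fin (k + 3))} (h0 : (g.1 (o3 k 0) : ℕ) = g'.1 (o3 k 0))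
    (h1 : (g.1 (o3 k 1) : ℕ) = g'.1 (o3 k 1)) (u) : cj α (β g) (al F 2 u) = cj α (β g') (al F 2 u) :=
  S.al_congr (Fin.ext h0) (Fin.ext h1) u

theorem c0' (g : alternatingGroup (Fin (k + 3))) : (g * c).1 (o3 k 0) = g.1 (o3 k 1) := S.c0 g
theorem c1' (g : alternatingGroup (Fin (k + 3))) : (g * c).1 (o3 k 1) = g.1 (o3 k 2) := S.c1 g
theorem σ' {j : ℕ} (hj : j ≤ k) (i) : ((σ j).1 (o3 k i) : ℕ) = i + j := congrArg Fin.val (S.hσ j hj i)

theorem commute {w : alternatingGroup (Fin (k + 3))} (w0 : (w.1 (o3 k 0) : ℕ) = 2) (w1 : (w.1 (o3 k 1) : ℕ) = 3)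
    (hc : ∀ u u', Commute (α (al F 2 u)) (cj α (β w) (al F 2 u'))) {g g' : alternatingGroup (Fin (k + 3))} {i j : ℕ}
    (hij : i + 2 ≤ j) (a0 : (g.1 (o3 k 0) : ℕ) = i) (a1 : (g.1 (o3 k 1) : ℕ) = i + 1) (b0 : (g'.1 (o3 k 0) : ℕ) = j)
    (b1 : (g'.1 (o3 k 1) : ℕ) = j + 1) (u u') : Commute (cj α (β g) (al F 2 u)) (cj α (β g') (al F 2 u')) := by
  obtain ⟨t, ht⟩ := exists_alt_four i j hij (b1 ▸ (g'.1 (o3 k 1)).2)
  rw [S.al_congr' (g' := t) (by rw [a0, (ht _).1 (by simp [sh])]; simp [sh])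
      (by rw [a1, (ht _).1 (by simp [sh])]; simp [sh, add_comm]),
    S.al_congr' (g := g') (g' := t * w) (by have := (ht (w.1 (o3 k 0))).2; simp only [Subgroup.coe_mul, Perm.mul_apply]; omega)
      (by have := (ht (w.1 (o3 k 1))).2; simp only [Subgroup.coe_mul, Perm.mul_apply]; omega), map_mul, cj_mul]
  exact (hc u u').map (MulAut.conj (β t))

include h

theorem cj_congr (hq : 3 ≤ q) {g g' : alternatingGroup (Fin (k + 3))}
    (e : ∀ i, (g.1 (o3 k i) : ℕ) = g'.1 (o3 k i)) : cj α (β g) = cj α (β g') :=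
  hom_ext3 h hq (S.al_congr' (e 0) (e 1)) fun u => by
    rw [S.be_eq, S.be_eq]
    exact S.al_congr' (by rw [S.c0', S.c0', e]) (by rw [S.c1', S.c1', e]) u

theorem cj_zero (hq : 3 ≤ q) (v) : cj α (β (σ 0)) v = α v := by
  rw [S.cj_congr h hq (g' := 1) fun i => S.σ' k.zero_le i, map_one, cj_apply, one_mul, inv_one, mul_one]

theorem exists_ext (hq : 3 ≤ q) {w : alternatingGroup (Fin (k + 3))} (w0 : (w.1 (o3 k 0) : ℕ) = 2)
    (w1 : (w.1 (o3 k 1) : ℕ) = 3) (hc : ∀ u u', Commute (α (al F 2 u)) (cj α (β w) (al F 2 u')))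
    (base : 4 ≤ q ∨ ∀ s, s + 1 ≤ k → ∃ ψ, Ext (fun s => cj α (β (σ s))) 1 s ψ) :
    ∃ ψ, Ext (fun s => cj α (β (σ s))) k 0 ψ := by
  have key : ∀ s j, s + 1 ≤ j → j ≤ k → ∀ u y, Commute (cj α (β (σ s)) (al F 2 u)) (cj α (β (σ j)) (be F 2 y)) :=
    fun s j h1 h2 u y => by
      rw [S.be_eq]
      exact S.commute w0 w1 hc (i := s) (j := j + 1) (by omega) (by simp [S.σ' (j := s) (by omega)])
        (by simp [S.σ' (j := s) (by omega), add_comm]) (by rw [S.c0', S.σ' h2, add_comm]; rfl)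
        (by rw [S.c1', S.σ' h2, add_comm]; rfl) u y
  refine exists_Ext h (k + 1) (fun s j h1 h2 u v => ?_) (fun s hs => ?_)
    (fun _ _ a b _ _ _ h1 h2 => (amalOf a b h1 h2).π_injective h (Or.inl ⟨hq, by omega⟩)) k 0 (by omega)
  · refine Subgroup.mem_centralizer_singleton_iff.1 ((eq_top_of_al_be (m := 0) h (Or.inr hq)
      (L := (Subgroup.centralizer {_}).comap (cj α (β (σ j)))) (fun y => Subgroup.mem_centralizer_singleton_iff.2 ?_)
      fun y => Subgroup.mem_centralizer_singleton_iff.2 (key s j (by omega) (by omega) u y).symm).ge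
      (Subgroup.mem_top v)) |>.symm
    exact (S.commute w0 w1 hc h1 (by simp [S.σ' (j := s) (by omega)]) (by simp [S.σ' (j := s) (by omega), add_comm])
      (by simp [S.σ' (j := j) (by omega)]) (by simp [S.σ' (j := j) (by omega), add_comm]) u y).symm
  · rcases base with h4 | base
    · obtain ⟨ψ, e1, e2⟩ := Phan.exists_ext (m := 0) h (Or.inr h4) _ _ (S.compat (by omega))
        (key s (s + 1) le_rfl (by omega))
      exact ⟨ψ, e1, e2⟩
    · exact base s (by omega)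

theorem ext_four (hq : 3 ≤ q) {α₄ : SUs (Fin 4) F →* J} (e1 : α₄.comp (al F 3) = α) {c' : alternatingGroup (Fin (k + 3))}
    (e2 : β c' = α₄ (be F 3 (P3 F))) (c1 : (c'.1 (o3 k 1) : ℕ) = 2) (c2 : (c'.1 (o3 k 2) : ℕ) = 3) {s : ℕ}
    (hs : s + 1 ≤ k) {t : alternatingGroup (Fin (k + 3))} (ht : ∀ x : Fin (k + 3), (x : ℕ) < 4 → (t.1 x : ℕ) = x + s) :
    Ext (fun s => cj α (β (σ s))) 1 s ((MulAut.conj (β t)).toMonoidHom.comp α₄) := by
  subst e1
  have a1 : ∀ i, (t.1 (o3 k i) : ℕ) = i + s := fun i => ht _ (by simp [sh]; omega)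
  refine ⟨S.cj_congr h hq fun i => by rw [a1, S.σ' (by omega)], hom_ext3 h hq (fun u => ?_) fun u => ?_⟩
  · refine (congrArg (fun x => β t * α₄ x * (β t)⁻¹) (al_be u).symm).trans ((S.be_eq t u).trans (S.al_congr' ?_ ?_ u))
    · rw [S.c0', a1, S.σ' hs]; simp [add_comm]
    · rw [S.c1', a1, S.σ' hs]; simp; omega
  · refine Eq.trans ?_ ((S.be_eq (t * c') u).trans ((S.al_congr' ?_ ?_ u).trans (S.be_eq _ u).symm))
    · rw [map_mul, cj_mul, cj_apply, e2, MonoidHom.comp_apply α₄, al_be, ← map_inv α₄, ← map_inv,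
        ← map_mul, ← map_mul, ← map_mul, ← map_mul, ← be_eq_conj]
      rfl
    · rw [S.c0', S.c0', S.σ' hs, Subgroup.coe_mul, Perm.mul_apply, ht _ (by omega), c1]; simp; omega
    · rw [S.c1', S.c1', S.σ' hs, Subgroup.coe_mul, Perm.mul_apply, ht _ (by omega), c2]; simp; omega

end Frame

theorem emb_sh_al (u : SUs (Fin 2) F) : emb _ (sh_iso k.zero_le) (al F 2 u) =
    emb _ (Pm_iso (f := o3 k ∘ Fin.castSucc) fun a b e => Fin.ext (by simpa [sh] using e)) u :=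
  Subtype.ext (emb_Pm_emb _ _ u)

section
variable {P : Type*} [Group P] (h : IsBar (starRingEnd F) q) (f : P →* SUs (Fin (k + 3)) F) {α : SUs (Fin 3) F →* P}
  {β : alternatingGroup (Fin (k + 3)) →* P} (hα : ∀ v, f (α v) = emb _ (sh_iso k.zero_le) v)
  (hβ : ∀ g, f (β g) = altHom F _ g)
include h hα hβ

theorem surjective_of_alt (hk : 2 ≤ k) : Function.Surjective f := by
  obtain ⟨σ, hσ⟩ := exists_alt_sh hk
  exact MonoidHom.range_eq_top.1 (eq_top_of_sh h fun j hj v => ⟨β (σ j) * α v * (β (σ j))⁻¹, by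
    rw [map_mul, map_mul, map_inv, hα, hβ, conj_emb_Pm rfl _ (sh_iso hj) (funext (hσ j hj))]⟩)

theorem exists_altFrame (hk : 2 ≤ k) {σ : ℕ → alternatingGroup (Fin (k + 3))}
    (hσ : ∀ j (hj : j ≤ k) i, (σ j).1 (o3 k i) = sh hj i) : ∃ c, ∃ l : List P, l.length = 5 ∧ (∀ w ∈ l, f w = 1) ∧
    ∀ (E : Type) [Group E] (ψ : P →* E), (∀ w ∈ l, ψ w = 1) → Frame (Subgroup.subtype _) (ψ.comp α) (ψ.comp β) σ c := by
  let s : Finset (Fin (k + 3)) := {o3 k 0, o3 k 1}ᶜ
  let c : alternatingGroup (Fin (k + 3)) := ⟨c3 (o3 k 0) (o3 k 1) (o3 k 2), c3_mem_alt (by simp [sh]) (by simp [sh])⟩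
  let i : alternatingGroup s →* alternatingGroup (Fin (k + 3)) :=
    ((Perm.ofSubtype : Perm s →* _).comp (Subgroup.subtype _)).codRestrict _ fun x => altOn_le_alt s ⟨x, x.2, rfl⟩
  obtain ⟨l, a1, a2, a3⟩ := exists_rels_comm.{0} (two_gen_alt s (by
    have := Finset.card_le_two (a := o3 k 0) (b := o3 k 1)
    simp only [Fintype.card_coe, s, Finset.card_compl, Fintype.card_fin]; omega)) (two_gen_SU2 h) f (β.comp i)
    (α.comp (al F 2)) fun x u => by
      rw [MonoidHom.comp_apply, MonoidHom.comp_apply, hα, hβ, emb_sh_al]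
      refine mul_inv_eq_iff_eq_mul.1 (conj_emb_Pm rfl _ _ (funext fun j => Perm.ofSubtype_apply_of_not_mem _ ?_) u)
      fin_cases j <;> simp [s]
  refine ⟨c, β c * (α (P3 F))⁻¹ :: l, by simp [a1], List.forall_mem_cons.2 ⟨?_, a2⟩, fun E _ ψ hψ =>
    ⟨Subtype.val_injective, hσ, rfl, ?_, fun g g0 g1 u => ?_⟩⟩
  · rw [map_mul, map_inv, hα, hβ, mul_inv_eq_one]
    refine (emb_Pm_eq _ (c := c3 0 1 2) rfl rfl (fun i => ?_)
      fun j hj => c3_apply_of_ne (hj 0).symm (hj 1).symm (hj 2).symm).symm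
    fin_cases i
    exacts [c3_apply_fst (by simp [sh]) (by simp [sh]), c3_apply_snd (by simp [sh]) (by simp [sh]), c3_apply_thd _ _ _]
  · simpa [mul_inv_eq_one] using hψ _ List.mem_cons_self
  · obtain ⟨x, hx, e⟩ := (mem_altOn (s := s)).2 ⟨g.2, fun x hx => by
      simp only [s, Finset.mem_compl, Finset.mem_insert, Finset.mem_singleton]
      rintro (rfl | rfl)
      exacts [hx g0, hx g1]⟩
    rw [show g = i ⟨x, hx⟩ from Subtype.ext e.symm]
    exact a3 E ψ (fun w hw => hψ w (List.mem_cons_of_mem _ hw)) _ u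

end

theorem commute_two (w : alternatingGroup (Fin (k + 3))) (w0 : (w.1 (o3 k 0) : ℕ) = 2) (w1 : (w.1 (o3 k 1) : ℕ) = 3)
    (u u' : SUs (Fin 2) F) : Commute (emb _ (sh_iso k.zero_le) (al F 2 u))
      (altHom F _ w * emb _ (sh_iso k.zero_le) (al F 2 u') * (altHom F _ w)⁻¹) := by
  rw [emb_sh_al, emb_sh_al, conj_emb]
  refine emb_comm _ _ ((congrArg _ (Pm_mul _ _)).trans (Pm_orth fun i j e => ?_)) u u'
  have := congrArg Fin.val e
  fin_cases i <;> fin_cases j <;> simp [sh] at this w0 w1 <;> omega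

theorem commute_al_be (u u' : SUs (Fin 2) F) : Commute (al F 3 (al F 2 u)) (be F 3 (be F 2 u')) := by
  rw [← io_succ u, al_io]
  exact io_comm_be _ u u'

theorem bp_SU_big (h : IsBar (starRingEnd F) q) (hq : 4 ≤ q) (hk : 2 ≤ k) {r : ℕ} (h3 : BP (SUs (Fin 3) F) 3 r) :
    BP (SUs (Fin (k + 3)) F) 6 (r + 16) := by
  let f := Coprod.lift (emb _ (sh_iso (F := F) k.zero_le)) (altHom F (k + 3))
  obtain ⟨σ, hσ⟩ := exists_alt_sh hk
  obtain ⟨c, l, a1, a2, a3⟩ := exists_altFrame h f (α := Coprod.inl) (β := Coprod.inr) (fun _ => rfl) (fun _ => rfl) hk hσ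
  have w0 : ((σ 2).1 (o3 k 0) : ℕ) = 2 := congrArg Fin.val (hσ 2 hk 0)
  have w1 : ((σ 2).1 (o3 k 1) : ℕ) = 3 := congrArg Fin.val (hσ 2 hk 1)
  obtain ⟨l', b1, b2, b3⟩ := exists_rels_comm.{0} (two_gen_SU2 h) (two_gen_SU2 h) f (Coprod.inl.comp (al F 2))
    ((cj Coprod.inl (Coprod.inr (σ 2))).comp (al F 2)) fun u u' => by
      simpa [cj_apply, f] using commute_two (σ 2) w0 w1 u u'
  have := (h3.coprod (bp_alt (Ω := Fin (k + 3)) (by simp))).of_list f
    (surjective_of_alt h f (α := Coprod.inl) (β := Coprod.inr) (fun _ => rfl) (fun _ => rfl) hk) (l ++ l')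
    (List.forall_mem_append.2 ⟨a2, b2⟩) fun J _ φ hφ => ?_
  · simpa [a1, b1, add_assoc] using this
  rw [List.forall_mem_append] at hφ
  have S := a3 J φ hφ.1
  obtain ⟨ψ, hψ⟩ := S.exists_ext h (by omega) w0 w1 (fun u u' => by simpa [cj_apply] using b3 J φ hφ.2 u u') (Or.inl hq)
  refine ker_le_of_comp ψ (Coprod.hom_ext (MonoidHom.ext fun v => ?_) (MonoidHom.ext fun g => ?_))
  · exact ((hψ.emb_sh 0 k.zero_le v).trans (S.cj_zero h (by omega) v)).symm
  · exact (S.map_alt (ρ := altHom F _) (fun _ => rfl) hψ g.2).symm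

theorem bp_SU_of_four (h : IsBar (starRingEnd F) q) (hq : 3 ≤ q) (hk : 2 ≤ k) {d r : ℕ} (h4 : BP (SUs (Fin 4) F) d r) :
    BP (SUs (Fin (k + 3)) F) (d + 3) (r + 13) := by
  have k4 : 4 ≤ k + 3 := by omega
  let f := Coprod.lift (io F k4) (altHom F (k + 3))
  have hα : ∀ v, f ((Coprod.inl.comp (al F 3)) v) = emb _ (sh_iso k.zero_le) v := fun v => io_io (by omega) k4 v
  obtain ⟨σ, hσ⟩ := exists_alt_sh hk
  obtain ⟨c, l, a1, a2, a3⟩ := exists_altFrame h f (β := Coprod.inr) hα (fun _ => rfl) hk hσ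
  have k1 : 1 ≤ k := by omega
  let c' : alternatingGroup (Fin (k + 3)) := ⟨c3 (sh k1 0) (sh k1 1) (sh k1 2), c3_mem_alt (by simp [sh]) (by simp [sh])⟩
  have e0 : ∀ v, io F k4 (be F 3 v) = emb _ (sh_iso k1) v := fun v => Subtype.ext (emb_Pm_emb _ _ v)
  have c0 : c'.1 (o3 k 0) = o3 k 0 := c3_apply_of_ne (by simp [sh]) (by simp [sh]) (by simp [sh])
  have c1 : c'.1 (o3 k 1) = sh k1 1 := c3_apply_fst (by simp [sh]) (by simp [sh])
  have c2 : c'.1 (o3 k 2) = sh k1 2 := c3_apply_snd (by simp [sh]) (by simp [sh])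
  have := (h4.coprod (bp_alt (Ω := Fin (k + 3)) (by simp))).of_list f 
    (surjective_of_alt h f (β := Coprod.inr) hα (fun _ => rfl) hk)
    (Coprod.inr c' * (Coprod.inl (be F 3 (P3 F)))⁻¹ :: l) (List.forall_mem_cons.2 ⟨?_, a2⟩) fun J _ φ hφ => ?_
  · simpa [a1, add_assoc] using this
  · rw [map_mul, map_inv, mul_inv_eq_one]
    refine ((e0 _).trans (emb_Pm_eq _ (c := c3 0 1 2) rfl rfl (fun i => ?_)
      fun j hj => c3_apply_of_ne (hj 0).symm (hj 1).symm (hj 2).symm)).symm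
    fin_cases i
    exacts [c1, c2, c3_apply_thd _ _ _]
  rw [List.forall_mem_cons, map_mul, map_inv, mul_inv_eq_one] at hφ
  have S := a3 J φ hφ.2
  have e1 := fun s hs t ht => S.ext_four h hq (α₄ := φ.comp Coprod.inl) rfl hφ.1 (congrArg Fin.val c1)
    (congrArg Fin.val c2) (s := s) hs (t := t) ht
  have e2 := e1 0 k1 1 fun _ _ => rfl
  obtain ⟨ψ, hψ⟩ := S.exists_ext h hq (w := σ 1 * c) (by rw [S.c0', S.σ' k1]; rfl) (by rw [S.c1', S.σ' k1]; rfl)
    (fun u u' => by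
      rw [← S.be_eq, ← DFunLike.congr_fun e2.2 (be F 2 u')]
      simpa using (commute_al_be u u').map (φ.comp Coprod.inl))
    (Or.inr fun s hs => by
      obtain ⟨t, ht⟩ := exists_alt_four (n := k + 3) s (s + 2) le_rfl (by omega)
      exact ⟨_, e1 s hs t fun x hx => by have := ht x; omega⟩)
  refine ker_le_of_comp ψ (Coprod.hom_ext (MonoidHom.ext fun x => ?_) (MonoidHom.ext fun g => ?_))
  · refine (eq_top_of_al_be (m := 1) h (Or.inl le_rfl) (L := MonoidHom.eqLocus _ _) (fun v => ?_) fun v => ?_).ge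
      (Subgroup.mem_top x)
    · exact ((congrArg ψ (hα v)).trans ((hψ.emb_sh 0 k.zero_le v).trans (S.cj_zero h hq v))).symm
    · refine Eq.trans ?_ ((congrArg ψ (e0 v)).trans (hψ.emb_sh 1 k1 v)).symm
      simpa using DFunLike.congr_fun e2.2 v
  · exact (S.map_alt (ρ := altHom F _) (fun _ => rfl) hψ g.2).symm

theorem exists_cycle (m : ℕ) : ∃ g : SUs (Fin (m + 1)) F, ∀ v, g * al F m v * g⁻¹ = be F m v := by
  let s : F := (-1) ^ m
  have hs : s * s = 1 := by rw [← mul_pow]; simp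
  let D : Matrix (Fin (m + 1)) (Fin (m + 1)) F := diagonal (Fin.cons s fun _ => 1)
  have h1 : Dᴴ * D = 1 := by
    rw [diagonal_conjTranspose, diagonal_mul_diagonal, ← diagonal_one]
    congr 1
    funext i
    refine Fin.cases (by simpa [s] using hs) (fun i => by simp) i
  refine ⟨mkSU (D * Pm F (finRotate (m + 1))) (iso_mul h1 (Pm_iso (Equiv.injective _))) ?_, fun v => ?_⟩
  · rw [det_mul, det_diagonal, Pm, det_permute', Fin.prod_univ_succ]
    simpa [s] using hs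
  · rw [al, conj_emb]
    refine DFunLike.congr_fun (emb_congr _ _ ?_) v
    show D * Pm F (finRotate (m + 1)) * Pm F Fin.castSucc = Pm F Fin.succ
    rw [Matrix.mul_assoc, Pm_mul, show finRotate (m + 1) ∘ Fin.castSucc = Fin.succ from funext fun i => by simp]
    ext i j
    refine Fin.cases ?_ (fun i => ?_) i <;> simp [D, Pm, (Fin.succ_ne_zero _).symm]

end CL.Phan
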