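/-
Bounded presentations of `SU_n(q)`: the group `SU_4(q)` and the case `q = 2`.
-/
import Cfsg.Agent.Perm.SUPres1
import Cfsg.Agent.Perm.PhanTwoA

set_option autoImplicit false
set_option linter.unusedSectionVars false

namespace CL.Phan

open Matrix Equiv Equiv.Perm CL.Known CL.Uni Monoid

universe u

variable {F : Type u} [Field F] [StarRing F] {q k : ℕ} {J : Type*} [Group J]

theorem bp_SU_four (h : IsBar (starRingEnd F) q) (hq : 4 ≤ q) {d r : ℕ} (h3 : BP (SUs (Fin 3) F) d r) :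
    BP (SUs (Fin 4) F) (d + 1) (r + 7) := by
  obtain ⟨g, hg⟩ := exists_cycle (F := F) 3
  obtain ⟨f, f1, f2⟩ : ∃ f : Coprod (SUs (Fin 3) F) (FreeGroup (Fin 1)) →* SUs (Fin 4) F,
      (∀ v, f (Coprod.inl v) = al F 3 v) ∧ f (Coprod.inr (FreeGroup.of 0)) = g :=
    ⟨Coprod.lift (al F 3) (FreeGroup.lift fun _ => g), fun _ => rfl, by simp⟩
  generalize hx : (Coprod.inr (FreeGroup.of 0) : Coprod (SUs (Fin 3) F) (FreeGroup (Fin 1))) = x at f2
  have e1 : ∀ v, f (cj Coprod.inl x v) = be F 3 v := fun v => by rw [cj_apply, map_mul, map_mul, map_inv, f1, f2, hg]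
  obtain ⟨l, a1, a2, a3⟩ := exists_rels_eq.{0} (two_gen_SU2 h) f (Coprod.inl.comp (be F 2))
    ((cj Coprod.inl x).comp (al F 2)) fun u => (f1 _).trans ((al_be u).trans (e1 _).symm)
  obtain ⟨l', b1, b2, b3⟩ := exists_rels_comm.{0} (two_gen_SU2 h) (two_gen_SU2 h) f (Coprod.inl.comp (al F 2))
    ((cj Coprod.inl x).comp (be F 2)) fun u u' => by
      rw [MonoidHom.comp_apply, MonoidHom.comp_apply, e1, f1]
      exact commute_al_be u u'
  have hs := eq_top_of_al_be (m := 1) h (Or.inl le_rfl) (L := (Coprod.inl.range ⊔ (cj Coprod.inl x).range).map f)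
    (fun v => ⟨_, Subgroup.mem_sup_left ⟨v, rfl⟩, f1 v⟩) fun v => ⟨_, Subgroup.mem_sup_right ⟨v, rfl⟩, e1 v⟩
  obtain ⟨w, w1, w2⟩ := hs.ge (Subgroup.mem_top g)
  have := (h3.coprod (BP.free 1)).of_list f (fun y => let ⟨z, _, e⟩ := hs.ge (Subgroup.mem_top y); ⟨z, e⟩)
    (x * w⁻¹ :: (l ++ l')) (List.forall_mem_cons.2 ⟨by rw [map_mul, map_inv, w2, f2, mul_inv_cancel],
      List.forall_mem_append.2 ⟨a2, b2⟩⟩) fun J _ φ hφ => ?_
  · simpa [a1, b1] using this
  rw [List.forall_mem_cons, List.forall_mem_append, map_mul, map_inv, mul_inv_eq_one] at hφ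
  obtain ⟨ψ, e2, e3⟩ := exists_ext (m := 0) h (Or.inr hq) (φ.comp Coprod.inl) (φ.comp (cj Coprod.inl x))
    (a3 J φ hφ.2.1) (b3 J φ hφ.2.2)
  have e4 : ∀ v, φ (Coprod.inl v) = ψ (f (Coprod.inl v)) := fun v => by rw [f1]; exact (DFunLike.congr_fun e2 v).symm
  refine ker_le_of_comp ψ (Coprod.hom_ext (MonoidHom.ext e4) (FreeGroup.ext_hom _ _ fun i => ?_))
  have e5 : ∀ v, φ (cj Coprod.inl x v) = ψ (f (cj Coprod.inl x v)) := fun v => by
    rw [e1]; exact (DFunLike.congr_fun e3 v).symm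
  have : Coprod.inl.range ⊔ (cj Coprod.inl x).range ≤ φ.eqLocus (ψ.comp f) :=
    sup_le (by rintro _ ⟨v, rfl⟩; exact e4 v) (by rintro _ ⟨v, rfl⟩; exact e5 v)
  have : φ w = ψ (f w) := this w1
  rw [Subsingleton.elim i 0, MonoidHom.comp_apply, MonoidHom.comp_apply, hx, hφ.1, this, w2, MonoidHom.comp_apply, f2]

section
variable {Ω A A' K K' : Type*} [Group K] [Group K'] {β : Perm Ω →* J} {e : A → Ω} {e' : A' → Ω} {γ : K →* J}
  {γ' : K' →* J}

/-- The permutations fixing the points `e a` centralise `γ`. -/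
def PCen (β : Perm Ω →* J) (e : A → Ω) (γ : K →* J) : Prop :=
  ∀ g : Perm Ω, (∀ a, g (e a) = e a) → ∀ u, Commute (β g) (γ u)

theorem PCen.conj_eq (h : PCen β e γ) {g g' : Perm Ω} (H : ∀ a, g (e a) = g' (e a)) (u) :
    β g * γ u * (β g)⁻¹ = β g' * γ u * (β g')⁻¹ := by
  rw [← mul_inv_cancel_left g' g, map_mul, mul_assoc (β g'), (h _ (fun a => by simp [H]) u).eq]
  simp [mul_assoc]

theorem PCen.commute [Finite A] [Finite A'] (h : PCen β e γ) (h' : PCen β e' γ') (he : Function.Injective e)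
    (he' : Function.Injective e') {w : Perm Ω} (hw : ∀ a b, e a ≠ w (e' b))
    (hc : ∀ u v, Commute (γ u) (β w * γ' v * (β w)⁻¹)) {g g' : Perm Ω} (hg : ∀ a b, g (e a) ≠ g' (e' b)) (u v) :
    Commute (β g * γ u * (β g)⁻¹) (β g' * γ' v * (β g')⁻¹) := by
  obtain ⟨t, ht⟩ := Perm.exists_extending_pair (f := Sum.elim e (w ∘ e')) (g := Sum.elim (g ∘ e) (g' ∘ e'))
    (he.sumElim (w.injective.comp he') hw) ((g.injective.comp he).sumElim (g'.injective.comp he') hg)
  rw [h.conj_eq (g' := t) fun a => (ht (.inl a)).symm,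
    h'.conj_eq (g := g') (g' := t * w) fun b => (ht (.inr b)).symm, map_mul]
  simpa [mul_assoc] using (hc u v).map (MulAut.conj (β t))

theorem viaEmb_swap [DecidableEq A] [DecidableEq Ω] (ι : A ↪ Ω) (a b : A) :
    viaEmbeddingHom ι (swap a b) = swap (ι a) (ι b) := by
  ext x
  by_cases hx : x ∈ Set.range ι
  · obtain ⟨y, rfl⟩ := hx
    rw [viaEmbeddingHom_apply, viaEmbedding_apply, ι.injective.swap_apply]
  · rw [viaEmbeddingHom_apply, viaEmbedding_apply_of_notMem _ _ _ hx,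
      swap_apply_of_ne_of_ne (fun e => hx ⟨a, e.symm⟩) fun e => hx ⟨b, e.symm⟩]

open scoped commutatorElement in
theorem exists_rels_comm_list {P G : Type*} [Group P] [Group G] (s : List K) (hs : Subgroup.closure {x | x ∈ s} = ⊤)
    (s' : List K') (hs' : Subgroup.closure {x | x ∈ s'} = ⊤) (f : P →* G) (φ : K →* P) (χ : K' →* P)
    (h : ∀ x y, Commute (f (φ x)) (f (χ y))) : ∃ l : List P, l.length = s.length * s'.length ∧ (∀ w ∈ l, f w = 1) ∧
      ∀ (E : Type) [Group E] (ψ : P →* E), (∀ w ∈ l, ψ w = 1) → ∀ x y, Commute (ψ (φ x)) (ψ (χ y)) := by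
  refine ⟨(s ×ˢ s').map fun p => ⁅φ p.1, χ p.2⁆, by simp [List.length_product], ?_, fun E _ ψ hψ x y => ?_⟩
  · simp only [List.forall_mem_map, map_commutatorElement, commutatorElement_eq_one_iff_commute]
    exact fun p _ => h _ _
  simp only [List.forall_mem_map, map_commutatorElement, commutatorElement_eq_one_iff_commute] at hψ
  have h1 : Subgroup.closure {x | x ∈ s} ≤ (Subgroup.centralizer {ψ (χ y)}).comap (ψ.comp φ) :=
    (Subgroup.closure_le _).2 fun x hx => by
      have h2 : Subgroup.closure {x | x ∈ s'} ≤ (Subgroup.centralizer {ψ (φ x)}).comap (ψ.comp χ) :=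
        (Subgroup.closure_le _).2 fun y hy => Subgroup.mem_centralizer_singleton_iff.2
          (hψ (x, y) (List.pair_mem_product.2 ⟨hx, hy⟩)).symm
      exact Subgroup.mem_centralizer_singleton_iff.2
        (Subgroup.mem_centralizer_singleton_iff.1 (h2 (hs'.ge (Subgroup.mem_top y)))).symm
  exact Subgroup.mem_centralizer_singleton_iff.1 (h1 (hs.ge (Subgroup.mem_top x)))

theorem list_gen_two (h : ∃ a b : K, Subgroup.closure {a, b} = ⊤) :
    ∃ s : List K, s.length = 2 ∧ Subgroup.closure {x | x ∈ s} = ⊤ :=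
  let ⟨a, b, h⟩ := h
  ⟨[a, b], rfl, h ▸ congrArg _ (Set.ext (by simp))⟩

end

theorem two_gen_perm (Ω : Type) [Fintype Ω] [DecidableEq Ω] : ∃ a b : Perm Ω, Subgroup.closure {a, b} = ⊤ := by
  by_cases h : 3 ≤ Fintype.card Ω
  · obtain ⟨_, -, -, _, _, h⟩ := pres_perm h
    exact ⟨_, _, h⟩
  have : Nat.card (Perm Ω) ∣ 2 := by
    rw [Nat.card_perm, Nat.card_eq_fintype_card]
    exact Nat.factorial_dvd_factorial (n := 2) (by omega)
  obtain ⟨a, ha⟩ := (isCyclic_of_card_dvd_prime this).exists_zpow_surjective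
  exact ⟨a, a, by rw [Set.pair_eq_singleton, ← Subgroup.zpowers_eq_closure]; exact eq_top_iff.2 fun x _ => ha x⟩

theorem list_gen_SU3 (h : IsBar (starRingEnd F) 2) :
    ∃ s : List (SUs (Fin 3) F), s.length = 3 ∧ Subgroup.closure {x | x ∈ s} = ⊤ := by
  obtain ⟨a, b, c, e⟩ := exists_three_gen_SU h
  let f := (suBridge h 3).symm.toMonoidHom
  refine ⟨[f a, f b, f c], rfl, ?_⟩
  rw [show {x | x ∈ [f a, f b, f c]} = f '' {a, b, c} by ext; simp [Set.image_insert_eq], ← MonoidHom.map_closure, e,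
    Subgroup.map_top_of_surjective _ (suBridge h 3).symm.surjective]

/-- The permutation matrices in characteristic two. -/
def permHom (h : IsBar (starRingEnd F) 2) (n : ℕ) : Perm (Fin n) →* SUs (Fin n) F :=
  pmHom F (MonoidHom.id _) fun g => by
    rcases Int.units_eq_one_or (sign (MonoidHom.id _ g)) with e | e <;> rw [e]
    · simp
    · simpa [neg_eq_iff_add_eq_zero, one_add_one_eq_two] using two_eq_zero h

theorem emb_permHom (h : IsBar (starRingEnd F) 2) {m n : ℕ} (ι : Fin m ↪ Fin n) (p : Perm (Fin m)) :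
    emb _ (Pm_iso ι.injective) (permHom h m p) = permHom h n (viaEmbeddingHom ι p) :=
  emb_Pm_eq _ rfl rfl (viaEmbedding_apply p ι) fun j hj => viaEmbedding_apply_of_notMem p ι j fun ⟨i, e⟩ => hj i e

theorem exists_Ext_two (h : IsBar (starRingEnd F) 2) {φ : ℕ → (SUs (Fin 3) F →* J)} (r : ℕ)
    (hc : ∀ s j, s + 2 ≤ j → j < r → ∀ u v, Commute (φ s (al F 2 u)) (φ j v))
    (hc' : ∀ s, s + 2 < r → ∀ v u, Commute (φ s v) (φ (s + 2) (be F 2 u)))
    (hc'' : ∀ s j, s + 3 ≤ j → j < r → ∀ u v, Commute (φ s u) (φ j v))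
    (base : ∀ s, s + 1 < r → ∃ ψ, Ext φ 1 s ψ) : ∀ k s, s + k < r → ∃ ψ, Ext φ k s ψ := by
  refine exists_Ext h r hc base fun j s a b hs ha hb c1 c2 => (amalOf a b c1 c2).π_injective_two h fun v y =>
    Subtype.ext (Prod.ext ?_ ?_)
  · show al F _ _ * be F _ _ = be F _ _ * al F _ _
    rw [al_io]
    apply Subtype.ext
    rw [su_coe_mul, su_coe_mul, be, be, be, emb_emb, emb_emb, emb_coe, Pm_mul, Pm_mul]
    exact embM_comm (Pm_orth fun i j e => by have := congrArg Fin.val e; simp at this; omega) _ _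
  · show a _ * b _ = b _ * a _
    rw [ha.io]
    cases j with
    | zero =>
      have e : b (be F 3 (be F 2 y)) = φ (s + 2) (be F 2 y) := DFunLike.congr_fun hb.2 _
      rw [e]
      exact hc' s (by omega) v y
    | succ j => exact hb.2.2.commute h (fun i a b w => hc'' s i a (by omega) v w) y

/-- The first four indices. -/
def o4 (hk : 2 ≤ k) : Fin 4 ↪ Fin (k + 3) := Fin.castLEEmb (by omega)

theorem exists_hom_two (h : IsBar (starRingEnd F) 2) (hk : 2 ≤ k) {α : SUs (Fin 4) F →* J} {β : Perm (Fin (k + 3)) →* J}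
    {σ : ℕ → Perm (Fin (k + 3))} (hσ : ∀ j (hj : j ≤ k) i, σ j (o3 k i) = sh hj i)
    (r1 : ∀ p, β (viaEmbeddingHom (o4 hk) p) = α (permHom h 4 p)) (r2 : PCen β (o3 k) (α.comp (al F 3)))
    (r3 : ∀ u v, Commute (α (al F 3 (al F 2 u))) (β (σ 2) * α (al F 3 v) * (β (σ 2))⁻¹))
    (r4 : 3 ≤ k → ∀ u v, Commute (α (al F 3 u)) (β (σ 3) * α (al F 3 v) * (β (σ 3))⁻¹)) :
    ∃ ψ : SUs (Fin (k + 3)) F →* J, (∀ x, ψ (io F (by omega) x) = α x) ∧ ∀ g, ψ (permHom h _ g) = β g := by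
  have σv : ∀ j, j ≤ k → ∀ i, (σ j (o3 k i) : ℕ) = i + j := fun j hj i => congrArg Fin.val (hσ j hj i)
  have i3 : Function.Injective (o3 k) := fun a b e => Fin.ext (by simpa [sh] using e)
  have f2 : PCen β (o3 k ∘ Fin.castSucc) ((α.comp (al F 3)).comp (al F 2)) := fun g hg u => by
    have g0 : g (o4 hk 0) = o4 hk 0 := hg 0
    have g1 : g (o4 hk 1) = o4 hk 1 := hg 1
    have a1 : Commute (β (swap (o4 hk 2) (o4 hk 3))) (α (al F 3 (al F 2 u))) := by
      rw [← viaEmb_swap, r1, ← io_succ u, al_io]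
      exact Commute.map (mul_inv_eq_iff_eq_mul.1 (conj_emb_Pm rfl _ _ (by decide) u)) α
    by_cases e : g (o4 hk 2) = o4 hk 2
    · exact r2 g (fun a => by fin_cases a; exacts [g0, g1, e]) _
    have n0 : o4 hk 0 ≠ g (o4 hk 2) := fun e => by simpa using g.injective (g0.trans e)
    have n1 : o4 hk 1 ≠ g (o4 hk 2) := fun e => by simpa using g.injective (g1.trans e)
    have a2 : ∀ i, swap (o4 hk 3) (g (o4 hk 2)) (o3 k i) = o3 k i := fun i =>
      swap_apply_of_ne_of_ne (by simp [o4, sh, Fin.ext_iff]; omega) (by fin_cases i; exacts [n0, n1, Ne.symm e])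
    have a3 := r2 (swap (o4 hk 2) (o4 hk 3) * (swap (o4 hk 3) (g (o4 hk 2)) * g)) (fun a => by
      fin_cases a
      · exact (congrArg _ ((congrArg _ g0).trans (a2 0))).trans (swap_apply_of_ne_of_ne (a := o4 hk 2) (x := o4 hk 0) (by simp) (by simp))
      · exact (congrArg _ ((congrArg _ g1).trans (a2 1))).trans (swap_apply_of_ne_of_ne (a := o4 hk 2) (x := o4 hk 1) (by simp) (by simp))
      · exact (congrArg _ (swap_apply_right _ _)).trans (swap_apply_right _ _)) (al F 2 u)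
    simpa [← map_mul] using (r2 _ a2 (al F 2 u)).mul_left (a1.mul_left a3)
  have S : Frame (MonoidHom.id _) (α.comp (al F 3)) β σ (viaEmbeddingHom (o4 hk) (c3 0 1 2)) :=
    ⟨Function.injective_id, hσ, by rw [c3, map_mul, viaEmb_swap, viaEmb_swap]; rfl,
      (r1 _).trans (congrArg α (emb_Pm_eq _ (c := c3 0 1 2) rfl rfl (by decide) (by decide)).symm),
      fun g g0 g1 => f2 g fun a => by fin_cases a; exacts [g0, g1]⟩
  have C := fun g g' => f2.commute r2 (i3.comp (Fin.castSucc_injective _)) i3 (fun a b e => by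
    have := (congrArg Fin.val e).trans (σv 2 hk b); simp [sh] at this; omega) r3 (g := g) (g' := g')
  have base : ∀ s, s + 1 ≤ k → ∀ t : Perm (Fin (k + 3)), (∀ i, (t (o4 hk i) : ℕ) = i + s) →
      Ext (fun s => cj (α.comp (al F 3)) (β (σ s))) 1 s ((MulAut.conj (β t)).toMonoidHom.comp α) := fun s hs t ht =>
    ⟨MonoidHom.ext fun v => r2.conj_eq (fun a => Fin.ext ((ht a.castSucc).trans (σv s (by omega) a).symm)) v,
      MonoidHom.ext fun v => Eq.trans (by
        rw [map_mul, r1, MonoidHom.comp_apply, MonoidHom.comp_apply, be,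
          ← conj_emb_Pm (g := permHom h 4 (finRotate 4)) rfl (Pm_iso (Fin.castSucc_injective 3)) _ (by decide)]
        simp [mul_assoc, al]) (r2.conj_eq (g := t * viaEmbeddingHom (o4 hk) (finRotate 4)) (fun a => Fin.ext (by
        rw [σv _ hs, Perm.mul_apply, show o3 k a = o4 hk a.castSucc from rfl, viaEmbeddingHom_apply, viaEmbedding_apply, ht]
        fin_cases a <;> simp <;> omega)) v)⟩
  obtain ⟨ψ, hψ⟩ := exists_Ext_two h (φ := fun s => cj (α.comp (al F 3)) (β (σ s))) (k + 1)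
    (fun s j h1 h2 => C _ _ fun a b e => by
      have := σv s (by omega) a.castSucc; have := σv j (by omega) b; simp [← e] at *; omega)
    (fun s hs v u => by
      rw [S.be_eq]
      refine (C _ _ (fun a b e => ?_) u v).symm
      have a0 := congrArg Fin.val (S.c0 (σ (s + 2)))
      have a1 := congrArg Fin.val (S.c1 (σ (s + 2)))
      have := σv s (by omega) b
      have := congrArg Fin.val e
      rw [MonoidHom.id_apply, MonoidHom.id_apply, σv _ (by omega)] at a0 a1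
      fin_cases a <;> simp at * <;> omega)
    (fun s j h1 h2 => r2.commute r2 i3 i3 (fun a b e => by
      have := (congrArg Fin.val e).trans (σv 3 (by omega) b); simp [sh] at this; omega) (r4 (by omega)) fun a b e => by
      have := σv s (by omega) a; have := σv j (by omega) b; simp [← e] at *; omega)
    (fun s hs => by
      obtain ⟨t, ht⟩ := Perm.exists_extending_pair (f := o4 hk) (g := fun i => (⟨i + s, by omega⟩ : Fin (k + 3)))
        (o4 hk).injective fun a b e => Fin.ext (by simpa using e)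
      exact ⟨_, base s (by omega) t fun i => congrArg Fin.val (ht i)⟩) k 0 (by omega)
  have b := base 0 (by omega) 1 fun _ => rfl
  have e1 : ∀ x, ψ (io F (by omega) x) = α x := fun x => by
    refine (eq_top_of_al_be (m := 1) h (Or.inl le_rfl) (L := (ψ.comp (io F (by omega))).eqLocus α) (fun v => ?_)
      fun v => ?_).ge (Subgroup.mem_top x)
    · refine (congrArg ψ (Subtype.ext (emb_Pm_emb _ _ v))).trans ((hψ.emb_sh 0 k.zero_le v).trans ?_)
      simpa using (DFunLike.congr_fun b.1 v).symm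
    · refine (congrArg ψ (Subtype.ext (emb_Pm_emb _ _ v))).trans ((hψ.emb_sh 1 (by omega) v).trans ?_)
      simpa using (DFunLike.congr_fun b.2 v).symm
  have e2 : ∀ g ∈ alternatingGroup _, ψ (permHom h _ g) = β g := fun g hg =>
    S.map_alt (ρ := permHom h _) (fun _ => rfl) hψ hg
  refine ⟨ψ, e1, fun g => ?_⟩
  rcases Int.units_eq_one_or (sign g) with e | e
  · exact e2 g e
  · rw [← mul_swap_mul_self (o4 hk 0) (o4 hk 1) g, map_mul, map_mul, map_mul β, e2 _ (by simp [e]), ← viaEmb_swap, r1,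
      ← emb_permHom, ← e1]
    rfl

theorem bp_SU_two (h : IsBar (starRingEnd F) 2) (hk : 2 ≤ k) {d r : ℕ} (h4 : BP (SUs (Fin 4) F) d r) :
    BP (SUs (Fin (k + 3)) F) (d + 3) (r + 21 + if 3 ≤ k then 9 else 0) := by
  let f := Coprod.lift (io F (by omega : 4 ≤ k + 3)) (permHom h (k + 3))
  have hα : ∀ v, f (Coprod.inl (al F 3 v)) = emb _ (sh_iso k.zero_le) v := fun v => io_io (by omega) _ v
  have hβ : ∀ g, f (Coprod.inr g) = permHom h _ g := fun _ => rfl
  obtain ⟨σ', hσ⟩ := exists_alt_sh hk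
  let σ : ℕ → Perm (Fin (k + 3)) := fun j => σ' j
  have key : ∀ j (hj : j ≤ k) v, f (cj (Coprod.inl.comp (al F 3)) (Coprod.inr (σ j)) v) = emb _ (sh_iso hj) v :=
    fun j hj v => by
      rw [cj_apply, map_mul, map_mul, map_inv, hβ, MonoidHom.comp_apply, hα,
        conj_emb_Pm rfl _ (sh_iso hj) (funext (hσ j hj))]
  obtain ⟨s2, l2, g2⟩ := list_gen_two (two_gen_SU2 h)
  obtain ⟨s3, l3, g3⟩ := list_gen_SU3 h
  obtain ⟨sp, lp, gp⟩ := list_gen_two (two_gen_perm {x : Fin (k + 3) // 3 ≤ (x : ℕ)})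
  obtain ⟨a, a1, a2, a3⟩ := exists_rels_eq.{0} (two_gen_perm (Fin 4)) f (Coprod.inr.comp (viaEmbeddingHom (o4 hk)))
    (Coprod.inl.comp (permHom h 4)) fun p => (emb_permHom h (o4 hk) p).symm
  obtain ⟨b, b1, b2, b3⟩ := exists_rels_comm_list sp gp s3 g3 f (Coprod.inr.comp Perm.ofSubtype)
    (Coprod.inl.comp (al F 3)) fun x u => by
      rw [MonoidHom.comp_apply, MonoidHom.comp_apply, hα, hβ]
      exact mul_inv_eq_iff_eq_mul.1 (conj_emb_Pm rfl _ _ (funext fun j => Perm.ofSubtype_apply_of_not_mem _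
        (by simp [sh])) u)
  obtain ⟨c, c1, c2, c3⟩ := exists_rels_comm_list s2 g2 s3 g3 f ((Coprod.inl.comp (al F 3)).comp (al F 2))
    (cj (Coprod.inl.comp (al F 3)) (Coprod.inr (σ 2))) fun u v => by
      rw [MonoidHom.comp_apply, MonoidHom.comp_apply, hα, key 2 hk, emb_sh_al]
      exact emb_comm _ _ (Pm_orth fun i j e => by have := congrArg Fin.val e; simp [sh] at this; omega) u v
  obtain ⟨e, e1, e2, e3⟩ : ∃ l : List (Coprod (SUs (Fin 4) F) (Perm (Fin (k + 3)))),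
      l.length = (if 3 ≤ k then 9 else 0) ∧ (∀ w ∈ l, f w = 1) ∧ ∀ (E : Type) [Group E] (ψ : _ →* E),
        (∀ w ∈ l, ψ w = 1) → 3 ≤ k → ∀ x y, Commute (ψ (Coprod.inl (al F 3 x)))
          (ψ (cj (Coprod.inl.comp (al F 3)) (Coprod.inr (σ 3)) y)) := by
    split_ifs with h3
    · obtain ⟨e, e1, e2, e3⟩ := exists_rels_comm_list s3 g3 s3 g3 f (Coprod.inl.comp (al F 3))
        (cj (Coprod.inl.comp (al F 3)) (Coprod.inr (σ 3))) fun u v => by
          rw [MonoidHom.comp_apply, hα, key 3 h3]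
          exact emb_comm _ _ (Pm_orth fun i j e => by have := congrArg Fin.val e; simp [sh] at this; omega) u v
      exact ⟨e, by rw [e1, l3], e2, fun E _ ψ hψ _ => e3 E ψ hψ⟩
    · exact ⟨[], rfl, by simp, fun _ _ _ _ h => absurd h h3⟩
  obtain ⟨π, p1, p2, -⟩ := pres_perm (Ω := Fin (k + 3)) (by simp)
  have := (h4.coprod ⟨π, MonoidHom.range_eq_top.1 p2, p1⟩).of_list f
    (MonoidHom.range_eq_top.1 (eq_top_of_sh h fun j hj v => ⟨_, key j hj v⟩)) (a ++ b ++ c ++ e)
    (by simp only [List.forall_mem_append]; exact ⟨⟨⟨a2, b2⟩, c2⟩, e2⟩) fun J _ φ hφ => ?_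
  · refine this.mono (le_of_eq ?_)
    simp only [List.length_append, a1, b1, c1, e1, l2, l3, lp]
    omega
  simp only [List.forall_mem_append] at hφ
  obtain ⟨ψ, h1, h2⟩ := exists_hom_two h hk (α := φ.comp Coprod.inl) (β := φ.comp Coprod.inr) (σ := σ) hσ
    (a3 J φ hφ.1.1.1) (fun g hg u => by
      obtain ⟨x, rfl⟩ := (Perm.mem_range_ofSubtype_iff (p := fun x : Fin (k + 3) => 3 ≤ (x : ℕ)) (g := g)).2
        fun x hx => not_lt.1 fun e => Perm.mem_support.1 hx (hg ⟨x, e⟩)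
      exact b3 J φ hφ.1.1.2 x u)
    (fun u v => by simpa [cj_apply] using c3 J φ hφ.1.2 u v) fun h3 u v => by simpa [cj_apply] using e3 J φ hφ.2 h3 u v
  exact ker_le_of_comp ψ (Coprod.hom_ext (MonoidHom.ext fun x => (h1 x).symm) (MonoidHom.ext fun g => (h2 g).symm))

end CL.Phan
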