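/-
Bounded presentations of `SU_n(q)`: the groups `SU_4(2)` and `SU_4(3)` by coset enumeration, and the conclusion.
-/
import Cfsg.Agent.Perm.SUPres2
import Cfsg.Agent.Perm.PresSU42
import Cfsg.Agent.Perm.PresSU43
import Cfsg.Agent.Perm.TCSU42A
import Cfsg.Agent.Perm.TCSU43A
import Cfsg.Agent.Perm.TCSU43G
import Cfsg.Agent.Spor.TCGroup
import Cfsg.Agent.Spor.PGSub

set_option autoImplicit false

namespace CL.PG

open CL.Known

theorem bp_of_card {G : Type} [Group G] {gs : List G} {l R : List (List ℕ)} {R' : List (List ℕ × List ℕ)} {m : ℕ}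
    (hR : Rels gs R') (e : R' = R.map fun w => (subs l w, [])) (hl : LB (subW gs l) m)
    (hub : ∀ (J : Type) [Group J] (ys : List J), (∀ w ∈ R, wordG ys w = 1) → UB (subW ys (gensW l.length)) m) :
    BP (subW gs l) l.length R.length := by
  let o : List (FreeGroup (Fin l.length)) := List.ofFn FreeGroup.of
  let f : FreeGroup (Fin l.length) →* subW gs l :=
    FreeGroup.lift fun i => ⟨wordG gs l[i], Subgroup.subset_closure ⟨_, List.getElem_mem _, rfl⟩⟩
  have h1 : (o.map f).map (Subgroup.subtype _) = l.map (wordG gs) := List.ext_getElem (by simp [o]) (by simp [o, f])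
  have h2 : ∀ w ∈ R, f (wordG o w) = 1 := fun w hw => Subtype.ext (by
    rw [map_wordG, ← Subgroup.subtype_apply, map_wordG, h1, ← wordG_subs]
    exact hR _ (e ▸ List.mem_map_of_mem hw))
  have h3 : Function.Surjective f := fun ⟨x, hx⟩ => by
    obtain ⟨_, ⟨y, rfl⟩, h⟩ := (subW_le (H := f.range.map (Subgroup.subtype _))).2 (fun w hw => by
      obtain ⟨i, hi, rfl⟩ := List.getElem_of_mem hw
      exact ⟨_, ⟨FreeGroup.of ⟨i, hi⟩, rfl⟩, by simp [f]⟩) hx
    exact ⟨y, Subtype.ext h⟩
  have := (BP.free _).of_list f h3 (R.map (wordG o)) (List.forall_mem_map.2 h2) fun J _ φ hφ w hw => ?_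
  · simpa using this
  have h4 := hub _ (o.map (f.prod φ)) fun w hw => by
    rw [← map_wordG]
    exact Prod.ext (h2 w hw) (hφ _ (List.mem_map_of_mem hw))
  have h5 : subW (o.map (f.prod φ)) (gensW l.length) = (f.prod φ).range := by
    rw [MonoidHom.range_eq_map, ← FreeGroup.closure_range_of, MonoidHom.map_closure]
    refine (congrArg (fun n => subW _ (gensW n)) (by simp [o])).trans ((subW_gensW _).trans (congrArg _ ?_))
    ext x
    simp [o, List.mem_ofFn]
  rw [h5] at h4
  have := h4.1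
  let p : (f.prod φ).range →* subW gs l := (MonoidHom.fst _ _).comp (Subgroup.subtype _)
  have h6 : Function.Surjective p := fun x => let ⟨y, hy⟩ := h3 x; ⟨⟨_, y, rfl⟩, hy⟩
  have h7 := (h6.bijective_of_nat_card_le (h4.2.trans (hl (Finite.of_surjective p h6)))).1
  exact congrArg (fun x => x.1.2) ((injective_iff_map_eq_one p).1 h7 ⟨_, w, rfl⟩ hw)

theorem ub_of_cert {c : TC.Cert} {iv : List ℕ} {R S : List (List ℕ)} {C : ℕ} (h : c.Valid (fun i => iv.getD i i) R S C)
    {J : Type*} [Group J] {ys : List J} {l : List (List ℕ)}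
    (hi : iv.length = C ∧ (∀ i < C, iv.getD i i = Nat.xor i 1 ∧ Nat.xor i 1 < C) ∧ ∀ w ∈ R ++ S ++ l, ∀ i ∈ w, i < C)
    (hR : ∀ w ∈ R, wordG ys w = 1) {m : ℕ} (hS : UB (subW ys S) m) : UB (subW ys l) (c.N * m) := by
  let g : ℕ → J := fun i => if i < C then letG ys i else 1
  have h1 : ∀ w ∈ R ++ S ++ l, TC.ev g w = wordG ys w := fun w hw =>
    congrArg List.prod (List.map_congr_left fun i h => if_pos (hi.2.2 w hw i h))
  have h2 : ∀ w ∈ R ++ S ++ l, wordG ys w ∈ Subgroup.closure (g '' {i | i < C}) := fun w hw =>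
    h1 w hw ▸ list_prod_mem (List.forall_mem_map.2 fun i h => Subgroup.subset_closure ⟨i, hi.2.2 w hw i h, rfl⟩)
  refine UB.mono (TC.card_le_of_relIndex (subW_le.2 fun w hw => h2 w (by simp [hw])) hS
    (h.relIndex_le' g (fun i => ?_) (fun w hw => (h1 w (by simp [hw])).trans (hR w hw))
      (fun w hw => h1 w (by simp [hw]) ▸ Subgroup.subset_closure ⟨w, hw, rfl⟩) le_rfl))
    (subW_le.2 fun w hw => h2 w (by simp [hw]))
  by_cases e : i < C
  · simp only [g, (hi.2.1 i e).1, if_pos (hi.2.1 i e).2, if_pos e, letG_xor]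
  · simp only [g, List.getD_eq_default _ _ (hi.1.trans_le (not_lt.1 e)), if_neg e, inv_one]

theorem ub_cyc {J : Type*} [Group J] {ys : List J} {w : List ℕ} {n : ℕ} (hn : 0 < n)
    (h : wordG ys (List.replicate n w).flatten = 1) : UB (subW ys [w]) n := by
  have h1 : ∀ k, wordG ys (List.replicate k w).flatten = wordG ys w ^ k := fun k => by
    induction k with
    | zero => simp
    | succ k ih => rw [List.replicate_succ, List.flatten_cons, wordG_append, ih, pow_succ']
  have h2 : subW ys [w] = Subgroup.zpowers (wordG ys w) := by simp [subW, Subgroup.zpowers_eq_closure]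
  rw [h1] at h
  exact (UB.of_card (by rw [h2, Nat.card_zpowers]) (isOfFinOrder_iff_pow_eq_one.2 ⟨n, hn, h⟩).orderOf_pos).le
    (orderOf_le_of_pow_eq_one hn h)

theorem bp_SU42 {F : Type*} [Field F] [Fintype F] (hF : Fintype.card F = 4) : BP (Cfsg.SU 4 F 2) 2 5 := by
  have c := PresSU42.xctx Std.SU42.c1 (faithful_eF _) fun _ _ => trivial
  have h := bp_of_card (R := TC.SU42A.rels) (PresSU42.xrels c) (by decide +kernel) (PresSU42.xH_lb c) fun J _ ys h =>
    ub_of_cert TC.SU42A.valid (by decide) h (ub_cyc (n := 12) (by decide) (h _ (by decide)))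
  have e := subW_ext (PresSU42.xlen Std.SU42.c1) PresSU42.xws (l := [[0], [2]]) (by decide)
  rw [UB.eq_of_lb (e ▸ Std.SU42.ub) (PresSU42.xH_lb c) (PresSU42.xle c), e] at h
  exact h.of_equiv (Std.SU42.iso hF).some

theorem bp_SU43 {F : Type*} [Field F] [Fintype F] (hF : Fintype.card F = 9) : BP (Cfsg.SU 4 F 3) 3 15 := by
  have c := PresSU43.xctx Std.SU43.c1 (faithful_eF _) fun _ _ => trivial
  have h := bp_of_card (R := TC.SU43G.rels) (PresSU43.xrels c) (by decide +kernel) (PresSU43.xH_lb c) fun J _ ys h =>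
    ub_of_cert TC.SU43G.valid (by decide) h (ub_of_cert TC.SU43A.valid (by decide)
      (fun w hw => h w ((by decide : ∀ w ∈ TC.SU43A.rels, w ∈ TC.SU43G.rels) w hw))
      (ub_cyc (n := 12) (by decide) (h _ (by decide))))
  have e := subW_ext (PresSU43.xlen Std.SU43.c1) PresSU43.xws (l := [[0], [2]]) (by decide)
  rw [UB.eq_of_lb (e ▸ Std.SU43.ub) (PresSU43.xH_lb c) (PresSU43.xle c), e] at h
  exact h.of_equiv (Std.SU43.iso hF).some

end CL.PG

namespace CL.Phan

open CL.Known CL.Uni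

theorem bp_SU {F : Type*} [Field F] [Fintype F] {q : ℕ} (hF : Fintype.card F = q ^ 2) {n : ℕ} (hn : 4 ≤ n) :
    BP (Cfsg.SU n F q) 6 (if n ≤ 5 then 35 else 39) := by
  let := starOfCard hF
  have h := isBar_starOfCard hF
  have h2 : 2 ≤ q := by
    have := Fintype.one_lt_card (α := F)
    by_contra e
    have : q < 2 := by omega
    interval_cases q <;> omega
  obtain ⟨k, rfl⟩ : ∃ k, n = k + 3 := ⟨n - 3, by omega⟩
  refine BP.of_equiv ?_ (suBridge h _)
  rcases (show k = 1 ∨ 2 ≤ k by omega) with rfl | hk <;> rcases (show q = 2 ∨ q = 3 ∨ 4 ≤ q by omega) with rfl | rfl | hq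
  · exact ((PG.bp_SU42 hF).of_equiv (suBridge h 4).symm).le (by omega) (by simp)
  · exact ((PG.bp_SU43 hF).of_equiv (suBridge h 4).symm).le (by omega) (by simp)
  · exact (bp_SU_four h hq ((Chev.U3.bp_SU3 hF (by omega)).of_equiv (suBridge h 3).symm)).le (by omega) (by simp)
  · exact (bp_SU_two h hk ((PG.bp_SU42 hF).of_equiv (suBridge h 4).symm)).le (by omega) (by split_ifs <;> omega)
  · exact (bp_SU_of_four h le_rfl hk ((PG.bp_SU43 hF).of_equiv (suBridge h 4).symm)).mono (by split_ifs <;> omega)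
  · exact (bp_SU_big h hq hk ((Chev.U3.bp_SU3 hF (by omega)).of_equiv (suBridge h 3).symm)).mono (by split_ifs <;> omega)

end CL.Phan
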