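/-
Doubly transitive groups whose two-point stabiliser is a non-abelian simple group with abelian Sylow 2-subgroups:
definitions and the steps as propositions.
-/
import Cfsg.Agent.Perm.KosBase
import Cfsg.Agent.Abel2.Defs
import Cfsg.Agent.Even.Amb2

set_option autoImplicit false
set_option linter.unusedSectionVars false

namespace CL.Perm.Sab

open MulAction Cfsg Subgroup CL.Perm.V4 CL.Perm.V4D CL.Perm.Kos CL.Even CL.Grp
open CL.Abel2 (IsPSL2 AbSyl)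

universe u v

section Grp
variable {G : Type u} [Group G]

/-- `H` is non-abelian simple with the self-centralising elementary abelian Sylow 2-subgroup `T`, whose involutions
are permuted transitively by `N_H(T)`. -/
structure Bas (H T : Subgroup G) : Prop where
  simple : IsSimpleGroup H
  noncomm : ¬ IsMulCommutative H
  syl : IsSylowIn 2 T H
  sq : ∀ t ∈ T, t * t = 1
  four : 4 ≤ Nat.card T
  trans : ∀ s ∈ T, ∀ t ∈ T, s ≠ 1 → t ≠ 1 → ∃ y ∈ H, y ∈ 𝒩(T) ∧ y * s * y⁻¹ = t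
  cent : ∀ h ∈ H, (∀ t ∈ T, h * t = t * h) → h ∈ T

/-- the family `PSL₂(2 ^ r)`, `r ≥ 3` -/
structure FL (H T : Subgroup G) (r : ℕ) : Prop where
  three : 3 ≤ r
  card : Nat.card T = 2 ^ r
  cardH : Nat.card H = 2 ^ r * (4 ^ r - 1)
  cent : ∀ t ∈ T, t ≠ 1 → ∀ h ∈ H, h * t = t * h → h ∈ T
  cyc : ∃ z ∈ H, z ∈ 𝒩(T) ∧ ∀ h ∈ H, h ∈ 𝒩(T) → ∃ k : ℕ, h * (z ^ k)⁻¹ ∈ T

/-- `C_H(t) = Y T` is dihedral of order `4 |Y| = q ∓ 1`. -/
structure DO (H T : Subgroup G) (t : G) (Y : Subgroup G) (q : ℕ) : Prop where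
  le : Y ≤ H
  cyc : IsCyclic Y
  odd : Odd (Nat.card Y)
  three : 3 ≤ Nat.card Y
  comm : ∀ y ∈ Y, y * t = t * y
  inv : ∀ v ∈ T, v ≠ 1 → v ≠ t → ∀ y ∈ Y, v * y * v⁻¹ = y⁻¹
  dec : ∀ h ∈ H, h * t = t * h → ∃ y ∈ Y, ∃ w ∈ T, h = y * w
  cardC : Nat.card ↥(H ⊓ Ce t) = 4 * Nat.card Y
  num : 4 * Nat.card Y + 1 = q ∨ 4 * Nat.card Y = q + 1

/-- the family `PSL₂(q)`, `q ≡ 3, 5 mod 8`, `q > 5` -/
structure FO (H T : Subgroup G) (q : ℕ) : Prop where
  psl : IsPSL2 H q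
  md : q % 8 = 3 ∨ q % 8 = 5
  gt : 11 ≤ q
  pp : ∃ p e : ℕ, p.Prime ∧ q = p ^ e
  card : Nat.card T = 4
  cardH : 2 * Nat.card H = q * (q ^ 2 - 1)
  dat : ∀ t ∈ T, t ≠ 1 → ∃ Y : Subgroup G, DO H T t Y q

/-- `C_H(t) = ⟨t⟩ × L` with `L ≅ PSL₂(q)` -/
structure DJ (H : Subgroup G) (t : G) (L : Subgroup G) (q : ℕ) : Prop where
  le : L ≤ H
  psl : IsPSL2 L q
  simple : IsSimpleGroup L
  noncomm : ¬ IsMulCommutative L
  notMem : t ∉ L
  comm : ∀ x ∈ L, x * t = t * x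
  dec : ∀ h ∈ H, h * t = t * h → h ∈ L ∨ h * t ∈ L
  cardC : Nat.card ↥(H ⊓ Ce t) = q * (q ^ 2 - 1)

/-- the groups of Janko-Ree type -/
structure FJ (H T : Subgroup G) (q : ℕ) : Prop where
  card : Nat.card T = 8
  num : (q = 5 ∧ Nat.card H = 175560) ∨
    ∃ k : ℕ, 1 ≤ k ∧ q = 3 ^ (2 * k + 1) ∧ Nat.card H = q ^ 3 * (q ^ 3 + 1) * (q - 1)
  dat : ∀ t ∈ H, orderOf t = 2 → ∃ L : Subgroup G, DJ H t L q

/-- the group `A₅` -/
structure F5 (H T : Subgroup G) : Prop where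
  alt : Nonempty (H ≃* alternatingGroup (Fin 5))
  card : Nat.card T = 4
  cardH : Nat.card H = 60
  cent : ∀ t ∈ T, t ≠ 1 → ∀ h ∈ H, h * t = t * h → h ∈ T

/-- the four cases -/
def Fam (H T : Subgroup G) : Prop := (∃ r, FL H T r) ∨ (∃ q, FO H T q) ∨ (∃ q, FJ H T q) ∨ F5 H T

/-- `M` is a non-abelian simple normal subgroup containing `H`. -/
structure Soc (H M : Subgroup G) : Prop where
  normal : M.Normal
  simple : IsSimpleGroup M
  noncomm : ¬ IsMulCommutative M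
  le : H ≤ M

end Grp

section Act
variable {G : Type u} {Ω : Type v} [Group G] [MulAction G Ω]

/-- the points fixed by the subgroup `T` -/
def Fx (Ω : Type v) [MulAction G Ω] (T : Subgroup G) : Set Ω := {x | ∀ t ∈ T, t • x = x}

/-- The standing hypothesis. -/
structure Hy (G : Type u) (Ω : Type v) [Group G] [MulAction G Ω] (a b : Ω) (T : Subgroup G) : Prop
    extends Bas (stab2 G a b) T where
  t2 : T2 G Ω
  faith : ∀ g : G, (∀ x : Ω, g • x = x) → g = 1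
  ne : a ≠ b
  nreg : ¬ RegN G Ω

/-- direct type: the stabiliser of the pair is `H × ⟨u⟩` -/
structure TD (a b : Ω) (u : G) : Prop where
  uu : u * u = 1
  ua : u • a = b
  cent : ∀ h ∈ stab2 G a b, u * h = h * u

/-- semidirect type: `T` is a Sylow 2-subgroup of its centraliser -/
structure TS (a b : Ω) (T : Subgroup G) (u : G) : Prop where
  uu : u * u = 1
  ua : u • a = b
  norm : u ∈ 𝒩(T)
  conj : ∀ t ∈ T, t ≠ 1 → IsConj t u
  two : ∀ w : G, (∀ t ∈ T, w * t = t * w) → w * w ∈ T → w ∈ T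

/-- the number of conjugates of `t` that interchange `a` and `b` -/
noncomputable abbrev beta (a b : Ω) (t : G) : ℕ := {s : G | IsConj t s ∧ s • a = b}.ncard

/-- Even degree: `O = O(G_a)`, and `L / O ≅ Lb` is simple and contains the two-point stabiliser. -/
structure Ev (a b : Ω) (T O L : Subgroup G) (Lb : Type u) [Group Lb] (π : L →* Lb) : Prop where
  OL : O ≤ L
  HL : stab2 G a b ≤ L
  La : L ≤ stabilizer G a
  nO : stabilizer G a ≤ 𝒩(O)
  nL : stabilizer G a ≤ 𝒩(L)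
  odd : Odd (Nat.card O)
  semi : ∀ x ∈ O, ∀ c : Ω, c ≠ a → x • c = c → x = 1
  surj : Function.Surjective π
  ker : ∀ x : L, π x = 1 ↔ (x : G) ∈ O
  bas : Bas (⊤ : Subgroup Lb) ((T.subgroupOf L).map π)
  fam : Fam (⊤ : Subgroup Lb) ((T.subgroupOf L).map π)
  cardT : Nat.card ((T.subgroupOf L).map π) = Nat.card T
  dvd : Nat.card (stab2 G a b) ∣ Nat.card Lb
  emb : ∃ f : stab2 G a b →* Lb, Function.Injective f

/-- Even degree: the numerical consequences; `s ^ 2 = |O : C_O(t)|`. -/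
structure EvN (a b : Ω) (T O L : Subgroup G) (Lb : Type u) [Group Lb] (π : L →* Lb) (t : G) (s : ℕ) : Prop where
  odd : Odd s
  card : s * s * Nat.card ↥(O ⊓ Ce t) = Nat.card O
  dvdC : s ∣ Nat.card ↥(O ⊓ Ce t)
  dvdm : Nat.card ↥(O ⊓ Ce t) ∣ mFix Ω t - 1
  cube : 8 ≤ Nat.card T → s ^ 3 ∣ (mFix Ω t - 1) ^ 2
  main : nInv Lb * (s * s) = nInv (stab2 G a b) + beta a b t * mFix Ω t
  cent : ∀ ht : t ∈ L, Nat.card ↥(O ⊓ Ce t) * Nat.card ↥((⊤ : Subgroup Lb) ⊓ Ce (π ⟨t, ht⟩)) ∣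
    (mFix Ω t - 1) * Nat.card ↥(stab2 G a b ⊓ Ce t)

/-- Odd degree, direct type: the involutions of `N(T)` fixing `c` lie in `A = T ⟨u⟩`. -/
structure OA (T : Subgroup G) (u : G) (c : Ω) : Prop where
  cT : c ∈ Fx Ω T
  uc : u • c = c
  uniq : ∀ x ∈ Fx Ω T, u • x = x → x = c
  inv : ∀ w ∈ 𝒩(T), w * w = 1 → w • c = c → w ∈ T ⊔ zpowers u
  /-- the conjugates of `T` in `A` are conjugate under `N(A)` -/
  tr : ∀ g : G, cj g T ≤ T ⊔ zpowers u → ∃ y ∈ 𝒩(T ⊔ zpowers u), cj y T = cj g T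
  /-- if `T` has an odd number of conjugates under `N(A)` then `A` is strongly closed -/
  fu : Odd ((𝒩(T)).relIndex 𝒩(T ⊔ zpowers u)) →
    (∃ S : Subgroup G, IsSylowIn 2 S ⊤ ∧ T ⊔ zpowers u ≤ S ∧ ∀ s ∈ S, s * s = 1 → s ∈ T ⊔ zpowers u) ∧
      ∀ x ∈ T ⊔ zpowers u, ∀ y ∈ T ⊔ zpowers u, IsConj x y → ∃ n ∈ 𝒩(T ⊔ zpowers u), n * x * n⁻¹ = y

/-- `A = T ⟨u⟩` contains all involutions of a Sylow 2-subgroup, and these are conjugate. -/
structure B1 (T : Subgroup G) (u : G) : Prop where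
  syl : ∃ S : Subgroup G, IsSylowIn 2 S ⊤ ∧ T ⊔ zpowers u ≤ S ∧ ∀ s ∈ S, s * s = 1 → s ∈ T ⊔ zpowers u
  conj : ∀ x ∈ T ⊔ zpowers u, ∀ y ∈ T ⊔ zpowers u, x ≠ 1 → y ≠ 1 → IsConj x y

/-- The subgroups of `A = T ⟨u⟩` not containing `u` fix two points, the large ones containing `u` do not. -/
structure B2 (Ω : Type v) [MulAction G Ω] (T : Subgroup G) (u : G) : Prop where
  yes : ∀ R : Subgroup G, R ≤ T ⊔ zpowers u → u ∉ R → ∃ x ∈ Fx Ω R, ∃ y ∈ Fx Ω R, x ≠ y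
  no : ∀ R : Subgroup G, R ≤ T ⊔ zpowers u → u ∈ R → Nat.card T ≤ Nat.card R → ∀ x ∈ Fx Ω R, ∀ y ∈ Fx Ω R, x = y

end Act

/-! ### Steps about groups -/

/-- Walter's theorem in the form used here. -/
def Cls : Prop := ∀ (G : Type u) [Group G] [Finite G] (H T : Subgroup G), IsSimpleGroup H → ¬ IsMulCommutative H →
  IsSylowIn 2 T H → (∀ s ∈ T, ∀ t ∈ T, s * t = t * s) → Bas H T ∧ Fam H T

/-- the local data of `PSL₂(2 ^ r)` and `A₅` -/
def ClsL : Prop := ∀ (G : Type u) [Group G] [Finite G] (H T : Subgroup G) (r : ℕ), 2 ≤ r → IsPSL2 H (2 ^ r) →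
  IsSylowIn 2 T H → Bas H T ∧ (FL H T r ∨ F5 H T)

/-- the local data of `PSL₂(q)` -/
def ClsO : Prop := ∀ (G : Type u) [Group G] [Finite G] (H T : Subgroup G) (q : ℕ), (q % 8 = 3 ∨ q % 8 = 5) →
  5 < q → IsPSL2 H q → IsSylowIn 2 T H → Bas H T ∧ FO H T q

/-- the local data of the groups of Janko-Ree type -/
def ClsJ : Prop := ∀ (G : Type u) [Group G] [Finite G] (H T : Subgroup G) (q : ℕ), CL.Abel2.IsJR H q →
  IsSylowIn 2 T H → Bas H T ∧ FJ H T q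

/-- transitive on points implies transitive on hyperplanes -/
def HP : Prop := ∀ (G : Type u) [Group G] [Finite G] (E Y : Subgroup G), (∀ e ∈ E, e * e = 1) → 4 ≤ Nat.card E →
  Y ≤ 𝒩(E) → (∀ s ∈ E, ∀ t ∈ E, s ≠ 1 → t ≠ 1 → ∃ y ∈ Y, y * s * y⁻¹ = t) →
  ∀ E₀ : Subgroup G, E₀ ≤ E → 2 * Nat.card E₀ = Nat.card E →
    (𝒩(E₀)).relIndex Y + 1 = Nat.card E ∧
    ∀ E₁ : Subgroup G, E₁ ≤ E → 2 * Nat.card E₁ = Nat.card E → ∃ y ∈ Y, cj y E₀ = E₁

/-- a fusion lemma -/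
def TB : Prop := ∀ (G : Type u) [Group G] [Finite G] (T S : Subgroup G) (u : G), (∀ t ∈ T, t * t = 1) →
  IsSylowIn 2 S 𝒩(T) → T ≤ S → u ∈ S → u ∉ T → u * u = 1 → (∀ w ∈ S, w * w ∈ T → w ∈ T ∨ w * u ∈ T) →
  Nat.card ↥(T ⊓ Ce u) ^ 2 = Nat.card T → 4 ≤ Nat.card ↥(T ⊓ Ce u) → (∀ t ∈ T, t ≠ 1 → IsConj t u) → False

/-- an involution normalising a group that is regular on `T#` acts freely -/
def SF : Prop := ∀ (G : Type u) [Group G] [Finite G] (T Z : Subgroup G) (w : G), (∀ t ∈ T, t * t = 1) →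
  CL.Abel2.RegOn Z T → w ∈ 𝒩(T) → w ∈ 𝒩(Z) → w * w ∈ T → (¬ ∀ t ∈ T, w * t = t * w) →
  Nat.card ↥(T ⊓ Ce w) ^ 2 = Nat.card T

/-- for `|T| = 8` every automorphism of 2-power order normalising `T` centralises `T` -/
def SJ : Prop := ∀ (G : Type u) [Group G] [Finite G] (H T : Subgroup G) (w : G), Bas H T → Nat.card T = 8 →
  w ∈ 𝒩(H) → w ∈ 𝒩(T) → w * w ∈ T → ∀ t ∈ T, w * t = t * w

/-- involutory automorphisms of `PSL₂(q)`, `q ≡ 3, 5 mod 8` -/
def PG : Prop := ∀ (G : Type u) [Group G] [Finite G] (H : Subgroup G) (q : ℕ) (u t y : G),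
  (q % 8 = 3 ∨ q % 8 = 5) → IsPSL2 H q → u ∈ 𝒩(H) → u * u = 1 → t ∈ H → orderOf t = 2 → y ∈ H → y ≠ 1 →
  Odd (orderOf y) → y * t = t * y → u * t = t * u → u * y = y * u → ∃ h ∈ H, ∀ x ∈ H, u * x * u⁻¹ = h * x * h⁻¹

/-- embeddings of `PSL₂(q)` in `PSL₂(Q)` preserve the characteristic -/
def SC : Prop := ∀ (H L : Type u) [Group H] [Group L] [Finite L] (f : H →* L) (q Q p e : ℕ), Function.Injective f →
  IsPSL2 H q → IsPSL2 L Q → p.Prime → q = p ^ e → Odd q → Odd Q → 7 ≤ q → p ∣ Q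

/-- centralisers of involutions in `PSL₂(Q)`, `Q` odd -/
def DH : Prop := ∀ (G : Type u) [Group G] [Finite G] (M : Subgroup G) (Q : ℕ) (t : G), IsPSL2 M Q → Odd Q →
  t ∈ M → orderOf t = 2 → ∃ z ∈ M, z * t = t * z ∧ Nat.card ↥(M ⊓ Ce t) = 2 * orderOf z ∧
    ∀ x ∈ M, x * t = t * x → x ∉ zpowers z → x * x = 1 ∧ x * z * x⁻¹ = z⁻¹

/-! ### Steps about the action -/

/-- the dichotomy -/
def Dich : Prop := ∀ (G : Type u) (Ω : Type v) [Group G] [Finite G] [Finite Ω] [MulAction G Ω] (a b : Ω)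
  (T : Subgroup G), Hy G Ω a b T → (∃ u : G, TD a b u) ∨ ∃ u : G, TS a b T u

/-- the socle -/
def SocE : Prop := ∀ (G : Type u) (Ω : Type v) [Group G] [Finite G] [Finite Ω] [MulAction G Ω] (a b : Ω)
  (T : Subgroup G), Hy G Ω a b T → ∃ M : Subgroup G, Soc (stab2 G a b) M

/-- the structure of the point stabiliser in even degree -/
def Ev1 : Prop := ∀ (G : Type u) (Ω : Type v) [Group G] [Finite G] [Finite Ω] [MulAction G Ω] (a b : Ω)
  (T : Subgroup G), Hy G Ω a b T → Even (Nat.card Ω) →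
  ∃ (O L : Subgroup G) (Lb : Type u) (_ : Group Lb) (_ : Finite Lb) (π : L →* Lb), Ev a b T O L Lb π

/-- the numerical consequences in even degree -/
def Ev2 : Prop := ∀ (G : Type u) (Ω : Type v) [Group G] [Finite G] [Finite Ω] [MulAction G Ω] (a b : Ω)
  (T O L : Subgroup G) (Lb : Type u) [Group Lb] [Finite Lb] (π : L →* Lb), Hy G Ω a b T → Even (Nat.card Ω) →
  Ev a b T O L Lb π → ∀ t ∈ T, t ≠ 1 → ∃ s : ℕ, EvN a b T O L Lb π t s

/-- even degree, direct type: `T` fixes `2 ^ d` points -/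
def PowJ : Prop := ∀ (G : Type u) (Ω : Type v) [Group G] [Finite G] [Finite Ω] [MulAction G Ω] (a b : Ω)
  (T : Subgroup G) (u : G), Hy G Ω a b T → TD a b u → Even (Nat.card Ω) → ∃ d : ℕ, (Fx Ω T).ncard = 2 ^ d

/-- even degree, direct type, family `O`: an involution fixes `2 ^ k` points -/
def PowO : Prop := ∀ (G : Type u) (Ω : Type v) [Group G] [Finite G] [Finite Ω] [MulAction G Ω] (a b : Ω)
  (T : Subgroup G) (u : G) (q : ℕ), Hy G Ω a b T → TD a b u → Even (Nat.card Ω) → FO (stab2 G a b) T q →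
  ∀ t ∈ T, t ≠ 1 → ∃ k : ℕ, mFix Ω t = 2 ^ k

/-- the conclusion for one family, one type and one parity -/
def NoD (P : ℕ → Prop) (F : ∀ {G : Type u} [Group G], Subgroup G → Subgroup G → Prop) : Prop :=
  ∀ (G : Type u) (Ω : Type v) [Group G] [Finite G] [Finite Ω] [MulAction G Ω] (a b : Ω) (T : Subgroup G) (u : G),
    Hy G Ω a b T → TD a b u → P (Nat.card Ω) → F (stab2 G a b) T → False

/-- the conclusion for one family, one type and one parity -/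
def NoS (P : ℕ → Prop) (F : ∀ {G : Type u} [Group G], Subgroup G → Subgroup G → Prop) : Prop :=
  ∀ (G : Type u) (Ω : Type v) [Group G] [Finite G] [Finite Ω] [MulAction G Ω] (a b : Ω) (T : Subgroup G) (u : G),
    Hy G Ω a b T → TS a b T u → P (Nat.card Ω) → F (stab2 G a b) T → False

def EDL : Prop := NoD.{u, v} Even fun H T => ∃ r, FL H T r
def EDO : Prop := NoD.{u, v} Even fun H T => ∃ q, FO H T q
def EDJ : Prop := NoD.{u, v} Even fun H T => ∃ q, FJ H T q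
def D5 : Prop := NoD.{u, v} (fun _ => True) fun H T => F5 H T
def ESL : Prop := NoS.{u, v} Even fun H T => ∃ r, FL H T r
def ESO : Prop := NoS.{u, v} Even fun H T => ∃ q, FO H T q
def OSL : Prop := NoS.{u, v} Odd fun H T => ∃ r, FL H T r
def OSO : Prop := NoS.{u, v} Odd fun H T => ∃ q, FO H T q

/-- odd degree, direct type: the group `A = T ⟨u⟩` -/
def OD0 : Prop := ∀ (G : Type u) (Ω : Type v) [Group G] [Finite G] [Finite Ω] [MulAction G Ω] (a b : Ω)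
  (T : Subgroup G) (u : G), Hy G Ω a b T → TD a b u → Odd (Nat.card Ω) → ∃ c : Ω, OA T u c

/-- odd degree, direct type: the two cases -/
def OD1 : Prop := ∀ (G : Type u) (Ω : Type v) [Group G] [Finite G] [Finite Ω] [MulAction G Ω] (a b c : Ω)
  (T : Subgroup G) (u : G), Hy G Ω a b T → TD a b u → OA T u c → (∀ t ∈ T, t ≠ 1 → IsConj t u) →
  B1 T u ∨ B2 Ω T u

/-- the second case does not occur -/
def OD2 : Prop := ∀ (G : Type u) (Ω : Type v) [Group G] [Finite G] [Finite Ω] [MulAction G Ω] (a b : Ω)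
  (T : Subgroup G) (u : G), Hy G Ω a b T → TD a b u → Odd (Nat.card Ω) → (∀ t ∈ T, t ≠ 1 → IsConj t u) →
  B2 Ω T u → False

/-- the first case: the socle is of Janko-Ree type -/
def OD3 : Prop := ∀ (G : Type u) (Ω : Type v) [Group G] [Finite G] [Finite Ω] [MulAction G Ω] (a b : Ω)
  (T M : Subgroup G) (u : G), Hy G Ω a b T → TD a b u → B1 T u → Soc (stab2 G a b) M →
  Bas M (T ⊔ zpowers u) ∧ ∃ q : ℕ, FJ M (T ⊔ zpowers u) q

/-- the first case does not occur -/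
def OD4 : Prop := ∀ (G : Type u) (Ω : Type v) [Group G] [Finite G] [Finite Ω] [MulAction G Ω] (a b : Ω)
  (T M : Subgroup G) (u : G) (q Q : ℕ), Hy G Ω a b T → TD a b u → Odd (Nat.card Ω) → FO (stab2 G a b) T q →
  Soc (stab2 G a b) M → Bas M (T ⊔ zpowers u) → FJ M (T ⊔ zpowers u) Q → False

end CL.Perm.Sab
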