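/-
Project SAB (S3400): a group that is transitive on the points of an elementary abelian 2-group is transitive on
its hyperplanes.
-/
import Cfsg.Agent.Perm.SabDefs

set_option autoImplicit false
set_option linter.unusedSectionVars false

namespace CL.Perm.Sab

open MulAction Cfsg Subgroup CL.Perm.V4 CL.Perm.V4D CL.Perm.Kos CL.Even CL.Grp

universe u

variable {G : Type u} [Group G] [Finite G]

theorem hp_le {E : Subgroup G} (sq : ∀ e ∈ E, e * e = 1) :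
    {K : Subgroup G | K ≤ E ∧ 2 * Nat.card K = Nat.card E}.ncard + 1 ≤ Nat.card E := by
  classical
  let : CommGroup E := { (inferInstance : Group E) with
    mul_comm := fun a b => by
      have i : ∀ x : E, x⁻¹ = x := fun x => inv_eq_of_mul_eq_one_right (Subtype.ext (sq x x.2))
      rw [← i (a * b), mul_inv_rev, i, i] }
  have : NeZero (Monoid.exponent E : ℂ) := ⟨Nat.cast_ne_zero.2 Monoid.exponent_ne_zero_of_finite⟩
  have c := CommGroup.card_monoidHom_of_hasEnoughRootsOfUnity E ℂ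
  have : Finite (E →* ℂˣ) := Nat.finite_of_card_ne_zero (c ▸ Nat.card_pos.ne')
  have n : (-1 : ℂˣ) ≠ 1 := fun e => by have := congrArg Units.val e; norm_num at this
  have ex : ∀ K : Subgroup G, K ≤ E ∧ 2 * Nat.card K = Nat.card E → ∃ χ : E →* ℂˣ, ∀ x : E, χ x = 1 ↔ (x : G) ∈ K :=
    fun K ⟨h1, h2⟩ => by
      have i : (K.subgroupOf E).index = 2 := by
        have := (K.subgroupOf E).card_mul_index
        rw [Nat.card_congr (subgroupOfEquivOfLe h1).toEquiv, ← h2, mul_comm 2] at this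
        exact Nat.eq_of_mul_eq_mul_left Nat.card_pos this
      refine ⟨MonoidHom.mk' (fun x => if x ∈ K.subgroupOf E then 1 else -1) fun a b => ?_, fun x => ?_⟩
      · simp only [mul_mem_iff_of_index_two i]
        by_cases ha : a ∈ K.subgroupOf E <;> by_cases hb : b ∈ K.subgroupOf E <;> simp [ha, hb]
      · by_cases ha : (x : G) ∈ K <;> simp [mem_subgroupOf, ha, n]
  choose! χ hχ using ex
  rw [← Set.ncard_univ, ← Set.ncard_sdiff_singleton_add_one (Set.mem_univ 1)] at c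
  refine le_of_le_of_eq (Nat.succ_le_succ (Set.ncard_le_ncard_of_injOn (t := Set.univ \ {1}) χ
    (fun K hK => ⟨trivial, fun e : χ K = 1 => ?_⟩) fun K hK L hL e => ?_)) c
  · have : K = E := hK.1.antisymm fun x hx => (hχ K hK ⟨x, hx⟩).1 (by rw [e]; rfl)
    have := hK.2
    have : 0 < Nat.card E := Nat.card_pos
    subst K; omega
  · ext x
    exact ⟨fun k => (hχ L hL ⟨x, hK.1 k⟩).1 (e ▸ (hχ K hK ⟨x, hK.1 k⟩).2 k),
      fun k => (hχ K hK ⟨x, hL.1 k⟩).1 (e ▸ (hχ L hL ⟨x, hL.1 k⟩).2 k)⟩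

theorem hp_ncard (K : Subgroup G) : {x : G | x ∈ K ∧ x ≠ 1}.ncard + 1 = Nat.card K := by
  exact (Set.ncard_sdiff_singleton_add_one (s := (K : Set G)) K.one_mem).trans (Nat.card_coe_set_eq _).symm

theorem hp : HP.{u} := by
  intro G _ _ E Y sq h4 hY tr E₀ h0 c0
  obtain ⟨e, he, e1⟩ : ∃ e ∈ E, e ≠ 1 := by
    by_contra! k
    rw [(eq_bot_iff_forall E).2 k, card_bot] at h4; omega
  have f1 : ∀ P : Subgroup G → Prop, {y | y ∈ Y ∧ P (cj y E₀)}.ncard =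
      Nat.card ↥(𝒩(E₀) ⊓ Y) * {K | (∃ y ∈ Y, cj y E₀ = K) ∧ P K}.ncard := fun P => by
    refine ncard_eq_mul_fib (fun y => cj y E₀) _ (Set.toFinite _) _ (fun y hy => ⟨⟨y, hy.1, rfl⟩, hy.2⟩) ?_
    rintro _ ⟨⟨y, hy, rfl⟩, p⟩
    rw [← Set.ncard_image_of_injective _ (mul_right_injective y⁻¹), ← Nat.card_coe_set_eq]
    congr 2
    ext z
    constructor
    · rintro ⟨x, ⟨⟨hx, -⟩, k⟩, rfl⟩
      exact ⟨cj_eq_iff_mem.1 (by simp only [cj_mul, k, cj_inv_cj]), Y.mul_mem (Y.inv_mem hy) hx⟩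
    · rintro ⟨h1, h2⟩
      have k : cj (y * z) E₀ = cj y E₀ := by rw [cj_mul, cj_eq_iff_mem.2 h1]
      exact ⟨y * z, ⟨⟨mul_mem hy h2, k ▸ p⟩, k⟩, by simp⟩
  have f2 : ∀ K ≤ E, {y | y ∈ Y ∧ y⁻¹ * e * y ∈ K}.ncard =
      {y | y ∈ Y ∧ y⁻¹ * e * y = e}.ncard * {x : G | x ∈ K ∧ x ≠ 1}.ncard := fun K hK => by
    refine ncard_eq_mul_fib (fun y => y⁻¹ * e * y) _ (Set.toFinite _) _ (fun y hy => ⟨hy.2, fun k => e1 ?_⟩) ?_
    · simpa [mul_assoc, inv_mul_eq_iff_eq_mul] using k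
    rintro t ⟨ht, t1⟩
    obtain ⟨y, hy, k⟩ := tr t (hK ht) e he t1 e1
    rw [← Set.ncard_image_of_injective _ (mul_left_injective y⁻¹)]
    congr 1
    ext z
    constructor
    · rintro ⟨x, ⟨⟨hx, -⟩, k'⟩, rfl⟩
      exact ⟨mul_mem hx (inv_mem hy), by
        rw [show (x * y⁻¹)⁻¹ * e * (x * y⁻¹) = y * (x⁻¹ * e * x) * y⁻¹ by group, k', k]⟩
    · rintro ⟨h1, h2⟩
      have k' : (z * y)⁻¹ * e * (z * y) = t := by
        rw [show (z * y)⁻¹ * e * (z * y) = y⁻¹ * (z⁻¹ * e * z) * y by group, h2, ← k]; group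
      exact ⟨z * y, ⟨⟨mul_mem h1 hy, k' ▸ ht⟩, k'⟩, by simp⟩
  have a1 := f1 fun _ => True
  have a2 := f1 fun K => e ∈ K
  have a3 := f2 E le_rfl
  have a4 := f2 E₀ h0
  have y1 : {y | y ∈ Y ∧ True}.ncard = Nat.card Y := by rw [← Nat.card_coe_set_eq]; simp
  have y2 : {y | y ∈ Y ∧ y⁻¹ * e * y ∈ E} = {y | y ∈ Y ∧ True} := Set.ext fun y => and_congr_right fun hy =>
    iff_true_intro (by simpa using (mem_normalizer_iff.1 (hY (inv_mem hy)) e).1 he)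
  simp only [mem_cj, and_true] at a1 a2 y1 y2
  have n1 := hp_ncard E
  have n0 := hp_ncard E₀
  have ub := hp_le sq
  have sub : {K | ∃ y ∈ Y, cj y E₀ = K} ⊆ {K : Subgroup G | K ≤ E ∧ 2 * Nat.card K = Nat.card E} := by
    rintro _ ⟨y, hy, rfl⟩
    exact ⟨cj_le_of_le h0 (hY hy), by rw [card_cj, c0]⟩
  have le := Set.ncard_le_ncard sub
  have pos : 0 < {K | ∃ y ∈ Y, cj y E₀ = K}.ncard := (Set.ncard_pos).2 ⟨_, 1, one_mem _, rfl⟩
  have r : Nat.card ↥(𝒩(E₀) ⊓ Y) * (𝒩(E₀)).relIndex Y = Nat.card Y := by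
    rw [← (𝒩(E₀)).subgroupOf Y |>.card_mul_index, ← inf_subgroupOf_right,
      Nat.card_congr (subgroupOfEquivOfLe inf_le_right).toEquiv, inf_subgroupOf_right]; rfl
  have p : 0 < Nat.card ↥(𝒩(E₀) ⊓ Y) := Nat.card_pos
  rw [y2, a1] at a3
  rw [a2] at a4
  have o : (𝒩(E₀)).relIndex Y = {K | ∃ y ∈ Y, cj y E₀ = K}.ncard :=
    Nat.eq_of_mul_eq_mul_left p (by rw [r, ← a1, y1])
  have d : {x : G | x ∈ E ∧ x ≠ 1}.ncard ∣ {K | ∃ y ∈ Y, cj y E₀ = K}.ncard * {x : G | x ∈ E₀ ∧ x ≠ 1}.ncard :=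
    ⟨_, Nat.eq_of_mul_eq_mul_left p (by rw [← mul_assoc, a3, mul_left_comm, a4]; ring)⟩
  have cop : Nat.Coprime {x : G | x ∈ E ∧ x ≠ 1}.ncard {x : G | x ∈ E₀ ∧ x ≠ 1}.ncard := by
    rw [show {x : G | x ∈ E ∧ x ≠ 1}.ncard = 1 + 2 * {x : G | x ∈ E₀ ∧ x ≠ 1}.ncard by omega]; simp
  have := Nat.le_of_dvd pos (cop.dvd_of_dvd_mul_right d)
  refine ⟨by omega, fun E₁ h1 c1 => ?_⟩
  exact (Set.eq_of_subset_of_ncard_le sub (by omega)).ge ⟨h1, c1⟩

end CL.Perm.Sab
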