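/-
Involutory automorphisms of `PSL₂(q)`, `q ≡ 3, 5 mod 8`, that centralise an element of odd order of the centraliser of
an involution are inner.
-/
import Cfsg.Agent.Perm.SabDefs
import Cfsg.Agent.Known.GLAut5

set_option autoImplicit false
set_option linter.unusedSectionVars false

namespace CL.Perm.Sab

open Cfsg Subgroup CL.Even CL.GLn Matrix
open CL.Abel2 (IsPSL2)

universe u v

section
variable {F : Type} [Field F]

theorem pg_ch (A : Matrix (Fin 2) (Fin 2) F) : A * A = A.trace • A - A.det • (1 : Matrix (Fin 2) (Fin 2) F) := by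
  ext i j
  fin_cases i <;> fin_cases j <;> simp [Matrix.mul_apply, Fin.sum_univ_two, trace_fin_two, det_fin_two] <;> ring

theorem pg_par {A B : Matrix (Fin 2) (Fin 2) F} (hA : ∀ c : F, A ≠ c • 1) (h : B * A = A * B) :
    ∃ a b : F, B = a • 1 + b • A := by
  have e1 := congrFun (congrFun h 0) 0
  have e2 := congrFun (congrFun h 0) 1
  have e3 := congrFun (congrFun h 1) 0
  simp only [Matrix.mul_apply, Fin.sum_univ_two] at e1 e2 e3
  by_cases h1 : A 0 1 = 0
  · by_cases h2 : A 1 0 = 0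
    · have h3 : A 0 0 - A 1 1 ≠ 0 := fun h3 => hA (A 0 0) (by
        ext i j
        fin_cases i <;> fin_cases j <;> simp [h1, h2, sub_eq_zero.1 h3])
      refine ⟨B 0 0 - (B 0 0 - B 1 1) / (A 0 0 - A 1 1) * A 0 0, (B 0 0 - B 1 1) / (A 0 0 - A 1 1), ?_⟩
      rw [h1] at e2
      rw [h2] at e3
      ext i j
      fin_cases i <;> fin_cases j <;> simp [h1, h2]
      · exact (mul_eq_zero.1 (by linear_combination -e2 : B 0 1 * (A 0 0 - A 1 1) = 0)).resolve_right h3
      · exact (mul_eq_zero.1 (by linear_combination e3 : B 1 0 * (A 0 0 - A 1 1) = 0)).resolve_right h3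
      · field_simp
        ring
    · refine ⟨B 0 0 - B 1 0 / A 1 0 * A 0 0, B 1 0 / A 1 0, ?_⟩
      ext i j
      fin_cases i <;> fin_cases j <;> simp
      · field_simp
        linear_combination e1
      · field_simp
      · field_simp
        linear_combination e3
  · refine ⟨B 0 0 - B 0 1 / A 0 1 * A 0 0, B 0 1 / A 0 1, ?_⟩
    ext i j
    fin_cases i <;> fin_cases j <;> simp
    · field_simp
    · field_simp
      linear_combination -e1
    · field_simp
      linear_combination -e2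

theorem pg_one {A : GL (Fin 2) F} : diagAut (Fin 2) F A = 1 ↔ ∃ c : F, (A : Matrix (Fin 2) (Fin 2) F) = c • 1 := by
  rw [← map_one (diagAut (Fin 2) F), diagAut_eq_iff, Units.val_one]

theorem pg_sq {A : GL (Fin 2) F} : diagAut (Fin 2) F A * diagAut (Fin 2) F A = 1 ↔
    diagAut (Fin 2) F A = 1 ∨ (A : Matrix (Fin 2) (Fin 2) F).trace = 0 := by
  refine ⟨fun h => ?_, fun h => h.elim (fun h => by rw [h, mul_one]) fun h => ?_⟩
  · rw [← map_mul, pg_one, Units.val_mul, pg_ch] at h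
    obtain ⟨c, h⟩ := h
    refine or_iff_not_imp_right.2 fun h0 => pg_one.2 ⟨(trace A.1)⁻¹ * (c + det A.1), ?_⟩
    rw [mul_smul, add_smul, ← sub_eq_iff_eq_add.1 h, smul_smul, inv_mul_cancel₀ h0, one_smul]
  · rw [← map_mul, pg_one, Units.val_mul, pg_ch, h]
    exact ⟨-det A.1, by simp⟩

theorem pg_comm {A Y : GL (Fin 2) F} (hY : (Y : Matrix (Fin 2) (Fin 2) F).trace ≠ 0)
    (h : Commute (diagAut (Fin 2) F A) (diagAut (Fin 2) F Y)) :
    (A : Matrix (Fin 2) (Fin 2) F) * Y = Y * A := by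
  have h1 := h.mul_inv_cancel
  rw [← map_inv, ← map_mul, ← map_mul, diagAut_eq_iff] at h1
  obtain ⟨c, h1⟩ := h1
  have h2 := congrArg trace h1
  rw [Units.val_mul, Units.val_mul, trace_units_conj, trace_smul, smul_eq_mul] at h2
  rw [(mul_eq_right₀ hY).1 h2.symm, one_smul] at h1
  exact congrArg Units.val (mul_inv_eq_iff_eq_mul.1 (Units.ext h1 : A * Y * A⁻¹ = Y))

theorem pg_mat (h2 : (2 : F) ≠ 0) {g T Y : GL (Fin 2) F} (hg : diagAut (Fin 2) F g * diagAut (Fin 2) F g = 1)
    (hT : diagAut (Fin 2) F T * diagAut (Fin 2) F T = 1) (hT1 : diagAut (Fin 2) F T ≠ 1)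
    (hY : diagAut (Fin 2) F Y * diagAut (Fin 2) F Y ≠ 1) (c1 : Commute (diagAut (Fin 2) F g) (diagAut (Fin 2) F Y))
    (c2 : Commute (diagAut (Fin 2) F T) (diagAut (Fin 2) F Y)) :
    diagAut (Fin 2) F g = 1 ∨ diagAut (Fin 2) F g = diagAut (Fin 2) F T := by
  obtain ⟨y1, y2⟩ := not_or.1 (mt pg_sq.2 hY)
  have y3 : ∀ c : F, (Y : Matrix (Fin 2) (Fin 2) F) ≠ c • 1 := fun c e => y1 (pg_one.2 ⟨c, e⟩)
  refine (pg_sq.1 hg).imp_right fun g0 => ?_
  have t0 := (pg_sq.1 hT).resolve_left hT1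
  obtain ⟨a, b, e⟩ := pg_par y3 (pg_comm y2 c1)
  obtain ⟨a', b', e'⟩ := pg_par y3 (pg_comm y2 c2)
  have hb : b' ≠ 0 := fun h => hT1 (pg_one.2 ⟨a', by rw [e', h, zero_smul, add_zero]⟩)
  rw [e] at g0
  rw [e'] at t0
  simp only [trace_add, trace_smul, trace_one, Fintype.card_fin, smul_eq_mul, Nat.cast_ofNat] at g0 t0
  have ha : a = b / b' * a' := by
    field_simp
    exact mul_left_cancel₀ h2 (by linear_combination b' * g0 - b * t0)
  exact diagAut_eq_iff.2 ⟨b / b', by rw [e, e', smul_add, smul_smul, smul_smul, div_mul_cancel₀ _ hb, ha]⟩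

theorem pg_field [Fintype F] (hq : Fintype.card F % 8 = 3 ∨ Fintype.card F % 8 = 5) {σ : F ≃+* F} (h : σ * σ = 1) :
    σ = 1 := by
  classical
  by_contra h1
  have := Fintype.ofFinite (zpowers σ)
  have := Fintype.ofFinite (FixedPoints.subfield (zpowers σ) F)
  have h2 := FixedPoints.finrank_eq_card (zpowers σ) F
  rw [← Nat.card_eq_fintype_card, Nat.card_zpowers, orderOf_eq_prime (p := 2) (by rw [pow_two, h]) h1] at h2
  rw [Module.card_eq_pow_finrank (K := FixedPoints.subfield (zpowers σ) F), h2, Nat.pow_mod] at hq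
  generalize Fintype.card (FixedPoints.subfield (zpowers σ) F) = m at hq
  have : m % 8 < 8 := Nat.mod_lt _ (by norm_num)
  generalize m % 8 = r at hq this
  interval_cases r <;> omega

theorem pg_conj {s : SpecialLinearGroup (Fin 2) F} (h : diagAut (Fin 2) F (SpecialLinearGroup.toGL s) = 1) :
    (QuotientGroup.mk s : ProjectiveSpecialLinearGroup (Fin 2) F) = 1 :=
  (QuotientGroup.eq_one_iff _).2 (mem_center_iff.2 fun x => SpecialLinearGroup.toGL_injective (by
    rw [map_mul, map_mul, mem_center_iff.1 (diagAut_eq_one_iff.1 h)]))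

theorem pg_aut [Fintype F] (hq : Fintype.card F % 8 = 3 ∨ Fintype.card F % 8 = 5)
    {α : MulAut (ProjectiveSpecialLinearGroup (Fin 2) F)} (hα : α * α = 1)
    {τ η : ProjectiveSpecialLinearGroup (Fin 2) F} (t2 : τ * τ = 1) (t1 : τ ≠ 1) (y2 : η * η ≠ 1)
    (c : η * τ = τ * η) (f : α η = η) : α = 1 ∨ α = MulAut.conj τ := by
  have h2 : (2 : F) ≠ 0 := fun h => by
    have := (FiniteField.even_card_iff_char_two (F := F)).1 (CharP.ringChar_of_prime_eq_zero Nat.prime_two (by simpa using h))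
    omega
  obtain ⟨π, hπ, -⟩ := exists_outHom_two (F := F)
  obtain ⟨g, rfl⟩ := mem_inndiagPSL.1 (hπ ▸ pg_field hq (by rw [← map_mul, hα, map_one]) : α ∈ inndiagPSL 2 F)
  obtain ⟨T, rfl⟩ := QuotientGroup.mk_surjective τ
  obtain ⟨Y, rfl⟩ := QuotientGroup.mk_surjective η
  rw [← diagAut_toGL]
  refine pg_mat h2 (Y := SpecialLinearGroup.toGL Y) hα ?_ (fun e => t1 (pg_conj e)) (fun e => y2 ?_) ?_ ?_
  · rw [diagAut_toGL, ← map_mul, t2, map_one]
  · rw [← map_mul, ← map_mul] at e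
    exact pg_conj e
  · rw [diagAut_toGL]
    ext x
    simp only [MulAut.mul_apply, MulAut.conj_apply, map_mul, map_inv, f]
  · rw [diagAut_toGL, diagAut_toGL]
    exact (Commute.map c MulAut.conj).symm

end

theorem pg : PG.{u} := by
  intro G _ _ H q u t y hq ⟨F, _, _, hF, ⟨e⟩⟩ hu u2 ht ot hy y1 oy c _ c'
  let α := MulAut.congr e (H.normalizerMonoidHom ⟨u, hu⟩)
  have hα : ∀ x : H, α (e x) = e ⟨u * x * u⁻¹, conj_mem hu x.2⟩ := fun x => by
    simp only [α, MulAut.congr_apply, MulEquiv.trans_apply, MulEquiv.symm_apply_apply]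
    rfl
  have key := pg_aut (hF ▸ hq) (α := α) (by
      rw [← map_mul, ← map_mul, show (⟨u, hu⟩ * ⟨u, hu⟩ : 𝒩(H)) = 1 from Subtype.ext u2, map_one, map_one])
    (τ := e ⟨t, ht⟩) (η := e ⟨y, hy⟩)
    (by rw [← map_mul, show (⟨t, ht⟩ * ⟨t, ht⟩ : H) = 1 from
      Subtype.ext ((pow_two t).symm.trans (ot ▸ pow_orderOf_eq_one t)), map_one])
    (fun h => by
      rw [show t = 1 from congrArg Subtype.val ((map_eq_one_iff e e.injective).1 h), orderOf_one] at ot
      omega)
    (fun h => by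
      rw [← map_mul] at h
      have h1 : y ^ 2 = 1 := (pow_two y).trans (congrArg Subtype.val ((map_eq_one_iff e e.injective).1 h))
      exact y1 (orderOf_eq_one_iff.1 ((Nat.coprime_two_right.2 oy).eq_one_of_dvd (orderOf_dvd_of_pow_eq_one h1))))
    (by rw [← map_mul, ← map_mul]; exact congrArg e (Subtype.ext c))
    (by rw [hα]; exact congrArg e (Subtype.ext (mul_inv_eq_iff_eq_mul.2 c')))
  rcases key with k | k
  · refine ⟨1, one_mem _, fun x hx => ?_⟩
    have := hα ⟨x, hx⟩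
    rw [k, MulAut.one_apply] at this
    simpa using congrArg Subtype.val (e.injective this).symm
  · refine ⟨t, ht, fun x hx => ?_⟩
    have := hα ⟨x, hx⟩
    rw [k, MulAut.conj_apply, ← map_inv, ← map_mul, ← map_mul] at this
    exact congrArg Subtype.val (e.injective this).symm

end CL.Perm.Sab
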