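/-
Project SAB: an embedding of `PSL₂(q)` in `PSL₂(Q)`, `q ≥ 7` odd, preserves the characteristic.
-/
import Cfsg.Agent.Perm.SabDefs
import Cfsg.Agent.Cls.SL2NormD

set_option autoImplicit false
set_option linter.unusedSectionVars false

namespace CL.Perm.Sab

open Matrix MulAction Cfsg Subgroup CL.GL2 CL.SL2
open CL.Abel2 (IsPSL2 PSL2)
open scoped MatrixGroups

universe u

theorem sc_rot {n p : ℕ} (hp : Odd p) {a : DihedralGroup n} (ha : a ^ p = 1) : ∃ i, a = DihedralGroup.r i := by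
  rcases a with i | i
  · exact ⟨i, rfl⟩
  · obtain ⟨k, rfl⟩ := hp
    rw [pow_succ, pow_mul, pow_two, DihedralGroup.sr_mul_self, one_pow, one_mul] at ha
    cases ha

theorem sc_conj {n : ℕ} (d : DihedralGroup n) (i : ZMod n) :
    d * DihedralGroup.r i * d⁻¹ = DihedralGroup.r i ∨ d * DihedralGroup.r i * d⁻¹ = (DihedralGroup.r i)⁻¹ := by
  rcases d with j | j
  · exact .inl (by simp)
  · exact .inr (by simp)

/-- the root subgroup of `PSL₂` -/
def scU (K : Type) [Field K] : Multiplicative K →* PSL2 K :=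
  MonoidHom.mk' (fun c => ((upT c.toAdd : SL(2, K)) : PSL2 K)) fun a b => by
    rw [← QuotientGroup.mk_mul]
    exact congrArg _ (SpecialLinearGroup.transvection_add _ _ _)

theorem scU_apply {K : Type} [Field K] (c : K) : scU K (.ofAdd c) = ((upT c : SL(2, K)) : PSL(2, K)) := rfl

theorem scU_inj (K : Type) [Field K] : Function.Injective (scU K) := (injective_iff_map_eq_one _).2 fun c h => by
  obtain ⟨r, -, e⟩ := Matrix.SpecialLinearGroup.mem_center_iff.1 ((QuotientGroup.eq_one_iff (upT c.toAdd : SL(2, K))).1 h)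
  have := congrFun (congrFun e 0) 1
  rw [coe_upT] at this
  simpa using this.symm

theorem scU_conj {K : Type} [Field K] (h2 : (2 : K) ≠ 0) :
    ∃ d : PSL2 K, d * scU K (.ofAdd 1) * d⁻¹ = scU K (.ofAdd 1) ^ 4 := by
  refine ⟨(diagSL (Units.mk0 2 h2) : SL(2, K)), ?_⟩
  rw [← map_pow, mul_inv_eq_iff_eq_mul, ← ofAdd_nsmul, scU_apply, scU_apply, ← QuotientGroup.mk_mul,
    ← QuotientGroup.mk_mul]
  congr 1
  apply ext_SL
  rw [coe_mul_SL, coe_mul_SL, coe_upT, coe_upT, coe_diagSL]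
  apply ext2 <;> simp [mul00, mul01, mul10, mul11]
  field_simp
  norm_num

theorem sc : SC.{u} := by
  rintro H L _ _ _ f q Q p e hf ⟨K, _, _, rfl, ⟨eH⟩⟩ ⟨F, _, _, rfl, ⟨eL⟩⟩ hp hq ho - h7
  have := Fact.mk hp
  have := charP_of_card_eq_prime_pow hq
  obtain ⟨l, _, k, hl, hk⟩ := FiniteField.card' F
  have := Fact.mk hl
  by_contra hQ
  have hlp : l ≠ p := by rintro rfl; exact hQ (hk ▸ dvd_pow_self l k.ne_zero)
  have po : Odd p := by
    refine hp.odd_of_ne_two ?_
    rintro rfl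
    rcases e with _ | e
    · omega
    · exact (Nat.not_even_iff_odd.2 ho) (hq ▸ Nat.even_pow.2 ⟨even_two, e.succ_ne_zero⟩)
  let g : PSL2 K →* PSL2 F := (eL.toMonoidHom.comp f).comp eH.symm.toMonoidHom
  have hg : Function.Injective g := (eL.injective.comp hf).comp eH.symm.injective
  let w := g.comp (scU K)
  have hw : Function.Injective w := hg.comp (scU_inj K)
  have wp : ∀ c : Multiplicative K, c ^ p = 1 := fun c => by
    change p • c.toAdd = 0
    rw [nsmul_eq_mul, CharP.cast_eq_zero, zero_mul]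
  have o1 : orderOf (Multiplicative.ofAdd (1 : K)) = p := orderOf_eq_prime (wp _) (by simp)
  have ox : orderOf (w (.ofAdd 1)) = p := (orderOf_injective w hw _).trans o1
  obtain ⟨n, -, -, ⟨φ⟩⟩ := normalizer_psl l (x := w (.ofAdd 1)) fun h =>
    hlp ((Nat.prime_dvd_prime_iff_eq hp hl).1 (ox ▸ orderOf_dvd_of_pow_eq_one h)).symm
  have wN : ∀ c, w c ∈ normalizer (zpowers (w (.ofAdd 1)) : Set PSL(2, F)) := fun c =>
    centralizer_le_normalizer _ (by
      rintro _ ⟨j, rfl⟩
      exact (((Commute.all _ c).map w).zpow_left j).eq)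
  let ψ := φ.toMonoidHom.comp (w.codRestrict _ wN)
  have hψ : Function.Injective ψ := φ.injective.comp fun a b h => hw (congrArg Subtype.val h)
  have rot : ∀ c, ∃ i, ψ c = DihedralGroup.r i := fun c => sc_rot po (by rw [← map_pow, wp, map_one])
  have cyc : IsCyclic (Multiplicative K) := isCyclic_of_injective
    (ψ.codRestrict (zpowers (DihedralGroup.r 1)) fun c => by
      obtain ⟨i, h⟩ := rot c
      obtain ⟨j, rfl⟩ := ZMod.intCast_surjective i
      exact ⟨j, (DihedralGroup.r_one_zpow j).trans h.symm⟩) fun a b h => hψ (congrArg Subtype.val h)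
  have h1 : Nat.card (Multiplicative K) ∣ p := IsCyclic.exponent_eq_card (α := Multiplicative K) ▸
    Monoid.exponent_dvd_of_forall_pow_eq_one wp
  have p7 : 7 ≤ p := h7.trans (Nat.le_of_dvd hp.pos (by simpa using h1))
  obtain ⟨d, hd⟩ := scU_conj (K := K) fun h => by
    have := Nat.le_of_dvd two_pos ((CharP.cast_eq_zero_iff K p 2).1 (by exact_mod_cast h))
    omega
  have hd' : g d * w (.ofAdd 1) * (g d)⁻¹ = w (.ofAdd 1) ^ 4 := by
    have := congrArg g hd
    rwa [map_mul, map_mul, map_inv, map_pow] at this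
  have dN : g d ∈ normalizer (zpowers (w (.ofAdd 1)) : Set PSL(2, F)) :=
    mem_normalizer_fintype (by
      rintro _ ⟨j, rfl⟩
      rw [← conj_zpow, hd']
      exact zpow_mem (pow_mem (mem_zpowers _) 4) j)
  have h2 : φ ⟨_, dN⟩ * ψ (.ofAdd 1) * (φ ⟨_, dN⟩)⁻¹ = ψ (.ofAdd 1) ^ 4 := by
    rw [← map_inv]
    change φ _ * φ _ * φ _ = φ _ ^ 4
    rw [← map_mul, ← map_mul, ← map_pow]
    exact congrArg φ (Subtype.ext hd')
  have o2 : orderOf (ψ (.ofAdd 1)) = p := (orderOf_injective ψ hψ _).trans o1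
  obtain ⟨i, hi⟩ := rot (.ofAdd 1)
  rcases hi ▸ sc_conj (φ ⟨_, dN⟩) i with h | h <;> rw [h2] at h
  · have := Nat.le_of_dvd (by norm_num) (o2 ▸ orderOf_dvd_of_pow_eq_one (n := 3)
      (mul_right_cancel (((pow_succ _ 3).symm.trans h).trans (one_mul _).symm)))
    omega
  · have := Nat.le_of_dvd (by norm_num) (o2 ▸ orderOf_dvd_of_pow_eq_one (n := 5)
      (by rw [pow_succ, h, inv_mul_cancel]))
    omega

end CL.Perm.Sab
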