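/-
Project SAB (S3400): two lemmas on involutory automorphisms of elementary abelian 2-groups.
-/
import Cfsg.Agent.Perm.SabHP

set_option autoImplicit false
set_option linter.unusedSectionVars false

namespace CL.Perm.Sab

open MulAction Cfsg Subgroup CL.Perm.V4 CL.Perm.V4D CL.Perm.Kos CL.Even CL.Grp

universe u

variable {G : Type u} [Group G] [Finite G] {T : Subgroup G} {w : G}

theorem sf_comm (sq : ∀ t ∈ T, t * t = 1) {a b : G} (ha : a ∈ T) (hb : b ∈ T) : a * b = b * a := by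
  have i : ∀ x ∈ T, x⁻¹ = x := fun x hx => inv_eq_of_mul_eq_one_right (sq x hx)
  rw [← i _ (mul_mem ha hb), mul_inv_rev, i a ha, i b hb]

/-- the commutator map of `w` on `T` -/
theorem sf_phi (sq : ∀ t ∈ T, t * t = 1) (hw : w ∈ 𝒩(T)) (ww : w * w ∈ T) : ∃ R : Subgroup G, R ≤ T ⊓ Ce w ∧
    Nat.card ↥(T ⊓ Ce w) * Nat.card R = Nat.card T ∧ ∀ x ∈ T, ∃ a ∈ R, w * x * w⁻¹ = x * a := by
  have n : ∀ x ∈ T, w * x * w⁻¹ ∈ T := fun x hx => (mem_normalizer_iff.1 hw x).1 hx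
  let φ : T →* G := MonoidHom.mk' (fun x => x * (w * x * w⁻¹)) fun a b => by
    rw [coe_mul, show w * (a * b) * w⁻¹ = w * a * w⁻¹ * (w * b * w⁻¹) by group, mul_assoc (a : G), ← mul_assoc (b : G),
      sf_comm sq b.2 (n _ a.2)]
    simp only [mul_assoc]
  have k : φ.ker = (T ⊓ Ce w).subgroupOf T := by
    ext x
    rw [MonoidHom.mem_ker, mem_subgroupOf, mem_inf, mem_Ce, and_iff_right x.2]
    change (x : G) * (w * x * w⁻¹) = 1 ↔ _
    rw [← sq x x.2, mul_left_cancel_iff, mul_inv_eq_iff_eq_mul, eq_comm]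
  refine ⟨φ.range, ?_, ?_, fun x hx => ⟨_, ⟨⟨x, hx⟩, rfl⟩, ?_⟩⟩
  · rintro _ ⟨x, rfl⟩
    refine ⟨mul_mem x.2 (n _ x.2), mem_Ce.2 ?_⟩
    change (x : G) * (w * x * w⁻¹) * w = w * (x * (w * x * w⁻¹))
    rw [show w * (x * (w * x * w⁻¹)) = w * x * w⁻¹ * (w * w * x) * w⁻¹ by group, ← sf_comm sq x.2 ww,
      sf_comm sq x.2 (n _ x.2)]
    group
  · rw [← index_ker, ← φ.ker.card_mul_index, k, Nat.card_congr (subgroupOfEquivOfLe inf_le_left).toEquiv]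
  · change _ = x * (x * (w * x * w⁻¹))
    rw [← mul_assoc, sq x hx, one_mul]

theorem sf_lt (h : ¬ ∀ t ∈ T, w * t = t * w) : Nat.card ↥(T ⊓ Ce w) < Nat.card T :=
  (card_le_of_le inf_le_left).lt_of_ne fun e => h fun t ht =>
    (mem_Ce.1 ((eq_of_le_of_card_ge inf_le_left e.ge).ge ht).2).symm

theorem sf_count {Z K : Subgroup G} {e : G} (e1 : e ≠ 1) (tr : ∀ t ∈ K, t ≠ 1 → ∃ y ∈ Z, y * e * y⁻¹ = t) :
    {y | y ∈ Z ∧ y * e * y⁻¹ ∈ K}.ncard =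
      {y | y ∈ Z ∧ y * e * y⁻¹ = e}.ncard * {x : G | x ∈ K ∧ x ≠ 1}.ncard := by
  refine ncard_eq_mul_fib (fun y => y * e * y⁻¹) _ (Set.toFinite _) _ (fun y hy => ⟨hy.2, fun k => e1 ?_⟩) ?_
  · simpa using k
  rintro t ⟨ht, t1⟩
  obtain ⟨y, hy, rfl⟩ := tr t ht t1
  rw [← Set.ncard_image_of_injective _ (mul_right_injective y⁻¹)]
  congr 1
  ext z
  constructor
  · rintro ⟨x, ⟨⟨hx, -⟩, k'⟩, rfl⟩
    exact ⟨mul_mem (inv_mem hy) hx, by
      rw [show y⁻¹ * x * e * (y⁻¹ * x)⁻¹ = y⁻¹ * (x * e * x⁻¹) * y by group, k']; group⟩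
  · rintro ⟨h1, h2⟩
    have k' : y * z * e * (y * z)⁻¹ = y * e * y⁻¹ := by
      rw [show y * z * e * (y * z)⁻¹ = y * (z * e * z⁻¹) * y⁻¹ by group, h2]
    exact ⟨y * z, ⟨⟨mul_mem hy h1, k' ▸ ht⟩, k'⟩, by simp⟩

theorem sf : SF.{u} := by
  intro G _ _ T Z w sq hZ hw hwZ ww nc
  obtain ⟨R, hR, c, -⟩ := sf_phi sq hw ww
  have lt := sf_lt nc
  have le := card_le_of_le hR
  have p : 0 < Nat.card R := Nat.card_pos
  have r2 : 2 ≤ Nat.card R := by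
    by_contra k
    rw [show Nat.card R = 1 by omega] at c; omega
  obtain ⟨e, he, e1⟩ : ∃ e ∈ T ⊓ Ce w, e ≠ 1 := by
    by_contra! k
    rw [(eq_bot_iff_forall _).2 k, card_bot] at le; omega
  have n : ∀ z ∈ Z, ∀ x ∈ T, z * x * z⁻¹ ∈ T := fun z hz x hx => (mem_normalizer_iff.1 (hZ.norm hz) x).1 hx
  have n' : ∀ z ∈ Z, w * z * w⁻¹ ∈ Z := fun z hz => (mem_normalizer_iff.1 hwZ z).1 hz
  let Z1 : Subgroup G :=
    { carrier := {z | z ∈ Z ∧ ∀ t ∈ T, z * t * z⁻¹ = w * z * w⁻¹ * t * (w * z * w⁻¹)⁻¹}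
      one_mem' := ⟨one_mem _, by simp⟩
      mul_mem' := fun {a b} ha hb => ⟨mul_mem ha.1 hb.1, fun t ht => by
        rw [show a * b * t * (a * b)⁻¹ = a * (b * t * b⁻¹) * a⁻¹ by group, ha.2 _ (n b hb.1 t ht), hb.2 t ht]; group⟩
      inv_mem' := fun {a} ha => ⟨inv_mem ha.1, fun t ht => by
        have := ha.2 _ (n _ (inv_mem ha.1) t ht)
        rw [show a * (a⁻¹ * t * a⁻¹⁻¹) * a⁻¹ = t by group] at this
        conv_rhs => rw [this]
        group⟩ }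
  have we : w * e * w⁻¹ = e := by rw [← mem_Ce.1 he.2, mul_inv_cancel_right]
  have z1 : {y | y ∈ Z ∧ y * e * y⁻¹ ∈ T ⊓ Ce w} = (Z1 : Set G) := Set.ext fun z => and_congr_right fun hz => by
    have k : w * (z * e * z⁻¹) * w⁻¹ = w * z * w⁻¹ * e * (w * z * w⁻¹)⁻¹ := by
      conv_rhs => rw [← we]
      group
    refine ⟨fun h t ht => ?_, fun h => ⟨n z hz e he.1, mem_Ce.2 ?_⟩⟩
    · have := mem_centralizer_iff.1 (hZ.reg _ (mul_mem (inv_mem hz) (n' z hz)) e he.1 e1 (by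
        rw [show z⁻¹ * (w * z * w⁻¹) * e * (z⁻¹ * (w * z * w⁻¹))⁻¹ = z⁻¹ * (w * z * w⁻¹ * e * (w * z * w⁻¹)⁻¹) * z
          by group, ← k, ← mem_Ce.1 h.2]; group)) t ht
      rw [show w * z * w⁻¹ * t = z * (z⁻¹ * (w * z * w⁻¹) * t) by group, ← this]; group
    · rw [← mul_inv_eq_iff_eq_mul.1 (k.trans (h e he.1).symm)]
  have a1 := sf_count (K := T) e1 fun t ht t1 => hZ.trans e he.1 t ht e1 t1
  have a2 := sf_count (K := T ⊓ Ce w) e1 fun t ht t1 => hZ.trans e he.1 t ht.1 e1 t1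
  rw [show {y | y ∈ Z ∧ y * e * y⁻¹ ∈ T} = (Z : Set G) from Set.ext fun z => and_iff_left_of_imp fun hz =>
    n z hz e he.1, ← Nat.card_coe_set_eq] at a1
  rw [z1, ← Nat.card_coe_set_eq] at a2
  have d : Nat.card (Z1 : Set G) ∣ Nat.card (Z : Set G) := card_dvd_of_le fun z hz => hz.1
  have q : 0 < {y | y ∈ Z ∧ y * e * y⁻¹ = e}.ncard := (Set.ncard_pos).2 ⟨1, one_mem _, by simp⟩
  rw [a1, a2, Nat.mul_dvd_mul_iff_left q] at d
  have n1 := hp_ncard T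
  have n2 := hp_ncard (T ⊓ Ce w)
  generalize {x : G | x ∈ T ⊓ Ce w ∧ x ≠ 1}.ncard = a at d n2
  obtain ⟨b, hb⟩ : ∃ b, Nat.card R = b + 1 := ⟨Nat.card R - 1, by omega⟩
  rw [show {x : G | x ∈ T ∧ x ≠ 1}.ncard = a * (b + 1) + b by rw [← n2, hb] at c; nlinarith] at d
  have := Nat.le_of_dvd (by omega) ((Nat.dvd_add_right (dvd_mul_right a _)).1 d)
  rw [← c, pow_two, show Nat.card R = Nat.card ↥(T ⊓ Ce w) by omega]

theorem sj : SJ.{u} := by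
  intro G _ _ H T w h c8 hwH hw ww
  by_contra nc
  have sq := h.sq
  obtain ⟨R, hR, c, hφ⟩ := sf_phi sq hw ww
  have lt := sf_lt nc
  have le := card_le_of_le hR
  have c4 : Nat.card ↥(T ⊓ Ce w) = 4 ∧ Nat.card R = 2 := by
    rw [c8] at c lt
    generalize Nat.card ↥(T ⊓ Ce w) = a at c lt le
    generalize Nat.card R = b at c le
    interval_cases a <;> omega
  obtain ⟨t, ⟨ht, t1⟩, ut⟩ : ∃! t, t ∈ R ∧ t ≠ 1 := by
    have := hp_ncard R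
    obtain ⟨t, e⟩ := Set.ncard_eq_one.1 (by omega : {x : G | x ∈ R ∧ x ≠ 1}.ncard = 1)
    exact ⟨t, e.ge rfl, fun y hy => e.le hy⟩
  obtain ⟨p, hp, p1, pt⟩ : ∃ p ∈ T ⊓ Ce w, p ≠ 1 ∧ p ≠ t := by
    by_contra! k
    have := hp_ncard (T ⊓ Ce w)
    have := Set.ncard_le_ncard (s := {x : G | x ∈ T ⊓ Ce w ∧ x ≠ 1}) (t := {t}) fun x hx => k x hx.1 hx.2
    rw [Set.ncard_singleton] at this; omega
  obtain ⟨n, hn, nT, e⟩ := h.trans t (hR ht).1 p hp.1 t1 p1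
  have f0 : ∀ a ∈ T ⊓ Ce w, w * a * w⁻¹ = a := fun a ha => by rw [← mem_Ce.1 ha.2, mul_inv_cancel_right]
  have f1 : ∀ x ∈ T, w * x * w⁻¹ = x ∨ w * x * w⁻¹ = x * t := fun x hx => by
    obtain ⟨a, ha, k⟩ := hφ x hx
    by_cases a1 : a = 1
    · exact .inl (by rw [k, a1, mul_one])
    · exact .inr (by rw [k, ut a ⟨ha, a1⟩])
  obtain ⟨v, hv⟩ : ∃ v, v = n * w * n⁻¹ := ⟨_, rfl⟩
  have f2 : ∀ x ∈ T, v * x * v⁻¹ = x ∨ v * x * v⁻¹ = x * p := fun x hx => by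
    have k : v * x * v⁻¹ = n * (w * (n⁻¹ * x * n⁻¹⁻¹) * w⁻¹) * n⁻¹ := by rw [hv]; group
    exact (f1 _ ((mem_normalizer_iff.1 (inv_mem nT) x).1 hx)).imp (fun k' => by rw [k, k']; group)
      fun k' => by rw [k, k', ← e]; group
  have f3 : v * p * v⁻¹ = p := by
    rw [hv, ← e, show n * w * n⁻¹ * (n * t * n⁻¹) * (n * w * n⁻¹)⁻¹ = n * (w * t * w⁻¹) * n⁻¹ by group, f0 t (hR ht)]
  obtain ⟨r, hr⟩ : ∃ r, r = w * v := ⟨_, rfl⟩
  have cr : ∀ x, r * x * r⁻¹ = w * (v * x * v⁻¹) * w⁻¹ := fun x => by rw [hr]; group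
  have cm : ∀ g x y : G, g * (x * y) * g⁻¹ = g * x * g⁻¹ * (g * y * g⁻¹) := fun g x y => by group
  have g1 : ∀ x ∈ T, ∃ a ∈ T ⊓ Ce w, r * x * r⁻¹ = x * a := fun x hx => by
    obtain ⟨a, ha, k⟩ := hφ x hx
    rcases f2 x hx with k' | k'
    · exact ⟨a, hR ha, by rw [cr, k', k]⟩
    · exact ⟨a * p, mul_mem (hR ha) hp, by rw [cr, k', cm, k, f0 p hp, mul_assoc]⟩
  have g3 : r * p * r⁻¹ = p := by rw [cr, f3, f0 p hp]
  have g2 : ∀ x ∈ T, r * r * x * (r * r)⁻¹ = x ∨ r * r * x * (r * r)⁻¹ = x * p := fun x hx => by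
    obtain ⟨a, ha, k⟩ := g1 x hx
    have k' : r * r * x * (r * r)⁻¹ = x * a * (w * (v * a * v⁻¹) * w⁻¹) := by
      rw [← cr, ← k, ← cm, ← k]; group
    exact (f2 a ha.1).imp (fun e => by rw [k', e, f0 a ha, mul_assoc, sq a ha.1, mul_one]) fun e => by
      rw [k', e, f0 _ (mul_mem ha hp), mul_assoc, ← mul_assoc a, sq a ha.1, one_mul]
  have rH : r ∈ H := by
    rw [hr, hv, show w * (n * w * n⁻¹) = w * n * w⁻¹ * (w * w) * n⁻¹ by group]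
    exact mul_mem (mul_mem ((mem_normalizer_iff.1 hwH n).1 hn) (h.syl.le ww)) (inv_mem hn)
  have rT : r ∈ 𝒩(T) := by rw [hr, hv]; exact mul_mem hw (mul_mem (mul_mem nT hw) (inv_mem nT))
  have r4 : r * r * (r * r) ∈ T := h.cent _ (mul_mem (mul_mem rH rH) (mul_mem rH rH)) fun x hx => by
    rw [← mul_inv_eq_iff_eq_mul,
      show r * r * (r * r) * x * (r * r * (r * r))⁻¹ = r * r * (r * r * x * (r * r)⁻¹) * (r * r)⁻¹ by group]
    rcases g2 x hx with k | k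
    · rw [k, k]
    · rw [k, cm, k, show r * r * p * (r * r)⁻¹ = r * (r * p * r⁻¹) * r⁻¹ by group, g3, g3, mul_assoc, sq p hp.1, mul_one]
  have rT' : r ∈ T := (h.syl.eq_of_le (isPGroup_sup (isPGroup_zpowers (k := 3) (by
    rw [← sq _ r4]; norm_num [pow_succ, mul_assoc])) h.syl.isPGroup (zpowers_le.2 rT)) le_sup_right
      (sup_le (zpowers_le.2 rH) h.syl.le)).le (mem_sup_left (mem_zpowers r))
  refine nc fun x hx => mul_inv_eq_iff_eq_mul.1 ((f1 x hx).resolve_right fun k => ?_)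
  have k0 := cr x
  rw [sf_comm sq rT' hx, mul_inv_cancel_right] at k0
  rcases f2 x hx with k' | k'
  · exact t1 (by simpa [k', k] using k0)
  · rw [k', cm, k, f0 p hp, mul_assoc, left_eq_mul] at k0
    exact pt (mul_left_cancel (k0.trans (sq t (hR ht).1).symm))

end CL.Perm.Sab
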