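/-
Doubly transitive groups with a simple two-point stabiliser: a fusion lemma.
-/
import Cfsg.Agent.Perm.SabDefs

set_option autoImplicit false
set_option linter.unusedSectionVars false

namespace CL.Perm.Sab

open MulAction Cfsg Subgroup CL.Perm.V4 CL.Perm.V4D CL.Perm.Kos CL.Even CL.Grp

universe u

variable {G : Type u} [Group G]

theorem tb_comm {E : Subgroup G} (h : ∀ t ∈ E, t * t = 1) {a b : G} (ha : a ∈ E) (hb : b ∈ E) : a * b = b * a := by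
  rw [← inv_eq_of_mul_eq_one_right (h _ (mul_mem ha hb)), mul_inv_rev, inv_eq_of_mul_eq_one_right (h a ha),
    inv_eq_of_mul_eq_one_right (h b hb)]

theorem tb_idx [Finite G] {K L : Subgroup G} (h : ∀ a ∈ L, ∀ b ∈ L, a ∉ K → b ∉ K → a * b ∈ K) :
    Nat.card L ≤ 2 * Nat.card (K ⊓ L : Subgroup G) := by
  have h2 : K.relIndex L ∣ 2 := by
    rw [relIndex_dvd_two_iff]
    by_cases hL : L ≤ K
    · exact ⟨1, one_mem _, fun b hb => Or.inr (hL hb)⟩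
    · obtain ⟨a, ha, ha'⟩ := SetLike.not_le_iff_exists.1 hL
      exact ⟨a, ha, fun b hb => (em (b ∈ K)).elim Or.inr fun hb' => Or.inl (h b hb a ha hb' ha')⟩
  rw [← (K.subgroupOf L).index_mul_card, ← inf_subgroupOf_right,
    Nat.card_congr (subgroupOfEquivOfLe (inf_le_right (a := K))).toEquiv, inf_subgroupOf_right]
  exact Nat.mul_le_mul_right _ (Nat.le_of_dvd two_pos h2)

theorem tb_surj [Finite G] {T : Subgroup G} {u y : G} (sq : ∀ t ∈ T, t * t = 1) (hu : u ∈ 𝒩(T)) (u2 : u * u = 1)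
    (hc : Nat.card ↥(T ⊓ Ce u) ^ 2 = Nat.card T) (hy : y ∈ T ⊓ Ce u) : ∃ x ∈ T, x * u * x⁻¹ = y * u := by
  let φ : T →* G := MonoidHom.mk' (fun x => x * (u * x * u⁻¹)) fun a b => by
    rw [coe_mul, ← conj_mul, mul_assoc (a : G), mul_assoc (a : G), ← mul_assoc (b : G), tb_comm sq b.2 (conj_mem hu a.2),
      mul_assoc _ (b : G)]
  have h1 : φ.range ≤ T ⊓ Ce u := by
    rintro _ ⟨x, rfl⟩
    refine ⟨mul_mem x.2 (conj_mem hu x.2), mem_Ce.2 ?_⟩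
    change x * (u * x * u⁻¹) * u = u * (x * (u * x * u⁻¹))
    nth_rw 2 [tb_comm sq x.2 (conj_mem hu x.2)]
    rw [inv_eq_of_mul_eq_one_right u2]
    simp only [← mul_assoc, u2, one_mul]
    rw [mul_assoc _ u u, u2, mul_one]
  have h2 : φ.ker ≤ (T ⊓ Ce u).subgroupOf T := fun x hx => ⟨x.2, mem_Ce.2 (mul_inv_eq_iff_eq_mul.1
    ((eq_inv_of_mul_eq_one_right hx).trans (inv_eq_of_mul_eq_one_right (sq x x.2)))).symm⟩
  have h3 := card_le_of_le h2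
  rw [Nat.card_congr (subgroupOfEquivOfLe inf_le_left).toEquiv] at h3
  have h4 := φ.ker.index_mul_card
  rw [index_ker, ← hc] at h4
  have h5 := Nat.card_pos (α := ↥(T ⊓ Ce u))
  obtain ⟨x, rfl⟩ := (eq_of_le_of_card_ge h1 (by nlinarith)).ge hy
  exact ⟨x, x.2, by rw [inv_eq_of_mul_eq_one_right (sq x x.2)]; simp [φ, mul_assoc]⟩

theorem tb_B {T : Subgroup G} {u : G} (sq : ∀ t ∈ T, t * t = 1) (u2 : u * u = 1) :
    ∃ B : Subgroup G, (∀ x, x ∈ B ↔ x ∈ T ⊓ Ce u ∨ x * u ∈ T ⊓ Ce u) ∧ (∀ x ∈ B, x * x = 1) ∧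
      ∀ a ∈ B, ∀ b ∈ B, a ∉ T → b ∉ T → a * b ∈ T ⊓ Ce u := by
  have e : ∀ {a b : G}, b * u ∈ T ⊓ Ce u → a * u * (b * u) = a * b := fun {a b} h => by
    rw [mul_assoc, ← mem_Ce.1 h.2, mul_assoc b, u2, mul_one]
  have s : ∀ x, x ∈ T ⊓ Ce u ∨ x * u ∈ T ⊓ Ce u → x * x = 1 := fun x h =>
    h.elim (fun h => sq x h.1) fun h => (e h).symm.trans (sq _ h.1)
  refine ⟨⟨⟨⟨{x | x ∈ T ⊓ Ce u ∨ x * u ∈ T ⊓ Ce u}, ?_⟩, Or.inl (one_mem _)⟩, fun {x} h => ?_⟩, fun _ => Iff.rfl, s,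
    fun a ha b hb h1 h2 => e (hb.resolve_left fun h => h2 h.1) ▸
      mul_mem (ha.resolve_left fun h => h1 h.1) (hb.resolve_left fun h => h2 h.1)⟩
  · rintro a b (ha | ha) (hb | hb)
    exacts [Or.inl (mul_mem ha hb), Or.inr (mul_assoc a b u ▸ mul_mem ha hb),
      Or.inr (by rw [mul_assoc, mem_Ce.1 hb.2, ← mul_assoc]; exact mul_mem ha hb), Or.inl (e hb ▸ mul_mem ha hb)]
  · rwa [inv_eq_of_mul_eq_one_right (s x h)]

theorem tb : TB.{u} := by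
  intro G _ _ T S u sq hS TS uS uT u2 hw hc h4 hconj
  have := Fact.mk Nat.prime_two
  obtain ⟨B, mB, sB, iB⟩ := tb_B sq u2
  have uB : u ∈ B := (mB u).2 (Or.inr (u2 ▸ one_mem _))
  have pg : ∀ {E : Subgroup G}, (∀ x ∈ E, x * x = 1) → IsPGroup 2 E := fun h =>
    isPGroup_iff_forall.2 fun x hx => ⟨1, by rw [pow_one, pow_two, h x hx]⟩
  have sc : ∀ (g : G) {E : Subgroup G}, (∀ x ∈ E, x * x = 1) → ∀ x ∈ cj g E, x * x = 1 := fun g E h => by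
    rintro _ ⟨x, hx, rfl⟩
    rw [← map_mul, h x hx, map_one]
  have inv : ∀ w ∈ S, w * w = 1 → w ∉ T → w * u ∈ T ⊓ Ce u := fun w h1 h2 h3 => by
    have h := (hw w h1 (h2 ▸ one_mem _)).resolve_left h3
    refine ⟨h, mem_Ce.2 ?_⟩
    have e := inv_eq_of_mul_eq_one_right (sq _ h)
    rw [mul_inv_rev, inv_eq_of_mul_eq_one_right u2, inv_eq_of_mul_eq_one_right h2] at e
    rw [← mul_assoc, e]
  have ct : ∀ {w t : G}, w * u ∈ T → t ∈ T → w * t = t * w → t ∈ T ⊓ Ce u := fun {w t} h1 h2 h3 =>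
    ⟨h2, mem_Ce.2 (mul_left_cancel (a := w) (by rw [← mul_assoc, h3, mul_assoc, tb_comm sq h2 h1, mul_assoc]))⟩
  have sub : ∀ E ≤ S, (∀ x ∈ E, x * x = 1) → E ≤ T ∨ E ≤ B := fun E h1 h2 => by
    refine or_iff_not_imp_left.2 fun h x hx => (mB x).2 ?_
    obtain ⟨e, he, h3⟩ := SetLike.not_le_iff_exists.1 h
    by_cases hT : x ∈ T
    exacts [Or.inl (ct (inv e (h1 he) (h2 e he) h3).1 hT (tb_comm h2 he hx)), Or.inr (inv x (h1 hx) (h2 x hx) hT)]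
  have half : ∀ E ≤ B, Nat.card E ≤ 2 * Nat.card (T ⊓ Ce u ⊓ E : Subgroup G) := fun E h => tb_idx fun a ha b hb h1 h2 => by
    have k : ∀ x ∈ E, x ∉ T ⊓ Ce u → x ∉ T := fun x hx h3 h5 =>
      uT ((mul_mem_cancel_left h5).1 (((mB x).1 (h hx)).resolve_left h3).1)
    exact iB a (h ha) b (h hb) (k a ha h1) (k b hb h2)
  have wc : ∀ g, cj g T ≤ S → cj g T = T := fun g h => (sub _ h (sc g sq)).elim
    (eq_of_le_of_card_ge · (card_cj g T).ge) fun h => by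
      have h1 := (half _ h).trans (Nat.mul_le_mul_left 2 (card_le_of_le inf_le_left))
      rw [card_cj, ← hc] at h1
      nlinarith
  have top : IsSylowIn 2 S ⊤ := by
    obtain ⟨P, hP, h1⟩ := exists_isSylowIn_ge hS.isPGroup le_top
    rwa [h1.eq_or_lt.resolve_right fun h => (lt_inf_normalizer_of_isPGroup hP.isPGroup h).ne' (hS.eq_of_le
      hP.isPGroup.to_inf_left (le_inf h1 le_normalizer) fun g hg => cj_eq_iff_mem.1 (wc g (cj_le_of_le TS hg.2)))]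
  have cu : ∀ s ∈ S, s * u * s⁻¹ * u ∈ T ⊓ Ce u := fun s hs =>
    inv _ (mul_mem (mul_mem hs uS) (inv_mem hs)) (by rw [conj_mul, u2]; simp) fun h => uT (by
      simpa [mul_assoc] using conj_mem' (hS.le hs) h)
  have c0 : ∀ s ∈ S, ∀ t ∈ T ⊓ Ce u, s * t * s⁻¹ ∈ T ⊓ Ce u := fun s hs t ht =>
    ct (cu s hs).1 (conj_mem (hS.le hs) ht.1) (by rw [conj_mul, conj_mul, mem_Ce.1 ht.2])
  have n0 : S ≤ 𝒩(T ⊓ Ce u) := le_norm_of_cj_le fun s hs => by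
    rintro _ ⟨t, ht, rfl⟩
    exact c0 s hs t ht
  have nB : S ≤ 𝒩(B) := le_norm_of_cj_le fun s hs => by
    rintro _ ⟨b, hb, rfl⟩
    refine (mB _).2 (((mB b).1 hb).imp (c0 s hs b) fun h => ?_)
    have := mul_mem (c0 s hs _ h) (cu s hs)
    rwa [← mul_assoc, conj_mul, mul_assoc b, u2, mul_one] at this
  have ci : ∀ x ∈ 𝒩(T ⊓ Ce u), x * x = 1 → x ∈ 𝒞(T ⊓ Ce u) := fun x hx x2 => by
    obtain ⟨d, h1, h2⟩ := syl_conj_le (top.of_le n0 le_top) (isPGroup_zpowers (x := x) (k := 1)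
      (by rwa [pow_one, pow_two])) (zpowers_le.2 hx)
    have h3 := h2 (conj_mem_cj d (mem_zpowers x))
    have h5 : d * x * d⁻¹ ∈ 𝒞(T ⊓ Ce u) := fun t ht => by
      by_cases h : d * x * d⁻¹ ∈ T
      · exact tb_comm sq ht.1 h
      · exact tb_comm sB ((mB t).2 (Or.inl ht)) ((mB _).2 (Or.inr (inv _ h3 (by rw [conj_mul, x2]; simp) h)))
    simpa [mul_assoc] using conj_mem' (norm_le_norm_cent _ h1) h5
  obtain ⟨z, ⟨zT, zc⟩, z1⟩ := (bot_or_exists_ne_one _).resolve_left (inf_cent_ne_bot (pg sq) hS.isPGroup hS.le fun e => by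
    rw [e, bot_inf_eq, card_bot] at h4; omega)
  obtain ⟨g, rfl, hg⟩ : ∃ g, g * u * g⁻¹ = z ∧ cj g B ≤ S := by
    obtain ⟨c, e⟩ := isConj_iff.1 (hconj z zT z1).symm
    obtain ⟨k, h1, h2⟩ := syl_conj_le (top.of_le (K := Ce z) (fun s hs => mem_Ce.2 (zc s hs)) le_top)
      (pg (sc c sB)) fun x hx => mem_Ce.2 (tb_comm (sc c sB) hx (e ▸ conj_mem_cj c uB))
    refine ⟨k * c, ?_, cj_mul k c B ▸ h2⟩
    rw [show k * c * u * (k * c)⁻¹ = k * (c * u * c⁻¹) * k⁻¹ by group, e, mem_Ce.1 h1, mul_inv_cancel_right]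
  have lB : T ⊓ Ce u ≤ B := fun t ht => (mB t).2 (Or.inl ht)
  rcases sub _ hg (sc g sB) with h | h
  · replace h := cj_le_iff.1 h
    obtain ⟨d, h1, h2⟩ := syl_conj_le (top.of_le nB le_top) (pg (sc g⁻¹ sq))
      fun x hx => cent_le_norm B fun b hb => tb_comm (sc g⁻¹ sq) (h hb) hx
    have h3 := cj_mono d h
    rw [← cj_mul] at h2 h3
    rw [wc _ h2, cj_eq h1] at h3
    exact uT (h3 uB)
  · replace h := (cj_mono g lB).trans h
    obtain ⟨β, h1, h2⟩ := SetLike.not_le_iff_exists.1 fun e : cj g (T ⊓ Ce u) ≤ T ⊓ Ce u => uT (by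
      simpa [mul_assoc] using (mem_cj.1 ((eq_of_le_of_card_ge e (card_cj g _).ge).ge ⟨zT, mem_Ce.2 (zc u uS).symm⟩)).1)
    obtain ⟨y, ⟨h3, h5⟩, y1⟩ := (bot_or_exists_ne_one (T ⊓ Ce u ⊓ cj g (T ⊓ Ce u))).resolve_left fun e => by
      have := half _ h
      rw [e, card_bot, card_cj] at this
      omega
    obtain ⟨x, hx, e⟩ := tb_surj sq (hS.le uS) u2 hc h3
    have k : ∀ b ∈ cj g (T ⊓ Ce u), b ∉ T ⊓ Ce u → x * b * x⁻¹ = y * b := fun b hb h6 => by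
      have h7 := ((mB b).1 (h hb)).resolve_left h6
      obtain ⟨t, rfl⟩ : ∃ t, t * u = b := ⟨b * u, by rw [mul_assoc, u2, mul_one]⟩
      rw [mul_assoc, u2, mul_one] at h7
      rw [← mul_assoc, tb_comm sq hx h7.1, mul_assoc t, mul_assoc t, e, ← mul_assoc, tb_comm sq h7.1 h3.1, mul_assoc]
    have h6 : x ∈ 𝒩(cj g (T ⊓ Ce u)) := mem_norm_of_cj_le (by
      rintro _ ⟨b, hb, rfl⟩
      change x * b * x⁻¹ ∈ _
      by_cases h7 : b ∈ T ⊓ Ce u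
      · rwa [tb_comm sq hx h7.1, mul_inv_cancel_right]
      · exact k b hb h7 ▸ mul_mem h5 hb)
    rw [← cj_norm] at h6
    have h7 := conj_mem_cj g (ci _ (mem_cj.1 h6) (sc g⁻¹ sq _ (by simpa using conj_mem_cj g⁻¹ hx)))
    rw [cj_cent, show g * (g⁻¹ * x * g) * g⁻¹ = x by group] at h7
    exact y1 (mul_right_cancel ((k β h1 h2).symm.trans ((conj_eq_of_mem h7 h1).trans (one_mul β).symm)))

end CL.Perm.Sab
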