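/-
Project SAXL: reduction of S3255 to the propositions `Core` and `Core2`.
-/
import Cfsg.Agent.Perm.SaxlDefs
import Cfsg.Agent.Perm.Tuples
import Cfsg.Agent.S0699
import Cfsg.Statements.S3255

set_option autoImplicit false

namespace CL.Perm.Saxl

open Subgroup Equiv CL.Even CL.Grp

universe u v

section
variable {Ω : Type*}

/-- two-point stabiliser -/
def red_St (H : Subgroup (Perm Ω)) (a b : Ω) : Subgroup (Perm Ω) :=
  H ⊓ MulAction.stabilizer (Perm Ω) a ⊓ MulAction.stabilizer (Perm Ω) b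

theorem red_mem {H : Subgroup (Perm Ω)} {a b : Ω} {g : Perm Ω} :
    g ∈ red_St H a b ↔ g ∈ H ∧ g a = a ∧ g b = b := by
  simp only [red_St, mem_inf, MulAction.mem_stabilizer_iff, Perm.smul_def, and_assoc]

theorem red_cj {H : Subgroup (Perm Ω)} {g : Perm Ω} (hg : g ∈ 𝒩(H)) (a b : Ω) :
    cj g (red_St H a b) = red_St H (g a) (g b) := by
  ext x
  rw [mem_cj, red_mem, red_mem, ← mem_cj, cj_eq hg]
  simp only [Perm.mul_apply, Perm.inv_eq_iff_eq]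

theorem red_t3_iff {G : Subgroup (Perm Ω)} : T3 G ↔ MulAction.IsMultiplyPretransitive G Ω 3 := by
  rw [three_pretransitive_iff]
  constructor
  · intro h a b c a' b' c' h1 h2 h3 h4 h5 h6
    obtain ⟨g, hg, e⟩ := h a b c a' b' c' h1 h2 h3 h4 h5 h6
    exact ⟨⟨g, hg⟩, e⟩
  · intro h a b c a' b' c' h1 h2 h3 h4 h5 h6
    obtain ⟨g, e⟩ := h a b c a' b' c' h1 h2 h3 h4 h5 h6
    exact ⟨g, g.2, e⟩

theorem red_t3_mono {G G' : Subgroup (Perm Ω)} (h : T3 G) (hG : G ≤ G') : T3 G' :=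
  fun a b c a' b' c' h1 h2 h3 h4 h5 h6 =>
    let ⟨g, hg, e⟩ := h a b c a' b' c' h1 h2 h3 h4 h5 h6
    ⟨g, hG hg, e⟩

theorem red_symm {H : Subgroup (Perm Ω)} {a b c c' : Ω} (h : Rel H a b c c') : Rel H a b c' c := by
  obtain ⟨g, hg, e1, e2, e3⟩ := h
  exact ⟨g⁻¹, inv_mem hg, by rw [Perm.inv_eq_iff_eq, e1], by rw [Perm.inv_eq_iff_eq, e2],
    by rw [Perm.inv_eq_iff_eq, e3]⟩

theorem red_trans {H : Subgroup (Perm Ω)} {a b c c' c'' : Ω} (h : Rel H a b c c') (h' : Rel H a b c' c'') :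
    Rel H a b c c'' := by
  obtain ⟨g, hg, e1, e2, e3⟩ := h
  obtain ⟨g', hg', f1, f2, f3⟩ := h'
  exact ⟨g' * g, mul_mem hg' hg, by rw [Perm.mul_apply, e1, f1], by rw [Perm.mul_apply, e2, f2],
    by rw [Perm.mul_apply, e3, f3]⟩

theorem red_ne {H : Subgroup (Perm Ω)} {a b c c' : Ω} (h : Rel H a b c c') (ha : c ≠ a) (hb : c ≠ b) :
    c' ≠ a ∧ c' ≠ b := by
  obtain ⟨g, -, e1, e2, rfl⟩ := h
  exact ⟨fun e => ha (g.injective (e.trans e1.symm)), fun e => hb (g.injective (e.trans e2.symm))⟩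

theorem red_two_of_t3 {H : Subgroup (Perm Ω)} (h : T3 H) : Two H :=
  fun a b c₁ c₂ _ hab h1 h2 h3 h4 _ _ => Or.inl (h a b c₁ a b c₂ hab h1.symm h2.symm hab h3.symm h4.symm)

theorem red_t3_of_rel {H : Subgroup (Perm Ω)} (h2 : T2 H) {a b : Ω} (hab : a ≠ b)
    (h : ∀ c c', c ≠ a → c ≠ b → c' ≠ a → c' ≠ b → Rel H a b c c') : T3 H := by
  intro x y z x' y' z' h1 h3 h4 h5 h6 h7
  obtain ⟨g, hg, e1, e2⟩ := h2 x y a b h1 hab
  obtain ⟨g', hg', f1, f2⟩ := h2 x' y' a b h5 hab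
  obtain ⟨k, hk, k1, k2, k3⟩ := h (g z) (g' z') (e1 ▸ g.injective.ne h3.symm) (e2 ▸ g.injective.ne h4.symm)
    (f1 ▸ g'.injective.ne h6.symm) (f2 ▸ g'.injective.ne h7.symm)
  refine ⟨g'⁻¹ * k * g, mul_mem (mul_mem (inv_mem hg') hk) hg, ?_, ?_, ?_⟩ <;>
    simp only [Perm.mul_apply, Perm.inv_eq_iff_eq, *]

variable [Fintype Ω] [DecidableEq Ω]

theorem red_wagner {H : Subgroup (Perm Ω)} (ho : Odd (Fintype.card Ω)) (h5 : 5 ≤ Fintype.card Ω) (h : T3 𝒩(H))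
    (hH : H ≠ ⊥) : T3 H := by
  have hn : H.subgroupOf 𝒩(H) ≠ ⊥ := by
    rw [Ne, subgroupOf_eq_bot, disjoint_iff, inf_eq_left.2 le_normalizer]; exact hH
  have := three_pretransitive_iff.1 (Cfsg.Agent.S0699.result 𝒩(H) ho h5 (red_t3_iff.1 h) (H.subgroupOf 𝒩(H)) hn)
  intro a b c a' b' c' h1 h2 h3 h4 h5 h6
  obtain ⟨g, e⟩ := this a b c a' b' c' h1 h2 h3 h4 h5 h6
  exact ⟨g.1.1, g.2, e⟩

theorem red_third (h : 2 < Fintype.card Ω) (a b : Ω) : ∃ c, a ≠ c ∧ b ≠ c := by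
  by_contra hc
  push Not at hc
  have : (Finset.univ : Finset Ω) ⊆ {a, b} := fun c _ => by
    by_cases e : a = c
    · simp [e]
    · simp [hc c e]
  have := (Finset.card_le_card this).trans Finset.card_le_two
  rw [Finset.card_univ] at this
  omega

theorem red_t2 {H : Subgroup (Perm Ω)} (h3 : 3 ∣ Fintype.card Ω) (h5 : 3 < Fintype.card Ω) (h : T3 𝒩(H))
    (hH : H ≠ ⊥) : T2 H := by
  have hn : H.subgroupOf 𝒩(H) ≠ ⊥ := by
    rw [Ne, subgroupOf_eq_bot, disjoint_iff, inf_eq_left.2 le_normalizer]; exact hH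
  rcases Cfsg.Agent.S0698.result 𝒩(H) (k := 3) (by norm_num) h5 (red_t3_iff.1 h) (H.subgroupOf 𝒩(H)) hn with
    h' | ⟨-, -, h'⟩
  · intro a b a' b' h1 h2
    obtain ⟨g, e⟩ := MulAction.is_two_pretransitive_iff.1 h' h1 h2
    exact ⟨g.1.1, g.2, e⟩
  · exfalso
    have : Fact (Nat.Prime 2) := ⟨Nat.prime_two⟩
    have hp : IsPGroup 2 H := isPGroup_iff_forall.2 fun x hx =>
      ⟨1, congrArg Subtype.val (h' ⟨x, le_normalizer hx⟩ hx)⟩
    obtain ⟨⟨x, hx⟩, hx1⟩ := ne_bot_iff_exists_ne_one.1 hH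
    obtain ⟨a, ha⟩ : ∃ a, x a ≠ a := by
      by_contra hc
      push Not at hc
      exact hx1 (Subtype.ext (Equiv.ext hc))
    have : MulAction.IsPretransitive H Ω := ⟨fun y z => by
      by_cases e : y = z
      · exact ⟨1, by rw [one_smul, e]⟩
      obtain ⟨c, c1, c2⟩ := red_third (Ω := Ω) (by omega) a (x a)
      obtain ⟨d, d1, d2⟩ := red_third (Ω := Ω) (by omega) y z
      obtain ⟨g, hg, e1, e2, -⟩ := h a (x a) c y z d ha.symm c1 c2 e d1 d2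
      refine ⟨⟨g * x * g⁻¹, conj_mem hg hx⟩, ?_⟩
      change (g * x * g⁻¹) y = z
      rw [← e1, ← e2]; simp⟩
    have h1 := (MulAction.stabilizer H a).index_dvd_card
    obtain ⟨k, hk⟩ := hp.exists_card_eq
    rw [MulAction.index_stabilizer_of_transitive, Nat.card_eq_fintype_card, hk] at h1
    have := Nat.prime_three.dvd_of_dvd_pow (h3.trans h1)
    omega

variable {p : ℕ} [Fact p.Prime]

omit [DecidableEq Ω] in
theorem red_witt {H P : Subgroup (Perm Ω)} (h2 : T2 H) {a b x y : Ω} (hab : a ≠ b) (hxy : x ≠ y)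
    (hP : IsSylowIn p P (red_St H a b)) (hx : ∀ g ∈ P, g x = x) (hy : ∀ g ∈ P, g y = y) :
    IsSylowIn p P (red_St H x y) := by
  obtain ⟨g, hg, rfl, rfl⟩ := h2 a b x y hab hxy
  have h1 : IsSylowIn p (cj g P) (cj g (red_St H a b)) := hP.conj_smul g
  rw [red_cj (le_normalizer hg)] at h1
  exact h1.of_card_le hP.isPGroup (fun k hk => red_mem.2 ⟨(red_mem.1 (hP.le hk)).1, hx k hk, hy k hk⟩)
    (card_cj g P).le

omit [Fintype Ω] [DecidableEq Ω] in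
theorem red_fix {P : Subgroup (Perm Ω)} {g : Perm Ω} (hg : g ∈ 𝒩(P)) (x : Ω) :
    (∀ k ∈ P, k (g x) = g x) ↔ ∀ k ∈ P, k x = x := by
  constructor
  · intro h k hk
    have := h _ (conj_mem hg hk)
    simpa using this
  · intro h k hk
    have := h _ (conj_mem' hg hk)
    rwa [Perm.mul_apply, Perm.mul_apply, Perm.inv_eq_iff_eq] at this

omit [DecidableEq Ω] in
theorem red_corr {H P : Subgroup (Perm Ω)} (h2 : T2 H) {a b x y z : Ω} (hab : a ≠ b) (hxy : x ≠ y)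
    (hP : IsSylowIn p P (red_St H a b)) {g : Perm Ω} (hg : g ∈ 𝒩(H))
    (hx : ∀ k ∈ P, k x = x) (hy : ∀ k ∈ P, k y = y) (hz : ∀ k ∈ P, k z = z)
    (hx' : ∀ k ∈ P, k (g x) = g x) (hy' : ∀ k ∈ P, k (g y) = g y) (hz' : ∀ k ∈ P, k (g z) = g z) :
    ∃ k ∈ H, k (g x) = g x ∧ k (g y) = g y ∧ k (g z) = g z ∧ k * g ∈ 𝒩(P) := by
  have key : ∀ x y z : Ω, x ≠ y → (∀ k ∈ P, k x = x) → (∀ k ∈ P, k y = y) → (∀ k ∈ P, k z = z) →
      IsSylowIn p P (red_St H x y ⊓ red_St H x z) := fun x y z hxy hx hy hz =>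
    (red_witt h2 hab hxy hP hx hy).of_le (fun k hk => ⟨red_mem.2 ⟨(red_mem.1 (hP.le hk)).1, hx k hk, hy k hk⟩,
      red_mem.2 ⟨(red_mem.1 (hP.le hk)).1, hx k hk, hz k hk⟩⟩) inf_le_left
  have h1 : IsSylowIn p (cj g P) (cj g (red_St H x y ⊓ red_St H x z)) := (key x y z hxy hx hy hz).conj_smul g
  rw [cj_inf, red_cj hg, red_cj hg] at h1
  obtain ⟨k, ⟨k1, k2⟩, e⟩ := h1.exists_conj_eq (key _ _ _ (g.injective.ne hxy) hx' hy' hz')
  obtain ⟨k3, k4, k5⟩ := red_mem.1 k1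
  refine ⟨k, k3, k4, k5, (red_mem.1 k2).2.2, cj_eq_iff_mem.1 ?_⟩
  rw [cj_mul]; exact e

theorem red_fpf {H : Subgroup (Perm Ω)} (h4 : 4 ∣ Fintype.card Ω) (h3 : T3 𝒩(H)) (h2 : T2 H) (ht : Two H)
    (hn : ¬ T3 H) : Fpf 2 H := by
  have : Fact (Nat.Prime 2) := ⟨Nat.prime_two⟩
  intro w hw w2 c hc
  by_contra hw1
  obtain ⟨a, ha⟩ : ∃ a, w a ≠ a := by
    by_contra hc
    push Not at hc
    exact hw1 (Equiv.ext hc)
  obtain ⟨b, hb⟩ : ∃ b, b = w a := ⟨_, rfl⟩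
  have hab : a ≠ b := hb ▸ ha.symm
  have hb' : w b = a := by rw [hb, ← Perm.mul_apply, ← pow_two, w2, Perm.one_apply]
  have hca : c ≠ a := fun e => ha (e ▸ hc)
  have hcb : c ≠ b := fun e => hab (by rw [← hb', ← e, hc])
  obtain ⟨c', c1, c2, c3⟩ : ∃ c', c' ≠ a ∧ c' ≠ b ∧ ¬ Rel H a b c c' := by
    by_contra h
    push Not at h
    exact hn (red_t3_of_rel h2 hab fun x y x1 x2 y1 y2 => red_trans (red_symm (h x x1 x2)) (h y y1 y2))
  obtain ⟨g, hg, g1, g2, g3⟩ := h3 a b c a b c' hab hca.symm hcb.symm hab c1.symm c2.symm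
  classical
  set Γ := Finset.univ.filter (Rel H a b c) with hΓ
  set Γ' := Finset.univ.filter (Rel H a b c') with hΓ'
  have e1 : Γ.card = Γ'.card := by
    refine Finset.card_equiv g fun x => ?_
    simp only [hΓ, hΓ', Finset.mem_filter, Finset.mem_univ, true_and]
    constructor
    · rintro ⟨k, hk, k1, k2, k3⟩
      refine ⟨g * k * g⁻¹, conj_mem hg hk, ?_, ?_, ?_⟩
      · rw [Perm.mul_apply, Perm.mul_apply, (Perm.inv_eq_iff_eq.2 g1.symm : g⁻¹ a = a), k1, g1]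
      · rw [Perm.mul_apply, Perm.mul_apply, (Perm.inv_eq_iff_eq.2 g2.symm : g⁻¹ b = b), k2, g2]
      · rw [Perm.mul_apply, Perm.mul_apply, (Perm.inv_eq_iff_eq.2 g3.symm : g⁻¹ c' = c), k3]
    · rintro ⟨k, hk, k1, k2, k3⟩
      refine ⟨g⁻¹ * k * g, conj_mem' hg hk, ?_, ?_, ?_⟩ <;>
        simp only [Perm.mul_apply, Perm.inv_eq_iff_eq, g1, g2, g3, k1, k2, k3]
  have e2 : Finset.univ = ({a, b} : Finset Ω) ∪ (Γ ∪ Γ') := by
    ext x
    simp only [hΓ, hΓ', Finset.mem_filter, Finset.mem_univ, true_and, Finset.mem_union, Finset.mem_insert,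
      Finset.mem_singleton, true_iff]
    by_cases x1 : x = a
    · exact Or.inl (Or.inl x1)
    by_cases x2 : x = b
    · exact Or.inl (Or.inr x2)
    rcases ht a b c c' x hab hca hcb c1 c2 x1 x2 with h | h | h
    · exact absurd h c3
    · exact Or.inr (Or.inl h)
    · exact Or.inr (Or.inr h)
  have e3 : Fintype.card Ω = 2 + 2 * Γ.card := by
    rw [← Finset.card_univ, e2, Finset.card_union_of_disjoint, Finset.card_union_of_disjoint, Finset.card_pair hab,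
      ← e1, two_mul]
    · rw [Finset.disjoint_left]
      intro x x1 x2
      exact c3 (red_trans (Finset.mem_filter.1 x1).2 (red_symm (Finset.mem_filter.1 x2).2))
    · rw [Finset.disjoint_right]
      intro x x1 x2
      have : x ≠ a ∧ x ≠ b := by
        rcases Finset.mem_union.1 x1 with h | h
        · exact red_ne (Finset.mem_filter.1 h).2 hca hcb
        · exact red_ne (Finset.mem_filter.1 h).2 c1 c2
      simp [this.1, this.2] at x2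
  set T := red_St H a b ⊓ red_St H c c with hT
  have e4 : T.relIndex (red_St H a b) = Γ.card := by
    have h1 : T.subgroupOf (red_St H a b) = MulAction.stabilizer (red_St H a b) c := by
      ext k
      rw [mem_subgroupOf, MulAction.mem_stabilizer_iff]
      exact ⟨fun h => (red_mem.1 h.2).2.1, fun h => ⟨k.2, red_mem.2 ⟨(red_mem.1 k.2).1, h, h⟩⟩⟩
    rw [relIndex, h1, MulAction.index_stabilizer, ← Set.ncard_coe_finset]
    congr 1
    ext x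
    simp only [hΓ, Finset.coe_filter, Finset.mem_univ, true_and, Set.mem_ofPred_eq]
    exact ⟨fun ⟨k, hk⟩ => ⟨k, (red_mem.1 k.2).1, (red_mem.1 k.2).2.1, (red_mem.1 k.2).2.2, hk⟩,
      fun ⟨k, k1, k2, k3, k4⟩ => ⟨⟨k, red_mem.2 ⟨k1, k2, k3⟩⟩, k4⟩⟩
  have hwT : zpowers w ≤ 𝒩(T) := by
    rw [zpowers_le, ← cj_eq_iff_mem, hT, cj_inf, red_cj (le_normalizer hw), red_cj (le_normalizer hw), ← hb, hb', hc]
    congr 1
    ext k
    rw [red_mem, red_mem, and_comm (a := k b = b)]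
  obtain ⟨Q, hQ, hwQ⟩ := exists_isSylowIn_ge (p := 2) (H := T ⊔ zpowers w)
    (isPGroup_zpowers (x := w) (k := 1) (by rw [pow_one, w2])) le_sup_right
  have hP : IsSylowIn 2 (Q ⊓ T) T := hQ.inf_of_normalized le_sup_left (sup_le le_normalizer hwT)
  have hP' : IsSylowIn 2 (Q ⊓ T) (red_St H a b) := ⟨inf_le_right.trans inf_le_left, hP.isPGroup, by
    rw [← relIndex_mul_relIndex (Q ⊓ T) T _ inf_le_right inf_le_left, e4, Nat.prime_two.dvd_mul]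
    rintro (h | h)
    · exact hP.not_dvd h
    · omega⟩
  have hQc : Q ≤ red_St H c c := hQ.le.trans (sup_le inf_le_right (zpowers_le.2 (red_mem.2 ⟨hw, hc, hc⟩)))
  obtain ⟨d, hd, hcd⟩ := hQ.isPGroup.exists_fixed_point_of_prime_dvd_card_of_fixed_point Ω (a := c)
    (by rw [Nat.card_eq_fintype_card]; omega) fun k => (red_mem.1 (hQc k.2)).2.1
  have h5 := (red_witt h2 hab hcd hP' (fun k hk => (red_mem.1 (hQc hk.1)).2.1) fun k hk => hd ⟨k, hk.1⟩).eq_of_le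
    hQ.isPGroup inf_le_left fun k hk => red_mem.2 ⟨(red_mem.1 (hQc hk)).1, (red_mem.1 (hQc hk)).2.1, hd ⟨k, hk⟩⟩
  have h6 : w ∈ Q ⊓ T := h5 ▸ hwQ (mem_zpowers w)
  exact ha (red_mem.1 h6.2.1).2.1

end

theorem red_two (h1 : Core.{v}) {Ω : Type v} [Fintype Ω] [DecidableEq Ω] {H : Subgroup (Perm Ω)}
    (hn : 3 ∣ Fintype.card Ω) (h3 : T3 𝒩(H)) (h2 : T2 H) : Two H := by
  have : Fact (Nat.Prime 3) := ⟨Nat.prime_three⟩
  intro a b c₁ c₂ c₃ hab a1 b1 a2 b2 a3 b3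
  obtain ⟨P, hP⟩ := exists_isSylowIn 3 (red_St H a b)
  classical
  obtain ⟨F, hF⟩ : ∃ F : Ω → Prop, F = fun x => ∀ k ∈ P, k x = x := ⟨_, rfl⟩
  have hF' : ∀ x, F x ↔ ∀ k ∈ P, k x = x := fun x => by rw [hF]
  have ha : F a := (hF' a).2 fun k hk => (red_mem.1 (hP.le hk)).2.1
  have hb : F b := (hF' b).2 fun k hk => (red_mem.1 (hP.le hk)).2.2
  have hc : 3 ∣ Fintype.card (Subtype F) := by
    have h := hP.isPGroup.card_modEq_card_fixedPoints Ω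
    have e : Nat.card (MulAction.fixedPoints P Ω) = Fintype.card (Subtype F) := by
      rw [← Nat.card_eq_fintype_card]
      exact Nat.card_congr (Equiv.subtypeEquivRight fun x => by
        rw [hF']; exact ⟨fun h k hk => h ⟨k, hk⟩, fun h k => h k k.2⟩)
    rw [e, Nat.card_eq_fintype_card] at h
    exact (h.dvd_iff dvd_rfl).1 hn
  have hpos : 0 < Fintype.card (Subtype F) := Fintype.card_pos_iff.2 ⟨⟨a, ha⟩⟩
  have hab' : (⟨a, ha⟩ : Subtype F) ≠ ⟨b, hb⟩ := fun e => hab (congrArg Subtype.val e)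
  have hres : ∀ {J : Subgroup (Perm Ω)} {g : Perm Ω}, g ∈ J ⊓ 𝒩(P) →
      ∃ σ ∈ Rs F (J ⊓ 𝒩(P)), ∀ x : Subtype F, (σ x : Ω) = g x := fun hg =>
    exists_Rs hg fun x => by rw [hF', hF']; exact red_fix hg.2 x
  set H1 := Rs F (H ⊓ 𝒩(P)) with hH1
  have t3 : T3 𝒩(H1) := by
    refine red_t3_mono (G := Rs F (𝒩(H) ⊓ 𝒩(P))) ?_ (Rs_norm (le_norm_inf inf_le_left (le_norm_of_le inf_le_right)))
    intro x y z x' y' z' e1 e2 e3 e4 e5 e6
    obtain ⟨g, hg, g1, g2, g3⟩ := h3 x y z x' y' z' (Subtype.coe_ne_coe.2 e1) (Subtype.coe_ne_coe.2 e2)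
      (Subtype.coe_ne_coe.2 e3) (Subtype.coe_ne_coe.2 e4) (Subtype.coe_ne_coe.2 e5) (Subtype.coe_ne_coe.2 e6)
    obtain ⟨k, hk, k1, k2, k3, k4⟩ := red_corr h2 hab (Subtype.coe_ne_coe.2 e1) hP hg ((hF' _).1 x.2) ((hF' _).1 y.2)
      ((hF' _).1 z.2) (g1 ▸ (hF' _).1 x'.2) (g2 ▸ (hF' _).1 y'.2) (g3 ▸ (hF' _).1 z'.2)
    obtain ⟨σ, hσ, e⟩ := hres (J := 𝒩(H)) ⟨mul_mem (le_normalizer hk) hg, k4⟩
    exact ⟨σ, hσ, Subtype.ext (by rw [e, Perm.mul_apply, k1, g1]), Subtype.ext (by rw [e, Perm.mul_apply, k2, g2]),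
      Subtype.ext (by rw [e, Perm.mul_apply, k3, g3])⟩
  have t2 : T2 H1 := by
    intro x y x' y' e1 e4
    obtain ⟨g, hg, g1, g2⟩ := h2 x y x' y' (Subtype.coe_ne_coe.2 e1) (Subtype.coe_ne_coe.2 e4)
    obtain ⟨k, hk, k1, k2, -, k4⟩ := red_corr h2 hab (Subtype.coe_ne_coe.2 e1) hP (le_normalizer hg) ((hF' _).1 x.2)
      ((hF' _).1 y.2) ((hF' _).1 x.2) (g1 ▸ (hF' _).1 x'.2) (g2 ▸ (hF' _).1 y'.2) (g1 ▸ (hF' _).1 x'.2)
    obtain ⟨σ, hσ, e⟩ := hres (J := H) ⟨mul_mem hk hg, k4⟩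
    exact ⟨σ, hσ, Subtype.ext (by rw [e, Perm.mul_apply, k1, g1]), Subtype.ext (by rw [e, Perm.mul_apply, k2, g2])⟩
  have tw : Two H1 := by
    by_cases h6 : 6 ∣ Fintype.card (Subtype F)
    · refine h1 _ H1 t3 t2 h6 fun σ ⟨g, hg, e⟩ σ3 x hx => ?_
      obtain ⟨y, hy, hyx⟩ := Perm.exists_fixed_point_of_prime' (p := 3) (n := 1) hc (by rw [pow_one, σ3]) hx
      have hS := red_witt h2 hab (Subtype.coe_ne_coe.2 hyx) hP ((hF' _).1 y.2) ((hF' _).1 x.2)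
      have hg' : g ∈ red_St H y x := red_mem.2 ⟨hg.1, by rw [← e, hy], by rw [← e, hx]⟩
      obtain ⟨k, m, hm, hkm⟩ := Nat.exists_eq_pow_mul_and_not_dvd (orderOf_pos g).ne' 3 (by norm_num)
      have hz : IsPGroup 3 (zpowers (g ^ m)) :=
        isPGroup_zpowers (k := k) (by rw [← pow_mul, mul_comm, ← hkm, pow_orderOf_eq_one])
      have h7 := hS.eq_of_le (isPGroup_sup' hP.isPGroup hz (zpowers_le.2 (pow_mem hg.2 m))) le_sup_left
        (sup_le hS.le (zpowers_le.2 (pow_mem hg' m)))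
      have h8 : g ^ m ∈ P := h7 ▸ mem_sup_right (mem_zpowers _)
      have h9 : ∀ (n : ℕ) (x : Subtype F), ((σ ^ n) x : Ω) = (g ^ n) x := fun n => by
        induction n with
        | zero => exact fun _ => rfl
        | succ n ih => exact fun x => by rw [pow_succ', pow_succ', Perm.mul_apply, Perm.mul_apply, e, ih]
      have h10 : σ ^ m = 1 := Equiv.ext fun x => Subtype.ext (by rw [h9]; exact (hF' _).1 x.2 _ h8)
      have := (pow_gcd_eq_one.2 ⟨σ3, h10⟩ : σ ^ Nat.gcd 3 m = 1)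
      rwa [(Nat.prime_three.coprime_iff_not_dvd.2 hm : Nat.gcd 3 m = 1), pow_one] at this
    by_cases h7 : Fintype.card (Subtype F) = 3
    · intro x y z z' _ e1 e2 e3 e4 e5 _ _
      by_cases e : z = z'
      · exact Or.inl ⟨1, one_mem _, rfl, rfl, e⟩
      exfalso
      have := Finset.card_le_univ ({x, y, z, z'} : Finset (Subtype F))
      rw [Finset.card_insert_of_notMem (by simp [e1, e2.symm, e4.symm]),
        Finset.card_insert_of_notMem (by simp [e3.symm, e5.symm]), Finset.card_pair e] at this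
      omega
    · refine red_two_of_t3 (red_wagner (Nat.odd_iff.2 (by omega)) (by omega) t3 fun e => ?_)
      obtain ⟨σ, hσ, σ1, -⟩ := t2 _ _ _ _ hab' hab'.symm
      rw [e, mem_bot] at hσ
      exact hab' (by rw [← σ1, hσ, Perm.one_apply])
  obtain ⟨c₀, c1, c2⟩ := red_third (Ω := Subtype F) (by omega) ⟨a, ha⟩ ⟨b, hb⟩
  have key : ∀ c, c ≠ a → c ≠ b → ∃ d : Subtype F, Rel H a b c d ∧ d ≠ ⟨a, ha⟩ ∧ d ≠ ⟨b, hb⟩ := by
    intro c ca cb
    obtain ⟨g, hg, g1, g2, g3⟩ := h3 a b c₀ a b c hab (Subtype.coe_ne_coe.2 c1) (Subtype.coe_ne_coe.2 c2) hab ca.symm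
      cb.symm
    obtain ⟨k, hk, k1, k2, -, k4⟩ := red_corr h2 hab hab hP hg ((hF' _).1 ha) ((hF' _).1 hb) ((hF' _).1 ha)
      (g1.symm ▸ (hF' _).1 ha) (g2.symm ▸ (hF' _).1 hb) (g1.symm ▸ (hF' _).1 ha)
    have hd : F (k c) := by
      rw [← g3, ← Perm.mul_apply, hF', red_fix k4]; exact (hF' _).1 c₀.2
    have hr : Rel H a b c (k c) := ⟨k, hk, g1 ▸ k1, g2 ▸ k2, rfl⟩
    exact ⟨⟨_, hd⟩, hr, fun e => (red_ne hr ca cb).1 (congrArg Subtype.val e),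
      fun e => (red_ne hr ca cb).2 (congrArg Subtype.val e)⟩
  have lift : ∀ d d' : Subtype F, Rel H1 ⟨a, ha⟩ ⟨b, hb⟩ d d' → Rel H a b d d' :=
    fun d d' ⟨σ, ⟨g, hg, e⟩, e1, e2, e3⟩ => ⟨g, hg.1, (e ⟨a, ha⟩).symm.trans (congrArg Subtype.val e1),
      (e ⟨b, hb⟩).symm.trans (congrArg Subtype.val e2), (e d).symm.trans (congrArg Subtype.val e3)⟩
  obtain ⟨d₁, r1, p1, q1⟩ := key c₁ a1 b1
  obtain ⟨d₂, r2, p2, q2⟩ := key c₂ a2 b2
  obtain ⟨d₃, r3, p3, q3⟩ := key c₃ a3 b3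
  rcases tw _ _ d₁ d₂ d₃ hab' p1 q1 p2 q2 p3 q3 with h | h | h
  · exact Or.inl (red_trans r1 (red_trans (lift _ _ h) (red_symm r2)))
  · exact Or.inr (Or.inl (red_trans r1 (red_trans (lift _ _ h) (red_symm r3))))
  · exact Or.inr (Or.inr (red_trans r2 (red_trans (lift _ _ h) (red_symm r3))))

theorem s3255_of (h1 : Core.{v}) (h2 : Core2.{v}) : type_of% @Cfsg.CfsgFrozen.S3255.{u, v} := by
  intro G _ _ Ω _ _ _ h3 hΩ hΩ3 H hHn hH
  classical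
  set φ := MulAction.toPermHom G Ω with hφ
  have hi : Function.Injective φ := MulAction.toPerm_injective
  set H' := H.map φ with hH'
  have hne : H' ≠ ⊥ := by rwa [hH', Ne, map_eq_bot_iff_of_injective _ hi]
  have t3 : T3 𝒩(H') := by
    intro a b c a' b' c' e1 e2 e3 e4 e5 e6
    obtain ⟨g, e⟩ := three_pretransitive_iff.1 h3 a b c a' b' c' e1 e2 e3 e4 e5 e6
    refine ⟨φ g, le_normalizer_map φ ⟨g, ?_, rfl⟩, e⟩
    rw [normalizer_eq_top]; trivial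
  have t2 := red_t2 hΩ hΩ3 t3 hne
  have tw := red_two h1 hΩ t3 t2
  refine ⟨?_, fun h4 => ?_⟩
  · by_contra hc
    have := Fintype.ofFinite (MulAction.orbitRel.Quotient H (Fin 3 ↪ Ω))
    rw [Nat.card_eq_fintype_card, not_le, Fintype.two_lt_card_iff] at hc
    obtain ⟨x, y, z, e1, e2, e3⟩ := hc
    obtain ⟨x, rfl⟩ := Quotient.exists_rep x
    obtain ⟨y, rfl⟩ := Quotient.exists_rep y
    obtain ⟨z, rfl⟩ := Quotient.exists_rep z
    have hab : x 0 ≠ x 1 := x.injective.ne (by decide)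
    have key : ∀ e : Fin 3 ↪ Ω, ∃ c, c ≠ x 0 ∧ c ≠ x 1 ∧ ∃ g ∈ H', g (e 0) = x 0 ∧ g (e 1) = x 1 ∧ g (e 2) = c := by
      intro e
      obtain ⟨g, hg, g1, g2⟩ := t2 (e 0) (e 1) _ _ (e.injective.ne (by decide)) hab
      exact ⟨_, g1 ▸ g.injective.ne (e.injective.ne (by decide)), g2 ▸ g.injective.ne (e.injective.ne (by decide)),
        g, hg, g1, g2, rfl⟩
    have fin : ∀ (e e' : Fin 3 ↪ Ω) (c c' : Ω), (∃ g ∈ H', g (e 0) = x 0 ∧ g (e 1) = x 1 ∧ g (e 2) = c) →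
        (∃ g ∈ H', g (e' 0) = x 0 ∧ g (e' 1) = x 1 ∧ g (e' 2) = c') → Rel H' (x 0) (x 1) c c' →
        (⟦e⟧ : MulAction.orbitRel.Quotient H (Fin 3 ↪ Ω)) = ⟦e'⟧ := by
      rintro e e' c c' ⟨g, hg, g1, g2, g3⟩ ⟨g', hg', f1, f2, f3⟩ ⟨k, hk, k1, k2, k3⟩
      obtain ⟨h, hh, eh⟩ := mul_mem (mul_mem (inv_mem hg') hk) hg
      refine (Quotient.sound (s := MulAction.orbitRel H (Fin 3 ↪ Ω)) (MulAction.orbitRel_apply.2 ⟨⟨h, hh⟩, ?_⟩)).symm
      ext i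
      change φ h (e i) = e' i
      rw [eh, Perm.mul_apply, Perm.mul_apply, Perm.inv_eq_iff_eq]
      fin_cases i
      · exact (congrArg k g1).trans (k1.trans f1.symm)
      · exact (congrArg k g2).trans (k2.trans f2.symm)
      · exact (congrArg k g3).trans (k3.trans f3.symm)
    obtain ⟨c₁, a1, b1, r1⟩ := key x
    obtain ⟨c₂, a2, b2, r2⟩ := key y
    obtain ⟨c₃, a3, b3, r3⟩ := key z
    rcases tw _ _ c₁ c₂ c₃ hab a1 b1 a2 b2 a3 b3 with h | h | h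
    · exact e1 (fin _ _ _ _ r1 r2 h)
    · exact e2 (fin _ _ _ _ r1 r3 h)
    · exact e3 (fin _ _ _ _ r2 r3 h)
  · by_cases ht : T3 H'
    · refine Or.inl (three_pretransitive_iff.2 fun a b c a' b' c' e1 e2 e3 e4 e5 e6 => ?_)
      obtain ⟨_, ⟨g, hg, rfl⟩, e⟩ := ht a b c a' b' c' e1 e2 e3 e4 e5 e6
      exact ⟨⟨g, hg⟩, e⟩
    have hev : ¬ Odd (Fintype.card Ω) := fun ho => ht (red_wagner ho (by rw [Nat.odd_iff] at ho; omega) t3 hne)
    rw [Nat.odd_iff] at hev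
    obtain ⟨N, F, i1, i2, n1, n2, n3, ⟨e⟩⟩ := h2 Ω H' t3 t2 (by omega) (by omega) tw ht
      (red_fpf (by omega) t3 t2 tw ht)
    refine Or.inr ⟨N.comap (φ.comp H.subtype), F, i1, i2, ⟨fun x hx g => ?_⟩, n3, ⟨?_⟩⟩
    · rw [mem_comap, map_mul, map_mul, map_inv]
      exact conj_mem (n2 ⟨g, g.2, rfl⟩) hx
    · refine ((equivMapOfInjective _ (φ.comp H.subtype) (hi.comp H.subtype_injective)).trans (MulEquiv.subgroupCongr ?_)).trans e
      exact map_comap_eq_self fun x hx => let ⟨g, hg, e⟩ := n1 hx; ⟨⟨g, hg⟩, e⟩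

end CL.Perm.Saxl
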