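/-
Subgroups on which a homomorphism is injective, and the lifting of the unipotent radical of a point stabiliser in a
symplectic group.
-/
import Cfsg.Agent.Perm.CTClsC
import Cfsg.Agent.Perm.CTAmalg

set_option autoImplicit false

namespace CL.Chev

open scoped commutatorElement

section Good

variable {E G : Type*} [Group E] [Group G]

/-- `π` is injective on `D`. -/
def InjSub (π : E →* G) (D : Subgroup E) : Prop := ∀ z ∈ D, π z = 1 → z = 1

variable {π : E →* G} {D D' : Subgroup E}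

theorem InjSub.mono (h : InjSub π D) (h' : D' ≤ D) : InjSub π D' := fun z hz => h z (h' hz)

theorem InjSub.eq (h : InjSub π D) {a b : E} (ha : a ∈ D) (hb : b ∈ D) (e : π a = π b) : a = b :=
  mul_inv_eq_one.1 (h _ (mul_mem ha (inv_mem hb)) (by simp [e]))

theorem InjSub.mem (h : InjSub π D) {a : E} (ha : a ∈ D) (h' : π a ∈ (D ⊓ D').map π) : a ∈ D' := by
  obtain ⟨b, hb, e⟩ := h'
  exact h.eq hb.1 ha e ▸ hb.2

theorem InjSub.commute (h : InjSub π D) {a b : E} (ha : a ∈ D) (hb : b ∈ D) (e : Commute (π a) (π b)) : Commute a b :=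
  h.eq (mul_mem ha hb) (mul_mem hb ha) (by rw [map_mul, map_mul, e.eq])

theorem InjSub.conj (h : InjSub π D) (g : E) : InjSub π (D.map (MulAut.conj g).toMonoidHom) := by
  rintro _ ⟨z, hz, rfl⟩ e
  have : π z = 1 := by simpa [mul_inv_eq_iff_eq_mul] using e
  simp [h z hz this]

end Good

namespace StSys

variable {ι Φ : Type} [Fintype ι] [DecidableEq ι] {R : RS ι Φ} {F : Type*} [Field F] {G : Type*} [Group G]
  {S : StSys R F G} {E : Type*} [Group E] {π : E →* G}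

theorem comm_mem_of_injSub {y : Φ → F → E} {D : Subgroup E} (hD : InjSub π D) {r s : Φ} (h1 : s ≠ r) (h2 : s ≠ R.neg r)
    (hy : ∀ k, k = r ∨ k = s ∨ R.Comb k r s → ∀ t, π (y k t) = S.x k t ∧ y k t ∈ D) (t u : F) :
    ⁅y r t, y s u⁆ ∈ Subgroup.closure {g | ∃ k v, R.Comb k r s ∧ g = y k v} := by
  have a := hy r (Or.inl rfl) t
  have b := hy s (Or.inr (Or.inl rfl)) u
  refine hD.mem (by rw [commutatorElement_def]; exact mul_mem (mul_mem (mul_mem a.2 b.2) (inv_mem a.2)) (inv_mem b.2)) ?_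
  rw [map_commutatorElement, a.1, b.1]
  refine (Subgroup.closure_le _).2 ?_ (S.comm_mem r s t u h1 h2)
  rintro _ ⟨k, v, i, j, hi, hj, e, rfl⟩
  have c := hy k (Or.inr (Or.inr ⟨i, j, hi, hj, e⟩)) v
  exact ⟨_, ⟨c.2, Subgroup.subset_closure ⟨k, v, ⟨i, j, hi, hj, e⟩, rfl⟩⟩, c.1⟩

theorem hMul_of_simple (h : ∀ i (t u : F), t ≠ 0 → u ≠ 0 → S.h (R.simple i) (t * u) = S.h (R.simple i) t * S.h (R.simple i) u) :
    S.HMul := fun r t u ht hu => by
  obtain ⟨w, hw, i, rfl⟩ := R.exists_W_simple r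
  obtain ⟨n, -, hn⟩ := S.exists_induces_of_mem_W hw
  obtain ⟨c, hc, h2⟩ := hn.exists_conj_h (R.simple i)
  have h3 : ∀ t, t ≠ 0 → n * S.h (R.simple i) t * n⁻¹ = S.h (w (R.simple i)) t := fun t ht => by
    have a := h2 (c⁻¹ * t)
    have b := h2 c⁻¹
    have d := h i (c⁻¹ * t) c (by simp [hc, ht]) hc
    have d' := h i c⁻¹ c (by simp [hc]) hc
    rw [mul_inv_cancel_left₀ hc] at a
    rw [mul_inv_cancel₀ hc, h_one, one_mul] at b
    rw [inv_mul_cancel₀ hc, h_one] at d'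
    rw [mul_right_comm, inv_mul_cancel₀ hc, one_mul] at d
    rw [d, ← inv_eq_of_mul_eq_one_right d'.symm]
    calc _ = (n * S.h (R.simple i) (c⁻¹ * t) * n⁻¹) * (n * S.h (R.simple i) c⁻¹ * n⁻¹)⁻¹ := by group
      _ = _ := by rw [a, b]; group
  rw [← h3 _ ht, ← h3 _ hu, ← h3 _ (mul_ne_zero ht hu), h i t u ht hu]
  group

theorem injSub_grp [Finite Φ] {S' : StSys R F E} (h : S'.map π = S) (hS : S.Faithful) (hM : S.HMul) (hM' : S'.HMul)
    (hi : Function.Injective hM.torus) : InjSub π S'.grp := fun z hz e => by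
  subst h
  obtain ⟨c, rfl⟩ := hM'.mem_H_iff.1 (mem_H_of_map hS hz e)
  rw [hM'.map_torus hM] at e
  rw [(injective_iff_map_eq_one _).1 hi c e, map_one]

end StSys

section Heis

open CL.Sp

variable {F V : Type*} [Field F] [AddCommGroup V] [Module F V] [FiniteDimensional F V] {B : LinearMap.BilinForm F V}
  {E : Type*} [Group E] {ρ : E →* V ≃ₗ[F] V}

theorem exists_injSub_heis (hB : B.IsAlt) (hN : B.Nondegenerate) (hF : ∃ a : F, a ≠ 0 ∧ a ≠ 1) {U P : Submodule F V}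
    (hU : ∀ v ∈ U, v ∈ B.orthogonal U → v = 0) {K L : Subgroup E} (hK : InjSub ρ K) (hL : InjSub ρ L)
    (hK' : K.map ρ = Fix B U) {e e' b b' : V} (he : e ∈ U) (he' : e' ∈ U) (hee : B e' e = 1) (hP : P ≤ B.orthogonal U)
    (hb : b ∈ P) (hb' : b' ∈ P) (hbb : B b b' = 1) (h1 : ∀ v ∈ P, v ≠ 0 → ∃ k ∈ K ⊓ L, ρ k b = v)
    (h2 : ∀ a, ∃ z ∈ L, ρ z = tv hB e a ∧ ∀ k ∈ K, Commute k z) {y : E} (hy : y ∈ L) (hy' : ρ y = sr hB e b)
    (h3 : ∀ k ∈ K, ρ k b = b → Commute k y) :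
    ∃ D, InjSub ρ D ∧ K ≤ D ∧ ∀ z ∈ L, (∃ a, ρ z = tv hB e a) ∨ (∃ v ∈ P, ρ z = sr hB e v) → z ∈ D := by
  classical
  choose Z hZ hZ' hZK using h2
  have hKF : ∀ k ∈ K, ρ k ∈ Fix B U := fun k hk => hK' ▸ Subgroup.mem_map_of_mem ρ hk
  have hb0 : b ≠ 0 := by rintro rfl; simp at hbb
  have mv : ∀ (W : Submodule F V), U ≤ W → ∀ x y, x ∉ W → y ∉ W → (∀ w ∈ W, B w x = B w y) →
      ∃ k ∈ K, ρ k x = y ∧ ∀ w ∈ W, ρ k w = w := fun W hW x y hx hy h => by
    obtain ⟨t, ht, e⟩ := move hB hN W hx hy h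
    have ht' := TG_orth_le_fix hB W ht
    obtain ⟨k, hk, rfl⟩ : t ∈ K.map ρ := hK' ▸ ⟨ht'.1, fun x hx => ht'.2 x (hW hx)⟩
    exact ⟨k, hk, e, ht'.2⟩
  have tr : ∀ v ∈ B.orthogonal U, v ≠ 0 → ∃ k ∈ K, ρ k b = v := fun v hv h0 =>
    (mv U le_rfl b v (fun h => hb0 (hU _ h (hP hb))) (fun h => h0 (hU _ h hv)) fun w hw => by
      rw [mem_orth.1 (hP hb) w hw, mem_orth.1 hv w hw]).imp fun k hk => ⟨hk.1, hk.2.1⟩
  have ho : ∀ k ∈ K, ∀ v ∈ B.orthogonal U, ρ k v ∈ B.orthogonal U := fun k hk v hv w hw => by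
    change B w _ = 0
    rw [← (hKF k hk).2 w hw, (hKF k hk).1]
    exact hv w hw
  let Y : V → E := fun v => if h : ∃ k ∈ K, ρ k b = v then h.choose * y * h.choose⁻¹ else 1
  have hY : ∀ k ∈ K, Y (ρ k b) = k * y * k⁻¹ := fun k hk => by
    have h : ∃ k' ∈ K, ρ k' b = ρ k b := ⟨k, hk, rfl⟩
    have := (h3 (k⁻¹ * h.choose) (mul_mem (inv_mem hk) h.choose_spec.1) (by
      rw [map_mul, map_inv, LinearEquiv.mul_apply, h.choose_spec.2, inv_apply_apply])).eq
    simp only [Y, dif_pos h]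
    calc _ = k * (k⁻¹ * h.choose * y) * h.choose⁻¹ := by group
      _ = _ := by rw [this]; group
  have hY0 : Y 0 = 1 := dif_neg fun ⟨k, _, h⟩ => hb0 ((ρ k).map_eq_zero_iff.1 h)
  have cY : ∀ k ∈ K, ∀ v ∈ B.orthogonal U, k * Y v * k⁻¹ = Y (ρ k v) := fun k hk v hv => by
    by_cases h0 : v = 0
    · simp [h0, hY0]
    · obtain ⟨k', hk', rfl⟩ := tr v hv h0
      rw [← LinearEquiv.mul_apply, ← map_mul, hY _ hk', hY _ (mul_mem hk hk')]; group
  have rY : ∀ v ∈ B.orthogonal U, ρ (Y v) = sr hB e v := fun v hv => by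
    by_cases h0 : v = 0
    · rw [h0, hY0, map_one, sr_zero_right]
    · obtain ⟨k, hk, rfl⟩ := tr v hv h0
      rw [hY _ hk, map_mul, map_mul, map_inv, hy', conj_sr hB (hKF k hk).1, (hKF k hk).2 e he]
  have lY : ∀ v ∈ P, Y v ∈ L := fun v hv => by
    by_cases h0 : v = 0
    · rw [h0, hY0]; exact one_mem _
    · obtain ⟨k, hk, rfl⟩ := h1 v hv h0
      rw [hY _ hk.1]; exact mul_mem (mul_mem hk.2 hy) (inv_mem hk.2)
  have aZ : ∀ a c, Z a * Z c = Z (a + c) := fun a c =>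
    hL.eq (mul_mem (hZ a) (hZ c)) (hZ _) (by rw [map_mul, hZ', hZ', hZ', tv_mul])
  have Z0 : Z 0 = 1 := hL _ (hZ 0) (by rw [hZ', tv_zero])
  have cZ : ∀ a, ∀ v ∈ B.orthogonal U, Z a * Y v = Y v * Z a := fun a v hv => by
    by_cases h0 : v = 0
    · simp [h0, hY0]
    · obtain ⟨k, hk, rfl⟩ := tr v hv h0
      have := hL.commute (hZ a) hy (by rw [hZ', hy']; exact tv_mul_sr hB (hP hb e he) a)
      rw [hY _ hk]
      exact (((hZK a k hk).symm.mul_right this).mul_right (hZK a k hk).symm.inv_right).eq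
  have m0 : ∀ k ∈ K, ∀ v ∈ P, ∀ w ∈ P, Y (ρ k v) * Y (ρ k w) = Y (ρ k v + ρ k w) * Z (-B (ρ k v) (ρ k w)) :=
    fun k hk v hv w hw => by
      have := hL.eq (mul_mem (lY v hv) (lY w hw)) (mul_mem (lY _ (add_mem hv hw)) (hZ (-B v w))) (by
        rw [map_mul, map_mul, rY _ (hP hv), rY _ (hP hw), rY _ (hP (add_mem hv hw)), hZ',
          sr_mul hB (hP hv e he) (hP hw e he)])
      rw [← map_add, (hKF k hk).1, ← cY k hk _ (hP hv), ← cY k hk _ (hP hw), ← cY k hk _ (hP (add_mem hv hw))]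
      calc _ = k * (Y v * Y w) * k⁻¹ := by group
        _ = k * Y (v + w) * (Z (-B v w) * k⁻¹) := by rw [this]; group
        _ = _ := by rw [← (hZK _ k hk).inv_left.eq]; group
  have nm : ∀ v ∈ B.orthogonal U, ∀ w ∈ B.orthogonal U, w ∈ U ⊔ F ∙ v → ∃ c : F, w = c • v := fun v hv w hw h => by
    obtain ⟨u, hu, x, hx, rfl⟩ := Submodule.mem_sup.1 h
    obtain ⟨c, rfl⟩ := Submodule.mem_span_singleton.1 hx
    exact ⟨c, by rw [hU u hu (by simpa using sub_mem hw (Submodule.smul_mem _ c hv)), zero_add]⟩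
  have m1 : ∀ v ∈ B.orthogonal U, ∀ w ∈ B.orthogonal U, B v w ≠ 0 → Y v * Y w = Y (v + w) * Z (-B v w) :=
    fun v hv w hw h => by
      obtain ⟨k, hk, rfl⟩ := tr v hv (by rintro rfl; simp at h)
      obtain ⟨w, hw', rfl⟩ : ∃ w' ∈ B.orthogonal U, ρ k w' = w :=
        ⟨_, ho _ (inv_mem hk) w hw, by rw [map_inv, apply_inv_apply]⟩
      clear hw
      rename' hw' => hw
      rw [(hKF k hk).1] at h
      obtain ⟨k', hk', e1, e2⟩ := mv (U ⊔ F ∙ b) le_sup_left (B b w • b') w (fun h' => by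
        obtain ⟨c, hc⟩ := nm b (hP hb) _ (hP (P.smul_mem _ hb')) h'
        have := congrArg (B b) hc
        simp [hbb, alt_self hB, h] at this) (fun h' => by
        obtain ⟨c, rfl⟩ := nm b (hP hb) _ hw h'
        simp [alt_self hB] at h) fun x hx => by
        obtain ⟨u, hu, x', hx', rfl⟩ := Submodule.mem_sup.1 hx
        obtain ⟨c, rfl⟩ := Submodule.mem_span_singleton.1 hx'
        simp [mem_orth.1 hw u hu, mem_orth.1 (hP hb') u hu, hbb, mul_comm]
      have := m0 _ (mul_mem hk hk') b hb _ (P.smul_mem (B b w) hb')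
      rwa [map_mul, LinearEquiv.mul_apply, LinearEquiv.mul_apply, e1,
        e2 b (Submodule.mem_sup_right (Submodule.mem_span_singleton_self b))] at this
  have m1' : ∀ v ∈ B.orthogonal U, ∀ c : F, Y v * Y (c • v) = Y (v + c • v) := fun v hv c => by
    by_cases h0 : v = 0
    · simp [h0, hY0]
    obtain ⟨k, hk, rfl⟩ := tr v hv h0
    simpa [alt_self hB, Z0] using m0 k hk b hb _ (P.smul_mem c hb)
  have m2 : ∀ v ∈ B.orthogonal U, ∀ w ∈ B.orthogonal U, Y v * Y w = Y (v + w) * Z (-B v w) := fun v hv w hw => by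
    by_cases h : B v w ≠ 0
    · exact m1 v hv w hw h
    rw [not_not] at h
    rw [h, neg_zero, Z0, mul_one]
    by_cases h0 : v = 0
    · simp [h0, hY0]
    by_cases h4 : w ∈ U ⊔ F ∙ v
    · obtain ⟨c, rfl⟩ := nm v hv w hw h4
      exact m1' v hv c
    obtain ⟨a, ha, ha'⟩ := hF
    obtain ⟨u₁, hu₁, h5⟩ := exists_orth_ne_zero hB hN h4
    obtain ⟨u₂, hu₂, h6⟩ := exists_orth_ne_zero hB hN (W := U) fun h => h0 (hU v h hv)
    have h7 : B v u₁ = 0 := hu₁ v (Submodule.mem_sup_right (Submodule.mem_span_singleton_self v))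
    obtain ⟨u, hu, h8, h9⟩ : ∃ u ∈ B.orthogonal U, B v u = 1 ∧ B w u = -a :=
      ⟨(B v u₂)⁻¹ • u₂ + ((-a - (B v u₂)⁻¹ * B w u₂) * (B w u₁)⁻¹) • u₁, add_mem (Submodule.smul_mem _ _ hu₂)
        (Submodule.smul_mem _ _ fun x hx => hu₁ x (Submodule.mem_sup_left hx)), by simp [h6, h7], by simp [h5]⟩
    have e0 := m1' u hu (-1)
    have e1 := m1 v hv u hu (by simp [h8])
    have e2 := m1 (-u) (neg_mem hu) w hw (by simp [alt_neg hB u w, h9, ha])
    have e3 : B (v + u) (-u + w) = a - 1 := by simp [h, h8, alt_self hB, alt_neg hB u w, h9]; ring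
    have e4 := m1 (v + u) (add_mem hv hu) (-u + w) (add_mem (neg_mem hu) hw) (by rw [e3, sub_ne_zero]; exact ha')
    rw [neg_one_smul, add_neg_cancel, hY0] at e0
    rw [e3, show v + u + (-u + w) = v + w by abel] at e4
    calc _ = (Y v * Y u) * (Y (-u) * Y w) := by rw [mul_assoc, ← mul_assoc (Y u), e0, one_mul]
      _ = Y (v + u) * (Z (-B v u) * Y (-u + w)) * Z (-B (-u) w) := by rw [e1, e2]; group
      _ = _ := by
        rw [cZ _ _ (add_mem (neg_mem hu) hw), ← mul_assoc, e4, mul_assoc, mul_assoc, aZ, aZ]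
        simp [h8, alt_neg hB u w, h9, Z0]
  refine ⟨{ carrier := {z | ∃ v ∈ B.orthogonal U, ∃ a, ∃ k ∈ K, z = Y v * Z a * k}
            mul_mem' := ?_
            one_mem' := ⟨0, zero_mem _, 0, 1, one_mem _, by simp [hY0, Z0]⟩
            inv_mem' := ?_ }, ?_, fun k hk => ⟨0, zero_mem _, 0, k, hk, by simp [hY0, Z0]⟩, ?_⟩
  · rintro _ _ ⟨v, hv, a, k, hk, rfl⟩ ⟨w, hw, c, k', hk', rfl⟩
    refine ⟨v + ρ k w, add_mem hv (ho k hk w hw), -B v (ρ k w) + a + c, k * k', mul_mem hk hk', ?_⟩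
    calc _ = Y v * (Z a * (k * Y w * k⁻¹)) * (k * Z c) * k' := by group
      _ = _ := by
        rw [cY k hk w hw, cZ _ _ (ho k hk w hw), (hZK c k hk).eq, ← mul_assoc (Y v), m2 v hv _ (ho k hk w hw), ← aZ, ← aZ]
        group
  · rintro _ ⟨v, hv, a, k, hk, rfl⟩
    refine ⟨ρ k⁻¹ (-v), ho _ (inv_mem hk) _ (neg_mem hv), -a, k⁻¹, inv_mem hk, ?_⟩
    have e0 := m1' v hv (-1)
    rw [neg_one_smul, add_neg_cancel, hY0] at e0
    rw [← cY _ (inv_mem hk) _ (neg_mem hv), ← inv_eq_of_mul_eq_one_right e0,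
      ← inv_eq_of_mul_eq_one_right ((aZ a (-a)).trans (by rw [add_neg_cancel, Z0])), ← cZ a v hv]
    calc _ = k⁻¹ * (Y v)⁻¹ * (Z a)⁻¹ * k * k⁻¹ := by group
      _ = _ := by rw [mul_assoc _ _ k, ← (hZK a k hk).inv_right.eq]; group
  · rintro _ ⟨v, hv, a, k, hk, rfl⟩ h
    have h4 := congrArg (· e') h
    simp only [map_mul, LinearEquiv.mul_apply, rY v hv, hZ', (hKF k hk).2 e' he', tv_apply, sr_apply hB (hv e he), hee,
      map_add, map_smul, LinearMap.add_apply, LinearMap.smul_apply, alt_self hB, mem_orth.1 hv e' he', mem_orth.1 hv e he,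
      LinearEquiv.coe_one, id, smul_eq_mul, mul_zero, mul_one, add_zero, zero_smul, one_smul] at h4
    have h5 : v = -(a • e) := by linear_combination (norm := module) h4
    obtain rfl : v = 0 := hU v (h5 ▸ neg_mem (U.smul_mem a he)) hv
    obtain rfl : a = 0 := by simpa [hee] using congrArg (B e') h5
    rw [hY0, Z0, one_mul, one_mul] at h ⊢
    exact hK k hk h
  · rintro z hz (⟨a, h⟩ | ⟨v, hv, h⟩)
    · exact ⟨0, zero_mem _, a, 1, one_mem _, by rw [hY0, one_mul, mul_one, hL.eq hz (hZ a) (h.trans (hZ' a).symm)]⟩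
    · exact ⟨v, hP hv, 0, 1, one_mem _, by rw [Z0, mul_one, mul_one, hL.eq hz (lY v hv) (h.trans (rY v (hP hv)).symm)]⟩

end Heis

end CL.Chev
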