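/-
Coordinate subgroups of `Sp_{2n}(F)` and embeddings `Sp_{2m}(F) → Sp_{2n}(F)`.
-/
import Cfsg.Agent.Perm.SpAmalg1

set_option autoImplicit false

namespace CL.Chev.TypeC

open Matrix CL.Sp PM

variable {m n : ℕ} {F : Type*} [Field F]

/-- The linear automorphisms of `F^{2n}`. -/
abbrev GV (n : ℕ) (F : Type*) [Field F] := (Fin n ⊕ Fin n → F) ≃ₗ[F] (Fin n ⊕ Fin n → F)

theorem idx_swap (a : Fin n ⊕ Fin n) : idx a.swap = idx a := by rcases a with i | i <;> rfl
theorem eq_or_of_idx {a b : Fin n ⊕ Fin n} (h : idx b = idx a) : b = a ∨ b = a.swap := by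
  revert h; rcases a with i | i <;> rcases b with j | j <;> simp [idx]
theorem side_sq' (a : Fin n ⊕ Fin n) : (side a : F) * side a = 1 := by rw [← Int.cast_mul, side_sq, Int.cast_one]
theorem form_idx {a b : Fin n ⊕ Fin n} (h : idx a ≠ idx b) (c d : F) : (stdForm (Fin n) F) (Pi.single a c) (Pi.single b d) = 0 :=
  form_single_single (by rintro rfl; exact h (idx_swap b)) c d

variable (F) in
/-- The vectors supported on `I`. -/
def UI (I : Set (Fin n ⊕ Fin n)) : Submodule F (Fin n ⊕ Fin n → F) where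
  carrier := {v | ∀ c, c ∉ I → v c = 0}
  add_mem' ha hb c hc := by simp [ha c hc, hb c hc]
  zero_mem' _ _ := rfl
  smul_mem' a v hv c hc := by simp [hv c hc]

variable (F) in
/-- The isometries fixing the basis vectors in `I`. -/
noncomputable def FI (I : Set (Fin n ⊕ Fin n)) : Subgroup (GV n F) := Fix (stdForm (Fin n) F) (UI F I)

/-- The indices outside a set of positions. -/
def out (α : Set (Fin n)) : Set (Fin n ⊕ Fin n) := {c | idx c ∉ α}

variable {I I' : Set (Fin n ⊕ Fin n)} {T : Subgroup (GV n F)}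

theorem single_mem_UI {c : Fin n ⊕ Fin n} (h : c ∈ I) (a : F) : Pi.single c a ∈ UI F I := fun _ hd =>
  Pi.single_eq_of_ne (M := fun _ => F) (ne_of_mem_of_not_mem h hd).symm a

theorem mem_FI {g : (GV n F)} : g ∈ FI F I ↔ g ∈ Isom (stdForm (Fin n) F) ∧ ∀ c ∈ I, g (Pi.single c 1) = Pi.single c 1 := by
  refine and_congr_right fun _ => ⟨fun h c hc => h _ (single_mem_UI hc 1), fun h v hv => ?_⟩
  rw [← Finset.univ_sum_single v, map_sum]
  refine Finset.sum_congr rfl fun c _ => ?_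
  by_cases hc : c ∈ I
  · rw [← mul_one (v c), ← smul_eq_mul, Pi.single_smul', map_smul, h c hc]
  · simp [hv c hc]

theorem FI_anti (h : I ⊆ I') : FI F I' ≤ FI F I := fun _ hg => mem_FI.2 ⟨hg.1, fun c hc => (mem_FI.1 hg).2 c (h hc)⟩

theorem mem_orth_UI {v : (Fin n ⊕ Fin n → F)} : v ∈ (stdForm (Fin n) F).orthogonal (UI F I) ↔ ∀ c ∈ I, v c.swap = 0 := by
  rw [mem_orth' (stdForm_isAlt (Fin n) F)]
  refine ⟨fun h c hc => ?_, fun h w hw => ?_⟩
  · have := h _ (single_mem_UI hc 1)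
    rw [form_single, mul_one] at this
    exact (mul_eq_zero.1 this).resolve_left (left_ne_zero_of_mul_eq_one (side_sq' c))
  · rw [← Finset.univ_sum_single w, map_sum]
    refine Finset.sum_eq_zero fun c _ => ?_
    by_cases hc : c ∈ I
    · rw [form_single, h c hc, mul_zero, zero_mul]
    · simp [hw c hc]

theorem commute_FI (h : ∀ c, c.swap ∈ I ∨ c ∈ I') {g g' : (GV n F)} (hg : g ∈ FI F I) (hg' : g' ∈ FI F I') :
    Commute g g' := by
  have key : ∀ {I I' : Set (Fin n ⊕ Fin n)}, (∀ c, c.swap ∈ I ∨ c ∈ I') → ∀ g ∈ FI F I, ∀ g' ∈ FI F I', ∀ v,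
      g' (g v) = g' v + g v - v := fun {I I'} h g hg g' hg' v => by
    have h1 : g v - v ∈ (stdForm (Fin n) F).orthogonal (UI F I) := fun w hw => by
      change (stdForm (Fin n) F) w _ = 0
      rw [map_sub, ← hg.1 w v, hg.2 w hw, sub_self]
    have := hg'.2 (g v - v) fun c hc => by simpa using mem_orth_UI.1 h1 _ ((h c).resolve_right hc)
    rw [map_sub] at this
    linear_combination (norm := module) this
  refine LinearEquiv.ext fun v => ?_
  rw [LinearEquiv.mul_apply, LinearEquiv.mul_apply, key h g hg g' hg', key (fun c => by simpa using (h c.swap).symm) g' hg' g hg,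
    add_comm]

theorem tv_mem_FI {v : (Fin n ⊕ Fin n → F)} (h : ∀ c ∈ I, v c.swap = 0) (a : F) : tv (stdForm_isAlt (Fin n) F) v a ∈ FI F I :=
  TG_orth_le_fix (stdForm_isAlt (Fin n) F) _ (tv_mem_TG (stdForm_isAlt (Fin n) F) (mem_orth_UI.2 h) a)

theorem sr_mem_FI {v w : (Fin n ⊕ Fin n → F)} (h : ∀ c ∈ I, v c.swap = 0) (h' : ∀ c ∈ I, w c.swap = 0) : sr (stdForm_isAlt (Fin n) F) v w ∈ FI F I :=
  mul_mem (tv_mem_FI (fun c hc => by simp [h c hc, h' c hc]) _) (mul_mem (tv_mem_FI h _) (tv_mem_FI h' _))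

theorem FI_le (h : ∀ v : (Fin n ⊕ Fin n → F), (∀ c ∈ I, v c.swap = 0) → ∀ a, tv (stdForm_isAlt (Fin n) F) v a ∈ T) : FI F I ≤ T := by
  rw [FI, ← TG_orth_eq_fix (stdForm_isAlt (Fin n) F) (stdForm_nondegenerate _ _), TG_le_iff]
  exact fun v hv => h v (mem_orth_UI.1 hv)

theorem FI_out_le {α : Set (Fin n)} (h1 : ∀ a, idx a ∈ α → ∀ c, tv (stdForm_isAlt (Fin n) F) (Pi.single a 1) c ∈ T)
    (h2 : ∀ a b, idx a ∈ α → idx b ∈ α → idx a ≠ idx b → ∀ c, sr (stdForm_isAlt (Fin n) F) (Pi.single a 1) (Pi.single b c) ∈ T) :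
    FI F (out α) ≤ T :=
  FI_le fun _ hv => tv_mem_of_support h1 h2 fun a ha => by simpa using hv a.swap (by simpa [out, idx_swap] using ha)

theorem eq_zero_of_out {α : Set (Fin n)} {v : (Fin n ⊕ Fin n → F)} (h : v ∈ UI F (out α)) (h' : v ∈ (stdForm (Fin n) F).orthogonal (UI F (out α))) : v = 0 :=
  funext fun c => by
    by_cases hc : c ∈ out α
    · simpa using mem_orth_UI.1 h' c.swap (by simpa [out, idx_swap] using hc)
    · exact h c hc

theorem exists_move {α : Set (Fin n)} {v w : (Fin n ⊕ Fin n → F)} (hv : v ∈ (stdForm (Fin n) F).orthogonal (UI F (out α)))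
    (hw : w ∈ (stdForm (Fin n) F).orthogonal (UI F (out α))) (h : v ≠ 0) (h' : w ≠ 0) : ∃ g ∈ FI F (out α), g v = w := by
  obtain ⟨t, ht, e⟩ := move (stdForm_isAlt (Fin n) F) (stdForm_nondegenerate _ _) (UI F (out α)) (fun x => h (eq_zero_of_out x hv))
    (fun x => h' (eq_zero_of_out x hw)) fun x hx => (hv x hx).trans (hw x hx).symm
  exact ⟨t, TG_orth_le_fix (stdForm_isAlt (Fin n) F) _ ht, e⟩

theorem single_mem_orth {α : Set (Fin n)} {a : Fin n ⊕ Fin n} (h : idx a ∈ α) (t : F) :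
    Pi.single a t ∈ (stdForm (Fin n) F).orthogonal (UI F (out α)) :=
  mem_orth_UI.2 fun c hc => Pi.single_eq_of_ne (M := fun _ => F) (fun e : c.swap = a => hc (idx_swap c ▸ e ▸ h)) t

theorem sr_mem_of_move {q : Fin n} {c b : Fin n ⊕ Fin n} (hc : idx c ≠ q) (hb : idx b = q) (h1 : FI F (out {q}) ≤ T)
    (h3 : sr (stdForm_isAlt (Fin n) F) (Pi.single c 1) (Pi.single b 1) ∈ T) {v : (Fin n ⊕ Fin n → F)} (hv : v ∈ (stdForm (Fin n) F).orthogonal (UI F (out {q}))) :
    sr (stdForm_isAlt (Fin n) F) (Pi.single c 1) v ∈ T := by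
  by_cases h0 : v = 0
  · rw [h0, sr_zero_right]; exact one_mem _
  obtain ⟨g, hg, rfl⟩ := exists_move (single_mem_orth (α := {q}) hb (1 : F)) hv (by simp) h0
  exact (mem_FI.1 hg).2 c hc ▸ sr_conj_mem (stdForm_isAlt (Fin n) F) (h1 hg) hg.1 h3

theorem fix_gen {q : Fin n} {c b : Fin n ⊕ Fin n} (hc : idx c ≠ q) (hb : idx b = q) (h1 : FI F (out {q}) ≤ T)
    (h2 : ∀ a, tv (stdForm_isAlt (Fin n) F) (Pi.single c 1) a ∈ T) (h3 : sr (stdForm_isAlt (Fin n) F) (Pi.single c 1) (Pi.single b 1) ∈ T) :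
    FI F (insert c (out {idx c, q})) ≤ T := FI_le fun v hv a => by
  have h4 : ∀ d ∈ out {q}, (v - Pi.single c (v c) : (Fin n ⊕ Fin n → F)) d.swap = 0 := fun d hd => by
    by_cases e : d.swap = c
    · simp [e]
    · rw [Pi.sub_apply, Pi.single_eq_of_ne e, sub_zero]
      refine hv d (or_iff_not_imp_right.2 fun h => ?_)
      have : idx d = idx c := by simpa [out, show idx d ≠ q from hd] using h
      exact (eq_or_of_idx this).resolve_right (by rintro rfl; simp at e)
  have h5 : (stdForm (Fin n) F) (Pi.single c 1) (v - Pi.single c (v c)) = 0 := mem_orth_UI.2 h4 _ (single_mem_UI hc 1)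
  have h6 : Pi.single c (v c) = v c • (Pi.single c 1 : (Fin n ⊕ Fin n → F)) := by rw [← Pi.single_smul', smul_eq_mul, mul_one]
  rw [← add_sub_cancel (Pi.single c (v c)) v, tv_add (stdForm_isAlt (Fin n) F) (by rw [h6, map_smul, LinearMap.smul_apply, ← h6, h5, smul_zero])]
  refine mul_mem (by rw [h6, tv_smul]; exact h2 _) (mul_mem ?_ (h1 (tv_mem_FI h4 a)))
  nth_rewrite 1 [h6]
  rw [sr_smul (stdForm_isAlt (Fin n) F) (by rw [map_smul, h5, smul_zero])]
  exact sr_mem_of_move hc hb h1 h3 (Submodule.smul_mem _ _ (Submodule.smul_mem _ _ (mem_orth_UI.2 h4)))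

theorem gen_pair {p q : Fin n} (hpq : p ≠ q) (h1 : FI F (out {q}) ≤ T)
    (h2 : ∀ a, idx a = p → ∃ b, idx b = q ∧ sr (stdForm_isAlt (Fin n) F) (Pi.single a 1) (Pi.single b 1) ∈ T) : FI F (out {p, q}) ≤ T := by
  have h3 : ∀ a b, idx a = p → idx b = q → ∀ t, sr (stdForm_isAlt (Fin n) F) (Pi.single a 1) (Pi.single b t) ∈ T := fun a b ha hb t => by
    obtain ⟨b', hb', h⟩ := h2 a ha
    exact sr_mem_of_move (ha ▸ hpq) hb' h1 h (single_mem_orth (α := {q}) hb t)
  have h4 : ∀ b, idx b = q → ∀ t, tv (stdForm_isAlt (Fin n) F) (Pi.single b 1) t ∈ T := fun b hb t =>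
    h1 (tv_mem_FI (mem_orth_UI.1 (single_mem_orth (α := {q}) hb 1)) t)
  refine FI_out_le ?_ ?_
  · rintro a (ha | ha) t
    · have e : ∀ b c d, idx b = q → (stdForm (Fin n) F) (Pi.single a c) (Pi.single b d) = 0 := fun b c d hb => form_idx (by rwa [ha, hb]) c d
      have := tv_conj_mem (stdForm_isAlt (Fin n) F) (h3 a (.inr q) ha rfl (-1)) (sr_mem_isom _ _ _) (h4 (.inl q) rfl t)
      rw [sr_apply (stdForm_isAlt (Fin n) F) (e _ _ _ rfl), (alt_eq_zero_comm (stdForm_isAlt (Fin n) F)).1 (e _ _ _ rfl), zero_smul, add_zero, form_single, add_comm,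
        show ((side (.inr q : Fin n ⊕ Fin n) : F) * (Pi.single (.inl q) 1 : (Fin n ⊕ Fin n → F)) (Sum.inr q).swap * -1) = 1 by simp [side],
        one_smul, tv_add (stdForm_isAlt (Fin n) F) (e _ _ _ rfl), ← Pi.single_smul', smul_eq_mul] at this
      exact (T.mul_mem_cancel_right (mul_mem (h3 a _ ha rfl _) (h4 _ rfl _))).1 this
    · exact h4 a ha t
  · rintro a b (ha | ha) (hb | hb) h t
    · exact absurd (ha.trans hb.symm) h
    · exact h3 a b ha hb t
    · rw [← mul_one t, ← smul_eq_mul, Pi.single_smul', ← sr_smul (stdForm_isAlt (Fin n) F) (form_idx h _ _), ← Pi.single_smul',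
        sr_comm (stdForm_isAlt (Fin n) F) (form_idx h _ _)]
      exact h3 b a hb ha _
    · exact absurd (ha.trans hb.symm) h

/-! ### Roots -/

theorem dot_comb {k r s : Rt n} (h : (rep n).R.Comb k r s) : ∃ i j : ℤ, 0 < i ∧ 0 < j ∧ k.1 = i • r.1 + j • s.1 := by
  obtain ⟨i, j, hi, hj, e⟩ := h
  exact ⟨i, j, hi, hj, (rep n).root_eq_iff.1 e⟩

theorem comb_nonneg {k r s : Rt n} (h : (rep n).R.Comb k r s) {w : Fin n → ℤ} (h1 : 0 ≤ r.1 ⬝ᵥ w) (h2 : 0 ≤ s.1 ⬝ᵥ w) :
    0 ≤ k.1 ⬝ᵥ w := by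
  obtain ⟨i, j, hi, hj, e⟩ := dot_comb h
  rw [e, add_dotProduct, smul_dotProduct, smul_dotProduct, smul_eq_mul, smul_eq_mul]
  positivity

/-- The root is supported on `α`. -/
def Supp (α : Set (Fin n)) (r : Rt n) : Prop := ∀ k, k ∉ α → r.1 k = 0

theorem Supp.comb {α : Set (Fin n)} {k r s : Rt n} (h : (rep n).R.Comb k r s) (h1 : Supp α r) (h2 : Supp α s) :
    Supp α k := fun l hl => by
  obtain ⟨i, j, -, -, e⟩ := dot_comb h
  simp [e, h1 l hl, h2 l hl]

theorem wt_apply (a : Fin n ⊕ Fin n) (k : Fin n) : wt a k = if k = idx a then side a else 0 := by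
  rcases a with i | i <;> simp [uv, idx, side, Fin.ext_iff]
  split_ifs <;> rfl

theorem dot_wt' (v : Fin n → ℤ) (a : Fin n ⊕ Fin n) : v ⬝ᵥ wt a = side a * v (idx a) := by
  rcases a with i | i <;> simp [dot_uv, idx, side]

theorem side_cases (a : Fin n ⊕ Fin n) : side a = 1 ∨ side a = -1 := by rcases a with i | i <;> simp [side]

theorem exists_half {p q : Fin n} (hpq : p ≠ q) {r s : Rt n} (h : s ≠ (rep n).R.neg r) :
    ∃ c, (idx c = p ∨ idx c = q) ∧ 0 ≤ r.1 ⬝ᵥ wt c ∧ 0 ≤ s.1 ⬝ᵥ wt c := by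
  by_contra h1
  simp only [not_exists, not_and_or, dot_wt', not_le] at h1
  have key : ∀ r : Rt n, r.1 p ≠ 0 → r.1 q ≠ 0 → ∀ k, (r.1 k = 1 ∨ r.1 k = -1) ∧ (k = p ∨ k = q) ∨
      r.1 k = 0 ∧ k ≠ p ∧ k ≠ q := by
    intro r h2 h3 k
    obtain ⟨_, a, b, hab, rfl⟩ := r
    have := side_cases a
    have := side_cases b
    revert h2 h3
    simp only [Pi.sub_apply, wt_apply]
    split_ifs <;> omega
  have h2 := (h1 (.inl p)).resolve_left (by simp [idx])
  have h3 := (h1 (.inr p)).resolve_left (by simp [idx])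
  have h4 := (h1 (.inl q)).resolve_left (by simp [idx])
  have h5 := (h1 (.inr q)).resolve_left (by simp [idx])
  simp only [side, idx, Sum.elim_inl, Sum.elim_inr, id] at h2 h3 h4 h5
  refine h (Subtype.ext (funext fun k => ?_))
  change s.1 k = -r.1 k
  rcases key r (by omega) (by omega) k with ⟨h6, rfl | rfl⟩ | h6 <;> have := key s (by omega) (by omega) k <;> omega

/-- A system realised by transvections and short root elements on the basis vectors `f a`. -/
structure Real (f : Fin m ⊕ Fin m → Fin n ⊕ Fin n) (S : StSys (rep m).R F (GV n F)) : Prop where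
  long : ∀ a t, S.x ⟨_, a, a.swap, ne_swap a, rfl⟩ t = tv (stdForm_isAlt (Fin n) F) (Pi.single (f a) 1) (side a * t)
  short : ∀ a b (h : a ≠ b), a ≠ b.swap → ∀ t, S.x ⟨_, a, b, h, rfl⟩ t =
    sr (stdForm_isAlt (Fin n) F) (Pi.single (f a) 1) (Pi.single (f b.swap) (-(side b * sgn a b * t)))

variable {f : Fin m ⊕ Fin m → Fin n ⊕ Fin n} {S : StSys (rep m).R F (GV n F)}

theorem Real.cases (h : Real f S) (r : Rt m) (t : F) :
    (∃ a c, r.1 = wt a + wt a ∧ S.x r t = tv (stdForm_isAlt (Fin n) F) (Pi.single (f a) 1) c) ∨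
    ∃ a b c, idx a ≠ idx b ∧ r.1 = wt a + wt b ∧ S.x r t = sr (stdForm_isAlt (Fin n) F) (Pi.single (f a) 1) (Pi.single (f b) c) := by
  obtain ⟨_, a, b, h1, rfl⟩ := r
  by_cases h2 : a = b.swap
  · obtain rfl : b = a.swap := by simp [h2]
    exact Or.inl ⟨a, _, by simp [wt_swap], h.long a t⟩
  · exact Or.inr ⟨a, b.swap, _, fun e => (eq_or_of_idx e).elim h2 fun e => h1 (by simpa using e),
      by simp [wt_swap, sub_eq_add_neg], h.short a b h1 h2 t⟩

theorem Real.long_ex (h : Real f S) (a : Fin m ⊕ Fin m) (c : F) :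
    ∃ (r : Rt m) (t : F), r.1 = wt a + wt a ∧ S.x r t = tv (stdForm_isAlt (Fin n) F) (Pi.single (f a) 1) c :=
  ⟨⟨_, a, a.swap, ne_swap a, rfl⟩, side a * c, by simp [wt_swap], by rw [h.long, ← mul_assoc, side_sq', one_mul]⟩

theorem Real.short_ex (h : Real f S) {a b : Fin m ⊕ Fin m} (hab : idx a ≠ idx b) (r : Rt m) (hr : r.1 = wt a + wt b)
    (c : F) : ∃ t : F, S.x r t = sr (stdForm_isAlt (Fin n) F) (Pi.single (f a) 1) (Pi.single (f b) c) := by
  have h3 : a ≠ b.swap := by rintro rfl; exact hab (idx_swap b)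
  have h4 : a ≠ b.swap.swap := by rw [Sum.swap_swap]; rintro rfl; exact hab rfl
  obtain rfl : r = ⟨_, a, b.swap, h3, rfl⟩ := Subtype.ext (by simp [hr, wt_swap])
  refine ⟨-(side b.swap * sgn a b.swap * c), ?_⟩
  rw [h.short _ _ h3 h4, Sum.swap_swap]
  have h5 : (sgn a b.swap : F) * sgn a b.swap = 1 := by rw [← Int.cast_mul, sgn_sq, Int.cast_one]
  congr 2
  linear_combination (sgn a b.swap * sgn a b.swap * c) * side_sq' (F := F) b.swap + c * h5

theorem real_id : Real id ((sys n F).map (spLin (Fin n) F)) := ⟨spLin_long, fun _ _ => spLin_short⟩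

/-! ### Embeddings -/

variable (F) in
/-- The inclusion matrix. -/
def incl (j : Fin m → Fin n) : Matrix (Fin n ⊕ Fin n) (Fin m ⊕ Fin m) F := (1 : Matrix _ _ F).submatrix id (Sum.map j j)

variable {j : Fin m → Fin n} (hj : Function.Injective j)
include hj

theorem incl_mul : (incl F j)ᵀ * incl F j = 1 := by
  ext a b
  simp [incl, Matrix.mul_apply, one_apply, (hj.sumMap hj).eq_iff, eq_comm]

omit hj in
theorem J_incl : J (Fin n) F * incl F j = incl F j * J (Fin m) F := by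
  have : ∀ (a : Fin n) (b : Fin m) (c : F), (∑ x, if a = j x then if x = b then c else 0 else 0) = if a = j b then c else 0 :=
    fun a b c => by rw [Finset.sum_eq_single b] <;> simp +contextual
  ext (a | a) (b | b) <;> simp [incl, Matrix.mul_apply, one_apply, J, neg_ite, this]

theorem incl_mul' (X : Matrix (Fin m ⊕ Fin m) (Fin n ⊕ Fin n) F) : (incl F j)ᵀ * (incl F j * X) = X := by
  rw [← Matrix.mul_assoc, incl_mul hj, Matrix.one_mul]

variable (F) in
/-- The embedding of a smaller symplectic group. -/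
def emb : symplecticGroup (Fin m) F →* symplecticGroup (Fin n) F where
  toFun A := ⟨1 + incl F j * (A.1 - 1) * (incl F j)ᵀ, by
    have h1 : ∀ X : Matrix (Fin m ⊕ Fin m) (Fin n ⊕ Fin n) F, A.1ᵀ * (J (Fin m) F * (A.1 * X)) = J (Fin m) F * X :=
      fun X => by rw [← Matrix.mul_assoc, ← Matrix.mul_assoc, SymplecticGroup.mem_iff'.1 A.2]
    have h2 : ∀ X : Matrix (Fin m ⊕ Fin m) (Fin n ⊕ Fin n) F, J (Fin n) F * (incl F j * X) = incl F j * (J (Fin m) F * X) :=
      fun X => by rw [← Matrix.mul_assoc, J_incl, Matrix.mul_assoc]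
    have h3 : (incl F j)ᵀ * J (Fin n) F = J (Fin m) F * (incl F j)ᵀ := by
      simpa using congrArg transpose (J_incl (F := F) (j := j))
    simp only [SymplecticGroup.mem_iff', transpose_add, transpose_mul, transpose_sub, transpose_one, transpose_transpose,
      Matrix.mul_add, Matrix.add_mul, Matrix.mul_sub, Matrix.sub_mul, Matrix.mul_one,
      Matrix.one_mul, Matrix.mul_assoc, incl_mul' hj, h1, h2, h3]
    abel⟩
  map_one' := Subtype.ext (by simp)
  map_mul' A B := Subtype.ext (by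
    simp only [Submonoid.coe_mul, Matrix.mul_add, Matrix.add_mul, Matrix.mul_sub, Matrix.sub_mul, Matrix.mul_one,
      Matrix.one_mul, Matrix.mul_assoc, incl_mul' hj]
    abel)

theorem emb_inj : Function.Injective (emb F hj) := (injective_iff_map_eq_one _).2 fun A h => Subtype.ext (by
  have h1 : incl F j * (A.1 - 1) * (incl F j)ᵀ = 0 := add_eq_left.1 (congrArg Subtype.val h)
  have := congrArg (fun X => (incl F j)ᵀ * X * incl F j) h1
  simpa only [Matrix.mul_assoc, incl_mul' hj, incl_mul hj, ← Matrix.mul_assoc (incl F j)ᵀ, Matrix.one_mul, Matrix.mul_one,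
    Matrix.mul_zero, Matrix.zero_mul, sub_eq_zero, OneMemClass.coe_one] using this)

omit hj in
theorem incl_single (a b : Fin m ⊕ Fin m) (k : ℤ) : incl F j * MinRep.cst F (single a b k) * (incl F j)ᵀ =
    MinRep.cst F (single (Sum.map j j a) (Sum.map j j b) k) := by
  ext c d
  rw [Matrix.mul_apply, Finset.sum_eq_single b, Matrix.mul_apply, Finset.sum_eq_single a]
  · simp [incl, one_apply, single_apply, ite_and, eq_comm]
    split_ifs <;> rfl
  all_goals simp +contextual [Matrix.mul_apply, single_apply, eq_comm]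

theorem emb_x {a b : Fin m ⊕ Fin m} (h : a ≠ b) (t : F) : emb F hj ((sys m F).x ⟨_, a, b, h, rfl⟩ t) =
    (sys n F).x ⟨_, Sum.map j j a, Sum.map j j b, (hj.sumMap hj).ne h, rfl⟩ t := Subtype.ext (by
  change 1 + incl F j * (1 + t • _ - 1) * (incl F j)ᵀ = 1 + t • _
  have h1 : ∀ a : Fin m ⊕ Fin m, Sum.map j j a.swap = (Sum.map j j a).swap := by rintro (a | a) <;> rfl
  have h2 : ∀ a b : Fin m ⊕ Fin m, sgn (Sum.map j j a) (Sum.map j j b) = sgn a b := by rintro (a | a) (b | b) <;> rfl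
  rw [add_sub_cancel_left, Matrix.mul_smul, Matrix.smul_mul]
  congr 2
  by_cases h' : a = b.swap
  · obtain rfl : b = a.swap := by simp [h']
    simp only [h1, e_long, incl_single]
  · rw [e_short h h', e_short ((hj.sumMap hj).ne h) (h1 b ▸ (hj.sumMap hj).ne h'), map_add, map_add, Matrix.mul_add, Matrix.add_mul,
      incl_single, incl_single, ← h1, ← h1, h2, h2])

theorem real_emb : Real (Sum.map j j) ((sys m F).map ((spLin (Fin n) F).comp (emb F hj))) := by
  have h1 : ∀ a : Fin m ⊕ Fin m, Sum.map j j a.swap = (Sum.map j j a).swap := by rintro (a | a) <;> rfl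
  have h2 : ∀ a b : Fin m ⊕ Fin m, sgn (Sum.map j j a) (Sum.map j j b) = sgn a b := by rintro (a | a) (b | b) <;> rfl
  have h3 : ∀ a : Fin m ⊕ Fin m, side (Sum.map j j a) = side a := by rintro (a | a) <;> rfl
  refine ⟨fun a t => ?_, fun a b h h' t => ?_⟩
  · rw [StSys.map_x, MonoidHom.comp_apply, emb_x hj (ne_swap a)]
    simp only [h1, spLin_long, h3]
  · rw [StSys.map_x, MonoidHom.comp_apply, emb_x hj h, spLin_short ((hj.sumMap hj).ne h) (h1 b ▸ (hj.sumMap hj).ne h'), h1, h2, h3]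

end CL.Chev.TypeC
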