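/-
`Sp_{2n}(F)` as the universal completion of an amalgam of small subgroups.
-/
import Cfsg.Agent.Perm.SpAmalg2

set_option autoImplicit false

namespace CL.Chev.TypeC

open Matrix CL.Sp PM
open scoped commutatorElement

variable {n : ℕ} {F : Type*} [Field F] {E : Type*} [Group E] {ρ : E →* (GV n F)} {A : Fin n → Subgroup E}

theorem map_sup_eq {p q : Fin n} (hpq : p ≠ q) (hA : (A q).map ρ = FI F (out {q})) {M : Subgroup E}
    (hM : M.map ρ = FI F (out {p, q} ∪ Set.range .inl)) : (M ⊔ A q).map ρ = FI F (insert (.inl p) (out {p, q})) := by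
  rw [Subgroup.map_sup, hA, hM]
  refine le_antisymm (sup_le (FI_anti ?_) (FI_anti ?_)) (fix_gen (c := .inl p) (b := .inl q) hpq rfl le_sup_right
    (fun a => Subgroup.mem_sup_left (tv_mem_FI ?_ a)) (Subgroup.mem_sup_left (sr_mem_FI ?_ ?_)))
  · rintro _ (rfl | h); exacts [Or.inr ⟨p, rfl⟩, Or.inl h]
  · rintro _ (rfl | h); exacts [hpq, fun e => h (Or.inr e)]
  all_goals
    rintro c (h | ⟨c, rfl⟩)
    exacts [mem_orth_UI.1 (single_mem_orth (by simp [idx]) 1) c h, by simp]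

theorem commute_A {p q : Fin n} (hpq : p ≠ q) (hA : ∀ k, (A k).map ρ = FI F (out {k})) (gA : InjSub ρ (A p ⊔ A q))
    {x y : E} (hx : x ∈ A p) (hy : y ∈ A q) : Commute x y :=
  gA.commute (Subgroup.mem_sup_left hx) (Subgroup.mem_sup_right hy) (commute_FI (I := out {p}) (I' := out {q}) (fun c => by
    simp only [out, Set.mem_ofPred_eq, idx_swap, Set.mem_singleton_iff]
    exact or_iff_not_imp_left.2 fun h e => hpq ((not_not.1 h).symm.trans e))
    (hA p ▸ Subgroup.mem_map_of_mem ρ hx) (hA q ▸ Subgroup.mem_map_of_mem ρ hy))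

theorem eq_of_nonneg {m : ℕ} {a b c : Fin m ⊕ Fin m} (h : 0 ≤ (wt a + wt b) ⬝ᵥ wt c) (h1 : idx c = idx a)
    (h2 : b = a ∨ idx a ≠ idx b) : c = a := (eq_or_of_idx h1).resolve_right (by
  rintro rfl
  rw [dot_wt', side_swap, idx_swap, Pi.add_apply, wt_apply, wt_apply, if_pos rfl] at h
  have := side_sq a
  rcases h2 with rfl | h2
  · rw [if_pos rfl] at h; linarith
  · rw [if_neg h2] at h; linarith)

theorem not_supp {m : ℕ} {a b : Fin m ⊕ Fin m} {r : Rt m} (hr : r.1 = wt a + wt b) (h2 : b = a ∨ idx a ≠ idx b)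
    {α : Set (Fin m)} (h : Supp α r) : idx a ∈ α := by_contra fun h1 => by
  have h3 := h _ h1
  rw [hr, Pi.add_apply, wt_apply, wt_apply, if_pos rfl] at h3
  have := side_cases a
  rcases h2 with rfl | h2
  · rw [if_pos rfl] at h3; omega
  · rw [if_neg h2] at h3; omega

theorem rank_two {j : Fin 2 → Fin n} (hj : Function.Injective j) (hA : ∀ k, (A k).map ρ = FI F (out {k})) {M : Subgroup E}
    (hM : M.map ρ = FI F (out {j 0, j 1} ∪ Set.range .inl)) (gA : InjSub ρ (A (j 0) ⊔ A (j 1)))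
    (gM : ∀ k, InjSub ρ (M ⊔ A (j k))) :
    InjSub ρ (A (j 0) ⊔ A (j 1) ⊔ M) ∧ (A (j 0) ⊔ A (j 1) ⊔ M).map ρ = FI F (out {j 0, j 1}) := by
  have hS := real_emb (F := F) hj
  have hF : ((sys 2 F).map ((spLin (Fin n) F).comp (emb F hj))).Faithful :=
    (sys_faithful 2 F).map_of_injective (spLin_injective.comp (emb_inj hj))
  set S := (sys 2 F).map ((spLin (Fin n) F).comp (emb F hj))
  have e1 : ∀ k : Fin 2, ({j k, j k.rev} : Set (Fin n)) = {j 0, j 1} := by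
    intro k; fin_cases k; exacts [rfl, Set.pair_comm _ _]
  have e2 : ∀ k : Fin 2, j k ≠ j k.rev := fun k => hj.ne (by revert k; decide)
  have e3 : ∀ k l : Fin 2, k ≠ l → k = l.rev := by decide
  have e4 : ∀ a : Fin 2 ⊕ Fin 2, idx (Sum.map j j a) = j (idx a) := by rintro (a | a) <;> rfl
  have hA' : ∀ {k x}, x ∈ A k → ρ x ∈ FI F (out {k}) := fun {k x} hx => hA k ▸ Subgroup.mem_map_of_mem ρ hx
  have comm : ∀ k : Fin 2, ∀ x ∈ A (j k), ∀ y ∈ A (j k.rev), Commute x y := fun k x hx y hy =>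
    commute_A (e2 k) hA (by fin_cases k; exacts [gA, sup_comm (A (j 0)) _ ▸ gA]) hx hy
  have hg : ∀ a : Fin 2 ⊕ Fin 2, ∃ g ∈ A (j (idx a)), ρ g (Pi.single (.inl (j (idx a))) 1) = Pi.single (Sum.map j j a) 1 :=
    fun a => by
      obtain ⟨g, hg, e⟩ := exists_move (single_mem_orth (α := {j (idx a)}) (a := .inl (j (idx a))) rfl (1 : F))
        (single_mem_orth (α := {j (idx a)}) (e4 a) (1 : F)) (by simp) (by simp)
      obtain ⟨g, h, rfl⟩ := hA _ ▸ hg
      exact ⟨g, h, e⟩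
  choose g hg hg' using hg
  let D : Fin 2 ⊕ Fin 2 → Subgroup E := fun a => (M ⊔ A (j (idx a).rev)).map (MulAut.conj (g a)).toMonoidHom
  have hD : ∀ a, ∀ z ∈ A (j (idx a).rev), z ∈ D a := fun a z hz =>
    ⟨z, Subgroup.mem_sup_right hz, by simp [(comm _ _ (hg a) _ hz).eq]⟩
  have hM' : ∀ k, ∀ t : F, Pi.single (M := fun _ => F) (Sum.inl (j k)) t ∈ (stdForm (Fin n) F).orthogonal (UI F (out {j 0, j 1} ∪ Set.range .inl)) :=
    fun k t => mem_orth_UI.2 (by
      rintro c (h | ⟨c, rfl⟩)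
      exacts [mem_orth_UI.1 (single_mem_orth (by rw [← e1 k]; simp [idx]) t) c h, by simp])
  have ex : ∀ (r : Rt 2) (t : F), ∃ z, ρ z = S.x r t ∧ (∀ a, 0 ≤ r.1 ⬝ᵥ wt a → z ∈ D a) ∧ ∀ k, Supp {k} r → z ∈ A (j k) := by
    intro r t
    rcases hS.cases r t with ⟨a, c, hr, e⟩ | ⟨a, b, c, hab, hr, e⟩
    · obtain ⟨x, hx, e'⟩ := hM ▸ tv_mem_FI (mem_orth_UI.1 (hM' (idx a) 1)) c
      obtain ⟨x', hx', e''⟩ := hA _ ▸ tv_mem_FI (mem_orth_UI.1 (single_mem_orth (α := {j (idx a)}) (a := .inl (j (idx a)))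
        rfl (1 : F))) c
      obtain rfl := (gM _).eq (Subgroup.mem_sup_left hx) (Subgroup.mem_sup_right hx') (e'.trans e''.symm)
      have hz := mul_mem (mul_mem (hg a) hx') (inv_mem (hg a))
      refine ⟨g a * x * (g a)⁻¹, by rw [map_mul, map_mul, map_inv, e', conj_tv (stdForm_isAlt (Fin n) F) (hA' (hg a)).1, hg', e],
        fun a' ha' => ?_, fun k hk => by rwa [← not_supp hr (Or.inl rfl) hk]⟩
      by_cases h : idx a' = idx a
      · obtain rfl := eq_of_nonneg (hr ▸ ha') h (Or.inl rfl)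
        exact ⟨x, Subgroup.mem_sup_left hx, rfl⟩
      · exact hD _ _ (e3 _ _ (Ne.symm h) ▸ hz)
    · obtain ⟨x, hx, e'⟩ := hM ▸ sr_mem_FI (mem_orth_UI.1 (hM' (idx a) 1)) (mem_orth_UI.1 (hM' (idx b) c))
      have ha := e3 _ _ hab ▸ hg a
      have hb := e3 _ _ hab.symm ▸ hg b
      refine ⟨g a * (g b * x * (g b)⁻¹) * (g a)⁻¹, ?_, fun a' ha' => ?_, fun k hk => absurd ((not_supp hr (Or.inr hab) hk).trans
        (not_supp (hr.trans (add_comm _ _)) (Or.inr hab.symm) hk).symm) hab⟩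
      · simp only [map_mul, map_inv, e', e]
        rw [conj_sr (stdForm_isAlt (Fin n) F) (hA' (hg b)).1, conj_sr (stdForm_isAlt (Fin n) F) (hA' (hg a)).1, (mem_FI.1 (hA' (hg b))).2 _ (hj.ne hab), hg', ← mul_one c,
          ← smul_eq_mul, Pi.single_smul', Pi.single_smul', map_smul, map_smul, hg',
          (mem_FI.1 (hA' (hg a))).2 _ fun h => hj.ne hab.symm ((e4 b).symm.trans h)]
      by_cases h : idx a' = idx a
      · obtain rfl := eq_of_nonneg (hr ▸ ha') h (Or.inr hab)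
        exact ⟨_, mul_mem (mul_mem (Subgroup.mem_sup_right hb) (Subgroup.mem_sup_left hx))
          (inv_mem (Subgroup.mem_sup_right hb)), rfl⟩
      · obtain rfl := eq_of_nonneg (add_comm (wt a) _ ▸ hr ▸ ha') ((e3 _ _ h).trans (e3 _ _ hab.symm).symm) (Or.inr hab.symm)
        refine ⟨_, mul_mem (mul_mem (Subgroup.mem_sup_right ha) (Subgroup.mem_sup_left hx))
          (inv_mem (Subgroup.mem_sup_right ha)), ?_⟩
        calc _ = (g a' * g a) * x * (g a' * g a)⁻¹ := by simp [mul_assoc]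
          _ = _ := by rw [(comm _ _ (hg a') _ ha).eq]; group
  choose y h1 h2 h3 using ex
  let P : S.Pre ρ := ⟨y, fun r t u => by
      obtain ⟨c, -, h, -⟩ := exists_half (zero_ne_one (α := Fin 2)) ((rep 2).R.neg_ne_self r).symm
      exact ((gM _).conj _).eq (h2 r _ c h) (mul_mem (h2 r _ c h) (h2 r _ c h)) (by rw [map_mul, h1, h1, h1, S.x_add]),
    h1, fun r s t u e e' => by
      obtain ⟨c, -, h, h'⟩ := exists_half (zero_ne_one (α := Fin 2)) e'
      refine StSys.comm_mem_of_injSub ((gM _).conj (g c)) e e' (fun k hk t => ⟨h1 k t, h2 k t c ?_⟩) t u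
      rcases hk with rfl | rfl | hk
      exacts [h, h', comb_nonneg hk h h']⟩
  have hS' := P.sys_map hF.uFaithful irred (by simp)
  have hx : ∀ r t, (P.sys hF.uFaithful irred (by simp)).x r t = y r t := fun _ _ => rfl
  set S' := P.sys hF.uFaithful irred (by simp)
  have hh : ∀ k r, Supp {k} r → ∀ t, S'.h r t ∈ A (j k) := fun k r hr t => by
    have hr' : Supp {k} ((rep 2).R.neg r) := fun l hl => neg_eq_zero.2 (hr l hl)
    have : ∀ t, S'.n r t ∈ A (j k) := fun t => mul_mem (mul_mem (h3 r _ k hr) (h3 _ _ k hr')) (h3 r _ k hr)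
    exact mul_mem (this _) (this _)
  have hH : S'.H ≤ A (j 0) ⊔ A (j 1) := by
    have s1 : Supp {1} ((rep 2).R.simple 1) := by intro k; fin_cases k <;> simp [MinRep.R_simple, rep, sv, uv]
    have s0 : Supp {0} ((rep 2).R.refl ((rep 2).R.simple 0) ((rep 2).R.simple 1)) := by
      intro k
      have := congrFun ((rep 2).v_refl ((rep 2).R.simple 0) ((rep 2).R.simple 1)) k
      rw [← MinRep.R_pair, RS.pair_simple_simple, cartan] at this
      fin_cases k
      · simp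
      · exact fun _ => this.trans (by simp [MinRep.R_simple, rep, sv, uv])
    rw [StSys.H_eq_closure_simple, Subgroup.closure_le]
    rintro _ ⟨i, t, ht, rfl⟩
    fin_cases i
    · have h4 := S'.conj_n_h ((rep 2).R.simple 1) ((rep 2).R.simple 0) ht
      obtain ⟨c, -, h5⟩ := (S'.induces_n ((rep 2).R.simple 0) one_ne_zero).exists_conj_h ((rep 2).R.simple 1)
      rw [h5, RS.pair_simple_simple, cartan] at h4
      have h6 := mul_mem (inv_mem (Subgroup.mem_sup_right (S := A (j 0)) (hh 1 _ s1 t)))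
        (Subgroup.mem_sup_left (T := A (j 1)) (mul_mem (hh 0 _ s0 (c * t)) (inv_mem (hh 0 _ s0 c))))
      rw [h4] at h6
      simpa using h6
    · exact Subgroup.mem_sup_right (hh 1 _ s1 t)
  have hAg : ∀ k, A (j k) ≤ S'.grp := fun k z hz => ((gM k).mono le_sup_right).mem hz (FI_out_le (α := {j k}) (fun a ha c => by
    obtain ⟨a, rfl⟩ : ∃ a', Sum.map j j a' = a := by
      rcases a with a | a <;> obtain rfl : a = j k := ha
      exacts [⟨.inl k, rfl⟩, ⟨.inr k, rfl⟩]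
    obtain rfl : idx a = k := hj ((e4 a).symm.trans ha)
    obtain ⟨r, t, hr, e⟩ := hS.long_ex a c
    exact ⟨y r t, ⟨h3 r t _ fun l hl => by simp [hr, wt_apply, show l ≠ idx a from hl], S'.x_mem_grp r t⟩, (h1 r t).trans e⟩)
    (fun a b ha hb h => absurd (ha.trans hb.symm) h) (hA' hz))
  have hMg : M ≤ S'.grp := fun z hz => by
    have h4 := ((gM _).conj (g (.inl 0))).mem (D' := S'.grp) ⟨z, Subgroup.mem_sup_left hz, rfl⟩ (fix_gen (c := .inl (j 0))
      (b := .inl (j 1)) (e2 0) rfl (hA _ ▸ Subgroup.map_mono (le_inf (hD (.inl 0)) (hAg 1))) (fun c => by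
        obtain ⟨r, t, hr, e⟩ := hS.long_ex (.inl 0) c
        exact ⟨y r t, ⟨h2 r t _ (by simp [hr, uv_dot]), S'.x_mem_grp r t⟩, (h1 r t).trans e⟩) (by
        obtain ⟨t, e⟩ := hS.short_ex (a := .inl 0) (b := .inl 1) (by decide) ⟨_, .inl 0, .inr 1, by decide, rfl⟩ (by simp) 1
        exact ⟨y _ t, ⟨h2 _ t _ (by simp [uv_dot]), S'.x_mem_grp _ t⟩, (h1 _ t).trans e⟩) (by
        have a1 : ρ (g (.inl 0)) ∈ FI F (insert (.inl (j 0)) (out {j 0, j 1})) := mem_FI.2 ⟨(hA' (hg _)).1, by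
          rintro _ (rfl | h)
          exacts [hg' (.inl 0), (mem_FI.1 (hA' (hg _))).2 _ fun e => h (Or.inl e)]⟩
        have a2 : ρ z ∈ FI F (insert (.inl (j 0)) (out {j 0, j 1})) := FI_anti (by
          rintro _ (rfl | h); exacts [Or.inr ⟨_, rfl⟩, Or.inl h]) (hM ▸ Subgroup.mem_map_of_mem ρ hz)
        simpa [idx] using mul_mem (mul_mem a1 a2) (inv_mem a1)))
    simpa [mul_assoc] using mul_mem (mul_mem (inv_mem (hAg _ (hg (.inl 0)))) h4) (hAg _ (hg (.inl 0)))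
  refine ⟨fun z hz e => gA z (hH (StSys.mem_H_of_map (hS' ▸ hF) (sup_le (sup_le (hAg 0) (hAg 1)) hMg hz) e)) e,
    le_antisymm ?_ (gen_pair (e2 0) ?_ fun a ha => ?_)⟩
  · rw [Subgroup.map_sup, Subgroup.map_sup, hA, hA, hM]
    exact sup_le (sup_le (FI_anti fun c h e => h (Or.inl e)) (FI_anti fun c h e => h (Or.inr e))) (FI_anti fun c => Or.inl)
  · exact hA _ ▸ Subgroup.map_mono (le_sup_of_le_left le_sup_right)
  · obtain ⟨a, rfl, ha'⟩ : ∃ a', Sum.map j j a' = a ∧ idx a' = 0 := by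
      rcases a with a | a <;> obtain rfl : a = j 0 := ha
      exacts [⟨.inl 0, rfl, rfl⟩, ⟨.inr 0, rfl, rfl⟩]
    obtain ⟨x, hx, e'⟩ := hM ▸ sr_mem_FI (mem_orth_UI.1 (hM' (idx a) 1)) (mem_orth_UI.1 (hM' 1 1))
    have := Subgroup.mem_sup_left (T := M) (Subgroup.mem_sup_left (T := A (j 1)) (ha' ▸ hg a))
    refine ⟨.inl (j 1), rfl, _, mul_mem (mul_mem this (Subgroup.mem_sup_right hx)) (inv_mem this), ?_⟩
    rw [map_mul, map_mul, map_inv, e', conj_sr (stdForm_isAlt (Fin n) F) (hA' (hg a)).1, hg', (mem_FI.1 (hA' (hg a))).2 _ (ha' ▸ (e2 0).symm)]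

/-- Adjacent positions. -/
def Adj (p q : Fin n) : Prop := (p : ℕ) + 1 = q ∨ (q : ℕ) + 1 = p

theorem Adj.ne {p q : Fin n} (h : Adj p q) : p ≠ q := by rintro rfl; unfold Adj at h; omega

theorem x_fix {r : Rt n} {c : Fin n ⊕ Fin n} (h : 0 ≤ r.1 ⬝ᵥ wt c) (t : F) :
    ((sys n F).map (spLin (Fin n) F)).x r t ∈ FI F {c} := by
  have key : ∀ a b : Fin n ⊕ Fin n, r.1 = wt a + wt b → b = a ∨ idx a ≠ idx b → ∀ u : F, ∀ d ∈ ({c} : Set _),
      Pi.single (M := fun _ => F) a u d.swap = 0 := by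
    rintro a b hr h' u d rfl
    refine Pi.single_eq_of_ne (M := fun _ => F) (fun e : d.swap = a => ?_) u
    exact ne_swap d ((eq_of_nonneg (hr ▸ h) (e ▸ (idx_swap d).symm) h').trans e.symm)
  rcases real_id.cases r t with ⟨a, u, hr, e⟩ | ⟨a, b, u, hab, hr, e⟩ <;> rw [e]
  exacts [tv_mem_FI (key a a hr (Or.inl rfl) 1) u,
    sr_mem_FI (key a b hr (Or.inr hab) 1) (key b a (hr.trans (add_comm _ _)) (Or.inr hab.symm) u)]

theorem supp_PhiJ {J : Set (Fin n)} {r : Rt n} (hr : r ∈ (rep n).R.PhiJ J) {α : Set (Fin n)}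
    (h : ∀ i ∈ J, ∀ k : Fin n, (k : ℕ) = i ∨ (k : ℕ) = i + 1 → k ∈ α) : Supp α r := fun k hk => by
  have := congrFun ((rep n).L_root r) k
  rw [MinRep.L, Fintype.linearCombination_apply, Finset.sum_apply] at this
  refine this.symm.trans (Finset.sum_eq_zero fun i _ => ?_)
  by_cases hi : i ∈ J
  · have := mt (h i hi k) hk
    have := i.2
    simp only [rep, sv, Pi.smul_apply, smul_eq_mul]
    split_ifs <;> simp only [Pi.sub_apply, Pi.add_apply, uv] <;> rw [if_neg (by omega)]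
    · rw [if_neg (by omega)]; simp
    · simp
  · simp [hr i hi]

variable (ρ A) in
/-- The amalgam of the lifts of the groups `S_k` and `M_i`. -/
structure Amalg (M : Fin n → Fin n → Subgroup E) : Prop where
  hA : ∀ k, (A k).map ρ = FI F (out {k})
  symm : ∀ p q, M p q = M q p
  hM : ∀ p q, Adj p q → (M p q).map ρ = FI F (out {p, q} ∪ Set.range .inl)
  gA : ∀ p q, p ≠ q → InjSub ρ (A p ⊔ A q)
  gM : ∀ p q, Adj p q → ∀ k, InjSub ρ (M p q ⊔ A k)
  gMM : ∀ p q p' q', Adj p q → Adj p' q' → InjSub ρ (M p q ⊔ M p' q')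

namespace Amalg

variable {M : Fin n → Fin n → Subgroup E} (h : Amalg ρ A M) {p q s : Fin n}
include h

theorem K_symm (p q : Fin n) : A p ⊔ A q ⊔ M p q = A q ⊔ A p ⊔ M q p := by rw [h.symm, sup_comm (A p)]

theorem K_spec (hpq : Adj p q) : InjSub ρ (A p ⊔ A q ⊔ M p q) ∧ (A p ⊔ A q ⊔ M p q).map ρ = FI F (out {p, q}) :=
  rank_two (j := ![p, q]) (fun a b => by fin_cases a <;> fin_cases b <;> simp [hpq.ne, hpq.ne.symm]) h.hA (h.hM p q hpq)
    (h.gA p q hpq.ne) fun _ => h.gM p q hpq _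

theorem comm_MM {p' q' : Fin n} (hpq : Adj p q) (h' : Adj p' q') {x y : E} (hx : x ∈ M p q) (hy : y ∈ M p' q') :
    Commute x y :=
  (h.gMM p q p' q' hpq h').commute (Subgroup.mem_sup_left hx) (Subgroup.mem_sup_right hy) (commute_FI (by
    rintro (c | c); exacts [Or.inr (Or.inr ⟨c, rfl⟩), Or.inl (Or.inr ⟨c, rfl⟩)])
    (h.hM p q hpq ▸ Subgroup.mem_map_of_mem ρ hx) (h.hM p' q' h' ▸ Subgroup.mem_map_of_mem ρ hy))

theorem comm_MA (hpq : Adj p q) (h1 : p ≠ s) (h2 : q ≠ s) {x y : E} (hx : x ∈ M p q) (hy : y ∈ A s) : Commute x y :=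
  (h.gM p q hpq s).commute (Subgroup.mem_sup_left hx) (Subgroup.mem_sup_right hy) (commute_FI (fun c =>
    or_iff_not_imp_right.2 fun e => Or.inl (by
      rw [out, Set.mem_ofPred_eq, idx_swap, show idx c = s from not_not.1 e]; simp [h1.symm, h2.symm]))
    (h.hM p q hpq ▸ Subgroup.mem_map_of_mem ρ hx) (h.hA s ▸ Subgroup.mem_map_of_mem ρ hy))

omit h in
theorem comm_sup {X Y : Subgroup E} {x y : E} (hx : x ∈ X ⊔ Y) (h1 : ∀ x ∈ X, Commute x y) (h2 : ∀ x ∈ Y, Commute x y) :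
    Commute x y := Subgroup.mem_centralizer_singleton_iff.1 ((sup_le (fun x hx => Subgroup.mem_centralizer_singleton_iff.2
      (h1 x hx)) fun x hx => Subgroup.mem_centralizer_singleton_iff.2 (h2 x hx) : X ⊔ Y ≤ Subgroup.centralizer {y}) hx)

theorem comm_KA (hpq : Adj p q) (h1 : p ≠ s) (h2 : q ≠ s) {x y : E} (hx : x ∈ A p ⊔ A q ⊔ M p q) (hy : y ∈ A s) :
    Commute x y :=
  comm_sup hx (fun _ hx => comm_sup hx (fun _ hx => commute_A h1 h.hA (h.gA _ _ h1) hx hy)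
    fun _ hx => commute_A h2 h.hA (h.gA _ _ h2) hx hy) fun _ hx => h.comm_MA hpq h1 h2 hx hy

theorem comm_KK {p' q' : Fin n} (hpq : Adj p q) (h' : Adj p' q') (h1 : p ≠ p') (h2 : q ≠ p') (h3 : p ≠ q') (h4 : q ≠ q')
    {x y : E} (hx : x ∈ A p ⊔ A q ⊔ M p q) (hy : y ∈ A p' ⊔ A q' ⊔ M p' q') : Commute x y :=
  (comm_sup hy (fun _ hy => comm_sup hy (fun _ hy => (h.comm_KA hpq h1 h2 hx hy).symm)
    fun _ hy => (h.comm_KA hpq h3 h4 hx hy).symm) fun _ hy => (comm_sup hx (fun _ hx => comm_sup hx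
      (fun _ hx => (h.comm_MA h' h1.symm h3.symm hy hx).symm) fun _ hx => (h.comm_MA h' h2.symm h4.symm hy hx).symm)
      fun _ hx => h.comm_MM hpq h' hx hy).symm).symm

theorem triple (hF : ∃ a : F, a ≠ 0 ∧ a ≠ 1) (hpq : Adj p q) (hqs : Adj q s) (hps : p ≠ s) {c : Fin n ⊕ Fin n}
    (hc : idx c = s) : InjSub ρ ((A p ⊔ A q ⊔ M p q) ⊔ (A q ⊔ A s ⊔ M q s) ⊓ (FI F {c}).comap ρ) := by
  subst hc
  obtain ⟨hK, hK'⟩ := h.K_spec hpq
  obtain ⟨hL, hL'⟩ := h.K_spec hqs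
  have hc : c ∈ out {p, q} := by simp [out, hps.symm, hqs.ne.symm]
  have l1 : A q ≤ A q ⊔ A (idx c) ⊔ M q (idx c) := le_sup_of_le_left le_sup_left
  have l2 : A (idx c) ≤ A q ⊔ A (idx c) ⊔ M q (idx c) := le_sup_of_le_left le_sup_right
  have l3 : A q ≤ A p ⊔ A q ⊔ M p q := le_sup_of_le_left le_sup_right
  have hZ : ∀ a, ∃ z ∈ A (idx c), ρ z = tv (stdForm_isAlt (Fin n) F) (Pi.single c 1) a := fun a =>
    (h.hA _).ge (tv_mem_FI (mem_orth_UI.1 (single_mem_orth (α := {idx c}) rfl 1)) a)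
  obtain ⟨g, hg, e⟩ := exists_move (single_mem_orth (α := {idx c}) (a := .inl (idx c)) rfl (1 : F))
    (single_mem_orth (α := {idx c}) rfl (1 : F)) (by simp) (by simp)
  obtain ⟨g, hg', rfl⟩ := (h.hA _).ge hg
  have hM' : ∀ k ∈ ({q, idx c} : Set (Fin n)), ∀ d ∈ out {q, idx c} ∪ Set.range .inl,
      Pi.single (M := fun _ => F) (Sum.inl k) (1 : F) d.swap = 0 := by
    rintro k hk d (h | ⟨d, rfl⟩)
    exacts [mem_orth_UI.1 (single_mem_orth (a := .inl k) hk 1) d h, by simp]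
  obtain ⟨x, hx, e'⟩ := (h.hM _ _ hqs).ge (sr_mem_FI (hM' (idx c) (by simp)) (hM' q (by simp)))
  have hy := mul_mem (mul_mem (l2 hg') (Subgroup.mem_sup_right hx)) (inv_mem (l2 hg'))
  have hy' : ρ (g * x * g⁻¹) = sr (stdForm_isAlt (Fin n) F) (Pi.single c 1) (Pi.single (.inl q) 1) := by
    rw [map_mul, map_mul, map_inv, e', conj_sr (stdForm_isAlt (Fin n) F) hg.1, e, (mem_FI.1 hg).2 _ hqs.ne]
  obtain ⟨D, h1, h2, h3⟩ := exists_injSub_heis (stdForm_isAlt (Fin n) F) (stdForm_nondegenerate _ _) hF (U := UI F (out {p, q}))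
    (P := (stdForm (Fin n) F).orthogonal (UI F (out {q}))) (fun _ => eq_zero_of_out) hK hL hK' (single_mem_UI hc 1)
    (single_mem_UI (c := c.swap) (by simpa [out, idx_swap] using hc) (side c : F)) (by simp [form_single, side_sq'])
    (LinearMap.BilinForm.orthogonal_le fun v hv d hd => hv d fun e => hd fun e' => e (Or.inr e'))
    (single_mem_orth (α := {q}) (a := .inl q) rfl (1 : F)) (single_mem_orth (α := {q}) (a := .inr q) rfl (-1 : F)) (by simp [form_single, side])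
    (fun v hv h0 => by
      obtain ⟨g, hg, e⟩ := exists_move (single_mem_orth (α := {q}) (a := .inl q) rfl (1 : F)) hv (by simp) h0
      obtain ⟨g, hg', rfl⟩ := (h.hA _).ge hg
      exact ⟨g, ⟨l3 hg', l1 hg'⟩, e⟩)
    (fun a => (hZ a).imp fun z hz => ⟨l2 hz.1, hz.2, fun k hk => h.comm_KA hpq hps hqs.ne hk hz.1⟩) hy hy' fun k hk e => by
      have : k ∈ M p q ⊔ A p := hK.mem hk (by
        rw [inf_eq_right.2 (sup_le le_sup_right (le_sup_of_le_left le_sup_left)),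
          map_sup_eq hpq.ne.symm (h.hA p) (Set.pair_comm p q ▸ h.hM p q hpq), Set.pair_comm]
        have := mem_FI.1 (hK'.le ⟨k, hk, rfl⟩)
        exact mem_FI.2 ⟨this.1, by rintro _ (rfl | h); exacts [e, this.2 _ h]⟩)
      refine comm_sup this (fun m hm => ?_) fun m hm => (h.comm_KA hqs hpq.ne.symm hps.symm hy hm).symm
      have := h.comm_MA hpq hps hqs.ne hm hg'
      exact (this.mul_right (h.comm_MM hpq hqs hm hx)).mul_right this.inv_right
  refine h1.mono (sup_le h2 fun z hz => hL.mem hz.1 (fix_gen (T := Subgroup.map ρ ((A q ⊔ A (idx c) ⊔ M q (idx c)) ⊓ D)) (b := .inl q) hqs.ne.symm rfl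
    (h.hA _ ▸ Subgroup.map_mono (le_inf l1 (l3.trans h2))) (fun a => ?_) (Subgroup.mem_map.2 ⟨_, ⟨hy, h3 _ hy
      (Or.inr ⟨_, single_mem_orth (α := {q}) (a := .inl q) rfl (1 : F), hy'⟩)⟩, hy'⟩) ?_))
  · obtain ⟨z, hz, e⟩ := hZ a
    exact ⟨z, ⟨l2 hz, h3 _ (l2 hz) (Or.inl ⟨a, e⟩)⟩, e⟩
  · have := mem_FI.1 (hL'.le ⟨z, hz.1, rfl⟩)
    exact mem_FI.2 ⟨this.1, by
      rintro _ (rfl | h); exacts [(mem_FI.1 hz.2).2 _ rfl, this.2 _ (Set.pair_comm _ _ ▸ h)]⟩

variable (ρ A M) in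
omit h in
/-- The canonical lift of a root element. -/
def Can (r : Rt n) (t : F) (z : E) : Prop :=
  ρ z = ((sys n F).map (spLin (Fin n) F)).x r t ∧ (∀ k, Supp {k} r → z ∈ A k) ∧
    (∀ p q, Adj p q → Supp {p, q} r → z ∈ A p ⊔ A q ⊔ M p q) ∧
    ∀ p q c, Adj p q → Adj q (idx c) → p ≠ idx c → Supp {p, q, idx c} r → 0 ≤ r.1 ⬝ᵥ wt c →
      z ∈ (A p ⊔ A q ⊔ M p q) ⊔ (A q ⊔ A (idx c) ⊔ M q (idx c)) ⊓ (FI F {c}).comap ρ

theorem exists_can (hpq : Adj p q) (hqs : Adj q s) {r : Rt n} (hr : Supp {p, q, s} r) (t : F) : ∃ z, Can ρ A M r t z := by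
  have l1 : ∀ p q, A p ≤ A p ⊔ A q ⊔ M p q := fun _ _ => le_sup_of_le_left le_sup_left
  have l2 : ∀ p q, A q ≤ A p ⊔ A q ⊔ M p q := fun _ _ => le_sup_of_le_left le_sup_right
  have sr' : ∀ a b : Fin n ⊕ Fin n, Adj (idx a) (idx b) → ∀ u, ∃ z ∈ A (idx a) ⊔ A (idx b) ⊔ M (idx a) (idx b),
      ρ z = sr (stdForm_isAlt (Fin n) F) (Pi.single a 1) (Pi.single b u) := fun a b hab u =>
    (h.K_spec hab).2.ge (sr_mem_FI (mem_orth_UI.1 (single_mem_orth (by simp) 1)) (mem_orth_UI.1 (single_mem_orth (by simp) u)))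
  rcases real_id.cases r t with ⟨a, u, e, e'⟩ | ⟨a, b, u, hab, e, e'⟩
  · obtain ⟨z, hz, e''⟩ := (h.hA _).ge (tv_mem_FI (mem_orth_UI.1 (single_mem_orth (α := {idx a}) rfl (1 : F))) u)
    have e3 := e''.trans e'.symm
    refine ⟨z, e3, fun k hk => by rwa [← not_supp e (Or.inl rfl) hk], fun p q _ hk => ?_, fun p q c _ _ _ hk h0 => ?_⟩
    · rcases not_supp e (Or.inl rfl) hk with rfl | rfl
      exacts [l1 _ _ hz, l2 _ _ hz]
    · rcases not_supp e (Or.inl rfl) hk with rfl | rfl | e4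
      exacts [Subgroup.mem_sup_left (l1 _ _ hz), Subgroup.mem_sup_left (l2 _ _ hz),
        Subgroup.mem_sup_right ⟨l2 _ _ (e4 ▸ hz), show ρ z ∈ _ from e3 ▸ x_fix h0 t⟩]
  have ha := fun α => not_supp e (Or.inr hab) (α := α)
  have hb := fun α => not_supp (e.trans (add_comm _ _)) (Or.inr hab.symm) (α := α)
  by_cases h1 : Adj (idx a) (idx b)
  · obtain ⟨z, hz, e''⟩ := sr' a b h1 u
    have e3 := e''.trans e'.symm
    have key : ∀ p q, idx a ∈ ({p, q} : Set _) → idx b ∈ ({p, q} : Set _) → z ∈ A p ⊔ A q ⊔ M p q := by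
      rintro p q (rfl | rfl) (h2 | h2)
      exacts [absurd h2.symm hab, h2 ▸ hz, h2 ▸ h.K_symm _ _ ▸ hz, absurd h2.symm hab]
    refine ⟨z, e3, fun k hk => absurd ((ha _ hk).trans (hb _ hk).symm) hab, fun p q _ hk => key p q (ha _ hk) (hb _ hk),
      fun p q c h2 h3 h4 hk h0 => ?_⟩
    have h5 := ha _ hk
    have h6 := hb _ hk
    by_cases h7 : idx a ∈ ({p, q} : Set _) ∧ idx b ∈ ({p, q} : Set _)
    · exact Subgroup.mem_sup_left (key p q h7.1 h7.2)
    refine Subgroup.mem_sup_right ⟨key _ _ ?_ ?_, show ρ z ∈ _ from e3 ▸ x_fix h0 t⟩ <;>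
      simp only [Adj, Set.mem_insert_iff, Set.mem_singleton_iff, Fin.ext_iff, ne_eq] at * <;> omega
  have h2 : Adj (idx a) q ∧ Adj (idx b) q := by
    have h5 := ha _ hr
    have h6 := hb _ hr
    simp only [Adj, Set.mem_insert_iff, Set.mem_singleton_iff, Fin.ext_iff, ne_eq] at *; omega
  obtain ⟨k, hk, e1⟩ := sr' a (.inl q) h2.1 u
  obtain ⟨l, hl, e2⟩ := sr' b (.inr q) h2.2 1
  have f1 : ρ k ∈ FI F {a} := e1 ▸ sr_mem_FI (by simp [(ne_swap a).symm]) (by
    rintro _ rfl; exact Pi.single_eq_of_ne (M := fun _ => F) (fun e => h2.1.ne ((idx_swap _).symm.trans (congrArg idx e))) _)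
  have f2 : ρ l ∈ FI F {b} := e2 ▸ sr_mem_FI (by simp [(ne_swap b).symm]) (by
    rintro _ rfl; exact Pi.single_eq_of_ne (M := fun _ => F) (fun e => h2.2.ne ((idx_swap _).symm.trans (congrArg idx e))) _)
  have cm : ∀ D : Subgroup E, k ∈ D → l ∈ D → k * (l * k⁻¹ * l⁻¹) ∈ D := fun D hk hl =>
    mul_mem hk (mul_mem (mul_mem hl (inv_mem hk)) (inv_mem hl))
  refine ⟨k * (l * k⁻¹ * l⁻¹), ?_, fun k hk => absurd ((ha _ hk).trans (hb _ hk).symm) hab, fun p q h3 hk => ?_,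
    fun p' q' c h3 h4 h5 hk' h0 => ?_⟩
  · have g1 := fun c d : F => form_idx (a := a) (b := .inl q) h2.1.ne c d
    have g2 := fun c d : F => form_idx (a := a) (b := .inr q) h2.1.ne c d
    have g3 := fun c d : F => form_idx (a := b) (b := .inr q) h2.2.ne c d
    have g4 := fun c d : F => form_idx (a := .inl q) (b := b) h2.2.ne.symm c d
    have g5 := fun c d : F => form_idx hab c d
    have g6 : (stdForm (Fin n) F) (Pi.single (.inl q) u) (Pi.single (.inr q) 1) = -u := by simp [form_single, side]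
    simp only [map_mul, map_inv, e1, e2, e', id]
    rw [sr_inv (stdForm_isAlt (Fin n) F) (g1 _ _), conj_sr (stdForm_isAlt (Fin n) F) (sr_mem_isom _ _ _), sr_apply (stdForm_isAlt (Fin n) F) (g3 _ _), sr_apply (stdForm_isAlt (Fin n) F) (g3 _ _)]
    simp only [map_neg, LinearMap.neg_apply, g2, g4, g5, g6, zero_smul, add_zero, neg_zero, neg_neg]
    rw [sr_mul (stdForm_isAlt (Fin n) F) (g1 _ _) (by simp [g1, g5]), add_neg_cancel_left, ← Pi.single_smul', smul_eq_mul, mul_one]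
    simp [g4, alt_self (stdForm_isAlt (Fin n) F), tv_zero]
  · have h5 := ha _ hk
    have h6 := hb _ hk
    simp only [Adj, Set.mem_insert_iff, Set.mem_singleton_iff, Fin.ext_iff, ne_eq] at *; omega
  · have h6 := ha _ hk'
    have h7 := hb _ hk'
    obtain ⟨rfl, ⟨rfl, h8⟩ | ⟨rfl, h8⟩⟩ : q = q' ∧ (idx a = p' ∧ idx c = idx b ∨ idx b = p' ∧ idx c = idx a) := by
      simp only [Adj, Set.mem_insert_iff, Set.mem_singleton_iff, Fin.ext_iff, ne_eq] at *; omega
    · obtain rfl := eq_of_nonneg (add_comm (wt a) _ ▸ e ▸ h0) h8 (Or.inr hab.symm)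
      exact cm _ (Subgroup.mem_sup_left hk) (Subgroup.mem_sup_right ⟨h.K_symm _ _ ▸ hl, f2⟩)
    · obtain rfl := eq_of_nonneg (e ▸ h0) h8 (Or.inr hab)
      exact cm _ (Subgroup.mem_sup_right ⟨h.K_symm _ _ ▸ hk, f1⟩) (Subgroup.mem_sup_left hl)

theorem exists_injSub (hF : ∃ a : F, a ≠ 0 ∧ a ≠ 1) (hn : 2 ≤ n) : ∃ Γ, InjSub ρ Γ ∧ (∀ k, A k ≤ Γ) ∧
    (∀ p q, Adj p q → M p q ≤ Γ) ∧ Isom (stdForm (Fin n) F) ≤ Γ.map ρ ∧ ∀ Γ', (∀ k, A k ≤ Γ') → (∀ p q, Adj p q → M p q ≤ Γ') → Γ ≤ Γ' := by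
  classical
  have hS : ((sys n F).map (spLin (Fin n) F)).Faithful := (sys_faithful n F).map_of_injective spLin_injective
  let y : Rt n → F → E := fun r t => if h : ∃ z, Can ρ A M r t z then h.choose else 1
  have hy : ∀ p q s, Adj p q → Adj q s → ∀ r, Supp {p, q, s} r → ∀ t, Can ρ A M r t (y r t) := fun p q s h1 h2 r hr t => by
    simp only [y, dif_pos (h.exists_can h1 h2 hr t)]
    exact (h.exists_can h1 h2 hr t).choose_spec
  have cover : ∀ p q s, Adj p q → Adj q s → ∀ r r', Supp {p, q, s} r → Supp {p, q, s} r' → r' ≠ (rep n).R.neg r →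
      ∃ D, InjSub ρ D ∧ ∀ k, k = r ∨ k = r' ∨ (rep n).R.Comb k r r' → ∀ t,
        ρ (y k t) = ((sys n F).map (spLin (Fin n) F)).x k t ∧ y k t ∈ D := fun p q s h1 h2 r r' hr hr' e => by
    have h3 : ∀ k, k = r ∨ k = r' ∨ (rep n).R.Comb k r r' → Supp {p, q, s} k := by
      rintro k (rfl | rfl | hk); exacts [hr, hr', Supp.comb hk hr hr']
    by_cases hps : p = s
    · subst hps
      exact ⟨_, (h.K_spec h1).1, fun k hk t => ⟨(hy _ _ _ h1 h2 k (h3 k hk) t).1, (hy _ _ _ h1 h2 k (h3 k hk) t).2.2.1 p q h1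
        fun l hl => h3 k hk l (by simpa [or_comm] using hl)⟩⟩
    obtain ⟨c, hc, h4, h5⟩ := exists_half hps e
    have h6 : ∀ k, k = r ∨ k = r' ∨ (rep n).R.Comb k r r' → 0 ≤ k.1 ⬝ᵥ wt c := by
      rintro k (rfl | rfl | hk); exacts [h4, h5, comb_nonneg hk h4 h5]
    rcases hc with rfl | rfl
    · exact ⟨_, h.triple hF h2.symm h1.symm (Ne.symm hps) rfl, fun k hk t => ⟨(hy _ _ _ h1 h2 k (h3 k hk) t).1,
        (hy _ _ _ h1 h2 k (h3 k hk) t).2.2.2 s q c h2.symm h1.symm (Ne.symm hps) (fun l hl => h3 k hk l (by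
          simp only [Set.mem_insert_iff, Set.mem_singleton_iff] at *; tauto)) (h6 k hk)⟩⟩
    · exact ⟨_, h.triple hF h1 h2 hps rfl, fun k hk t => ⟨(hy _ _ _ h1 h2 k (h3 k hk) t).1,
        (hy _ _ _ h1 h2 k (h3 k hk) t).2.2.2 p q c h1 h2 hps (h3 k hk) (h6 k hk)⟩⟩
  have adj : ∀ i j : Fin n, (i : ℕ) ≤ j → (j : ℕ) ≤ i + 1 → ∃ p q s, Adj p q ∧ Adj q s ∧
      ∀ r ∈ (rep n).R.PhiJ {i, j}, Supp {p, q, s} r := fun i j h1 h2 => by
    have := j.2
    by_cases h3 : (i : ℕ) + 2 < n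
    · refine ⟨i, ⟨i + 1, by omega⟩, ⟨i + 2, h3⟩, Or.inl rfl, Or.inl rfl, fun r hr => supp_PhiJ hr fun a ha k hk => ?_⟩
      simp only [Set.mem_insert_iff, Set.mem_singleton_iff, Fin.ext_iff] at *; omega
    · refine ⟨⟨n - 2, by omega⟩, ⟨n - 1, by omega⟩, ⟨n - 2, by omega⟩, Or.inl (by simp; omega), Or.inr (by simp; omega),
        fun r hr => supp_PhiJ hr fun a ha k hk => ?_⟩
      have := k.2
      simp only [Set.mem_insert_iff, Set.mem_singleton_iff, Fin.ext_iff] at *; omega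
  have adj' : ∀ i j : Fin n, (rep n).R.cartan i j ≠ 0 → ∃ p q s, Adj p q ∧ Adj q s ∧
      ∀ r ∈ (rep n).R.PhiJ {i, j}, Supp {p, q, s} r := fun i j h1 => by
    rw [cartan] at h1
    simp only [Fin.ext_iff] at h1
    rcases le_total (i : ℕ) j with h2 | h2
    · exact adj i j h2 (by split_ifs at h1 <;> omega)
    · exact Set.pair_comm i j ▸ adj j i h2 (by split_ifs at h1 <;> omega)
  have loc : ∀ i j : Fin n, ∀ r ∈ (rep n).R.PhiJ {i, j}, ∃ p q s, Adj p q ∧ Adj q s ∧ Supp {p, q, s} r := fun i j r hr => by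
    have : ∀ i, r ∈ (rep n).R.PhiJ {i} → ∃ p q s, Adj p q ∧ Adj q s ∧ Supp {p, q, s} r := fun i hi => by
      obtain ⟨p, q, s, h1, h2, h3⟩ := adj i i le_rfl (by omega)
      exact ⟨p, q, s, h1, h2, h3 r (by simpa using hi)⟩
    by_cases h0 : (rep n).R.cartan i j = 0
    · exact ((rep n).R.mem_PhiJ_single_or (Or.inr h0) hr).elim (this i) (this j)
    · obtain ⟨p, q, s, h1, h2, h3⟩ := adj' i j h0
      exact ⟨p, q, s, h1, h2, h3 r hr⟩
  have hy' : ∀ i j, ∀ r ∈ (rep n).R.PhiJ {i, j}, ∀ t, Can ρ A M r t (y r t) := fun i j r hr t => by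
    obtain ⟨p, q, s, h1, h2, h3⟩ := loc i j r hr
    exact hy p q s h1 h2 r h3 t
  have hK : ∀ i i' : Fin n, (i : ℕ) + 1 = i' → ∀ r ∈ (rep n).R.PhiJ {i}, ∀ t, y r t ∈ A i ⊔ A i' ⊔ M i i' :=
    fun i i' e r hr t => (hy' i i r (by simpa using hr) t).2.2.1 i i' (Or.inl e) (supp_PhiJ hr fun a ha k hk => by
      simp only [Set.mem_insert_iff, Set.mem_singleton_iff, Fin.ext_iff] at *; omega)
  have hL : ∀ i : Fin n, (i : ℕ) + 1 = n → ∀ r ∈ (rep n).R.PhiJ {i}, ∀ t, y r t ∈ A i :=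
    fun i e r hr t => (hy' i i r (by simpa using hr) t).2.1 i (supp_PhiJ hr fun a ha k hk => by
      have := k.2
      simp only [Set.mem_singleton_iff, Fin.ext_iff] at *; omega)
  have orth : ∀ i j : Fin n, (i : ℕ) + 1 < j → ∀ r ∈ (rep n).R.PhiJ {i}, ∀ s ∈ (rep n).R.PhiJ {j}, ∀ t u,
      Commute (y r t) (y s u) := fun i j e r hr s hs t u => by
    have := j.2
    have h1 := hK i ⟨i + 1, by omega⟩ rfl r hr t
    by_cases h2 : (j : ℕ) + 1 = n
    · refine h.comm_KA (Or.inl rfl) ?_ ?_ h1 (hL j h2 s hs u) <;> simp only [ne_eq, Fin.ext_iff] <;> omega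
    · refine h.comm_KK (Or.inl rfl) (Or.inl rfl) ?_ ?_ ?_ ?_ h1 (hK j ⟨j + 1, by omega⟩ rfl s hs u) <;>
        simp only [ne_eq, Fin.ext_iff] <;> omega
  obtain ⟨S', h1, h2⟩ := StSys.exists_sys_of_local (π := ρ) hS.uFaithful irred (by simpa using hn) y (fun i j r hr t u => by
      obtain ⟨p, q, s, h1, h2, h3⟩ := loc i j r hr
      obtain ⟨D, h4, h5⟩ := cover p q s h1 h2 r r h3 h3 ((rep n).R.neg_ne_self r).symm
      have := h5 r (Or.inl rfl)
      exact h4.eq (this _).2 (mul_mem (this _).2 (this _).2) (by rw [map_mul, (this _).1, (this _).1, (this _).1, StSys.x_add]))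
    (fun i j r hr t => (hy' i j r hr t).1) fun i j r hr s hs t u e e' => by
      by_cases h0 : (rep n).R.cartan i j = 0
      · have k1 : ∀ i, r ∈ (rep n).R.PhiJ {i} → s ∉ (rep n).R.PhiJ {i} := fun i a b => by
          rcases (rep n).R.mem_PhiJ_singleton.1 a with rfl | rfl <;> rcases (rep n).R.mem_PhiJ_singleton.1 b with rfl | rfl <;>
            simp at e e'
        have k2 : ∀ i j : Fin n, (rep n).R.cartan i j = 0 → r ∈ (rep n).R.PhiJ {i} → s ∈ (rep n).R.PhiJ {j} →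
            Commute (y r t) (y s u) := fun i j h0 a b => by
          rw [cartan] at h0
          simp only [Fin.ext_iff] at h0
          rcases le_total (i : ℕ) j with h2 | h2
          · exact orth i j (by split_ifs at h0 <;> omega) r a s b t u
          · exact (orth j i (by split_ifs at h0 <;> omega) s b r a u t).symm
        have : Commute (y r t) (y s u) := by
          rcases (rep n).R.mem_PhiJ_single_or (Or.inr h0) hr with a | a <;>
            rcases (rep n).R.mem_PhiJ_single_or (Or.inr h0) hs with b | b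
          exacts [absurd b (k1 _ a), k2 _ _ h0 a b, k2 _ _ ((rep n).R.cartan_eq_zero_comm.1 h0) a b, absurd b (k1 _ a)]
        rw [this.commutator_eq]
        exact one_mem _
      · obtain ⟨p, q, s', h1, h2, h3⟩ := adj' i j h0
        obtain ⟨D, h4, h5⟩ := cover p q s' h1 h2 r s (h3 r hr) (h3 s hs) e'
        exact StSys.comm_mem_of_injSub h4 e e' h5 t u
  have h3 : ∀ i, ∀ r ∈ (rep n).R.PhiJ {i}, ∀ t, S'.x r t = y r t := fun i r hr => h2 i i r (by simpa using hr)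
  have h4 : ∀ i : Fin n, ∃ p q, Adj p q ∧ ∀ r ∈ (rep n).R.PhiJ {i}, ∀ t, S'.x r t ∈ A p ⊔ A q ⊔ M p q := fun i => by
    by_cases e : (i : ℕ) + 1 = n
    · exact ⟨⟨n - 2, by omega⟩, i, Or.inl (by simp; omega), fun r hr t =>
        h3 i r hr t ▸ Subgroup.mem_sup_left (Subgroup.mem_sup_right (hL i e r hr t))⟩
    · exact ⟨i, ⟨i + 1, by omega⟩, Or.inl rfl, fun r hr t => h3 i r hr t ▸ hK i _ rfl r hr t⟩
  have hM := (sys_hMul n F).map (spLin (Fin n) F)
  have hM' : S'.HMul := StSys.hMul_of_simple fun i t u ht hu => by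
    obtain ⟨p, q, h5, h6⟩ := h4 i
    have h7 : ∀ t, S'.n ((rep n).R.simple i) t ∈ A p ⊔ A q ⊔ M p q := fun t =>
      mul_mem (mul_mem (h6 _ (by simp) _) (h6 _ (by simp) _)) (h6 _ (by simp) _)
    have h8 : ∀ t, S'.h ((rep n).R.simple i) t ∈ A p ⊔ A q ⊔ M p q := fun t => mul_mem (h7 _) (h7 _)
    refine (h.K_spec h5).1.eq (h8 _) (mul_mem (h8 _) (h8 _)) ?_
    simp only [map_mul, ← StSys.map_h, h1, hM _ t u ht hu]
  have h5 : ∀ r t, ρ (S'.x r t) = ((sys n F).map (spLin (Fin n) F)).x r t := fun r t => by rw [← h1]; rfl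
  have step : ∀ i i' : Fin n, (i : ℕ) + 1 = i' → A i' ≤ S'.grp → A i ⊔ A i' ⊔ M i i' ≤ S'.grp := fun i i' e hi z hz => by
    have hii : Adj i i' := Or.inl e
    have hs : sv n i = uv n i - uv n i' := by rw [sv, if_pos (by omega), e]
    refine (h.K_spec hii).1.mem hz (gen_pair hii.ne (h.hA _ ▸ Subgroup.map_mono (le_inf (le_sup_of_le_left le_sup_right) hi))
      ?_ ((h.K_spec hii).2.le ⟨z, hz, rfl⟩))
    rintro (a | a) rfl
    · obtain ⟨t, e'⟩ := (real_id (F := F)).short_ex (a := .inl a) (b := .inr i') hii.ne ((rep n).R.simple a)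
        (hs.trans (sub_eq_add_neg _ _)) 1
      have : (rep n).R.simple a ∈ (rep n).R.PhiJ {a} := by simp
      exact ⟨.inr i', rfl, _, ⟨h3 a _ this t ▸ hK a i' e _ this t, S'.x_mem_grp _ t⟩, (h5 _ t).trans e'⟩
    · obtain ⟨t, e'⟩ := (real_id (F := F)).short_ex (a := .inr a) (b := .inl i') hii.ne ((rep n).R.neg ((rep n).R.simple a))
        ((congrArg Neg.neg hs).trans (by simp [idx]; abel)) 1
      have : (rep n).R.neg ((rep n).R.simple a) ∈ (rep n).R.PhiJ {a} := by simp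
      exact ⟨.inl i', rfl, _, ⟨h3 a _ this t ▸ hK a i' e _ this t, S'.x_mem_grp _ t⟩, (h5 _ t).trans e'⟩
  have hA : ∀ k, A k ≤ S'.grp := fun k => by
    induction k using WellFoundedGT.induction with
    | _ k ih =>
      by_cases e : (k : ℕ) + 1 = n
      · have hs : sv n k = uv n k + uv n k := by rw [sv, if_neg (by omega), show n - 1 = k by omega]
        refine fun z hz => ((h.gA k ⟨n - 2, by omega⟩ (by simp [Fin.ext_iff]; omega)).mono le_sup_left).mem hz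
          (FI_out_le (α := {k}) (fun a ha c => ?_) (fun a b ha hb h => absurd (ha.trans hb.symm) h) ((h.hA k).le ⟨z, hz, rfl⟩))
        obtain ⟨r, t, hr, e'⟩ := (real_id (F := F)).long_ex a c
        have : r ∈ (rep n).R.PhiJ {k} := (rep n).R.mem_PhiJ_singleton.2 (by
          rcases a with a | a <;> obtain rfl : a = k := ha
          exacts [Or.inl (Subtype.ext (hr.trans hs.symm)), Or.inr (Subtype.ext (hr.trans ((neg_add _ _).symm.trans
            (congrArg Neg.neg hs.symm))))])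
        exact ⟨_, ⟨h3 k r this t ▸ hL k e r this t, S'.x_mem_grp r t⟩, (h5 r t).trans e'⟩
      · exact le_sup_left.trans (le_sup_left.trans (step k ⟨k + 1, by omega⟩ rfl (ih _ (Fin.lt_def.2 (by simp)))))
  refine ⟨S'.grp, StSys.injSub_grp h1 hS hM hM' fun a b e => sys_torus_inj n F (spLin_injective ?_), hA, ?_, ?_, fun Γ a b => ?_⟩
  · rwa [(sys_hMul n F).map_torus hM, (sys_hMul n F).map_torus hM]
  · rintro p q (e | e)
    exacts [le_sup_right.trans (step p q e (hA q)), h.symm p q ▸ le_sup_right.trans (step q p e (hA p))]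
  · rw [StSys.grp, ← StSys.map_XS, h1, StSys.map_XS, ← StSys.grp, sys_grp, ← MonoidHom.range_eq_map, spLin_range]
  · rw [StSys.grp_eq_XS_simple, StSys.XS_le_iff]
    rintro r ⟨i, hr⟩ t
    obtain ⟨p, q, h6, h7⟩ := h4 i
    exact sup_le (sup_le (a p) (a q)) (b p q h6) (h7 r ((rep n).R.mem_PhiJ_singleton.2 hr) t)

end Amalg

end CL.Chev.TypeC
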