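/-
Spectrum toolkit: on the natural module of a Suzuki group only elements of order dividing four fix
nonzero vectors.
-/
import Cfsg.Agent.Perm.SpecAffine
import Cfsg.Agent.Chev.SzCard

namespace CL.Perm

open Matrix Polynomial

/-- Sum of the principal `2 × 2` minors of a `4 × 4` matrix. -/
def minors2 {R : Type*} [CommRing R] (A : Matrix (Fin 4) (Fin 4) R) : R :=
  A 0 0 * A 1 1 - A 0 1 * A 1 0 + (A 0 0 * A 2 2 - A 0 2 * A 2 0) + (A 0 0 * A 3 3 - A 0 3 * A 3 0) +
    (A 1 1 * A 2 2 - A 1 2 * A 2 1) + (A 1 1 * A 3 3 - A 1 3 * A 3 1) + (A 2 2 * A 3 3 - A 2 3 * A 3 2)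

/-- A principal `3 × 3` minor. -/
def minor3 {R : Type*} [CommRing R] (A : Matrix (Fin 4) (Fin 4) R) (i j k : Fin 4) : R :=
  A i i * A j j * A k k - A i i * A j k * A k j - A i j * A j i * A k k + A i j * A j k * A k i +
    A i k * A j i * A k j - A i k * A j j * A k i

/-- Sum of the principal `3 × 3` minors of a `4 × 4` matrix. -/
def minors3 {R : Type*} [CommRing R] (A : Matrix (Fin 4) (Fin 4) R) : R :=
  minor3 A 0 1 2 + minor3 A 0 1 3 + minor3 A 0 2 3 + minor3 A 1 2 3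

theorem det_fin_four' {R : Type*} [CommRing R] (A : Matrix (Fin 4) (Fin 4) R) :
    A.det = A 0 0 * minor3 A 1 2 3
      - A 0 1 * (A 1 0 * (A 2 2 * A 3 3 - A 2 3 * A 3 2) - A 1 2 * (A 2 0 * A 3 3 - A 2 3 * A 3 0)
        + A 1 3 * (A 2 0 * A 3 2 - A 2 2 * A 3 0))
      + A 0 2 * (A 1 0 * (A 2 1 * A 3 3 - A 2 3 * A 3 1) - A 1 1 * (A 2 0 * A 3 3 - A 2 3 * A 3 0)
        + A 1 3 * (A 2 0 * A 3 1 - A 2 1 * A 3 0))
      - A 0 3 * (A 1 0 * (A 2 1 * A 3 2 - A 2 2 * A 3 1) - A 1 1 * (A 2 0 * A 3 2 - A 2 2 * A 3 0)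
        + A 1 2 * (A 2 0 * A 3 1 - A 2 1 * A 3 0)) := by
  simp [det_succ_row_zero, Fin.sum_univ_succ, Fin.succAbove, minor3]
  ring

theorem charpoly_fin_four {R : Type*} [CommRing R] (A : Matrix (Fin 4) (Fin 4) R) :
    A.charpoly = X ^ 4 - C A.trace * X ^ 3 + C (minors2 A) * X ^ 2 - C (minors3 A) * X + C A.det := by
  rw [charpoly, det_fin_four', det_fin_four']
  simp [trace, Fin.sum_univ_four, minors2, minors3, minor3]
  ring

theorem cayley_hamilton_four {R : Type*} [CommRing R] (A : Matrix (Fin 4) (Fin 4) R) :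
    A ^ 4 - A.trace • A ^ 3 + minors2 A • A ^ 2 - minors3 A • A + A.det • (1 : Matrix _ _ R) = 0 := by
  have h := A.aeval_self_charpoly
  rw [charpoly_fin_four] at h
  simpa [Algebra.algebraMap_eq_smul_one] using h

theorem det_one_sub_four {R : Type*} [CommRing R] (A : Matrix (Fin 4) (Fin 4) R) :
    (1 - A).det = 1 - A.trace + minors2 A - minors3 A + A.det := by
  have h := A.eval_charpoly 1
  rw [charpoly_fin_four] at h
  simpa using h.symm

theorem det_one_sub_eq_zero_of_fixed {F n : Type*} [Field F] [Fintype n] [DecidableEq n]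
    {A : Matrix n n F} {w : n → F} (hw : w ≠ 0) (h : A.mulVec w = w) : (1 - A).det = 0 :=
  Matrix.exists_mulVec_eq_zero_iff.1 ⟨w, hw, by rw [sub_mulVec, one_mulVec, h, sub_self]⟩

open CL.Chev.Sz

variable {G F : Type*} [Group G] [Field F] (M : Model G F)

private theorem WTD_invariants (S : Tits F) (a b : F) {c : F} (hc : c ≠ 0) :
    minors3 (Tits.Wm F * (S.Tm a b * S.Dm c)) = (Tits.Wm F * (S.Tm a b * S.Dm c)).trace ∧
    minors2 (Tits.Wm F * (S.Tm a b * S.Dm c)) = S.σ (Tits.Wm F * (S.Tm a b * S.Dm c)).trace := by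
  have h2 := S.two
  have hs := S.σ_ne_zero hc
  constructor
  · simp [minors3, minor3, trace, Fin.sum_univ_four, Tits.Wm, Tits.Tm, Tits.Dm, Tits.f]
    field_simp
    grind
  · simp [minors2, trace, Fin.sum_univ_four, Tits.Wm, Tits.Tm, Tits.Dm, Tits.f, S.σσ]
    field_simp
    grind

theorem sz_pow_four_of_fixed (g : G) {w : Fin 4 → F} (hw : w ≠ 0) (h : (M.ρ g).mulVec w = w) :
    g ^ 4 = 1 := by
  by_cases h1 : g • M.inf = M.inf
  · obtain ⟨a, b, c, rfl⟩ := M.eq_TD_of_fix h1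
    have h2 := det_one_sub_eq_zero_of_fixed hw h
    rw [map_mul, M.ρ_T, M.ρ_D] at h2
    have h3 : (c : F) = 1 := by
      have hc := c.ne_zero
      have hs := M.toTits.σ_ne_zero hc
      rw [det_fin_four'] at h2
      simp [Tits.Tm, Tits.Dm, sub_eq_zero, minor3] at h2
      rcases h2 with h2 | (h2 | h2) | h2
      · exact M.toTits.σ_mul_self_eq_one h2.symm
      · exact h2.symm
      · rw [h2, Units.val_one]
      · rw [← mul_inv, eq_comm, inv_eq_one, mul_comm] at h2
        exact M.toTits.σ_mul_self_eq_one h2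
    rw [show c = 1 from Units.ext h3, map_one, mul_one, M.T_pow_four]
  · obtain ⟨x, y, a, b, c, rfl⟩ := M.eq_TwTD_of_not_fix h1
    obtain ⟨a', b', c', h2⟩ := M.eq_TD_of_fix (g := M.T a b * M.D c * M.T x y)
      (by simp [mul_smul])
    set k := M.T x y with hk
    have h3 : k * M.w * (M.T a b * M.D c) = k * (M.w * (M.T a' b' * M.D c')) * k⁻¹ := by
      rw [← h2]; group
    rw [h3] at h ⊢
    have h4 : (M.ρ (M.w * (M.T a' b' * M.D c'))).mulVec ((M.ρ k⁻¹).mulVec w) = (M.ρ k⁻¹).mulVec w := by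
      conv_rhs => rw [← h]
      rw [mulVec_mulVec, mulVec_mulVec, ← map_mul, ← map_mul]
      congr 2; group
    have h5 : (M.ρ k⁻¹).mulVec w ≠ 0 := by
      intro h0
      apply hw
      have := congrArg (M.ρ k).mulVec h0
      rwa [mulVec_mulVec, ← map_mul, mul_inv_cancel, map_one, one_mulVec, mulVec_zero] at this
    rw [conj_pow, mul_inv_eq_one, mul_eq_left]
    apply M.inj
    have h6 := det_one_sub_eq_zero_of_fixed h5 h4
    have h7 := cayley_hamilton_four (M.ρ (M.w * (M.T a' b' * M.D c')))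
    rw [map_pow, map_one]
    rw [det_one_sub_four] at h6
    have e : M.ρ (M.w * (M.T a' b' * M.D c')) =
        Tits.Wm F * (M.toTits.Tm a' b' * M.toTits.Dm c') := by
      rw [map_mul, map_mul, M.ρ_w, M.ρ_T, M.ρ_D]
    rw [e] at h6 h7 ⊢
    obtain ⟨i3, i2⟩ := WTD_invariants M.toTits a' b' c'.ne_zero
    have i4 : (Tits.Wm F * (M.toTits.Tm a' b' * M.toTits.Dm c')).det = 1 := by
      rw [det_mul, det_mul, Tits.det_Wm, Tits.det_Tm, Tits.det_Dm _ c'.ne_zero, mul_one, mul_one]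
    rw [i3, i2, i4] at h6 h7
    have two := M.toTits.two
    have h8 : (Tits.Wm F * (M.toTits.Tm a' b' * M.toTits.Dm c')).trace = 0 :=
      M.toTits.σ_eq_zero.1 (by
        linear_combination h6 + ((Tits.Wm F * (M.toTits.Tm a' b' * M.toTits.Dm c')).trace - 1) * two)
    rw [h8, map_zero, zero_smul, zero_smul, zero_smul, sub_zero, add_zero, sub_zero, one_smul,
      add_eq_zero_iff_eq_neg] at h7
    rw [h7]
    ext i j
    simp [M.toTits.neg_eq]

theorem samePG_sz [Finite F] : SamePG G (Aff (matAct M.ρ)) := by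
  have := M.finite
  refine Aff.samePG Nat.prime_two (fun v => ?_) (M.orderOf_w ▸ orderOf_dvd_natCard M.w)
    fun g hg h2 => Or.inl fun w hw => ?_
  · ext i
    simp [two_smul, M.toTits.add_self]
  · by_contra h0
    have h4 : orderOf g ∣ 2 ^ 2 := orderOf_dvd_of_pow_eq_one (sz_pow_four_of_fixed M g h0 hw)
    exact h2 ((Nat.prime_dvd_prime_iff_eq hg Nat.prime_two).1 (hg.dvd_of_dvd_pow h4))

end CL.Perm
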