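/-
Witt's lemma on transitive extensions.
-/
import Cfsg.Agent.Base

set_option autoImplicit false

namespace CL.Perm

/-- The hypotheses of Witt's lemma. -/
structure WittData {α : Type*} (t : ℕ) (q : ℕ → α) (G : Subgroup (Equiv.Perm α)) (s : ℕ → Equiv.Perm α) :
    Prop where
  ht : 2 ≤ t
  hq : ∀ i j : ℕ, 1 ≤ i → i ≤ t → 1 ≤ j → j ≤ t → q i = q j → i = j
  hfix : ∀ g ∈ G, ∀ i : ℕ, 3 ≤ i → i ≤ t → g (q i) = q i
  h2 : ∀ a b c d : α, (∀ i, 3 ≤ i → i ≤ t → a ≠ q i ∧ b ≠ q i ∧ c ≠ q i ∧ d ≠ q i) → a ≠ b → c ≠ d →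
    ∃ g ∈ G, g a = c ∧ g b = d
  hs1 : s 1 ∈ G
  hs1q : s 1 (q 1) = q 2 ∧ s 1 (q 2) = q 1
  hsq : ∀ i : ℕ, 2 ≤ i → i + 1 ≤ t → s i (q i) = q (i + 1) ∧ s i (q (i + 1)) = q i ∧
    ∀ j : ℕ, 1 ≤ j → j ≤ t → j ≠ i → j ≠ i + 1 → s i (q j) = q j
  hsq2 : ∀ i : ℕ, 1 ≤ i → i + 1 ≤ t → s i ^ 2 ∈ G ⊓ MulAction.stabilizer (Equiv.Perm α) (q 2)
  hbraid : ∀ i : ℕ, 1 ≤ i → i + 2 ≤ t → (s i * s (i + 1)) ^ 3 ∈ G ⊓ MulAction.stabilizer (Equiv.Perm α) (q 2)
  hcomm : ∀ i j : ℕ, 1 ≤ i → i + 2 ≤ j → j + 1 ≤ t →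
    (s j * s i) ^ 2 ∈ G ⊓ MulAction.stabilizer (Equiv.Perm α) (q 2)
  hnorm : ∀ i : ℕ, 2 ≤ i → i + 1 ≤ t → ∀ g ∈ G ⊓ MulAction.stabilizer (Equiv.Perm α) (q 2),
    s i * g * (s i)⁻¹ ∈ G ⊓ MulAction.stabilizer (Equiv.Perm α) (q 2)

/-- The chain `G_1 = G_{q 2} ≤ G_2 = G ≤ G_3 ≤ …`. -/
def wittChain {α : Type*} (q : ℕ → α) (G : Subgroup (Equiv.Perm α)) (s : ℕ → Equiv.Perm α) (i : ℕ) :
    Subgroup (Equiv.Perm α) :=
  Subgroup.closure (((G ⊓ MulAction.stabilizer (Equiv.Perm α) (q 2) : Subgroup (Equiv.Perm α)) :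
    Set (Equiv.Perm α)) ∪ {x | ∃ j : ℕ, 1 ≤ j ∧ j + 1 ≤ i ∧ x = s j})

namespace WittData

variable {α : Type*} {t : ℕ} {q : ℕ → α} {G : Subgroup (Equiv.Perm α)} {s : ℕ → Equiv.Perm α}

theorem base_le (i : ℕ) : G ⊓ MulAction.stabilizer (Equiv.Perm α) (q 2) ≤ wittChain q G s i :=
  fun _ hx => Subgroup.subset_closure (Or.inl hx)

theorem s_mem {i j : ℕ} (h1 : 1 ≤ j) (h2 : j + 1 ≤ i) : s j ∈ wittChain q G s i :=
  Subgroup.subset_closure (Or.inr ⟨j, h1, h2, rfl⟩)

theorem mono {i j : ℕ} (h : i ≤ j) : wittChain q G s i ≤ wittChain q G s j := by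
  refine Subgroup.closure_mono (Set.union_subset_union_right _ ?_)
  rintro x ⟨k, h1, h2, rfl⟩
  exact ⟨k, h1, by omega, rfl⟩

theorem chain_le {i : ℕ} {K : Subgroup (Equiv.Perm α)} (h1 : G ⊓ MulAction.stabilizer (Equiv.Perm α) (q 2) ≤ K)
    (h2 : ∀ j, 1 ≤ j → j + 1 ≤ i → s j ∈ K) : wittChain q G s i ≤ K := by
  rw [wittChain, Subgroup.closure_le]
  rintro x (hx | ⟨j, hj1, hj2, rfl⟩)
  · exact h1 hx
  · exact h2 j hj1 hj2

theorem chain_one : wittChain q G s 1 = G ⊓ MulAction.stabilizer (Equiv.Perm α) (q 2) :=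
  le_antisymm (chain_le le_rfl fun j h1 h2 => by omega) (base_le 1)

variable (h : WittData t q G s)
include h

theorem fixes {i k : ℕ} (hi : 1 ≤ i) (hk : i + 1 ≤ k) (hkt : k ≤ t) {g : Equiv.Perm α}
    (hg : g ∈ wittChain q G s i) : g (q k) = q k := by
  have : wittChain q G s i ≤ MulAction.stabilizer (Equiv.Perm α) (q k) := by
    refine chain_le (fun x hx => ?_) (fun j h1 h2 => ?_)
    · rcases Nat.lt_or_ge k 3 with h3 | h3
      · obtain rfl : k = 2 := by omega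
        exact hx.2
      · exact h.hfix x hx.1 k h3 hkt
    · rcases Nat.lt_or_ge j 2 with h3 | h3
      · obtain rfl : j = 1 := by omega
        exact h.hfix _ h.hs1 k (by omega) hkt
      · exact (h.hsq j h3 (by omega)).2.2 k (by omega) hkt (by omega) (by omega)
  exact this hg

theorem swap {i : ℕ} (hi : 1 ≤ i) (hit : i + 1 ≤ t) : s i (q i) = q (i + 1) ∧ s i (q (i + 1)) = q i := by
  rcases Nat.lt_or_ge i 2 with h3 | h3
  · obtain rfl : i = 1 := by omega
    exact h.hs1q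
  · exact ⟨(h.hsq i h3 hit).1, (h.hsq i h3 hit).2.1⟩

theorem base_dc {g : Equiv.Perm α} (hg : g ∈ G) : g ∈ wittChain q G s 1 ∨
    ∃ a ∈ wittChain q G s 1, ∃ b ∈ wittChain q G s 1, g = a * s 1 * b := by
  rw [chain_one]
  by_cases h1 : g (q 2) = q 2
  · exact Or.inl ⟨hg, h1⟩
  · right
    have ht := h.ht
    have h12 : q 1 ≠ q 2 := fun e => by have := h.hq 1 2 le_rfl (by omega) (by omega) ht e; omega
    obtain ⟨a, ha, ha1, ha2⟩ := h.h2 (q 1) (q 2) (g (q 2)) (q 2) (fun i h3 hi => by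
      have e2 : q 2 ≠ q i := fun e => by have := h.hq 2 i (by omega) ht (by omega) hi e; omega
      refine ⟨fun e => by have := h.hq 1 i le_rfl (by omega) (by omega) hi e; omega, e2, fun e => ?_, e2⟩
      rw [← h.hfix g hg i h3 hi] at e
      exact e2 (g.injective e)) h12 h1
    refine ⟨a, ⟨ha, ha2⟩, (s 1)⁻¹ * a⁻¹ * g, ⟨G.mul_mem (G.mul_mem (G.inv_mem h.hs1) (G.inv_mem ha)) hg, ?_⟩,
      by group⟩
    show ((s 1)⁻¹ * a⁻¹ * g) (q 2) = q 2
    rw [Equiv.Perm.mul_apply, Equiv.Perm.mul_apply, ← ha1, Equiv.Perm.inv_eq_iff_eq, h.hs1q.2]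
    simp

theorem chain_two : wittChain q G s 2 = G := by
  refine le_antisymm (chain_le inf_le_left fun j h1 h2 => ?_) fun g hg => ?_
  · obtain rfl : j = 1 := by omega
    exact h.hs1
  · rcases h.base_dc hg with h1 | ⟨a, ha, b, hb, rfl⟩
    · exact mono (by omega) h1
    · exact mul_mem (mul_mem (mono (by omega) ha) (s_mem le_rfl le_rfl)) (mono (by omega) hb)

theorem sq_mem {i : ℕ} (hi : 1 ≤ i) (hit : i + 1 ≤ t) (j : ℕ) : s i * s i ∈ wittChain q G s j := by
  have := base_le (s := s) j (h.hsq2 i hi hit)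
  rwa [pow_two] at this

theorem conj_mem {i : ℕ} (hi : 1 ≤ i) (hit : i + 2 ≤ t) {g : Equiv.Perm α} (hg : g ∈ wittChain q G s i) :
    s (i + 1) * g * (s (i + 1))⁻¹ ∈ wittChain q G s i := by
  have : wittChain q G s i ≤ (wittChain q G s i).comap (MulAut.conj (s (i + 1))).toMonoidHom := by
    refine chain_le (fun x hx => ?_) (fun j h1 h2 => ?_)
    · exact base_le i (h.hnorm (i + 1) (by omega) hit x hx)
    · have h3 := base_le (s := s) i (h.hcomm j (i + 1) h1 (by omega) hit)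
      have h4 := h.sq_mem (i := i + 1) (by omega) hit i
      have h5 := s_mem (q := q) (G := G) (s := s) h1 h2
      show s (i + 1) * s j * (s (i + 1))⁻¹ ∈ wittChain q G s i
      have e : s (i + 1) * s j * (s (i + 1))⁻¹ =
          (s (i + 1) * s j) ^ 2 * (s j)⁻¹ * (s (i + 1) * s (i + 1))⁻¹ := by rw [pow_two]; group
      rw [e]
      exact mul_mem (mul_mem h3 (inv_mem h5)) (inv_mem h4)
  exact this hg

theorem conj_inv_mem {i : ℕ} (hi : 1 ≤ i) (hit : i + 2 ≤ t) {g : Equiv.Perm α} (hg : g ∈ wittChain q G s i) :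
    (s (i + 1))⁻¹ * g * s (i + 1) ∈ wittChain q G s i := by
  have h4 := h.sq_mem (i := i + 1) (by omega) hit i
  have e : (s (i + 1))⁻¹ * g * s (i + 1) =
      (s (i + 1) * s (i + 1))⁻¹ * (s (i + 1) * g * (s (i + 1))⁻¹) * (s (i + 1) * s (i + 1)) := by group
  rw [e]
  exact mul_mem (mul_mem (inv_mem h4) (h.conj_mem hi hit hg)) h4

theorem dc (i : ℕ) (hi : 1 ≤ i) (hit : i + 1 ≤ t) : ∀ g ∈ wittChain q G s (i + 1), g ∈ wittChain q G s i ∨
    ∃ a ∈ wittChain q G s i, ∃ b ∈ wittChain q G s i, g = a * s i * b := by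
  induction i, hi using Nat.le_induction with
  | base => intro g hg; rw [h.chain_two] at hg; exact h.base_dc hg
  | succ i hi ih =>
    have ih := ih (by omega)
    set L := wittChain q G s (i + 1) with hL
    set σ := s (i + 1) with hσ
    have hLi : wittChain q G s i ≤ L := mono (by omega)
    have hsq : σ * σ ∈ L := h.sq_mem (by omega) hit _
    have hsi : s i ∈ L := s_mem hi le_rfl
    have key : ∀ g ∈ L, σ * g * σ ∈ L ∨ ∃ a ∈ L, ∃ b ∈ L, σ * g * σ = a * σ * b := by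
      intro g hg
      rcases ih g hg with h1 | ⟨a, ha, b, hb, rfl⟩
      · left
        have e : σ * g * σ = (σ * g * σ⁻¹) * (σ * σ) := by group
        rw [e]
        exact mul_mem (hLi (h.conj_mem hi hit h1)) hsq
      · right
        have h3 : (s i * σ) ^ 3 ∈ L := base_le _ (h.hbraid i hi hit)
        refine ⟨(σ * a * σ⁻¹) * ((s i)⁻¹ * (s i * σ) ^ 3 * (σ * σ)⁻¹), ?_, (s i)⁻¹ * (σ⁻¹ * b * σ), ?_, ?_⟩
        · exact mul_mem (hLi (h.conj_mem hi hit ha)) (mul_mem (mul_mem (inv_mem hsi) h3) (inv_mem hsq))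
        · exact mul_mem (inv_mem hsi) (hLi (h.conj_inv_mem hi hit hb))
        · rw [pow_three]; group
    let S : Subgroup (Equiv.Perm α) :=
      { carrier := {g | g ∈ L ∨ ∃ a ∈ L, ∃ b ∈ L, g = a * σ * b}
        one_mem' := Or.inl L.one_mem
        mul_mem' := by
          rintro x y (hx | ⟨a, ha, b, hb, rfl⟩) (hy | ⟨c, hc, d, hd, rfl⟩)
          · exact Or.inl (mul_mem hx hy)
          · exact Or.inr ⟨x * c, mul_mem hx hc, d, hd, by group⟩
          · exact Or.inr ⟨a, ha, b * y, mul_mem hb hy, by group⟩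
          · rcases key (b * c) (mul_mem hb hc) with h1 | ⟨e, he, f, hf, h1⟩
            · left
              have e : a * σ * b * (c * σ * d) = a * (σ * (b * c) * σ) * d := by group
              rw [e]
              exact mul_mem (mul_mem ha h1) hd
            · right
              refine ⟨a * e, mul_mem ha he, f * d, mul_mem hf hd, ?_⟩
              have e : a * σ * b * (c * σ * d) = a * (σ * (b * c) * σ) * d := by group
              rw [e, h1]; group
        inv_mem' := by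
          rintro x (hx | ⟨a, ha, b, hb, rfl⟩)
          · exact Or.inl (inv_mem hx)
          · exact Or.inr ⟨b⁻¹ * (σ * σ)⁻¹, mul_mem (inv_mem hb) (inv_mem hsq), a⁻¹, inv_mem ha, by group⟩ }
    have : wittChain q G s (i + 1 + 1) ≤ S := by
      refine chain_le (fun x hx => Or.inl (base_le _ hx)) (fun j h1 h2 => ?_)
      rcases Nat.lt_or_ge j (i + 1) with h3 | h3
      · exact Or.inl (s_mem h1 h3)
      · obtain rfl : j = i + 1 := by omega
        exact Or.inr ⟨1, L.one_mem, 1, L.one_mem, by simp [hσ]⟩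
    intro g hg
    exact this hg

/-- The stabiliser of `q (i + 1)` in `G_{i+1}` is `G_i`. -/
theorem stabilizer_eq (i : ℕ) (hi : 1 ≤ i) (hit : i + 1 ≤ t) :
    wittChain q G s (i + 1) ⊓ MulAction.stabilizer (Equiv.Perm α) (q (i + 1)) = wittChain q G s i := by
  refine le_antisymm ?_ (le_inf (mono (by omega)) fun g hg => h.fixes hi le_rfl hit hg)
  rintro g ⟨hg, hg'⟩
  rcases h.dc i hi hit g hg with h1 | ⟨a, ha, b, hb, rfl⟩
  · exact h1
  · exfalso
    have e : (a * s i * b) (q (i + 1)) = q (i + 1) := hg'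
    rw [Equiv.Perm.mul_apply, Equiv.Perm.mul_apply, h.fixes hi le_rfl hit hb, (h.swap hi hit).2,
      ← h.fixes hi le_rfl hit ha] at e
    have := h.hq i (i + 1) hi (by omega) (by omega) hit (a.injective e)
    omega

theorem mem_of_fixes (i : ℕ) (hi : 1 ≤ i) (j : ℕ) (hij : i ≤ j) (hj : j ≤ t) {g : Equiv.Perm α}
    (hg : g ∈ wittChain q G s j) (hf : ∀ k, i + 1 ≤ k → k ≤ j → g (q k) = q k) : g ∈ wittChain q G s i := by
  induction j, hij using Nat.le_induction with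
  | base => exact hg
  | succ j hij ih =>
    refine ih (by omega) ?_ fun k h1 h2 => hf k h1 (by omega)
    rw [← h.stabilizer_eq j (by omega) hj]
    exact ⟨hg, hf _ (by omega) le_rfl⟩

theorem trans_one (i : ℕ) (hi : 1 ≤ i) (hit : i ≤ t) (a : α) (ha : ∀ k, i + 1 ≤ k → k ≤ t → a ≠ q k) :
    ∃ g ∈ wittChain q G s i, g a = q 1 := by
  have ht := h.ht
  induction i, hi using Nat.le_induction generalizing a with
  | base =>
    obtain ⟨g, hg, h1, h2⟩ := h.h2 a (q 2) (q 1) (q 2) (fun i h3 hi => by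
      have e2 : q 2 ≠ q i := fun e => by have := h.hq 2 i (by omega) ht (by omega) hi e; omega
      exact ⟨ha i (by omega) hi, e2, fun e => by have := h.hq 1 i le_rfl (by omega) (by omega) hi e; omega, e2⟩)
      (ha 2 le_rfl ht) (fun e => by have := h.hq 1 2 le_rfl (by omega) (by omega) ht e; omega)
    exact ⟨g, base_le 1 ⟨hg, h2⟩, h1⟩
  | succ i hi ih =>
    by_cases h1 : a = q (i + 1)
    · obtain ⟨g, hg, h2⟩ := ih (by omega) (q i) fun k h2 h3 e => by
        have := h.hq i k hi (by omega) (by omega) h3 e; omega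
      refine ⟨g * s i, mul_mem (mono (by omega) hg) (s_mem hi le_rfl), ?_⟩
      rw [Equiv.Perm.mul_apply, h1, (h.swap hi hit).2, h2]
    · obtain ⟨g, hg, h2⟩ := ih (by omega) a fun k h2 h3 => by
        rcases Nat.lt_or_ge (i + 1) k with h4 | h4
        · exact ha k h4 h3
        · obtain rfl : k = i + 1 := by omega
          exact h1
      exact ⟨g, mono (by omega) hg, h2⟩

theorem trans_tuple (i : ℕ) (hi : 1 ≤ i) (hit : i ≤ t) (x y : Fin i → α) (hx : Function.Injective x)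
    (hy : Function.Injective y) (hxq : ∀ m k, i + 1 ≤ k → k ≤ t → x m ≠ q k)
    (hyq : ∀ m k, i + 1 ≤ k → k ≤ t → y m ≠ q k) : ∃ g ∈ wittChain q G s i, ∀ m, g (x m) = y m := by
  induction i, hi using Nat.le_induction with
  | base =>
    obtain ⟨a, ha, h1⟩ := h.trans_one 1 le_rfl hit (x 0) (hxq 0)
    obtain ⟨b, hb, h2⟩ := h.trans_one 1 le_rfl hit (y 0) (hyq 0)
    refine ⟨b⁻¹ * a, mul_mem (inv_mem hb) ha, fun m => ?_⟩
    obtain rfl : m = 0 := Subsingleton.elim _ _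
    rw [Equiv.Perm.mul_apply, h1, Equiv.Perm.inv_eq_iff_eq, h2]
  | succ i hi ih =>
    have move : ∀ z : Fin (i + 1) → α, (∀ m k, i + 1 + 1 ≤ k → k ≤ t → z m ≠ q k) →
        ∃ a ∈ wittChain q G s (i + 1), a (z 0) = q (i + 1) := by
      intro z hz
      obtain ⟨a, ha, h1⟩ := h.trans_one (i + 1) (by omega) hit (z 0) (hz 0)
      obtain ⟨b, hb, h2⟩ := h.trans_one (i + 1) (by omega) hit (q (i + 1)) fun k h2 h3 e => by
        have := h.hq (i + 1) k (by omega) hit (by omega) h3 e; omega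
      refine ⟨b⁻¹ * a, mul_mem (inv_mem hb) ha, ?_⟩
      rw [Equiv.Perm.mul_apply, h1, Equiv.Perm.inv_eq_iff_eq, h2]
    have avoid : ∀ z : Fin (i + 1) → α, Function.Injective z → (∀ m k, i + 1 + 1 ≤ k → k ≤ t → z m ≠ q k) →
        ∀ a ∈ wittChain q G s (i + 1), a (z 0) = q (i + 1) →
        ∀ (m : Fin i) k, i + 1 ≤ k → k ≤ t → a (z m.succ) ≠ q k := by
      intro z hz hzq a ha h1 m k h2 h3 e
      rcases Nat.lt_or_ge (i + 1) k with h4 | h4
      · rw [← h.fixes (by omega) h4 h3 ha] at e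
        exact hzq _ k h4 h3 (a.injective e)
      · obtain rfl : k = i + 1 := by omega
        rw [← h1] at e
        exact Fin.succ_ne_zero m (hz (a.injective e))
    obtain ⟨a, ha, h1⟩ := move x hxq
    obtain ⟨b, hb, h2⟩ := move y hyq
    obtain ⟨g, hg, h3⟩ := ih (by omega) (fun m => a (x m.succ)) (fun m => b (y m.succ))
      (fun m n e => Fin.succ_injective _ (hx (a.injective e)))
      (fun m n e => Fin.succ_injective _ (hy (b.injective e)))
      (avoid x hx hxq a ha h1) (avoid y hy hyq b hb h2)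
    refine ⟨b⁻¹ * g * a, mul_mem (mul_mem (inv_mem hb) (mono (by omega) hg)) ha, fun m => ?_⟩
    rw [Equiv.Perm.mul_apply, Equiv.Perm.mul_apply, Equiv.Perm.inv_eq_iff_eq]
    refine Fin.cases ?_ (fun m => h3 m) m
    rw [h1, h2, h.fixes hi le_rfl hit hg]

theorem isMultiplyPretransitive : MulAction.IsMultiplyPretransitive (wittChain q G s t) α t := by
  refine ⟨fun x y => ?_⟩
  obtain ⟨g, hg, h1⟩ := h.trans_tuple t (by have := h.ht; omega) le_rfl x y x.injective y.injective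
    (fun m k h1 h2 => by omega) (fun m k h1 h2 => by omega)
  exact ⟨⟨g, hg⟩, Function.Embedding.ext fun m => h1 m⟩

theorem chain_eq_closure (i : ℕ) (hi : 2 ≤ i) : wittChain q G s i =
    Subgroup.closure ((G : Set (Equiv.Perm α)) ∪ {x | ∃ j : ℕ, 2 ≤ j ∧ j + 1 ≤ i ∧ x = s j}) := by
  refine le_antisymm (chain_le (fun x hx => Subgroup.subset_closure (Or.inl hx.1)) fun j h1 h2 => ?_) ?_
  · rcases Nat.lt_or_ge j 2 with h3 | h3
    · obtain rfl : j = 1 := by omega
      exact Subgroup.subset_closure (Or.inl h.hs1)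
    · exact Subgroup.subset_closure (Or.inr ⟨j, h3, h2, rfl⟩)
  · rw [Subgroup.closure_le]
    rintro x (hx | ⟨j, h1, h2, rfl⟩)
    · rw [← h.chain_two] at hx
      exact mono hi hx
    · exact s_mem (by omega) h2

end WittData

end CL.Perm
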